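import Mathlib
import Cfsg.Statements.S0972
import Cfsg.Agent.Block.Quot3

set_option autoImplicit false
open Cfsg

namespace Cfsg.Agent.S0972

open Cfsg.Agent.Block Cfsg.Agent.Char Subgroup

/-- Let B be a block of the finite group G (relative to a maximal ideal M of the algebraic integers containing the prime p) with a defect group P that is normal in G. Then P is commutative if and only if every member of B has height zero. -/
theorem result {G : Type*} [Group G] [Finite G] (p : ℕ) [Fact p.Prime] (M : Ideal Cfsg.AlgInt) (hM : Cfsg.IsPModular p M) (B : Set (Cfsg.IrrCharacter G)) (hB : Cfsg.IsPBlock M B) (P : Subgroup G) [P.Normal] (hP : Cfsg.IsDefectGroup p M B P) : (∀ a ∈ P, ∀ c ∈ P, a * c = c * a) ↔ ∀ χ ∈ B, Cfsg.blockHeight p B (χ : G → ℂ) = 0 := by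
  obtain ⟨d, rfl, hd⟩ := exists_isMaxBP hM hB hP
  have := Fintype.ofFinite (d.1 ⊔ centralizer (d.1 : Set G) : Subgroup G)
  have hE := isPBlock_ovr hM hd.bp (mid_sup d.1)
  have hc := covers_of_induced hM (hd.induced_ovr hM (mid_sup d.1))
  obtain ⟨θ, -, -, Φ, -, hΦ⟩ := exists_equiv_height_of_sup hM hE (hd.defect_ovr hM (mid_sup d.1))
    (subgroupOf_sup_centralizer d.1)
  refine ⟨fun h χ hχ => ?_, fun h a ha c hc' => ?_⟩
  · obtain ⟨ξ, hξ, h1⟩ := hc.exists_under hM hB (isV_blockIdem hM hE) hχ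
    obtain ⟨ζ, h2⟩ := Φ.surjective ⟨ξ, hξ⟩
    have h3 := hΦ ζ
    have : IsMulCommutative (d.1.subgroupOf (d.1 ⊔ centralizer (d.1 : Set G))) :=
      ⟨⟨fun x y => Subtype.ext (Subtype.ext (h _ x.2 _ y.2))⟩⟩
    rw [h2, charDegree_of_eq (n := 1) (by rw [isIrr_degree_one_of_comm ζ.2, Nat.cast_one])] at h3
    rw [hd.height_eq_of_over hM hχ hξ h1, h3, Nat.factorization_one, Finsupp.zero_apply]
  · have h1 := comm_of_forall_irr_degree_one
      (G := d.1.subgroupOf (d.1 ⊔ centralizer (d.1 : Set G))) (fun ζ hζ => ?_)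
      ⟨⟨a, mem_sup_left ha⟩, ha⟩ ⟨⟨c, mem_sup_left hc'⟩, hc'⟩
    · exact congrArg (·.1.1) h1
    obtain ⟨χ, hχ, h2⟩ := hc.exists_over hM (isV_blockIdem hM hB) hE (Φ ⟨ζ, hζ⟩).2
    refine irr_one_eq_one_of_isPGroup hM.1 (isDefectGroup_isPGroup
      (hd.defect_ovr hM (mid_sup d.1))) (ζ := ⟨ζ, hζ⟩) ?_
    rw [← hΦ, ← hd.height_eq_of_over hM hχ (Φ ⟨ζ, hζ⟩).2 h2, h χ hχ]

end Cfsg.Agent.S0972
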