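import Mathlib
import Cfsg.Statements.S3573
import Cfsg.Agent.Perm.PFixed

set_option autoImplicit false
open Cfsg

namespace Cfsg.Agent.S3573

open Equiv Equiv.Perm Finset

theorem build {n r : ℕ} (hr : r.Prime) (σ : Perm (Fin n)) (h : orderOf σ = r) (b : ℕ) (hb : b * r ≤ σ.support.card) :
    ∃ s : Finset (Fin n), s ⊆ σ.support ∧ s.card = b * r ∧ ∀ x, σ x ∈ s ↔ x ∈ s := by
  haveI := Fact.mk hr
  induction b with
  | zero => exact ⟨∅, by simp⟩
  | succ b ih =>
    rw [add_mul, one_mul] at hb ⊢
    obtain ⟨s, h1, h2, h3⟩ := ih (by omega)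
    obtain ⟨x, hx, hxs⟩ := exists_mem_notMem_of_card_lt_card (s := s) (t := σ.support) (by have := hr.pos; omega)
    have hc : (σ.cycleOf x).support.card = r := pow_prime_eq_one_iff.1 (h ▸ pow_orderOf_eq_one σ) _ (by
      rw [cycleType_def]
      exact Multiset.mem_map_of_mem _ (cycleOf_mem_cycleFactorsFinset_iff.2 hx))
    have h4 : ∀ (k : ℕ) y, (σ ^ k) y ∈ s ↔ y ∈ s := fun k y => by
      induction k with
      | zero => simp
      | succ k ih => rw [pow_succ', mul_apply, h3, ih]
    refine ⟨s ∪ (σ.cycleOf x).support, union_subset h1 (support_cycleOf_le σ x), ?_, fun y => ?_⟩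
    · rw [card_union_of_disjoint, h2, hc]
      refine disjoint_left.2 fun y hy hy2 => hxs ?_
      obtain ⟨k, -, rfl⟩ := (mem_support_cycleOf_iff.1 hy2).1.exists_pow_eq'
      exact (h4 k x).1 hy
    · simp only [mem_union, h3, mem_support_cycleOf_iff, sameCycle_apply_right]

theorem main (n k r : ℕ) (hkn : k ≤ n) (hr : r.Prime) (hrd : r ∣ Nat.choose n k) :
    (∀ σ : Equiv.Perm (Fin n), orderOf σ = r → ∃ s : Finset (Fin n), s.card = k ∧ s.image σ = s) ↔
      (r ≤ k ∧ k % r ≤ n % r) := by
  haveI := Fact.mk hr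
  have hsup : ∀ σ : Perm (Fin n), orderOf σ = r → ∃ a, σ.support.card = a * r := fun σ h => by
    have h1 := cycleType_of_pow_prime_eq_one (σ := σ) (p := r) (h ▸ pow_orderOf_eq_one σ)
    exact ⟨_, by rw [← sum_cycleType, h1, Multiset.sum_replicate, smul_eq_mul]⟩
  have hn := Nat.div_add_mod' n r
  have hk := Nat.div_add_mod' k r
  have hn2 := Nat.mod_lt n hr.pos
  have hk2 := Nat.mod_lt k hr.pos
  constructor
  · intro h
    have luc := (Choose.choose_modEq_choose_mod_mul_choose_div_nat (n := n) (k := k) (p := r)).dvd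
    have nd : ∀ a b, b ≤ a → a < r → ¬ r ∣ a.choose b := fun a b h1 h2 h3 => by
      have := (hr.dvd_factorial).1 (h3.trans (Dvd.intro _ (by
        rw [← Nat.choose_mul_factorial_mul_factorial h1, mul_assoc])))
      omega
    have hrn : r ≤ n := by
      by_contra hc
      exact nd n k hkn (by omega) hrd
    obtain ⟨g, hg⟩ := (exists_with_cycleType_iff (Fin n) (m := Multiset.replicate (n / r) r)).2
      ⟨by simp; omega, fun a ha => by rw [Multiset.eq_of_mem_replicate ha]; exact hr.two_le⟩
    have hgo : orderOf g = r := by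
      rw [← lcm_cycleType, hg]
      refine Nat.dvd_antisymm (Multiset.lcm_dvd.2 fun a ha => by rw [Multiset.eq_of_mem_replicate ha])
        (Multiset.dvd_lcm (Multiset.mem_replicate.2 ⟨(Nat.div_pos hrn hr.pos).ne', rfl⟩))
    obtain ⟨s, hs, hs2⟩ := h g hgo
    have h1 := Cfsg.Agent.Perm.ncard_modEq_fixedBy (p := r) (g := g) (k := 1) (by rw [pow_one, ← hgo, pow_orderOf_eq_one])
      (s : Set (Fin n)) (Set.toFinite _) fun x hx => by rw [← hs2]; exact mem_image_of_mem g hx
    have h2 : {x | x ∈ (s : Set (Fin n)) ∧ g • x = x}.ncard ≤ n % r := by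
      have := Set.ncard_le_ncard (show {x | x ∈ (s : Set (Fin n)) ∧ g • x = x} ⊆ ((g.supportᶜ : Finset _) : Set (Fin n))
        from fun x hx => by simpa using hx.2)
      rw [Set.ncard_coe_finset, card_compl, ← sum_cycleType, hg] at this
      simp only [Multiset.sum_replicate, smul_eq_mul, Fintype.card_fin] at this; omega
    rw [Set.ncard_coe_finset, hs, Nat.ModEq, Nat.mod_eq_of_lt (h2.trans_lt hn2)] at h1
    refine ⟨?_, by omega⟩
    by_contra hc
    rw [Nat.div_eq_of_lt (not_le.1 hc), Nat.choose_zero_right, mul_one] at luc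
    refine nd (n % r) (k % r) (by omega) hn2 (Int.natCast_dvd_natCast.1 ?_)
    simpa using dvd_add luc (Int.natCast_dvd_natCast.2 hrd)
  · rintro ⟨-, h2⟩ σ hσ
    obtain ⟨a, ha⟩ := hsup σ hσ
    have h3 : a * r ≤ n := by simpa [ha] using card_le_univ σ.support
    obtain ⟨b, hb1, hb2, hb3⟩ : ∃ b, b * r ≤ a * r ∧ b * r ≤ k ∧ k - b * r ≤ n - a * r := by
      by_cases h : k / r ≤ a
      · refine ⟨k / r, Nat.mul_le_mul_right r h, by omega, ?_⟩
        have := Nat.mul_le_mul_right r ((Nat.le_div_iff_mul_le hr.pos).2 h3)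
        omega
      · have := Nat.mul_le_mul_right r (not_le.1 h).le
        exact ⟨a, le_rfl, by omega, by omega⟩
    obtain ⟨s, h4, h5, h6⟩ := build hr σ hσ b (ha ▸ hb1)
    obtain ⟨t, h7, h8⟩ := exists_subset_card_eq (s := σ.supportᶜ) (n := k - b * r) (by simpa [card_compl, ha] using hb3)
    refine ⟨s ∪ t, ?_, eq_of_subset_of_card_le (fun y hy => ?_) (card_image_of_injective _ σ.injective).ge⟩
    · rw [card_union_of_disjoint (disjoint_left.2 fun y h h' => mem_compl.1 (h7 h') (h4 h)), h5, h8]; omega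
    · obtain ⟨x, hx, rfl⟩ := mem_image.1 hy
      rcases mem_union.1 hx with h | h
      · exact mem_union_left _ ((h6 x).2 h)
      · rw [notMem_support.1 (mem_compl.1 (h7 h))]; exact hx


/-- Let 1 ≤ k with 2k < n and consider the symmetric group of degree n acting on the k-subsets of an n-set. Let r be a prime dividing the number C(n,k) of k-subsets. If r is odd, then every permutation of order r fixes some k-subset if and only if r ≤ k and the remainder of k modulo r is at most the remainder of n modulo r. If r = 2, then every involution fixes some k-subset if and only if k is even or n is odd. -/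
theorem result (n k : ℕ) (hk : 1 ≤ k) (hkn : 2 * k < n) (r : ℕ) (hr : r.Prime) (hrd : r ∣ Nat.choose n k) :
    (r ≠ 2 → ((∀ σ : Equiv.Perm (Fin n), orderOf σ = r → ∃ s : Finset (Fin n), s.card = k ∧ s.image σ = s) ↔
      (r ≤ k ∧ k % r ≤ n % r))) ∧
    (r = 2 → ((∀ σ : Equiv.Perm (Fin n), orderOf σ = 2 → ∃ s : Finset (Fin n), s.card = k ∧ s.image σ = s) ↔
      (Even k ∨ Odd n))) := by
  refine ⟨fun _ => main n k r (by omega) hr hrd, fun e => ?_⟩
  subst e
  rw [main n k 2 (by omega) hr hrd, Nat.even_iff, Nat.odd_iff]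
  refine ⟨by omega, fun h => ⟨?_, by omega⟩⟩
  by_contra hc
  obtain rfl : k = 1 := by omega
  rw [Nat.choose_one_right] at hrd
  omega

end Cfsg.Agent.S3573
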