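import Mathlib
import Cfsg.Statements.S4341
import Cfsg.Agent.FGS.SylowNum

set_option autoImplicit false
open Cfsg

namespace Cfsg.Agent.S4341

open Subgroup

/-- Let K be a normal subgroup of a finite group G, p a prime and P a Sylow p-subgroup of G; let N be the normalizer of P ∩ K inside the subgroup PK. Then the number of Sylow p-subgroups of G equals the product of the numbers of Sylow p-subgroups of G/K, of K, and of N/(P ∩ K). (The normality of P ∩ K in N, which always holds, is assumed as a hypothesis so that the quotient can be formed.) -/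
theorem result {G : Type*} [Group G] [Finite G]
    (p : ℕ) [Fact p.Prime] (K : Subgroup G) [K.Normal] (P : Sylow p G) (N : Subgroup G)
    (hN : N = ((P : Subgroup G) ⊔ K) ⊓ Subgroup.normalizer (((P : Subgroup G) ⊓ K : Subgroup G) : Set G))
    [hn : (((P : Subgroup G) ⊓ K).subgroupOf N).Normal] :
    Nat.card (Sylow p G) =
      Nat.card (Sylow p (G ⧸ K)) * Nat.card (Sylow p K) * Nat.card (Sylow p (N ⧸ ((P : Subgroup G) ⊓ K).subgroupOf N)) := by
  set Q : Subgroup G := (P : Subgroup G) ⊓ K with hQ
  have hPQ : normalizer ((P : Subgroup G) : Set G) ≤ normalizer (Q : Set G) :=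
    Core.le_normalizer_inf le_rfl le_normalizer_of_normal
  have hPN : (P : Subgroup G) ≤ N := hN ▸ le_inf le_sup_left (le_normalizer.trans hPQ)
  have h1 : Nat.card (Sylow p (N ⧸ Q.subgroupOf N)) =
      (normalizer ((P : Subgroup G) : Set G)).relIndex N := by
    rw [FGS.card_sylow_quotient_of_le (P.subtype hPN), FGS.card_sylow_of_le P hPN]
    exact (comap_mono inf_le_left).trans le_normalizer
  have h2 : N = (P : Subgroup G) ⊔ (K ⊓ normalizer (Q : Set G)) := by
    rw [hN, FGS.sup_inf_of_le_normalizer le_normalizer_of_normal (le_normalizer.trans hPQ)]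
  rw [h1, FGS.card_sylow_eq_quotient_mul P K, mul_assoc,
    FGS.card_sylow_of_isSylowOf (Core.isSylowOf_sylow_inf_normal P K)]
  rw [h2, FGS.relIndex_sup_of_le (Core.le_normalizer_inf le_normalizer_of_normal
    ((le_normalizer.trans hPQ).trans le_normalizer)) le_normalizer, mul_comm (relIndex _ K), inf_comm K,
    relIndex_inf_mul_relIndex, inf_eq_left.mpr hPQ]

end Cfsg.Agent.S4341
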