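import Mathlib
import Cfsg.Statements.S1949
import Cfsg.Agent.Transfer.OmegaFus
import Cfsg.Agent.PLocal.Stable
import Cfsg.Agent.LocalEven.Resid

set_option autoImplicit false
open Cfsg

namespace Cfsg.Agent.S1949

open Subgroup in
theorem crit {G : Type*} [Group G] [Finite G] {p : ℕ} [Fact p.Prime] (hG : IsPGroup p G) :
    ∃ H : Subgroup G, H.Characteristic ∧ (∀ x ∈ H, x ^ p = 1 ∨ (p = 2 ∧ x ^ 4 = 1)) ∧
      ⁅H, (⊤ : Subgroup G)⁆ ≤ centralizer (H : Set G) ∧
      ∀ a : MulAut G, (orderOf a).Coprime p → (∀ x ∈ H, a x = x) → a = 1 := by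
  by_cases hp : p = 2
  swap
  · obtain ⟨H, h1, h2, h4, -, -, h3⟩ := PGrp.exists_critical_odd hp hG
    exact ⟨H, h1, fun x hx => Or.inl (h2 x hx), h4.trans inf_le_right, h3⟩
  subst hp
  obtain ⟨C, hc, h1, h2, h3⟩ := PGrp.exists_critical hG
  have h4 := PGrp.class_two_of_commutator_top_le (h2.trans inf_le_right)
  have hH := PGrp.omegaOne_characteristic (p := 4) C
  have hpow : ∀ x ∈ C, ∀ y ∈ C, (x * y) ^ 4 = x ^ 4 * y ^ 4 := by
    intro x hx y hy
    rw [PGrp.mul_pow_of_commute (PGrp.commute_of_class_two h4 hy hx hx)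
      (PGrp.commute_of_class_two h4 hy hx hy),
      PGrp.pow_eq_one_of_dvd (PGrp.pow_eq_one_of_mem_commutator h4 h1
        (commutator_mem_commutator hy hx)) (by decide), mul_one]
  refine ⟨omegaOne 4 C, hH, fun x hx => Or.inr ⟨rfl, PGrp.pow_eq_one_of_mem_omegaOne
    (fun x hx y hy hx4 hy4 => by rw [hpow x hx y hy, hx4, hy4, one_mul]) hx⟩,
    ((commutator_mono PGrp.omegaOne_le le_rfl).trans (h2.trans inf_le_right)).trans
      (centralizer_le (by exact fun _ hx => PGrp.omegaOne_le hx)), fun a ha h => ?_⟩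
  refine PGrp.aut_eq_one_of_centralizer_le hG h3 ha ?_
  have hC4 : IsPGroup 4 C := by
    intro x
    obtain ⟨k, hk⟩ := hG.to_subgroup C x
    refine ⟨k, PGrp.pow_eq_one_of_dvd hk (pow_dvd_pow_of_dvd (by decide) k)⟩
  exact PGrp.aut_fix_of_mul_pow hC4 hpow
    (fun x hx => PGrp.apply_mem_of_characteristic hc a hx) (ha.pow_right 2)
    fun x hx hxp => h x (PGrp.mem_omegaOne hx hxp)

/-- Let P be a finite p-group and G a group of automorphisms of P containing the inner automorphisms. Then there is a G-invariant subgroup D of P, contained in the subgroup generated by the elements x⁻¹α(x) with x in P and α in O^p(G), of exponent dividing p when p is odd and dividing 4 when p = 2, with [D, P] ≤ Z(D), such that every automorphism in G of order prime to p that fixes D elementwise is the identity; moreover every maximal abelian subgroup A of D is normal in P and every automorphism in G fixing A elementwise has p-power order. -/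
theorem result {P : Type*} [Group P] [Finite P] {p : ℕ} [Fact p.Prime] (hP : IsPGroup p P)
    (G : Subgroup (MulAut P)) (hG : Cfsg.Inn P ≤ G) :
    ∃ D : Subgroup P,
      (∀ α ∈ G, D.map α.toMonoidHom = D) ∧
      D ≤ Subgroup.closure {y : P | ∃ α ∈ Cfsg.pResidual p ↥G, ∃ x : P, y = x⁻¹ * (α : MulAut P) x} ∧
      (∀ d ∈ D, d ^ p = 1 ∨ (p = 2 ∧ d ^ 4 = 1)) ∧
      ⁅D, (⊤ : Subgroup P)⁆ ≤ D ⊓ Subgroup.centralizer (D : Set P) ∧
      (∀ α ∈ G, (orderOf α).Coprime p → (∀ d ∈ D, α d = d) → α = 1) ∧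
      ∀ A : Subgroup P, A ≤ D → IsMulCommutative ↥A →
        (∀ B : Subgroup P, A ≤ B → B ≤ D → IsMulCommutative ↥B → B = A) →
        A.Normal ∧ ∀ α ∈ G, (∀ a ∈ A, α a = a) → ∃ k : ℕ, orderOf α = p ^ k := by
  obtain ⟨H, h1, h2, h3, h4⟩ := crit hP
  set Q := Subgroup.closure {y : P | ∃ α ∈ Cfsg.pResidual p ↥G, ∃ x : P, y = x⁻¹ * (α : MulAut P) x}
  have q1 : ∀ α ∈ G, ∀ y ∈ Q, α y ∈ Q := fun α hα => (Subgroup.closure_le (Q.comap α.toMonoidHom)).2 (by
    rintro _ ⟨β, hβ, x, rfl⟩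
    exact Subgroup.subset_closure ⟨⟨α, hα⟩ * β * ⟨α, hα⟩⁻¹, (LocalEven.pResOf_top (p := p) (G := G) ▸
      LocalEven.pResOf_normal ⊤).conj_mem β hβ _, α x, by simp⟩)
  have d1 : ∀ α ∈ G, ∀ y ∈ H ⊓ Q, α y ∈ H ⊓ Q := fun α hα y hy =>
    ⟨PGrp.apply_mem_of_characteristic h1 α hy.1, q1 α hα y hy.2⟩
  have dn : (H ⊓ Q).Normal := ⟨fun y hy g => d1 (MulAut.conj g) (hG ⟨g, rfl⟩) y hy⟩
  have d2 : ⁅H ⊓ Q, (⊤ : Subgroup P)⁆ ≤ H ⊓ Q ⊓ Subgroup.centralizer ((H ⊓ Q : Subgroup P) : Set P) :=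
    le_inf (Subgroup.commutator_le_left _ _) (((Subgroup.commutator_mono inf_le_left le_rfl).trans h3).trans
      (Subgroup.centralizer_le (by exact fun _ hx => hx.1)))
  have d3 : ∀ α ∈ G, (orderOf α).Coprime p → (∀ d ∈ H ⊓ Q, α d = d) → α = 1 := fun α hα a1 a2 =>
    h4 α a1 fun x hx => PGrp.aut_apply_eq_of_eq_mul (c := x⁻¹ * α x) (by group) (a2 _ (Subgroup.mem_inf.2 ⟨mul_mem (inv_mem hx)
      (PGrp.apply_mem_of_characteristic h1 α hx), Subgroup.subset_closure ⟨⟨α, hα⟩,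
        Subgroup.subset_closure (by rwa [Set.mem_setOf_eq, ← Subgroup.orderOf_coe]), x, rfl⟩⟩))
      (PGrp.coprime_orderOf_of_isPGroup hP a1 _)
  refine ⟨H ⊓ Q, fun α hα => LocalEven.eq_of_le_of_card_le (Subgroup.map_le_iff_le_comap.2 (d1 α hα))
    (Subgroup.card_map_of_injective α.injective).ge, inf_le_right, fun d hd => h2 d hd.1, d2, d3,
    fun A a1 a2 a3 => ?_⟩
  have a4 : ∀ x ∈ H ⊓ Q, x ∈ Subgroup.centralizer (A : Set P) → x ∈ A := fun x x1 x2 =>
    (a3 (A ⊔ Subgroup.zpowers x) le_sup_left (sup_le a1 (Subgroup.zpowers_le.2 x1))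
      (Subgroup.le_centralizer_iff_isMulCommutative.1 (by
        rw [LocalEven.centralizer_sup', LocalEven.centralizer_zpowers]
        exact sup_le (le_inf (Subgroup.le_centralizer A) fun a ha =>
          LocalEven.mem_centralizer_singleton.2 (x2 a ha).symm) (Subgroup.zpowers_le.2
            ⟨x2, LocalEven.mem_centralizer_singleton.2 rfl⟩)))).le
      (Subgroup.mem_sup_right (Subgroup.mem_zpowers x))
  have an : A.Normal := ⟨fun a ha g => by
    have := d2 (Subgroup.commutator_mem_commutator (a1 ha) (Subgroup.mem_top g))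
    simpa [commutatorElement_def, mul_assoc] using mul_mem (inv_mem (a4 _ this.1
      (Subgroup.centralizer_le a1 this.2))) ha⟩
  refine ⟨an, fun α hα a5 => ?_⟩
  obtain ⟨k, hk⟩ := PLocal.exists_pow_coprime_orderOf (p := p) α
  have a6 : ∀ a ∈ A, (α ^ p ^ k) a = a := fun a ha => by
    generalize p ^ k = m
    induction m with
    | zero => rfl
    | succ m ih => rw [pow_succ, MulAut.mul_apply, a5 a ha, ih]
  have a7 := d3 _ (pow_mem hα _) hk fun d hd => PGrp.aut_apply_eq_of_eq_mul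
    (c := d⁻¹ * (α ^ p ^ k) d) (by group) (a6 _ (a4 _ (mul_mem (inv_mem hd) (d1 _ (pow_mem hα _) d hd))
      fun a ha => by
        have := a6 _ (an.conj_mem a ha d)
        rw [map_mul, map_mul, a6 a ha, map_inv] at this
        calc a * (d⁻¹ * (α ^ p ^ k) d) = d⁻¹ * (d * a * d⁻¹) * (α ^ p ^ k) d := by group
          _ = _ := by rw [← this]; group)) (PGrp.coprime_orderOf_of_isPGroup hP hk _)
  obtain ⟨j, -, hj⟩ := (Nat.dvd_prime_pow Fact.out).1 (orderOf_dvd_of_pow_eq_one a7)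
  exact ⟨j, hj⟩

end Cfsg.Agent.S1949
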