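import Mathlib
import Cfsg.Statements.S0904
import Cfsg.Agent.Block.Misc
-- import your own Cfsg.Agent.* helpers here

set_option autoImplicit false
open Cfsg

namespace Cfsg.Agent.S0904

open Cfsg.Agent.Block Cfsg.Agent.Char in
theorem aux {G : Type*} [Group G] [Finite G] [IsSimpleGroup G] (hna : ∃ x y : G, x * y ≠ y * x)
    {p q r : ℕ} (hp : p.Prime) (hq : q.Prime) (hr : r.Prime)
    (h : ∀ s : ℕ, s.Prime → s ∣ Nat.card G → s = p ∨ s = q ∨ s = r)
    (h1 : (Nat.card G).factorization r ≤ 1) {g : G} (h2 : p ∣ orderOf g) (h3 : r ∣ orderOf g) :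
    False := by
  classical
  obtain ⟨M, hM⟩ := exists_isPModular hp
  obtain ⟨M', hM'⟩ := exists_isPModular hq
  obtain ⟨M'', hM''⟩ := exists_isPModular hr
  have h4 := weak_block_orth hM (isV_blockIdem hM (isPBlock_principalBlock (G := G))) (x := 1)
    (by simpa using hp.one_lt.ne') h2
  rw [← Finset.add_sum_erase _ _ (a := oneIrr G) (by simpa using oneIrr_mem_principalBlock hM),
    add_eq_zero_iff_eq_neg] at h4
  have h5 := congrArg (val M') h4
  simp only [coe_oneIrr, map_one, mul_one, Valuation.map_neg] at h5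
  refine (val_sum_lt_one _ fun χ hχ => ?_).ne' h5
  rw [Finset.mem_erase, Finset.mem_filter] at hχ
  by_cases h6 : q ∣ charDegree χ.1
  · rw [← irr_degree_cast]
    exact val_mul_lt_one_left ((val_natCast_lt_one_iff hM' _).2 h6)
      (mem_V_of_isIntegral _ (isIntegral_conj (isChar_isIntegral (irr_isChar χ) g)))
  by_cases h7 : r ∣ charDegree χ.1
  · rw [char_eq_zero_of_defect_zero hM'' (h1.trans
      ((hr.dvd_iff_one_le_factorization (irr_degree_ne_zero χ)).1 h7)) h3]
    simp
  refine absurd (eq_one_of_degree_pow hna hM hχ.2.2 (Nat.eq_prime_pow_of_unique_prime_dvd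
    (irr_degree_ne_zero χ) fun {s} hs hd => ?_)) hχ.1
  rcases h s hs (hd.trans (irr_degree_dvd χ)) with e | rfl | rfl
  exacts [e, absurd hd h6, absurd hd h7]

open Cfsg.Agent.Block in

/-- Let G be a finite simple group of order p ^ a * q ^ b * r with p, q, r distinct primes. Then every Sylow r-subgroup S of G satisfies C_G(S) = S. -/
theorem result {G : Type*} [Group G] [Finite G] [IsSimpleGroup G] (p q r a b : ℕ) (hp : p.Prime) (hq : q.Prime) [Fact r.Prime] (hpq : p ≠ q) (hpr : p ≠ r) (hqr : q ≠ r) (hcard : Nat.card G = p ^ a * q ^ b * r) (S : Sylow r G) : Subgroup.centralizer (S : Set G) = (S : Subgroup G) := by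
  have hr : r.Prime := Fact.out
  have h0 : (Nat.card G).factorization r = 1 := by
    rw [hcard, Nat.factorization_mul (by have := hp.pos; have := hq.pos; positivity) hr.ne_zero,
      Nat.factorization_mul (by have := hp.pos; positivity) (by have := hq.pos; positivity)]
    simp [hp.factorization, hq.factorization, hr.factorization, hpr, hqr]
  have hS : Nat.card S = r := by rw [S.card_eq_multiplicity, h0, pow_one]
  have hc := isCyclic_of_prime_card hS
  have hle : (S : Subgroup G) ≤ Subgroup.centralizer (S : Set G) := fun x hx =>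
    Subgroup.mem_centralizer_iff.2 fun y hy =>
      congrArg Subtype.val (mul_comm' (⟨y, hy⟩ : (S : Subgroup G)) ⟨x, hx⟩)
  by_cases hna : ∃ x y : G, x * y ≠ y * x
  swap
  · push Not at hna
    rcases IsSimpleGroup.eq_bot_or_eq_top_of_normal (S : Subgroup G)
      ⟨fun n hn g => by rwa [hna g, mul_inv_cancel_right]⟩ with e | e
    · exact absurd (by rw [← hS, e, Subgroup.card_bot]) hr.one_lt.ne'
    · exact le_antisymm (e ▸ le_top) hle
  have hall : ∀ s : ℕ, s.Prime → s ∣ Nat.card G → s = p ∨ s = q ∨ s = r := fun s hs hd => by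
    rw [hcard, hs.dvd_mul, hs.dvd_mul] at hd
    rcases hd with (h | h) | h
    · exact .inl ((Nat.prime_dvd_prime_iff_eq hs hp).1 (hs.dvd_of_dvd_pow h))
    · exact .inr (.inl ((Nat.prime_dvd_prime_iff_eq hs hq).1 (hs.dvd_of_dvd_pow h)))
    · exact .inr (.inr ((Nat.prime_dvd_prime_iff_eq hs hr).1 h))
  refine ((LocalEven.isSylowIn_of_sylow_le S hle).eq_of_isPGroup fun y => ?_).symm
  obtain ⟨x, hx, ho⟩ := LocalEven.exists_mem_orderOf_eq (H := (S : Subgroup G)) (p := r) hS.symm.dvd
  refine ⟨_, (congrArg (y ^ ·) (Nat.eq_prime_pow_of_unique_prime_dvd (orderOf_pos y).ne'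
    fun {s} hs hd => by_contra fun hne => ?_)).symm.trans (pow_orderOf_eq_one y)⟩
  have := Fact.mk hs
  obtain ⟨z, hz⟩ := exists_prime_orderOf_dvd_card' (G := Subgroup.centralizer (S : Set G)) s
    (hd.trans (orderOf_dvd_natCard y))
  rw [← Subgroup.orderOf_coe] at hz
  have h1 : orderOf (x * z) = r * s := by
    rw [Commute.orderOf_mul_eq_mul_orderOf_of_coprime (Subgroup.mem_centralizer_iff.1 z.2 x hx)
      (by rw [ho, hz]; exact (Nat.coprime_primes hr hs).2 (Ne.symm hne)), ho, hz]
  rcases hall s hs (hz ▸ orderOf_dvd_natCard _) with rfl | rfl | e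
  · exact aux hna hp hq hr hall h0.le (g := x * z) (by simp [h1]) (by simp [h1])
  · exact aux hna hq hp hr (fun s hs hd => by have := hall s hs hd; tauto) h0.le (g := x * z)
      (by simp [h1]) (by simp [h1])
  · exact hne e

end Cfsg.Agent.S0904
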