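import Mathlib
import Cfsg.Statements.S1001
import Cfsg.Agent.S0904
import Cfsg.Agent.Char.Central
-- import your own Cfsg.Agent.* helpers here

set_option autoImplicit false
open Cfsg

namespace Cfsg.Agent.S1001

open Subgroup in

/-- In a finite simple group whose order has the form p * 3^a * 2^b with p prime, the centralizer of any element of order p is the cyclic group it generates. -/
theorem result {G : Type*} [Group G] [Finite G] [IsSimpleGroup G] (p a b : ℕ) (hp : p.Prime) (hG : Nat.card G = p * 3 ^ a * 2 ^ b) (x : G) (hx : orderOf x = p) : Subgroup.centralizer ({x} : Set G) = Subgroup.zpowers x := by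
  have := Fact.mk hp
  by_cases h : p = 2 ∨ p = 3
  · have : Group.IsSolvable G := Char.burnside_of_primes Nat.prime_two Nat.prime_three fun r hr e => by
      rw [hG, hr.dvd_mul, hr.dvd_mul] at e
      rcases e with (e | e) | e
      · rwa [(Nat.prime_dvd_prime_iff_eq hr hp).1 e]
      · exact .inr ((Nat.prime_dvd_prime_iff_eq hr Nat.prime_three).1 (hr.dvd_of_dvd_pow e))
      · exact .inl ((Nat.prime_dvd_prime_iff_eq hr Nat.prime_two).1 (hr.dvd_of_dvd_pow e))
    have hc := IsSimpleGroup.comm_iff_isSolvable.2 this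
    have h1 := (IsSimpleGroup.eq_bot_or_eq_top_of_normal (zpowers x)
      ⟨fun n hn g => by rwa [hc g, mul_inv_cancel_right]⟩).resolve_left fun e => by
        rw [zpowers_eq_bot.1 e, orderOf_one] at hx; exact hp.one_lt.ne hx
    exact le_antisymm (h1 ▸ le_top) (zpowers_le.2 (mem_centralizer_singleton_iff.2 rfl))
  rw [not_or] at h
  have h1 : Nat.card (zpowers x) = p := by rw [Nat.card_zpowers, hx]
  have h2 : ¬ p ∣ (zpowers x).index := fun e => by
    have h3 := (zpowers x).card_mul_index
    rw [h1, hG, mul_assoc] at h3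
    rw [Nat.eq_of_mul_eq_mul_left hp.pos h3, hp.dvd_mul] at e
    exact e.elim (fun e => h.2 ((Nat.prime_dvd_prime_iff_eq hp Nat.prime_three).1 (hp.dvd_of_dvd_pow e)))
      fun e => h.1 ((Nat.prime_dvd_prime_iff_eq hp Nat.prime_two).1 (hp.dvd_of_dvd_pow e))
  have := S0904.result 3 2 p a b Nat.prime_three Nat.prime_two (by norm_num) (Ne.symm h.2)
    (Ne.symm h.1) (by rw [hG]; ring) ((IsPGroup.of_card (n := 1) (by rw [h1, pow_one])).toSylow h2)
  rw [← centralizer_closure, ← zpowers_eq_closure]
  exact this

end Cfsg.Agent.S1001
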