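import Mathlib
import Cfsg.Statements.S0868
import Cfsg.Agent.Char.Gallagher
import Cfsg.Agent.Char.BrauerPerm

set_option autoImplicit false
open scoped ComplexConjugate
open Cfsg

namespace Cfsg.Agent.S0868

/-- Let N be a normal subgroup of the finite group G, χ an irreducible character of G whose restriction ϑ to N is irreducible, and ψ an irreducible character of G. Define η on G by η g = (1 / order of N) * Σ over n in N of ψ (n * g) * conj (χ (n * g)). Then: if the restriction of ψ to N has nonzero inner product with ϑ, η is an irreducible character of G; if that inner product is zero, η vanishes identically; and if ψ = χ then η is identically 1. -/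
theorem result {G : Type*} [Group G] [Fintype G] (N : Subgroup G) [N.Normal] [Fintype N] (χ : G → ℂ) (hχ : Cfsg.IsIrrCharacter G χ) (hχN : Cfsg.IsIrrCharacter N (fun n : N => χ n)) (ψ : G → ℂ) (hψ : Cfsg.IsIrrCharacter G ψ) (η : G → ℂ) (hη : η = fun g => (Nat.card N : ℂ)⁻¹ * ∑ n : N, ψ ((n : G) * g) * conj (χ ((n : G) * g))) : (Cfsg.classInner (fun n : N => ψ n) (fun n : N => χ n) ≠ 0 → Cfsg.IsIrrCharacter G η) ∧ (Cfsg.classInner (fun n : N => ψ n) (fun n : N => χ n) = 0 → η = 0) ∧ (ψ = χ → η = fun _ => 1) := by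
  open Cfsg.Agent.Char Cfsg.Agent.Char.Clifford Cfsg.Agent.Char.Gallagher
    Cfsg.Agent.Char.Ind Cfsg.Agent.Char.IndRep Cfsg.Agent.Char.Constit in
  have hc : IsClassFunction G η := by
    intro g x
    rw [hη]
    simp only
    congr 1
    refine (Fintype.sum_equiv (MulAut.conjNormal (H := N) x).toEquiv _ _ fun n => ?_).symm
    have e : ((MulAut.conjNormal (H := N) x).toEquiv n : G) * (x * g * x⁻¹) =
        x * (n * g) * x⁻¹ := by simp [mul_assoc]
    rw [e, isIrr_classFun hψ, isIrr_classFun hχ]
  have key : ∀ β : G → ℂ, IsIrrCharacter G β →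
      (N ≤ charKer β → classInner η β = classInner ψ (β * χ)) ∧
      (¬ N ≤ charKer β → classInner η β = 0) := by
    intro β hβ
    have h1 : classInner η β = (Nat.card G : ℂ)⁻¹ * ∑ g : G, ψ g * conj (χ g) *
        ((Nat.card N : ℂ)⁻¹ * conj (∑ n : N, β ((n⁻¹ : N) * g))) := by
      rw [hη, classInner]
      congr 1
      simp only [Finset.mul_sum, Finset.sum_mul, map_sum]
      rw [Finset.sum_comm, Finset.sum_comm (s := (Finset.univ : Finset G))]
      refine Finset.sum_congr rfl fun n _ => ?_
      refine Fintype.sum_equiv (Equiv.mulLeft (n : G)) _ _ fun g => ?_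
      simp only [Equiv.coe_mulLeft, InvMemClass.coe_inv, inv_mul_cancel_left]
      ring
    constructor
    · intro hk
      rw [h1, classInner]
      congr 1
      refine Finset.sum_congr rfl fun g _ => ?_
      rw [Finset.sum_congr rfl (g := fun _ => β g)
        (fun n _ => mem_charKer.mp (hk (n⁻¹).2) g), Finset.sum_const, Finset.card_univ,
        ← Nat.card_eq_fintype_card, nsmul_eq_mul, Pi.mul_apply, map_mul, map_mul, map_natCast]
      have := card_ne_zero' N
      field_simp
    · intro hk
      rw [h1, Finset.sum_eq_zero, mul_zero]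
      intro g _
      have h2 := BrauerPerm.sum_coset_eq_zero N hβ hk g
      have h3 : ∑ n : N, β ((n⁻¹ : N) * g) = ∑ n : N, β (n * g) :=
        Fintype.sum_equiv (Equiv.inv N) _ _ (fun _ => rfl)
      rw [h3, h2, map_zero, mul_zero, mul_zero]
  have main : ∀ β₀ : G → ℂ, IsIrrCharacter G β₀ → N ≤ charKer β₀ → ψ = β₀ * χ → η = β₀ := by
    intro β₀ h1 h2 h3
    refine Char.classFun_ext hc (isIrr_classFun h1) fun β hβ => ?_
    by_cases hk : N ≤ charKer β
    · rw [(key β hβ).1 hk]
      by_cases e : β₀ = β
      · subst e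
        rw [classInner_isIrr_self h1, ← h3, classInner_isIrr_self hψ]
      · rw [classInner_isIrr_ne h1 hβ e,
          classInner_isIrr_ne hψ (isIrr_mul_of_le_ker (isIrr_isChar hχ) hχN hβ hk)]
        intro e2
        exact e (eq_of_mul_eq (isIrr_isChar hχ) hχN h1 h2 hβ hk (h3.symm.trans e2))
    · rw [(key β hβ).2 hk, classInner_isIrr_ne h1 hβ]
      rintro rfl
      exact hk h2
  refine ⟨fun h => ?_, fun h => ?_, fun h => ?_⟩
  · obtain ⟨β, h1, h2, h3⟩ := exists_eq_mul (isIrr_isChar hχ) hχN hψ h
    rwa [main β h1 h2 h3]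
  · refine classFun_eq_zero_of_inner hc fun β hβ => ?_
    by_cases hk : N ≤ charKer β
    · rw [(key β hβ).1 hk,
        classInner_isIrr_ne hψ (isIrr_mul_of_le_ker (isIrr_isChar hχ) hχN hβ hk)]
      intro e
      exact ((bijOn_mul_ker (isIrr_isChar hχ) hχN).1 ⟨hβ, hk⟩).2 (by simpa only [← e] using h)
    · exact (key β hβ).2 hk
  · exact main _ isIrr_one (by rw [charKer_one]; exact le_top) (by rw [h]; funext g; simp)

end Cfsg.Agent.S0868
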