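import Mathlib
import Cfsg.Statements.S0701

set_option autoImplicit false
open Cfsg

namespace Cfsg.Agent.S0701


/-- The centraliser in the full symmetric group of a transitive permutation group `G` is semiregular, and it is transitive if and only if `G` is regular. -/
theorem result {α : Type*} (G : Subgroup (Equiv.Perm α)) [MulAction.IsPretransitive G α] : (∀ c ∈ Subgroup.centralizer (G : Set (Equiv.Perm α)), ∀ a : α, c a = a → c = 1) ∧ (MulAction.IsPretransitive (Subgroup.centralizer (G : Set (Equiv.Perm α))) α ↔ ∀ a : α, MulAction.stabilizer G a = ⊥) := by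
  have h1 : ∀ c ∈ Subgroup.centralizer (G : Set (Equiv.Perm α)), ∀ a : α, c a = a → c = 1 := by
    intro c hc a ha
    ext x
    obtain ⟨g, rfl⟩ := MulAction.exists_smul_eq G a x
    have := Subgroup.mem_centralizer_iff.mp hc g g.2
    have h2 : (g.1 * c) a = (c * g.1) a := by rw [this]
    simp only [Equiv.Perm.coe_mul, Function.comp_apply, ha] at h2
    exact h2.symm
  refine ⟨h1, ⟨fun ht a => ?_, fun hreg => ?_⟩⟩
  · rw [eq_bot_iff]
    intro g hg
    rw [Subgroup.mem_bot]
    have hga : g.1 a = a := hg
    ext x
    obtain ⟨c, rfl⟩ := MulAction.exists_smul_eq (Subgroup.centralizer (G : Set (Equiv.Perm α))) a x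
    have := Subgroup.mem_centralizer_iff.mp c.2 g g.2
    have h2 : (g.1 * c.1) a = (c.1 * g.1) a := by rw [this]
    simp only [Equiv.Perm.coe_mul, Function.comp_apply, hga] at h2
    exact h2
  · constructor
    intro a b
    have inj : ∀ (a : α) (g h : G), g • a = h • a → g = h := by
      intro a g h hgh
      have : h⁻¹ * g ∈ MulAction.stabilizer G a := by
        rw [MulAction.mem_stabilizer_iff, mul_smul, hgh, inv_smul_smul]
      rw [hreg a, Subgroup.mem_bot, inv_mul_eq_one] at this
      exact this.symm
    have bij : ∀ a : α, Function.Bijective (fun g : G => g • a) := fun a =>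
      ⟨fun g h => inj a g h, fun x => MulAction.exists_smul_eq G a x⟩
    let ea := Equiv.ofBijective _ (bij a)
    let eb := Equiv.ofBijective _ (bij b)
    refine ⟨⟨ea.symm.trans eb, ?_⟩, ?_⟩
    · rw [Subgroup.mem_centralizer_iff]
      intro g hg
      ext x
      obtain ⟨h, rfl⟩ := ea.surjective x
      have e1 : g (ea h) = ea (⟨g, hg⟩ * h) := by
        rfl
      have e2 : g (eb h) = eb (⟨g, hg⟩ * h) := by
        rfl
      simp only [Equiv.Perm.coe_mul, Function.comp_apply, Equiv.trans_apply, Equiv.symm_apply_apply, e1, e2]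
    · have : a = ea 1 := by simp [ea]
      change eb (ea.symm a) = b
      rw [this, Equiv.symm_apply_apply]
      simp [eb]

end Cfsg.Agent.S0701
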