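import Mathlib
import Cfsg.Statements.S0019
import Cfsg.Agent.H2.Fac2
import Cfsg.Agent.Core.MinNormal

set_option autoImplicit false
open scoped Pointwise commutatorElement
open Cfsg

namespace Cfsg.Agent.S0019

open Cfsg.Agent.BG Cfsg.Agent.BG.Amb Cfsg.Agent.H2 Subgroup in
theorem aux.{u} (G : Type u) [Group G] [Finite G] : ∀ (H₁ H₂ H₃ : Subgroup G),
    Group.IsSolvable H₁ → Group.IsSolvable H₂ → Group.IsSolvable H₃ → Fac H₁ H₂ ⊤ → Fac H₁ H₃ ⊤ →
    H₂.index.Coprime H₃.index → Group.IsSolvable G := by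
  refine Core.induction_on_card (P := fun G _ _ => ∀ (H₁ H₂ H₃ : Subgroup G),
    Group.IsSolvable H₁ → Group.IsSolvable H₂ → Group.IsSolvable H₃ → Fac H₁ H₂ ⊤ → Fac H₁ H₃ ⊤ →
    H₂.index.Coprime H₃.index → Group.IsSolvable G) ?_ G
  intro G _ _ ih H₁ H₂ H₃ h₁ h₂ h₃ h12 h13 hcop
  by_cases hb : H₁ = ⊥
  · have : H₂ = ⊤ := by rw [← h12.sup_eq, hb, bot_sup_eq]
    subst this
    exact Core.solvable_of_mulEquiv topEquiv h₂
  obtain ⟨p, hp, hne⟩ := exists_prime_piCoreOf_ne_bot h₁ hb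
  have := Fact.mk hp
  have key : ∀ K : Subgroup G, Group.IsSolvable K → Fac H₁ K ⊤ → ¬ p ∣ K.index →
      Group.IsSolvable G := by
    intro K hK hf hd
    obtain ⟨g, hg⟩ := exists_conj_le_of_not_dvd_index (piCoreOf_isPGroup (p := p) H₁) hd
    have h1 := hf.normalClosure_le (le_norm_piCoreOf _ _) (hf.le_of_conj_le (le_norm_piCoreOf _ _) hg)
    set M := normalClosure ((piCoreOf {p} H₁ : Subgroup G) : Set G)
    have hM : M ≠ ⊥ := ne_bot_mono hne le_normalClosure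
    have hs := QuotientGroup.mk'_surjective M
    exact solvable_of_normal_quotient M (solvable_mono hK h1) (ih (G ⧸ M) (Core.card_quotient_lt M hM)
      _ _ _ (Core.solvable_map h₁ _) (Core.solvable_map h₂ _) (Core.solvable_map h₃ _)
      (h12.map_top hs) (h13.map_top hs)
      (Nat.Coprime.coprime_dvd_left (H₂.index_map_dvd hs)
        (Nat.Coprime.coprime_dvd_right (H₃.index_map_dvd hs) hcop)))
  by_cases hd : p ∣ H₂.index
  · exact key H₃ h₃ h13 fun hd' => hp.one_lt.ne' (Nat.eq_one_of_dvd_coprimes hcop hd hd')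
  · exact key H₂ h₂ h12 hd

/-- A finite group that factorises as H₁H₂ and as H₁H₃ with all three subgroups solvable and the indices of H₂ and H₃ coprime is solvable. -/
theorem result {G : Type*} [Group G] [Finite G] (H₁ H₂ H₃ : Subgroup G)
    (h₁ : Group.IsSolvable H₁) (h₂ : Group.IsSolvable H₂) (h₃ : Group.IsSolvable H₃)
    (h12 : ∀ g : G, ∃ x ∈ H₁, ∃ y ∈ H₂, g = x * y) (h13 : ∀ g : G, ∃ x ∈ H₁, ∃ y ∈ H₃, g = x * y)
    (hcop : H₂.index.Coprime H₃.index) : Group.IsSolvable G := by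
  exact aux G H₁ H₂ H₃ h₁ h₂ h₃ (H2.fac_top h12) (H2.fac_top h13) hcop

end Cfsg.Agent.S0019
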