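import Mathlib
import Cfsg.Statements.S0006
import Cfsg.Agent.S0007
import Cfsg.Agent.S0019
import Cfsg.Agent.Char.Central
-- import your own Cfsg.Agent.* helpers here

set_option autoImplicit false
open Cfsg

namespace Cfsg.Agent.S0006

theorem exists_index_of_index {G : Type*} [Group G] [Finite G]
    (h : ∀ p : ℕ, p.Prime → ∃ H : Subgroup G, H.index = p ^ (Nat.card G).factorization p)
    {q : ℕ} (hq : q.Prime) (K : Subgroup G) (hK : K.index = q ^ (Nat.card G).factorization q)
    (p : ℕ) (hp : p.Prime) : ∃ H : Subgroup K, H.index = p ^ (Nat.card K).factorization p := by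
  have hG0 : Nat.card G ≠ 0 := Nat.card_pos.ne'
  have hK0 : Nat.card K ≠ 0 := Nat.card_pos.ne'
  have hmul := K.card_mul_index
  have hf : (Nat.card G).factorization p =
      (Nat.card K).factorization p + K.index.factorization p := by
    rw [← hmul, Nat.factorization_mul hK0 Subgroup.index_ne_zero_of_finite]; rfl
  by_cases hpq : p = q
  · subst hpq
    refine ⟨⊤, ?_⟩
    rw [hK, Nat.factorization_pow_self hp] at hf
    have : (Nat.card K).factorization p = 0 := by omega
    rw [this, Subgroup.index_top, pow_zero]
  · obtain ⟨H, hH⟩ := h p hp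
    refine ⟨H.subgroupOf K, ?_⟩
    have hcop : H.index.Coprime K.index := by
      rw [hH, hK]
      exact Nat.coprime_pow_primes _ _ hp hq hpq
    have h1 := (S0007.result H K hcop).1
    have h2 : (H ⊓ K).relIndex K * K.index = (H ⊓ K).index :=
      Subgroup.relIndex_mul_index inf_le_right
    rw [Subgroup.inf_relIndex_right, h1] at h2
    have h3 : H.relIndex K = H.index :=
      Nat.eq_of_mul_eq_mul_right (Nat.pos_of_ne_zero Subgroup.index_ne_zero_of_finite) h2
    have h4 : K.index.factorization p = 0 := by
      rw [hK, Nat.Prime.factorization_pow hq, Finsupp.single_eq_of_ne hpq]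
    change H.relIndex K = _
    rw [h3, hH, hf, h4, add_zero]

universe u in
theorem aux (n : ℕ) : ∀ (G : Type u) [Group G] [Finite G], Nat.card G = n →
    (∀ p : ℕ, p.Prime → ∃ H : Subgroup G, H.index = p ^ (Nat.card G).factorization p) →
    Group.IsSolvable G := by
  induction n using Nat.strong_induction_on with
  | _ n ih =>
    intro G _ _ hn h
    have hG0 : Nat.card G ≠ 0 := Nat.card_pos.ne'
    have key : ∀ p : ℕ, p.Prime → p ∣ Nat.card G → ∃ H : Subgroup G, Group.IsSolvable H ∧
        H.index = p ^ (Nat.card G).factorization p := by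
      intro p hp hd
      obtain ⟨H, hH⟩ := h p hp
      refine ⟨H, ih (Nat.card H) ?_ H rfl (exists_index_of_index h hp H hH), hH⟩
      have h1 : 1 < H.index := by
        rw [hH]
        exact Nat.one_lt_pow (hp.factorization_pos_of_dvd hG0 hd).ne' hp.one_lt
      have h2 := H.card_mul_index
      have h3 : 0 < Nat.card H := Nat.card_pos
      nlinarith
    by_cases h1 : ∃ p : ℕ, p.Prime ∧ p ∣ Nat.card G
    swap
    · push Not at h1
      exact Char.burnside_of_primes Nat.prime_two Nat.prime_two fun r hr hd => absurd hd (h1 r hr)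
    obtain ⟨p, hp, hpd⟩ := h1
    by_cases h2 : ∃ q : ℕ, q.Prime ∧ q ∣ Nat.card G ∧ q ≠ p
    swap
    · push Not at h2
      exact Char.burnside_of_primes hp hp fun r hr hd => Or.inl (h2 r hr hd)
    obtain ⟨q, hq, hqd, hqp⟩ := h2
    by_cases h3 : ∃ r : ℕ, r.Prime ∧ r ∣ Nat.card G ∧ r ≠ p ∧ r ≠ q
    swap
    · push Not at h3
      exact Char.burnside_of_primes hp hq fun r hr hd => by
        by_cases hrp : r = p
        · exact Or.inl hrp
        · exact Or.inr (h3 r hr hd hrp)
    obtain ⟨r, hr, hrd, hrp, hrq⟩ := h3
    obtain ⟨A, hA, hA'⟩ := key p hp hpd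
    obtain ⟨B, hB, hB'⟩ := key q hq hqd
    obtain ⟨C, hC, hC'⟩ := key r hr hrd
    refine S0019.result A B C hA hB hC (S0007.result A B ?_).2 (S0007.result A C ?_).2 ?_
    · rw [hA', hB']; exact Nat.coprime_pow_primes _ _ hp hq hqp.symm
    · rw [hA', hC']; exact Nat.coprime_pow_primes _ _ hp hr hrp.symm
    · rw [hB', hC']; exact Nat.coprime_pow_primes _ _ hq hr hrq.symm

/-- Converse of Hall's Theorem: if for every prime p a finite group has a subgroup of index equal to the p-part of the group order (a Hall p-complement), then the group is solvable. -/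
theorem result {G : Type*} [Group G] [Finite G]
    (h : ∀ p : ℕ, p.Prime → ∃ H : Subgroup G, H.index = p ^ (Nat.card G).factorization p) :
    Group.IsSolvable G := by
  exact aux _ G rfl h

end Cfsg.Agent.S0006
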