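import Mathlib
import Cfsg.Agent.Core.Product
import Cfsg.Agent.Core.Fitting
import Cfsg.Statements.S0048
-- import your own Cfsg.Agent.* helpers here

set_option autoImplicit false
open Cfsg

namespace Cfsg.Agent.S0048

/-- In a finite solvable group every maximal subgroup has index a prime power. -/
theorem result {G : Type*} [Group G] [Finite G] [Group.IsSolvable G]
    (M : Subgroup G) (hM : IsCoatom M) : IsPrimePow M.index := by
  have hne : Nontrivial (G ⧸ M.normalCore) := by
    rw [QuotientGroup.nontrivial_iff]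
    exact fun h => hM.1 (top_le_iff.mp (h ▸ M.normalCore_le))
  have hsurj := QuotientGroup.mk'_surjective M.normalCore
  obtain ⟨N, p, hN, hNne, hp, hNp⟩ := Core.exists_normal_pGroup (G := G ⧸ M.normalCore)
  have := Fact.mk hp
  have hker : (QuotientGroup.mk' M.normalCore).ker ≤ M := by
    rw [QuotientGroup.ker_mk']; exact M.normalCore_le
  have hM' := Core.isCoatom_map_of_ker_le hsurj hM hker
  have h1 : ¬ N ≤ M.map (QuotientGroup.mk' M.normalCore) := by
    intro h
    apply hNne
    have h2 : N.comap (QuotientGroup.mk' M.normalCore) ≤ M :=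
      (Subgroup.comap_mono h).trans (Subgroup.comap_map_eq_self hker).le
    rw [← Subgroup.normal_le_normalCore] at h2
    rw [← Subgroup.map_comap_eq_self_of_surjective hsurj N, Subgroup.map_eq_bot_iff,
      QuotientGroup.ker_mk']
    exact h2
  have h3 : N ⊔ M.map (QuotientGroup.mk' M.normalCore) = ⊤ := hM'.2 _ (right_lt_sup.mpr h1)
  have h4 := Core.index_eq_relIndex_of_sup_eq_top' h3
  rw [M.index_map_eq hsurj hker] at h4
  obtain ⟨n, hn⟩ := hNp.index ((M.map (QuotientGroup.mk' M.normalCore)).subgroupOf N)
  have h5 : M.index = p ^ n := h4.trans hn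
  refine ⟨p, n, hp.prime, Nat.pos_of_ne_zero ?_, h5.symm⟩
  rintro rfl
  exact hM.1 (Subgroup.index_eq_one.mp h5)

end Cfsg.Agent.S0048
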