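import Mathlib
import Cfsg.Statements.S0105
import Cfsg.Agent.Transfer.Abelian
-- import your own Cfsg.Agent.* helpers here

set_option autoImplicit false
open Cfsg

namespace Cfsg.Agent.S0105

open Cfsg.Agent.Transfer

/-- With an abelian Sylow p-subgroup P, some quotient of G is isomorphic to the part of P central in N_G(P). -/
theorem result {G : Type*} [Group G] [Finite G] {p : ℕ} [Fact p.Prime] (P : Sylow p G) (hP : IsMulCommutative P) : ∃ (N : Subgroup G) (hN : N.Normal), Nonempty (G ⧸ N ≃* ((P : Subgroup G) ⊓ Subgroup.centralizer (Subgroup.normalizer (P : Set G) : Set G) : Subgroup G)) := by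
  refine ⟨pResidual p G, inferInstance, ⟨(Subgroup.IsComplement'.QuotientMulEquiv ?_)⟩⟩
  obtain ⟨h1, h2⟩ := fitting_decomposition_sylow P
  refine (Subgroup.isComplement'_of_disjoint_and_mul_eq_univ (disjoint_iff.mpr ?_) ?_).symm
  · rw [eq_bot_iff, ← h1]
    exact le_inf (le_inf (inf_le_right.trans inf_le_left) inf_le_left) inf_le_right
  · rw [← Subgroup.normal_mul, Subgroup.coe_eq_univ, eq_top_iff, ← pResidual_sup_sylow P]
    refine sup_le le_sup_left ?_
    refine h2.ge.trans (sup_le_sup inf_le_right le_rfl)

end Cfsg.Agent.S0105
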