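import Mathlib
import Cfsg.Statements.S0109
import Cfsg.Agent.Transfer.Factorization
import Cfsg.Agent.PLocal.PStable
import Cfsg.Agent.Core.Fitting
import Cfsg.Agent.Core.PSolvable
-- import your own Cfsg.Agent.* helpers here

set_option autoImplicit false
open Cfsg

namespace Cfsg.Agent.S0109

open Cfsg.Agent.Transfer

/-- The Thompson factorization Theorem for solvable groups states that, with p odd (and abelian Sylow 2-subgroups when p = 3) and no nontrivial normal subgroup of order prime to p, every element of G is a product of an element normalizing J(P) and an element centralizing the elements of order dividing p in the centre of P. -/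
theorem result {G : Type*} [Group G] [Finite G] {p : ℕ} [Fact p.Prime] (hp : p ≠ 2) (hs : Group.IsSolvable G) (h3 : p = 3 → ∀ T : Sylow 2 G, IsMulCommutative T) (hF : ∀ N : Subgroup G, N.Normal → Nat.Coprime (Nat.card N) p → N = ⊥) (P : Sylow p G) (g : G) : ∃ a ∈ Subgroup.normalizer (Cfsg.thompsonSubgroupOf p (P : Subgroup G) : Set G), ∃ c ∈ Subgroup.centralizer {x : G | x ∈ (P : Subgroup G) ∧ (∀ y ∈ (P : Subgroup G), x * y = y * x) ∧ x ^ p = 1}, g = a * c := by
  have := hs
  have hc := Core.centralizer_pCore_le (G := G) p (Core.pPrimeCore_eq_bot_iff.2 hF)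
  have hN : PLocal.NoQuadPair p G := by
    by_cases h : p = 3
    · obtain ⟨T⟩ := (inferInstance : Nonempty (Sylow 2 G))
      exact (PLocal.AbelianTwo.of_sylow T (h3 h T)).noQuadPair hp
    · exact PLocal.noQuadPair_of_isPSolvable
        ((Fact.out : p.Prime).five_le_of_ne_two_of_ne_three hp h) (Core.isPSolvable_of_solvable p hs)
  obtain ⟨c, hc, n, hn, e⟩ := factorization_of_noQuadPair hc hN P g⁻¹
  refine ⟨n⁻¹, Subgroup.inv_mem _ hn, c⁻¹, Subgroup.inv_mem _ ?_, by rw [← mul_inv_rev, ← e, inv_inv]⟩
  intro x hx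
  exact hc x (mem_omegaOneCenter_iff.2 ⟨hx.1, fun y hy => (hx.2.1 y hy).symm, hx.2.2⟩)

end Cfsg.Agent.S0109
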