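import Mathlib
import Cfsg.Statements.S0247
import Cfsg.Agent.Classical.SymSp
import Cfsg.Agent.Classical.Congr

set_option autoImplicit false
set_option backward.isDefEq.respectTransparency false
open Cfsg

namespace Cfsg.Agent.S0247

/-- Sp_4(2) is isomorphic to the symmetric group S_6. -/
theorem result {F : Type*} [Field F] [Fintype F] (hF : Fintype.card F = 2) : Nonempty (Matrix.symplecticGroup (Fin 2) F ≃* Equiv.Perm (Fin 6)) := by
  have hF' : Nat.card F = 2 := by rw [Nat.card_eq_fintype_card, hF]
  have : CharP F 2 := Classical.Congr.charP_of_card (k := 1) hF'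
  obtain ⟨f, hf⟩ := Classical.SymSp.exists_injective (F := F) (m := 2) CharTwo.two_eq_zero le_rfl
  refine Classical.AltHom.equiv_of_injective f hf ?_
  rw [Classical.SpMat.card_sp, hF', Nat.card_perm, Nat.card_eq_fintype_card, Fintype.card_fin,
    Fintype.card_fin]
  decide

end Cfsg.Agent.S0247
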