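import Mathlib
import Cfsg.Statements.S0331
import Cfsg.Agent.RankOne.SzOvoid
import Cfsg.Agent.RankOne.SzCount
-- import your own Cfsg.Agent.* helpers here

set_option autoImplicit false
open Cfsg

namespace Cfsg.Agent.S0331

/-- For every odd prime `p` the Sylow `p`-subgroups of the Suzuki group are cyclic. -/
theorem result {F : Type*} [Field F] [Fintype F] {m : ℕ} (hm : 1 ≤ m)
    (hF : Fintype.card F = 2 ^ (2 * m + 1)) {p : ℕ} [Fact p.Prime] (hp : p ≠ 2)
    (P : Sylow p (Cfsg.Sz F m)) : IsCyclic P := by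
  let Z := RankOne.Sz.model hF hm
  have := Z.finite
  rcases subsingleton_or_nontrivial P with h | h
  · infer_instance
  obtain ⟨⟨z, hz⟩, hz1⟩ := Subgroup.ne_bot_iff_exists_ne_one.mp
    ((Subgroup.nontrivial_iff_ne_bot _).mp P.isPGroup'.center_nontrivial)
  have hz1' : (z : Cfsg.Sz F m) ≠ 1 := fun h => hz1 (Subtype.ext (Subtype.ext h))
  have hle : (P : Subgroup (Cfsg.Sz F m)) ≤ Subgroup.centralizer {(z : Cfsg.Sz F m)} := fun x hx =>
    Subgroup.mem_centralizer_singleton_iff.mpr (congrArg Subtype.val (Subgroup.mem_center_iff.mp hz ⟨x, hx⟩))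
  obtain ⟨k, hk⟩ := (IsPGroup.iff_orderOf.mp P.isPGroup') z
  have := Z.isCyclic_centralizer_of_odd hz1' (by
    rw [Subgroup.orderOf_coe, hk]; exact ((Fact.out : p.Prime).odd_of_ne_two hp).pow)
  exact Subgroup.isCyclic_of_le hle

end Cfsg.Agent.S0331
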