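import Mathlib
import Cfsg.Statements.S0344
import Cfsg.Agent.Perm.Zass5

set_option autoImplicit false
open Cfsg

namespace Cfsg.Agent.S0344


/-- A finite simple Zassenhaus group with a two-point stabiliser of even order is isomorphic to `PSL₂(F)` for a finite
field `F` with more than three elements. -/
theorem result {G Ω : Type*} [Group G] [Finite G] [MulAction G Ω] [Finite Ω]
    (hZ : Cfsg.IsZassenhausGroup G Ω) [IsSimpleGroup G]
    {a b : Ω} (hab : a ≠ b) (heven : Even (Nat.card ↥(MulAction.stabilizer G a ⊓ MulAction.stabilizer G b))) :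
    ∃ (F : Type) (_ : Field F) (_ : Fintype F), 3 < Fintype.card F ∧ Nonempty (G ≃* Matrix.ProjectiveSpecialLinearGroup (Fin 2) F) := by
  have h := Perm.Z3.of_isZ hZ
  have h0 := Nat.card_pos (α := ↥(MulAction.stabilizer G a ⊓ MulAction.stabilizer G b))
  obtain ⟨c, hca, hcb⟩ := h.exists_third hZ.2.2.2.1 hab
  have h3 : 2 < Nat.card Ω := by
    have := Fintype.ofFinite Ω
    rw [Nat.card_eq_fintype_card]
    exact Fintype.two_lt_card_iff.mpr ⟨a, b, c, hab, hca.symm, hcb.symm⟩
  have h4 := heven
  rw [Nat.even_iff] at h4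
  rcases h.cases_of_le hab h3 (h.le_two_mul_card hab heven) with hd | hd
  · obtain ⟨K, _, _, -, M, hM, -⟩ := h.exists_index_two_of_sharp hab (by rw [Nat.even_iff]; omega) hd
    rcases (Subgroup.normal_of_index_eq_two hM).eq_bot_or_eq_top with rfl | rfl
    · rw [Subgroup.index_bot, h.card_eq hab] at hM
      have : 3 * 2 * 1 ≤ _ := hM ▸ Nat.mul_le_mul (Nat.mul_le_mul h3 (by omega)) h0
      omega
    · simp at hM
  · obtain ⟨-, K, _, _, hK, e⟩ := h.even_half hab heven (by omega)
    exact ⟨K, inferInstance, inferInstance, by rw [← Nat.card_eq_fintype_card]; omega, e⟩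

end Cfsg.Agent.S0344
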