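import Mathlib
import Cfsg.Statements.S0347
import Cfsg.Agent.Suz.ZassW
-- import your own Cfsg.Agent.* helpers here

set_option autoImplicit false
open Cfsg

namespace Cfsg.Agent.S0347

/-- If in a finite simple Zassenhaus group the stabiliser of a point `x` has a normal `2`-subgroup `U` which is
non-abelian and acts regularly on the points other than `x`, then the group is simple of Suzuki order (order-level
predicate `IsSuzuki`). -/
theorem result {G Ω : Type*} [Group G] [Finite G] [MulAction G Ω] [Finite Ω]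
    (hZ : Cfsg.IsZassenhausGroup G Ω) [IsSimpleGroup G]
    (x : Ω) (U : Subgroup G) (hUle : U ≤ MulAction.stabilizer G x) (hUn : (U.subgroupOf (MulAction.stabilizer G x)).Normal)
    (hU2 : IsPGroup 2 U) (hUna : ∃ u v : U, u * v ≠ v * u)
    (hreg : ∀ y z : Ω, y ≠ x → z ≠ x → ∃! u : U, (u : G) • y = z) :
    Cfsg.IsSuzuki G := by
  have hF := Perm.ZKer.of_reg hUle hUn hreg
  obtain ⟨b, hb⟩ : ∃ b, b ≠ x := by
    obtain ⟨-, -, c, d, hcd, -⟩ := hZ.2.2.2.1
    have : Nontrivial Ω := ⟨c, d, hcd⟩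
    exact exists_ne x
  obtain ⟨t, ht, rfl⟩ := Suz.exists_swap_of_zass hZ hF hU2 hb.symm
  obtain ⟨u, v, h⟩ := hUna
  obtain ⟨F, _, _, _, m, hm, hq, hc, hD, -⟩ := Suz.szc_of_zass hZ hF hU2 ht hb
    ⟨u, u.2, v, v.2, fun e => h (Subtype.ext e)⟩
  refine ⟨inferInstance, m, hm, ?_⟩
  rw [Suz.card_G (Suz.setup_of_zass hZ hF hU2 ht hb).1, hc, hD, hq, mul_right_comm]

end Cfsg.Agent.S0347
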