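import Mathlib
import Cfsg.Statements.S0340
import Cfsg.Agent.S0344
import Cfsg.Agent.S0347
import Cfsg.Agent.Perm.Zass8

set_option autoImplicit false
open Cfsg

namespace Cfsg.Agent.S0340

open Cfsg.Agent.Perm Cfsg.Agent.Classical.PSL2Basic

/-- Classification of Zassenhaus groups, simple case, order-level form: a finite simple Zassenhaus group is
isomorphic to `PSL₂(F)` for some finite field `F` or is simple of Suzuki order. -/
theorem result {G Ω : Type*} [Group G] [Finite G] [MulAction G Ω]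
    [Finite Ω] (hZ : Cfsg.IsZassenhausGroup G Ω) [IsSimpleGroup G] :
    (∃ (F : Type) (_ : Field F) (_ : Fintype F), Nonempty (G ≃* Matrix.ProjectiveSpecialLinearGroup (Fin 2) F)) ∨ Cfsg.IsSuzuki G := by
  have h := Z3.of_isZ hZ
  have h3 := zass_two_lt hZ
  have := zass_nontrivial hZ
  obtain ⟨a, b, hab⟩ := exists_pair_ne Ω
  rcases Nat.even_or_odd (Nat.card ↥(MulAction.stabilizer G a ⊓ MulAction.stabilizer G b)) with
    he | ho
  · obtain ⟨F, _, _, -, e⟩ := S0344.result hZ hab he
    exact Or.inl ⟨F, inferInstance, inferInstance, e⟩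
  obtain ⟨F, hF, -⟩ := h.exists_zker hZ.2.2.2.1 a
  rcases zass_feit _ rfl hZ hab ho hF with hd | ⟨h2, hn, -⟩
  · left
    rcases h.cases_of_le hab h3 hd with hd | hd
    · have ho' : Odd (Nat.card Ω) := by
        rw [Nat.odd_iff] at ho ⊢
        omega
      obtain ⟨K, _, _, hK, ⟨e⟩⟩ := h.sharp_odd hab ho' hd
      have h2 : (2 : K) = 0 := by
        by_contra h2
        have := odd_card_iff.mpr h2
        rw [Nat.odd_iff] at this ho'
        omega
      exact ⟨K, inferInstance, inferInstance, ⟨e.trans (pslEquivPGL h2).symm⟩⟩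
    · obtain ⟨K, _, _, -, e⟩ := zass_half hZ hab hd
      exact ⟨K, inferInstance, inferInstance, e⟩
  · refine Or.inr (S0347.result hZ a F hF.le hF.normal h2 hn fun y z hy hz => ?_)
    obtain ⟨u, hu, e⟩ := hF.trans y z hy hz
    refine ⟨⟨u, hu⟩, e, fun v hv => Subtype.ext ?_⟩
    have := hF.free (u⁻¹ * v) (F.mul_mem (F.inv_mem hu) v.2) y hy (by
      rw [mul_smul, hv, ← e, inv_smul_smul])
    exact (inv_mul_eq_one.mp this).symm

end Cfsg.Agent.S0340
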