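import Mathlib
import Cfsg.Statements.S0345
import Cfsg.Agent.Perm.Zass6

set_option autoImplicit false
open Cfsg

namespace Cfsg.Agent.S0345


/-- In a finite simple Zassenhaus group the stabiliser `H` of two points `a ≠ b` is cyclic, and some involution
interchanging `a` and `b` inverts every element of `H`. -/
theorem result {G Ω : Type*} [Group G] [Finite G] [MulAction G Ω] [Finite Ω]
    (hZ : Cfsg.IsZassenhausGroup G Ω) [IsSimpleGroup G]
    {a b : Ω} (hab : a ≠ b) :
    IsCyclic ↥(MulAction.stabilizer G a ⊓ MulAction.stabilizer G b) ∧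
      ∃ v : G, orderOf v = 2 ∧ v • a = b ∧ v • b = a ∧ ∀ h ∈ MulAction.stabilizer G a ⊓ MulAction.stabilizer G b, v * h * v⁻¹ = h⁻¹ := by
  obtain ⟨t, ht, ta, tb⟩ := (Perm.Z3.of_isZ hZ).exists_swap hab
  have hi := fun k => Perm.inverts_of_swap_mul_self
    (fun s => Perm.zass_simple_swap hZ hab) ta tb (k := k)
  refine ⟨Perm.zass_isCyclic hZ hab le_rfl (Or.inl (Core.isMulCommutative_of_forall
    fun u hu v hv => Perm.comm_of_inverts hi hu hv)), t, Inv.two_of_mul_self ?_ ht, ta, tb, hi⟩
  rintro rfl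
  exact hab (by simpa using ta)

end Cfsg.Agent.S0345
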