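import Mathlib
import Cfsg.Statements.S0346
import Cfsg.Agent.Perm.Zass7

set_option autoImplicit false
open Cfsg

namespace Cfsg.Agent.S0346


/-- The number of points of a finite simple Zassenhaus group is `p^k + 1` for some prime power `p^k` (the regular normal
subgroup of a point stabiliser is a `p`-group). -/
theorem result {G Ω : Type*} [Group G] [Finite G] [MulAction G Ω] [Fintype Ω]
    (hZ : Cfsg.IsZassenhausGroup G Ω) [IsSimpleGroup G] :
    IsPrimePow (Fintype.card Ω - 1) := by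
  have h := Perm.Z3.of_isZ hZ
  obtain ⟨-, -, a, b, hab, -⟩ := hZ.2.2.2.1
  have : Nontrivial Ω := ⟨a, b, hab⟩
  obtain ⟨F, hF, hn⟩ := h.exists_zker hZ.2.2.2.1 a
  obtain ⟨c, hca, hcb⟩ := h.exists_third hZ.2.2.2.1 hab
  have h0 := hF.ne_bot hab.symm hca hcb
  obtain ⟨p, hp, h1⟩ : ∃ p : ℕ, p.Prime ∧ IsPGroup p F := by
    by_cases hd : Nat.card Ω - 2 ≤ 2 * Nat.card ↥(MulAction.stabilizer G a ⊓ MulAction.stabilizer G b)
    · obtain ⟨p, hp, h1⟩ := (hF.elementary h hn h0 hab.symm hd).2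
      exact ⟨p, hp, fun u => ⟨1, Subtype.ext (by simpa using h1 u u.2)⟩⟩
    · exact ⟨2, Nat.prime_two, ((Perm.zass_feit _ rfl hZ hab (Nat.not_even_iff_odd.mp
        fun he => hd (h.le_two_mul_card hab he)) hF).resolve_left hd).1⟩
  have := Fact.mk hp
  obtain ⟨k, hk⟩ := IsPGroup.iff_card.mp h1
  rw [← Nat.card_eq_fintype_card, ← hF.card, Nat.add_sub_cancel, hk]
  refine hp.isPrimePow.pow ?_
  rintro rfl
  exact h0 (Subgroup.card_eq_one.mp hk)

end Cfsg.Agent.S0346
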