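import Mathlib
import Cfsg.Statements.S0447
import Cfsg.Agent.H2.SchurAlt

set_option autoImplicit false
open scoped Pointwise commutatorElement
open Cfsg

namespace Cfsg.Agent.S0447

open Subgroup Equiv H2.Schur in
theorem eq_of_card_two {H : Type*} [Group H] {K : Subgroup H} (h : Nat.card K = 2) {x y : H}
    (hx : x ∈ K) (hy : y ∈ K) (h1 : x ≠ 1) (h2 : y ≠ 1) : x = y := by
  obtain ⟨z, -, hz⟩ := (Nat.card_eq_two_iff' (1 : K)).1 h
  exact congrArg Subtype.val ((hz ⟨x, hx⟩ fun h => h1 (congrArg Subtype.val h)).trans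
    (hz ⟨y, hy⟩ fun h => h2 (congrArg Subtype.val h)).symm)

theorem sq_of_card_two {H : Type*} [Group H] {K : Subgroup H} (h : Nat.card K = 2) {x : H}
    (hx : x ∈ K) : x ^ 2 = 1 :=
  orderOf_dvd_iff_pow_eq_one.1 (h ▸ K.orderOf_dvd_natCard hx)

/-- Involutions in double covers of alternating groups: for n ≤ 7, a finite non-split double cover of the alternating group of degree n has exactly one element of order 2 (the central one); for degree 8 there is a non-split double cover with two distinct involutions. -/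
theorem result : (∀ (n : ℕ) (H : Type) (_ : Group H) (_ : Finite H), n ≤ 7 → Cfsg.IsNonsplitDoubleCover H (alternatingGroup (Fin n)) → ∀ x y : H, orderOf x = 2 → orderOf y = 2 → x = y) ∧ ∃ (H : Type) (_ : Group H) (_ : Finite H), Cfsg.IsNonsplitDoubleCover H (alternatingGroup (Fin 8)) ∧ ∃ x y : H, x ≠ y ∧ orderOf x = 2 ∧ orderOf y = 2 := by
  open Subgroup Equiv H2.Schur in
  refine ⟨fun n H _ _ hn ⟨h1, ⟨e⟩, h2⟩ => ?_, ?_⟩
  · let σ := e.toMonoidHom.comp (QuotientGroup.mk' (center H))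
    have h3 : ∀ x, σ x = 1 ↔ x ∈ center H := fun x => by simp [σ]
    have key : ∀ x : H, orderOf x = 2 → x ∈ center H := fun x hx => by
      by_contra h
      obtain ⟨s, hs⟩ := exists_section_of_invol (σ := σ) (by simpa) ⟨e.surjective.comp
        (QuotientGroup.mk'_surjective _), fun x => (h3 x).1⟩
        (fun k hk => sq_of_card_two h1 ((h3 k).1 hk)) (hx ▸ pow_orderOf_eq_one x) ((h3 x).not.2 h)
      have h4 : ∀ g, σ (s g) = g := DFunLike.congr_fun hs
      refine h2 s.range (isComplement'_of_disjoint_and_mul_eq_univ (disjoint_def.2 ?_)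
        (Set.eq_univ_of_forall fun g => ⟨g * (s (σ g))⁻¹, (h3 _).1 (by simp [h4]), s (σ g),
          ⟨_, rfl⟩, by simp⟩))
      rintro _ hx ⟨g, rfl⟩
      rw [← h4 g, (h3 _).2 hx, map_one]
    intro x y hx hy
    exact eq_of_card_two h1 (key x hx) (key y hy) (by rintro rfl; simp at hx)
      (by rintro rfl; simp at hy)
  · obtain ⟨Γ, _, _, σ, hσ, h⟩ := exists_stem_prime Nat.prime_two
      (two_dvd_card_mult_alt (α := Fin 8) (by simp))
    have h1 : center Γ = σ.ker := le_antisymm (fun x hx => by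
      rw [MonoidHom.mem_ker, ← mem_bot, ← alternatingGroup.center_eq_bot (by simp), mem_center_iff]
      intro g
      obtain ⟨g, rfl⟩ := hσ.1 g
      rw [← map_mul, mem_center_iff.1 hx, map_mul]) hσ.2.1
    refine ⟨Γ, inferInstance, inferInstance, ⟨h1 ▸ h, ⟨(QuotientGroup.quotientMulEquivOfEq h1).trans
      (QuotientGroup.quotientKerEquivOfSurjective σ hσ.1)⟩, fun L hL => ?_⟩, ?_⟩
    · have h2 := surjective_of_stem hσ (η := L.subtype) fun g => by
        obtain ⟨g, rfl⟩ := hσ.1 g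
        obtain ⟨⟨k, l⟩, rfl⟩ := hL.2 g
        exact ⟨l, by simp [(h1 ▸ k.2 : k.1 ∈ σ.ker), MonoidHom.mem_ker.1]⟩
      have h3 := hL.disjoint
      rw [← L.range_subtype, MonoidHom.range_eq_top.2 h2, disjoint_top, h1] at h3
      simp [h3] at h
    · obtain ⟨z, hz, -⟩ := (Nat.card_eq_two_iff' (1 : σ.ker)).1 h
      obtain ⟨A, hA⟩ := hσ.1 ⟨swap 0 1 * swap 2 3, Perm.mem_alternatingGroup.2 (by decide)⟩
      obtain ⟨u, hu⟩ := hσ.1 ⟨swap 0 4 * swap 1 5 * swap 2 6 * swap 3 7,
        Perm.mem_alternatingGroup.2 (by decide)⟩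
      obtain ⟨v, hv⟩ := hσ.1 ⟨swap 4 5 * swap 5 6, Perm.mem_alternatingGroup.2 (by decide)⟩
      obtain ⟨w, hw⟩ := hσ.1 ⟨swap 4 7 * swap 5 6, Perm.mem_alternatingGroup.2 (by decide)⟩
      have h2 : Commute A (u * A * u⁻¹) := commute_of_map_eq hσ.2.1 (y := ⁅v, w⁆)
        (by simp only [map_commutatorElement, map_mul, map_inv, hA, hu, hv, hw]; decide)
        (commute_comm_lift (cext_of_stem hσ) (by rw [hA, hv]; unfold Commute SemiconjBy; decide)
          (by rw [hA, hw]; unfold Commute SemiconjBy; decide)).symm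
      have h3 : σ (A * (u * A * u⁻¹)) ≠ 1 := by
        simp only [map_mul, map_inv, hA, hu]
        decide
      have h4 : A ^ 2 ∈ σ.ker := by
        rw [MonoidHom.mem_ker, map_pow, hA]
        decide
      refine ⟨z, A * (u * A * u⁻¹), fun h => h3 (h ▸ z.2), orderOf_eq_prime
        (sq_of_card_two h z.2) fun h => hz (Subtype.ext h), orderOf_eq_prime ?_ fun h => h3 (by
          rw [h, map_one])⟩
      rw [h2.mul_pow, conj_pow, mem_center_iff.1 (hσ.2.1 h4), mul_inv_cancel_right, ← sq,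
        sq_of_card_two h h4]

end Cfsg.Agent.S0447
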