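import Cfsg.Statements.S0454
import Cfsg.Agent.Comp.Ly.CA
import Cfsg.Agent.Comp.A11.Iso

set_option autoImplicit false
open Cfsg

namespace Cfsg.Agent.S0454

/-- Existence of the Lyons group: there is a transitive permutation group of degree 8835156, simple of order 51765179004000000, whose point stabiliser is simple of the order of a group of type G2, and which has an involution whose centraliser is a non-split double cover of the alternating group of degree 11. -/
theorem result : ∃ H : Subgroup (Equiv.Perm (Fin 8835156)), Cfsg.IsLy H ∧ MulAction.IsPretransitive H (Fin 8835156) ∧ Cfsg.IsG2 (MulAction.stabilizer H (0 : Fin 8835156)) ∧ ∃ t : H, orderOf t = 2 ∧ Cfsg.IsNonsplitDoubleCover (Subgroup.centralizer ({t} : Set H)) (alternatingGroup (Fin 11)) := by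
  have := Comp.Ly.simple
  have := Comp.G25.simple
  have : Fact (Nat.Prime 2) := ⟨by norm_num⟩
  obtain ⟨P, e, ht, ⟨e1⟩⟩ := Comp.exists_coset_fin Comp.Ly.io.range
    (fun c => by have := Comp.Ly.index; rw [c, Subgroup.index_top] at this; omega) Comp.Ly.index
  have e2 := (MonoidHom.ofInjective Comp.Ly.io_inj).trans e1
  obtain ⟨-, h, -, ⟨e3⟩⟩ := Comp.Ly.CAcen
  obtain ⟨e4⟩ := Comp.A11.iso
  have e5 := Comp.cenEquiv e (Comp.Ly.CAu 18)
  have h' := (Nat.card_congr (Subgroup.centerCongr e5).toEquiv).symm.trans h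
  have hne : e (Comp.Ly.CAu 18) ≠ 1 := fun c => Comp.Ly.CAne (e.map_eq_one_iff.mp c)
  refine ⟨P, ⟨e.symm.isSimpleGroup, (Nat.card_congr e.toEquiv).symm.trans Comp.Ly.card⟩, ht,
    ⟨e2.symm.isSimpleGroup, 5, (by norm_num : Nat.Prime 5).isPrimePow, by norm_num,
      (Nat.card_congr e2.toEquiv).symm.trans Comp.G25.card.2.1⟩, e (Comp.Ly.CAu 18),
    orderOf_eq_prime (by rw [← map_pow, Comp.Ly.CAp, map_one]) hne, h',
    ⟨(QuotientGroup.congr _ _ e5 ?_).symm.trans (e3.symm.trans e4)⟩, fun L hL => ?_⟩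
  · ext g
    obtain ⟨g, rfl⟩ := e5.surjective g
    exact ⟨fun ⟨x, hx, c⟩ => c ▸ MulEquivClass.apply_mem_center e5 hx,
      fun c => ⟨g, (MulEquivClass.apply_mem_center_iff e5).mp c, rfl⟩⟩
  · have hw : e (Comp.Ly.CAu 18) = e (Comp.Ly.s 0 * Comp.Ly.s 0) ^ 2 := by
      rw [Comp.Ly.CAc, ← map_pow]; simp [pow_two, mul_assoc]
    have h1 := Subgroup.sq_mem_of_index_two (hL.index_eq_card.trans h')
      ⟨e (Comp.Ly.s 0 * Comp.Ly.s 0), Subgroup.mem_centralizer_singleton_iff.mpr (by
        rw [hw, ← pow_succ, ← pow_succ'])⟩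
    have h2 := Subgroup.disjoint_def.mp hL.disjoint (Subgroup.mem_center_iff.mpr fun g =>
      Subtype.ext (by
        show g.1 * e _ ^ 2 = e _ ^ 2 * g.1
        rw [← hw]; exact Subgroup.mem_centralizer_singleton_iff.mp g.2)) h1
    exact hne (hw.trans (congrArg Subtype.val h2))


end Cfsg.Agent.S0454
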