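import Cfsg.Statements.S0473
-- import your own Cfsg.Agent.* helpers here
import Cfsg.Agent.Comp.Fi24.He
import Cfsg.Agent.Fischer.F24
import Cfsg.Agent.Fischer.NS

set_option autoImplicit false
open Cfsg

namespace Cfsg.Agent.S0473

/-- The largest Fischer 3-transposition group: a group of order 2 · 1255205709190661721292800 generated by a conjugacy class of 306936 3-transpositions, in which a transposition centraliser has order 2 · 4089470473293004800 and contains a simple subgroup of order 4089470473293004800; its subgroup of index 2 is simple and contains simple subgroups of orders 4089470473293004800 and 4030387200. -/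
theorem result : ∃ (G : Type) (_ : Group G) (_ : Finite G), Nat.card G = 2 * 1255205709190661721292800 ∧ ∃ D : Set G, Cfsg.IsThreeTranspositionClass D ∧ Nat.card D = 306936 ∧ (∀ d ∈ D, Nat.card (Subgroup.centralizer ({d} : Set G)) = 2 * 4089470473293004800 ∧ ∃ K : Subgroup G, K ≤ Subgroup.centralizer ({d} : Set G) ∧ Cfsg.IsFi23 K) ∧ ∃ H : Subgroup G, H.index = 2 ∧ Cfsg.IsFi24' H ∧ (∃ K : Subgroup H, Cfsg.IsFi23 K) ∧ (∃ K : Subgroup H, Cfsg.IsHe K) := by
  open _root_.Cfsg.Agent.Comp _root_.Cfsg.Agent.Comp.Fi24 _root_.Cfsg.Agent.Fischer in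
  have hC : Subgroup.centralizer {s 0} = genW s W0 := by
    ext g
    rw [stab.2, F24.pm.cent, F24.x_eq, Subgroup.mem_centralizer_singleton_iff, commute_iff_eq]
  refine ⟨Spor.Fi24, inferInstance, card.1, card.2.1, F24.D, F24.pm.ttc, F24.pm.ncard, ?_,
    eps.ker, index2, ⟨simpleK, cardK⟩, ⟨F.subgroupOf eps.ker, ?_⟩, (gen tH 7).subgroupOf eps.ker, ?_⟩
  · intro d hd
    rw [F24.D_eq] at hd
    obtain ⟨g, rfl⟩ := isConj_iff.mp hd
    have e : Subgroup.centralizer {g * s 0 * g⁻¹} =
        (genW s W0).map (MulAut.conj g).toMonoidHom := by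
      ext x
      rw [Subgroup.mem_map_equiv, ← hC, Subgroup.mem_centralizer_singleton_iff,
        Subgroup.mem_centralizer_singleton_iff, ← (MulAut.conj g).symm.injective.eq_iff]
      simp [mul_assoc]
    have hs := simpleF
    refine ⟨?_, F.map (MulAut.conj g).toMonoidHom, e ▸ Subgroup.map_mono F_le_W0,
      ((MulAut.conj g).subgroupMap F).symm.isSimpleGroup, ?_⟩
    · rw [e, Subgroup.card_map_of_injective (MulAut.conj g).injective, cardW0]
    · rw [Subgroup.card_map_of_injective (MulAut.conj g).injective, cardF]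
  · have hs := simpleF
    exact ⟨(Subgroup.subgroupOfEquivOfLe F_le).isSimpleGroup,
      (Nat.card_congr (Subgroup.subgroupOfEquivOfLe F_le).toEquiv).trans cardF⟩
  · have hs := He.simple
    have e := (Subgroup.subgroupOfEquivOfLe H_le).trans isoH.symm
    exact ⟨e.isSimpleGroup, (Nat.card_congr e.toEquiv).trans He.card.2.1⟩

end Cfsg.Agent.S0473
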