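import Mathlib
import Cfsg.Statements.S0508
import Cfsg.Agent.Dih.BSW4

set_option autoImplicit false
open Cfsg

namespace Cfsg.Agent.S0508

open Subgroup Cfsg.Agent.Inv Cfsg.Agent.Dih in

/-- Let G be a finite simple group with a dihedral Sylow 2-subgroup S (of order at least 4), t an involution in the
centre of S, C the centralizer of t and O the core of C (its largest normal subgroup of odd order). Suppose that: if O
is nontrivial then the centralizer of O in S is cyclic of index 2 in S; every element of S not centralizing O inverts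
every element of O; and the normalizer of every nontrivial subgroup of O lies in C. Then G is isomorphic to a projective
special linear group of dimension 2 over a field of odd order. -/
theorem result {G : Type*} [Group G] [Finite G] [IsSimpleGroup G] (S : Sylow 2 G) (n : ℕ)
    (hn : 2 ≤ n) (hS : Nonempty ((S : Subgroup G) ≃* DihedralGroup n)) (t : G) (ht : orderOf t = 2)
    (htS : t ∈ (S : Subgroup G))
    (htZ : ∀ s ∈ (S : Subgroup G), s * t = t * s) (O : Subgroup G)
    (hO : O = (Cfsg.oddCore (Subgroup.centralizer ({t} : Set G))).map (Subgroup.centralizer ({t} : Set G)).subtype)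
    (ha : O ≠ ⊥ → IsCyclic ((S : Subgroup G) ⊓ Subgroup.centralizer (O : Set G) : Subgroup G) ∧
      ((S : Subgroup G) ⊓ Subgroup.centralizer (O : Set G)).relIndex (S : Subgroup G) = 2)
    (hb : ∀ s ∈ (S : Subgroup G), s ∉ Subgroup.centralizer (O : Set G) → ∀ y ∈ O, s * y * s⁻¹ = y⁻¹)
    (hc : ∀ Y : Subgroup G, Y ≤ O → Y ≠ ⊥ → Subgroup.normalizer (Y : Set G) ≤ Subgroup.centralizer ({t} : Set G)) :
    ∃ (F : Type) (_ : Field F) (_ : Fintype F), Odd (Fintype.card F) ∧ Nonempty (G ≃* Matrix.ProjectiveSpecialLinearGroup (Fin 2) F) := by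
  obtain ⟨e⟩ := hS
  obtain ⟨x0, y0, m, h0⟩ := exists_dih S.2 hn e
  obtain ⟨x, y, h, rfl⟩ := exists_dih_central h0 ht htS htZ
  have hO' : O = coreC (x ^ 2 ^ m) := hO
  subst hO'
  have h2 : ∀ H : Subgroup G, H.index ≠ 2 := by
    intro H hH
    rcases (normal_of_index_eq_two hH).eq_bot_or_eq_top with e | e
    · subst e
      rw [index_bot] at hH
      have h1 := Nat.le_of_dvd Nat.card_pos (card_subgroup_dvd_card (S : Subgroup G))
      rw [h.card, hH] at h1
      have : 2 ^ 2 ≤ 2 ^ (m + 2) := Nat.pow_le_pow_right (by norm_num) (by omega)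
      omega
    · subst e
      simp at hH
  have hxC : x ∈ centralizer (coreC (x ^ 2 ^ m) : Set G) ∧
      (coreC (x ^ 2 ^ m) ≠ ⊥ → y ∉ centralizer (coreC (x ^ 2 ^ m) : Set G)) := by
    by_cases hb0 : coreC (x ^ 2 ^ m) = ⊥
    · refine ⟨?_, fun e => (e hb0).elim⟩
      rw [hb0]
      intro v hv
      rw [SetLike.mem_coe, mem_bot] at hv
      simp [hv]
    obtain ⟨hcyc, hidx⟩ := ha hb0
    have hcard : Nat.card ((S : Subgroup G) ⊓ centralizer (coreC (x ^ 2 ^ m) : Set G) : Subgroup G)
        = 2 ^ (m + 1) := by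
      have := Core.card_mul_relIndex (inf_le_left :
        (S : Subgroup G) ⊓ centralizer (coreC (x ^ 2 ^ m) : Set G) ≤ S)
      rw [hidx, h.card, pow_succ] at this
      omega
    obtain ⟨σ, hσ⟩ := (Subgroup.isCyclic_iff_exists_zpowers_eq_top _).1 hcyc
    have hσS : σ ∈ (S : Subgroup G) ⊓ centralizer (coreC (x ^ 2 ^ m) : Set G) := by
      rw [← hσ]; exact mem_zpowers σ
    have hz : x ^ 2 ^ m ∈ (S : Subgroup G) ⊓ centralizer (coreC (x ^ 2 ^ m) : Set G) :=
      ⟨htS, fun v hv => mem_centralizer_singleton_iff.1 (coreC_le _ hv)⟩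
    have hσx : σ ∈ zpowers x := by
      by_contra hσx
      have h1 := dih_two h hσS.1 hσx
      rw [← hσ] at hz
      have h3 : x ^ 2 ^ m = σ := by
        obtain ⟨k, hk⟩ := hz
        simp only at hk
        rw [← zpow_mod_orderOf, h1] at hk
        rcases Int.emod_two_eq_zero_or_one k with e | e
        · rw [Nat.cast_ofNat, e, zpow_zero] at hk
          rw [← hk] at ht; simp at ht
        · rw [Nat.cast_ofNat, e, zpow_one] at hk
          exact hk.symm
      exact hσx (h3 ▸ MC.z_memX x m)
    have heq : (S : Subgroup G) ⊓ centralizer (coreC (x ^ 2 ^ m) : Set G) = zpowers x := by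
      refine Core.eq_of_le_of_card_le (by rw [← hσ]; exact zpowers_le_of_mem hσx) ?_
      rw [hcard, Nat.card_zpowers, h.ord]
    refine ⟨(heq.ge (mem_zpowers x)).2, fun _ hy => h.ny (heq.le ⟨h.y_mem, hy⟩)⟩
  have H := bsw_of_dih h (fun a ha => one_class h h2 ha) (fun v hv => (hxC.1 v hv).symm)
    (fun v hv => by
      by_cases hb0 : coreC (x ^ 2 ^ m) = ⊥
      · rw [hb0, mem_bot] at hv
        simp [hv]
      · exact hb y h.y_mem (hxC.2 hb0) v hv)
    (fun v hv v1 g hg => by
      refine mem_centralizer_singleton_iff.1 (hc (zpowers v) (zpowers_le_of_mem hv)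
        (by simpa using v1) (centralizer_le_normalizer _ ?_))
      rintro _ ⟨k, rfl⟩
      exact (Commute.zpow_left hg.symm k).eq)
  obtain ⟨F, i1, i2, hF, e⟩ := H.iso
  refine ⟨F, i1, i2, ?_, e⟩
  rcases hF with hF | hF
  · exact ⟨_, hF⟩
  · exact Nat.odd_iff.2 (by omega)

end Cfsg.Agent.S0508
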