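import Mathlib
import Cfsg.Statements.S0519
import Cfsg.Agent.PGrp.CyclicTwo
-- import your own Cfsg.Agent.* helpers here

set_option autoImplicit false
open Cfsg

namespace Cfsg.Agent.S0519

/-- Let P be a finite p-group in which every abelian normal subgroup is cyclic, but which has a non-cyclic abelian
subgroup. Then p = 2 and P is generalized quaternion, dihedral of order at least 16, or quasi-dihedral. -/
theorem result {P : Type*} [Group P] [Finite P] (p : ℕ) [Fact p.Prime]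
    (hP : IsPGroup p P) (hn : ∀ A : Subgroup P, A.Normal → IsMulCommutative A → IsCyclic A)
    (hm : ∃ B : Subgroup P, IsMulCommutative B ∧ ¬ IsCyclic B) :
    p = 2 ∧ ((∃ n : ℕ, Nonempty (P ≃* QuaternionGroup n)) ∨ (∃ n : ℕ, 8 ≤ n ∧ Nonempty (P ≃* DihedralGroup n)) ∨
      Cfsg.IsQuasiDihedral P) := by
  obtain ⟨B, hB, hBc⟩ := hm
  have hnc : ¬ IsCyclic P := by
    intro h
    exact hBc inferInstance
  have hp2 : p = 2 := by
    by_contra hp2
    obtain ⟨E, -, hEn, hE, hE2⟩ := PGrp.exists_normal_elementary_sq hp2 hP ⊤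
      (fun h => hnc (PGrp.isCyclic_top_iff.mp h))
    have hp : p.Prime := Fact.out
    have h1 := PGrp.card_le_of_isCyclic_of_pow hp.ne_zero (hn E hEn hE.1) hE.2
    rw [hE2] at h1
    have := hp.one_lt
    nlinarith
  subst hp2
  refine ⟨rfl, ?_⟩
  obtain ⟨a, b, m, ha, hidx, hb, h | h | h⟩ := PGrp.exists_gens_of_normal_abelian_cyclic hP hn hnc
  · refine Or.inr (Or.inl ⟨2 ^ (m + 1), ?_,
      PGrp.nonempty_equiv_dihedral_of_gens ha hidx hb h.2.1 h.2.2⟩)
    calc 8 = 2 ^ 3 := by norm_num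
      _ ≤ 2 ^ (m + 1) := Nat.pow_le_pow_right (by norm_num) (by omega)
  · exact Or.inl ⟨_, PGrp.nonempty_equiv_quaternion_of_gens ha hidx hb h.2.1 h.2.2⟩
  · exact Or.inr (Or.inr (PGrp.isQuasiDihedral_of_gens h.1 ha hidx hb h.2.1 h.2.2))

end Cfsg.Agent.S0519
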