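import Mathlib
import Cfsg.Statements.S0547
import Cfsg.Agent.H2.PrimAct

set_option autoImplicit false
open scoped Pointwise commutatorElement
open Cfsg

namespace Cfsg.Agent.S0547

/-- Let a finite solvable group G act faithfully and primitively on a set, and let M be a minimal normal subgroup of G. Then M is transitive with trivial point stabilizers, and the number of points equals the order of M, which is a prime power p ^ d with d ≥ 1. -/
theorem result {G : Type*} [Group G] [Finite G] [Group.IsSolvable G] {Ω : Type*} [Nonempty Ω] [MulAction G Ω] [FaithfulSMul G Ω] (hprim : MulAction.IsPreprimitive G Ω) (M : Subgroup G) [M.Normal] (hM : M ≠ ⊥) (hmin : ∀ K : Subgroup G, K.Normal → K ≤ M → K = ⊥ ∨ K = M) : MulAction.IsPretransitive M Ω ∧ (∀ ω : Ω, MulAction.stabilizer M ω = ⊥) ∧ ∃ p d : ℕ, p.Prime ∧ 0 < d ∧ Nat.card Ω = p ^ d ∧ Nat.card M = p ^ d := by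
  have hN : H2.MinN M := ⟨‹_›, hM, hmin⟩
  obtain ⟨p, hp, hel⟩ := hN.elementary inferInstance
  have := Fact.mk hp
  obtain ⟨ω₀⟩ := ‹Nonempty Ω›
  have h := fun ω : Ω => H2.coreFree_stabilizer hprim hM ω
  obtain ⟨d, hd⟩ := IsPGroup.iff_card.1 (Core.IsElementaryAbelian.isPGroup hel)
  refine ⟨H2.isPretransitive_of_sup_eq_top ω₀ ((h ω₀).sup_eq_top ‹_› hM), fun ω => ?_, p, d, hp,
    Nat.pos_of_ne_zero ?_, ?_, hd⟩
  · rw [eq_bot_iff]
    intro x hx
    have : (x : G) ∈ M ⊓ MulAction.stabilizer G ω := ⟨x.2, hx⟩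
    rw [(h ω).inf_eq_bot_of_comm hM hel.1] at this
    exact Subtype.ext this
  · rintro rfl
    exact hM (Subgroup.eq_bot_of_card_eq _ (by rw [hd, pow_zero]))
  · rw [← hd, ← (H2.isComplement'_of_normal ((h ω₀).inf_eq_bot_of_comm hM hel.1)
      ((h ω₀).sup_eq_top ‹_› hM)).index_eq_card, MulAction.index_stabilizer_of_transitive]

end Cfsg.Agent.S0547
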