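import Mathlib
import Cfsg.Statements.S0662
import Cfsg.Agent.PGrp.IndexP
-- import your own Cfsg.Agent.* helpers here

set_option autoImplicit false
open Cfsg

namespace Cfsg.Agent.S0662

/-- In a p-group of maximal class of order at least p³ the normal subgroups of index at least p² are exactly the terms of the lower central series, and there are exactly p + 1 normal subgroups of index p. -/
theorem result {G : Type*} [Group G] [Finite G] {p : ℕ} [Fact p.Prime] (n : ℕ) (hG : Nat.card G = p ^ n) (hcl : Group.nilpotencyClass G = n - 1) (hn : 3 ≤ n) : (∀ (N : Subgroup G) [N.Normal] (r : ℕ), 2 ≤ r → N.index = p ^ r → N = (⊤ : Subgroup G).lowerCentralSeries (r - 1)) ∧ Nat.card {N : Subgroup G // N.Normal ∧ N.index = p} = p + 1 := by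
  have hp : p.Prime := Fact.out
  have hP : IsPGroup p G := IsPGroup.of_card hG
  refine ⟨fun N _ r hr hN => ?_, ?_⟩
  · have h1 := PGrp.lowerCentralSeries_le_of_index N hr hN
    have hrn : r ≤ n := by
      have := N.index_dvd_card
      rw [hN, hG] at this
      exact (Nat.pow_dvd_pow_iff_le_right hp.one_lt).mp this
    have h2 := PGrp.index_lowerCentralSeries_of_maximal_class hG hcl (r := r - 1) (by omega)
      (by omega)
    rw [show r - 1 + 1 = r by omega, ← hN] at h2
    refine (PGrp.eq_of_le_of_card_le h1 ?_).symm
    have e1 := N.card_mul_index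
    have e2 := ((⊤ : Subgroup G).lowerCentralSeries (r - 1)).card_mul_index
    rw [h2, ← e1] at e2
    exact (Nat.eq_of_mul_eq_mul_right (Nat.pos_of_ne_zero Subgroup.index_ne_zero_of_finite) e2).ge
  · have h1 := PGrp.index_commutator_of_maximal_class hG hcl (by omega)
    have h2 : frattini G = commutator G := by
      by_contra hne
      have hlt : commutator G < frattini G :=
        lt_of_le_of_ne (PGrp.commutator_le_frattini hP) (Ne.symm hne)
      have h3 := PGrp.mul_card_le_of_lt (hP.to_subgroup _) hlt
      have e1 := (commutator G).card_mul_index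
      have e2 := (frattini G).card_mul_index
      have h4 : (frattini G).index ≤ p := by
        rw [h1, ← e2] at e1
        have hpos : 0 < p * Nat.card (commutator G) := Nat.mul_pos hp.pos Nat.card_pos
        refine Nat.le_of_mul_le_mul_left ?_ hpos
        calc p * Nat.card (commutator G) * (frattini G).index
            ≤ Nat.card (frattini G) * (frattini G).index := Nat.mul_le_mul_right _ h3
          _ = _ := by rw [← e1]; ring
      have hc := PGrp.isMulCommutative_of_isCyclic (PGrp.isCyclic_of_index_frattini_le hP h4)
      have := (commutator_eq_bot_iff G).mpr hc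
      rw [this, Subgroup.index_bot, hG] at h1
      have := Nat.pow_right_injective hp.two_le h1
      omega
    rw [← PGrp.card_index_eq_prime_ge h1 le_rfl (fun x => h2 ▸ PGrp.pow_mem_frattini hP x)]
    refine Nat.card_congr (Equiv.subtypeEquivRight fun M => ⟨fun ⟨_, h⟩ =>
      ⟨PGrp.commutator_le_of_index_prime hp h, h⟩, fun h =>
      ⟨PGrp.normal_of_index_eq_prime hP h.2, h.2⟩⟩)

end Cfsg.Agent.S0662
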