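import Mathlib
import Cfsg.Statements.S0678
import Cfsg.Agent.S0496
import Cfsg.Agent.Perm.PrimeDegree
import Cfsg.Agent.Perm.Small

set_option autoImplicit false
open Cfsg

namespace Cfsg.Agent.S0678

open Subgroup Cfsg.Agent.Perm MulAction

theorem core {G α : Type*} [Group G] [Finite G] [MulAction G α] [FaithfulSMul G α] [IsPretransitive G α]
    (hα : Nat.card α = 7) (hG : ¬ Group.IsSolvable G) (h1 : Nat.card G ∣ 2520) (h2 : Nat.card G ≤ 360) :
    Nat.card G = 168 ∧ IsSimpleGroup G := by
  haveI : Fact (Nat.Prime 7) := ⟨by norm_num⟩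
  obtain ⟨P⟩ := (inferInstance : Nonempty (Sylow 7 G))
  obtain ⟨d, hd, hrel, hcount, hmod⟩ := prime_degree_sylow_count hα P
  have hsq : ¬ Squarefree (Nat.card G) := fun h => by
    haveI := IsZGroup.of_squarefree h
    exact hG inferInstance
  have hd6 : d ≤ 6 := Nat.le_of_dvd (by norm_num) hd
  have hn1 : Nat.card (Sylow 7 G) ≠ 1 := by
    intro h
    rw [h, one_mul] at hcount
    apply hsq
    rw [← hcount]
    interval_cases d <;> first | (exfalso; revert hd; decide) | decide +kernel
  have hn0 : 0 < Nat.card (Sylow 7 G) := Nat.card_pos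
  have hprime : d.Prime → Nat.card G = 168 ∧ IsSimpleGroup G := by
    intro hp
    haveI := prime_degree_simple hα P (by omega) (hrel ▸ hp)
    have hab : ¬ IsMulCommutative G := fun h => hG (IsSimpleGroup.comm_iff_isSolvable.1 fun a b => h.1.1 a b)
    refine ⟨?_, this⟩
    have h7 : 7 ∣ Nat.card G := hcount ▸ (dvd_mul_right 7 d).mul_left _
    rcases Cfsg.Agent.S0496.result hab (by omega) with h | h | h | h | h | h
    all_goals first | exact h | omega
  interval_cases d
  · exact absurd hd (by decide)
  · exfalso
    rw [relIndex_eq_one] at hrel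
    have := prime_degree_card_eq_of_self_normalizing hα P hrel
    exact hsq (by rw [this]; decide +kernel)
  · exact hprime Nat.prime_two
  · exact hprime Nat.prime_three
  · exact absurd hd (by decide)
  · exact absurd hd (by decide)
  · exfalso
    have h8 : Nat.card (Sylow 7 G) = 8 := by
      unfold Nat.ModEq at hmod
      omega
    rw [h8] at hcount
    rw [← hcount] at h1
    revert h1; decide


/-- A non-solvable transitive permutation group on 7 points that does not contain the alternating group is a simple group of order 168. -/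
theorem result {α : Type*} [Fintype α] [DecidableEq α] (hα : Fintype.card α = 7) (G : Subgroup (Equiv.Perm α)) [MulAction.IsPretransitive G α] (hG : ¬ Group.IsSolvable G) (hA : ¬ alternatingGroup α ≤ G) : Nat.card G = 168 ∧ IsSimpleGroup G := by
  classical
  have hα' : Nat.card α = 7 := by rw [Nat.card_eq_fintype_card, hα]
  haveI : Nontrivial α := Fintype.one_lt_card_iff_nontrivial.1 (by omega)
  haveI hprim : IsPreprimitive G α := IsPreprimitive.of_prime_card (by rw [hα']; norm_num)
  have hA7 : Nat.card (alternatingGroup α) = 2520 := by rw [nat_card_alternatingGroup, hα']; decide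
  haveI : IsSimpleGroup (alternatingGroup α) := alternatingGroup.isSimpleGroup (by omega)
  set N : Subgroup G := (alternatingGroup α).subgroupOf G with hN
  have hidx : N.index ∣ 2 := by
    have := relIndex_dvd_index_of_normal (H := alternatingGroup α) (K := G)
    rwa [alternatingGroup.index_eq_two] at this
  have hNs : ¬ Group.IsSolvable N := by
    intro hs
    apply hG
    have hq : Group.IsSolvable (G ⧸ N) := by
      have hc : Nat.card (G ⧸ N) ∣ 2 := hidx
      have : IsPGroup 2 (G ⧸ N) := by
        rw [IsPGroup.iff_card]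
        obtain ⟨k, -, hk⟩ := (Nat.dvd_prime_pow Nat.prime_two (m := 1)).1 hc
        exact ⟨k, hk⟩
      haveI := this.isNilpotent
      infer_instance
    exact solvable_of_ker_le_range N.subtype (QuotientGroup.mk' N) (by simp)
  have hN0 : N ≠ ⊥ := by
    intro h
    apply hNs
    rw [h]; infer_instance
  haveI : IsPretransitive N α := transitive_of_normal N hN0
  set M : Subgroup (alternatingGroup α) := G.subgroupOf (alternatingGroup α) with hM
  have hNM : Nat.card N = Nat.card M := by
    rw [hN, hM, ← inf_subgroupOf_right, ← inf_subgroupOf_right G,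
      Nat.card_congr (subgroupOfEquivOfLe inf_le_right).toEquiv,
      Nat.card_congr (subgroupOfEquivOfLe inf_le_right).toEquiv, inf_comm]
  have hMt : M ≠ ⊤ := by
    rw [hM, Ne, subgroupOf_eq_top]; exact hA
  have hab : ¬ IsMulCommutative (alternatingGroup α) := not_comm_of_not_prime (by rw [hA7]; norm_num)
  have hfac := two_mul_card_dvd_factorial hab M hMt
  have hmul := M.card_mul_index
  rw [hA7] at hfac hmul
  have h7 : 7 ≤ M.index := by
    by_contra h
    have h0 : M.index ≠ 0 := index_ne_zero_of_finite
    generalize M.index = m at *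
    have : m ≤ 6 := by omega
    interval_cases m <;> revert hfac <;> decide
  obtain ⟨h168, hs⟩ := core (G := N) hα' hNs (by rw [hNM, ← hmul]; exact dvd_mul_right _ _) (by rw [hNM]; nlinarith)
  rcases (Nat.dvd_prime Nat.prime_two).1 hidx with h | h
  · rw [index_eq_one] at h
    rw [h] at h168 hs
    exact ⟨by rwa [card_top] at h168, (topEquiv (G := G)).symm.isSimpleGroup⟩
  · exfalso
    have hc : Nat.card G = 336 := by rw [← N.card_mul_index, h168, h]
    obtain ⟨Q⟩ := (inferInstance : Nonempty (Sylow 2 G))
    have hQ : Nat.card Q = 2 ^ 4 := sylow_card_eq Q (m := 21) (by rw [hc]; norm_num) (by norm_num)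
    have hS : Nat.card (Equiv.Perm α) = 2 ^ 4 * 315 := by rw [Nat.card_perm, hα']; decide
    have hQ' : IsPGroup 2 ((Q : Subgroup G).map G.subtype) := Q.isPGroup'.map _
    obtain ⟨R, hR⟩ := hQ'.exists_le_sylow
    have hRc : Nat.card R = 2 ^ 4 := sylow_card_eq R hS (by norm_num)
    have hQR : (Q : Subgroup G).map G.subtype = R :=
      eq_of_le_of_card_ge hR (by rw [card_map_of_injective G.subtype_injective]; exact (hRc.trans hQ.symm).le)
    obtain ⟨a, b, hab'⟩ := exists_pair_ne α
    have hsw : (Equiv.swap a b).IsSwap := ⟨a, b, hab', rfl⟩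
    obtain ⟨R', hR'⟩ := exists_sylow_mem (p := 2) (k := 1) (x := Equiv.swap a b) (by rw [hsw.orderOf]; rfl)
    obtain ⟨g, hg⟩ := exists_smul_eq (Equiv.Perm α) R' R
    have hmem : g * Equiv.swap a b * g⁻¹ ∈ (R : Subgroup (Equiv.Perm α)) := by
      rw [← hg, Sylow.coe_subgroup_smul]
      exact smul_mem_pointwise_smul _ (MulAut.conj g) _ hR'
    rw [← hQR] at hmem
    have hmG : g * Equiv.swap a b * g⁻¹ ∈ G := map_subtype_le _ hmem
    rw [← Equiv.swap_apply_apply] at hmG
    have := Equiv.Perm.subgroup_eq_top_of_isPreprimitive_of_isSwap_mem hprim _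
      ⟨g a, g b, g.injective.ne hab', rfl⟩ hmG
    exact hA (this ▸ le_top)

end Cfsg.Agent.S0678
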