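import Mathlib
import Cfsg.Statements.S0679
import Cfsg.Agent.Isaacs.Deg11
import Cfsg.Agent.S0498
-- import your own Cfsg.Agent.* helpers here

set_option autoImplicit false
open Cfsg

namespace Cfsg.Agent.S0679

section
open Finset MulAction Subgroup Cfsg.Agent.Perm Cfsg.Agent.Deg11

variable {G α : Type*} [Group G] [MulAction G α] [Fintype α] [DecidableEq α] [Finite G] [FaithfulSMul G α]
  (hα : Fintype.card α = 11) (hF : ∀ g : G, g ≠ 1 → #(fx α g) ∈ ({0, 1, 2, 3, 5} : Finset ℕ))

include hα hF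

theorem bl3 {K : Subgroup G} {a b c : α} (hab : a ≠ b) (ha : c ≠ a) (hb : c ≠ b)
    (hK : K ≤ stabilizer G a ⊓ stabilizer G b ⊓ stabilizer G c) : Nat.card K ∣ 48 := by
  have := bl (α := α) K {3, 5} fun g hg h1 => by
    have h2 := hF g h1
    obtain ⟨⟨h3, h4⟩, h5⟩ := hK hg
    have : 2 < #(fx α g) := two_lt_card_iff.mpr ⟨a, b, c, mem_fx.mpr h3, mem_fx.mpr h4, mem_fx.mpr h5, hab, ha.symm, hb.symm⟩
    simp only [mem_insert, Finset.mem_singleton] at h2 ⊢
    omega
  rwa [hα] at this

omit [Finite G] [FaithfulSMul G α] hα in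
theorem five {g : G} (h1 : g ≠ 1) {x : Fin 4 → α} (hx : Function.Injective x) (h : ∀ i, g • x i = x i) :
    #(fx α g) = 5 := by
  have h2 := hF g h1
  have : #(univ : Finset (Fin 4)) ≤ #(fx α g) := card_le_card_of_injOn x (fun i _ => mem_fx.mpr (h i)) hx.injOn
  simp only [mem_insert, Finset.mem_singleton, card_univ, Fintype.card_fin] at h2 this
  omega

omit [Finite G] [FaithfulSMul G α] hα in
theorem bl4 {a b c d : α} (hab : a ≠ b) (ha : c ≠ a) (hb : c ≠ b) (hd : d ∈ orb (stabilizer G a ⊓ stabilizer G b) c)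
    (hdc : d ≠ c) {g : G} (hg : g ∈ stabilizer G a ⊓ stabilizer G b ⊓ stabilizer G c ⊓ stabilizer G d) (h1 : g ≠ 1) :
    #(fx α g) = 5 := by
  have := orb_sub ha hb hd
  simp only [mem_erase] at this
  refine five hF h1 (inj4 hab ha.symm this.2.1.symm hb.symm this.1.symm hdc.symm) fun i => ?_
  obtain ⟨⟨⟨h2, h3⟩, h4⟩, h5⟩ := hg
  fin_cases i <;> assumption

omit hF [Finite G] [FaithfulSMul G α] in
theorem card2 (h2 : IsMultiplyPretransitive G α 2) {a b : α} (hab : a ≠ b) :
    Nat.card G = 110 * Nat.card (stabilizer G a ⊓ stabilizer G b :) := by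
  rw [card_eq_descFactorial_mul h2 ⟨![a, b], inj2 hab⟩, Nat.card_eq_fintype_card, hα]
  congr 3
  ext g
  simp [mem_stab, -mem_stabilizer_iff, Fin.forall_fin_two]
  rfl

theorem big (h2 : IsMultiplyPretransitive G α 2) (he : ∀ g : G, Equiv.Perm.sign (toPermHom G α g) = 1)
    (hc : Nat.card G = 7920) : IsMultiplyPretransitive G α 4 ∧ ∀ x : Fin 4 ↪ α, stabilizer G x = ⊥ := by
  have hs : ∀ x : Fin 4 ↪ α, stabilizer G x = ⊥ := sharp_of_forall fun x hx g hg => by
    have hab : x 0 ≠ x 1 := hx.ne (by decide)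
    have h72 := card2 hα h2 hab
    have h9 := nine (G := G) hα hab (c := x 2) (fun c ha hb h9 => by
      have h1 := card_orb (stabilizer G (x 0) ⊓ stabilizer G (x 1)) c
      have h3 := bl3 hα hF hab ha hb le_rfl
      have h4 : #(orb (stabilizer G (x 0) ⊓ stabilizer G (x 1)) c) ≠ 3 := fun e => by
        obtain ⟨d, hd, hdc, h5⟩ := three e
        have h6 := bl (α := α) _ {5} fun g hg h1 => Finset.mem_singleton.mpr (bl4 hF hab ha hb hd hdc hg h1)
        rw [prod_singleton, hα] at h6
        have := Nat.le_of_dvd (by norm_num) h6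
        rw [e] at h1
        omega
      have key : ∀ o ≤ 9, ∀ s ∈ Nat.divisors 48, o * s = 72 → o = 3 ∨ o = 6 ∨ o = 9 := by decide +kernel
      exact (key _ h9 _ (Nat.mem_divisors.mpr ⟨h3, by norm_num⟩) (by omega)).resolve_left h4) (hx.ne (by decide)) (hx.ne (by decide))
    have h1 := card_orb (stabilizer G (x 0) ⊓ stabilizer G (x 1)) (x 2)
    by_contra h0
    obtain ⟨n, hn⟩ := exists_prime_pow h0
    have h3 : ∀ i, g ^ n • x i = x i := fun i => (stabilizer G _).pow_mem (hg i) n
    have h4 := orderOf_dvd_natCard _ (show g ^ n ∈ stabilizer G (x 0) ⊓ stabilizer G (x 1) ⊓ stabilizer G (x 2) from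
      ⟨⟨h3 0, h3 1⟩, h3 2⟩)
    rw [show Nat.card (stabilizer G (x 0) ⊓ stabilizer G (x 1) ⊓ stabilizer G (x 2) :) = 2 ^ 3 by rw [h9] at h1; omega] at h4
    have h5 := (Nat.prime_dvd_prime_iff_eq hn Nat.prime_two).mp (hn.dvd_of_dvd_pow h4)
    have h6 := five hF (mt orderOf_eq_one_iff.mpr hn.ne_one) hx h3
    have h7 := Equiv.Perm.sign_of_pow_two_eq_one (σ := toPermHom G α (g ^ n)) (by
      rw [← map_pow, ← h5, pow_orderOf_eq_one, map_one])
    have h8 : Fintype.card (Function.fixedPoints (toPermHom G α (g ^ n))) = 5 := by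
      rw [← h6, ← Fintype.card_coe]
      exact Fintype.card_congr (Equiv.subtypeEquivRight fun y => by simp [mem_fx, Function.IsFixedPt, -map_pow])
    rw [he, h8, hα] at h7
    exact absurd h7 (by decide)
  refine ⟨⟨fun x y => ?_⟩, hs⟩
  have h1 := card_orbit_mul_card_stabilizer (G := G) x
  rw [hs, card_bot, mul_one, hc] at h1
  have h3 : orbit G x = Set.univ := Set.eq_of_subset_of_ncard_le (Set.subset_univ _) (by
    rw [Set.ncard_univ, Nat.card_eq_fintype_card, Fintype.card_embedding_eq, hα, Fintype.card_fin]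
    exact h1.ge)
  exact (h3 ▸ Set.mem_univ y : y ∈ orbit G x)

theorem even [IsPretransitive G α] (hG : ¬ Group.IsSolvable G) (he : ∀ g : G, Equiv.Perm.sign (toPermHom G α g) = 1) :
    (Nat.card G = 660 ∧ IsSimpleGroup G) ∨ Nat.card G = 7920 := by
  have : Fact (Nat.Prime 11) := ⟨by norm_num⟩
  have hα' : Nat.card α = 11 := by rw [Nat.card_eq_fintype_card, hα]
  have h2 := (burnside_prime_degree (G := G) hα').resolve_left hG
  obtain ⟨a, b, hab⟩ := (Fintype.one_lt_card_iff_nontrivial.mp (by omega) : Nontrivial α)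
  have h1 := card2 hα h2 hab
  have h3 := bl (α := α) (⊤ : Subgroup G) _ fun g _ => hF g
  rw [card_top, hα, h1] at h3
  obtain ⟨P⟩ : Nonempty (Sylow 11 G) := inferInstance
  obtain ⟨d, hd, hrel, hcount, hmod⟩ := prime_degree_sylow_count hα' P
  have hodd : ¬ Even d := fun hev => by
    obtain ⟨e, τ, hP, hτ, hτ'⟩ := exists_translation hα' P
    obtain ⟨d', -, h4, h5⟩ := prime_degree_card_normalizer hα' (P : Subgroup G) (prime_degree_card_sylow hα' P)
    obtain ⟨t, c, ht⟩ := exists_reflection hτ' (by norm_num) (by rw [← hP, h5, ← h4, hrel]; exact hev.mul_left _)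
    have h7 := Equiv.Perm.sign_of_pow_two_eq_one (σ := toPermHom G α t) (by
      ext x; apply e.injective; simp [sq, ht])
    have h8 : Fintype.card (Function.fixedPoints (toPermHom G α t)) = 1 := by
      refine Fintype.card_eq_one_iff.mpr ⟨⟨e.symm (6 * c), e.injective ?_⟩, fun y => Subtype.ext (e.injective ?_)⟩
      · have : (11 : ZMod 11) = 0 := rfl
        simp only [toPermHom_apply, toPerm_apply, ht, Equiv.apply_symm_apply]
        linear_combination (-c) * this
      · have : (11 : ZMod 11) = 0 := rfl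
        have h := congrArg e y.2
        simp only [toPermHom_apply, toPerm_apply, ht, Equiv.apply_symm_apply] at h ⊢
        linear_combination (-6) * h - (e y) * this
    rw [he, h8, hα] at h7
    exact absurd h7 (by decide)
  have hd1 : d ≠ 1 := fun e => by
    rw [e, relIndex_eq_one] at hrel
    have := prime_degree_card_eq_of_self_normalizing hα' P hrel
    omega
  obtain rfl : d = 5 := by
    have := Nat.le_of_dvd (by norm_num) hd
    interval_cases d <;> simp_all (config := {decide := true})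
  have h4 : ∀ k ∈ Nat.divisors 432, 2 * k % 11 = 1 → k = 6 ∨ k = 72 := by decide +kernel
  have h5 := h4 _ (Nat.mem_divisors.mpr ⟨Nat.dvd_of_mul_dvd_mul_left (k := 110) (by norm_num) h3, by norm_num⟩)
    (by unfold Nat.ModEq at hmod; omega)
  exact h5.imp (fun h => ⟨by omega, prime_degree_simple hα' P (by omega) (by rw [hrel]; norm_num)⟩) (by omega)

theorem no5 {v : G} (hv : #(fx α v) = 5) : ¬ 5 ∣ Nat.card (centralizer ({v} : Set G)) := fun h => by
  have : Fact (Nat.Prime 5) := ⟨by norm_num⟩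
  obtain ⟨⟨g, hg⟩, ho⟩ := exists_prime_orderOf_dvd_card' 5 h
  rw [← Subgroup.orderOf_coe] at ho
  have hc := mem_centralizer_singleton_iff.mp hg
  have h5 : g ^ 5 = 1 := ho ▸ pow_orderOf_eq_one _
  have h1 := fx_modEq (α := α) h5
  have h2 := hF g fun e => by simp [e] at ho
  obtain ⟨f, hf⟩ := card_eq_one.mp (show #(fx α g) = 1 by
    simp only [mem_insert, Finset.mem_singleton, Nat.ModEq, hα] at h1 h2; omega)
  have h3 : ∀ x, g • x = x ↔ x = f := fun x => by rw [← mem_fx, hf, Finset.mem_singleton]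
  have h4 := ncard_modEq_fixedBy (p := 5) (k := 1) h5 (fx α v : Set α) (Set.toFinite _) fun x hx =>
    mem_fx.mpr (by rw [← mul_smul, ← hc, mul_smul, mem_fx.mp hx])
  have h6 : {x | x ∈ (fx α v : Set α) ∧ g • x = x} = {f} := Set.ext fun x => ⟨fun h => (h3 x).mp h.2, fun h => by
    obtain rfl : x = f := h
    exact ⟨mem_fx.mpr ((h3 _).mp (by rw [← mul_smul, hc, mul_smul, (h3 x).mpr rfl])), (h3 x).mpr rfl⟩⟩
  rw [h6, Set.ncard_coe_finset, hv, Set.ncard_singleton] at h4
  exact absurd h4 (by decide)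

theorem odd (N : Subgroup G) (φ : G →* ℤˣ) (hN : N = φ.ker) {k : ℕ} (h : IsMultiplyPretransitive G α k) (x : Fin k ↪ α)
    {v : G} (hv : #(fx α v) = 5) : ∃ c m, c ∣ Nat.card G ∧ ¬ 5 ∣ c ∧ m ≤ Nat.card (stabilizer N x) ∧
      Nat.descFactorial 5 k * Nat.card (stabilizer G x) = c * m := by
  refine ⟨_, _, card_subgroup_dvd_card _, no5 hα hF hv, ?_, hv ▸ count h x v⟩
  subst hN
  rcases Set.eq_empty_or_nonempty {g : G | IsConj v g ∧ g ∈ stabilizer G x} with e | ⟨g, h1, h2⟩
  · rw [e]; simp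
  refine Nat.card_le_card_of_injective (fun y : {g : G | IsConj v g ∧ g ∈ stabilizer G x} =>
    (⟨⟨g⁻¹ * y, ?_⟩, mul_mem (inv_mem h2) y.2.2⟩ : stabilizer φ.ker x)) fun _ _ e => by simpa [Subtype.ext_iff] using e
  rw [MonoidHom.mem_ker, map_mul, map_inv, ← isConj_iff_eq.mp (φ.map_isConj h1), isConj_iff_eq.mp (φ.map_isConj y.2.1),
    inv_mul_cancel]

theorem main [IsPretransitive G α] (hG : ¬ Group.IsSolvable G) :
    (Nat.card G = 660 ∧ IsSimpleGroup G) ∨ (IsMultiplyPretransitive G α 4 ∧ ∀ x : Fin 4 ↪ α, stabilizer G x = ⊥) := by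
  have : Fact (Nat.Prime 11) := ⟨by norm_num⟩
  have hα' : Nat.card α = 11 := by rw [Nat.card_eq_fintype_card, hα]
  have h2 := (burnside_prime_degree (G := G) hα').resolve_left hG
  let φ : G →* ℤˣ := Equiv.Perm.sign.comp (toPermHom G α)
  by_cases he : ∀ g, φ g = 1
  · exact (even hα hF hG he).imp id (big hα hF h2 he)
  exfalso
  have hi : φ.ker.index = 2 := by
    rw [index_ker]
    refine ((Nat.dvd_prime Nat.prime_two).mp (by simpa using card_subgroup_dvd_card φ.range)).resolve_left fun e => he ?_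
    exact fun g => (card_eq_one.mp e ▸ (⟨g, rfl⟩ : φ g ∈ φ.range) : φ g ∈ (⊥ : Subgroup ℤˣ))
  have hN : ¬ Group.IsSolvable φ.ker := fun _ => hG (Group.isSolvable_of_ker_le_range φ.ker.subtype φ (by simp))
  have := IsPreprimitive.of_prime_card (G := G) (X := α) (by rw [hα']; norm_num)
  have := transitive_of_normal (α := α) φ.ker fun e => hN (by rw [e]; infer_instance)
  have hF' : ∀ g : φ.ker, g ≠ 1 → #(fx α g) ∈ ({0, 1, 2, 3, 5} : Finset ℕ) := fun g hg =>
    hF g fun e => hg (Subtype.ext e)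
  have h2' := (burnside_prime_degree (G := φ.ker) hα').resolve_left hN
  have hc := φ.ker.card_mul_index
  rw [hi] at hc
  rcases even hα hF' hN (fun g => g.2) with ⟨h1, -⟩ | h1
  · obtain ⟨a, b, hab⟩ := (Fintype.one_lt_card_iff_nontrivial.mp (by omega) : Nontrivial α)
    have h12 := card2 hα h2 hab
    obtain ⟨v, hv⟩ : ∃ v : G, #(fx α v) = 5 := by
      by_contra! h5
      obtain ⟨c, hc'⟩ := card_pos.mp (show 0 < #((univ.erase a).erase b) by
        rw [card_erase_of_mem (by simp [hab.symm]), card_erase_of_mem (mem_univ _), card_univ, hα]; norm_num)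
      simp only [mem_erase] at hc'
      have h9 := nine (G := G) hα hab (fun c ha hb h9 => by
        have h1 := card_orb (stabilizer G a ⊓ stabilizer G b) c
        have h3 := bl (α := α) (stabilizer G a ⊓ stabilizer G b ⊓ stabilizer G c) {3} fun g hg h1 => by
          have h2 := hF g h1
          have := h5 g
          obtain ⟨⟨h3, h4⟩, h5⟩ := hg
          have : 2 < #(fx α g) :=
            two_lt_card_iff.mpr ⟨a, b, c, mem_fx.mpr h3, mem_fx.mpr h4, mem_fx.mpr h5, hab, ha.symm, hb.symm⟩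
          simp only [mem_insert, Finset.mem_singleton] at h2 ⊢
          omega
        rw [prod_singleton, hα] at h3
        have h4 : #(orb (stabilizer G a ⊓ stabilizer G b) c) ≠ 3 := fun e => by
          obtain ⟨d, hd, hdc, h6⟩ := three e
          rw [(eq_bot_iff_forall _).mpr fun g hg => by_contra fun h1 => h5 g (bl4 hF hab ha hb hd hdc hg h1),
            card_bot] at h6
          rw [e] at h1
          omega
        have key : ∀ o ≤ 9, ∀ s ∈ Nat.divisors 8, o * s = 12 → o = 3 ∨ o = 6 ∨ o = 9 := by decide +kernel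
        exact (key _ h9 _ (Nat.mem_divisors.mpr ⟨h3, by norm_num⟩) (by omega)).resolve_left h4) hc'.2.1 hc'.1
      have h1 := card_orb (stabilizer G a ⊓ stabilizer G b) c
      rw [h9] at h1
      omega
    obtain ⟨c, m, h3, h4, h5, h6⟩ := odd hα hF _ φ rfl h2 ⟨![a, b], inj2 hab⟩ hv
    have h7 := card_eq_descFactorial_mul h2 ⟨![a, b], inj2 hab⟩
    have h8 := card_eq_descFactorial_mul h2' ⟨![a, b], inj2 hab⟩
    simp only [hα', h1, Nat.descFactorial] at h7 h8 hc h6
    have h9 : ∀ s, 660 = 110 * s → s ≤ 6 := by omega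
    have : m ≤ 6 := h5.trans (h9 _ h8)
    rw [← hc] at h3
    have h10 : c ≠ 48 := fun e => absurd (e ▸ h3) (by norm_num)
    interval_cases m <;> omega
  · obtain ⟨h4, hs⟩ := big hα hF' h2' (fun g => g.2) h1
    have h4' : IsMultiplyPretransitive G α 4 := ⟨fun x y => (h4.1 x y).elim fun g hg => ⟨g, hg⟩⟩
    obtain ⟨x⟩ : Nonempty (Fin 4 ↪ α) := Function.Embedding.nonempty_of_card_le (by simp [hα])
    have h7 := card_eq_descFactorial_mul h4' x
    simp only [hα', h1, Nat.descFactorial] at h7 hc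
    obtain ⟨⟨v, hv⟩, h0⟩ := (stabilizer G x).ne_bot_iff_exists_ne_one.mp fun e => by rw [e, card_bot] at h7; omega
    obtain ⟨c, m, h3, h4, h5, h6⟩ := odd hα hF _ φ rfl h4' x
      (five hF (fun e => h0 (Subtype.ext e)) x.injective (mem_stab.mp hv))
    have : m ≤ 1 := h5.trans ((congrArg (fun K : Subgroup φ.ker => Nat.card K) (hs x)).trans card_bot).le
    simp only [Nat.descFactorial] at h6
    interval_cases m <;> omega

end

/-- A non-solvable transitive permutation group on 11 points that does not contain the alternating group is either sharply 4-transitive (of order 7920) or isomorphic to the projective special linear group of degree 2 over the field with 11 elements. -/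
theorem result {α : Type*} [Fintype α] [DecidableEq α] (hα : Fintype.card α = 11) (G : Subgroup (Equiv.Perm α)) [MulAction.IsPretransitive G α] (hG : ¬ Group.IsSolvable G) (hA : ¬ alternatingGroup α ≤ G) : (MulAction.IsMultiplyPretransitive G α 4 ∧ ∀ x : Fin 4 ↪ α, MulAction.stabilizer G x = ⊥) ∨ Nonempty (G ≃* Matrix.ProjectiveSpecialLinearGroup (Fin 2) (ZMod 11)) := by
  have : Fact (Nat.Prime 11) := ⟨by norm_num⟩
  have hα' : Nat.card α = 11 := by rw [Nat.card_eq_fintype_card, hα]
  have := MulAction.IsPreprimitive.of_prime_card (G := G) (X := α) (by rw [hα']; norm_num)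
  have h2 := (Perm.burnside_prime_degree (G := G) hα').resolve_left hG
  refine (main hα (fun g => Deg11.fix_mem hα h2 fun h => hA (h.trans ?_)) hG).symm.imp id fun ⟨h, _⟩ =>
    S0498.result 11 (.inl rfl) (by rw [h]; norm_num) (ZMod.card 11)
  rintro _ ⟨g, rfl⟩
  exact g.2

end Cfsg.Agent.S0679
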