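import Mathlib
import Cfsg.Statements.S0684
import Cfsg.Agent.Perm.NF3

set_option autoImplicit false
open Cfsg

namespace Cfsg.Agent.S0684


/-- Point stabiliser of a sharply doubly transitive group not of semilinear type: a maximal normal abelian subgroup `A` of a linear group `H` that is regular on non-zero vectors and has no irreducible cyclic normal subgroup is cyclic and reducible, and the order of `A` divides `p ^ k - 1` for `k` the dimension of a minimal `A`-invariant subspace. -/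
theorem result {p : ℕ} [Fact p.Prime] {V : Type*} [AddCommGroup V] [Module (ZMod p) V] [Finite V] (H : Subgroup (V ≃ₗ[ZMod p] V)) (hreg : ∀ v w : V, v ≠ 0 → w ≠ 0 → ∃! h : H, (h : V ≃ₗ[ZMod p] V) v = w) (hI : ∀ A : Subgroup H, A.Normal → IsCyclic A → ∃ W : Submodule (ZMod p) V, W ≠ ⊥ ∧ W ≠ ⊤ ∧ ∀ a ∈ A, ∀ v ∈ W, ((a : H) : V ≃ₗ[ZMod p] V) v ∈ W) (A : Subgroup H) (hAn : A.Normal) (hAc : IsMulCommutative A) (hAmax : ∀ B : Subgroup H, B.Normal → IsMulCommutative B → A ≤ B → B = A) : IsCyclic A ∧ ∃ W : Submodule (ZMod p) V, W ≠ ⊥ ∧ W ≠ ⊤ ∧ (∀ a ∈ A, ∀ v ∈ W, ((a : H) : V ≃ₗ[ZMod p] V) v ∈ W) ∧ (∀ W' : Submodule (ZMod p) V, W' ≤ W → (∀ a ∈ A, ∀ v ∈ W', ((a : H) : V ≃ₗ[ZMod p] V) v ∈ W') → W' = ⊥ ∨ W' = W) ∧ Nat.card A ∣ p ^ Module.finrank (ZMod p) W - 1 := by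
  have := Perm.nontrivial_of_red hI
  obtain ⟨F, _, _, _, σ, hF, hd⟩ := Perm.exists_fData_red (Perm.regV_of_existsUnique hreg) hI
    (Perm.maxAb_of hAn hAc hAmax)
  obtain ⟨v, hv⟩ := exists_ne (0 : V)
  let W := AddSubgroup.toZModSubmodule p (Submodule.span F {v}).toAddSubgroup
  have hW : ∀ w, w ∈ W ↔ ∃ l : F, l • v = w := fun w => Submodule.mem_span_singleton
  refine ⟨hF.isCyclic, W, fun e => hv (e.le ((hW v).2 ⟨1, one_smul _ _⟩)), fun e => hd
    ((finrank_eq_one_iff_of_nonzero' v hv).2 fun w => (hW w).1 (e.ge trivial)), fun a ha w hw => ?_,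
    fun W' h1 h2 => or_iff_not_imp_left.2 fun h3 => le_antisymm h1 fun w hw => ?_, ?_⟩
  · obtain ⟨l, hl⟩ := hF.scalar a ha
    exact (congrArg (· ∈ W) (hl w)).mpr ((Submodule.span F {v}).smul_mem l hw)
  · obtain ⟨u, hu, hu0⟩ := W'.exists_mem_ne_zero_of_ne_bot h3
    obtain ⟨l, rfl⟩ := (hW u).1 (h1 hu)
    obtain ⟨l', rfl⟩ := (hW w).1 hw
    have := hF.span W'.toAddSubgroup h2 (l' * l⁻¹) _ hu
    rwa [← mul_smul, inv_mul_cancel_right₀ (left_ne_zero_of_smul hu0)] at this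
  · have h1 : Nat.card W = Nat.card F :=
      (Nat.card_congr (LinearEquiv.toSpanNonzeroSingleton F V v hv).toEquiv).symm
    rw [Module.natCard_eq_pow_finrank (K := ZMod p), Nat.card_zmod] at h1
    rw [h1]
    exact hF.card_dvd

end Cfsg.Agent.S0684
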