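import Mathlib
import Cfsg.Statements.S0686
import Cfsg.Agent.Perm.NF3

set_option autoImplicit false
open Cfsg

namespace Cfsg.Agent.S0686

open Subgroup in
theorem aux {G : Type*} [Group G] [Finite G] (h : Perm.IsFC G) {A : Subgroup G}
    (hA : Perm.MaxAb A) (N : Subgroup G) (hNn : N.Normal) (hNle : N ≤ centralizer (A : Set G))
    (hNna : ¬ IsMulCommutative N)
    (hNmin : ∀ M : Subgroup G, M.Normal → M ≤ N → ¬ IsMulCommutative M → M = N) :
    Nonempty (N ≃* QuaternionGroup 2) ∨
      Nonempty (N ≃* Matrix.SpecialLinearGroup (Fin 2) (ZMod 5)) := by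
  have : Fact (Nat.Prime 2) := ⟨Nat.prime_two⟩
  by_cases hc : IsMulCommutative (⁅N, N⁆ : Subgroup G)
  · left
    have h1 : ⁅N, N⁆ ≤ centralizer (N : Set G) := (hA.le_of_comm (fun a ha b hb =>
      congrArg Subtype.val (hc.is_comm.comm (⟨a, ha⟩ : (⁅N, N⁆ : Subgroup G)) ⟨b, hb⟩))
      ((commutator_le_left _ _).trans hNle)).trans (le_centralizer_iff.1 hNle)
    have := Core.nilpotent_of_commutator_le_centralizer h1
    obtain ⟨S, hS⟩ : ∃ S : Sylow 2 N, ¬ IsCyclic S := by
      by_contra! h2
      have := (h.subgroup N).isZGroup_of_two h2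
      exact hNna (inferInstance : IsCyclic N).isMulCommutative
    have hS' : ¬ IsCyclic ((S : Subgroup N).map N.subtype) := fun e =>
      hS ((equivMapOfInjective _ _ N.subtype_injective).isCyclic.2 e)
    obtain ⟨a, b, n, hq⟩ := h.exists_gq (S.2.map N.subtype) hS'
    have : (S : Subgroup N).Characteristic := by
      rw [← Core.pCore_eq_sylow_of_nilpotent S]; infer_instance
    rw [hNmin _ inferInstance (map_subtype_le _) fun e => hq.not_commute
      (congrArg Subtype.val (e.is_comm.comm ⟨a, hq.x_mem⟩ ⟨b, hq.y_mem⟩))] at hq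
    have h2 : a * a ∈ centralizer (N : Set G) := by
      have := h1 (commutator_mem_commutator hq.x_mem hq.y_mem)
      rwa [commutatorElement_def, mul_assoc, mul_assoc, ← mul_assoc b, ← conj_inv, hq.inv,
        inv_inv] at this
    have h3 := hq.ord_sq
    obtain rfl : n = 0 := by
      rcases hq.central_cases (mul_mem hq.x_mem hq.x_mem) (fun g hg => (h2 g hg).symm) with e | e
      · rw [e, orderOf_one] at h3
        exact absurd h3 (Nat.one_lt_two_pow (by omega)).ne
      · rw [e, hq.z_two] at h3
        have := Nat.pow_right_injective le_rfl (h3.symm.trans (pow_one 2).symm)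
        omega
    have h4 : closure ({a ^ 2 ^ 0, b} : Set G) = N := le_antisymm hq.q8_le
      (hq.le_of_mem (subset_closure (by simp)) (subset_closure (by simp)))
    exact h4 ▸ hq.q8 hq.bb
  · right
    have h1 := hNmin _ inferInstance (commutator_le_left _ _) hc
    have : Nontrivial N := (nontrivial_iff_ne_bot N).2 (by rintro rfl; exact hNna inferInstance)
    refine (h.subgroup N).equiv_SL25 (map_injective N.subtype_injective ?_)
    rw [map_subtype_commutator, h1, ← MonoidHom.range_eq_map, range_subtype]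

/-- In a linear group over the prime field that is regular on non-zero vectors and has no irreducible cyclic normal subgroup, let `A` be a maximal normal abelian subgroup and `N` a normal subgroup centralising `A` that is minimal among non-abelian normal subgroups centralising `A`. Then `N` is quaternion of order 8 or isomorphic to `SL(2,5)`. -/
theorem result {p : ℕ} [Fact p.Prime] {V : Type*} [AddCommGroup V] [Module (ZMod p) V] [Finite V] (H : Subgroup (V ≃ₗ[ZMod p] V)) (hreg : ∀ v w : V, v ≠ 0 → w ≠ 0 → ∃! h : H, (h : V ≃ₗ[ZMod p] V) v = w) (hI : ∀ A : Subgroup H, A.Normal → IsCyclic A → ∃ W : Submodule (ZMod p) V, W ≠ ⊥ ∧ W ≠ ⊤ ∧ ∀ a ∈ A, ∀ v ∈ W, ((a : H) : V ≃ₗ[ZMod p] V) v ∈ W) (A : Subgroup H) (hAn : A.Normal) (hAc : IsMulCommutative A) (hAmax : ∀ B : Subgroup H, B.Normal → IsMulCommutative B → A ≤ B → B = A) (N : Subgroup H) (hNn : N.Normal) (hNle : N ≤ Subgroup.centralizer (A : Set H)) (hNna : ¬ IsMulCommutative N) (hNmin : ∀ M : Subgroup H, M.Normal → M ≤ N → ¬ IsMulCommutative M → M = N) : Nonempty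 (N ≃* QuaternionGroup 2) ∨ Nonempty (N ≃* Matrix.SpecialLinearGroup (Fin 2) (ZMod 5)) := by
  have := Perm.nontrivial_of_red hI
  have hr := Perm.regV_of_existsUnique hreg
  have := hr.finite
  exact aux hr.isFC (Perm.maxAb_of hAn hAc hAmax) N hNn hNle hNna hNmin

end Cfsg.Agent.S0686
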