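import Mathlib
import Cfsg.Statements.S0687
import Cfsg.Agent.Perm.NF3

set_option autoImplicit false
open Cfsg

namespace Cfsg.Agent.S0687


/-- In a linear group over the prime field that is regular on non-zero vectors and has no irreducible cyclic normal subgroup, a normal subgroup `N` minimal among the non-abelian normal subgroups centralising a maximal normal abelian subgroup `A` is irreducible on `V`, and its centraliser is `A`. -/
theorem result {p : ℕ} [Fact p.Prime] {V : Type*} [AddCommGroup V] [Module (ZMod p) V] [Finite V] (H : Subgroup (V ≃ₗ[ZMod p] V)) (hreg : ∀ v w : V, v ≠ 0 → w ≠ 0 → ∃! h : H, (h : V ≃ₗ[ZMod p] V) v = w) (hI : ∀ A : Subgroup H, A.Normal → IsCyclic A → ∃ W : Submodule (ZMod p) V, W ≠ ⊥ ∧ W ≠ ⊤ ∧ ∀ a ∈ A, ∀ v ∈ W, ((a : H) : V ≃ₗ[ZMod p] V) v ∈ W) (A : Subgroup H) (hAn : A.Normal) (hAc : IsMulCommutative A) (hAmax : ∀ B : Subgroup H, B.Normal → IsMulCommutative B → A ≤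 B → B = A) (N : Subgroup H) (hNn : N.Normal) (hNle : N ≤ Subgroup.centralizer (A : Set H)) (hNna : ¬ IsMulCommutative N) (hNmin : ∀ M : Subgroup H, M.Normal → M ≤ N → ¬ IsMulCommutative M → M = N) : (∀ W : Submodule (ZMod p) V, (∀ n ∈ N, ∀ v ∈ W, ((n : H) : V ≃ₗ[ZMod p] V) v ∈ W) → W = ⊥ ∨ W = ⊤) ∧ Subgroup.centralizer (N : Set H) = A := by
  have := Perm.nontrivial_of_red hI
  have hr := Perm.regV_of_existsUnique hreg
  have := hr.finite
  have hA := Perm.maxAb_of hAn hAc hAmax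
  obtain ⟨F, _, _, _, σ, hF, hd⟩ := Perm.exists_fData_red hr hI hA
  obtain ⟨-, -, h1, -, h2, -⟩ := hr.cases hA hF (ZModModule.char_nsmul_eq_zero p) hd
  have h3 : Module.finrank (ZMod p) V = 2 := by
    rw [hr.card, Module.natCard_eq_pow_finrank (K := ZMod p), Nat.card_zmod] at h1
    exact Nat.pow_right_injective (Fact.out : p.Prime).two_le h1
  have hcomm : ∀ v : V, v ≠ 0 → ¬ ∀ x ∈ N, ∀ y ∈ N,
      (x : V ≃ₗ[ZMod p] V) ((y : V ≃ₗ[ZMod p] V) v) = (y : V ≃ₗ[ZMod p] V) ((x : V ≃ₗ[ZMod p] V) v) :=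
    fun v hv h => hNna ⟨⟨fun x y => Subtype.ext ((hreg v _ hv
      ((smul_ne_zero_iff_ne ((y : H) * x)).2 hv)).unique (h x x.2 y y.2) rfl)⟩⟩
  have hirr : ∀ W : Submodule (ZMod p) V,
      (∀ n ∈ N, ∀ v ∈ W, ((n : H) : V ≃ₗ[ZMod p] V) v ∈ W) → W = ⊥ ∨ W = ⊤ := fun W hW => by
    by_contra! hc
    obtain ⟨v, hv, h0⟩ := W.exists_mem_ne_zero_of_ne_bot hc.1
    have h4 : ∀ w ∈ W, ∃ c : ZMod p, c • v = w := fun w hw => by
      by_contra h5
      refine hc.2 (eq_top_iff.2 fun u _ => ?_)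
      obtain ⟨s, t, rfl⟩ := Perm.exists_comb_of_finrank_two h3 h0 h5 u
      exact add_mem (W.smul_mem _ hv) (W.smul_mem _ hw)
    refine hcomm v h0 fun x hx y hy => ?_
    obtain ⟨c, hc⟩ := h4 _ (hW x hx v hv)
    obtain ⟨d, hd⟩ := h4 _ (hW y hy v hv)
    rw [← hd, map_smul, ← hc, map_smul, ← hd, smul_comm]
  refine ⟨hirr, le_antisymm (fun c hc => ?_) (Subgroup.le_centralizer_iff.1 hNle)⟩
  have hc' : ∀ x ∈ N, ∀ v, (x : V ≃ₗ[ZMod p] V) ((c : V ≃ₗ[ZMod p] V) v) =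
      (c : V ≃ₗ[ZMod p] V) ((x : V ≃ₗ[ZMod p] V) v) := fun x hx v =>
    congrArg (fun g : H => (g : V ≃ₗ[ZMod p] V) v) (hc x hx)
  obtain ⟨v, hv⟩ := exists_ne (0 : V)
  by_cases h4 : ∃ l : ZMod p, l • v = (c : V ≃ₗ[ZMod p] V) v
  · obtain ⟨l, hl⟩ := h4
    have h5 : ∀ w, l • w = (c : V ≃ₗ[ZMod p] V) w := fun w => by
      have h6 : ∀ u, u ∈ LinearMap.eqLocus (l • LinearMap.id : V →ₗ[ZMod p] V)
          (c : V ≃ₗ[ZMod p] V).toLinearMap ↔ l • u = (c : V ≃ₗ[ZMod p] V) u := fun u =>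
        LinearMap.mem_eqLocus
      rcases hirr _ (fun n hn u hu => (h6 _).2 (by
        rw [← hc' n hn, ← (h6 u).1 hu, map_smul])) with e | e
      · exact absurd (e.le ((h6 v).2 hl)) hv
      · exact (h6 w).1 (e.ge Submodule.mem_top)
    refine hA.mem_of_commutator (h2 ▸ Subgroup.mem_top c) fun g => ?_
    have : g * c = c * g := Subtype.ext (LinearEquiv.ext fun w => by
      change (g : V ≃ₗ[ZMod p] V) ((c : V ≃ₗ[ZMod p] V) w) =
        (c : V ≃ₗ[ZMod p] V) ((g : V ≃ₗ[ZMod p] V) w)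
      rw [← h5, ← h5, map_smul])
    rw [this, mul_inv_cancel_right, mul_inv_cancel]
    exact one_mem _
  · refine (hcomm v hv fun x hx y hy => ?_).elim
    obtain ⟨s, t, h5⟩ := Perm.exists_comb_of_finrank_two h3 hv h4
      ((x : V ≃ₗ[ZMod p] V) v)
    obtain ⟨s', t', h6⟩ := Perm.exists_comb_of_finrank_two h3 hv h4
      ((y : V ≃ₗ[ZMod p] V) v)
    conv_lhs => rw [← h6, map_add, map_smul, map_smul, hc' x hx, ← h5]
    conv_rhs => rw [← h5, map_add, map_smul, map_smul, hc' y hy, ← h6]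
    simp only [map_add, map_smul]
    module

end Cfsg.Agent.S0687
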