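import Mathlib
import Cfsg.Statements.S0689
import Cfsg.Agent.Perm.NF3
import Cfsg.Agent.Perm.SolvOrbit

set_option autoImplicit false
open Cfsg

namespace Cfsg.Agent.S0689


/-- The insoluble sharply doubly transitive groups: a non-solvable linear group over the prime field that is regular on the non-zero vectors of `V` occurs only for `|V| = 11², 29², 59²`, and is `SL(2,5) × C_m` with `m = 1, 7, 29` respectively. -/
theorem result {p : ℕ} [Fact p.Prime] {V : Type*} [AddCommGroup V] [Module (ZMod p) V] [Finite V] (H : Subgroup (V ≃ₗ[ZMod p] V)) (hreg : ∀ v w : V, v ≠ 0 → w ≠ 0 → ∃! h : H, (h : V ≃ₗ[ZMod p] V) v = w) (hsolv : ¬ Group.IsSolvable H) : (Nat.card V = 121 ∧ Nonempty (H ≃* Matrix.SpecialLinearGroup (Fin 2) (ZMod 5))) ∨ (Nat.card V = 841 ∧ Nonempty (H ≃* Matrix.SpecialLinearGroup (Fin 2) (ZMod 5) × Multiplicative (ZMod 7))) ∨ (Nat.card V = 3481 ∧ Nonempty (H ≃* Matrix.SpecialLinearGroup (Fin 2) (ZMod 5) × Multiplicative (ZMod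 29))) := by
  have : Nontrivial V := by
    by_contra h
    have := not_nontrivial_iff_subsingleton.1 h
    exact hsolv inferInstance
  have hr := Perm.regV_of_existsUnique hreg
  have := hr.finite
  obtain ⟨A, hA⟩ := Perm.exists_maxAb (G := H)
  have := hA.normal
  obtain ⟨F, _, _, _, σ, hF⟩ := Perm.exists_fData hr.trans' A hA.comm
  have hd : Module.finrank F V ≠ 1 := fun e => by
    have := hF.isCyclic
    obtain ⟨L, z, f, hf⟩ := hr.isFC.exists_nsData hsolv
    have h1 : L ≤ Subgroup.centralizer (A : Set H) := Subgroup.le_centralizer_iff.1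
      ((Perm.le_ker_of_zgroup Perm.perm_five_test f hf.le A).trans hf.cent.le)
    obtain ⟨x, hx, e1⟩ := hf.map.ge Perm.a5x.2
    obtain ⟨y, hy, e2⟩ := hf.map.ge Perm.a5y.2
    have := congrArg f (hF.comm_of_finrank_one e (h1 hx) (h1 hy))
    rw [map_mul, map_mul, e1, e2] at this
    exact absurd this (by decide)
  obtain ⟨h0, -, h1, -, -, ⟨z, f, hf, h2, -⟩ | ⟨L, z, f, hf, h2⟩⟩ :=
    hr.cases hA hF (ZModModule.char_nsmul_eq_zero p) hd
  · have := hF.isCyclic
    rw [← h2] at this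
    have := Perm.isSolvable_perm_of_card_le_four (Fin 4) (by simp)
    exact absurd (solvable_of_ker_le_range f.ker.subtype f (Subgroup.range_subtype _).ge) hsolv
  have h3 := hF.card_dvd
  rw [← h2, hf.ker, Perm.card_zpowers_sup hf.two, h0] at h3
  have h4 := Perm.card_eq_range_mul f
  rw [hf.ker, Perm.card_zpowers_sup hf.two] at h4
  obtain ⟨h5, h6⟩ := Perm.nf_ns_num Fact.out hf.cop h3 (by
    rcases Perm.card_range_cases f hf.le with ⟨-, e⟩ | ⟨-, e⟩ <;> change _ = 120 at e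
    · left; rw [← h1, h4, Nat.eq_of_mul_eq_mul_left (k := 60) two_pos e]; ring
    · right; rw [← h1, h4, e]; ring)
  obtain ⟨e⟩ := hf.equiv_prod (by omega)
  rw [← hr.card, h1]
  rcases h6 with ⟨rfl, h6⟩ | ⟨rfl, h6⟩ | ⟨rfl, h6⟩
  · exact Or.inl ⟨rfl, Perm.equiv_of_prod_unique e h6⟩
  · have : Fact (Nat.Prime 7) := ⟨by norm_num⟩
    obtain ⟨e'⟩ := Perm.equiv_zmod_of_prime h6
    exact Or.inr (Or.inl ⟨rfl, ⟨e.trans ((MulEquiv.refl _).prodCongr e')⟩⟩)
  · have : Fact (Nat.Prime 29) := ⟨by norm_num⟩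
    obtain ⟨e'⟩ := Perm.equiv_zmod_of_prime h6
    exact Or.inr (Or.inr ⟨rfl, ⟨e.trans ((MulEquiv.refl _).prodCongr e')⟩⟩)

end Cfsg.Agent.S0689
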