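import Mathlib
import Cfsg.Statements.S0730
import Cfsg.Agent.Perm.Zass5

set_option autoImplicit false
open Cfsg

namespace Cfsg.Agent.S0730


/-- A sharply triply transitive group of degree `p^f + 1`, `p` an odd prime and `f` odd, is isomorphic to the projective general linear group of degree 2 over the field with `p^f` elements (for even `f` there is a second, twisted, group). -/
theorem result {α : Type*} [Fintype α] [DecidableEq α] {p f : ℕ} (hp : p.Prime) (hp2 : p ≠ 2) (hfo : Odd f) (hα : Fintype.card α = p ^ f + 1) (G : Subgroup (Equiv.Perm α)) (h3 : MulAction.IsMultiplyPretransitive G α 3) (hsharp : ∀ x : Fin 3 ↪ α, MulAction.stabilizer G x = ⊥) : ∃ (F : Type) (_ : Field F) (_ : Fintype F), Fintype.card F = p ^ f ∧ Nonempty (G ≃* Matrix.ProjGenLinGroup (Fin 2) F) := by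
  rw [← Nat.card_eq_fintype_card] at hα
  have h2 : Odd (p ^ f) := (hp.odd_of_ne_two hp2).pow
  have hc : 3 ≤ Nat.card α := by
    have := Nat.le_self_pow hfo.pos.ne' p
    have := hp.two_le
    omega
  have h := Perm.Z3.of_sharp h3 hsharp hc
  obtain ⟨a, b, hab⟩ := Finite.one_lt_card_iff_nontrivial.mp (show 1 < Nat.card α by omega)
  obtain ⟨K, _, _, hK, e⟩ := h.sharp_even hab (hα ▸ h2.add_one) (h.card_two_of_three h3 hc hab)
  have h4 : Nat.card K = p ^ f := by omega
  refine ⟨K, inferInstance, inferInstance, by rw [← Nat.card_eq_fintype_card, h4],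
    e.resolve_right ?_⟩
  rintro ⟨-, m, hm⟩
  have h5 := congrArg (fun n => n.factorization p) (h4.symm.trans hm)
  simp only [Nat.factorization_pow, Finsupp.smul_apply, hp.factorization_self, smul_eq_mul] at h5
  rw [Nat.odd_iff] at hfo
  omega

end Cfsg.Agent.S0730
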