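import Mathlib
import Cfsg.Statements.S0731
import Cfsg.Agent.Perm.Zass8

set_option autoImplicit false
open Cfsg

namespace Cfsg.Agent.S0731


/-- A finite Zassenhaus group whose point stabiliser has an abelian regular normal subgroup on the remaining points is sharply triply transitive or isomorphic to `PSL(2, F)` for a finite field `F` of odd characteristic. -/
theorem result {G Ω : Type*} [Group G] [Finite G] [MulAction G Ω] [Finite Ω] (hZ : Cfsg.IsZassenhausGroup G Ω) (x : Ω) (F : Subgroup G) (hFle : F ≤ MulAction.stabilizer G x) (hFn : (F.subgroupOf (MulAction.stabilizer G x)).Normal) (hFab : IsMulCommutative F) (hreg : ∀ y z : Ω, y ≠ x → z ≠ x → ∃! u : F, (u : G) • y = z) : (MulAction.IsMultiplyPretransitive G Ω 3 ∧ ∀ t : Fin 3 ↪ Ω, MulAction.stabilizer G t = ⊥) ∨ ∃ (K : Type) (_ : Field K) (_ : Fintype K), ringChar K ≠ 2 ∧ Nonempty (G ≃* Matrix.ProjectiveSpecialLinearGroup (Fin 2) K) := by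
  have hF := Perm.ZKer.of_reg hFle hFn hreg
  have h := Perm.Z3.of_isZ hZ
  have h2 := Perm.zass_two_lt hZ
  have := Perm.zass_nontrivial hZ
  obtain ⟨y, hy⟩ := exists_ne x
  rcases h.cases_of_le hy.symm h2 (Perm.zass_le_of_comm hZ hy.symm hF fun u hu v hv =>
    congrArg Subtype.val (hFab.is_comm.comm ⟨u, hu⟩ ⟨v, hv⟩)) with hd | hd
  · exact Or.inl ⟨h.three_of_card hy.symm hd, h.sharp⟩
  obtain ⟨K, _, _, hK, e⟩ := Perm.zass_half hZ hy.symm hd
  refine Or.inr ⟨K, inferInstance, inferInstance, fun h3 => ?_, e⟩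
  have := FiniteField.even_card_iff_char_two.mp h3
  rw [← Nat.card_eq_fintype_card] at this
  omega

end Cfsg.Agent.S0731
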