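import Mathlib
import Cfsg.Statements.S0732
import Cfsg.Agent.Perm.Zass10

set_option autoImplicit false
open Cfsg

namespace Cfsg.Agent.S0732


/-- A transitive permutation group on `p + 1` points (`p` prime) of order `(p+1) p d` with `d < p` is isomorphic to `PGL(2,p)` with `d = p - 1`, or to `PSL(2,p)` with `2d = p - 1`, or else `p + 1 = 2^q` for a prime `q`, `d = 1` or `d = q`, and the group is permutation-isomorphic to a group of semi-affine maps `x ↦ a φ(x) + b` of the field with `2^q` elements. -/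
theorem result {α : Type*} [Fintype α] [DecidableEq α] {p d : ℕ} (hp : p.Prime) (hα : Fintype.card α = p + 1) (G : Subgroup (Equiv.Perm α)) [MulAction.IsPretransitive G α] (hG : Nat.card G = (p + 1) * p * d) (hd : d < p) : (d = p - 1 ∧ Nonempty (G ≃* Matrix.ProjGenLinGroup (Fin 2) (ZMod p))) ∨ (2 * d = p - 1 ∧ Nonempty (G ≃* Matrix.ProjectiveSpecialLinearGroup (Fin 2) (ZMod p))) ∨ (∃ q : ℕ, q.Prime ∧ p + 1 = 2 ^ q ∧ (d = 1 ∨ d = q) ∧ ∃ e : α ≃ GaloisField 2 q, ∀ g : G, (e.symm.trans (((g : Equiv.Perm α)).trans e)) ∈ Cfsg.semiaffineGroup (GaloisField 2 q)) := by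
  have := Fact.mk hp
  refine (Perm.classify_succ_prime (Nat.card_eq_fintype_card.trans hα) hG hd).imp_right
    (Or.imp_right ?_)
  rintro ⟨q, h1, h2, h3, -, e, he⟩
  refine ⟨q, h1, h2, h3, e, fun g => ?_⟩
  obtain ⟨c, b, σ, h⟩ := he g
  exact ⟨c, b, σ, fun x => (h (e.symm x)).trans (by simp)⟩

end Cfsg.Agent.S0732
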