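import Mathlib
import Cfsg.Statements.S0737
import Cfsg.Agent.Perm.NF2
import Cfsg.Agent.Perm.SemiAff
import Cfsg.Agent.Perm.Homog
import Cfsg.Agent.Perm.Socle
import Cfsg.Agent.Perm.NormalSub
import Cfsg.Agent.RankOne.Huppert
import Cfsg.Agent.S0735

set_option autoImplicit false
open Cfsg

namespace Cfsg.Agent.S0737

open Subgroup in
open scoped IsMulCommutative in
theorem irred {G : Type*} [Group G] [Finite G] {N : Subgroup G} [hN : N.Normal]
    [IsMulCommutative N] (hN0 : N ≠ ⊥) {H : Subgroup G}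
    (hf : ∀ h ∈ H, (∀ u ∈ N, h * u = u * h) → h = 1) (hodd : Odd (Nat.card H)) {p : ℕ}
    [hp : Fact p.Prime] (hpow : ∀ u ∈ N, u ^ p = 1)
    (htr : ∀ u ∈ N, ∀ v ∈ N, u ≠ 1 → v ≠ 1 → ∃ h ∈ H, h * u * h⁻¹ = v ∨ h * u * h⁻¹ = v⁻¹) :
    ∃ A ≤ H, (∀ u ∈ A, ∀ v ∈ A, u * v = v * u) ∧ (∀ g ∈ H, ∀ k ∈ A, g * k * g⁻¹ ∈ A) ∧
      ∀ W ≤ N, W ≠ ⊥ → (∀ k ∈ A, ∀ w ∈ W, k * w * k⁻¹ ∈ W) → W = N := by
  letI : DistribMulAction H (Additive N) :=
    { smul := fun h u => Additive.ofMul (MulAut.conjNormal (h : G) u.toMul)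
      one_smul := fun u => by change Additive.ofMul _ = _; simp
      mul_smul := fun g h u => by change Additive.ofMul _ = Additive.ofMul _; simp; rfl
      smul_zero := fun h => congrArg Additive.ofMul (map_one _)
      smul_add := fun h u v => congrArg Additive.ofMul (map_mul _ _ _) }
  have hs : ∀ (h : H) (u : Additive N), ((h • u).toMul : G) = h * u.toMul * (h : G)⁻¹ :=
    fun h u => MulAut.conjNormal_apply _ _
  have hext : ∀ {u v : Additive N}, (u.toMul : G) = v.toMul → u = v := fun e =>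
    Additive.toMul.injective (Subtype.ext e)
  have : FaithfulSMul H (Additive N) := ⟨fun {g h} e => by
    refine (inv_mul_eq_one.1 (Subtype.ext (hf _ (h⁻¹ * g).2 fun u hu => ?_))).symm
    have := hs (h⁻¹ * g) (Additive.ofMul ⟨u, hu⟩)
    rw [mul_smul, e, inv_smul_smul] at this
    exact (eq_mul_inv_iff_mul_eq.1 this).symm⟩
  have : Nontrivial N := (nontrivial_iff_ne_bot N).2 hN0
  have hV : ∀ v : Additive N, p • v = 0 := fun v => hext (hpow _ v.toMul.2)
  have ht : ∀ v w : Additive N, v ≠ 0 → w ≠ 0 → ∃ g : H, g • v = w ∨ g • v = -w :=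
    fun v w hv hw => by
      obtain ⟨h, hh, e⟩ := htr _ v.toMul.2 _ w.toMul.2 (fun e => hv (hext e)) fun e => hw (hext e)
      exact ⟨⟨h, hh⟩, e.imp (fun e => hext ((hs _ _).trans e)) fun e => hext ((hs _ _).trans e)⟩
  obtain ⟨h1, -, -, h2⟩ := RankOne.huppert_odd hodd hp.out hV ht
  have hc : ∀ a ∈ fittingSubgroup H, ∀ b ∈ fittingSubgroup H, a * b = b * a := fun a ha b hb =>
    Core.comm_of_isMulCommutative h1.isMulCommutative ha hb
  have := Core.fitting_normal (G := H)
  obtain ⟨F, _, _, _, σ, hF⟩ := Perm.exists_fData ht (fittingSubgroup H) hc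
  have h3 := hF.irreducible_iff.2 (by_contra fun e =>
    hF.lt_cent hV ht (fun a ha b hb => hc b hb a ha) e h2)
  refine ⟨(fittingSubgroup H).map H.subtype, map_subtype_le _, ?_, ?_, fun W hW h0 h4 => ?_⟩
  · rintro _ ⟨a, ha, rfl⟩ _ ⟨b, hb, rfl⟩
    exact congrArg Subtype.val (hc a ha b hb)
  · rintro g hg _ ⟨a, ha, rfl⟩
    exact ⟨_, this.conj_mem a ha ⟨g, hg⟩, rfl⟩
  · rcases h3 (W.subgroupOf N).toAddSubgroup (fun a ha v hv => by
      change ((a • v).toMul : G) ∈ W
      rw [hs]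
      exact h4 _ ⟨a, ha, rfl⟩ _ hv) with e | e
    · exact absurd (eq_bot_iff.2 fun w hw =>
        congrArg (fun x : Additive N => (x.toMul : G)) (e.le
          (show Additive.ofMul (⟨w, hW hw⟩ : N) ∈ _ from hw))) h0
    · exact le_antisymm hW fun u hu =>
        e.ge (AddSubgroup.mem_top (Additive.ofMul (⟨u, hu⟩ : N)))

/-- A non-trivial 2-homogeneous permutation group that is not doubly transitive has odd order and degree `p^f ≡ 3 (mod 4)`, and is permutation-isomorphic to a group of semi-affine transformations `x ↦ a φ(x) + b` of the field with `p^f` elements containing all translations. -/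
theorem result {α : Type*} [Fintype α] [DecidableEq α] (G : Subgroup (Equiv.Perm α)) (hne : G ≠ ⊥) (h2 : MulAction.IsPretransitive G (Set.powersetCard α 2)) (hn2 : ¬ MulAction.IsMultiplyPretransitive G α 2) : Odd (Nat.card G) ∧ ∃ (p f : ℕ) (_ : Fact p.Prime), p ≠ 2 ∧ Fintype.card α = p ^ f ∧ p ^ f % 4 = 3 ∧ ∃ e : α ≃ GaloisField p f, (∀ g : G, e.symm.trans (((g : Equiv.Perm α)).trans e) ∈ Cfsg.semiaffineGroup (GaloisField p f)) ∧ ∀ b : GaloisField p f, ∃ g : G, ∀ x : α, e ((g : Equiv.Perm α) x) = e x + b := by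
  have : Nontrivial G := (Subgroup.nontrivial_iff_ne_bot G).2 hne
  have hα : 3 ≤ Fintype.card α := by
    by_contra! hc
    refine hn2 ?_
    have h1 : Nat.card G ∣ 2 := by
      refine G.card_subgroup_dvd_card.trans ?_
      rw [Nat.card_perm, Nat.card_eq_fintype_card]
      exact Nat.factorial_dvd_factorial (n := 2) (by omega)
    have h3 : G = ⊤ := by
      refine Subgroup.eq_top_of_le_card _ ?_
      rw [((Nat.dvd_prime Nat.prime_two).1 h1).resolve_left Finite.one_lt_card.ne', Nat.card_perm,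
        Nat.card_eq_fintype_card]
      exact Nat.factorial_le (n := 2) (by omega)
    rw [MulAction.is_two_pretransitive_iff]
    intro a b c d hab hcd
    obtain ⟨g, hg⟩ := MulAction.is_two_pretransitive_iff.1
      (Equiv.Perm.isMultiplyPretransitive α 2) hab hcd
    exact ⟨⟨g, h3 ▸ Subgroup.mem_top g⟩, hg⟩
  obtain ⟨h3, h4⟩ := S0735.result G h2 hα
  have hodd : Odd (Nat.card G) := Nat.not_even_iff_odd.1 fun e => hn2 (h3 e)
  have := h4 hne
  have := S0205.result hodd
  obtain ⟨N, p, hN, hN0, -, hp, ⟨hNc, hpow⟩, -⟩ :=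
    Core.exists_minimal_normal_elementary_le (⊤ : Subgroup G) inferInstance top_ne_bot
  have : Fact p.Prime := ⟨hp⟩
  have : Nontrivial α := Fintype.one_lt_card_iff_nontrivial.1 (by omega)
  obtain ⟨a⟩ : Nonempty α := inferInstance
  have htr : MulAction.IsPretransitive N α :=
    MulAction.IsQuasiPreprimitive.isPretransitive_of_normal fun e => hN0 (eq_bot_iff.2
      fun u hu => Subtype.ext (Equiv.ext fun x => e.ge (Set.mem_univ x) ⟨u, hu⟩))
  have hNc' : ∀ u ∈ N, ∀ v ∈ N, u * v = v * u := fun u hu v hv =>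
    Core.comm_of_isMulCommutative hNc hu hv
  have hreg := Perm.regular_of_commute htr hNc'
  have hreg' : ∀ u ∈ N, u • a = a → u = 1 := fun u hu e =>
    congrArg Subtype.val ((hreg a).le (show (⟨u, hu⟩ : N) ∈ _ from e))
  have hcard := Perm.card_eq_of_regular N htr hreg a
  obtain ⟨f, hf⟩ := (Core.IsElementaryAbelian.isPGroup ⟨hNc, hpow⟩).exists_card_eq
  rw [hf, Nat.card_eq_fintype_card] at hcard
  have hf0 : f ≠ 0 := by rintro rfl; rw [pow_zero] at hcard; omega
  have ho : Odd (p ^ f) := hf ▸ hodd.of_dvd_nat N.card_subgroup_dvd_card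
  obtain ⟨A, h5, h6, h7, h8⟩ := irred (H := MulAction.stabilizer G a) hN0
    (fun h hh e => Perm.eq_one_of_commute_transitive hh fun b =>
      let ⟨u, hu⟩ := htr.exists_smul_eq a b; ⟨u, hu, e u u.2⟩)
    (hodd.of_dvd_nat (Subgroup.card_subgroup_dvd_card _)) hpow fun u hu v hv u1 v1 => by
      have hua : a ≠ u • a := fun e => u1 (hreg' u hu e.symm)
      have hva : a ≠ v • a := fun e => v1 (hreg' v hv e.symm)
      obtain ⟨g, hg⟩ := (Perm.homog_iff G 2).1 h2 {a, u • a} {a, v • a} (Finset.card_pair hua)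
        (Finset.card_pair hva)
      rw [Finset.smul_finset_insert, Finset.smul_finset_singleton, ← Finset.coe_inj,
        Finset.coe_pair, Finset.coe_pair, Set.pair_eq_pair_iff] at hg
      rcases hg with ⟨e1, e2⟩ | ⟨e1, e2⟩
      · refine ⟨g, e1, Or.inl (Perm.reg_inj hreg (hN.conj_mem u hu g) hv (a := a) ?_)⟩
        rw [mul_smul, mul_smul, inv_smul_eq_iff.2 e1.symm, e2]
      · have e3 : (v⁻¹ * g) • a = a := by rw [mul_smul, e1, inv_smul_smul]
        refine ⟨v⁻¹ * g, e3, Or.inr (Perm.reg_inj hreg (hN.conj_mem u hu _) (inv_mem hv)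
          (a := a) ?_)⟩
        rw [mul_smul, mul_smul, inv_smul_eq_iff.2 e3.symm, mul_smul, e2]
  obtain ⟨e, he, he', -⟩ := Perm.exists_semiaffine hNc'
    (fun x => let ⟨u, hu⟩ := htr.exists_smul_eq a x; ⟨u, u.2, hu⟩) hreg' h5 h6 h7 h8
    (GaloisField p f) (by rw [GaloisField.card p f hf0, hcard, Nat.card_eq_fintype_card])
  refine ⟨hodd, p, f, inferInstance, ?_, hcard.symm, ?_, e, fun g => ?_,
    fun b => let ⟨u, _, hu⟩ := he' b; ⟨u, hu⟩⟩
  · rintro rfl
    exact absurd ho (by simp [Nat.odd_pow_iff, hf0])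
  · obtain ⟨b, hb⟩ := exists_ne a
    have h9 := (MulAction.stabilizer G (⟨{a, b}, Finset.card_pair hb.symm⟩ :
      Set.powersetCard α 2)).index_dvd_card
    rw [MulAction.index_stabilizer_of_transitive, Set.powersetCard.card, Nat.card_eq_fintype_card,
      ← hcard] at h9
    obtain ⟨k, hk⟩ := ho
    have h10 := hodd.of_dvd_nat h9
    rw [hk, Nat.choose_two_right, Nat.add_sub_cancel, mul_left_comm,
      Nat.mul_div_cancel_left _ two_pos, Nat.odd_mul] at h10
    have := Nat.odd_iff.1 h10.2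
    omega
  · obtain ⟨c, d, σ, h⟩ := he g
    exact ⟨c, d, σ, fun x => (h (e.symm x)).trans (by rw [e.apply_symm_apply])⟩

end Cfsg.Agent.S0737
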