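import Mathlib
import Cfsg.Statements.S0738
import Cfsg.Agent.Perm.Zass3

set_option autoImplicit false
open Cfsg

namespace Cfsg.Agent.S0738


/-- Let a finite Zassenhaus group of degree `n + 1` have two-point stabilisers of order `d` with `2d ≥ n - 1`. Then a normal subgroup of a point stabiliser acting regularly on the remaining points is elementary abelian, and the degree is a prime power plus one. -/
theorem result {G Ω : Type*} [Group G] [Finite G] [MulAction G Ω] [Fintype Ω] (hZ : Cfsg.IsZassenhausGroup G Ω) {a b : Ω} (hab : a ≠ b) (hd : Fintype.card Ω - 2 ≤ 2 * Nat.card ↥(MulAction.stabilizer G a ⊓ MulAction.stabilizer G b)) (F : Subgroup G) (hFle : F ≤ MulAction.stabilizer G a) (hFn : (F.subgroupOf (MulAction.stabilizer G a)).Normal) (hreg : ∀ y z : Ω, y ≠ a → z ≠ a → ∃! u : F, (u : G) • y = z) : IsMulCommutative F ∧ ∃ p f : ℕ, p.Prime ∧ (∀ u ∈ F, u ^ p = 1) ∧ Fintype.card Ω = p ^ f + 1 := by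
  have h := Perm.Z3.of_isZ hZ
  have hF := Perm.ZKer.of_reg hFle hFn hreg
  obtain ⟨c, h1, h2⟩ := h.exists_third hZ.2.2.2.1 hab
  obtain ⟨hc, p, hp, hpow⟩ := hF.elementary h (hF.nilpotent h hZ.2.2.2.1) (hF.ne_bot hab.symm h1 h2)
    hab.symm (by rwa [Nat.card_eq_fintype_card (α := Ω)])
  have := Fact.mk hp
  have := Perm.zass_nontrivial hZ
  obtain ⟨f, hf⟩ := IsPGroup.iff_card.mp (show IsPGroup p F from fun u =>
    ⟨1, Subtype.ext (by simpa using hpow u u.2)⟩)
  exact ⟨Core.isMulCommutative_of_forall hc, p, f, hp, hpow, by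
    rw [← hf, hF.card, Nat.card_eq_fintype_card]⟩

end Cfsg.Agent.S0738
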