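import Mathlib
import Cfsg.Statements.S0739
import Cfsg.Agent.Perm.Zass3

set_option autoImplicit false
open Cfsg

namespace Cfsg.Agent.S0739


/-- In a finite Zassenhaus group whose two-point stabiliser `H = G_{a,b}` has odd order `d`, and which has no normal `q`-complement for any prime `q ∣ d`, `H` is cyclic, `C_G(H) = H`, and every element swapping `a` and `b` inverts each element of `H`. -/
theorem result {G Ω : Type*} [Group G] [Finite G] [MulAction G Ω] [Fintype Ω] (hZ : Cfsg.IsZassenhausGroup G Ω) {a b : Ω} (hab : a ≠ b) (hodd : Odd (Nat.card ↥(MulAction.stabilizer G a ⊓ MulAction.stabilizer G b))) (hnil : ∀ q : ℕ, q.Prime → q ∣ Nat.card ↥(MulAction.stabilizer G a ⊓ MulAction.stabilizer G b) → ¬ ∃ N : Subgroup G, N.Normal ∧ N.index = q ^ (Nat.card G).factorization q) : IsCyclic ↥(MulAction.stabilizer G a ⊓ MulAction.stabilizer G b) ∧ Subgroup.centralizer ((MulAction.stabilizer G a ⊓ MulAction.stabilizer G b : Subgroup G) : Set G) = MulAction.stabilizer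 G a ⊓ MulAction.stabilizer G b ∧ ∀ s : G, s • a = b → s • b = a → ∀ h ∈ MulAction.stabilizer G a ⊓ MulAction.stabilizer G b, s * h * s⁻¹ = h⁻¹ := by
  have h := Perm.Z3.of_isZ hZ
  have key := fun s => Perm.zass_odd_inverts hZ hab hodd (s := s) fun q hq hd ⟨P, N, hN, hc⟩ =>
    hnil q hq hd ⟨N, hN, by
      have := Fact.mk hq
      rw [hc.symm.index_eq_card, P.card_eq_multiplicity]⟩
  obtain ⟨t, ht, ta, tb⟩ := h.exists_swap hab
  have hc := fun u v => Perm.comm_of_inverts (key t ta tb).2 (u := u) (v := v)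
  refine ⟨Perm.zass_isCyclic hZ hab le_rfl (Or.inl (Core.isMulCommutative_of_forall
    fun x hx y hy => hc x y hx hy)), le_antisymm (fun g hg => ?_) fun x hx y hy => hc y x hy hx,
    fun s sa sb => (key s sa sb).2⟩
  obtain ⟨x, hx1, xa, xb⟩ := h.exists_fix_two hZ.2.2.2.1 hab
  have h1 : g * x * g⁻¹ = x := by rw [← Subgroup.mem_centralizer_iff.mp hg x ⟨xa, xb⟩]; simp
  refine (h.fix_or_swap hab hx1 xa xb (h1.symm ▸ xa) (h1.symm ▸ xb)).resolve_right fun h2 => hx1 ?_
  have h3 := (key g h2.1 h2.2).2 x ⟨xa, xb⟩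
  rw [h1] at h3
  exact RankOne.eq_one_of_mul_self hodd ⟨xa, xb⟩ (by nth_rewrite 1 [h3]; simp)

end Cfsg.Agent.S0739
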