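import Mathlib
import Cfsg.Statements.S0803
import Cfsg.Agent.Max.L2d

set_option autoImplicit false
open Cfsg

namespace Cfsg.Agent.S0803

open scoped Pointwise
open Cfsg.Agent.Max.L2 Cfsg.Agent.Classical.PSL2Basic Cfsg.Agent.Classical.P1Ident
  Cfsg.Agent.Classical.Congr Cfsg.Agent.Classical.P1

/-- PSL_2(q) has a subgroup isomorphic to S_4 iff q² ≡ 1 (mod 16). -/
theorem result {F : Type*} [Field F] [Fintype F] {q : ℕ} (hF : Fintype.card F = q) : (∃ H : Subgroup (Matrix.ProjectiveSpecialLinearGroup (Fin 2) F), Nonempty (H ≃* Equiv.Perm (Fin 4))) ↔ q ^ 2 % 16 = 1 := by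
  rw [← Nat.card_eq_fintype_card] at hF
  subst hF
  rw [exists_sub_PSL]
  have key : ∀ q : ℕ, q ^ 2 % 16 = 1 ↔ q % 8 = 1 ∨ q % 8 = 7 := fun q => by
    rw [Nat.pow_mod, show q % 8 = q % 16 % 8 by omega]
    have : q % 16 < 16 := Nat.mod_lt _ (by norm_num)
    generalize q % 16 = r at *
    interval_cases r <;> simp
  rw [key]
  by_cases h2 : (2 : F) = 0
  · have h3 := Nat.even_iff.1 (even_card_iff.2 h2)
    refine iff_of_false ?_ (by omega)
    rintro ⟨H, -, e⟩
    obtain ⟨a4, s4, h4⟩ := DP_S4_four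
    obtain ⟨a, -, s, -, h⟩ := exists_DP e h4
    haveI : CharP F 2 := CharTwo.of_one_ne_zero_of_two_eq_zero one_ne_zero h2
    haveI : Fact (Nat.Prime 2) := ⟨Nat.prime_two⟩
    have h1 := Cfsg.Agent.Classical.SLBasic.one_lt_card (F := F)
    rcases order_cases 2 a with e | e | e
    · have := orderOf_dvd_of_pow_eq_one e
      rw [h.ord] at this; omega
    · rw [h.ord] at e; omega
    · rw [h.ord] at e; omega
  · haveI := NeZero.mk h2
    rw [← isSquare_two_iff']
    exact ⟨fun ⟨H, h, e⟩ => (S4_le_LL e).1 h, fun h => ⟨S0 F, S0_le_LL_iff.2 h, S0_equiv⟩⟩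

end Cfsg.Agent.S0803
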