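import Mathlib
import Cfsg.Statements.S0804
import Cfsg.Agent.Max.L2d

set_option autoImplicit false
open Cfsg

namespace Cfsg.Agent.S0804

open scoped Pointwise
open Cfsg.Agent.Max.L2 Cfsg.Agent.Classical.PSL2Basic Cfsg.Agent.Classical.P1Ident
  Cfsg.Agent.Classical.Congr Cfsg.Agent.Classical.P1

/-- PSL_2(q) has a subgroup isomorphic to A_5 iff 5 ∣ q(q² − 1). -/
theorem result {F : Type*} [Field F] [Fintype F] {q : ℕ} (hF : Fintype.card F = q) : (∃ H : Subgroup (Matrix.ProjectiveSpecialLinearGroup (Fin 2) F), Nonempty (H ≃* alternatingGroup (Fin 5))) ↔ 5 ∣ q * (q ^ 2 - 1) := by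
  rw [← Nat.card_eq_fintype_card] at hF
  subst hF
  constructor
  · rintro ⟨H, e⟩
    rw [← Cfsg.Agent.Classical.SLBasic.card_PSL_two]
    refine Dvd.dvd.mul_left (Dvd.dvd.trans ?_ (Subgroup.card_subgroup_dvd_card H)) _
    rw [card_of_equiv e Cfsg.Agent.Classical.DicksonSL.card_A5]; norm_num
  · intro h
    rw [exists_sub_PSL]
    by_cases h2 : (2 : F) = 0
    · haveI : CharP F 2 := CharTwo.of_one_ne_zero_of_two_eq_zero one_ne_zero h2
      haveI : Fact (Nat.Prime 2) := ⟨Nat.prime_two⟩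
      obtain ⟨f, hf, e⟩ := Cfsg.Agent.Classical.GLBasic.exists_card_eq_pow F 2
      obtain ⟨m, rfl | rfl⟩ := Nat.even_or_odd' f
      · obtain ⟨K, ⟨e'⟩⟩ := exists_subfield (F := F) (K := GaloisField 2 2) (r := m) (by
          rw [GaloisField.card 2 2 (by norm_num), e, pow_mul])
        have h4 : Nat.card K = 4 := by
          rw [← Nat.card_congr e'.toEquiv, GaloisField.card 2 2 (by norm_num)]; norm_num
        obtain ⟨e''⟩ := psl_equiv_A5 (Or.inl h4)
        exact ⟨subPSL K, subPSL_le_LL K, ⟨(subPSLEquiv K).symm.trans e''⟩⟩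
      · exfalso
        rw [e] at h
        have h7 : 5 ∣ (2 ^ (2 * m + 1)) ^ 2 - 1 := Nat.Coprime.dvd_of_dvd_mul_left
          (Nat.Coprime.pow_right _ (by norm_num)) h
        have h8 : (2 ^ (2 * m + 1)) ^ 2 % 5 = 4 := by
          rw [← pow_mul, show (2 * m + 1) * 2 = 4 * m + 2 by ring, pow_add, pow_mul, Nat.mul_mod,
            Nat.pow_mod]
          norm_num
        omega
    · haveI := NeZero.mk h2
      obtain ⟨τ, hτ⟩ := exists_tau_iff.2 h
      exact ⟨B0 τ hτ, B0_le_LL hτ, B0_equiv hτ⟩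

end Cfsg.Agent.S0804
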