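import Mathlib
import Cfsg.Statements.S0809
import Cfsg.Agent.Max.L2g

set_option autoImplicit false
open Cfsg

namespace Cfsg.Agent.S0809

open scoped Pointwise
open Cfsg.Agent.Max.L2 Cfsg.Agent.Classical.PSL2Basic Cfsg.Agent.Classical.P1Ident
  Cfsg.Agent.Classical.Congr Cfsg.Agent.Classical.P1
open Cfsg.Agent.Classical.SL2Basic in
theorem gen {F : Type*} [Field F] [Finite F] (h2 : (2 : F) ≠ 0)
    {A : Subgroup (Matrix.SpecialLinearGroup (Fin 2) F)} (hA : Nat.card A = 4) :
    ∃ x, x * x = -1 ∧ sP x ≠ 1 ∧ sP x * sP x = 1 ∧ ∀ g, g ∈ A ↔ (sP g = 1 ∨ sP g = sP x) := by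
  have h1 : ∃ x ∈ A, x * x ≠ 1 := by
    by_contra! h
    have : Nat.card A ≤ Nat.card (sP (F := F)).ker :=
      Subgroup.card_le_of_le fun g hg => toPGL_eq_one_iff.2 (eq_of_mul_self_eq_one h2 (h g hg))
    rw [card_ker_sP] at this
    have := dd_le (F := F)
    omega
  obtain ⟨x, hx, h3⟩ := h1
  have h4 : x ^ 4 = 1 := by
    have := pow_card_eq_one' (G := A) (x := ⟨x, hx⟩)
    rw [hA] at this
    exact congrArg Subtype.val this
  have h5 : x * x = -1 :=
    (eq_of_mul_self_eq_one h2 (g := x * x) (by rw [← h4]; simp [pow_succ, mul_assoc])).resolve_left h3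
  have h6 : sP x ≠ 1 := fun e => h3 (by rcases toPGL_eq_one_iff.1 e with rfl | rfl <;> simp)
  have h7 : sP x * sP x = 1 := by rw [← map_mul, h5, sP_neg, map_one]
  have h8 : (Subgroup.zpowers (sP x)).comap sP = A := by
    refine Subgroup.eq_of_le_of_card_ge ?_ ?_
    · intro g hg
      obtain ⟨n, hn⟩ := hg
      simp only at hn
      rw [← map_zpow, toPGL_eq_iff] at hn
      rcases hn with rfl | hn
      · exact zpow_mem hx n
      · rw [← neg_eq_iff_eq_neg] at hn
        rw [← hn, ← neg_one_mul, ← h5]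
        exact mul_mem (mul_mem hx hx) (zpow_mem hx n)
    · rw [card_comap_sP, inf_eq_left.2 (by simpa using sP_mem x), Nat.card_zpowers,
        orderOf_eq_prime (p := 2) (by rw [sq, h7]) h6, hA, dd, gcd_eq_two h2]
  refine ⟨x, h5, h6, h7, fun g => ?_⟩
  rw [← h8, Subgroup.mem_comap]
  constructor
  · rintro ⟨n, hn⟩
    simp only at hn
    rw [← hn]
    rcases Int.even_or_odd' n with ⟨m, rfl | rfl⟩
    · left; rw [zpow_mul, zpow_two, h7, one_zpow]
    · right; rw [zpow_add, zpow_mul, zpow_two, h7, one_zpow, one_mul, zpow_one]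
  · rintro (e | e) <;> rw [e]
    exacts [one_mem _, Subgroup.mem_zpowers _]

/-- In SL_2(q), q odd: any two subgroups of order 4 are conjugate, and the normaliser of a subgroup of order 4 has order 2(q − 1) if q ≡ 1 (mod 4) and 2(q + 1) if q ≡ 3 (mod 4); consequently all involutions of PSL_2(q) are conjugate. -/
theorem result {F : Type*} [Field F] [Fintype F] {q : ℕ} (hF : Fintype.card F = q) (hodd : Odd q) (A : Subgroup (Matrix.SpecialLinearGroup (Fin 2) F)) (hA : Nat.card A = 4) : (∀ B : Subgroup (Matrix.SpecialLinearGroup (Fin 2) F), Nat.card B = 4 → ∃ g : Matrix.SpecialLinearGroup (Fin 2) F, B = A.map (MulAut.conj g).toMonoidHom) ∧ (q % 4 = 1 → Nat.card ↥(Subgroup.normalizer (A : Set (Matrix.SpecialLinearGroup (Fin 2) F))) = 2 * (q - 1)) ∧ (q % 4 = 3 → Nat.card ↥(Subgroup.normalizer (A : Set (Matrix.SpecialLinearGroup (Fin 2) F))) = 2 * (q + 1)) ∧ (∀ x y : Matrix.ProjectiveSpecialLinearGroup (Fin 2) F, orderOf x = 2 → orderOf y = 2 → IsConj x y) :=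 by
  rw [← Nat.card_eq_fintype_card] at hF
  have h2 : (2 : F) ≠ 0 := odd_card_iff.1 (hF ▸ hodd)
  obtain ⟨x, -, h3, h4, h5⟩ := gen h2 hA
  obtain ⟨T, D, k, hT, hx, hk⟩ := inv_tor h2 (sP_mem x) h3 h4
  have h6 : Nat.card ↥(Subgroup.normalizer (A : Set (Matrix.SpecialLinearGroup (Fin 2) F))) =
      2 * k := by
    have : Subgroup.normalizer (A : Set (Matrix.SpecialLinearGroup (Fin 2) F)) = D.comap sP := by
      ext g
      rw [Subgroup.mem_comap, ← hT.centralizer_eq' hx h3 h4, Subgroup.mem_centralizer_singleton_iff,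
        Subgroup.mem_normalizer_iff]
      simp only [h5, map_mul, map_inv, conj_eq_one_iff]
      constructor
      · intro h
        rcases (h x).1 (Or.inr rfl) with e | e
        · exact absurd e h3
        · exact mul_inv_eq_iff_eq_mul.1 e
      · intro h y
        refine or_congr Iff.rfl ?_
        rw [mul_inv_eq_iff_eq_mul, ← h, mul_right_inj]
    rw [this, card_comap_sP, hT.DL.2, mul_left_comm, Nat.mul_div_cancel' hT.dd_dvd]
  refine ⟨fun B hB => ?_, fun h => ?_, fun h => ?_, fun u v hu hv => ?_⟩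
  · obtain ⟨y, -, h7, h8, h9⟩ := gen h2 hB
    obtain ⟨g, hg, e⟩ := inv_conj_L h2 (sP_mem x) h3 h4 (sP_mem y) h7 h8
    obtain ⟨c, rfl⟩ := exists_sP hg
    refine ⟨c, ?_⟩
    ext z
    rw [show A.map (MulAut.conj c).toMonoidHom = MulAut.conj c • A from rfl, mem_conj_iff, h9, h5,
      ← e]
    simp only [map_mul, map_inv]
    refine or_congr ?_ ?_
    · simpa using (conj_eq_one_iff (a := (sP c)⁻¹) (b := sP z)).symm
    · constructor
      · intro e; rw [e]; group
      · intro e; rw [← e]; group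
  · rw [h6]; rcases hT.k_eq with e | e <;> omega
  · rw [h6]; rcases hT.k_eq with e | e <;> omega
  · have h7 : ∀ w : Matrix.ProjectiveSpecialLinearGroup (Fin 2) F, orderOf w = 2 →
        toP w ≠ 1 ∧ toP w * toP w = 1 := fun w hw =>
      ⟨fun e => by
        rw [← map_one toP, toP_injective.eq_iff] at e
        rw [e] at hw; simp at hw, by rw [← map_mul, ← sq, orderOf_dvd_iff_pow_eq_one.1 hw.dvd, map_one]⟩
    obtain ⟨_, ⟨g, rfl⟩, e⟩ := inv_conj_L h2 ⟨u, rfl⟩ (h7 u hu).1 (h7 u hu).2 ⟨v, rfl⟩ (h7 v hv).1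
      (h7 v hv).2
    exact isConj_iff.2 ⟨g, toP_injective (by simpa using e)⟩

end Cfsg.Agent.S0809
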