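import Mathlib
import Cfsg.Statements.S0848
import Cfsg.Agent.Dih.D8

set_option autoImplicit false
open Cfsg

namespace Cfsg.Agent.S0848

open Cfsg.Agent.Dih in

/-- If a finite group equals its own commutator subgroup and contains an involution whose centralizer is isomorphic to the dihedral group of order 8, then the group has order 168 or 360. -/
theorem result {G : Type*} [Group G] [Finite G] (hperf : commutator G = ⊤) (t : G) (ht : orderOf t = 2) (e : Subgroup.centralizer ({t} : Set G) ≃* DihedralGroup 4) : Nat.card G = 168 ∨ Nat.card G = 360 := by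
  have h2 : ∀ H : Subgroup G, H.index ≠ 2 := by
    intro H hH
    have := Subgroup.normal_of_index_eq_two hH
    have h1 := PGrp.commutator_le_of_index_prime Nat.prime_two hH
    rw [hperf, top_le_iff] at h1
    rw [h1] at hH
    simp at hH
  rcases d8_of_no_index_two ht e h2 with ⟨⟨φ⟩⟩ | ⟨F, _, _, hF, ⟨φ⟩⟩
  · right
    rw [Nat.card_congr φ.toEquiv, nat_card_alternatingGroup]
    simp [Nat.factorial]
  · left
    rw [Nat.card_congr φ.toEquiv, Classical.PSL2Basic.card_PSL_of_card
      (q := 7) (by rw [Nat.card_eq_fintype_card, hF])]
    rfl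

end Cfsg.Agent.S0848
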