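import Mathlib
import Cfsg.Statements.S0878
import Cfsg.Agent.Perm.Zass2

set_option autoImplicit false
open Cfsg

namespace Cfsg.Agent.S0878


/-- Let G be a Zassenhaus group on the finite set Ω, a a point, and let H be the subgroup of the stabilizer of a consisting of the identity and the elements fixing no point other than a (given here as a subgroup of the stabilizer of order one less than the number of points whose non-identity elements fix only a; it is the Frobenius kernel of the stabilizer). Then an element outside the stabilizer of a conjugates no non-identity element of H into H, and the normalizer of H is exactly the stabilizer of a. -/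
theorem result {G Ω : Type*} [Group G] [Finite G] [MulAction G Ω] [Fintype Ω] (hZ : Cfsg.IsZassenhausGroup G Ω) (a : Ω) (H : Subgroup G) (hHa : H ≤ MulAction.stabilizer G a) (hHcard : Nat.card H + 1 = Fintype.card Ω) (hHfix : ∀ u ∈ H, u ≠ 1 → ∀ c : Ω, u • c = c → c = a) : (∀ g : G, g ∉ MulAction.stabilizer G a → ∀ u ∈ H, g * u * g⁻¹ ∈ H → u = 1) ∧ Subgroup.normalizer (H : Set G) = MulAction.stabilizer G a := by
  have h := Perm.Z3.of_isZ hZ
  have hF := Perm.ZKer.of_card h hZ.2.2.2.1 hHa (hHcard.trans Nat.card_eq_fintype_card.symm) hHfix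
  have key : ∀ g : G, g ∉ MulAction.stabilizer G a → ∀ u ∈ H, g * u * g⁻¹ ∈ H → u = 1 := by
    intro g hg u hu hgu
    have := hF.free _ hgu (g • a) hg (by rw [Perm.conj_smul_smul, hF.le u hu])
    simpa using this
  refine ⟨key, le_antisymm (fun g hg => ?_) fun g hg =>
    Transfer.mem_normalizer_of_conj_mem (hF.conj g hg)⟩
  by_contra hga
  have := Perm.zass_nontrivial hZ
  obtain ⟨b, hb⟩ := exists_ne a
  obtain ⟨c, h1, h2⟩ := h.exists_third hZ.2.2.2.1 hb.symm
  obtain ⟨⟨u, hu⟩, hu1⟩ := Subgroup.ne_bot_iff_exists_ne_one.mp (hF.ne_bot hb h1 h2)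
  exact hu1 (Subtype.ext (key g hga u hu ((Subgroup.mem_normalizer_iff.mp hg u).mp hu)))

end Cfsg.Agent.S0878
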