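import Mathlib
import Cfsg.Statements.S0879
import Cfsg.Agent.Perm.Zass2

set_option autoImplicit false
open Cfsg

namespace Cfsg.Agent.S0879


/-- Let G be a Zassenhaus group on the finite set Ω and E the stabilizer of two distinct points a, b. Then an element outside the normalizer of E conjugates no non-identity element of E into E, and E has index 2 in its normalizer. -/
theorem result {G Ω : Type*} [Group G] [Finite G] [MulAction G Ω] [Fintype Ω] (hZ : Cfsg.IsZassenhausGroup G Ω) {a b : Ω} (hab : a ≠ b) : (∀ g : G, g ∉ Subgroup.normalizer ((MulAction.stabilizer G a ⊓ MulAction.stabilizer G b : Subgroup G) : Set G) → ∀ x ∈ (MulAction.stabilizer G a ⊓ MulAction.stabilizer G b : Subgroup G), g * x * g⁻¹ ∈ (MulAction.stabilizer G a ⊓ MulAction.stabilizer G b : Subgroup G) → x = 1) ∧ ((MulAction.stabilizer G a ⊓ MulAction.stabilizer G b : Subgroup G).subgroupOf (Subgroup.normalizer ((MulAction.stabilizer G a ⊓ MulAction.stabilizer G b : Subgroup G) : Set G))).index =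 2 := by
  have h := Perm.Z3.of_isZ hZ
  obtain ⟨t, ht, ta, tb⟩ := h.exists_swap hab
  have hsw : ∀ s : G, s • a = b → s • b = a → s ∈ Subgroup.normalizer
      ((MulAction.stabilizer G a ⊓ MulAction.stabilizer G b : Subgroup G) : Set G) :=
    fun s sa sb => Transfer.mem_normalizer_of_conj_mem fun k hk => Perm.conj_mem_two_of_swap sa sb hk
  refine ⟨fun g hg x hx hgx => ?_, ?_⟩
  · by_contra hx1
    rcases h.fix_or_swap hab hx1 hx.1 hx.2 hgx.1 hgx.2 with h1 | h1
    · exact hg (Subgroup.le_normalizer h1)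
    · exact hg (hsw g h1.1 h1.2)
  · obtain ⟨x, hx1, xa, xb⟩ := h.exists_fix_two hZ.2.2.2.1 hab
    refine Subgroup.index_eq_two_iff.mpr ⟨⟨t, hsw t ta tb⟩, fun ⟨g, hg⟩ => ?_⟩
    have hgx := (Subgroup.mem_normalizer_iff.mp hg x).mp ⟨xa, xb⟩
    simp only [Subgroup.mem_subgroupOf, Subgroup.coe_mul, Perm.mem_two, mul_smul, ta, tb]
    rcases h.fix_or_swap hab hx1 xa xb hgx.1 hgx.2 with h1 | h1
    · exact Or.inr ⟨h1, fun h2 => hab (h2.1.symm.trans h1.2)⟩
    · exact Or.inl ⟨⟨h1.2, h1.1⟩, fun h2 => hab (h2.1.symm.trans h1.1)⟩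

end Cfsg.Agent.S0879
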