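import Mathlib
import Cfsg.Statements.S0880
import Cfsg.Agent.Perm.Zass6

set_option autoImplicit false
open Cfsg

namespace Cfsg.Agent.S0880


/-- Let G be a finite simple Zassenhaus group on Ω with n points whose two-point stabilizer E has odd order less than n - 2. Then there are two elements of G, each fixing no point of Ω, that are not conjugate. -/
theorem result {G Ω : Type*} [Group G] [Finite G] [MulAction G Ω] [Fintype Ω] (hZ : Cfsg.IsZassenhausGroup G Ω) {a b : Ω} (hab : a ≠ b) [IsSimpleGroup G] (hodd : Odd (Nat.card ↥(MulAction.stabilizer G a ⊓ MulAction.stabilizer G b : Subgroup G))) (hlt : Nat.card ↥(MulAction.stabilizer G a ⊓ MulAction.stabilizer G b : Subgroup G) < Fintype.card Ω - 2) : ∃ x y : G, (∀ c : Ω, x • c ≠ c) ∧ (∀ c : Ω, y • c ≠ c) ∧ ¬ IsConj x y := by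
  classical
  have h := Perm.Z3.of_isZ hZ
  have := Fintype.ofFinite G
  have h1 := h.two_mul_ncard_fpf hab
  have h2 := h.card_eq hab
  have h3 := Perm.zass_one_lt hZ hab
  rw [← Nat.card_eq_fintype_card] at hlt
  generalize Nat.card ↥(MulAction.stabilizer G a ⊓ MulAction.stabilizer G b : Subgroup G) = e at *
  obtain ⟨n, hn⟩ := Nat.exists_eq_add_of_le' (Perm.zass_two_lt hZ).le
  obtain ⟨k, rfl⟩ := hodd
  rw [hn] at h1 h2 hlt
  simp only [Nat.add_succ_sub_one, Nat.add_sub_cancel] at h1 h2 hlt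
  have h4 : {g : G | ∀ c : Ω, g • c ≠ c}.ncard = (n + 1) * ((n + 2) * k + 1) := by nlinarith
  obtain ⟨x, hx⟩ := Set.nonempty_of_ncard_ne_zero (h4 ▸ by positivity :
    {g : G | ∀ c : Ω, g • c ≠ c}.ncard ≠ 0)
  by_contra hc
  push Not at hc
  have h5 : {g : G | ∀ c : Ω, g • c ≠ c} = {g | IsConj x g} := Set.ext fun g =>
    ⟨hc x g hx, fun hg c e => by
      obtain ⟨y, rfl⟩ := isConj_iff.mp hg
      exact hx (y⁻¹ • c) (by rw [eq_inv_smul_iff, ← mul_smul, ← mul_smul, e])⟩
  have h6 := (Subgroup.centralizer ({x} : Set G)).index_mul_card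
  rw [← Char.card_isConj, show Nat.card {g // IsConj x g} = _ from Nat.card_coe_set_eq {g | IsConj x g},
    ← h5, h4, h2] at h6
  have h7 : 1 < Nat.card (Subgroup.centralizer ({x} : Set G)) :=
    (Subgroup.one_lt_card_iff_ne_bot _).mpr fun e => hx a (by
      rw [Subgroup.mem_bot.mp (e.le (Subgroup.mem_centralizer_singleton_iff.mpr rfl)), one_smul])
  generalize Nat.card (Subgroup.centralizer ({x} : Set G)) = c at *
  have h8 : ((n + 2) * k + 1) * c = (n + 2) * (2 * k + 1) :=
    Nat.eq_of_mul_eq_mul_left (Nat.succ_pos n) (by linarith)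
  rcases (show c = 2 ∨ 3 ≤ c by omega) with rfl | h9
  · nlinarith
  · have : 1 ≤ k := by omega
    nlinarith [Nat.mul_le_mul_left ((n + 2) * k + 1) h9, Nat.mul_le_mul_left (n + 2) this]

end Cfsg.Agent.S0880
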