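import Mathlib
import Cfsg.Statements.S0898
import Cfsg.Agent.Isaacs.FTh
-- import your own Cfsg.Agent.* helpers here

set_option autoImplicit false
open Cfsg

namespace Cfsg.Agent.S0898

open Cfsg.Agent.Char Cfsg.Agent.Isaacs Cfsg.Agent.Core Subgroup

/-- Let H be an abelian subgroup of the finite group G meeting the centre of G trivially, such that for every non-central g the centralizer of g has nontrivial intersection with at most one conjugate of H. Let χ be an irreducible character of G with χ h ≠ χ 1 for some h in H, and let c be the inner product of the restriction of χ to H with the principal character. Then χ(1)² > (order of H)·c²; and if in addition χ 1 ≠ 1 and no proper normal subgroup of G contains H, then (1 + χ 1)² > order of H (both sides read as real numbers). -/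
theorem result {G : Type*} [Group G] [Fintype G] (H : Subgroup G) [Fintype H] (hab : ∀ a ∈ H, ∀ b ∈ H, a * b = b * a) (hZ : H ⊓ Subgroup.center G = ⊥) (hone : ∀ g : G, g ∉ Subgroup.center G → ∀ a b : G, Subgroup.centralizer ({g} : Set G) ⊓ H.map (MulAut.conj a).toMonoidHom ≠ ⊥ → Subgroup.centralizer ({g} : Set G) ⊓ H.map (MulAut.conj b).toMonoidHom ≠ ⊥ → H.map (MulAut.conj a).toMonoidHom = H.map (MulAut.conj b).toMonoidHom) (χ : G → ℂ) (hχ : Cfsg.IsIrrCharacter G χ) (hker : ∃ h ∈ H, χ h ≠ χ 1) : (χ 1).re ^ 2 > (Nat.card H : ℝ) * (Cfsg.classInner (fun h : H => χ h) (fun _ => 1)).re ^ 2 ∧ (χ 1 ≠ 1 → (∀ M : Subgroup G, M.Normal → H ≤ M → M = ⊤) → (1 + (χ 1).re) ^ 2 > (Nat.card H : ℝ)) := by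
  have h := irr_top.mpr hχ
  have hone' : ∀ g, g ∉ center G → ∀ x, (∃ y ∈ H, y ≠ 1 ∧ y * g = g * y) →
      (∃ y ∈ H, y ≠ 1 ∧ y * (x * g * x⁻¹) = x * g * x⁻¹ * y) → x ∈ normalizer (H : Set G) :=
    fun g i x ⟨y, y1, y2, y3⟩ ⟨z, z1, z2, z3⟩ => by
      have e := hone g i 1 x⁻¹ (fun e => y2 (e.le ⟨mem_centralizer_singleton_iff.mpr y3, y, y1, by simp⟩))
        (fun e => z2 (conj_eq_one_iff.mp (e.le ⟨mem_centralizer_singleton_iff.mpr (show x⁻¹ * z * x⁻¹⁻¹ * g = g * (x⁻¹ * z * x⁻¹⁻¹) by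
          rw [inv_inv, ← mul_left_cancel_iff (a := x), ← mul_right_cancel_iff (a := x⁻¹)]
          simpa [mul_assoc] using z3), z, z1, rfl⟩)))
      refine inv_mem_iff.mp (mem_normalizer_fintype fun t ht => ?_)
      obtain ⟨s, hs, e'⟩ := e.ge ⟨t, ht, rfl⟩
      have : s = x⁻¹ * t * x⁻¹⁻¹ := by simpa using e'
      exact this ▸ hs
  obtain ⟨n, -, hn⟩ := h.deg
  obtain ⟨a, ha⟩ := (h.chr.res (le_top (a := H))).inn_nat chr_one
  have hk : ¬ Ker H χ := fun e => hker.elim fun x hx => hx.2 (e x hx.1)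
  refine ⟨?_, fun h1 hM => ?_⟩
  · have ha' := ha
    rw [inn_eq] at ha'
    rw [ha', hn]
    exact_mod_cast ft_deg hab hZ hone' h hk hn ha
  · rw [hn]
    exact_mod_cast ft_card hab hZ hone' h hn (fun e => h1 (by simp [hn, e])) hM

end Cfsg.Agent.S0898
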