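import Mathlib
import Cfsg.Statements.S0987
import Cfsg.Agent.Perm.Small3

set_option autoImplicit false
open Cfsg

namespace Cfsg.Agent.S0987


/-- If a finite group has order pqr for primes p < q < r, then its Sylow r-subgroups are normal. -/
theorem result {G : Type*} [Group G] [Finite G] (p q r : ℕ) (hp : p.Prime) (hq : q.Prime) [Fact r.Prime] (hpq : p < q) (hqr : q < r) (hG : Nat.card G = p * q * r) (R : Sylow r G) : (R : Subgroup G).Normal := by
  have hr : r.Prime := Fact.out
  have := Fact.mk hp
  obtain ⟨P⟩ : Nonempty (Sylow p G) := inferInstance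
  have hnd : ∀ {a b : ℕ}, a.Prime → b.Prime → a ≠ b → ¬ a ∣ b := fun ha hb hab h =>
    hab ((Nat.prime_dvd_prime_iff_eq ha hb).mp h)
  have hP : Nat.card P = p ^ 1 := Perm.sylow_card_eq P (m := q * r) (by rw [hG]; ring)
    fun h => (hp.dvd_mul.mp h).elim (hnd hp hq hpq.ne) (hnd hp hr (hpq.trans hqr).ne)
  rw [pow_one] at hP
  have hc : IsCyclic (P : Subgroup G) := isCyclic_of_prime_card hP
  have hmin : (Nat.card G).minFac = p := by
    have h1 : (Nat.card G).minFac ≤ p := Nat.minFac_le_of_dvd hp.two_le (by rw [hG, mul_assoc]; simp)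
    have h2 : (Nat.card G).minFac.Prime := Nat.minFac_prime (by
      rw [hG]; intro h; exact hr.one_lt.ne' (Nat.eq_one_of_mul_eq_one_left h))
    have h3 := Nat.minFac_dvd (Nat.card G)
    generalize (Nat.card G).minFac = s at *
    rw [hG] at h3
    rcases h2.dvd_mul.mp h3 with h | h
    · rcases h2.dvd_mul.mp h with h | h
      · exact (Nat.prime_dvd_prime_iff_eq h2 hp).mp h
      · have := (Nat.prime_dvd_prime_iff_eq h2 hq).mp h; omega
    · have := (Nat.prime_dvd_prime_iff_eq h2 hr).mp h; omega
  have hcompl := hc.isComplement' hmin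
  set K := (MonoidHom.transferSylow P (hc.normalizer_le_centralizer hmin)).ker
  have hKi : K.index = p := by rw [hcompl.symm.index_eq_card, hP]
  have hK : Nat.card K = r ^ 1 * q := by
    have := K.card_mul_index
    rw [hKi, hG] at this
    apply Nat.eq_of_mul_eq_mul_right hp.pos
    rw [this]; ring
  have h1 := FGS.card_sylow_normal_of_not_dvd_index (p := r) K
    (hKi ▸ hnd hr hp (hpq.trans hqr).ne')
  have h2 := Perm.card_sylow_dvd hK (hnd hr hq hqr.ne')
  have h3 := card_sylow_modEq_one r K
  have h4 : Nat.card (Sylow r G) = 1 := by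
    rw [← h1]
    refine ((Nat.dvd_prime hq).mp h2).resolve_right fun h => ?_
    rw [h, Nat.ModEq, Nat.mod_eq_of_lt hqr, Nat.mod_eq_of_lt hr.one_lt] at h3
    exact hq.one_lt.ne' h3
  rw [FGS.card_sylow_eq R, Subgroup.index_eq_one] at h4
  exact Subgroup.normalizer_eq_top_iff.mp h4

end Cfsg.Agent.S0987
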