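import Mathlib
import Cfsg.Statements.S0988
import Cfsg.Agent.Fil.A
import Cfsg.Agent.S0499
import Cfsg.Agent.S0496
import Cfsg.Agent.S0144

set_option autoImplicit false
open Cfsg

namespace Cfsg.Agent.S0988

open Subgroup Cfsg.Agent.Fil

theorem aux {G : Type*} [Group G] [Finite G] [IsSimpleGroup G] (hG : ¬ IsMulCommutative G) (r : ℕ)
    (hr : r.Prime) (h : Nat.card G = 12 * r) : Nat.card G = 60 := by
  by_cases h91 : r ≤ 91
  · rcases Cfsg.Agent.S0496.result hG (by omega) with h1 | h1 | h1 | h1 | h1 | h1
    · exact h1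
    all_goals
      exfalso
      first
      | (have : r = 14 := by omega
         subst this; norm_num at hr)
      | (have : r = 30 := by omega
         subst this; norm_num at hr)
      | (have : r = 42 := by omega
         subst this; norm_num at hr)
      | (have : r = 55 := by omega
         subst this; norm_num at hr)
      | (have : r = 91 := by omega
         subst this; norm_num at hr)
  exfalso
  haveI : Fact r.Prime := ⟨hr⟩
  obtain ⟨R⟩ := (inferInstance : Nonempty (Sylow r G))
  have h1 := card_sylow_modEq_one r G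
  have h2 := R.card_dvd_index
  have hrR : r ∣ Nat.card R := by
    have h3 := R.not_dvd_index
    have h4 : r ∣ Nat.card R * (R : Subgroup G).index := by
      rw [card_mul_index, h]; exact dvd_mul_left _ _
    exact ((Nat.Prime.dvd_mul hr).1 h4).resolve_right h3
  have h5 : (R : Subgroup G).index ≤ 12 := by
    have h6 := (R : Subgroup G).card_mul_index
    have h7 := Nat.le_of_dvd Nat.card_pos hrR
    rw [h] at h6
    by_contra h8
    nlinarith [hr.pos]
  have h9 : Nat.card (Sylow r G) ≤ 12 := (Nat.le_of_dvd (Nat.pos_of_ne_zero index_ne_zero_of_finite) h2).trans h5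
  have h10 : Nat.card (Sylow r G) = 1 := by
    have := Nat.ModEq.eq_of_lt_of_lt h1 (by omega) (by omega)
    exact this
  haveI : Subsingleton (Sylow r G) := (Nat.card_eq_one_iff_unique.1 h10).1
  have hn : (R : Subgroup G).Normal := R.normal_of_subsingleton
  rcases hn.eq_bot_or_eq_top with h0 | h0
  · rw [h0, card_bot] at hrR
    exact hr.ne_one (Nat.dvd_one.1 hrR)
  · have hp' : IsPGroup r G := by
      have h := R.isPGroup'
      rw [h0] at h
      exact h.of_equiv topEquiv
    haveI := hp'.isNilpotent
    exact hG ⟨⟨fun a b => IsSimpleGroup.comm_iff_isSolvable.2 inferInstance a b⟩⟩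


/-- If a finite simple group has order p^2 * q * r with p, q and r prime, then its order is 60. -/
theorem result {G : Type*} [Group G] [Finite G] [IsSimpleGroup G] (p q r : ℕ) (hp : p.Prime) (hq : q.Prime) (hr : r.Prime) (hG : Nat.card G = p ^ 2 * q * r) : Nat.card G = 60 := by
  have hns : ¬ Group.IsSolvable G := by
    intro hs
    have hc := IsSimpleGroup.comm_iff_isSolvable.2 hs
    letI : CommGroup G := { mul_comm := hc }
    have h1 : (Nat.card G).Prime := IsSimpleGroup.prime_card
    rw [hG, mul_assoc] at h1
    rcases (Nat.prime_mul_iff.1 h1) with ⟨h2, h3⟩ | ⟨h2, h3⟩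
    · exact absurd (Nat.eq_one_of_mul_eq_one_right h3) hq.ne_one
    · exact absurd (Nat.pow_eq_one.1 h3) (by simp [hp.ne_one])
  have hab : ¬ IsMulCommutative G := fun h => hns (IsSimpleGroup.comm_iff_isSolvable.1 fun a b => h.1.1 a b)
  have hqr : q ≠ r := by
    rintro rfl
    exact hns (Cfsg.Agent.S0144.result p q 2 2 hp hq (by rw [hG]; ring))
  have h4 : 4 ∣ Nat.card G := by
    rcases Cfsg.Agent.S0499.result hab (even_of_simple hab) with h | h | h
    all_goals exact Dvd.dvd.trans (by norm_num) h
  have hp2 : p = 2 := by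
    by_contra hne
    have hco : Nat.Coprime 4 (p ^ 2) := by
      have : Nat.Coprime 2 p := (Nat.coprime_primes Nat.prime_two hp).2 (Ne.symm hne)
      exact Nat.Coprime.pow 2 2 this
    rw [hG, mul_assoc] at h4
    have h5 := hco.dvd_of_dvd_mul_left h4
    rcases hq.eq_two_or_odd' with rfl | hq'
    · have : 2 ∣ r := by omega
      exact hqr ((Nat.prime_dvd_prime_iff_eq Nat.prime_two hr).1 this)
    · have hco2 : Nat.Coprime 4 q := Nat.Coprime.pow_left 2 (Nat.coprime_two_left.2 hq')
      have h6 := hco2.dvd_of_dvd_mul_left h5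
      have := (Nat.dvd_prime hr).1 h6
      rcases this with h | h
      · omega
      · rw [← h] at hr; norm_num at hr
  subst hp2
  have hq2 : q ≠ 2 := by
    rintro rfl
    exact hns (Cfsg.Agent.S0144.result 2 r 3 1 hp hr (by rw [hG]; ring))
  have hr2 : r ≠ 2 := by
    rintro rfl
    exact hns (Cfsg.Agent.S0144.result 2 q 3 1 hp hq (by rw [hG]; ring))
  have hodd : Odd (q * r) := (hq.odd_of_ne_two hq2).mul (hr.odd_of_ne_two hr2)
  have h3 : 3 ∣ q * r := by
    rcases Cfsg.Agent.S0499.result hab (even_of_simple hab) with h | h | h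
    all_goals
      rw [hG, mul_assoc] at h
      obtain ⟨k, hk⟩ := hodd
      omega
  rcases (Nat.Prime.dvd_mul Nat.prime_three).1 h3 with h | h
  · have := (Nat.prime_dvd_prime_iff_eq Nat.prime_three hq).1 h
    subst this
    exact aux hab r hr (by rw [hG]; ring)
  · have := (Nat.prime_dvd_prime_iff_eq Nat.prime_three hr).1 h
    subst this
    exact aux hab q hq (by rw [hG]; ring)

end Cfsg.Agent.S0988
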