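import Mathlib
import Cfsg.Statements.S0995
import Cfsg.Agent.Perm.Small3

set_option autoImplicit false
open Cfsg

namespace Cfsg.Agent.S0995


/-- Let G be a finite perfect group containing an element z of prime order p whose centralizer is the cyclic group it generates. Let t be the number of conjugacy classes of elements of order p. Then t divides p - 1, the number of Sylow p-subgroups has the form 1 + n * p, and |G| * t = (p - 1) * p * (1 + n * p). -/
theorem result {G : Type*} [Group G] [Finite G] (hperf : commutator G = ⊤) (p : ℕ) [Fact p.Prime] (z : G) (hz : orderOf z = p) (hC : Subgroup.centralizer ({z} : Set G) = Subgroup.zpowers z) : ∃ n t : ℕ, t = Nat.card {c : ConjClasses G // ∃ g : G, ConjClasses.mk g = c ∧ orderOf g = p} ∧ t ∣ p - 1 ∧ Nat.card (Sylow p G) = 1 + n * p ∧ Nat.card G * t = (p - 1) * p * (1 + n * p) := by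
  have hp : p.Prime := Fact.out
  obtain ⟨P, hP⟩ := Perm.exists_sylow_eq_zpowers hz hC.le
  have hPc : Nat.card P = p := by rw [hP, Nat.card_zpowers, hz]
  have hCP : Nat.card (Subgroup.centralizer ((P : Subgroup G) : Set G)) = p := by
    rw [hP, Perm.centralizer_zpowers, hC, Nat.card_zpowers, hz]
  have h1 := Perm.ncard_mul_eq_card_classes (fun g : G => orderOf g = p)
    (fun x y h hx => (Perm.orderOf_eq_of_isConj h).symm.trans hx)
    fun g hg => (Perm.card_centralizer_of_orderOf P hPc hg).trans hCP
  rw [Perm.ncard_orderOf_prime P hPc] at h1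
  have h2 := Perm.card_sylow_mul P
  have h3 := Perm.card_centralizer_mul_relIndex (P : Subgroup G)
  rw [hCP] at h3
  have h0 : 0 < Nat.card (Sylow p G) := Nat.card_pos
  obtain ⟨n, hn⟩ := (Nat.modEq_iff_dvd' h0).mp (card_sylow_modEq_one p G).symm
  have hn' : Nat.card (Sylow p G) = 1 + n * p := by rw [mul_comm n, ← hn]; omega
  refine ⟨n, _, rfl, ?_, hn', ?_⟩
  · rw [← h2, ← h3] at h1
    refine Dvd.intro ((Subgroup.centralizer ((P : Subgroup G) : Set G)).relIndex
      (Subgroup.normalizer ((P : Subgroup G) : Set G))) ?_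
    apply Nat.eq_of_mul_eq_mul_left (Nat.mul_pos h0 hp.pos)
    linarith
  · rw [← hn']
    linarith

end Cfsg.Agent.S0995
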