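import Mathlib
import Cfsg.Statements.S1018
import Cfsg.Agent.Perm.Small3

set_option autoImplicit false
open Cfsg

namespace Cfsg.Agent.S1018


/-- Let P be a Sylow p-subgroup of order p of a finite group G, and consider the action of G on the left cosets of the normalizer N of P. Then every element of order p fixes exactly one coset, and an element of N that does not centralize P fixes at most as many cosets as there are orbits of P. -/
theorem result {G : Type*} [Group G] [Finite G] (p : ℕ) [Fact p.Prime] (P : Sylow p G) (hP : Nat.card ↥(P : Subgroup G) = p) : (∀ y : G, orderOf y = p → Nat.card (MulAction.fixedBy (G ⧸ Subgroup.normalizer ((P : Subgroup G) : Set G)) y) = 1) ∧ ∀ x : G, x ∈ Subgroup.normalizer ((P : Subgroup G) : Set G) → x ∉ Subgroup.centralizer ((P : Subgroup G) : Set G) → Nat.card (MulAction.fixedBy (G ⧸ Subgroup.normalizer ((P : Subgroup G) : Set G)) x) ≤ Nat.card (MulAction.orbitRel.Quotient ↥(P : Subgroup G) (G ⧸ Subgroup.normalizer ((P : Subgroup G) : Set G))) := by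
  have hp : p.Prime := Fact.out
  set N := Subgroup.normalizer ((P : Subgroup G) : Set G) with hN
  have hfix : ∀ y g : G, y • (g : G ⧸ N) = g ↔ g⁻¹ * y * g ∈ N := fun y g => by
    rw [MulAction.Quotient.smul_mk, smul_eq_mul, eq_comm, QuotientGroup.eq, mul_assoc]
  refine ⟨fun y hy => ?_, fun x hx hxC => ?_⟩
  · have hy1 : y ≠ 1 := by
      rintro rfl
      exact hp.one_lt.ne (by simpa using hy)
    have key : ∀ g : G, y • (g : G ⧸ N) = g ↔ g⁻¹ * y * g ∈ P := fun g => by
      rw [hfix]
      refine ⟨Perm.mem_sylow_of_mem_normalizer P (k := 1) ?_, fun h => Subgroup.le_normalizer h⟩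
      rw [pow_one, ← hy]
      exact (Perm.orderOf_eq_of_isConj (isConj_iff.mpr ⟨g⁻¹, by simp⟩)).symm
    obtain ⟨g, hg⟩ := Perm.exists_conj_mem_sylow P (k := 1) (x := y) (by rw [hy, pow_one])
    rw [Nat.card_eq_one_iff_exists]
    refine ⟨⟨(g⁻¹ : G), (key _).mpr (by simpa using hg)⟩, fun ⟨q, hq⟩ => Subtype.ext ?_⟩
    obtain ⟨a, rfl⟩ := QuotientGroup.mk_surjective q
    have h1 := (key a).mp hq
    refine QuotientGroup.eq.mpr (Perm.mem_normalizer_of_card_prime hP hg
      (fun h => hy1 (conj_eq_one_iff.mp h)) ?_)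
    have h2 : a⁻¹ * y * a ∈ (P : Subgroup G) := h1
    simpa [mul_assoc] using h2
  · refine Nat.card_le_card_of_injective (fun q => Quotient.mk _ q.1) ?_
    rintro ⟨a, ha⟩ ⟨b, hb⟩ hab
    obtain ⟨⟨u, hu⟩, hub⟩ := Quotient.exact hab
    have hub' : u • b = a := hub
    have ha' : x • a = a := ha
    have hb' : x • b = b := hb
    refine Subtype.ext (?_ : a = b)
    by_cases hu1 : u = 1
    · rw [← hub', hu1, one_smul]
    have h1 : x * u * x⁻¹ ∈ (P : Subgroup G) := (Subgroup.mem_normalizer_iff.mp hx u).mp hu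
    have h2 : u⁻¹ * (x * u * x⁻¹) ≠ 1 := fun h => hxC (by
      rw [← Perm.centralizer_eq_of_card_prime hP hu hu1, Subgroup.mem_centralizer_singleton_iff]
      calc x * u = u * (u⁻¹ * (x * u * x⁻¹)) * x := by group
        _ = u * x := by rw [h, mul_one])
    have h3 : (u⁻¹ * (x * u * x⁻¹)) ∈ MulAction.stabilizer G b := by
      rw [MulAction.mem_stabilizer_iff, mul_smul, mul_smul, mul_smul, inv_smul_eq_iff.mpr hb'.symm,
        hub', ha', ← hub', inv_smul_smul]
    have h4 := Perm.zpowers_eq_of_card_prime hP (mul_mem (inv_mem hu) h1) h2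
    have h5 : u ∈ MulAction.stabilizer G b := Subgroup.zpowers_le.mpr h3 (h4 ▸ hu)
    exact hub'.symm.trans h5

end Cfsg.Agent.S1018
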