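import Mathlib
import Cfsg.Statements.S1138
import Cfsg.Agent.RankOne.HigD
-- import your own Cfsg.Agent.* helpers here

set_option autoImplicit false
open Cfsg

namespace Cfsg.Agent.S1138

/-- Let `P` be a Suzuki 2-group with `|Z(P)| = q`. Then every square lies in `Z(P)` and `P/Z(P)` is abelian (so elementary abelian), `|P| = q²` or `|P| = q³`, and `P` has exponent 4. -/
theorem result {P : Type*} [Group P] (hP : Cfsg.IsSuzukiTwoGroup P) :
    (∀ x : P, x * x ∈ Subgroup.center P) ∧ (∀ x y : P, x⁻¹ * y⁻¹ * x * y ∈ Subgroup.center P) ∧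
      (Nat.card P = Nat.card (Subgroup.center P) ^ 2 ∨ Nat.card P = Nat.card (Subgroup.center P) ^ 3) ∧
      Monoid.exponent P = 4 := by
  obtain ⟨_, hn, F, _, _, _, ⟨H⟩⟩ := RankOne.exists_hig_of_suzuki hP
  have hsq := H.sq_mem_Z hn
  rw [H.center_eq hn, H.card_Z]
  refine ⟨hsq, fun x y => ?_, (H.card_cases hn).imp_right And.left, ?_⟩
  · simpa [commutatorElement_def] using RankOne.Hig.comm_mem_Z hsq x⁻¹ y⁻¹
  · have h4 : Monoid.exponent P ∣ 2 ^ 2 := Monoid.exponent_dvd_of_forall_pow_eq_one fun g => by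
      rw [show 2 ^ 2 = 2 * 2 by rfl, pow_mul, sq, sq]; exact hsq g
    obtain ⟨i, hi, e⟩ := (Nat.dvd_prime_pow Nat.prime_two).mp h4
    have : ¬ Monoid.exponent P ∣ 2 := fun h => hn fun u v =>
      Commute.of_orderOf_dvd_two (fun g => (Monoid.order_dvd_exponent g).trans h) u v
    rw [e] at this ⊢
    interval_cases i <;> simp_all

end Cfsg.Agent.S1138
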