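import Mathlib
import Cfsg.Statements.S1167
import Cfsg.Agent.Suz.ZassW
-- import your own Cfsg.Agent.* helpers here

set_option autoImplicit false
open Cfsg

namespace Cfsg.Agent.S1167

/-- Let `G` be a finite simple Zassenhaus group on `Ω`, `U` a normal subgroup of `G_a` regular on `Ω` minus `a` which is an abelian 2-group, and `v` an involution with `v • a ≠ a`. Then there is a unique `u₀ ∈ U`, `u₀ ≠ 1`, with `v u₀ v = u₀ v u₀`. -/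
theorem result {G Ω : Type*} [Group G] [Finite G] [MulAction G Ω] [Finite Ω]
    (hZ : Cfsg.IsZassenhausGroup G Ω) [IsSimpleGroup G] {a : Ω}
    (U : Subgroup G) (hUle : U ≤ MulAction.stabilizer G a)
    (hUn : ∀ h ∈ MulAction.stabilizer G a, ∀ u ∈ U, h * u * h⁻¹ ∈ U)
    (hreg : ∀ c d : Ω, c ≠ a → d ≠ a → ∃! u : U, (u : G) • c = d)
    (hU2 : IsPGroup 2 U) (hUab : ∀ u ∈ U, ∀ u' ∈ U, u * u' = u' * u)
    (v : G) (hv1 : v ≠ 1) (hv2 : v * v = 1) (hva : v • a ≠ a) :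
    ∃! u₀ : G, u₀ ∈ U ∧ u₀ ≠ 1 ∧ v * u₀ * v = u₀ * v * u₀ := by
  have hF := Suz.zker_of_reg hUle hUn hreg
  obtain ⟨hS, hT, hV⟩ := Suz.setup_of_zass hZ hF hU2 hv2 hva
  have := hZ.1
  have h2 := Suz.zass_abelian hS hT hV hUab
  obtain ⟨F, _, _, _, ⟨Z⟩⟩ := Suz.exists_ZF hS hT
  have hr := Z.r_eq_of_mem (Z.mem_Zs'.mpr ⟨Z.r_mem, h2 _ Z.r_mem⟩)
  have e := Z.struct
  refine ⟨Z.z 1, ⟨Z.z_mem 1, Z.s_ne_one, by rw [e, hr, Z.z_inv]⟩, fun u ⟨hu, h1, e'⟩ => ?_⟩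
  exact (RankOne.Setup.structure_unique hS ⟨hUle hu, h1, h2 u hu⟩ hu
    (by rw [e', RankOne.inv_eq_of_mul_self (h2 u hu)]) (Z.z_inv_mem one_ne_zero) Z.r_mem e).1

end Cfsg.Agent.S1167
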