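import Mathlib
import Cfsg.Statements.S1223
import Cfsg.Agent.Ben.Main
import Cfsg.Agent.S1135

set_option autoImplicit false
open Cfsg

namespace Cfsg.Agent.S1223


/-- Let H be a strongly embedded subgroup of the finite group G containing no nontrivial normal subgroup of G (so G acts faithfully on the cosets of H), u an involution of G outside H, and j ≠ 1 an element of H ∩ uHu⁻¹ with u j u⁻¹ = j⁻¹. Then C_G(j) has odd order. -/
theorem result {G : Type*} [Group G] [Finite G] (H : Subgroup G) (hH : Cfsg.IsStronglyEmbedded H) (hcore : H.normalCore = ⊥) (u : G) (hu : orderOf u = 2) (huH : u ∉ H) (j : G) (hj : j ∈ (H ⊓ H.map (MulAut.conj u).toMonoidHom)) (hj1 : j ≠ 1) (hinv : u * j * u⁻¹ = j⁻¹) : Odd (Nat.card (Subgroup.centralizer ({j} : Set G))) := by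
  have hu2 : u * u = 1 := by rw [← pow_two, ← hu, pow_orderOf_eq_one]
  have hu1 : u ≠ 1 := by rintro rfl; simp at hu
  have huinv : u⁻¹ = u := inv_eq_of_mul_eq_one_right hu2
  have hjj : j * j ≠ 1 := by
    intro h
    have ho := hH.2.2 u huH
    have h1 : orderOf j ∣ 2 := orderOf_dvd_of_pow_eq_one (by rw [pow_two, h])
    have h2 : orderOf j ∣ Nat.card ↥(H ⊓ H.map (MulAut.conj u).toMonoidHom) :=
      Subgroup.orderOf_dvd_natCard _ hj
    have h3 : orderOf j = 1 :=
      Nat.eq_one_of_dvd_coprimes ((Nat.coprime_two_left.mpr ho)) h1 h2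
    exact hj1 (orderOf_eq_one_iff.mp h3)
  by_cases h2 : Suz.TwoRank G
  · haveI : FaithfulSMul G (G ⧸ H) := by
      refine ⟨fun {g h} e => ?_⟩
      have k := hcore
      rw [Subgroup.normalCore_eq_ker, MonoidHom.ker_eq_bot_iff] at k
      exact k (Equiv.ext e)
    obtain ⟨t, Q, hS⟩ := Ben.bender (Ben.se_quotient hH) h2 ((1 : G) : G ⧸ H)
    have hj' : u * (u * j) = j := by rw [← mul_assoc, hu2, one_mul]
    have h := (S1135.result hS h2 u (u * j) hu1 hu2 (by
      intro h
      apply huH
      have : u = j⁻¹ := eq_inv_of_mul_eq_one_left h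
      rw [this]; exact H.inv_mem hj.1) (by
      calc u * j * (u * j) = (u * j * u⁻¹) * j := by rw [huinv]; group
        _ = 1 := by rw [hinv, inv_mul_cancel]) (by rwa [hj'])).2
    rwa [hj'] at h
  · by_contra hodd
    rw [Nat.not_odd_iff_even] at hodd
    haveI : Fact (Nat.Prime 2) := ⟨Nat.prime_two⟩
    obtain ⟨s, hs⟩ := exists_prime_orderOf_dvd_card' (G := Subgroup.centralizer ({j} : Set G)) 2
      (even_iff_two_dvd.mp hodd)
    have hsj : (s : G) * j = j * s := (s.2 j rfl).symm
    rw [← Subgroup.orderOf_coe] at hs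
    have hs2 : (s : G) * s = 1 := by rw [← pow_two, ← hs, pow_orderOf_eq_one]
    have hs1 : (s : G) ≠ 1 := by intro h; rw [h] at hs; simp at hs
    have hsinv : (s : G)⁻¹ = s := inv_eq_of_mul_eq_one_right hs2
    set x : G := s * u with hx
    have hxj : x * j * x⁻¹ = j⁻¹ := by
      calc x * j * x⁻¹ = s * (u * j * u⁻¹) * (s : G)⁻¹ := by rw [hx]; group
        _ = (s * j * (s : G)⁻¹)⁻¹ := by rw [hinv]; group
        _ = j⁻¹ := by rw [hsj]; group
    have hxj' : x * j⁻¹ * x⁻¹ = j := by
      calc x * j⁻¹ * x⁻¹ = (x * j * x⁻¹)⁻¹ := by group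
        _ = j := by rw [hxj, inv_inv]
    have hc : Commute (x * x) j := by
      calc x * x * j = x * (x * j * x⁻¹) * x⁻¹ * (x * x) := by group
        _ = j * (x * x) := by rw [hxj, hxj']
    rcases Nat.even_or_odd' (orderOf x) with ⟨k, hk | hk⟩
    · have hpos := orderOf_pos x
      have hz1 : x ^ k ≠ 1 := by
        intro h
        have := Nat.le_of_dvd (by omega) (orderOf_dvd_of_pow_eq_one h)
        omega
      have hz2 : x ^ k * x ^ k = 1 := by
        rw [← pow_add, ← two_mul, ← hk, pow_orderOf_eq_one]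
      have hzinv : (x ^ k)⁻¹ = x ^ k := inv_eq_of_mul_eq_one_right hz2
      have key : ∀ y : G, y ≠ 1 → y * y = 1 → y * x * y⁻¹ = x⁻¹ → y = x ^ k := by
        intro y hy1 hy2 hy
        by_contra hne
        apply h2
        refine ⟨y, x ^ k, hy1, hz1, hne, hy2, hz2, ?_⟩
        have : y * x ^ k * y⁻¹ = x ^ k := by rw [← conj_pow, hy, inv_pow, hzinv]
        calc y * x ^ k = y * x ^ k * y⁻¹ * y := by group
          _ = _ := by rw [this]
      have e1 := key s hs1 hs2 (by
        rw [hx, ← mul_assoc, hs2, one_mul, mul_inv_rev, huinv])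
      have e2 := key u hu1 hu2 (by
        rw [hx, mul_inv_rev, hsinv, huinv, mul_assoc, mul_assoc, hu2, mul_one])
      have e3 : (s : G) = u := e1.trans e2.symm
      apply hjj
      rw [e3] at hsj
      calc j * j = (u * j * u⁻¹) * j := by rw [hsj]; group
        _ = 1 := by rw [hinv, inv_mul_cancel]
    · have h1 : (x * x) ^ k * x = 1 := by
        rw [← pow_two, ← pow_mul, ← pow_succ, ← hk, pow_orderOf_eq_one]
      have h3 : Commute x j := by
        have : x = ((x * x) ^ k)⁻¹ := eq_inv_of_mul_eq_one_right h1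
        rw [this]; exact (hc.pow_left k).inv_left
      apply hjj
      calc j * j = (x * j * x⁻¹) * j := by rw [h3.eq]; group
        _ = 1 := by rw [hxj, inv_mul_cancel]

end Cfsg.Agent.S1223
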