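import Mathlib
import Cfsg.Statements.S1313
import Cfsg.Agent.Comp2.GenFitting

set_option autoImplicit false
open Cfsg

namespace Cfsg.Agent.S1313

open Cfsg.Agent.Comp2


/-- For a finite group H, |H| ≤ |F*(H)|!. -/
theorem result {H : Type*} [Group H] [Finite H] : Nat.card H ≤ Nat.factorial (Nat.card ↥(Cfsg.generalizedFittingSubgroup H)) := by
  classical
  set F := generalizedFittingSubgroup H with hF
  let φ : H →* MulAut F := MulAut.conjNormal
  have hker : φ.ker ≤ F := by
    intro x hx
    apply centralizer_genFitting_le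
    refine Subgroup.mem_centralizer_iff.mpr fun y hy => ?_
    have h1 : φ x ⟨y, hy⟩ = ⟨y, hy⟩ := by rw [MonoidHom.mem_ker.mp hx]; rfl
    have h2 : x * y * x⁻¹ = y := congrArg Subtype.val h1
    rw [mul_inv_eq_iff_eq_mul] at h2
    exact h2.symm
  have h1 : Nat.card H = Nat.card φ.ker * Nat.card φ.range := by
    rw [← Subgroup.index_ker, Subgroup.card_mul_index]
  have h2 : Nat.card φ.ker ≤ Nat.card F := Subgroup.card_le_of_le hker
  have h3 : Nat.card φ.range ≤ Nat.card (MulAut F) := Subgroup.card_le_card_group _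
  have h4 : Nat.card (F × MulAut F) ≤ Nat.card (Equiv.Perm F) := by
    refine Nat.card_le_card_of_injective
      (fun x : F × MulAut F => (x.2.toEquiv.trans (Equiv.mulLeft x.1) : Equiv.Perm F)) ?_
    rintro ⟨a, α⟩ ⟨b, β⟩ h
    have h5 : ∀ y, a * α y = b * β y := fun y => congrArg (fun e : Equiv.Perm F => e y) h
    have h6 : a = b := by simpa using h5 1
    subst h6
    congr 1
    ext y
    exact congrArg Subtype.val (mul_left_cancel (h5 y))
  rw [Nat.card_prod, Nat.card_perm] at h4
  rw [h1]
  exact (Nat.mul_le_mul h2 h3).trans h4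

end Cfsg.Agent.S1313
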