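import Mathlib
import Cfsg.Statements.S1474
import Cfsg.Agent.H2.CN

set_option autoImplicit false
open scoped Pointwise commutatorElement
open Cfsg

namespace Cfsg.Agent.S1474

open Cfsg.Agent.BG Cfsg.Agent.BG.Amb Cfsg.Agent.H2 Subgroup in
theorem aux {G : Type*} [Group G] [Finite G] (hCN : Cfsg.IsCNGroup G) (hnn : ¬ Group.IsNilpotent G)
    (h0 : fittingHall G ≠ ⊥) : Cfsg.fittingHall G ≠ ⊤ ∧
      (∃ E : Subgroup G, Subgroup.IsComplement' (Cfsg.fittingHall G) E ∧ Cfsg.IsFrobeniusComplement E ∧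
        ∀ e ∈ E, e ≠ 1 → Cfsg.fittingHall G ⊓ Subgroup.centralizer ({e} : Set G) = ⊥) ∧
      Group.IsNilpotent (G ⧸ Cfsg.fittingHall G) := by
  have h1 : fittingHall G ≠ ⊤ := fun e => hnn (by
    have := (fittingHall_spec G).1
    rw [e] at this
    exact Group.nilpotent_of_mulEquiv topEquiv)
  obtain ⟨E, -, hsd, hs, hE⟩ := CN.exists_compl hCN (M := ⊤) (by rwa [fittingHallOf_top])
  rw [fittingHallOf_top] at hsd hs
  have hc := isComplement'_of_normal hsd.2.1 hsd.1
  have hE0 : E ≠ ⊥ := fun e => h1 (by simpa [e] using hsd.1)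
  refine ⟨h1, ⟨E, hc, (Frob.iff_semiregular hc h0 hE0).2 hs, hs⟩, ?_⟩
  have h2 := nilpotent_map hE (QuotientGroup.mk' (fittingHall G))
  rw [map_mk'_eq_top_iff.2 (by rw [sup_comm]; exact hsd.1)] at h2
  exact Group.nilpotent_of_mulEquiv topEquiv

/-- Let G be a finite group in which every non-identity element has nilpotent centralizer, not itself nilpotent, and having a nontrivial normal Sylow p-subgroup for some prime p. Let H be the largest normal nilpotent Hall subgroup of G. Then H is a nontrivial proper normal subgroup with a complement E that is a Frobenius complement in G (no non-identity element of E centralizes a non-identity element of H), and G/H is nilpotent. -/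
theorem result {G : Type*} [Group G] [Finite G] (hCN : Cfsg.IsCNGroup G) (hnn : ¬ Group.IsNilpotent G) (p : ℕ) [Fact p.Prime] (P : Sylow p G)
    (hP1 : (P : Subgroup G) ≠ ⊥) (hPn : (P : Subgroup G).Normal) :
    Cfsg.fittingHall G ≠ ⊥ ∧ Cfsg.fittingHall G ≠ ⊤ ∧
      (∃ E : Subgroup G, Subgroup.IsComplement' (Cfsg.fittingHall G) E ∧ Cfsg.IsFrobeniusComplement E ∧
        ∀ e ∈ E, e ≠ 1 → Cfsg.fittingHall G ⊓ Subgroup.centralizer ({e} : Set G) = ⊥) ∧
      Group.IsNilpotent (G ⧸ Cfsg.fittingHall G) := by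
  have h0 : fittingHall G ≠ ⊥ := by
    rw [← H2.fittingHallOf_top]
    exact BG.Amb.ne_bot_mono hP1 (BG.Amb.normal_sylow_le_fittingHallOf (BG.Amb.isSylowOf_top P)
      H2.le_norm_of_normal)
  exact ⟨h0, aux hCN hnn h0⟩

end Cfsg.Agent.S1474
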