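import Mathlib
import Cfsg.Statements.S1476
import Cfsg.Agent.H2.CN2
import Cfsg.Agent.S1474

set_option autoImplicit false
open scoped Pointwise commutatorElement
open Cfsg

namespace Cfsg.Agent.S1476

open Cfsg.Agent.BG Cfsg.Agent.BG.Amb Cfsg.Agent.H2 Subgroup in
theorem compl_struct {G : Type*} [Group G] [Finite G] {K E : Subgroup G} (hn : E ≤ 𝐍(K))
    (hs : Semiregular K E) (hK : K ≠ ⊥) (hE : Group.IsNilpotent E) :
    IsCyclic (piCoreOf {2}ᶜ E) ∧ Odd (Nat.card (piCoreOf {2}ᶜ E)) := by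
  have h1 : Odd (Nat.card (piCoreOf {2}ᶜ E)) := Nat.odd_iff.2 (Nat.two_dvd_ne_zero.1
    ((pi_compl_singleton Nat.prime_two).1 (piCoreOf_pi _ _)))
  have := isZGroup_of_semiregular_of_odd ((piCoreOf_le _ _).trans hn)
    (semiregular_mono hs le_rfl (piCoreOf_le _ _)) hK h1
  have := nilpotent_mono hE (piCoreOf_le {2}ᶜ E)
  exact ⟨inferInstance, h1⟩

open Cfsg.Agent.BG Cfsg.Agent.BG.Amb Cfsg.Agent.H2 Subgroup in
theorem frob {G : Type*} [Group G] [Finite G] (hCN : Cfsg.IsCNGroup G) (hnn : ¬ Group.IsNilpotent G)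
    (h0 : fittingHall G ≠ ⊥) : ∃ K E : Subgroup G, K.Normal ∧ Subgroup.IsComplement' K E ∧
      Cfsg.IsFrobeniusComplement E ∧ (IsCyclic E ∨ ∃ C Q : Subgroup G, C ⊔ Q = E ∧
        (∀ a ∈ C, ∀ b ∈ Q, a * b = b * a) ∧ IsCyclic C ∧ Odd (Nat.card C) ∧
          ∃ n : ℕ, Nonempty (↥Q ≃* QuaternionGroup (2 ^ n))) := by
  obtain ⟨-, ⟨E, hc, hF, hs⟩, -⟩ := S1474.aux hCN hnn h0
  have hE := CN.nil_of_semiregular hCN le_norm_of_normal hs h0
  obtain ⟨h1, h2⟩ := compl_struct le_norm_of_normal hs h0 hE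
  have : Fact (Nat.Prime 2) := ⟨Nat.prime_two⟩
  have hd := nil_dProd {2} hE
  refine ⟨_, E, inferInstance, hc, hF, ?_⟩
  rcases isCyclic_or_quaternion_of_semiregular le_norm_of_normal hs h0 (piCoreOf_le {2} E)
    (piCoreOf_isPGroup E) with h3 | ⟨-, h3⟩
  · left
    rw [← hd.1]
    exact cyclic_sup_of_coprime h3 h1 (le_cent_symm hd.2.2)
      (pi_coprime (piCoreOf_pi _ _) (piCoreOf_pi _ _))
  · exact Or.inr ⟨_, _, (sup_comm _ _).trans hd.1, fun a ha b hb => mem_cent_of_le_cent hd.2.2 ha hb,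
      h1, h2, h3⟩

open Cfsg.Agent.BG Cfsg.Agent.BG.Amb Cfsg.Agent.H2 Subgroup in
theorem three {G : Type*} [Group G] [Finite G] [Group.IsSolvable G] (hCN : Cfsg.IsCNGroup G)
    {p : ℕ} [hp : Fact p.Prime] (h0 : pCore p G ≠ ⊥) (hF : fittingOf ⊤ = pCore p G)
    (hns : ¬ IsSylowOf p (pCore p G) ⊤) : IsThreeStepGroup p G := by
  have hFp : IsPGroup p (pCore p G) := Core.pCore_isPGroup p
  have hmax : ∀ N : Subgroup G, N.Normal → IsPGroup p N → N ≤ pCore p G :=
    fun N h1 h2 => le_sSup ⟨h1, h2⟩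
  refine ⟨h0, ?_⟩
  have hFn : (pCore p G).Normal := inferInstance
  generalize pCore p G = F at *
  have hQ := CN.quotient_pGroup hCN F hFp
  -- normal `p`-subgroups of the quotient are trivial
  have hO : piCoreOf {p} (⊤ : Subgroup (G ⧸ F)) = ⊥ := by
    have : (piCoreOf {p} (⊤ : Subgroup (G ⧸ F))).Normal :=
      normalizer_eq_top_iff.1 (top_le_iff.1 (le_norm_piCoreOf _ _))
    rw [← map_comap_mk' (N := F) (piCoreOf {p} ⊤), map_mk'_eq_bot_iff]
    exact hmax _ inferInstance ((piCoreOf_isPGroup _).comap_of_ker_isPGroup _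
      (by rwa [QuotientGroup.ker_mk']))
  have hdvd : p ∣ Nat.card (⊤ : Subgroup (G ⧸ F)) := by
    by_contra hd
    exact hns (sylow_mk le_top hFp (by rwa [relIndex_top_right, index_eq_card, ← card_top]))
  have hQn : ¬ Group.IsNilpotent (⊤ : Subgroup (G ⧸ F)) := fun hh =>
    sylow_ne_bot (nil_piCoreOf_hall {p} hh) hdvd hO
  set A' := fittingOf (⊤ : Subgroup (G ⧸ F)) with hA'
  have hA'n : A'.Normal := normalizer_eq_top_iff.1 (top_le_iff.1 (le_norm_fittingOf _))
  have hA'p : IsPiSubgroup {p}ᶜ A' := (pi_compl_singleton hp.out).2 fun hd =>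
    piCoreOf_ne_bot_of_dvd_fittingOf hd hO
  have hA'0 : A' ≠ ⊥ := fittingOf_ne_bot solvable_top fun e => hQn (e ▸ inferInstance)
  set L := A'.comap (QuotientGroup.mk' F) with hL
  have hFL : F ≤ L := le_comap_mk' _
  have hFS : IsSylowOf p F L := sylow_mk hFL hFp (by
    have h1 : F.relIndex L = Nat.card A' := by
      conv_lhs => rw [← QuotientGroup.ker_mk' F]
      rw [relIndex_ker, hL, map_comap_mk']
    rw [h1]
    exact (pi_compl_singleton hp.out).1 hA'p)
  obtain ⟨A, hA⟩ := exists_compl_of_normal_hall hFS le_norm_of_normal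
  have hsup : F ⊔ A = L := hall_sup_hall hFS hA
  have hAm : A.map (QuotientGroup.mk' F) = A' := by
    rw [← map_comap_mk' (N := F) A', ← hL, ← hsup, Subgroup.map_sup, map_mk'_eq_bot_iff.2 le_rfl,
      bot_sup_eq]
  have hAF : A ⊓ F = ⊥ := by rw [inf_comm]; exact hall_inf_hall hFS hA
  obtain ⟨B, hB, hAB⟩ := exists_hall_ge solvable_top (hall_pi hA) le_top
  have hs : Semiregular F B := fun b hb hb1 => by
    by_contra hne
    have h1 : IsPiSubgroup {p}ᶜ (zpowers b) := pi_mono (hall_pi hB) (zpowers_le.2 hb)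
    have h2 := le_cent_symm (CN.le_cent' hCN (nilpotent_of_isPGroup hFp)
      (nilpotent_of_comm (comm_of_cyclic inferInstance)) (pi_coprime (hall_pi hFS) h1)
      (by rwa [cent_zpowers]))
    have h3 := cent_fittingOf_le (H := (⊤ : Subgroup G)) solvable_top
    rw [hF] at h3
    exact hb1 (eq_one_of_mem_of_piElem (hall_pi hFS) (h3 ⟨mem_top b, h2 (mem_zpowers b)⟩)
      (pi_zpowers.1 h1))
  have hBn := CN.nil_of_semiregular hCN le_norm_of_normal hs h0
  obtain ⟨hC, -⟩ := compl_struct le_norm_of_normal hs h0 hBn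
  have hodd : ¬ 2 ∣ Nat.card A := fun hd => by
    obtain ⟨t, ht, hto⟩ := FGS.exists_prime_orderOf_mem Nat.prime_two hd
    have ht1 : QuotientGroup.mk' F t ≠ 1 := fun e => by
      have h1 : t ∈ A ⊓ F := mem_inf.2 ⟨ht, (QuotientGroup.eq_one_iff t).1 e⟩
      rw [hAF, mem_bot] at h1
      rw [h1, orderOf_one] at hto
      exact absurd hto (by decide)
    refine hQn (CN.nil_of_le hQ ht1 fun g _ => ?_)
    have h1 : g * QuotientGroup.mk' F t * g⁻¹ ∈ A.map (QuotientGroup.mk' F) := by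
      rw [hAm]
      exact hA'n.conj_mem _ (hAm ▸ mem_map_of_mem _ ht) g
    obtain ⟨a, ha, hae⟩ := h1
    have h2 : a * a ∈ A ⊓ F := mem_inf.2 ⟨mul_mem ha ha, (QuotientGroup.eq_one_iff _).1 (by
      have h3 : t * t = 1 := by rw [← pow_two, ← hto, pow_orderOf_eq_one]
      change QuotientGroup.mk' F (a * a) = 1
      rw [map_mul, hae]
      calc _ = g * QuotientGroup.mk' F (t * t) * g⁻¹ := by rw [map_mul]; group
        _ = 1 := by rw [h3, map_one]; group)⟩
    rw [hAF, mem_bot] at h2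
    have : Fact (Nat.Prime 2) := ⟨Nat.prime_two⟩
    have h4 : orderOf a = 2 := orderOf_eq_prime (by rwa [pow_two]) fun e => ht1 (by
      rw [e, map_one] at hae
      simpa using hae.symm)
    rw [involution_unique_of_semiregular le_norm_of_normal hs h0 (hAB ht) (hAB ha) hto h4] at hae
    rw [mem_cent1]
    calc _ = g * QuotientGroup.mk' F t * g⁻¹ * g := by group
      _ = _ := by rw [← hae]
  have hA2 : A ≤ piCoreOf {2}ᶜ B := nil_le_piCoreOf hBn hAB ((pi_compl_singleton Nat.prime_two).2 hodd)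
  have hBA : B ≤ 𝐂(A) := by
    have hd := nil_dProd {2} hBn
    rw [← hd.1]
    exact sup_le ((le_cent_symm hd.2.2).trans (cent_anti hA2))
      (le_cent_of_comm (comm_of_cyclic hC) le_rfl hA2)
  have hBL : B ≤ L := by
    rw [hL, ← map_le_iff_le_comap]
    refine le_trans (le_inf le_top ?_) (cent_fittingOf_le solvable_top)
    rw [← hA', ← hAm, map_le_cent_map_iff, le_cent_iff_comm_eq_bot.1 hBA]
    exact bot_le
  have hi : IsPiNat {p} L.index := by
    simpa using hall_index_of_le hB hBL le_top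
  have hA'h : IsPiHallOf {p}ᶜ A' ⊤ := hall_mk le_top hA'p (by
    rwa [relIndex_top_right, compl_compl,
      ← index_comap_of_surjective A' (QuotientGroup.mk'_surjective F)])
  refine ⟨A, fun e => hA'0 (by rw [← hAm, e, Subgroup.map_bot]), cyclic_mono hC hA2,
    Nat.odd_iff.2 (Nat.two_dvd_ne_zero.1 hodd),
    ((hp.out.coprime_iff_not_dvd).2 ((pi_compl_singleton hp.out).1 (hall_pi hA))).symm,
    hsup ▸ inferInstance, fun e => hns (by rwa [← hsup, e] at hFS),
    hsup ▸ (piNat_singleton_iff hp.out index_ne_zero_of_finite).1 hi,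
    semiregular_mono hs le_rfl hAB, fun x hx a ha ha1 hxa => hx ?_⟩
  have ha1' : QuotientGroup.mk' F a ≠ 1 := fun e => by
    have h1 : a ∈ A ⊓ F := mem_inf.2 ⟨ha, (QuotientGroup.eq_one_iff a).1 e⟩
    rw [hAF, mem_bot] at h1
    exact ha1 h1
  have hAc : A' ≤ 𝐂[QuotientGroup.mk' F a] := by
    rw [← hAm]
    rintro _ ⟨b, hb, rfl⟩
    rw [mem_cent1, ← map_mul, ← map_mul, mem_cent_of_le_cent hBA (hAB hb) ha]
  have hle : 𝐂[QuotientGroup.mk' F a] ≤ A' := by
    have hd := nil_dProd {p} (hQ _ ha1')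
    rw [← hd.1]
    refine sup_le (le_trans (le_inf le_top ?_) (cent_fittingOf_le solvable_top))
      (le_normal_hall hA'h le_norm_of_normal le_top (piCoreOf_pi _ _))
    exact nil_le_cent_of_pi (hQ _ ha1') (piCoreOf_le _ _) hAc (piCoreOf_pi _ _) hA'p
  rw [hsup]
  refine hle (mem_cent1.2 ?_)
  have h1 : QuotientGroup.mk' F (x * a * x⁻¹ * a⁻¹) = 1 := (QuotientGroup.eq_one_iff _).2 hxa
  simp only [map_mul, map_inv] at h1
  rwa [mul_inv_eq_one, mul_inv_eq_iff_eq_mul] at h1

/-- Let G be a finite solvable group in which every non-identity element has nilpotent centralizer. Then either G is nilpotent; or G has a normal subgroup K with a Frobenius complement E (K E = G, K ∩ E = 1, E meets its conjugates by outside elements trivially) such that E is cyclic or E is generated by two elementwise-commuting subgroups, one cyclic of odd order and one isomorphic to a generalized quaternion group; or G is a three-step group with respect to some prime p. -/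
theorem result {G : Type*} [Group G] [Finite G] [Group.IsSolvable G] (hCN : Cfsg.IsCNGroup G) :
    Group.IsNilpotent G ∨
      (∃ K E : Subgroup G, K.Normal ∧ Subgroup.IsComplement' K E ∧ Cfsg.IsFrobeniusComplement E ∧
        (IsCyclic E ∨ ∃ C Q : Subgroup G, C ⊔ Q = E ∧ (∀ a ∈ C, ∀ b ∈ Q, a * b = b * a) ∧ IsCyclic C ∧ Odd (Nat.card C) ∧
          ∃ n : ℕ, Nonempty (↥Q ≃* QuaternionGroup (2 ^ n)))) ∨
      ∃ p : ℕ, p.Prime ∧ Cfsg.IsThreeStepGroup p G := by
  by_cases hn : Group.IsNilpotent G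
  · exact Or.inl hn
  right
  by_cases h0 : fittingHall G ≠ ⊥
  · exact Or.inl (frob hCN hn h0)
  right
  rw [not_not, ← H2.fittingHallOf_top] at h0
  obtain ⟨p, hp, hne⟩ := BG.Amb.exists_prime_piCoreOf_ne_bot (H := (⊤ : Subgroup G)) H2.solvable_top
    fun e => hn (by
      have : Group.IsNilpotent (⊤ : Subgroup G) := e ▸ inferInstance
      exact Group.nilpotent_of_mulEquiv Subgroup.topEquiv)
  have := Fact.mk hp
  have hns : ¬ BG.IsSylowOf p (piCoreOf {p} ⊤) (⊤ : Subgroup G) := fun h => hne (le_bot_iff.1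
    (h0 ▸ BG.Amb.normal_sylow_le_fittingHallOf h (BG.Amb.le_norm_piCoreOf _ _)))
  have h2 : piCoreOf {p}ᶜ (fittingOf (⊤ : Subgroup G)) = ⊥ := by
    by_contra h2
    exact hns (H2.CN.sylow_of_two hCN hne h2)
  have h3 := BG.Amb.fittingOf_eq_piCoreOf (H2.piCoreOf_compl_eq_bot_of_fitting H2.solvable_top h2)
  rw [BG.Amb.piCoreOf_top, ← Core.pCore_eq_piCore] at hne hns h3
  exact ⟨p, hp, three hCN hne h3 hns⟩

end Cfsg.Agent.S1476
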