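import Cfsg.Statements.S1708
-- import your own Cfsg.Agent.* helpers here
import Cfsg.Agent.DCE.HN.Main
import Cfsg.Agent.SchurG.HS.Iso

set_option autoImplicit false
open Cfsg

namespace Cfsg.Agent.S1708

/-- In the presented Harada–Norton group, the subgroup N generated by the images of x, y, z has a normal subgroup of index 2 which is a non-split double cover of the Higman–Sims group. -/
theorem result : ∃ K : Subgroup (((Subgroup.closure ({Cfsg.Spor.HN.x, Cfsg.Spor.HN.y, Cfsg.Spor.HN.z} : Set (FreeGroup Cfsg.Spor.HN.Gen))).map (PresentedGroup.mk (Cfsg.Spor.coxRelators Cfsg.Spor.HN.edges ∪ {r | r ∈ Cfsg.Spor.HN.extra})))), K.Normal ∧ K.index = 2 ∧ Cfsg.IsNonsplitDoubleCover K Cfsg.Spor.HS := by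
  rw [Comp.map_closure_eq DCE.HN.presAll.2.2 [Spor.HN.x, Spor.HN.y, Spor.HN.z] _ (by simp)
    [[0], [2], [4]] (by decide +kernel), ← DCE.HN.range_io]
  let e := MonoidHom.ofInjective DCE.HN.io_inj
  let f := e.subgroupMap DCE.HN.K
  have hc : (Subgroup.center DCE.HN.K).map f.toMonoidHom = Subgroup.center _ := by
    ext g
    obtain ⟨g, rfl⟩ := f.surjective g
    rw [show f g = f.toMonoidHom g from rfl, Subgroup.mem_map_iff_mem f.injective]
    exact (MulEquivClass.apply_mem_center_iff f).symm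
  have h2 : (DCE.HN.K.map (e : DCE.HN.H →* DCE.HN.io.range)).index = 2 := by
    rw [Subgroup.index_map_equiv, DCE.HN.indexK]
  refine ⟨_, Subgroup.normal_of_index_eq_two h2, h2, ?_, ?_, fun L hL => ?_⟩
  · rw [← hc, Subgroup.card_map_of_injective f.injective, DCE.HN.card_cenK]
  · obtain ⟨e1⟩ := DCE.HN.cenK.2
    obtain ⟨e2⟩ := SchurG.HS.exists_iso
    exact ⟨((QuotientGroup.congr _ _ f hc).symm.trans e1.symm).trans e2⟩
  · have h1 : L.index = 2 := by
      rw [hL.index_eq_card, ← hc, Subgroup.card_map_of_injective f.injective, DCE.HN.card_cenK]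
    have h3 : f (DCE.HN.k 7) ∈ L := by
      rw [show DCE.HN.k 7 = ⟨_, DCE.HN.xK⟩ * ⟨_, DCE.HN.xK⟩ from Subtype.ext DCE.HN.k7, map_mul]
      exact Subgroup.mul_self_mem_of_index_two h1 _
    have h4 : f (DCE.HN.k 7) ∈ Subgroup.center _ :=
      (MulEquivClass.apply_mem_center_iff f).mpr (show _ ∈ Subgroup.center _ from DCE.HN.cenK.1 ▸ Subgroup.mem_zpowers _)
    have h5 := f.map_eq_one_iff.mp (Subgroup.disjoint_def.mp hL.disjoint h4 h3)
    exact DCE.HN.x2_ne (by rw [← DCE.HN.k7, h5]; rfl)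

end Cfsg.Agent.S1708
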