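import Mathlib
import Cfsg.Agent.Core.PHall
import Cfsg.Statements.S1892
-- import your own Cfsg.Agent.* helpers here

set_option autoImplicit false
open Cfsg

namespace Cfsg.Agent.S1892

/-- Let S be a finite p-solvable group with no nontrivial normal subgroup of order prime to p, A a p-subgroup of S, and Q a nontrivial A-invariant subgroup of order prime to p with [A, Q] = Q. Then the commutator [O_p(S), A, Q] is nontrivial. -/
theorem result {S : Type*} [Group S] [Finite S] {p : ℕ} [Fact p.Prime]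
    (hS : Cfsg.IsPSolvable p S) (hred : Cfsg.pPrimeCore p S = ⊥)
    (A Q : Subgroup S) (hA : IsPGroup p A) (hQ : ¬ p ∣ Nat.card Q) (hQ1 : Q ≠ ⊥)
    (hinv : ∀ a ∈ A, ∀ x ∈ Q, a * x * a⁻¹ ∈ Q) (hAQ : ⁅A, Q⁆ = Q) :
    ⁅⁅Cfsg.pCore p S, A⁆, Q⁆ ≠ ⊥ := by
  intro h
  have hp : p.Prime := Fact.out
  have hQc : (Nat.card Q).Coprime p := (hp.coprime_iff_not_dvd.mpr hQ).symm
  have hV := Core.IsPSolvable.centralizer_pCore_le hS hred
  apply hQ1
  apply Core.eq_bot_of_le_centralizer_pCore hV hQc
  set V := Cfsg.pCore p S with hVdef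
  have hQU : Q ≤ Subgroup.normalizer ((⁅V, A⁆ : Subgroup S) : Set S) :=
    (Core.le_centralizer_iff_commutator_eq_bot.mpr h).trans (Subgroup.centralizer_le_normalizer _)
  have hAU : A ≤ Subgroup.normalizer ((⁅V, A⁆ : Subgroup S) : Set S) :=
    Core.le_normalizer_commutator Subgroup.le_normalizer_of_normal Subgroup.le_normalizer
  have hVU : V ≤ Subgroup.normalizer ((⁅V, A⁆ : Subgroup S) : Set S) :=
    Subgroup.normalizer_commutator_ge_left V A
  have h1 := (BG.QuoApi.quo_le_centralizer_iff hAU hVU).mpr (Subgroup.commutator_comm A V).le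
  have h2 := Core.commutator_le_centralizer_of_normalizes
    (BG.QuoApi.quo_le_normalizer (N := ⁅V, A⁆) (H := Q) (K := V) Subgroup.le_normalizer_of_normal) h1
  rw [← BG.QuoApi.quo_commutator hQU hAU, Subgroup.commutator_comm Q A, hAQ,
    BG.QuoApi.quo_le_centralizer_iff hQU hVU, Subgroup.commutator_comm] at h2
  refine Core.le_centralizer_of_commutator_commutator_eq_bot Q V Subgroup.le_normalizer_of_normal
    (Core.coprime_of_isPGroup (Core.pCore_isPGroup p) hQc) ?_
  exact eq_bot_iff.mpr ((Subgroup.commutator_mono h2 le_rfl).trans h.le)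

end Cfsg.Agent.S1892
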