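import Mathlib
import Cfsg.Statements.S1893
import Cfsg.Agent.PLocal.PStable
import Cfsg.Agent.PLocal.Bender2
import Cfsg.Agent.Core.PConstrained
import Cfsg.Agent.Core.Product
import Cfsg.Agent.Core.Hall

set_option autoImplicit false
open Cfsg

namespace Cfsg.Agent.S1893

open Cfsg.Agent Cfsg.Agent.LocalEven Cfsg.Agent.PLocal Subgroup

theorem key {S : Type*} [Group S] [Finite S] [Group.IsSolvable S] {p : ℕ} [Fact p.Prime]
    (hp : 5 ≤ p ∨ pCore p S = ⊥) {T : Subgroup S} (hT : IsPGroup p T)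
    (h1 : ⁅⁅pCore p S, T⁆, T⁆ = ⊥)
    (h2 : T ≤ centralizer ((fittingSubgroup S ⊓ pPrimeCore p S : Subgroup S) : Set S)) :
    T ≤ pCore p S := by
  have hF : centralizer (pCore p S : Set S) ⊓
      centralizer ((fittingSubgroup S ⊓ pPrimeCore p S : Subgroup S) : Set S) ≤
      fittingSubgroup S := by
    rw [← centralizer_sup', ← Comp2.fitting_eq_pCore_sup]
    exact Core.centralizer_fitting_le
  rcases hp with hp | hp
  swap
  · refine Core.le_pCore_of_le_fitting hT (le_trans (le_inf ?_ h2) hF)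
    rw [hp, centralizer_bot']; exact le_top
  have hq := noQuadPair_of_isPSolvable hp (Core.isPSolvable_of_solvable (G := S) p inferInstance)
  let W := (pCore p (S ⧸ centralizer (pCore p S : Set S))).comap (QuotientGroup.mk' _) ⊓
    centralizer ((fittingSubgroup S ⊓ pPrimeCore p S : Subgroup S) : Set S)
  have hTW : T ≤ W := le_inf (fun a ha => hq.mem_pCore isPGroup_pCore _ le_rfl
    (Quad.of_commutator h1 ha)) h2
  obtain ⟨R, hR, hTR⟩ := exists_isSylowIn_le hT hTW
  have h3 : pResOf p W ≤ fittingSubgroup S ⊓ pPrimeCore p S := by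
    refine pResOf_le_iff.2 fun x hx hc => ?_
    obtain ⟨k, hk⟩ := isPGroup_iff_mem.1 isPGroup_pCore _ hx.1
    rw [← map_pow, QuotientGroup.mk'_apply, QuotientGroup.eq_one_iff] at hk
    have h4 := hF ⟨Core.mem_of_pow_mem_of_coprime hk (hc.symm.pow_left k), hx.2⟩
    exact ⟨h4, Comp2.le_pPrimeCore_of_le_fitting (zpowers_le.2 h4)
      (by rwa [Nat.card_zpowers]) (mem_zpowers x)⟩
  have h4 : W ≤ normalizer (R : Set S) := by
    rw [← hR.pResOf_sup]
    exact sup_le (h3.trans ((le_centralizer_iff.1 (hR.1.trans inf_le_right)).trans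
      (centralizer_le_normalizer' _))) le_normalizer
  exact hTR.trans ((le_pCoreOf hR.1 h4 hR.2).trans (pCoreOf_le_pCore_of_normal W))

theorem core {S : Type*} [Group S] [Finite S] [Group.IsSolvable S]
    (h : ∀ p : ℕ, p.Prime → 5 ≤ p ∨ pCore p S = ⊥) {A : Subgroup S}
    (h1 : fittingSubgroup S ≤ normalizer (A : Set S))
    (h2 : fittingSubgroup S ⊓ centralizer (A : Set S) ≤ A) : centralizer (A : Set S) ≤ A := by
  refine Core.le_of_forall_isSylowOf_le _ _ fun p hp _ => ?_
  have : Fact p.Prime := ⟨hp⟩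
  obtain ⟨T, hT⟩ := Core.exists_isSylowOf p (centralizer (A : Set S))
  have h3 : ∀ N : Subgroup S, N ≤ fittingSubgroup S → ⁅⁅N, T⁆, T⁆ = ⊥ := fun N hN => by
    rw [LocalEven.commutator_eq_bot_iff]
    refine le_trans ?_ (le_centralizer_iff.1 hT.le)
    refine le_trans (le_inf ?_ ?_) h2
    · exact (commutator_mono hN le_rfl).trans (commutator_le_left _ _)
    · exact (commutator_mono le_rfl hT.le).trans (commutator_le_right_of_le_normalizer
        (le_normalizer_centralizer (hN.trans h1)))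
  refine ⟨T, hT, le_trans (le_inf ((key (h p hp) hT.isPGroup (h3 _ (Core.pCore_le_fitting p))
    ?_).trans (Core.pCore_le_fitting p)) hT.le) h2⟩
  exact Core.le_centralizer_of_commutator_commutator_eq_bot _ _ le_normalizer_of_normal
    (Comp2.coprime_card_card_of_isPGroup hT.isPGroup
      (Comp2.coprime_card_of_le inf_le_right (Comp2.pPrimeCore_coprime p))) (h3 _ inf_le_left)

/-- Let S be a finite solvable group, π a set of primes containing neither 2 nor 3, H a Hall π-subgroup of S, and A a self-centralizing normal subgroup of the Fitting subgroup F(H). Then C_S(A) = A × D for a normal subgroup D of C_S(A) whose order has no prime divisor in π. -/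
theorem result {S : Type*} [Group S] [Finite S] [Group.IsSolvable S]
    (π : Set ℕ) (h2 : 2 ∉ π) (h3 : 3 ∉ π) (H : Subgroup S) (hH : Cfsg.IsPiHall π H)
    (A : Subgroup S) (hA : Cfsg.IsSCN ((Cfsg.fittingSubgroup H).map H.subtype) A) :
    ∃ D : Subgroup S, D ≤ Subgroup.centralizer (A : Set S) ∧
      (∀ c ∈ Subgroup.centralizer (A : Set S), ∀ d ∈ D, c * d * c⁻¹ ∈ D) ∧
      A ⊓ D = ⊥ ∧ A ⊔ D = Subgroup.centralizer (A : Set S) ∧
      ∀ q : ℕ, q.Prime → q ∣ Nat.card D → q ∉ π := by
  obtain ⟨hA1, hA2, hA3⟩ := hA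
  let N := piCore πᶜ S
  let f := QuotientGroup.mk' N
  have hf : Function.Surjective f := QuotientGroup.mk'_surjective N
  have hN : IsPiSubgroup πᶜ N := Core.piCore_isPiSubgroup _
  have hcH : (Nat.card H).Coprime (Nat.card N) :=
    Core.IsPiSubgroup.coprime (Core.IsPiHall.isPiSubgroup hH) hN disjoint_compl_right
  have hAH : A ≤ H := hA1.trans (fitOf_le H)
  have hcA := Core.coprime_of_le_left hcH hAH
  have hbot : ∀ p : ℕ, p.Prime → p ∉ π → pCore p (S ⧸ N) = ⊥ := fun p hp h => by
    have : Fact p.Prime := ⟨hp⟩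
    exact le_bot_iff.1 ((Core.pCore_le_piCore (π := πᶜ) h).trans
      (Core.piCore_quotient_piCore _).le)
  have hFH : fittingSubgroup (S ⧸ N) ≤ H.map f := by
    rw [Core.fitting_eq_iSup_pCore]
    refine iSup_le fun p => ?_
    have : Fact (p : ℕ).Prime := ⟨p.2⟩
    by_cases h : (p : ℕ) ∈ π
    · exact (Core.pCore_le_piCore h).trans (Core.piCore_le_of_isPiHall (Core.IsPiHall.map hH hf))
    · rw [hbot p p.2 h]; exact bot_le
  have hF : fittingSubgroup (S ⧸ N) ≤ (fitOf H).map f := by
    have h1 : H ⊓ (fittingSubgroup (S ⧸ N)).comap f ≤ fitOf H := by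
      refine Comp2.le_fitting_map_subtype inf_le_left
        (le_normalizer_inf le_normalizer le_normalizer_of_normal) ?_
      have := Core.fitting_nilpotent (G := S ⧸ N)
      refine _root_.isNilpotent_of_ker_le_center
        ((f.comp (H ⊓ (fittingSubgroup (S ⧸ N)).comap f).subtype).codRestrict
          (fittingSubgroup (S ⧸ N)) fun x => x.2.2) fun x hx => ?_
      have h1 : (x : S) ∈ N := (QuotientGroup.eq_one_iff _).1 (congrArg Subtype.val hx)
      rw [show x = 1 from Subtype.ext (Core.eq_one_of_mem_of_coprime hcH x.2.1 h1)]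
      exact one_mem _
    intro y hy
    obtain ⟨x, hx, rfl⟩ := hFH hy
    exact ⟨x, h1 ⟨hx, hy⟩, rfl⟩
  have h1 := core (S := S ⧸ N) (A := A.map f) (fun p hp => by
    by_cases h : p ∈ π
    · exact Or.inl (hp.five_le_of_ne_two_of_ne_three (fun e => h2 (e ▸ h)) (fun e => h3 (e ▸ h)))
    · exact Or.inr (hbot p hp h)) (hF.trans (Core.map_le_normalizer_map hA2 f)) (by
    rintro y ⟨hy, hyC⟩
    obtain ⟨x, hx, rfl⟩ := hF hy
    refine ⟨x, hA3.le ⟨hx, fun a ha => ?_⟩, rfl⟩
    have h1 : a * x * (x * a)⁻¹ ∈ N := by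
      rw [← QuotientGroup.eq_one_iff]
      change f _ = 1
      rw [map_mul, map_inv, map_mul, map_mul, hyC (f a) ⟨a, ha, rfl⟩, mul_inv_cancel]
    exact mul_inv_eq_one.1 (Core.eq_one_of_mem_of_coprime hcH
      (H.mul_mem (H.mul_mem (hAH ha) (fitOf_le H hx))
        (H.inv_mem (H.mul_mem (fitOf_le H hx) (hAH ha)))) h1))
  rw [Core.centralizer_map_mk' A N hcA (Or.inl inferInstance), map_le_iff_le_comap,
    comap_map_eq, QuotientGroup.ker_mk'] at h1
  have hAC : A ≤ centralizer (A : Set S) := hA3.ge.trans inf_le_right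
  refine ⟨N ⊓ centralizer (A : Set S), inf_le_right, fun c hc d hd => ⟨?_, ?_⟩, ?_, ?_, ?_⟩
  · exact Normal.conj_mem inferInstance _ hd.1 c
  · exact Subgroup.mul_mem _ (Subgroup.mul_mem _ hc hd.2) (Subgroup.inv_mem _ hc)
  · exact le_bot_iff.1 ((inf_le_inf_left _ inf_le_left).trans
      (Core.disjoint_of_coprime hcA).le_bot)
  · rw [← inf_sup_of_le_normalizer le_normalizer_of_normal hAC, inf_eq_right.2 h1]
  · exact Core.IsPiSubgroup.of_le hN inf_le_left

end Cfsg.Agent.S1893
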