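import Mathlib
import Cfsg.Statements.S1894
import Cfsg.Agent.PGrp.Frattini

set_option autoImplicit false
open Cfsg

namespace Cfsg.Agent.S1894

open Cfsg.Agent

/-- Let P be a finite p-group, A a normal subgroup of P and B an abelian subgroup of A that is normal in P. Then some subgroup C of A containing B is normal in P and is self-centralizing and normal in A (C ∈ SCN(A)). -/
theorem result {P : Type*} [Group P] [Finite P] {p : ℕ} [Fact p.Prime] (hP : IsPGroup p P)
    (A : Subgroup P) [A.Normal] (B : Subgroup P) [B.Normal] (hBA : B ≤ A) (hB : IsMulCommutative B) :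
    ∃ C : Subgroup P, C.Normal ∧ B ≤ C ∧ Cfsg.IsSCN A C := by
  have hn : Group.IsNilpotent (⊤ : Subgroup P) := (hP.to_subgroup ⊤).isNilpotent
  obtain ⟨C, h1, h2, h3, h4, h5⟩ := PGrp.exists_self_centralizing_ge (P := ⊤) (S := A) (E := B) hn
    le_top (PGrp.normal_iff_top_le_normalizer.1 inferInstance) hBA
    (PGrp.normal_iff_top_le_normalizer.1 inferInstance) hB
  exact ⟨C, PGrp.normal_iff_top_le_normalizer.2 h3, h1, h2, le_top.trans h3, h5⟩

end Cfsg.Agent.S1894
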