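import Mathlib
import Cfsg.Statements.S1895
import Cfsg.Agent.PLocal.Rank2Chief

set_option autoImplicit false
open Cfsg

namespace Cfsg.Agent.S1895

open Cfsg.Agent Cfsg.Agent.PLocal

/-- Let p be an odd prime and G a finite p-solvable group with no elementary abelian subgroup of order p³. Then every chief factor H/K of G (H, K normal in G with no normal subgroup of G strictly between them) whose order is a power of p has order p or p². -/
theorem result {G : Type*} [Group G] [Finite G] {p : ℕ} [Fact p.Prime] (hp : p ≠ 2)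
    (hG : Cfsg.IsPSolvable p G) (hr : Cfsg.PRankLE p 2 G)
    (H K : Subgroup G) [H.Normal] [K.Normal] (hKH : K < H) (hpow : ∃ n : ℕ, K.relIndex H = p ^ n)
    (hchief : ∀ L : Subgroup G, L.Normal → K ≤ L → L ≤ H → L = K ∨ L = H) :
    K.relIndex H = p ∨ K.relIndex H = p ^ 2 := by
  obtain ⟨n, hn⟩ := hpow
  have h3 : n < 3 := by
    by_contra h
    exact hKH.not_ge ((le_inf le_rfl le_top).trans ((ser_top_of_pRankLE_two hp
      (Core.IsPSolvable.isPConstrained hG) hr).inf_le hKH.le
        (hn ▸ pow_dvd_pow p (not_lt.1 h)) hchief))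
  interval_cases n
  · exact absurd (Subgroup.relIndex_eq_one.1 hn) hKH.not_ge
  · exact Or.inl (by rw [hn, pow_one])
  · exact Or.inr hn

end Cfsg.Agent.S1895
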