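import Mathlib
import Cfsg.Statements.S1898
import Cfsg.Agent.PGrp.Critical
import Cfsg.Agent.PLocal.Stable

set_option autoImplicit false
open Cfsg

namespace Cfsg.Agent.S1898

open Cfsg.Agent Subgroup

/-- Let X be a finite 2-group whose derived subgroup is elementary abelian and central. Then the subgroup generated by the elements of order dividing 4 has exponent dividing 4, and every automorphism of X fixing each element of order dividing 4 has 2-power order. -/
theorem result {X : Type*} [Group X] [Finite X] (hX : IsPGroup 2 X)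
    (hel : Cfsg.IsElementaryAbelian 2 (commutator X)) (hcen : commutator X ≤ Subgroup.center X) :
    (∀ x ∈ Subgroup.closure {g : X | g ^ 4 = 1}, x ^ 4 = 1) ∧
      ∀ φ : MulAut X, (∀ g : X, g ^ 4 = 1 → φ g = g) → ∃ k : ℕ, φ ^ (2 ^ k) = 1 := by
  have : Fact (Nat.Prime 2) := ⟨Nat.prime_two⟩
  have h4 : ∀ x y : X, (x * y) ^ 4 = x ^ 4 * y ^ 4 := fun x y => by
    rw [PGrp.mul_pow_of_commute (PGrp.commute_of_commutator_le_center hcen _ _ _)
      (PGrp.commute_of_commutator_le_center hcen _ _ _), show Nat.choose 4 2 = 2 * 3 from rfl,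
      pow_mul, hel.2 _ (PGrp.commutatorElement_mem_commutator y x), one_pow, mul_one]
  refine ⟨fun x hx => ?_, fun φ hφ => ?_⟩
  · induction hx using closure_induction with
    | mem x h => exact h
    | one => exact one_pow _
    | mul x y _ _ h1 h2 => rw [h4, h1, h2, one_mul]
    | inv x _ h => rw [inv_pow, h, inv_one]
  · obtain ⟨k, hk⟩ := PLocal.exists_pow_coprime_orderOf (p := 2) φ
    refine ⟨k, MulEquiv.ext fun x => PGrp.aut_fix_of_mul_pow (p := 4) (H := ⊤) (fun g => ?_)
      (fun x _ y _ => h4 x y) (fun _ _ => mem_top _) (hk.pow_right 2) (fun g _ hg => ?_) x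
      (mem_top x)⟩
    · obtain ⟨j, hj⟩ := hX g
      refine ⟨j, Subtype.ext ?_⟩
      rw [show (4 : ℕ) ^ j = 2 ^ j * 2 ^ j from mul_pow 2 2 j, SubgroupClass.coe_pow, pow_mul, hj,
        one_pow, OneMemClass.coe_one]
    · generalize 2 ^ k = m
      induction m with
      | zero => rfl
      | succ m ih => rw [pow_succ, MulAut.mul_apply, hφ g hg, ih]

end Cfsg.Agent.S1898
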