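import Mathlib
import Cfsg.Statements.S1899
import Cfsg.Agent.Core.Basic

set_option autoImplicit false
open Cfsg

namespace Cfsg.Agent.S1899

open Cfsg.Agent Subgroup

/-- Let a dihedral group of order 2n, n odd and n > 1, act on a finite abelian 2-group A through automorphisms d and t with d^n = 1, t² = 1 and t d t⁻¹ = d⁻¹, and suppose that d fixes only the identity. Then A is the internal direct product of C_A(t) and its image under d. -/
theorem result {A : Type*} [CommGroup A] [Finite A] (hA : IsPGroup 2 A)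
    {n : ℕ} (hn : Odd n) (hn1 : 1 < n) (d t : MulAut A) (hd : d ^ n = 1) (ht : t ^ 2 = 1) (hdt : t * d * t⁻¹ = d⁻¹)
    (hfix : ∀ a : A, d a = a → a = 1) :
    (MulEquiv.toMonoidHom t).eqLocus (MonoidHom.id A) ⊓ ((MulEquiv.toMonoidHom t).eqLocus (MonoidHom.id A)).map d.toMonoidHom = ⊥ ∧
      (MulEquiv.toMonoidHom t).eqLocus (MonoidHom.id A) ⊔ ((MulEquiv.toMonoidHom t).eqLocus (MonoidHom.id A)).map d.toMonoidHom = ⊤ := by
  have hmem : ∀ a : A, a ∈ (MulEquiv.toMonoidHom t).eqLocus (MonoidHom.id A) ↔ t a = a :=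
    fun a => Iff.rfl
  generalize (MulEquiv.toMonoidHom t).eqLocus (MonoidHom.id A) = C at hmem
  have h1 : ∀ a, t (d a) = d⁻¹ (t a) := fun a => by
    rw [← hdt]; simp
  have h1' : ∀ a, t (d⁻¹ a) = d (t a) := fun a => by
    have : d = t * d⁻¹ * t⁻¹ := by
      have := congrArg Inv.inv hdt
      simpa [mul_assoc] using this.symm
    conv_rhs => rw [this]
    simp
  have h2 : ∀ a, d a = d⁻¹ a → a = 1 := fun a ha => by
    have h3 : (d ^ 2) a = a := by rw [sq, MulAut.mul_apply, ha]; simp
    have h4 : ∀ k : ℕ, ((d ^ 2) ^ k) a = a := fun k => by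
      induction k with
      | zero => rfl
      | succ k ih => rw [pow_succ, MulAut.mul_apply, h3, ih]
    obtain ⟨k, rfl⟩ := hn
    have := h4 (k + 1)
    rw [← pow_mul, show 2 * (k + 1) = (2 * k + 1) + 1 by ring, pow_succ, hd, one_mul] at this
    exact hfix a this
  have h3 : C ⊓ C.map d.toMonoidHom = ⊥ := by
    rw [eq_bot_iff]
    rintro _ ⟨ha, c, hc, rfl⟩
    replace ha := (hmem _).1 ha
    replace hc := (hmem _).1 hc
    rw [MulEquiv.coe_toMonoidHom, h1, hc] at ha
    rw [h2 c ha.symm, map_one]; exact one_mem _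
  refine ⟨h3, Core.eq_of_le_of_card_le le_top ?_⟩
  have htt : ∀ a, t (t a) = a := fun a => by rw [← MulAut.mul_apply, ← sq, ht]; rfl
  let f : A →* A := MonoidHom.id A * t.toMonoidHom
  have hf : ∀ a, f a = a * t a := fun a => rfl
  have h4 : Nat.card f.range ≤ Nat.card C := card_le_of_le (by
    rintro _ ⟨a, rfl⟩
    rw [hmem, hf, map_mul, htt, mul_comm])
  have h5 : Nat.card f.ker ≤ Nat.card C := by
    refine Nat.card_le_card_of_injective (fun a => (⟨d a * (d⁻¹ a)⁻¹, ?_⟩ : C)) fun a b h => ?_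
    · have ha : t a = (a : A)⁻¹ := eq_inv_of_mul_eq_one_right a.2
      rw [hmem, map_mul, map_inv, h1, h1', ha, map_inv, map_inv, inv_inv, mul_comm]
    · have h' : d a * (d⁻¹ a)⁻¹ = d b * (d⁻¹ b)⁻¹ := congrArg Subtype.val h
      refine Subtype.ext (mul_inv_eq_one.1 (h2 _ ?_))
      rw [map_mul, map_inv, map_mul, map_inv, mul_inv_eq_iff_eq_mul.1 h']
      rw [mul_comm (d b), mul_right_comm, mul_right_comm _ (d (b : A)), inv_mul_cancel_right,
        mul_comm]
  rw [Core.card_sup_of_disjoint le_normalizer_of_normal (disjoint_iff.2 h3),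
    card_map_of_injective d.injective, card_top, ← f.ker.card_mul_index, index_ker]
  exact Nat.mul_le_mul h5 h4

end Cfsg.Agent.S1899
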