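import Mathlib
import Cfsg.Statements.S1900
import Cfsg.Agent.Core.CoprimeGen
import Cfsg.Agent.Core.Coprime2
import Cfsg.Agent.LocalEven.Resid
import Cfsg.Agent.BG.Rank
import Cfsg.Agent.Comp2.Cores
import Cfsg.Agent.PGrp.Metacyclic

set_option autoImplicit false
open Cfsg

namespace Cfsg.Agent.S1900

open Cfsg.Agent Cfsg.Agent.LocalEven Subgroup

theorem three {G : Type*} [Group G] {X Y Z : Subgroup G} (N : Subgroup G) [N.Normal]
    (h1 : ⁅⁅Y, Z⁆, X⁆ ≤ N) (h2 : ⁅⁅Z, X⁆, Y⁆ ≤ N) : ⁅⁅X, Y⁆, Z⁆ ≤ N := by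
  have key : ∀ A B C : Subgroup G, ⁅⁅A, B⁆, C⁆ ≤ N ↔ ⁅⁅A.map (QuotientGroup.mk' N),
      B.map (QuotientGroup.mk' N)⁆, C.map (QuotientGroup.mk' N)⁆ = ⊥ := fun A B C => by
    rw [← map_commutator, ← map_commutator, Subgroup.map_eq_bot_iff, QuotientGroup.ker_mk']
  rw [key] at *
  exact commutator_commutator_eq_bot_of_rotate h1 h2

theorem aux {S : Type*} [Group S] [Finite S] {P Q X₁ X₂ C₁ C₂ D : Subgroup S}
    (hS : P ⊔ Q = ⊤) (hD : D.Normal) (h1 : X₁ ≤ centralizer (C₁ : Set S)) (h2 : ⁅C₂, X₁⁆ = C₂)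
    (hDC : D = ⁅C₂, C₁⁆) (hX : Q ≤ normalizer (X₁ : Set S)) [P.Normal] :
    D ≤ ⁅D, P⁆ ⊔ ⁅D, X₁⁆ := by
  have : (⁅D, P⁆ ⊔ ⁅D, X₁⁆).Normal := by
    refine Core.normal_of_le_normalizer (hS.ge.trans (sup_le ?_ ?_))
    · exact le_normalizer_of_commutator_le_left ((commutator_mono (sup_le
        (commutator_le_left _ _) (commutator_le_left _ _)) le_rfl).trans le_sup_left)
    · exact le_normalizer_sup le_normalizer_of_normal
        (le_normalizer_commutator le_normalizer_of_normal hX)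
  conv_lhs => rw [hDC, ← h2]
  refine three _ ?_ ?_
  · rw [LocalEven.commutator_eq_bot_iff.2 h1, commutator_bot_left]; exact bot_le
  · rw [Subgroup.commutator_comm C₁, ← hDC]; exact le_sup_right

/-- Let S = PQ be a finite group with P a normal Sylow p-subgroup and Q elementary abelian of order q², q a prime different from p. If exactly two subgroups X₁, X₂ of order q in Q have a nontrivial centralizer in P, then P is the internal direct product of C_P(X₁) and C_P(X₂): they commute elementwise, meet trivially and generate P. -/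
theorem result {S : Type*} [Group S] [Finite S] {p q : ℕ} [Fact p.Prime] [Fact q.Prime] (hpq : p ≠ q)
    (P : Sylow p S) [(P : Subgroup S).Normal] (Q : Subgroup S) (hQ : Cfsg.IsElementaryAbelian q Q) (hQc : Nat.card Q = q ^ 2)
    (hS : (P : Subgroup S) ⊔ Q = ⊤)
    (X₁ X₂ : Subgroup S) (h₁ : X₁ ≤ Q) (h₂ : X₂ ≤ Q) (h₁₂ : X₁ ≠ X₂) (hc₁ : Nat.card X₁ = q) (hc₂ : Nat.card X₂ = q)
    (hf₁ : (P : Subgroup S) ⊓ Subgroup.centralizer (X₁ : Set S) ≠ ⊥)
    (hf₂ : (P : Subgroup S) ⊓ Subgroup.centralizer (X₂ : Set S) ≠ ⊥)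
    (honly : ∀ X : Subgroup S, X ≤ Q → Nat.card X = q →
      (P : Subgroup S) ⊓ Subgroup.centralizer (X : Set S) ≠ ⊥ → X = X₁ ∨ X = X₂) :
    ⁅(P : Subgroup S) ⊓ Subgroup.centralizer (X₁ : Set S), (P : Subgroup S) ⊓ Subgroup.centralizer (X₂ : Set S)⁆ = ⊥ ∧
      ((P : Subgroup S) ⊓ Subgroup.centralizer (X₁ : Set S)) ⊓ ((P : Subgroup S) ⊓ Subgroup.centralizer (X₂ : Set S)) = ⊥ ∧
      ((P : Subgroup S) ⊓ Subgroup.centralizer (X₁ : Set S)) ⊔ ((P : Subgroup S) ⊓ Subgroup.centralizer (X₂ : Set S)) = P := by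
  have hq : q.Prime := Fact.out
  have hQC : Q ≤ centralizer (Q : Set S) := elemAb_le_centralizer hQ
  have hQn : ∀ X : Subgroup S, X ≤ Q → Q ≤ normalizer (X : Set S) := fun X h =>
    (hQC.trans (centralizer_le (SetLike.coe_subset_coe.2 h))).trans (centralizer_le_normalizer' _)
  have hcop : (Nat.card Q).Coprime (Nat.card (P : Subgroup S)) :=
    Comp2.coprime_card_card_of_isPGroup (isPGroup_of_elemAb hQ)
      (Comp2.coprime_card_of_isPGroup hq hpq.symm P.2)
  have h12 := BG.Rank.inf_eq_bot_of_ne_of_card_prime hc₁ hc₂ h₁₂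
  have hgen : ∀ K : Subgroup S, K ≤ P → Q ≤ normalizer (K : Set S) →
      K ≤ (K ⊓ centralizer (X₁ : Set S)) ⊔ (K ⊓ centralizer (X₂ : Set S)) := by
    intro K hK hn
    refine Core.le_of_centralizers hQ.1 (fun h => ?_) hn (Core.coprime_of_le_right hcop hK)
      fun a ha ha1 => ?_
    · have := PGrp.card_le_of_isCyclic_of_pow hq.ne_zero h hQ.2
      rw [hQc] at this
      nlinarith [hq.one_lt]
    · by_cases h0 : (P : Subgroup S) ⊓ centralizer (zpowers a : Set S) = ⊥
      · rw [← LocalEven.centralizer_zpowers]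
        exact ((inf_le_inf_right _ hK).trans h0.le).trans bot_le
      rw [← LocalEven.centralizer_zpowers]
      rcases honly _ (zpowers_le.2 ha) (BG.Rank.card_zpowers_of_pow (hQ.2 a ha) ha1) h0 with h | h
      · rw [h]; exact le_sup_left
      · rw [h]; exact le_sup_right
  have hinf : ((P : Subgroup S) ⊓ centralizer (X₁ : Set S)) ⊓
      ((P : Subgroup S) ⊓ centralizer (X₂ : Set S)) = ⊥ := by
    by_contra h0
    obtain ⟨x₁, hx₁, h1, -, e₁⟩ := BG.Rank.exists_eq_zpowers_of_card_prime hc₁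
    obtain ⟨x₂, hx₂, h2, -, e₂⟩ := BG.Rank.exists_eq_zpowers_of_card_prime hc₂
    have hm := Q.mul_mem (h₁ hx₁) (h₂ hx₂)
    have n1 : x₁ * x₂ ∉ X₁ := fun h => h2 (mem_bot.1 (h12 ▸ mem_inf.2
      ⟨by simpa using X₁.mul_mem (X₁.inv_mem hx₁) h, hx₂⟩))
    have n2 : x₁ * x₂ ∉ X₂ := fun h => h1 (mem_bot.1 (h12 ▸ mem_inf.2
      ⟨hx₁, by simpa using X₂.mul_mem h (X₂.inv_mem hx₂)⟩))
    rcases honly (zpowers (x₁ * x₂)) (zpowers_le.2 hm) (BG.Rank.card_zpowers_of_pow (hQ.2 _ hm)
      fun h => n1 (h ▸ one_mem _)) (fun h => h0 (le_bot_iff.1 (h ▸ le_inf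
        (inf_le_left.trans inf_le_left) (le_centralizer_iff.1 (zpowers_le.2 (mul_mem
          (le_centralizer_iff.1 (inf_le_left.trans inf_le_right) hx₁)
          (le_centralizer_iff.1 (inf_le_right.trans inf_le_right) hx₂))))))) with h | h
    · exact n1 (h ▸ mem_zpowers _)
    · exact n2 (h ▸ mem_zpowers _)
  have hsup := le_antisymm (sup_le inf_le_left inf_le_left) (hgen P le_rfl le_normalizer_of_normal)
  refine ⟨?_, hinf, hsup⟩
  have hn : ∀ X : Subgroup S, X ≤ Q → Q ≤ normalizer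
      (((P : Subgroup S) ⊓ centralizer (X : Set S) : Subgroup S) : Set S) := fun X h =>
    le_normalizer_inf le_normalizer_of_normal (le_normalizer_centralizer (hQn X h))
  have hself : ∀ X Y : Subgroup S, X ≤ Q → Y ≤ Q → ((P : Subgroup S) ⊓ centralizer (X : Set S)) ⊓
      ((P : Subgroup S) ⊓ centralizer (Y : Set S)) = ⊥ →
      ⁅(P : Subgroup S) ⊓ centralizer (X : Set S), Y⁆ =
        (P : Subgroup S) ⊓ centralizer (X : Set S) := by
    intro X Y hX hY h
    have := Core.commutator_sup_centralizer Y _ (hY.trans (hn X hX)) (Core.coprime_of_le_right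
      (Core.coprime_of_le_left hcop hY) inf_le_left) (Or.inr (Core.solvable_of_isPGroup
        (P.2.to_le inf_le_left)))
    rwa [le_bot_iff.1 (le_trans (le_inf inf_le_left (inf_le_inf_right _ inf_le_left)) h.le),
      sup_bot_eq] at this
  have e1 := hself X₁ X₂ h₁ h₂ hinf
  have e2 := hself X₂ X₁ h₂ h₁ (inf_comm .. |>.trans hinf)
  have hc1 : X₁ ≤ centralizer (((P : Subgroup S) ⊓ centralizer (X₁ : Set S) : Subgroup S) : Set S) :=
    le_centralizer_iff.1 inf_le_right
  have hc2 : X₂ ≤ centralizer (((P : Subgroup S) ⊓ centralizer (X₂ : Set S) : Subgroup S) : Set S) :=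
    le_centralizer_iff.1 inf_le_right
  have hn1 := hn X₁ h₁
  have hn2 := hn X₂ h₂
  generalize (P : Subgroup S) ⊓ centralizer (X₁ : Set S) = C₁ at *
  generalize (P : Subgroup S) ⊓ centralizer (X₂ : Set S) = C₂ at *
  have hD : (⁅C₁, C₂⁆ : Subgroup S).Normal := by
    refine Core.normal_of_le_normalizer (hS.ge.trans (sup_le (hsup.ge.trans (sup_le ?_ ?_)) ?_))
    · exact left_le_normalizer_commutator _ _
    · exact right_le_normalizer_commutator _ _
    · exact le_normalizer_commutator hn1 hn2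
  have a1 := aux (X₂ := X₂) hS hD hc1 e2 (Subgroup.commutator_comm _ _) (hQn X₁ h₁)
  have a2 := aux (X₂ := X₁) hS hD hc2 e1 rfl (hQn X₂ h₂)
  have hDP : ⁅C₁, C₂⁆ ≤ (P : Subgroup S) := hsup ▸ commutator_le_sup' _ _
  generalize ⁅C₁, C₂⁆ = D at *
  have a3 := hgen D hDP le_normalizer_of_normal
  have b1 : ⁅D, X₁⁆ ≤ ⁅D, (P : Subgroup S)⁆ ⊔ (D ⊓ centralizer (X₂ : Set S)) := by
    have hN : (⁅D, (P : Subgroup S)⁆ ⊔ (D ⊓ centralizer (X₂ : Set S))).Normal := by
      refine Core.normal_of_le_normalizer (hS.ge.trans (sup_le ?_ ?_))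
      · exact le_normalizer_of_commutator_le_left ((commutator_mono (sup_le
          (commutator_le_left _ _) inf_le_left) le_rfl).trans le_sup_left)
      · exact le_normalizer_sup le_normalizer_of_normal (le_normalizer_inf le_normalizer_of_normal
          (le_normalizer_centralizer (hQn X₂ h₂)))
    refine (commutator_mono a3 le_rfl).trans (commutator_sup_left_le ?_ ?_
      le_normalizer_of_normal le_normalizer_of_normal)
    · rw [LocalEven.commutator_eq_bot_iff.2 inf_le_right]; exact bot_le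
    · exact (commutator_le_left_of_le_normalizer (h₁.trans (le_normalizer_inf
        le_normalizer_of_normal (le_normalizer_centralizer (hQn X₂ h₂))))).trans le_sup_right
  have b2 : ⁅D, X₂⁆ ≤ ⁅D, (P : Subgroup S)⁆ := by
    refine (commutator_mono (a1.trans (sup_le le_sup_left b1)) le_rfl).trans
      (commutator_sup_left_le (commutator_le_left _ _) ?_ le_normalizer_of_normal
        le_normalizer_of_normal)
    rw [LocalEven.commutator_eq_bot_iff.2 inf_le_right]; exact bot_le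
  by_contra h0
  exact (Core.commutator_lt_of_isPGroup (P.2.to_le hDP) P.2 le_normalizer_of_normal h0).not_ge
    (a2.trans (sup_le le_rfl b2))

end Cfsg.Agent.S1900
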