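import Mathlib
import Cfsg.Agent.Core.PHall
import Cfsg.Statements.S1901
-- import your own Cfsg.Agent.* helpers here

set_option autoImplicit false
open Cfsg

namespace Cfsg.Agent.S1901

/-- Let G be a finite p-solvable group and Q a subgroup of order prime to p such that p divides the index of C_G(Q) in N_G(Q). Then Q normalizes no Sylow p-subgroup of G. -/
theorem result {G : Type*} [Group G] [Finite G] {p : ℕ} [Fact p.Prime]
    (hG : Cfsg.IsPSolvable p G) (Q : Subgroup G) (hQ : ¬ p ∣ Nat.card Q)
    (hA : p ∣ (Subgroup.centralizer (Q : Set G)).relIndex (Subgroup.normalizer (Q : Set G)))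
    (P : Sylow p G) : ¬ Q ≤ Subgroup.normalizer ((P : Subgroup G) : Set G) := by
  intro h
  have hp : p.Prime := Fact.out
  exact Core.not_dvd_relIndex_of_forall_isPGroup_le hp (fun R hR hRp =>
    Core.psolv_le_centralizer_of_normalizes_sylow hG Q P R ((hp.coprime_iff_not_dvd.mpr hQ).symm)
      (Core.isSylowOf_top P) h hRp hR) hA

end Cfsg.Agent.S1901
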