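import Mathlib
import Cfsg.Agent.Core.Baer
import Cfsg.Agent.Core.SylowOf
import Cfsg.Statements.S1902
-- import your own Cfsg.Agent.* helpers here

set_option autoImplicit false
open Cfsg

namespace Cfsg.Agent.S1902

/-- Let p be an odd prime, G a finite p-solvable group, and B an elementary abelian subgroup of order p² such that B is the subgroup generated by the elements of order p of some Sylow p-subgroup of C_G(b₀), for some nontrivial b₀ ∈ B. Then every B-invariant subgroup of G of order prime to p lies in O_{p'}(G). -/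
theorem result {G : Type*} [Group G] [Finite G] {p : ℕ} [Fact p.Prime] (hp : p ≠ 2)
    (hG : Cfsg.IsPSolvable p G) (B : Subgroup G) (hB : Cfsg.IsElementaryAbelian p B) (hBc : Nat.card B = p ^ 2)
    (b₀ : G) (hb₀ : b₀ ∈ B) (hb₁ : b₀ ≠ 1) (P : Sylow p ↥(Subgroup.centralizer ({b₀} : Set G)))
    (hBP : B = Subgroup.closure {x : G | x ∈ ((P : Subgroup ↥(Subgroup.centralizer ({b₀} : Set G))).map
      (Subgroup.centralizer ({b₀} : Set G)).subtype : Subgroup G) ∧ orderOf x = p})
    (Q : Subgroup G) (hQ : ¬ p ∣ Nat.card Q) (hinv : ∀ b ∈ B, ∀ x ∈ Q, b * x * b⁻¹ ∈ Q) :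
    Q ≤ Cfsg.pPrimeCore p G := by
  have hpp : p.Prime := Fact.out
  have hBp : IsPGroup p B := IsPGroup.of_card hBc
  refine Core.thompson_bender hp (Core.IsPSolvable.isPConstrained hG) hBp ?_
    ((hpp.coprime_iff_not_dvd.mpr hQ).symm) ?_
  · intro x hx hxp
    have hS := Core.isSylowOf_map_subtype P
    have hBC : B ≤ Subgroup.centralizer (B : Set G) := fun a ha b hb =>
      congrArg Subtype.val (hB.1.is_comm.comm (⟨b, hb⟩ : B) ⟨a, ha⟩)
    have hC : Subgroup.centralizer (B : Set G) ≤ Subgroup.centralizer ({b₀} : Set G) :=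
      Subgroup.centralizer_le (Set.singleton_subset_iff.mpr hb₀)
    have hxB : Subgroup.zpowers x ≤ Subgroup.centralizer (B : Set G) := Subgroup.zpowers_le.mpr hx
    have hR : IsPGroup p (B ⊔ Subgroup.zpowers x : Subgroup G) :=
      IsPGroup.to_sup_of_normal_left' hBp
        (IsPGroup.of_card (n := 1) (by rw [Nat.card_zpowers, hxp, pow_one]))
        (hxB.trans (Subgroup.centralizer_le_normalizer _))
    obtain ⟨k, -, hk⟩ := Core.IsSylowOf.exists_conj_le hS hR ((sup_le hBC hxB).trans hC)
    rw [Core.conj_smul_le_iff] at hk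
    have key : ∀ y ∈ B ⊔ Subgroup.zpowers x, y ^ p = 1 → k * y * k⁻¹ ∈ B := by
      intro y hy hyp
      by_cases h1 : y = 1
      · subst h1; simpa using B.one_mem
      · refine hBP.ge (Subgroup.subset_closure ⟨hk y hy, ?_⟩)
        rw [← orderOf_eq_prime hyp h1]
        exact (MulAut.conj k).injective |> fun h => orderOf_injective (MulAut.conj k).toMonoidHom h y
    have h1 := Subgroup.eq_of_le_of_card_ge
      (Core.conj_smul_le_iff.mpr fun b hb => key b (Subgroup.mem_sup_left hb) (hB.2 b hb))
      (Core.card_conj_smul B k).ge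
    have h2 := key x (Subgroup.mem_sup_right (Subgroup.mem_zpowers x)) (hxp ▸ pow_orderOf_eq_one x)
    simpa [mul_assoc] using Core.mem_conj_smul_iff.mp (h1.ge h2)
  · intro b hb
    exact Subgroup.mem_normalizer_fintype (hinv b hb)

end Cfsg.Agent.S1902
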