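import Mathlib
import Cfsg.Statements.S1905
import Cfsg.Agent.Inv.StrongEmb
import Cfsg.Agent.LocalEven.SylowIn
import Cfsg.Agent.LocalEven.Cores

set_option autoImplicit false
open Cfsg

namespace Cfsg.Agent.S1905

open Cfsg.Agent Cfsg.Agent.Inv Cfsg.Agent.LocalEven Subgroup

/-- Let M be a subgroup of even order of a finite group S such that M contains the centralizer in S of each of its involutions and the normal core of M in S has odd order. Then all involutions of S are conjugate. If moreover N_S(X) ≤ M for a Sylow 2-subgroup X of M and I is an involution in the centre of X, then all involutions of M are conjugate in M and M = M₀ C_M(I) for some subgroup M₀ of M of odd order. -/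
theorem result {S : Type*} [Group S] [Finite S] (M : Subgroup S) (hM : Even (Nat.card M))
    (hC : ∀ i ∈ M, orderOf i = 2 → Subgroup.centralizer ({i} : Set S) ≤ M) (hcore : Odd (Nat.card M.normalCore)) :
    (∀ x y : S, orderOf x = 2 → orderOf y = 2 → IsConj x y) ∧
      ∀ (X : Sylow 2 M) (I : M), I ∈ (Subgroup.center ↥(X : Subgroup ↥M)).map (X : Subgroup ↥M).subtype → orderOf I = 2 →
        Subgroup.normalizer (((X : Subgroup M).map M.subtype : Subgroup S) : Set S) ≤ M →
        (∀ x y : M, orderOf x = 2 → orderOf y = 2 → IsConj x y) ∧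
          ∃ M₀ : Subgroup M, Odd (Nat.card M₀) ∧
            ∀ m : M, ∃ a ∈ M₀, ∃ c ∈ Subgroup.centralizer ({I} : Set M), m = a * c := by
  have : Fact (Nat.Prime 2) := ⟨Nat.prime_two⟩
  obtain ⟨t, htM, ht⟩ := exists_two_mem_of_even hM
  obtain ⟨u, huM, hu⟩ : ∃ u, u ∉ M ∧ orderOf u = 2 := by
    by_contra! h
    refine odd_card_iff.1 hcore t (fun g => ?_) ht
    by_contra h1
    exact h _ h1 (two_conj ht g)
  have hcom : ∀ {t g : S}, t ∈ M → orderOf t = 2 → Commute g t → g ∈ M := fun h1 h2 h3 =>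
    hC _ h1 h2 (mem_centralizer_singleton_iff.2 h3)
  have key : ∀ {t u : S}, t ∈ M → orderOf t = 2 → u ∉ M → orderOf u = 2 → IsConj t u := by
    intro t u htM ht huM hu
    refine isConj_of_odd (mul_self_of_two ht) (mul_self_of_two hu) ?_
    rw [← Nat.not_even_iff_odd]
    intro he
    obtain ⟨h1, h2, h3⟩ := half_power (mul_self_of_two ht) (mul_self_of_two hu) he
    exact huM (hcom (hcom htM ht h2) h1 h3.symm)
  have h2 : ∀ {c : S}, orderOf c = 2 → IsConj t c := by
    intro c hc
    by_cases hcH : c ∈ M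
    · exact (key htM ht huM hu).trans (key hcH hc huM hu).symm
    · exact key htM ht hcH hc
  have hall : ∀ x y : S, orderOf x = 2 → orderOf y = 2 → IsConj x y :=
    fun x y hx hy => (h2 hx).symm.trans (h2 hy)
  refine ⟨hall, fun X I hI hI2 hN => ?_⟩
  have hX := isSylowIn_map X
  have hI2' : orderOf (I : S) = 2 := by rw [orderOf_coe, hI2]
  have hXI : (X : Subgroup M).map M.subtype ≤ centralizer {(I : S)} := by
    rintro _ ⟨x, hx, rfl⟩
    rw [center_map_subtype] at hI
    exact mem_centralizer_singleton_iff.2 (congrArg Subtype.val (hI.2 x hx))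
  generalize (X : Subgroup M).map M.subtype = T at hX hN hXI
  have h3 : ∀ g : S, g * I * g⁻¹ ∈ M → g ∈ M := fun g hg => by
    have h4 : cj g T ≤ M := (cj_mono g hXI).trans
      ((cj_centralizer_singleton g _).le.trans (hC _ hg (two_conj hI2' g)))
    obtain ⟨m, hm, h5⟩ := hX.exists_cj_le (isPGroup_cj g hX.2) h4
    rw [cj_cj] at h5
    simpa using M.mul_mem (M.inv_mem hm) (hN (mem_normalizer_of_cj_le h5))
  have h4 : ∀ x ∈ M, orderOf x = 2 → ∃ m ∈ M, m * I * m⁻¹ = x := fun x hx hx2 => by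
    obtain ⟨g, hg⟩ := isConj_iff.1 (hall _ _ hI2' hx2)
    exact ⟨g, h3 g (hg ▸ hx), hg⟩
  have hse : IsStronglyEmbedded M := se_of (fun h => huM (h ▸ mem_top u)) htM ht
    fun x hx hx2 g hg => by
      obtain ⟨m, hm, rfl⟩ := h4 x hx hx2
      have := h3 (g * m) (by simpa [mul_assoc] using hg)
      simpa using M.mul_mem this (M.inv_mem hm)
  have h5 : ∀ x : M, orderOf x = 2 → IsConj I x := fun x hx => by
    obtain ⟨m, hm, h⟩ := h4 x x.2 (by rw [orderOf_coe, hx])
    exact isConj_iff.2 ⟨⟨m, hm⟩, Subtype.ext h⟩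
  refine ⟨fun x y hx hy => (h5 x hx).symm.trans (h5 y hy), (M ⊓ cj u M).subgroupOf M, ?_,
    fun m => ?_⟩
  · rw [card_subgroupOf inf_le_left]
    exact hse.2.2 u huM
  · obtain ⟨d, hd, h6, h7⟩ := se_exists_conj_inverted hse huM hu I.2 hI2' (m * I * m⁻¹).2
      (by rw [orderOf_coe]; exact two_conj hI2 m)
    refine ⟨⟨d, hd⟩, mem_subgroupOf.2 ⟨hd, mem_cj'.2 ⟨d⁻¹, M.inv_mem hd, ?_⟩⟩,
      ⟨d, hd⟩⁻¹ * m, mem_centralizer_singleton_iff.2 (Subtype.ext ?_), by group⟩
    · simpa [mul_assoc] using congrArg Inv.inv h6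
    · change d⁻¹ * m * I = I * (d⁻¹ * m)
      change d * I * d⁻¹ = m * I * (m : S)⁻¹ at h7
      calc d⁻¹ * m * I = d⁻¹ * (m * I * (m : S)⁻¹) * m := by group
        _ = _ := by rw [← h7]; group

end Cfsg.Agent.S1905
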