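import Mathlib
import Cfsg.Statements.S1907
import Cfsg.Agent.Core.PConstrained
import Cfsg.Agent.LocalEven.SylowIn
import Cfsg.Agent.Comp2.Cores

set_option autoImplicit false
open Cfsg

namespace Cfsg.Agent.S1907

open Cfsg.Agent Cfsg.Agent.LocalEven

theorem aux {G : Type*} [Group G] [Finite G] {p : ℕ} [Fact p.Prime] {H D : Subgroup G} [D.Normal]
    (hH : IsPGroup p H) (hD : (Nat.card D).Coprime p) {y : G}
    (hy : y ∈ Subgroup.normalizer (H : Set G)) (hk : ∃ k : ℕ, orderOf y = p ^ k) {d : G}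
    (hd : d ∈ D) (hyd : d⁻¹ * y * d ∈ Subgroup.normalizer (H : Set G)) :
    ∃ d₁ ∈ D ⊓ Subgroup.centralizer ({y} : Set G), ∃ d₂ ∈ D ⊓ Subgroup.centralizer (H : Set G),
      d = d₁ * d₂ := by
  obtain ⟨k, hk⟩ := hk
  have hA := isPGroup_zpowers_of_orderOf hk
  obtain ⟨c, ⟨hcD, hcy⟩, hc⟩ := Core.exists_centralizer_conj_eq (Subgroup.zpowers y) D
    Subgroup.le_normalizer_of_normal (Comp2.coprime_card_card_of_isPGroup hA hD)
    (Or.inl (Core.solvable_of_isPGroup hA)) (P := H) (Q := cj d H) (Subgroup.zpowers_le.2 hy)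
    (Subgroup.zpowers_le.2 (by rw [← cj_normalizer, mem_cj]; exact hyd)) hd (cj_eq_smul d H).symm
  rw [← cj_eq_smul] at hc
  have hn : c⁻¹ * d ∈ Subgroup.normalizer (H : Set G) := by
    rw [← cj_eq_self_iff, cj_mul, ← hc, cj_inv_cj]
  have hD2 : c⁻¹ * d ∈ D := D.mul_mem (D.inv_mem hcD) hd
  refine ⟨c, ⟨hcD, ?_⟩, c⁻¹ * d, ⟨hD2, ?_⟩, by group⟩
  · exact Subgroup.mem_centralizer_singleton_iff.2 (hcy y (Subgroup.mem_zpowers y)).symm
  · intro h hh
    generalize c⁻¹ * d = e at hn hD2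
    have h1 : e * h * e⁻¹ * h⁻¹ ∈ H ⊓ D :=
      ⟨H.mul_mem (conj_mem_of_mem_normalizer hn hh) (H.inv_mem hh), by
        have := D.mul_mem hD2 (Subgroup.Normal.conj_mem inferInstance _ (D.inv_mem hD2) h)
        simpa [mul_assoc] using this⟩
    rw [Comp2.inf_eq_bot_of_isPGroup_of_coprime hH hD, Subgroup.mem_bot] at h1
    calc h * e = (e * h * e⁻¹ * h⁻¹) * h * e := by rw [h1]; group
      _ = _ := by group

/-- Let P be a Sylow p-subgroup of a finite group G, H = P ∩ O_{p',p}(G), N = N_G(H) and D = O_{p'}(G). (a) If y is an element of p-power order of N and d ∈ D with d⁻¹ y d ∈ N, then d = d₁ d₂ with d₁ ∈ C_D(y) and d₂ ∈ C_D(H). (b) Two elements of P that are conjugate in G are conjugate in N. -/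
theorem result {G : Type*} [Group G] [Finite G] {p : ℕ} [Fact p.Prime] (P : Sylow p G) :
    (∀ y ∈ Subgroup.normalizer (((P : Subgroup G) ⊓ Cfsg.pPrimePCore p G : Subgroup G) : Set G), (∃ k : ℕ, orderOf y = p ^ k) →
      ∀ d ∈ Cfsg.pPrimeCore p G, d⁻¹ * y * d ∈ Subgroup.normalizer (((P : Subgroup G) ⊓ Cfsg.pPrimePCore p G : Subgroup G) : Set G) →
        ∃ d₁ ∈ Cfsg.pPrimeCore p G ⊓ Subgroup.centralizer ({y} : Set G),
          ∃ d₂ ∈ Cfsg.pPrimeCore p G ⊓ Subgroup.centralizer (((P : Subgroup G) ⊓ Cfsg.pPrimePCore p G : Subgroup G) : Set G), d = d₁ * d₂) ∧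
    ∀ x y : G, x ∈ (P : Subgroup G) → y ∈ (P : Subgroup G) → IsConj x y →
      ∃ n ∈ Subgroup.normalizer (((P : Subgroup G) ⊓ Cfsg.pPrimePCore p G : Subgroup G) : Set G), n * x * n⁻¹ = y := by
  have hH : IsPGroup p ((P : Subgroup G) ⊓ Cfsg.pPrimePCore p G : Subgroup G) :=
    P.2.to_le inf_le_left
  have hD := Comp2.pPrimeCore_coprime (G := G) p
  refine ⟨fun y hy hk d hd hyd => aux hH hD hy hk hd hyd, ?_⟩
  intro x y hx hy hxy
  obtain ⟨g, rfl⟩ := isConj_iff.1 hxy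
  have hS := Core.isSylowOf_sylow_inf_normal P (Cfsg.pPrimePCore p G)
  have hPN : (P : Subgroup G) ≤ Subgroup.normalizer
      (((P : Subgroup G) ⊓ Cfsg.pPrimePCore p G : Subgroup G) : Set G) :=
    le_normalizer_inf Subgroup.le_normalizer Subgroup.le_normalizer_of_normal
  have h1 := hS.frattini_top
  have h2 := Core.pPrimeCore_sup_eq_pPrimePCore hS
  generalize ((P : Subgroup G) ⊓ Cfsg.pPrimePCore p G : Subgroup G) = H at *
  rw [← h2, sup_assoc, sup_eq_right.2 Subgroup.le_normalizer, sup_comm] at h1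
  obtain ⟨n, hn, d, hd, rfl⟩ := (Core.mem_sup_of_le_normalizer'
    Subgroup.le_normalizer_of_normal).1 (h1 ▸ Subgroup.mem_top g)
  obtain ⟨d₁, ⟨-, h3⟩, d₂, ⟨-, h4⟩, e⟩ := aux hH hD (hPN hx) (orderOf_of_mem_isPGroup P.2 hx)
    (Subgroup.inv_mem _ hd) (by
      have := Subgroup.mul_mem _ (Subgroup.mul_mem _ (Subgroup.inv_mem _ hn) (hPN hy)) hn
      simpa [mul_assoc] using this)
  refine ⟨n * d₂⁻¹, Subgroup.mul_mem _ hn
    (Subgroup.inv_mem _ (Subgroup.centralizer_le_normalizer _ h4)), ?_⟩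
  have h5 := Subgroup.mem_centralizer_singleton_iff.1 h3
  rw [inv_eq_iff_eq_inv] at e
  rw [e]
  calc n * d₂⁻¹ * x * (n * d₂⁻¹)⁻¹ = n * d₂⁻¹ * d₁⁻¹ * (d₁ * x) * (n * d₂⁻¹)⁻¹ := by group
    _ = _ := by rw [h5]; group

end Cfsg.Agent.S1907
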