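import Mathlib
import Cfsg.Statements.S1924
import Cfsg.Agent.Inv.Fus
import Cfsg.Agent.Inv.Pairs
import Cfsg.Agent.Transfer.Abelian
-- import your own Cfsg.Agent.* helpers here

set_option autoImplicit false
open Cfsg

namespace Cfsg.Agent.S1924

open Subgroup Cfsg.Agent.Inv

theorem sign_eq_neg_one {K X : Type*} [Group K] [Finite K] [Fintype X] [DecidableEq X]
    [MulAction K X] {c : K} (he : Even (orderOf c))
    (hf : ∀ (j : ℕ) (x : X), c ^ j • x = x → c ^ j = 1) {m : ℕ} (hm : Odd m)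
    (hX : Fintype.card X = orderOf c * m) : Equiv.Perm.sign (MulAction.toPermHom K X c) = -1 := by
  set σ := MulAction.toPermHom K X c with hσ
  have hpos := orderOf_pos c
  have hc1 : c ≠ 1 := by rintro rfl; simp at he
  have h1 : ∀ n ∈ σ.cycleType, n = orderOf c := by
    intro n hn
    refine Nat.dvd_antisymm ((Equiv.Perm.dvd_of_mem_cycleType hn).trans (orderOf_map_dvd _ c)) ?_
    obtain ⟨a, τ, e, hd, ha, rfl⟩ := Equiv.Perm.mem_cycleType_iff.1 hn
    obtain ⟨x, hx, -⟩ := id ha
    refine orderOf_dvd_of_pow_eq_one (hf _ x ?_)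
    show (MulAction.toPermHom K X (c ^ _)) x = x
    rw [map_pow, ← hσ, e, hd.commute.mul_pow, ← ha.orderOf, pow_orderOf_eq_one, one_mul]
    exact Equiv.Perm.pow_apply_eq_self_of_apply_eq_self ((hd x).resolve_left hx) _
  have h2 : σ.cycleType.sum = orderOf c * m := by
    rw [Equiv.Perm.sum_cycleType, ← hX, Finset.card_eq_iff_eq_univ, Finset.eq_univ_iff_forall]
    intro x
    rw [Equiv.Perm.mem_support]
    exact fun h => hc1 (by simpa using hf 1 x (by rw [pow_one]; exact h))
  have h3 : σ.cycleType.sum = orderOf c * Multiset.card σ.cycleType := by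
    rw [Multiset.eq_replicate_card.2 h1]; simp [mul_comm]
  have h4 : Multiset.card σ.cycleType = m := Nat.eq_of_mul_eq_mul_left hpos (h3.symm.trans h2)
  rw [Equiv.Perm.sign_of_cycleType, h2, h4]
  exact Odd.neg_one_pow ((he.mul_right m).add_odd hm)

theorem mul_inj {G : Type*} [Group G] {T D S : Subgroup G} (h : D ⊓ T = ⊥) (hT : T ≤ S)
    (hD : D ≤ S) : Function.Injective fun u : T × D =>
      (⟨u.1 * u.2, S.mul_mem (hT u.1.2) (hD u.2.2)⟩ : S) := by
  rintro ⟨u, v⟩ ⟨u', v'⟩ e
  have e : (u : G) * v = u' * v' := congrArg Subtype.val e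
  have h3 : (u' : G)⁻¹ * u = v' * (v : G)⁻¹ := by
    rw [inv_mul_eq_iff_eq_mul, ← mul_assoc, ← e, mul_inv_cancel_right]
  have h4 : (u' : G)⁻¹ * u ∈ D ⊓ T := ⟨h3 ▸ D.mul_mem v'.2 (D.inv_mem v.2), T.mul_mem (T.inv_mem u'.2) u.2⟩
  rw [h, mem_bot] at h4
  rw [h4, eq_comm, mul_inv_eq_one] at h3
  exact Prod.ext (Subtype.ext (inv_mul_eq_one.1 h4).symm) (Subtype.ext h3.symm)

theorem dih_out {n : ℕ} (hn : 2 ≤ n) (C : Subgroup (DihedralGroup n)) (hC : IsCyclic C)
    (hi : C.index = 2) (x : DihedralGroup n) (hx : x ∉ C) : orderOf x = 2 := by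
  haveI : NeZero n := ⟨by omega⟩
  rcases x with i | i
  swap
  · exact DihedralGroup.orderOf_sr i
  have hc : Nat.card C = n := by
    have := C.card_mul_index
    rw [hi, DihedralGroup.nat_card] at this
    omega
  obtain ⟨g, hg⟩ := (Subgroup.isCyclic_iff_exists_zpowers_eq_top C).1 hC
  obtain ⟨j, hj⟩ : ∃ j, DihedralGroup.sr j ∈ C := by
    by_contra h
    push Not at h
    have := (mul_mem_iff_of_index_two hi (a := DihedralGroup.sr 0) (b := DihedralGroup.sr i)).2
      (by simp [h])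
    exact hx (by simpa using this)
  rcases g with k | k
  · rw [← hg] at hj
    obtain ⟨m, hm⟩ := hj
    simp at hm
  · rw [← hg, Nat.card_zpowers, DihedralGroup.orderOf_sr] at hc
    subst hc
    refine two_of_mul_self (fun h => hx (h ▸ C.one_mem)) ?_
    clear hx; revert i; decide

/-- A consequence of Thompson's transfer lemma. Let G be a finite group, L a subgroup with O²(L) = L, T a Sylow 2-subgroup of L and S a Sylow 2-subgroup of G containing T. Suppose D ≤ S is a dihedral subgroup of order at least 4 (the four-group counts) with D ∩ T = 1 and S = TD as a set of products (so |S| = |T|·|D|), and C ≤ D is cyclic of index 2 in D. If no involution of D outside C is G-conjugate to an involution of the subgroup generated by T and C, and the involution of C is not G-conjugate to any involution of T, then G has a normal subgroup K, containing every Sylow 2-subgroup of L as a Sylow 2-subgroup, with G = KD. -/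
theorem result {G : Type*} [Group G] [Finite G] (L T S D C : Subgroup G) (hL : Cfsg.pResidual 2 ↥L = ⊤)
    (hTL : T ≤ L) (hT2 : IsPGroup 2 T) (hTsyl : ¬ 2 ∣ T.relIndex L)
    (hS2 : IsPGroup 2 S) (hSsyl : ¬ 2 ∣ S.index) (hTS : T ≤ S)
    (hDS : D ≤ S) (hDih : ∃ n : ℕ, 2 ≤ n ∧ Nonempty (↥D ≃* DihedralGroup n)) (hDT : D ⊓ T = ⊥) (hTD : T ⊔ D = S) (hTDc : Nat.card T * Nat.card D = Nat.card S)
    (hCD : C ≤ D) (hC : IsCyclic ↥C) (hCi : C.relIndex D = 2)
    (h1 : ∀ x ∈ D, x ∉ C → orderOf x = 2 → ∀ g : G, g * x * g⁻¹ ∈ T ⊔ C → False)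
    (h2 : ∀ c ∈ C, orderOf c = 2 → ∀ g : G, g * c * g⁻¹ ∈ T → False) :
    ∃ K : Subgroup G, K.Normal ∧ K ⊔ D = ⊤ ∧
      ∀ T' : Subgroup G, T' ≤ L → IsPGroup 2 T' → ¬ 2 ∣ T'.relIndex L → T' ≤ K ∧ ¬ 2 ∣ T'.relIndex K := by
  classical
  haveI : Fact (Nat.Prime 2) := ⟨Nat.prime_two⟩
  set K := pResidual 2 G with hK
  have hLK : L ≤ K := by
    have := Transfer.map_subtype_pResidual_le (p := 2) L
    rwa [hL, ← MonoidHom.range_eq_map, range_subtype] at this
  have hTK : T ≤ K := hTL.trans hLK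
  have hKS : K ⊔ S = ⊤ := Transfer.pResidual_sup_eq_top_of_not_dvd_index hSsyl
  have hout : ∀ x ∈ D, x ∉ C → orderOf x = 2 := by
    obtain ⟨n, hn, ⟨e⟩⟩ := hDih
    intro x hx hxC
    have := dih_out hn ((C.subgroupOf D).map e.toMonoidHom)
      (isCyclic_of_surjective (((subgroupOfEquivOfLe hCD).symm.trans (e.subgroupMap _)).toMonoidHom)
        (MulEquiv.surjective _))
      (by rw [index_map_of_bijective e.bijective]; exact hCi) (e ⟨x, hx⟩) (by
        rintro ⟨y, hy, h⟩
        rw [e.injective h] at hy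
        exact hxC hy)
    rwa [MulEquiv.orderOf_eq, ← orderOf_coe] at this
  have hposT : 0 < Nat.card T := Nat.card_pos
  have hposC : 0 < Nat.card C := Nat.card_pos
  have hi : (T ⊔ C).relIndex S = 2 := by
    have hle : T ⊔ C ≤ S := sup_le hTS (hCD.trans hDS)
    have a1 := Core.card_mul_relIndex hle
    have a2 := Core.card_mul_relIndex hCD
    have a3 := Nat.card_le_card_of_injective _ (mul_inj (T := T) (D := C) (S := T ⊔ C)
      (eq_bot_iff.2 (hDT ▸ inf_le_inf_right T hCD)) le_sup_left le_sup_right)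
    rw [Nat.card_prod] at a3
    have a4 : (T ⊔ C).relIndex S ≠ 1 := fun h => by
      obtain ⟨x, hx, hxC⟩ : ∃ x ∈ D, x ∉ C := by
        by_contra hcon
        push Not at hcon
        rw [relIndex_eq_one.2 hcon] at hCi
        omega
      exact h1 x hx hxC (hout x hx hxC) 1 (by simpa using relIndex_eq_one.1 h (hDS hx))
    have a5 : (T ⊔ C).relIndex S ≠ 0 := index_ne_zero_of_finite
    rw [← hTDc, ← a2, hCi] at a1
    have : (T ⊔ C).relIndex S ≤ 2 := by
      by_contra h
      have := Nat.mul_pos hposT hposC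
      nlinarith
    omega
  have hDK : ∀ d ∈ D, d ∈ K → d ∈ C := by
    intro d hd hdK
    by_contra hdC
    obtain ⟨M, hM, hM2, hdM⟩ := Transfer.thompson_transfer (Nat.not_even_iff_odd.1
      fun h => hSsyl h.two_dvd) hi (hout d hd hdC) (fun g => h1 d hd hdC (hout d hd hdC) g)
    exact hdM (Transfer.pResidual_le_of_index_eq_pow (p := 2) (N := M) (k := 1) (by simpa using hM2) hdK)
  have hdec : ∀ s ∈ S, ∃ t ∈ T, ∃ d ∈ D, s = t * d := by
    intro s hs
    obtain ⟨⟨t, d⟩, e⟩ := ((Nat.bijective_iff_injective_and_card _).2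
      ⟨mul_inj hDT hTS hDS, by rw [Nat.card_prod, hTDc]⟩).2 ⟨s, hs⟩
    exact ⟨t, t.2, d, d.2, (congrArg Subtype.val e).symm⟩
  set C0 := C ⊓ K with hC0
  have hcard : T.relIndex (K ⊓ S) = Nat.card C0 := by
    have a1 := Core.card_mul_relIndex (le_inf hTK hTS)
    have hb : Function.Bijective _ := ⟨mul_inj (T := T) (D := C0) (S := K ⊓ S)
      (eq_bot_iff.2 (hDT ▸ inf_le_inf_right T (inf_le_left.trans hCD))) (le_inf hTK hTS)
      (le_inf inf_le_right (inf_le_left.trans (hCD.trans hDS))), by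
        rintro ⟨s, hsK, hsS⟩
        obtain ⟨t, ht, d, hd, rfl⟩ := hdec s hsS
        have hdK : d ∈ K := (mul_mem_cancel_left (hTK ht)).1 hsK
        exact ⟨(⟨t, ht⟩, ⟨d, hDK d hd hdK, hdK⟩), rfl⟩⟩
    have a2 := Nat.card_eq_of_bijective _ hb
    rw [Nat.card_prod, ← a1] at a2
    exact (Nat.eq_of_mul_eq_mul_left hposT a2).symm
  have hodd : Odd ((K ⊓ S).relIndex K) := by
    have e1 := Core.card_sup_mul_card_inf (N := K) (H := S) le_normalizer_of_normal
    have e2 := Core.card_mul_relIndex (inf_le_left : K ⊓ S ≤ K)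
    have e3 := S.card_mul_index
    rw [hKS, card_top, ← e3] at e1
    have e4 : (K ⊓ S).relIndex K = S.index := by
      have p1 : 0 < Nat.card S * Nat.card (K ⊓ S : Subgroup G) := Nat.mul_pos Nat.card_pos Nat.card_pos
      refine Nat.eq_of_mul_eq_mul_left p1 ?_
      rw [mul_assoc, e2]
      linarith
    rw [e4]
    exact Nat.not_even_iff_odd.1 fun h => hSsyl h.two_dvd
  have hmul := relIndex_mul_relIndex T (K ⊓ S) K (le_inf hTK hTS) inf_le_left
  have hT : Odd (T.relIndex K) := by
    by_cases h0 : C0 = ⊥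
    · rw [hcard, h0, card_bot, one_mul] at hmul
      rwa [← hmul]
    exfalso
    haveI : IsCyclic C0 := isCyclic_of_le (inf_le_left : C0 ≤ C)
    obtain ⟨c, hc⟩ := (Subgroup.isCyclic_iff_exists_zpowers_eq_top C0).1 this
    have hcC : c ∈ C0 := hc ▸ mem_zpowers c
    have hev : ∀ s ∈ S, s ≠ 1 → Even (orderOf s) := by
      intro s hs hs1
      obtain ⟨k, hk⟩ := IsPGroup.iff_orderOf.1 hS2 ⟨s, hs⟩
      rw [← orderOf_coe] at hk
      rcases k with _ | k
      · exact absurd (orderOf_eq_one_iff.1 hk) hs1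
      · rw [show orderOf s = _ from hk, pow_succ]; exact even_two.mul_left _
    haveI := Fintype.ofFinite (K ⧸ T.subgroupOf K)
    have hsg := sign_eq_neg_one (K := K) (X := K ⧸ T.subgroupOf K) (c := ⟨c, hcC.2⟩)
      (by
        rw [← orderOf_coe]
        exact hev c (hDS (hCD hcC.1)) fun h => h0 (by rw [← hc, h, zpowers_one_eq_bot]))
      (fun j x hx => by
        by_contra hne
        obtain ⟨k, rfl⟩ := QuotientGroup.mk_surjective x
        have h3 : (c ^ j * k)⁻¹ * k ∈ T :=
          (QuotientGroup.eq (s := T.subgroupOf K) (a := (⟨c, hcC.2⟩ : K) ^ j * k) (b := k)).1 hx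
        have hcj : c ^ j ∈ C := pow_mem hcC.1 j
        have h4 := orderOf_pow_half (orderOf_pos (c ^ j)).ne'
          (hev _ (hDS (hCD hcj)) fun h => hne (Subtype.ext h))
        refine h2 _ (pow_mem hcj _) h4 (k : G)⁻¹ ?_
        rw [← conj_pow]
        refine pow_mem ?_ _
        have := T.inv_mem h3
        simpa [mul_assoc] using this) hodd (by
        rw [← Nat.card_eq_fintype_card, ← orderOf_coe, ← Nat.card_zpowers]
        show T.relIndex K = Nat.card (zpowers c) * _
        rw [hc, ← hcard, hmul])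
    let f : K →* ℤˣ := Equiv.Perm.sign.comp (MulAction.toPermHom K (K ⧸ T.subgroupOf K))
    refine no_index_two_pResidual f.ker ?_
    have hs : Function.Surjective f := fun u => by
      rcases Int.units_eq_one_or u with rfl | rfl
      · exact ⟨1, map_one f⟩
      · exact ⟨_, hsg⟩
    rw [index_ker, MonoidHom.range_eq_top.2 hs, card_top]
    simp
  refine ⟨K, inferInstance, ?_, fun T' hT'L hT'2 hT' => ⟨hT'L.trans hLK, ?_⟩⟩
  · rw [eq_top_iff, ← hKS, ← hTD]
    exact sup_le le_sup_left (sup_le (hTK.trans le_sup_left) le_sup_right)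
  · obtain ⟨a, ha⟩ := IsPGroup.iff_card.1 hT2
    obtain ⟨b, hb⟩ := IsPGroup.iff_card.1 hT'2
    have a1 := Core.card_mul_relIndex hTK
    have a2 := Core.card_mul_relIndex (hT'L.trans hLK)
    have a3 := Core.card_mul_relIndex hTL
    have a4 := Core.card_mul_relIndex hT'L
    have hab : a = b := by
      rw [ha] at a3
      rw [hb, ← a3] at a4
      refine le_antisymm ?_ ?_
      · refine (Nat.pow_dvd_pow_iff_le_right (by norm_num : 1 < 2)).1 ?_
        exact (Nat.Coprime.pow_left a ((Nat.prime_two.coprime_iff_not_dvd).2 hT')).dvd_of_dvd_mul_right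
          (a4 ▸ Dvd.intro _ rfl)
      · refine (Nat.pow_dvd_pow_iff_le_right (by norm_num : 1 < 2)).1 ?_
        exact (Nat.Coprime.pow_left b ((Nat.prime_two.coprime_iff_not_dvd).2 hTsyl)).dvd_of_dvd_mul_right
          (a4 ▸ Dvd.intro _ rfl)
    rw [hb, ← a1, ha, hab] at a2
    rw [Nat.eq_of_mul_eq_mul_left (by positivity) a2]
    exact fun h => Nat.not_even_iff_odd.2 hT (even_iff_two_dvd.2 h)

end Cfsg.Agent.S1924
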