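import Mathlib
import Cfsg.Statements.S1939
import Cfsg.Agent.Inv.WeakElem
import Cfsg.Agent.Transfer.Residual
-- import your own Cfsg.Agent.* helpers here

set_option autoImplicit false
open Cfsg

namespace Cfsg.Agent.S1939

open Cfsg.Agent.Transfer

/-- Let S be a Sylow p-subgroup of the finite group G and a an element of S that is the only G-conjugate of a lying in S. Then every power of a has the same property: for every n, the only G-conjugate of a^n lying in S is a^n. -/
theorem result {G : Type*} [Group G] [Finite G] {p : ℕ} [Fact p.Prime] (S : Sylow p G) (a : G)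
    (haS : a ∈ (S : Subgroup G)) (hwc : ∀ g : G, g * a * g⁻¹ ∈ (S : Subgroup G) → g * a * g⁻¹ = a) (n : ℕ) :
    ∀ g : G, g * a ^ n * g⁻¹ ∈ (S : Subgroup G) → g * a ^ n * g⁻¹ = a ^ n := by
  have h : Inv.WkCl (S : Subgroup G) a := ⟨haS, hwc⟩
  exact (h.of_mem_zpowers (v := a ^ n) (Subgroup.pow_mem _ (Subgroup.mem_zpowers a) n)).2

end Cfsg.Agent.S1939
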