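import Mathlib
import Cfsg.Statements.S1940
import Cfsg.Agent.Transfer.SylowConj
-- import your own Cfsg.Agent.* helpers here

set_option autoImplicit false
open Cfsg

namespace Cfsg.Agent.S1940

open Cfsg.Agent.Transfer

/-- Let the finite group L act by automorphisms on the finite abelian group M, and let N be an L-invariant subgroup of M such that M/N is a p-group on which L acts trivially (every l • m lies in the coset mN). If every element of M is a product of an element of N and an element fixed by a Sylow p-subgroup T of L, then every element of M is a product of an element of N and an element fixed by all of L. -/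
theorem result {L : Type*} [Group L] [Finite L] {M : Type*} [CommGroup M] [Finite M] [MulDistribMulAction L M]
    {p : ℕ} [Fact p.Prime] (N : Subgroup M) (hN : ∀ (l : L) (m : M), m ∈ N → l • m ∈ N)
    (hquot : IsPGroup p (M ⧸ N)) (htriv : ∀ (l : L) (m : M), (l • m) * m⁻¹ ∈ N) (T : Sylow p L)
    (hT : ∀ m : M, ∃ n ∈ N, ∃ c : M, (∀ t ∈ (T : Subgroup L), t • c = c) ∧ m = n * c) :
    ∀ m : M, ∃ n ∈ N, ∃ c : M, (∀ l : L, l • c = c) ∧ m = n * c := by
  classical
  intro m
  obtain ⟨n, hn, c, hc, rfl⟩ := hT m
  have := Fintype.ofFinite (L ⧸ (T : Subgroup L))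
  -- the function `q ↦ q • c` on the cosets
  let f : L ⧸ (T : Subgroup L) → M := fun q => q.out • c
  have hf : ∀ l : L, f (l : L ⧸ (T : Subgroup L)) = l • c := by
    intro l
    obtain ⟨t, ht⟩ := QuotientGroup.mk_out_eq_mul (T : Subgroup L) l
    simp only [f]
    rw [ht, mul_smul, hc t t.2]
  have hf2 : ∀ (l : L) (q : L ⧸ (T : Subgroup L)), l • f q = f (l • q) := by
    intro l q
    obtain ⟨x, rfl⟩ := QuotientGroup.mk_surjective q
    rw [hf, MulAction.Quotient.smul_mk, smul_eq_mul, hf, mul_smul]
  let d : M := ∏ q, f q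
  have hd : ∀ l : L, l • d = d := by
    intro l
    simp only [d]
    rw [Finset.smul_prod']
    simp_rw [hf2]
    exact Fintype.prod_equiv (MulAction.toPerm l) _ _ (fun _ => rfl)
  have hdc : (d : M ⧸ N) = (c : M ⧸ N) ^ (T : Subgroup L).index := by
    have h1 : ∀ q, ((f q : M) : M ⧸ N) = (c : M ⧸ N) := by
      intro q
      rw [QuotientGroup.eq]
      have := N.inv_mem (htriv q.out c)
      simpa [f, mul_comm] using this
    change QuotientGroup.mk' N (∏ q, f q) = _
    rw [map_prod]
    simp only [QuotientGroup.mk'_apply, h1, Finset.prod_const, Finset.card_univ]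
    rw [Subgroup.index, Nat.card_eq_fintype_card]
  obtain ⟨e, he⟩ := hquot (c : M ⧸ N)
  have hcop : (T : Subgroup L).index.Coprime (orderOf (c : M ⧸ N)) := by
    have h1 : (T : Subgroup L).index.Coprime p :=
      ((Nat.Prime.coprime_iff_not_dvd Fact.out).2 T.not_dvd_index).symm
    exact Nat.Coprime.coprime_dvd_right (orderOf_dvd_of_pow_eq_one he) (h1.pow_right e)
  obtain ⟨k, hk⟩ := exists_pow_eq_self_of_coprime hcop
  refine ⟨n * c * (d ^ k)⁻¹, ?_, d ^ k, fun l => by rw [smul_pow', hd], by group⟩
  rw [mul_assoc]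
  refine N.mul_mem hn ?_
  rw [← QuotientGroup.eq_one_iff, QuotientGroup.mk_mul, QuotientGroup.mk_inv,
    QuotientGroup.mk_pow, hdc, hk, mul_inv_cancel]

end Cfsg.Agent.S1940
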