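import Mathlib
import Cfsg.Statements.S1941
import Cfsg.Agent.Fusion.H1
import Cfsg.Agent.Comp2.GenFitting
import Cfsg.Agent.LocalEven.Cores

set_option autoImplicit false
open Cfsg

namespace Cfsg.Agent.S1941

/-- Let G be a finite group with no nontrivial normal subgroup of order prime to p, T a Sylow p-subgroup of G and E(G) the layer of G (the subgroup generated by its components). An automorphism of G of p-power order that fixes T and E(G) elementwise is inner. -/
theorem result {G : Type*} [Group G] [Finite G] {p : ℕ} [Fact p.Prime] (hcore : Cfsg.pPrimeCore p G = ⊥)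
    (T : Sylow p G) (α : MulAut G) (hα : ∃ j : ℕ, orderOf α = p ^ j) (hfixT : ∀ x ∈ (T : Subgroup G), α x = x)
    (hfixE : ∀ x ∈ Cfsg.layer G, α x = x) : ∃ g : G, ∀ x : G, α x = g * x * g⁻¹ := by
  have hC := Comp2.centralizer_genFitting_le_fitting (G := G)
  rw [Comp2.fitting_eq_pCore_of_pPrimeCore_eq_bot p hcore] at hC
  have hF : ∀ x ∈ generalizedFittingSubgroup G, α x = x := fun x hx =>
    (show generalizedFittingSubgroup G ≤ α.toMonoidHom.eqLocus (MonoidHom.id G) from
      sup_le hfixE ((Comp2.fitting_eq_pCore_of_pPrimeCore_eq_bot p hcore).le.trans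
        ((LocalEven.pCore_le_sylow T).trans hfixT))) hx
  obtain ⟨n, hn⟩ := (LocalEven.isPGroup_of_le_pCore hC).exists_card_eq
  obtain ⟨z, -, hz⟩ := Fusion.exists_cobdry (T := T)
    (A := Subgroup.centralizer (generalizedFittingSubgroup G : Set G))
    (Subgroup.le_centralizer_iff.1 (Comp2.centralizer_genFitting_le.trans
      (Subgroup.le_centralizer_iff.1 le_rfl)))
    (hn ▸ ((Fact.out : p.Prime).coprime_iff_not_dvd.2 T.not_dvd_index).pow_left n) (fun g => α g * g⁻¹)
    (fun g f hf => by
      have := hF _ (Comp2.genFitting_normal.conj_mem f hf g⁻¹)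
      rw [map_mul, map_mul, hF f hf, inv_inv, map_inv] at this
      calc f * (α g * g⁻¹) = α g * ((α g)⁻¹ * f * α g) * g⁻¹ := by group
        _ = _ := by rw [this]; group)
    (fun g h => by rw [map_mul]; group) (fun t ht => by rw [hfixT t ht, mul_inv_cancel])
  exact ⟨z, fun x => mul_right_cancel (b := x⁻¹) (by rw [hz x]; group)⟩

end Cfsg.Agent.S1941
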