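import Mathlib
import Cfsg.Statements.S1948
import Cfsg.Agent.Transfer.SylowConj
import Cfsg.Agent.Core.PConstrained
-- import your own Cfsg.Agent.* helpers here

set_option autoImplicit false
open Cfsg

namespace Cfsg.Agent.S1948

open Cfsg.Agent.Transfer

/-- Let S be a Sylow p-subgroup of the finite group G. Then G = N_G(S)·O_{p'}(G) if and only if G is p-constrained and N_G(S) controls fusion in S, in the sense that whenever a subgroup Q of S has a conjugate g Q g⁻¹ inside S, the element g is a product n c with n normalizing S and c centralizing Q. -/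
theorem result {G : Type*} [Group G] [Finite G] {p : ℕ} [Fact p.Prime] (S : Sylow p G) :
    Subgroup.normalizer ((S : Subgroup G) : Set G) ⊔ Cfsg.pPrimeCore p G = ⊤ ↔
      (Cfsg.IsPConstrained p G ∧
        ∀ Q : Subgroup G, Q ≤ (S : Subgroup G) → ∀ g : G, Q.map (MulAut.conj g).toMonoidHom ≤ (S : Subgroup G) →
          ∃ n ∈ Subgroup.normalizer ((S : Subgroup G) : Set G), ∃ c ∈ Subgroup.centralizer (Q : Set G), g = n * c) := by
  have hK : (pPrimeCore p G).Normal := inferInstance
  constructor
  · intro h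
    refine ⟨?_, fun Q hQ g hg => ?_⟩
    · have h1 : (pPrimeCore p G ⊔ (S : Subgroup G)).Normal := by
        rw [← Subgroup.normalizer_eq_top_iff, eq_top_iff, ← h]
        refine sup_le ?_ (le_sup_left.trans Subgroup.le_normalizer)
        intro g hg
        rw [mem_normalizer_iff_conj_smul_eq] at hg ⊢
        rw [Subgroup.smul_sup, hg, Subgroup.Normal.conj_smul_eq_self]
      exact Core.IsPSolvable.isPConstrained
        (Core.PLengthLE.isPSolvable ((Core.pLengthLE_one_iff_normal S).2 h1))
    · have hg' : g ∈ Subgroup.normalizer ((S : Subgroup G) : Set G) ⊔ pPrimeCore p G :=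
        h ▸ trivial
      obtain ⟨n, hn, k, hk, rfl⟩ := Subgroup.mem_sup_of_normal_right.1 hg'
      refine ⟨n, hn, k, fun x hx => ?_, rfl⟩
      have h1 : n * k * x * (n * k)⁻¹ ∈ (S : Subgroup G) := hg ⟨x, hx, rfl⟩
      have h2 : k * x * k⁻¹ ∈ (S : Subgroup G) := by
        rw [Subgroup.mem_normalizer_iff.1 hn]
        convert h1 using 1; group
      have h3 : k * x * k⁻¹ * x⁻¹ ∈ (S : Subgroup G) ⊓ pPrimeCore p G := by
        refine Subgroup.mem_inf.2 ⟨mul_mem h2 (inv_mem (hQ hx)), ?_⟩
        have := mul_mem hk (hK.conj_mem _ (inv_mem hk) x)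
        convert this using 1; group
      rw [inf_eq_bot_of_not_dvd S.isPGroup' (Core.not_dvd_card_pPrimeCore Fact.out),
        Subgroup.mem_bot] at h3
      calc x * k = (k * x * k⁻¹ * x⁻¹)⁻¹ * (k * x) := by group
        _ = k * x := by rw [h3]; simp
  · rintro ⟨hc, hf⟩
    have hT := Core.isSylowOf_sylow_inf_normal S (pPrimePCore p G)
    have h1 := Core.pPrimeCore_sup_eq_pPrimePCore hT
    have h2 : pPrimePCore p G ≤ Subgroup.normalizer ((S : Subgroup G) : Set G) ⊔ pPrimeCore p G := by
      rw [← h1]
      exact sup_le le_sup_right ((inf_le_left.trans Subgroup.le_normalizer).trans le_sup_left)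
    rw [eq_top_iff, ← hT.frattini_top]
    refine sup_le h2 fun g hg => ?_
    obtain ⟨n, hn, c, hc', rfl⟩ := hf _ inf_le_left g (by
      rintro _ ⟨x, hx, rfl⟩
      exact ((Subgroup.mem_normalizer_iff.1 hg x).1 hx).1)
    exact mul_mem (Subgroup.mem_sup_left hn) (h2 (Core.IsPConstrained.centralizer_le hc hT hc'))

end Cfsg.Agent.S1948
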