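import Mathlib
import Cfsg.Statements.S1950
import Cfsg.Agent.Gp.PS4
-- import your own Cfsg.Agent.* helpers here

set_option autoImplicit false
open Cfsg

namespace Cfsg.Agent.S1950

open Subgroup Cfsg.Agent.Block Cfsg.Agent.Gp

theorem psolv_of_npc {G : Type*} [Group G] [Finite G] {p : ℕ} [hp : Fact p.Prime]
    (h : HasNormalPComplement p G) : IsPSolvable p G := by
  obtain ⟨N, _, h1, h2⟩ := Transfer.hasNormalPComplement_iff_exists_normal.1 h
  exact Core.IsPSolvable.extension N
    (Core.isPSolvable_of_coprime ((Nat.Prime.coprime_iff_not_dvd hp.out).2 h1).symm)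
    (Core.isPSolvable_of_isPGroup h2)

theorem cyc_sub {G : Type*} [Group G] [Finite G] {p : ℕ} [hp : Fact p.Prime] (P : Sylow p G)
    (hP : IsCyclic (P : Subgroup G)) {Q : Subgroup G} (hQ : IsPGroup p Q) : IsCyclic Q := by
  obtain ⟨T, hT⟩ := hQ.exists_le_sylow
  have : IsCyclic (T : Subgroup G) := (P.equiv T).isCyclic.1 hP
  exact Subgroup.isCyclic_of_le hT

theorem aux.{u} {p : ℕ} [hp : Fact p.Prime] (n : ℕ) : ∀ {G : Type u} [Group G] [Finite G]
    (P : Sylow p G), Nat.card G = n → IsCyclic (P : Subgroup G) →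
    (∀ x y : G, orderOf x = p → orderOf y = p → IsPSolvable p (closure ({x, y} : Set G))) →
    IsPSolvable p G := by
  induction n using Nat.strong_induction_on with
  | _ n ih =>
  intro G _ _ P hn hP hc
  by_cases hP1 : (P : Subgroup G) = ⊥
  · refine Core.isPSolvable_of_coprime ((Nat.Prime.coprime_iff_not_dvd hp.out).2 ?_).symm
    have := P.not_dvd_index
    rwa [hP1, index_bot] at this
  by_cases hs : IsSimpleGroup G
  · by_cases hnpc : HasNormalPComplement p G
    · exact psolv_of_npc hnpc
    · exact (not_simple_of_pairs P hP hP1 hnpc hc).elim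
  have hnt : Nontrivial G := by
    by_contra h
    rw [not_nontrivial_iff_subsingleton] at h
    exact hP1 (Subsingleton.elim _ _)
  obtain ⟨N, hN, hN1, hN2⟩ : ∃ N : Subgroup G, N.Normal ∧ N ≠ ⊥ ∧ N ≠ ⊤ := by
    by_contra h
    push Not at h
    exact hs ⟨fun N hN => or_iff_not_imp_left.2 (h N hN)⟩
  have hNs : IsPSolvable p N := by
    obtain ⟨T⟩ : Nonempty (Sylow p N) := inferInstance
    refine ih _ ?_ T rfl ?_ fun x y hx hy => ?_
    · rw [← hn, ← N.card_mul_index]
      have h1 : 1 < N.index := one_lt_index_of_ne_top hN2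
      have h2 : 0 < Nat.card N := Nat.card_pos
      nlinarith
    · have := cyc_sub P hP (T.isPGroup'.map N.subtype)
      exact ((T : Subgroup N).equivMapOfInjective _ N.subtype_injective).isCyclic.2 this
    · have := hc x y (by rwa [Subgroup.orderOf_coe]) (by rwa [Subgroup.orderOf_coe])
      refine Core.IsPSolvable.of_mulEquiv ?_
        ((closure ({x, y} : Set N)).equivMapOfInjective _ N.subtype_injective).symm
      rw [MonoidHom.map_closure, Set.image_pair]
      exact this
  obtain ⟨K, hK, hK1, -, hK2 | hK2⟩ := Core.exists_normal_le_of_isPSolvable N hNs hN1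
  · have hKP : K ≤ P := hK2.le_sylow_of_normal P
    obtain ⟨⟨u, hu⟩, hu1⟩ := ne_bot_iff_exists_ne_one.1 hK1
    have hPC : (P : Subgroup G) ≤ centralizer (K : Set G) := fun a ha =>
      mem_centralizer_iff.2 fun b hb => cyc_comm P hP b (hKP hb) a ha
    refine Core.IsPSolvable.extension (centralizer (K : Set G))
      (psolv_of_npc (cyc_npc_of_le P hP (hKP hu) (fun h => hu1 (Subtype.ext h)) hPC
        (centralizer_le (by simpa using hu)))) (Core.isPSolvable_of_coprime ?_)
    refine ((Nat.Prime.coprime_iff_not_dvd hp.out).2 fun h => P.not_dvd_index ?_).symm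
    exact h.trans (index_dvd_of_le hPC)
  · have hsurj := QuotientGroup.mk'_surjective K
    have lift : ∀ x : G ⧸ K, orderOf x = p → ∃ w : G, orderOf w = p ∧ QuotientGroup.mk' K w = x := by
      intro x hx
      obtain ⟨g, rfl⟩ := hsurj x
      obtain ⟨w, hw⟩ := exists_isPPart hp.out g
      have h1 := pPart_unique hp.out (pPart_map hp.out (QuotientGroup.mk' K) hw)
        (isPPart_self hp.out ⟨1, by rw [hx, pow_one]⟩)
      refine ⟨w, orderOf_eq_prime ?_ ?_, h1⟩
      · have h2 : w ^ p ∈ K := by
          rw [← QuotientGroup.eq_one_iff, ← QuotientGroup.mk'_apply, map_pow, h1, ← hx,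
            pow_orderOf_eq_one]
        refine eq_one_of_isPGroup_of_not_dvd hp.out (pPart_isPGroup hw)
          (pow_mem (mem_zpowers w) p) fun h => ?_
        exact (Nat.Prime.coprime_iff_not_dvd hp.out).1 hK2.symm
          (h.trans (K.orderOf_dvd_natCard h2))
      · rintro rfl
        rw [← h1, map_one, orderOf_one] at hx
        exact hp.out.ne_one hx.symm
    refine Core.IsPSolvable.extension K (Core.isPSolvable_of_coprime hK2)
      (ih _ ?_ (P.mapSurjective hsurj) rfl ?_ fun x y hx hy => ?_)
    · rw [← hn, ← K.index_eq_card, ← K.card_mul_index]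
      have h1 : 1 < Nat.card K := (one_lt_card_iff_ne_bot K).2 hK1
      have h2 : 0 < K.index := Nat.pos_of_ne_zero K.index_ne_zero_of_finite
      nlinarith
    · rw [Sylow.coe_mapSurjective]
      exact isCyclic_of_surjective _ ((QuotientGroup.mk' K).subgroupMap_surjective _)
    · obtain ⟨x, hx', rfl⟩ := lift x hx
      obtain ⟨y, hy', rfl⟩ := lift y hy
      rw [← Set.image_pair, ← MonoidHom.map_closure]
      exact Core.IsPSolvable.map (hc x y hx' hy') _


/-- Let G be a finite group whose Sylow p-subgroups are cyclic. Then G is p-solvable if and only if every two elements of order p of G generate a p-solvable subgroup. -/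
theorem result {G : Type*} [Group G] [Finite G] {p : ℕ} [Fact p.Prime] (P : Sylow p G) (hP : IsCyclic ↥(P : Subgroup G)) :
    Cfsg.IsPSolvable p G ↔ ∀ x y : G, orderOf x = p → orderOf y = p → Cfsg.IsPSolvable p ↥(Subgroup.closure ({x, y} : Set G)) := by
  exact ⟨fun h x y _ _ => Core.IsPSolvable.subgroup h _, aux _ P rfl hP⟩

end Cfsg.Agent.S1950
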