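import Mathlib
import Cfsg.Statements.S1951
import Cfsg.Agent.Gp.PS1
-- import your own Cfsg.Agent.* helpers here

set_option autoImplicit false
open Cfsg

namespace Cfsg.Agent.S1951

open Subgroup Cfsg.Agent.Char Cfsg.Agent.Block Cfsg.Agent.Gp
open scoped ComplexConjugate

theorem arith {ι : Type*} [DecidableEq ι] (s : Finset ι) (o : ι) (ho : o ∈ s) (d : ι → ℤ)
    (D m : ι → ℕ) (q : ℕ) (hq : 3 ≤ q) (hD : ∀ i ∈ s, 0 < D i)
    (hd : ∀ i ∈ s, (D i : ℤ) = d i + q * m i) (ho1 : d o = 1) (ho2 : D o = 1)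
    (hm : ∀ i ∈ s, i ≠ o → 1 ≤ m i) (h1 : ∑ i ∈ s, d i ^ 2 = q)
    (h2 : ∑ i ∈ s, (D i : ℤ) * d i = 0) : ∑ i ∈ s, (d i : ℝ) ^ 3 / D i < q / 2 := by
  obtain ⟨j, hj, hj0⟩ : ∃ j ∈ s, d j < 0 := by
    by_contra hn
    push Not at hn
    have := Finset.single_le_sum (f := fun i => (D i : ℤ) * d i)
      (fun i hi => mul_nonneg (by positivity) (hn i hi)) ho
    simp only [ho1, ho2] at this
    omega
  have hjo : j ≠ o := by rintro rfl; omega
  have hj' : j ∈ s.erase o := Finset.mem_erase.2 ⟨hjo, hj⟩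
  rw [← Finset.add_sum_erase _ _ ho, ← Finset.add_sum_erase _ _ hj'] at h1 ⊢
  have hj2 : 1 ≤ d j ^ 2 := by nlinarith
  have hb : ∀ i ∈ (s.erase o).erase j, (d i : ℝ) ^ 3 / D i ≤ (d i : ℝ) ^ 2 / 4 := by
    intro i hi
    have hi1 := Finset.mem_erase.1 (Finset.mem_of_mem_erase hi)
    have hDi : (0 : ℝ) < D i := by exact_mod_cast hD i hi1.2
    have hsq : d i ^ 2 ≤ ∑ i ∈ (s.erase o).erase j, d i ^ 2 :=
      Finset.single_le_sum (f := fun i => d i ^ 2) (fun i _ => sq_nonneg _) hi
    have h4 : 4 * d i ≤ D i := by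
      have h5 := hd i hi1.2
      have h6 : (1 : ℤ) ≤ m i := by exact_mod_cast hm i hi1.2 hi1.1
      have h7 : (q : ℤ) ≤ q * m i := by nlinarith
      have h8 : 3 * d i ≤ q := by
        rw [ho1] at h1
        by_contra h9
        have : (3 : ℤ) ≤ q := by exact_mod_cast hq
        have h10 : 2 ≤ d i := by omega
        have h11 : d i ^ 2 + 2 ≤ q := by omega
        nlinarith
      omega
    have h4' : 4 * (d i : ℝ) ≤ D i := by exact_mod_cast h4
    rw [div_le_div_iff₀ hDi (by norm_num)]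
    nlinarith [sq_nonneg (d i : ℝ)]
  have hs := Finset.sum_le_sum hb
  rw [← Finset.sum_div] at hs
  have h3 : (d j : ℝ) ^ 3 / D j ≤ 0 := by
    have : (d j : ℝ) < 0 := by exact_mod_cast hj0
    exact div_nonpos_of_nonpos_of_nonneg (Odd.pow_nonpos (by decide) this.le) (by positivity)
  have h4 : ∑ i ∈ (s.erase o).erase j, (d i : ℝ) ^ 2 ≤ q - 2 := by
    have : ∑ i ∈ (s.erase o).erase j, d i ^ 2 ≤ q - 2 := by rw [ho1] at h1; omega
    exact_mod_cast this
  have : (3 : ℝ) ≤ q := by exact_mod_cast hq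
  rw [ho1, ho2]
  push_cast
  linarith


/-- Let p be a prime and P a nontrivial elementary abelian Sylow p-subgroup of a finite nonabelian simple group G whose nonidentity elements are all conjugate in G. Suppose that two elements of P are conjugate in G only if they are conjugate in N_G(P), that the centralizer of every element of order p of P has a normal p-complement, and that every two elements of order p of G generate a p-solvable subgroup. Then p = 2. -/
theorem result {G : Type*} [Group G] [Finite G] [IsSimpleGroup G] (hG : ¬ IsMulCommutative G) {p : ℕ} [Fact p.Prime] (P : Sylow p G)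
    (hP1 : (P : Subgroup G) ≠ ⊥) (hPe : Cfsg.IsElementaryAbelian p (P : Subgroup G))
    (hconj : ∀ x ∈ (P : Subgroup G), ∀ y ∈ (P : Subgroup G), x ≠ 1 → y ≠ 1 → ∃ g : G, g * x * g⁻¹ = y)
    (ha : ∀ x ∈ (P : Subgroup G), ∀ y ∈ (P : Subgroup G), (∃ g : G, g * x * g⁻¹ = y) →
      ∃ n ∈ Subgroup.normalizer ((P : Subgroup G) : Set G), n * x * n⁻¹ = y)
    (hb : ∀ x ∈ (P : Subgroup G), orderOf x = p → Cfsg.HasNormalPComplement p ↥(Subgroup.centralizer ({x} : Set G)))
    (hc : ∀ x y : G, orderOf x = p → orderOf y = p → Cfsg.IsPSolvable p ↥(Subgroup.closure ({x, y} : Set G))) :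
    p = 2 := by
  classical
  by_contra hp2
  have hp : p.Prime := Fact.out
  have := Fintype.ofFinite G
  obtain ⟨M, hM⟩ := exists_isPModular hp
  have hcomm : ∀ a ∈ (P : Subgroup G), ∀ b ∈ (P : Subgroup G), a * b = b * a := fun a ha b hb =>
    congrArg Subtype.val (hPe.1.is_comm.comm (⟨a, ha⟩ : (P : Subgroup G)) ⟨b, hb⟩)
  have hab := abP_of_sylow P hcomm
  obtain ⟨⟨x, hx⟩, hx1⟩ := (Subgroup.ne_bot_iff_exists_ne_one).1 hP1
  have hx1 : x ≠ 1 := fun h => hx1 (Subtype.ext h)
  have hxp : x ^ p = 1 := hPe.2 x hx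
  have hxo : orderOf x = p := orderOf_eq_prime hxp hx1
  have hPC : (P : Subgroup G) ≤ centralizer ({x} : Set G) := fun a ha =>
    mem_centralizer_singleton_iff.2 (hcomm a ha x hx)
  have hC := hb x hx hxo
  set q := Nat.card (P : Subgroup G) with hq
  have hq3 : 3 ≤ q := by
    have h1 : p ∣ q := hxo ▸ Subgroup.orderOf_dvd_natCard _ hx
    have h2 := Nat.le_of_dvd Nat.card_pos h1
    have := hp.two_le
    omega
  have hcj : ∀ u ∈ (P : Subgroup G), u ≠ 1 → IsConj x u := fun u hu hu1 =>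
    isConj_iff.2 (hconj x hx u hu hx1 hu1)
  have hval : ∀ χ : IrrCharacter G, ∀ u ∈ (P : Subgroup G), u ≠ 1 →
      (χ : G → ℂ) u = (χ : G → ℂ) x := fun χ u hu hu1 =>
    (classFun_isConj (irr_classFun χ) (hcj u hu hu1)).symm
  -- a nonprincipal character of `P`
  obtain ⟨ψ, hψ, hψx⟩ : ∃ ψ, IsIrrCharacter (P : Subgroup G) ψ ∧ ψ ⟨x, hx⟩ ≠ ψ 1 := by
    by_contra hn
    push Not at hn
    exact hx1 (congrArg Subtype.val (eq_one_of_forall_irr hn))
  have := hPe.1
  have hψ1 := isIrr_degree_one_of_comm hψ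
  have hψs : ∑ g, ψ g = 0 := isIrr_sum_eq_zero hψ (by rintro rfl; exact hψx rfl)
  have hmult : ∀ χ : IrrCharacter G, ∃ m : ℕ, (χ : G → ℂ) x = (χ : G → ℂ) 1 - q * m := by
    intro χ
    obtain ⟨m, hm⟩ := classInner_isChar_nat (isChar_res (P : Subgroup G) (irr_isChar χ))
      (isIrr_isChar hψ)
    refine ⟨m, ?_⟩
    have h1 := card_mul_classInner (fun g : (P : Subgroup G) => (χ : G → ℂ) g) ψ
    rw [hm, ← Finset.add_sum_erase _ _ (Finset.mem_univ 1), Finset.sum_congr rfl
      (g := fun g => (χ : G → ℂ) x * conj (ψ g)) fun g hg => by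
        rw [hval χ g g.2 fun h => (Finset.mem_erase.1 hg).1 (Subtype.ext h)],
      ← Finset.mul_sum, ← map_sum] at h1
    rw [← Finset.add_sum_erase _ _ (Finset.mem_univ 1), hψ1] at hψs
    rw [eq_neg_of_add_eq_zero_right hψs, hψ1] at h1
    simp only [map_one, map_neg, OneMemClass.coe_one] at h1
    linear_combination h1
  choose m hm using hmult
  let D : IrrCharacter G → ℕ := fun χ => charDegree (χ : G → ℂ)
  have hD : ∀ χ : IrrCharacter G, (χ : G → ℂ) 1 = D χ := fun χ => (irr_degree_cast χ).symm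
  let d : IrrCharacter G → ℤ := fun χ => D χ - q * m χ
  have hd : ∀ χ : IrrCharacter G, (χ : G → ℂ) x = d χ := fun χ => by
    rw [hm, hD]; simp [d]
  set s := Finset.univ.filter (· ∈ principalBlock M G) with hs
  have hphi : ∀ g : G, ∑ χ ∈ s, (χ : G → ℂ) g * conj ((χ : G → ℂ) x) =
      ((if p ∣ orderOf g then (q : ℝ) else 0 : ℝ) : ℂ) := by
    intro g
    obtain ⟨w, hw⟩ := exists_isPPart hp g
    have := phi_eq hM P hx hPC hC hw
    rw [hs]
    convert this using 1
    by_cases hg : p ∣ orderOf g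
    · have hw1 : w ≠ 1 := fun h => (pPart_eq_one_iff hp hw).1 h hg
      obtain ⟨T, hT⟩ := (pPart_isPGroup hw).exists_le_sylow
      obtain ⟨a, rfl⟩ := MulAction.exists_smul_eq G P T
      have h1 := hT (mem_zpowers w)
      rw [Sylow.coe_subgroup_smul, mem_pointwise_smul_iff_inv_smul_mem] at h1
      have h2 : IsConj x w := by
        refine (hcj _ h1 ?_).trans ?_
        · intro h; apply hw1
          simpa [mul_assoc] using congrArg (fun z => MulAut.conj a • z) h
        · exact isConj_iff.2 ⟨a, by simp [mul_assoc]⟩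
      rw [if_pos hg, if_pos h2]; simp [hq]
    · have hw1 : w = 1 := (pPart_eq_one_iff hp hw).2 hg
      rw [if_neg hg, if_neg (by rw [hw1, isConj_one_left]; exact hx1)]; simp
  have ho : oneIrr G ∈ s := Finset.mem_filter.2 ⟨Finset.mem_univ _, oneIrr_mem_principalBlock hM⟩
  have ho2 : D (oneIrr G) = 1 := by
    have : (1 : ℂ) = _ := hD (oneIrr G)
    exact_mod_cast this.symm
  have ho1 : d (oneIrr G) = 1 := by
    have : (1 : ℂ) = _ := hd (oneIrr G)
    exact_mod_cast this.symm
  have h1 : ∑ χ ∈ s, d χ ^ 2 = q := by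
    have := hphi x
    rw [if_pos (by rw [hxo])] at this
    simp only [hd, map_intCast, Complex.ofReal_natCast, ← sq] at this
    exact_mod_cast this
  have h2 : ∑ χ ∈ s, (D χ : ℤ) * d χ = 0 := by
    have := hphi 1
    rw [if_neg (by simp [hp.ne_one])] at this
    simp only [hd, hD, map_intCast, Complex.ofReal_zero] at this
    exact_mod_cast this
  have hlt := arith s (oneIrr G) ho d D m q hq3
    (fun χ _ => Nat.pos_of_ne_zero (irr_degree_ne_zero χ)) (fun χ _ => by simp [d]) ho1 ho2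
    (fun χ _ hχ => by
      by_contra h0
      have h3 : m χ = 0 := by omega
      exact ne_deg_of_simple hχ hx1 (by rw [hm, h3]; simp)) h1 h2
  have hcount : ∀ b ∈ (P : Subgroup G), b ≠ 1 →
      ∑ g : G, (if p ∣ orderOf (g * x * g⁻¹ * b) then (q : ℝ) else 0 : ℝ) =
        Nat.card G * ∑ χ ∈ s, (d χ : ℝ) ^ 3 / D χ := by
    intro b hb hb1
    have := sum_phi_conj (principalBlock M G) x b x
    rw [← hs] at this
    simp only [hphi] at this
    simp only [hval _ b hb hb1, hd, hD, map_intCast] at this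
    have h3 : ∀ z : ℂ, z * z * z = z ^ 3 := fun z => by ring
    simp only [h3] at this
    apply Complex.ofReal_injective
    push_cast at this ⊢
    exact this
  have h4 := hcount x hx hx1
  have h5 := hcount x⁻¹ (inv_mem hx) (inv_ne_one.2 hx1)
  have h6 : ∑ g : G, (q : ℝ) ≤ ∑ g : G, ((if p ∣ orderOf (g * x * g⁻¹ * x) then (q : ℝ) else 0) +
      (if p ∣ orderOf (g * x * g⁻¹ * x⁻¹) then (q : ℝ) else 0)) := by
    refine Finset.sum_le_sum fun g _ => ?_
    have hq0 : (0 : ℝ) ≤ q := by positivity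
    split_ifs with h7 h8 h8
    · linarith
    · linarith
    · linarith
    · exfalso
      have hxo' : orderOf (g * x * g⁻¹) = p := by
        rw [← hxo]; exact (MulAut.conj g).orderOf_eq x
      have := (pair_mod hab (by rw [← hxo']; exact pow_orderOf_eq_one _) hxp
        (hc _ _ hxo' hxo)).2 1 (-1) (by simpa using h7) (by simpa using h8)
      have h9 : x ^ 2 = 1 := by
        rw [zpow_one, zpow_neg_one] at this
        rw [sq]; nth_rewrite 2 [this]; simp
      have h10 := orderOf_dvd_of_pow_eq_one h9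
      rw [hxo] at h10
      exact hp2 ((Nat.prime_dvd_prime_iff_eq hp Nat.prime_two).1 h10)
  rw [Finset.sum_add_distrib, h4, h5, Finset.sum_const, Finset.card_univ,
    ← Nat.card_eq_fintype_card, nsmul_eq_mul] at h6
  have h7 : (0 : ℝ) < Nat.card G := by exact_mod_cast Nat.card_pos
  nlinarith

end Cfsg.Agent.S1951
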