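import Mathlib
import Cfsg.Statements.S1952
import Cfsg.Agent.Transfer.Wreath
-- import your own Cfsg.Agent.* helpers here

set_option autoImplicit false
open Cfsg

namespace Cfsg.Agent.S1952

open Cfsg.Agent.Transfer

open scoped IsMulCommutative

/-- Let P be a finite p-group with a normal elementary abelian subgroup A of index p, and let x ∈ A and y ∈ P with y outside A. If the product of the p conjugates y^(-i) x y^i (i = 0, …, p−1) is not the identity, then the wreath product Z_p ≀ Z_p, realised as a Sylow p-subgroup of the symmetric group of degree p², is a homomorphic image of P. -/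
theorem result {P : Type*} [Group P] [Finite P] {p : ℕ} [Fact p.Prime] (hP : IsPGroup p P) (A : Subgroup P) [A.Normal]
    (hA : Cfsg.IsElementaryAbelian p A) (hidx : A.index = p) (x y : P) (hx : x ∈ A) (hy : y ∉ A)
    (hprod : ((List.range p).map (fun i => (y ^ i)⁻¹ * x * y ^ i)).prod ≠ 1) :
    ∃ (Q : Sylow p (Equiv.Perm (Fin (p ^ 2)))) (f : P →* ↥(Q : Subgroup (Equiv.Perm (Fin (p ^ 2))))), Function.Surjective f := by
  classical
  have := hA.1
  refine exists_surjective_wreath hP A hidx (y := y) hx fun h => hprod ?_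
  rw [(PGrp.frattini_eq_bot_iff (hP.to_subgroup A)).2 ⟨hA.1, fun a => Subtype.ext (hA.2 a a.2)⟩,
    Subgroup.map_bot, Subgroup.mem_bot] at h
  let ψ : P → A := fun g => if hg : g ∈ A then ⟨g, hg⟩ else 1
  have hψ : Glaub.MulOn ψ A := fun a ha b hb => by simp [ψ, ha, hb, mul_mem ha hb]
  have h1 := prod_conj_eq_iterate hψ (fun a => Subtype.ext (hA.2 a a.2))
    (Subgroup.le_normalizer_of_normal (Subgroup.mem_top y)) hx
  rw [h, hψ.one] at h1
  have h2 : ∀ n, ((List.range n).map (fun i => (y ^ i)⁻¹ * x * y ^ i)).prod =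
      ((∏ i ∈ Finset.range n, ψ ((y ^ i)⁻¹ * x * y ^ i) : A) : P) := fun n => by
    induction n with
    | zero => simp
    | succ n ih =>
      rw [List.range_succ, List.map_append, List.prod_append, ih, Finset.prod_range_succ]
      simp [ψ, (inferInstance : A.Normal).conj_mem' x hx (y ^ n)]
  rw [h2, h1]; rfl

end Cfsg.Agent.S1952
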