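import Cfsg.Statements.S1953
import Cfsg.Agent.Fusion.QdF
import Cfsg.Agent.Fusion.Solv
import Cfsg.Agent.Fusion.Norm1
import Cfsg.Agent.Push.S4

set_option autoImplicit false
open Cfsg

namespace Cfsg.Agent.S1953

open Cfsg.Agent.LocalEven Cfsg.Agent.Glaub

open Cfsg.Agent.Push Subgroup Matrix Multiplicative
open scoped MatrixGroups

theorem exists_sec {G : Type*} [Group G] [Finite G] {p : ℕ} [Fact p.Prime] (P : Sylow p G)
    (h : Transfer.IsSectionOf G (qdC (ZMod p))) : ∃ Q : Subgroup G, IsPGroup p Q ∧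
      ∃ (H K : Subgroup G) (_ : (K.subgroupOf H).Normal), 𝐂⟮Q⟯ ≤ K ∧ K ≤ H ∧ H ≤ 𝐍⟮Q⟯ ∧
      Nonempty ((H ⧸ K.subgroupOf H) ≃* SL(2, ZMod p)) := by
  obtain ⟨V, hV, π, h1, h2⟩ := Fusion.exists_qdAct P h
  let Γ : Subgroup (𝐍⟮V⟯ × SL(2, ZMod p)) :=
    { carrier := {x | ∀ v, π (V.normalizerMonoidHom x.1 v) = ofAdd (x.2.1 *ᵥ toAdd (π v))}
      one_mem' := fun v => by simp
      mul_mem' := fun {a b} ha hb v => by
        rw [Prod.fst_mul, map_mul, MulAut.mul_apply, ha, hb, toAdd_ofAdd, mulVec_mulVec]; rfl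
      inv_mem' := fun {a} ha v => by
        have := ha ((V.normalizerMonoidHom a.1)⁻¹ v)
        rw [MulAut.apply_inv_self] at this
        rw [Prod.fst_inv, map_inv, this, toAdd_ofAdd, mulVec_mulVec, Prod.snd_inv,
          show a.2⁻¹.1 * a.2.1 = 1 from congrArg Subtype.val (inv_mul_cancel a.2), one_mulVec]; rfl }
  let a : Γ →* G := (𝐍⟮V⟯.subtype.comp (MonoidHom.fst _ _)).comp Γ.subtype
  have ha : Function.Injective a := (injective_iff_map_eq_one a).2 fun x hx => by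
    have e : x.1.1 = 1 := Subtype.ext hx
    refine Subtype.ext (Prod.ext e (eq_one_of_mulVec fun y => ?_))
    obtain ⟨v, hv⟩ := h1 (ofAdd y)
    have := x.2 v
    rw [e, map_one, MulAut.one_apply, hv] at this
    exact (congrArg toAdd this).symm
  let φ : a.range →* SL(2, ZMod p) := ((MonoidHom.snd _ _).comp Γ.subtype).comp
    (MonoidHom.ofInjective ha).symm.toMonoidHom
  have hφ : ∀ x : Γ, φ ⟨a x, x, rfl⟩ = x.1.2 := fun x =>
    congrArg (fun y : Γ => y.1.2) ((MonoidHom.ofInjective ha).symm_apply_apply x)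
  haveI : ((φ.ker.map a.range.subtype).subgroupOf a.range).Normal := by
    rw [map_subtype_subgroupOf]; infer_instance
  refine ⟨V, P.2.to_le hV, a.range, φ.ker.map a.range.subtype, this, fun c hc => ?_, map_subtype_le _, ?_,
    ⟨(QuotientGroup.quotientMulEquivOfEq (map_subtype_subgroupOf _)).trans
      (QuotientGroup.quotientKerEquivOfSurjective φ fun s => ?_)⟩⟩
  · exact ⟨_, hφ ⟨(⟨c, centralizer_le_normalizer' _ hc⟩, 1), fun v => by
      rw [nmh_eq_one.2 hc]; simp⟩, rfl⟩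
  · rintro _ ⟨x, rfl⟩; exact x.1.1.2
  · obtain ⟨β, h3, h4⟩ := h2 s
    obtain ⟨k, -, hk⟩ := Fusion.mem_autInducedBy.1 h3
    have n : k ∈ 𝐍⟮V⟯ := mem_normalizer_of_cj_le (cj_le_iff'.2 fun x hx => hk ⟨x, hx⟩ ▸ (β _).2)
    exact ⟨_, hφ ⟨(⟨k, n⟩, s), fun v => by
      rw [← h4]; exact congrArg π (Subtype.ext (hk v).symm)⟩⟩

open Fusion FS in
theorem con {G : Type*} [Group G] [Finite G] {p : ℕ} [Fact p.Prime] (hp : p ≠ 2) (P : Sylow p G)
    (h : ¬ Transfer.IsSectionOf G (qdC (ZMod p))) : (ofGroup (P : Subgroup G) ⊤).Con p := by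
  set F := ofGroup (P : Subgroup G) ⊤
  have hF : F.Sat p := ofGroup_sat (syl_top P)
  refine con_iff.2 ⟨hF, by_contra fun hne => ?_⟩
  set R := F.core
  have hR := F.nor_core
  have hZ := hR.center
  have hPH : (P : Subgroup G) ≤ nz R := hR.sc.S_le_nz
  set H := nz R
  have hZH : R ⊓ cz R ≤ H := (inf_le_left.trans F.core_le).trans hPH
  haveI : ((R ⊓ cz R).subgroupOf H).Normal := normal_subgroupOf_of_le_normalizer
    (le_normalizer_inf le_rfl (normalizer_le_normalizer_centralizer R))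
  haveI : ((cz R).subgroupOf H).Normal := normal_subgroupOf_of_le_normalizer
    (normalizer_le_normalizer_centralizer R)
  set π := QuotientGroup.mk' ((R ⊓ cz R).subgroupOf H)
  have hs : Function.Surjective π := QuotientGroup.mk'_surjective _
  have hS := isSylowIn_subgroupOf_top (isSylowIn_of_sylow_le P hPH)
  set S := (P : Subgroup G).subgroupOf H
  have hE : IsStronglyClosed (S ⊓ (cz R).subgroupOf H) S :=
    ⟨inf_le_left, fun x hx g hg => ⟨hg, Normal.conj_mem inferInstance _ hx.2 g⟩⟩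
  set E := (S ⊓ (cz R).subgroupOf H).map π
  have ctl := ctl_zj_of_not_qd hp (Or.inl rfl) _ (fun e => h ((isSectionOf_quot H _).trans e))
    _ _ (isSylowIn_map_surj hs hS) (sc_map hE hS hs)
  have pE : IsPGroup p E := (hS.pgrp.to_le inf_le_left).map _
  have hE0 : E ≠ ⊥ := fun e => hne fun x hx => by
    rw [Subgroup.map_eq_bot_iff, QuotientGroup.ker_mk'] at e
    exact (e (x := ⟨x, hPH hx.1⟩) hx).1
  set Y := PLocal.zOf (PLocal.jn 0 E)
  have hY : Y ≤ E := inf_le_left.trans (PLocal.jn_le _)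
  have hk : π.ker ≤ S ⊓ (cz R).subgroupOf H := fun x hx => by
    rw [QuotientGroup.ker_mk'] at hx; exact ⟨F.core_le hx.1, hx.2⟩
  have hX : (Y.comap π).map H.subtype ≤ (P : Subgroup G) ⊓ cz R := by
    rintro _ ⟨x, hx, rfl⟩
    exact ((comap_mono hY).trans (comap_map_eq_self hk).le) hx
  have := (hF.nor_of_class_two (Q := (Y.comap π).map H.subtype) (sc_of_forall
    (hX.trans inf_le_left) fun B g hg x hx hx' => ?_) hZ.sc.wc (fun x hx => ⟨⟨x, hZH hx⟩, by
      show π _ ∈ Y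
      rw [show π ⟨x, hZH hx⟩ = 1 from (QuotientGroup.eq_one_iff _).2 hx]; exact one_mem _, rfl⟩)
    (inf_le_left.trans (le_cz_comm.1 (hX.trans inf_le_right))) ?_).le_core
  · refine center_ne_bot (pE.to_le (PLocal.jn_le _)) (PLocal.jn_ne_bot (Or.inl rfl) pE hE0)
      (eq_bot_iff.2 fun y hy => ?_)
    obtain ⟨x, rfl⟩ := hs y
    exact (QuotientGroup.eq_one_iff x).2 ⟨this ⟨x, hy, rfl⟩, (hX ⟨x, hy, rfl⟩).2⟩
  · obtain ⟨c, hc, h1, h2⟩ := hR.2 B g hg
    obtain ⟨x, hx', rfl⟩ := hx'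
    obtain ⟨n, hn, d, hd, e⟩ := ctl (zpowers (π x)) (zpowers_le.2 (map_mono inf_le_left (hY hx')))
      (π ⟨g * c, h2⟩) (by
        rw [LocalEven.cj_zpowers, ← map_inv, ← map_mul, ← map_mul]
        exact zpowers_le.2 (mem_map_of_mem _ (conj_mem h1 (mem_sup_left hx))))
    rw [← conj_mul_cz hc hx]
    refine ⟨⟨g * c, h2⟩ * x * ⟨g * c, h2⟩⁻¹, ?_, rfl⟩
    show π _ ∈ Y
    rw [map_mul, map_mul, map_inv, e, conj_mul_cz hd (mem_zpowers _)]
    exact conj_mem_of_nz hn hx'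
  · rw [← map_commutator, map_le_iff_le_comap]
    refine le_trans (b := π.ker) ?_ (QuotientGroup.ker_mk' ((R ⊓ cz R).subgroupOf H)).le
    rw [← Subgroup.map_eq_bot_iff, map_commutator, map_comap_eq_self_of_surjective hs]
    exact comm_eq_bot_iff.2 (inf_le_right.trans (cz_anti inf_le_left))


/-- Let p be an odd prime and P a Sylow p-subgroup of the finite group G, and suppose that for no p-subgroup Q of G does N_G(Q)/C_G(Q) have a section isomorphic to SL₂(p). Call a subgroup Q of P centric-radical when Z(Q) is a Sylow p-subgroup of C_G(Q) and the only normal subgroup X of N_G(Q) containing Q·C_G(Q) such that the index of Q·C_G(Q) in X is a power of p is Q·C_G(Q) itself (that is, N_G(Q)/Q·C_G(Q) has no nontrivial normal p-subgroup). Then there is a centric-radical subgroup Q of P contained in every centric-radical subgroup of P; it is normal in P, and N_G(Q) controls strong fusion in P: whenever a subgroup A of P has g A g⁻¹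 ≤ P, the element g is a product h c with h in N_G(Q) and c centralizing A. -/
theorem result {G : Type*} [Group G] [Finite G] {p : ℕ} [Fact p.Prime] (hp : p ≠ 2) (P : Sylow p G)
    (hfree : ∀ Q : Subgroup G, IsPGroup p ↥Q → ¬ ∃ (H K : Subgroup G) (_ : (K.subgroupOf H).Normal),
      Subgroup.centralizer (Q : Set G) ≤ K ∧ K ≤ H ∧ H ≤ Subgroup.normalizer (Q : Set G) ∧
      Nonempty ((↥H ⧸ K.subgroupOf H) ≃* Matrix.SpecialLinearGroup (Fin 2) (ZMod p)))
    (cr : Subgroup G → Prop)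
    (hcr : ∀ Q : Subgroup G, cr Q ↔ (Q ≤ (P : Subgroup G) ∧
      (∃ R : Sylow p ↥(Subgroup.centralizer (Q : Set G)),
        (R : Subgroup ↥(Subgroup.centralizer (Q : Set G))).map (Subgroup.centralizer (Q : Set G)).subtype = Q ⊓ Subgroup.centralizer (Q : Set G)) ∧
      ∀ X : Subgroup G, X ≤ Subgroup.normalizer (Q : Set G) →
        (∀ n ∈ Subgroup.normalizer (Q : Set G), X.map (MulAut.conj n).toMonoidHom = X) →
        Q ⊔ Subgroup.centralizer (Q : Set G) ≤ X → (∃ k : ℕ, (Q ⊔ Subgroup.centralizer (Q : Set G)).relIndex X = p ^ k) →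
        X = Q ⊔ Subgroup.centralizer (Q : Set G))) :
    ∃ Q : Subgroup G, cr Q ∧ (∀ R : Subgroup G, cr R → Q ≤ R) ∧ (∀ x ∈ (P : Subgroup G), Q.map (MulAut.conj x).toMonoidHom = Q) ∧
      ∀ A : Subgroup G, A ≤ (P : Subgroup G) → ∀ g : G, A.map (MulAut.conj g).toMonoidHom ≤ (P : Subgroup G) →
        ∃ h ∈ Subgroup.normalizer (Q : Set G), ∃ c ∈ Subgroup.centralizer (A : Set G), g = h * c := by
  have hc := con hp P fun h => by
    obtain ⟨Q, h1, h2⟩ := exists_sec P h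
    exact hfree Q h1 h2
  set F := Fusion.FS.ofGroup (P : Subgroup G) ⊤
  have hA : ∀ Q ≤ (P : Subgroup G), F.aut Q = 𝐍⟮Q⟯ := fun Q hQ => by
    rw [Fusion.FS.ofGroup_aut le_top hQ, Fusion.ai_eq, top_inf_eq, sup_eq_left.2 (Fusion.cz_le_nz Q)]
  have hN : ∀ Q : Subgroup G, 𝐍⟮Q⟯ ≤ 𝐍⟮Q ⊔ 𝐂⟮Q⟯⟯ := fun Q =>
    le_normalizer_sup le_rfl (normalizer_le_normalizer_centralizer Q)
  have h1 := F.core_le
  refine ⟨F.core, (hcr _).2 ⟨h1, isSylowIn_iff.1 ?_, fun X x1 x2 x3 ⟨k, x4⟩ => le_antisymm ?_ x3⟩,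
    fun R hR => ?_, fun x hx => cj_eq_of_mem_normalizer (F.nor_core.sc.S_le_nz hx),
    fun A hA g hg => ?_⟩
  · have := (Fusion.FS.ofGroup_FC_iff (Fusion.syl_top P) h1).1 hc.cent_core.fc
    rw [top_inf_eq] at this
    refine isSylowIn_of_not_dvd inf_le_right (P.2.to_le (inf_le_left.trans h1)) ?_
    rw [le_antisymm (inf_le_inf_right _ h1) (le_inf hc.cent_core.cz_le inf_le_right)]
    exact this.nd
  · rw [← Fusion.ai_self, ← hc.rad_core.2, hA _ h1]
    refine Fusion.le_opm x1 (fun n hn => cj_eq_self_iff.1 (x2 n hn)) (Fusion.PMod.trans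
      (fun x hx => ⟨k, ?_⟩) (Fusion.pmod_ai' (K := F.core) (P.2.to_le h1)))
    haveI := normal_subgroupOf_of_le_normalizer (x1.trans (hN _))
    rw [Fusion.ai_self, ← x4]
    exact pow_index_mem (H := (F.core ⊔ 𝐂⟮F.core⟯).subgroupOf X) ⟨x, hx⟩
  · obtain ⟨r1, r2, r3⟩ := (hcr R).1 hR
    have r4 := isSylowIn_iff.2 r2
    refine F.nor_core.le_of_rad P.2 ⟨r1, fun g _ => ?_⟩ ⟨r1, ?_⟩
    · have := r4.cj g
      rw [cj_inf, cj_centralizer] at this
      exact (this.le_of_le_normalizer' inf_le_right (P.2.to_le inf_le_left) (inf_le_right.trans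
        ((Push.cent_anti inf_le_left).trans (centralizer_le_normalizer' _)))).trans inf_le_left
    · have l := Fusion.FS.ai_le_opm (F := F) r1 (P.2.to_le r1)
      rw [hA _ r1, Fusion.ai_self] at l ⊢
      exact r3 _ (Fusion.opm_le _ _) (fun n hn => cj_eq_of_mem_normalizer
        (Fusion.le_nz_opm (Fusion.nz_le_nz_cz R) hn)) l (((Fusion.opm_pmod
          (Fusion.nz_le_nz_cz R)).mono le_rfl le_sup_right).relIndex
          ((Fusion.opm_le _ _).trans (hN R)))
  · obtain ⟨c, c1, -, c2⟩ := F.nor_core.2 A g (Fusion.FS.ofGroup_top_M.2 ⟨hA, hg⟩)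
    exact ⟨g * c, c2, c⁻¹, inv_mem c1, by group⟩

end Cfsg.Agent.S1953
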