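import Cfsg.Statements.S1954
import Cfsg.Agent.Fusion.Norm1
import Cfsg.Agent.Push.S4

set_option autoImplicit false
open Cfsg

namespace Cfsg.Agent.S1954

open Cfsg.Agent.LocalEven Cfsg.Agent.Glaub

open Cfsg.Agent.Push Subgroup

/-- Let N be a normal subgroup of the finite group G, P a Sylow p-subgroup of G, and V a subgroup of P ∩ N normal in P ∩ N such that N_N(V) controls strong fusion in P ∩ N with respect to N (whenever a subgroup A of P ∩ N has n A n⁻¹ ≤ P ∩ N for some n in N, then n = h c with h in N_N(V) and c in C_N(A)). Let W be the subgroup generated by the conjugates of V under N_G(P ∩ N). Then N_G(W) controls strong fusion in P with respect to G. -/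
theorem result {G : Type*} [Group G] [Finite G] {p : ℕ} [Fact p.Prime] (N : Subgroup G) [N.Normal] (P : Sylow p G) (V : Subgroup G)
    (hV : V ≤ (P : Subgroup G) ⊓ N) (hVn : ∀ x ∈ (P : Subgroup G) ⊓ N, V.map (MulAut.conj x).toMonoidHom = V)
    (hctrl : ∀ A : Subgroup G, A ≤ (P : Subgroup G) ⊓ N → ∀ n ∈ N, A.map (MulAut.conj n).toMonoidHom ≤ (P : Subgroup G) ⊓ N →
      ∃ h ∈ N ⊓ Subgroup.normalizer (V : Set G), ∃ c ∈ N ⊓ Subgroup.centralizer (A : Set G), n = h * c)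
    (W : Subgroup G) (hW : W = Subgroup.closure (⋃ x ∈ Subgroup.normalizer (((P : Subgroup G) ⊓ N : Subgroup G) : Set G),
      ((V.map (MulAut.conj x).toMonoidHom : Subgroup G) : Set G))) :
    ∀ A : Subgroup G, A ≤ (P : Subgroup G) → ∀ g : G, A.map (MulAut.conj g).toMonoidHom ≤ (P : Subgroup G) →
        ∃ h ∈ Subgroup.normalizer (W : Set G), ∃ c ∈ Subgroup.centralizer (A : Set G), g = h * c := by
  set T := (P : Subgroup G) ⊓ N
  set F := Fusion.FS.ofGroup (P : Subgroup G) ⊤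
  have hT := sylow_inf_normal P N
  have c1 : ∀ x ∈ 𝐍⟮T⟯, ∀ A ≤ T, ∀ n ∈ N, cj n A ≤ T →
      ∃ h ∈ N ⊓ 𝐍⟮cj x V⟯, ∃ c ∈ 𝐂⟮A⟯, n = h * c := fun x hx A hA n hn h => by
    obtain ⟨k, k1, c, c1, e⟩ := hctrl (cj x⁻¹ A) (cj_le_of_mem_normalizer (inv_mem hx) hA)
      (x⁻¹ * n * x) (Normal.conj_mem' inferInstance _ hn x) (by
        show cj _ (cj _ _) ≤ _
        rw [cj_cj, mul_inv_cancel_right, cj_mul]
        exact cj_le_of_mem_normalizer (inv_mem hx) h)
    refine ⟨x * k * x⁻¹, ⟨Normal.conj_mem inferInstance _ k1.1 x, conj_mem_norm k1.2⟩, x * c * x⁻¹,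
      by simpa [cj_cj_inv] using conj_mem_cent (g := x) c1.2, ?_⟩
    rw [show n = x * (x⁻¹ * n * x) * x⁻¹ by group, e]; group
  have c2 : ∀ x ∈ 𝐍⟮T⟯, cj x V ≤ F.core ⊓ N := fun x hx => by
    have l := cj_le_of_mem_normalizer hx hV
    refine le_inf (le_trans (Fusion.FS.Nor.le_core ⟨l, fun A g hg => ?_⟩)
      (Fusion.FS.norIn_ofGroup (N := N) (Fusion.syl_top P) le_top
        le_normalizer_of_normal).subN.core_le) (l.trans inf_le_right)
    obtain ⟨a1, a2, c, a3, a4⟩ := (Fusion.FS.ofGroup_M inf_le_right).1 hg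
    have a5 : cj (g * c) A ≤ T := (cj_mul_cent a3).le.trans a2
    obtain ⟨h, h1, d, h2, e⟩ := c1 x hx A a1 _ a4 a5
    have e' : g * (c * d⁻¹) = h := by rw [← mul_assoc, e]; group
    refine ⟨c * d⁻¹, mul_mem a3 (inv_mem h2), e' ▸ Fusion.FS.ofGroup_M_of (sup_le a1 l) ?_ h1.1,
      e' ▸ h1.2⟩
    show cj h _ ≤ _
    rw [cj_sup, cj_eq_of_mem_normalizer h1.2, ← cj_mul_cent h2, ← e]
    exact sup_le a5 l
  have hW' : W = ⨆ x ∈ 𝐍⟮T⟯, cj x V := by simp only [hW, Subgroup.closure_iUnion, Subgroup.closure_eq]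
  have c3 : F.Nor (F.core ⊓ N) := F.nor_core.of_char inf_le_left
    (le_normalizer_inf le_rfl le_normalizer_of_normal)
  have l : F.core ⊓ N ≤ T := inf_le_inf_right _ F.core_le
  have c4 : F.Nor W := c3.of_le (hW' ▸ iSup₂_le c2) fun g hg => by
    obtain ⟨n, hn, x, hx, rfl⟩ := (hT.mono (le_inf inf_le_right (inf_le_left.trans c3.sc.S_le_nz))
      inf_le_left).frattini (le_normalizer_inf le_normalizer_of_normal le_normalizer hg.1)
    refine mul_mem ?_ ?_ <;> refine mem_normalizer_of_cj_le ?_ <;> rw [hW'] <;>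
      simp only [cj_iSup] <;> refine iSup₂_le fun y hy => ?_
    · obtain ⟨h, h1, c, h2, rfl⟩ := c1 y hy _ l n hn.1 ((cj_eq_of_mem_normalizer hn.2).le.trans l)
      rw [cj_mul_cent (Push.cent_anti (c2 y hy) h2), cj_eq_of_mem_normalizer h1.2]
      exact le_iSup₂_of_le y hy le_rfl
    · rw [cj_cj]; exact le_iSup₂_of_le _ (mul_mem hx hy) le_rfl
  intro A hA g hg
  obtain ⟨c, c1, -, c2⟩ := c4.2 A g (Fusion.FS.ofGroup_top_M.2 ⟨hA, hg⟩)
  exact ⟨g * c, c2, c⁻¹, inv_mem c1, by group⟩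

end Cfsg.Agent.S1954
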