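import Mathlib
import Cfsg.Statements.S1956
import Cfsg.Agent.Transfer.SylowConj
-- import your own Cfsg.Agent.* helpers here

set_option autoImplicit false
open Cfsg

namespace Cfsg.Agent.S1956

open Cfsg.Agent.Transfer

/-- Let P be a Sylow p-subgroup of the finite group G such that every element of P of order dividing p (dividing 4 when p = 2) is central in P. Then the fusion of these elements is controlled by N_G(P): if such an element a of P has g a g⁻¹ in P, then g = n c with n normalizing P and c commuting with a. -/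
theorem result {G : Type*} [Group G] [Finite G] {p : ℕ} [Fact p.Prime] (P : Sylow p G)
    (hcen : ∀ a ∈ (P : Subgroup G), (a ^ p = 1 ∨ (p = 2 ∧ a ^ 4 = 1)) → ∀ y ∈ (P : Subgroup G), a * y = y * a) :
    ∀ a ∈ (P : Subgroup G), (a ^ p = 1 ∨ (p = 2 ∧ a ^ 4 = 1)) → ∀ g : G, g * a * g⁻¹ ∈ (P : Subgroup G) →
      ∃ n ∈ Subgroup.normalizer ((P : Subgroup G) : Set G), ∃ c : G, c * a = a * c ∧ g = n * c := by
  intro a haP hord g hg
  have hord' : (g * a * g⁻¹) ^ p = 1 ∨ (p = 2 ∧ (g * a * g⁻¹) ^ 4 = 1) := by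
    rcases hord with h | ⟨h2, h⟩
    · left; rw [conj_pow, h]; group
    · right; exact ⟨h2, by rw [conj_pow, h]; group⟩
  have h1 : (P : Subgroup G) ≤ Subgroup.centralizer {a} := by
    intro y hy
    rw [Subgroup.mem_centralizer_singleton_iff]
    exact (hcen a haP hord y hy).symm
  have h2 : ((g⁻¹ • P : Sylow p G) : Subgroup G) ≤ Subgroup.centralizer {a} := by
    intro y hy
    rw [mem_smul_sylow_iff] at hy
    rw [Subgroup.mem_centralizer_singleton_iff]
    have := hcen _ hg hord' _ hy
    rw [inv_inv] at this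
    calc y * a = g⁻¹ * (g * y * g⁻¹ * (g * a * g⁻¹)) * g := by group
      _ = g⁻¹ * (g * a * g⁻¹ * (g * y * g⁻¹)) * g := by rw [this]
      _ = a * y := by group
  obtain ⟨c, hc, hcP⟩ := exists_smul_sylow_eq_of_le h2 h1
  rw [smul_smul] at hcP
  have hn : c * g⁻¹ ∈ Subgroup.normalizer ((P : Subgroup G) : Set G) :=
    Sylow.smul_eq_iff_mem_normalizer.1 hcP
  refine ⟨(c * g⁻¹)⁻¹, Subgroup.inv_mem _ hn, c, ?_, by group⟩
  exact Subgroup.mem_centralizer_singleton_iff.1 hc

end Cfsg.Agent.S1956
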