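import Cfsg.Statements.S2001
import Cfsg.Agent.Glaub.WV

set_option autoImplicit false
open Cfsg

namespace Cfsg.Agent.S2001

open Cfsg.Agent.LocalEven Cfsg.Agent.Glaub

open Subgroup

/-- Let p be a prime dividing the order of the finite group G, P a Sylow p-subgroup, W a conjugacy functor for p on G with Z(H) ≤ W(H) for every nontrivial p-subgroup H, and V a central functor: a conjugacy functor with V(H) ≤ Z(H), and V(H) ≤ V(K) whenever Z(H) ≤ Z(K), for nontrivial p-subgroups H, K. Say that W with V controls transfer in a subgroup L when some Sylow p-subgroup Q of L satisfies Q ∩ L' = (Q ∩ (N_L(W(Q)))')·(Q ∩ (C_L(V(Q)))') as a product of two subgroups. If W with V controls transfer in N_G(H) for every subgroup H with Z(P) ≤ H ≤ P, then W with V controls transfer in G. -/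
theorem result {G : Type*} [Group G] [Finite G] {p : ℕ} [Fact p.Prime] (hdiv : p ∣ Nat.card G) (P : Sylow p G) (W V : Subgroup G → Subgroup G) (hW : Cfsg.IsConjugacyFunctor p W) (hV : Cfsg.IsConjugacyFunctor p V) (hWZ : ∀ H : Subgroup G, IsPGroup p ↥H → H ⊓ Subgroup.centralizer ((H : Subgroup G) : Set G) ≤ W H) (hVZ : ∀ H : Subgroup G, IsPGroup p ↥H → V H ≤ H ⊓ Subgroup.centralizer ((H : Subgroup G) : Set G)) (hVmono : ∀ H K : Subgroup G, IsPGroup p ↥H → IsPGroup p ↥K → H ≠ ⊥ → K ≠ ⊥ → H ⊓ Subgroup.centralizer ((H : Subgroup G) : Set G) ≤ K ⊓ Subgroup.centralizer ((K : Subgroup G) : Set G) → V H ≤ V K) (hloc : ∀ H : Subgroup G, (P : Subgroup G) ⊓ Subgroup.centralizer (((P : Subgroup G) : Subgroup G) : Set G) ≤ H → H ≤ (P : Subgroup G) → ∃ Q : Subgroup G, Q ≤ Subgroup.normalizer ((H : Subgroup G) : Set G) ∧ IsPGroup p ↥Q ∧ ¬ p ∣ (Q).relIndex (Subgroup.normalizer ((H : Subgroup G) :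 Set G)) ∧ ∀ x : G, x ∈ Q ⊓ ⁅Subgroup.normalizer ((H : Subgroup G) : Set G), Subgroup.normalizer ((H : Subgroup G) : Set G)⁆ ↔ ∃ a ∈ Q ⊓ ⁅Subgroup.normalizer ((H : Subgroup G) : Set G) ⊓ Subgroup.normalizer ((W Q : Subgroup G) : Set G), Subgroup.normalizer ((H : Subgroup G) : Set G) ⊓ Subgroup.normalizer ((W Q : Subgroup G) : Set G)⁆, ∃ b ∈ Q ⊓ ⁅Subgroup.normalizer ((H : Subgroup G) : Set G) ⊓ Subgroup.centralizer ((V Q : Subgroup G) : Set G), Subgroup.normalizer ((H : Subgroup G) : Set G) ⊓ Subgroup.centralizer ((V Q : Subgroup G) : Set G)⁆, x = a * b) : ∃ Q : Subgroup G, IsPGroup p ↥Q ∧ ¬ p ∣ Q.index ∧ ∀ x : G, x ∈ Q ⊓ commutator G ↔ ∃ a ∈ Q ⊓ ⁅Subgroup.normalizer ((W Q : Subgroup G) : Set G), Subgroup.normalizer ((W Q : Subgroup G) : Set G)⁆, ∃ b ∈ Q ⊓ ⁅Subgroup.centralizer ((V Q : Subgroup G) : Set G), Subgroup.centralizer ((V Q : Subgroup G) : Set G)⁆, x = a * b := by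
  have hS := isSylowIn_top P
  have hne : (P : Subgroup G) ≠ ⊥ := hS.ne_bot (by rwa [card_top])
  have main := tf_wv hW hS hne hWZ hVmono (fun U hZ hU => ?_)
  · refine ⟨P, P.2, P.not_dvd_index, fun x => ⟨fun hx => ?_, ?_⟩⟩
    · have hn : (P : Subgroup G) ⊓ ⁅𝐍⟮W P⟯, 𝐍⟮W P⟯⁆ ≤
          𝐍⟮((P : Subgroup G) ⊓ ⁅𝐂⟮V P⟯, 𝐂⟮V P⟯⁆ : Subgroup G)⟯ := by
        have h1 : (P : Subgroup G) ≤ 𝐍⟮𝐂⟮V P⟯⟯ :=
          le_normalizer_centralizer (le_normalizer.trans (hV.glaub_norm P.2))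
        exact inf_le_left.trans (le_normalizer_inf le_normalizer (le_normalizer_commutator h1 h1))
      obtain ⟨a, ha, b, hb, rfl⟩ := (mem_sup_iff_of_le_normalizer hn).1 (main hx)
      exact ⟨a, ha, b, hb, rfl⟩
    · rintro ⟨a, ha, b, hb, rfl⟩
      exact mul_mem (inf_le_inf_left _ (commutator_mono le_top le_top) ha)
        (inf_le_inf_left _ (commutator_mono le_top le_top) hb)
  obtain ⟨Q, h1, h2, h3, h4⟩ := hloc U hZ hU.1
  obtain ⟨y, hy, e⟩ := (isSylowIn_of_not_dvd h1 h2 h3).conj (sylow_of_wp hW hS hU)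
  have h5 : Q ⊓ ⁅𝐍⟮U⟯, 𝐍⟮U⟯⁆ ≤ (Q ⊓ ⁅𝐍⟮W Q⟯, 𝐍⟮W Q⟯⁆) ⊔ (Q ⊓ ⁅𝐂⟮V Q⟯, 𝐂⟮V Q⟯⁆) := by
    intro x hx
    obtain ⟨a, ha, b, hb, rfl⟩ := (h4 x).1 hx
    exact mul_mem (mem_sup_left (inf_le_inf_left _ (commutator_mono inf_le_right inf_le_right) ha))
      (mem_sup_right (inf_le_inf_left _ (commutator_mono inf_le_right inf_le_right) hb))
  have h6 := cj_mono y h5
  rwa [cj_sup, cj_inf, cj_inf, cj_inf, cj_commutator, cj_commutator, cj_commutator,
    cj_eq_of_mem hy, cj_normalizer, cj_centralizer, ← hW.glaub_cj h2, ← hV.glaub_cj h2, e] at h6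

end Cfsg.Agent.S2001
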