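import Cfsg.Statements.S2002
import Cfsg.Agent.Glaub.WV

set_option autoImplicit false
open Cfsg

namespace Cfsg.Agent.S2002

open Cfsg.Agent.LocalEven Cfsg.Agent.Glaub

open Subgroup

/-- Let p be a prime dividing the order of the finite group G, P a Sylow p-subgroup, W a conjugacy functor for p on G with Z(H) ≤ W(H) for every nontrivial p-subgroup H, and V a central functor (a conjugacy functor with V(H) ≤ Z(H), and V(H) ≤ V(K) whenever Z(H) ≤ Z(K)). Say that W with V controls strong fusion in a subgroup L when some Sylow p-subgroup Q of L has the property: whenever X ⊆ Q and a ∈ L with a⁻¹Xa ⊆ Q, then a = c b with c ∈ C_L(X) and b = b₁ ⋯ bₙ a product of elements each in N_L(W(Q)) or in C_L(V(Q)) such that every partial conjugate (b₁ ⋯ bₖ)⁻¹ X (b₁ ⋯ bₖ) lies in Q. If W with V controls strong fusion in N_G(H) for every subgroup H with Z(P) ≤ H ≤ P, then W with V controls strong fusion in G.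 -/
theorem result {G : Type*} [Group G] [Finite G] {p : ℕ} [Fact p.Prime] (hdiv : p ∣ Nat.card G) (P : Sylow p G) (W V : Subgroup G → Subgroup G) (hW : Cfsg.IsConjugacyFunctor p W) (hV : Cfsg.IsConjugacyFunctor p V) (hWZ : ∀ H : Subgroup G, IsPGroup p ↥H → H ⊓ Subgroup.centralizer ((H : Subgroup G) : Set G) ≤ W H) (hVZ : ∀ H : Subgroup G, IsPGroup p ↥H → V H ≤ H ⊓ Subgroup.centralizer ((H : Subgroup G) : Set G)) (hVmono : ∀ H K : Subgroup G, IsPGroup p ↥H → IsPGroup p ↥K → H ≠ ⊥ → K ≠ ⊥ → H ⊓ Subgroup.centralizer ((H : Subgroup G) : Set G) ≤ K ⊓ Subgroup.centralizer ((K : Subgroup G) : Set G) → V H ≤ V K) (hloc : ∀ H : Subgroup G, (P : Subgroup G) ⊓ Subgroup.centralizer (((P : Subgroup G) : Subgroup G) : Set G) ≤ H → H ≤ (P : Subgroup G) → ∃ Q : Subgroup G, Q ≤ Subgroup.normalizer ((H : Subgroup G) : Set G) ∧ IsPGroup p ↥Q ∧ ¬ p ∣ (Q).relIndex (Subgroup.normalizer ((H : Subgroup G) : Set G))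 ∧ ∀ (X : Set G) (a : G), X ⊆ Q → a ∈ Subgroup.normalizer ((H : Subgroup G) : Set G) → (fun x => a⁻¹ * x * a) '' X ⊆ Q → ∃ c ∈ Subgroup.normalizer ((H : Subgroup G) : Set G) ⊓ Subgroup.centralizer X, ∃ (n : ℕ) (b : Fin n → G), (∀ i, b i ∈ Subgroup.normalizer ((H : Subgroup G) : Set G) ⊓ Subgroup.normalizer ((W Q : Subgroup G) : Set G) ∨ b i ∈ Subgroup.normalizer ((H : Subgroup G) : Set G) ⊓ Subgroup.centralizer ((V Q : Subgroup G) : Set G)) ∧ a = c * (List.ofFn b).prod ∧ ∀ k : ℕ, k ≤ n → (fun x => (((List.ofFn b).take k).prod)⁻¹ * x * ((List.ofFn b).take k).prod) '' ((fun x => c⁻¹ * x * c) '' X) ⊆ Q) : ∃ Q : Subgroup G, IsPGroup p ↥Q ∧ ¬ p ∣ Q.index ∧ ∀ (X : Set G) (a : G), X ⊆ Q → (fun x => a⁻¹ * x * a) '' X ⊆ Q → ∃ c ∈ Subgroup.centralizer X, ∃ (n : ℕ) (b : Fin n → G), (∀ i, b i ∈ ⊤ ⊓ Subgroup.normalizer ((W Q : Subgroup G) : Set G) ∨ b i ∈ ⊤ ⊓ Subgroup.centralizer ((V Q : Subgroup G) : Set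 G)) ∧ a = c * (List.ofFn b).prod ∧ ∀ k : ℕ, k ≤ n → (fun x => (((List.ofFn b).take k).prod)⁻¹ * x * ((List.ofFn b).take k).prod) '' ((fun x => c⁻¹ * x * c) '' X) ⊆ Q := by
  have hS := isSylowIn_top P
  have hne : (P : Subgroup G) ≠ ⊥ := hS.ne_bot (by rwa [card_top])
  have main := sf_wv hW hS hne hWZ hVmono (fun U hZ hU A hA x hx hxA => ?_)
  · refine ⟨P, P.2, P.not_dvd_index, fun X a hX ha => ?_⟩
    obtain ⟨c, hc, l, h1, h2, h3⟩ := (main (closure X) ((closure_le _).2 hX) a⁻¹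
      (cj_inv_closure_le ha)).exists_list hX
    refine ⟨c, hc, l.length, l.get, fun i => ?_, ?_, ?_⟩
    · rcases h1 _ (List.get_mem l i) with h | h
      · exact Or.inl ⟨mem_top _, (Subgroup.inv_mem_iff _).1 h⟩
      · exact Or.inr ⟨mem_top _, (Subgroup.inv_mem_iff _).1 h⟩
    · rw [List.ofFn_get, ← h2, inv_inv]
    · rw [List.ofFn_get]; exact h3
  obtain ⟨Q, h1, h2, h3, h4⟩ := hloc U hZ hU.1
  obtain ⟨y, hy, e⟩ := (isSylowIn_of_not_dvd h1 h2 h3).conj (sylow_of_wp hW hS hU)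
  rw [← e] at hA hxA ⊢
  have hA' : cj y⁻¹ A ≤ Q := le_cj_iff.1 hA
  obtain ⟨c, hc, n, b, k1, k2, k3⟩ := h4 (cj y⁻¹ A) (y⁻¹ * x⁻¹ * y) hA'
    (mul_mem (mul_mem (inv_mem hy) (inv_mem hx)) hy) (by
      rintro _ ⟨z, hz, rfl⟩
      have := mem_cj.1 (hxA (conj_mem_cj (g := x) (mem_cj_inv.1 hz)))
      rw [SetLike.mem_coe]
      convert this using 1
      simp only
      group)
  have f := fus_of_list (E := fun z => z ∈ 𝐍⟮W Q⟯ ∨ z ∈ 𝐂⟮V Q⟯) (Q := Q) hc.2 (List.ofFn b)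
    (fun z hz => by
      obtain ⟨i, rfl⟩ := List.mem_ofFn.1 hz
      exact (k1 i).imp (fun h => inv_mem h.2) (fun h => inv_mem h.2))
    (by rw [List.length_ofFn]; exact k3)
  rw [← k2, closure_eq] at f
  have f2 := f.conj y
  rw [cj_cj_inv, show y * (y⁻¹ * x⁻¹ * y)⁻¹ * y⁻¹ = x by group] at f2
  refine f2.mono (fun z hz => ?_) le_rfl
  rw [hW.glaub_cj h2, hV.glaub_cj h2, ← cj_normalizer, ← cj_centralizer, mem_cj, mem_cj]
  exact hz

end Cfsg.Agent.S2002
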