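import Cfsg.Statements.S2015
import Cfsg.Agent.Glaub.Transfer5

set_option autoImplicit false
universe u
open Cfsg

namespace Cfsg.Agent.S2015

open Cfsg.Agent.LocalEven Cfsg.Agent.Glaub

/-- For p ≥ 5, every finite p-group P has a characteristic subgroup K containing Z(P), depending only on P, whose normalizer controls transfer wherever P is a Sylow subgroup: for every finite group G and every embedding ι of P onto a Sylow p-subgroup of G, the intersection of ι(P) with the derived subgroup of G equals its intersection with the derived subgroup of N_G(ι(K)). -/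
theorem result (p : ℕ) [Fact p.Prime] (hp : 5 ≤ p) (P : Type u) [Group P] [Finite P] (hP : IsPGroup p P) : ∃ K : Subgroup P, K.Characteristic ∧ Subgroup.center P ≤ K ∧ ∀ (G : Type u) [Group G] [Finite G] (ι : P →* G), Function.Injective ι → (∃ T : Sylow p G, (T : Subgroup G) = ι.range) → ι.range ⊓ commutator G = ι.range ⊓ (commutator ↥(Subgroup.normalizer ((K.map ι : Subgroup G) : Set G))).map (Subgroup.normalizer ((K.map ι : Subgroup G) : Set G)).subtype := by
  refine ⟨kInfLower P, Transfer.characteristic_of_isCharPFunctor charP_kInfLower hP, ?_, ?_⟩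
  · rw [kInfLower_eq]
    exact le_trans (le_inf le_top (Subgroup.center_le_centralizer _)) (center_le_kLo ⊤)
  · rintro G _ _ ι hι ⟨T, hT⟩
    have := inf_commutator_eq_of_ctf (conjFunctor_ind charP_kInfLower) (ctf_kLo hp G)
      (isSylowIn_top T)
    rw [Subgroup.map_subtype_commutator, kInfLower_eq, map_kLo hι, ← MonoidHom.range_eq_map, ← hT,
      ← ind_kInfLower]
    exact this

end Cfsg.Agent.S2015
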