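import Mathlib
import Cfsg.Statements.S2087
import Cfsg.Agent.H2.SchurAlt
import Cfsg.Agent.Perm.Small
import Cfsg.Agent.Classical.SLBasic

set_option autoImplicit false
open scoped Pointwise commutatorElement
open Cfsg

namespace Cfsg.Agent.S2087

/-- Exceptional Schur multiplier: over the field with 2 elements, PSL₃ has Schur multiplier cyclic of order 2 (here the Schur multiplier is described through stem extensions, as in the definitions). -/
theorem result {F : Type*} [Field F] [Fintype F] (hF : Fintype.card F = 2) : Cfsg.HasCyclicSchurMultiplier (Matrix.ProjectiveSpecialLinearGroup (Fin 3) F) 2 := by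
  open H2.Schur Classical.SLBasic in
  have hs := isSimpleGroup_PSL (ι := Fin 3) (F := F) (by simp)
  have : Group.IsPerfect (Matrix.SpecialLinearGroup (Fin 3) F) := ⟨commutator_SL_eq_top (by simp)⟩
  have hp : Group.IsPerfect (Matrix.ProjectiveSpecialLinearGroup (Fin 3) F) := inferInstance
  have h1 := card_center_mul_card_PSL (ι := Fin 3) (R := F)
  have h2 := card_SL (F := F) 3 (by norm_num)
  rw [card_center_SL, Nat.card_eq_fintype_card (α := F), hF] at h1
  rw [Nat.card_eq_fintype_card (α := F), hF, ← h1] at h2
  simp only [Fin.prod_univ_three, Fintype.card_fin] at h2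
  norm_num at h2
  let x : Projectivization F (Fin 3 → F) := .mk F 1 one_ne_zero
  have h3 := MulAction.index_stabilizer_of_transitive
    (Matrix.ProjectiveSpecialLinearGroup (Fin 3) F) x
  rw [Projectivization.card_of_finrank F _ (n := 3) (by simp), Nat.card_eq_fintype_card, hF] at h3
  obtain ⟨f, hf⟩ : ∃ f : Matrix.ProjectiveSpecialLinearGroup (Fin 3) F →* alternatingGroup (Fin 7),
      Function.Injective f := by
    have := Perm.exists_alt_hom (Group.IsPerfect.not_isMulCommutative _) (MulAction.stabilizer _ x)
      (by rintro h; rw [h, Subgroup.index_top] at h3; exact absurd h3 (by decide))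
    rwa [h3] at this
  have e := MonoidHom.ofInjective hf
  have h4 := f.range.card_mul_index
  rw [← Nat.card_congr e.toEquiv, h2, card_alt _ (n := 5) (by simp)] at h4
  refine has_of_card_mult_prime Nat.prime_two (Nat.dvd_antisymm (card_mult_dvd_small
    (by rw [h2]; norm_num) ⟨default, ?_⟩ ⟨default, card_mult_sylow_one (p := 3) _
      (by rw [h2]; norm_num) ▸ one_dvd 2⟩) ?_)
  · rw [card_mult_congr (Subgroup.equivMapOfInjective _ f hf)]
    refine card_mult_eight_alt7 _ ?_
    rw [Subgroup.card_map_of_injective hf, Sylow.card_eq_multiplicity, h2]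
    decide +kernel
  · rw [card_mult_congr e]
    exact pow_dvd_card_mult f.range (a := 1) Nat.prime_two
      (by simp [Nat.factorial] at h4; omega) (two_dvd_card_mult_alt (by simp))

end Cfsg.Agent.S2087
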