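import Mathlib
import Cfsg.Statements.S2111
import Cfsg.Agent.RankOne.SzLie
import Cfsg.Agent.RankOne.SzSub
-- import your own Cfsg.Agent.* helpers here

set_option autoImplicit false
open Cfsg

namespace Cfsg.Agent.S2111

open scoped commutatorElement
open RankOne RankOne.Sz

theorem triv_of_inv {F A : Type*} [Field F] [CharP F 2] [Group A] (β : F → F → A)
    (h1 : ∀ x x' y, β (x + x') y = β x y * β x' y) (h2 : ∀ x y y', β x (y + y') = β x y * β x y')
    (r : F → F) (hr : ∀ μ, μ ≠ 0 → ∀ x, β x μ = β (r μ * x) 1) {ν : F} (h0 : ν ≠ 0) (h0' : 1 + ν ≠ 0)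
    (hc : r (1 + ν) + r 1 + r ν ≠ 0) (x y : F) : β x y = 1 := by
  have z2 : ∀ x, β x 0 = 1 := fun x => by simpa using h2 x 0 0
  have key : ∀ x, β x 1 = 1 := by
    intro x
    obtain ⟨z, rfl⟩ : ∃ z, x = (r (1 + ν) + r 1 + r ν) * z := ⟨x / (r (1 + ν) + r 1 + r ν), by field_simp⟩
    rw [add_mul, add_mul, h1, h1, ← hr _ h0', ← hr _ one_ne_zero, ← hr _ h0, ← h2, ← h2,
      show 1 + ν + 1 + ν = 0 by grind, z2]
  by_cases hy : y = 0
  · rw [hy, z2]
  · rw [hr y hy, key]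

theorem transfer_pow {Γ A : Type*} [Group Γ] [Finite Γ] [CommGroup A] (H : Subgroup Γ) (φ : H →* A) {k : Γ}
    (h1 : k ∈ Subgroup.center Γ) (h2 : k ∈ commutator Γ) : ∃ h : k ^ H.index ∈ H, φ ⟨_, h⟩ = 1 := by
  have key : ∀ (n : ℕ) (g₀ : Γ), g₀⁻¹ * k ^ n * g₀ ∈ H → g₀⁻¹ * k ^ n * g₀ = k ^ n := by
    intro n g _
    rw [mul_assoc, ← Subgroup.mem_center_iff.mp (Subgroup.pow_mem _ h1 n) g, inv_mul_cancel_left]
  exact ⟨_, (MonoidHom.transfer_eq_pow φ k key).symm.trans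
    (Abelianization.commutator_subset_ker (MonoidHom.transfer φ) h2)⟩

theorem pow_index_of_isCyclic {Γ G : Type*} [Group Γ] [Finite Γ] [Group G] (σ : Γ →* G)
    (hs : Function.Surjective σ) (hc : σ.ker ≤ Subgroup.center Γ) (T : Subgroup G) (hT : IsCyclic T) {k : Γ}
    (h1 : k ∈ Subgroup.center Γ) (h2 : k ∈ commutator Γ) : k ^ T.index = 1 := by
  letI : CommGroup (T.comap σ) := commGroupOfCyclicCenterQuotient (σ.subgroupComap T) (by
    intro x hx
    have : (x : Γ) ∈ σ.ker := congrArg Subtype.val hx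
    rw [Subgroup.mem_center_iff]
    intro g
    exact Subtype.ext (Subgroup.mem_center_iff.mp (hc this) g))
  obtain ⟨h, e⟩ := transfer_pow (T.comap σ) (MonoidHom.id _) h1 h2
  rw [← T.index_comap_of_surjective hs]
  exact congrArg Subtype.val e

theorem exists_nu {F : Type*} [Field F] [Fintype F] (h : 8 < Fintype.card F) (n : ℕ) (hn : 0 < n) (hn' : n ≤ 7) :
    ∃ ν : F, ν ≠ 0 ∧ ν ^ n ≠ 1 := by
  by_contra hcon
  push Not at hcon
  have := (FiniteField.forall_pow_eq_one_iff F n).mp (fun x => Units.ext (by simpa using hcon x x.ne_zero))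
  have := Nat.le_of_dvd hn this
  omega

theorem ker_eq_bot {G Ω F : Type*} [Group G] [MulAction G Ω] [Field F] [Fintype F] {m : ℕ}
    (Z : Model G Ω F m) (hm : 2 ≤ m) {Γ : Type*} [Group Γ] [Finite Γ] (σ : Γ →* G)
    (hs : Function.Surjective σ) (hc : σ.ker ≤ Subgroup.center Γ) (hd : σ.ker ≤ commutator Γ) {k : Γ}
    (hk : k ∈ σ.ker) : k = 1 := by
  classical
  have := Z.charP
  have := Z.finite
  have h8 : 8 < Fintype.card F := by
    rw [Z.card_F]
    exact Nat.pow_lt_pow_right (a := 2) (by norm_num) (show 3 < 2 * m + 1 by omega)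
  -- step one
  have h1 : k ^ Fintype.card F ^ 2 = 1 := by
    obtain ⟨g, hg1, hg2⟩ := Z.exists_pow_kp
    obtain ⟨hg3, hg4⟩ := Z.card_torus_of_pow_kp hg1 hg2
    obtain ⟨h, hh1, hh2⟩ := Z.exists_pow_km
    obtain ⟨hh3, hh4⟩ := Z.card_torus_of_pow_km hh1 hh2
    have e1 := pow_index_of_isCyclic σ hs hc _ Z.isCyclic_D (hc hk) (hd hk)
    have e2 := pow_index_of_isCyclic σ hs hc _ (Z.isCyclic_centralizer_fpf hg3) (hc hk) (hd hk)
    have e3 := pow_index_of_isCyclic σ hs hc _ (Z.isCyclic_centralizer_fpf hh3) (hc hk) (hd hk)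
    have i1 := Z.D.card_mul_index
    have i2 := (Subgroup.centralizer {g}).card_mul_index
    have i3 := (Subgroup.centralizer {h}).card_mul_index
    rw [Z.card_D, Z.card_G, mul_comm] at i1
    rw [hg4, Z.card_G, ← Z.kp_mul_km'] at i2
    rw [hh4, Z.card_G, ← Z.kp_mul_km'] at i3
    have c1 := Z.coprime_k
    have c2 := Nat.Coprime.coprime_dvd_right (dvd_mul_left _ _) Z.coprime_B
    have p1 := one_lt_kp m
    have p2 := one_lt_km Z.one_le
    generalize 2 ^ (2 * m + 1) + 2 ^ (m + 1) + 1 = a at *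
    generalize 2 ^ (2 * m + 1) - 2 ^ (m + 1) + 1 = b at *
    rw [Nat.eq_of_mul_eq_mul_right (by omega) i1, pow_mul, ← orderOf_dvd_iff_pow_eq_one] at e1
    rw [Nat.eq_of_mul_eq_mul_left (by omega) (i2.trans (show _ = a * (Fintype.card F ^ 2 *
      (b * (Fintype.card F - 1))) by ring)), pow_mul, ← orderOf_dvd_iff_pow_eq_one] at e2
    rw [Nat.eq_of_mul_eq_mul_left (by omega) (i3.trans (show _ = b * (Fintype.card F ^ 2 *
      (a * (Fintype.card F - 1))) by ring)), pow_mul, ← orderOf_dvd_iff_pow_eq_one] at e3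
    have c3 := Nat.Coprime.coprime_dvd_left e1 c2
    exact orderOf_eq_one_iff.mp
      (Nat.eq_one_of_dvd_coprimes c1 (c3.dvd_of_dvd_mul_right e3) (c3.dvd_of_dvd_mul_right e2))
  -- commutators of lifts
  choose s hσs using hs
  have hcen : ∀ x y : Γ, σ x = σ y → ∃ z ∈ Subgroup.center Γ, x = z * y := fun x y h =>
    ⟨x * y⁻¹, hc (by simp [h]), by simp⟩
  have hc1 : ∀ x y z : Γ, σ x = σ y → x * z * x⁻¹ = y * z * y⁻¹ := by
    intro x y z h
    obtain ⟨w, hw, rfl⟩ := hcen x y h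
    calc _ = w * (y * z * y⁻¹) * w⁻¹ := by group
      _ = _ := by rw [← Subgroup.mem_center_iff.mp hw, mul_inv_cancel_right]
  have hc2 : ∀ x y x' y' : Γ, σ x = σ x' → σ y = σ y' → ⁅x, y⁆ = ⁅x', y'⁆ := by
    intro x y x' y' h h'
    rw [commutatorElement_def, hc1 x x' y h, mul_assoc, mul_assoc, ← mul_assoc y, hc1 y y' _ h',
      commutatorElement_def]
    group
  let c : G → G → Γ := fun g h => ⁅s g, s h⁆
  have hcσ : ∀ x y, ⁅x, y⁆ = c (σ x) (σ y) := fun x y => hc2 _ _ _ _ (hσs _).symm (hσs _).symm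
  have hσc : ∀ g h, σ (c g h) = ⁅g, h⁆ := fun g h => by simp [c, map_commutatorElement, hσs]
  have cl : ∀ g g' h, s g * c g' h = c g' h * s g → c (g * g') h = c g' h * c g h := by
    intro g g' h e
    have := hcσ (s g * s g') (s h)
    rw [map_mul, hσs, hσs, hσs, commutatorElement_mul_left_eq_conj_mul] at this
    rw [← this]
    change s g * c g' h * (s g)⁻¹ * c g h = _
    rw [e, mul_inv_cancel_right]
  have cr : ∀ g h h', s h * c g h' = c g h' * s h → c g (h * h') = c g h * c g h' := by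
    intro g h h' e
    have := hcσ (s g) (s h * s h')
    rw [map_mul, hσs, hσs, hσs, commutatorElement_mul_right_eq_mul_conj] at this
    rw [← this]
    change c g h * s h * c g h' * (s h)⁻¹ = _
    rw [mul_assoc (c g h), e, mul_assoc, mul_inv_cancel_right]
  have cc : ∀ d g h, c (d * g * d⁻¹) (d * h * d⁻¹) = s d * c g h * (s d)⁻¹ := by
    intro d g h
    change _ = s d * ⁅s g, s h⁆ * (s d)⁻¹
    rw [conjugate_commutatorElement, hcσ]
    simp [hσs]
  have cK : ∀ g h : G, g * h = h * g → ∀ x, x * c g h = c g h * x := fun g h e =>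
    Subgroup.mem_center_iff.mp (hc (by
      rw [MonoidHom.mem_ker, hσc]; exact commutatorElement_eq_one_iff_mul_comm.mpr e))
  have cinv : ∀ (κ : Fˣ) (g h : G), g * h = h * g →
      c (Z.M κ * g * (Z.M κ)⁻¹) (Z.M κ * h * (Z.M κ)⁻¹) = c g h := fun κ g h e => by
    rw [cc, cK g h e, mul_inv_cancel_right]
  obtain ⟨ν, hν0, hν⟩ := exists_nu h8 3 (by norm_num) (by norm_num)
  have hν1 : 1 + ν ≠ 0 := by
    intro h; apply hν; rw [show ν = 1 by grind, one_pow]
  have hν2 : (1 + ν)⁻¹ + 1⁻¹ + ν⁻¹ ≠ 0 := by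
    intro h
    apply hν
    field_simp at h
    grind
  have z1 : ∀ b b', c (Z.S 0 b) (Z.S 0 b') = 1 := by
    refine triv_of_inv (fun b b' => c (Z.S 0 b) (Z.S 0 b')) ?_ ?_ (fun μ => μ⁻¹) ?_ hν0 hν1 hν2
    · intro x x' y
      rw [add_comm, ← Z.S_zero_mul, cl _ _ _ (cK _ _ (Z.S_zero_comm _ _ _) _)]
    · intro x y y'
      rw [← Z.S_zero_mul, cr _ _ _ (cK _ _ (Z.S_zero_comm _ _ _) _)]
    · intro μ hμ x
      obtain ⟨κ, hκ⟩ := Z.exists_unit_mul_θ one_ne_zero hμ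
      rw [mul_one] at hκ
      rw [← cinv κ _ _ (Z.S_zero_comm (μ⁻¹ * x) 0 1), Z.M_conj_S, Z.M_conj_S, hκ]
      simp [hμ]
  have eS : ∀ x y, Z.S x y = Z.S 0 y * Z.S x 0 := fun x y => by rw [Z.S_mul]; simp
  have z2 : ∀ x y b, c (Z.S x y) (Z.S 0 b) = c (Z.S x 0) (Z.S 0 b) := by
    intro x y b
    rw [eS, cl _ _ _ (cK _ _ (Z.S_zero_comm _ _ _).symm _), z1, mul_one]
  obtain ⟨ξ, hξ0, hξ⟩ := exists_nu h8 7 (by norm_num) (by norm_num)
  obtain ⟨η, hη⟩ : ∃ η, η ≠ Z.θ η ^ 2 := by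
    by_contra h
    push Not at h
    apply hξ
    have e1 := congrArg Z.θ (h ξ)
    rw [map_pow, Z.θθ] at e1
    have e2 := h ξ
    rw [e1] at e2
    apply mul_left_cancel₀ hξ0
    linear_combination -e2
  have z3 : ∀ x b, c (Z.S x 0) (Z.S 0 b) = 1 := by
    have hη0 : η ≠ 0 := by rintro rfl; simp at hη
    have hη1 : 1 + η ≠ 0 := by
      intro h; apply hη; rw [show η = 1 by grind]; simp
    refine triv_of_inv (fun x b => c (Z.S x 0) (Z.S 0 b)) ?_ ?_ (fun μ => μ / Z.θ μ) ?_ hη0 hη1 ?_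
    · intro x x' y
      rw [add_comm, ← z2 _ (0 + 0 + Z.θ x' * x), ← Z.S_mul, cl _ _ _ (cK _ _ (Z.S_zero_comm _ _ _).symm _)]
    · intro x y y'
      rw [← Z.S_zero_mul, cr _ _ _ (cK _ _ (Z.S_zero_comm _ _ _).symm _)]
    · intro μ hμ x
      obtain ⟨κ, hκ⟩ := Z.exists_unit_mul_θ one_ne_zero hμ
      rw [mul_one] at hκ
      rw [← cinv κ _ _ (Z.S_zero_comm 1 (μ / Z.θ μ * x) 0).symm, Z.M_conj_S, Z.M_conj_S, hκ]
      have h1 : Z.θ κ ≠ 0 := by simp
      have : (κ : F) * (μ / Z.θ μ * x) = x := by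
        rw [← hκ, map_mul, Z.θθ]; field_simp
      simp [this]
    · intro h
      have h1 : Z.θ η ≠ 0 := by simpa using hη0
      have h2 : Z.θ (1 + η) ≠ 0 := (map_ne_zero Z.θ).mpr hη1
      apply hη
      simp only [map_add, map_one] at h h2
      field_simp at h
      grind
  -- the preimage of the centre of `Q`
  let X : Subgroup Γ :=
    { carrier := {z | ∃ b, σ z = Z.S 0 b}
      mul_mem' := by
        rintro x y ⟨b, hb⟩ ⟨b', hb'⟩
        exact ⟨_, by rw [map_mul, hb, hb', Z.S_zero_mul]⟩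
      one_mem' := ⟨0, by rw [map_one, Z.S_zero]⟩
      inv_mem' := by
        rintro x ⟨b, hb⟩
        exact ⟨b, by rw [map_inv, hb, inv_eq_of_mul_self (Z.S_zero_mul_self b)]⟩ }
  have hX : ∀ x : Γ, σ x ∈ Z.Q → ∀ z ∈ X, x * z = z * x := by
    rintro x hx z ⟨b, hb⟩
    obtain ⟨u, v, e⟩ := (Z.mem_Q _).mp hx
    rw [← commutatorElement_eq_one_iff_mul_comm, hcσ, e, hb, z2, z3]
  have hcX : ∀ x y u v, c (Z.S x y) (Z.S u v) ∈ X := fun x y u v => ⟨_, by rw [hσc, Z.S_commutator]⟩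
  have hcX' : ∀ x y u v a b, s (Z.S a b) * c (Z.S x y) (Z.S u v) = c (Z.S x y) (Z.S u v) * s (Z.S a b) :=
    fun x y u v a b => hX _ (by rw [hσs]; exact Z.S_mem _ _) _ (hcX _ _ _ _)
  letI : CommGroup X := { (inferInstance : Group X) with
    mul_comm := fun x y => Subtype.ext (hX x (by obtain ⟨b, hb⟩ := x.2; rw [hb]; exact Z.S_mem _ _) y y.2) }
  let cj : Fˣ → X →* X := fun κ =>
    { toFun := fun z => ⟨s (Z.M κ) * z * (s (Z.M κ))⁻¹, by
        obtain ⟨b, hb⟩ := z.2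
        exact ⟨_, by rw [map_mul, map_mul, map_inv, hσs, hb, Z.M_conj_S, mul_zero]⟩⟩
      map_one' := Subtype.ext (by simp)
      map_mul' := fun x y => Subtype.ext (by simp [mul_assoc]) }
  let N : X →* X := ∏ κ, cj κ
  have z4 : ∀ x y u v, c (Z.S x y) (Z.S u v) = c (Z.S x 0) (Z.S u 0) := by
    intro x y u v
    have e1 : ∀ x y b, c (Z.S 0 b) (Z.S x y) = 1 := by
      intro x y b
      have := (z2 x y b).trans (z3 x b)
      change ⁅_, _⁆ = 1 at this ⊢
      rw [← commutatorElement_inv, this, inv_one]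
    rw [eS x y, cl _ _ _ (hcX' _ _ _ _ _ _), e1, mul_one, eS u v, cr _ _ _ (hcX' _ _ _ _ _ _), z3, one_mul]
  let δ : F → F → X := fun x u => ⟨c (Z.S x 0) (Z.S u 0), hcX _ _ _ _⟩
  have hδ : ∀ (κ : Fˣ) x u, cj κ (δ x u) = δ (κ * x) (κ * u) := by
    intro κ x u
    apply Subtype.ext
    change s (Z.M κ) * c _ _ * (s (Z.M κ))⁻¹ = c _ _
    rw [← cc, Z.M_conj_S, Z.M_conj_S, mul_zero]
  have hN : ∀ x u, N (δ x u) = 1 := by
    refine triv_of_inv (fun x u => N (δ x u)) ?_ ?_ (fun μ => μ⁻¹) ?_ hν0 hν1 hν2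
    · intro x x' y
      rw [← map_mul]
      congr 1
      apply Subtype.ext
      change c _ _ = c _ _ * c _ _
      rw [add_comm, ← z4 _ (0 + 0 + Z.θ x' * x) _ 0, ← Z.S_mul, cl _ _ _ (hcX' _ _ _ _ _ _)]
    · intro x y y'
      rw [← map_mul]
      congr 1
      apply Subtype.ext
      change c _ _ = c _ _ * c _ _
      rw [← z4 _ 0 _ (0 + 0 + Z.θ y * y'), ← Z.S_mul, cr _ _ _ (hcX' _ _ _ _ _ _)]
    · intro μ hμ x
      simp only [N, MonoidHom.finsetProd_apply, hδ]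
      refine (Fintype.prod_equiv (Equiv.mulRight (Units.mk0 μ hμ)) _ _ fun κ => ?_)
      simp [mul_assoc, hμ]
  obtain ⟨h2, h3⟩ := transfer_pow (Z.Q.comap σ) Abelianization.of (hc hk) (hd hk)
  have h4 : commutator (Z.Q.comap σ) ≤ ((N.ker).map X.subtype).comap (Z.Q.comap σ).subtype := by
    rw [commutator, Subgroup.commutator_le]
    rintro ⟨x, hx⟩ - ⟨y, hy⟩ -
    obtain ⟨a, b, e⟩ := (Z.mem_Q _).mp hx
    obtain ⟨u, v, e'⟩ := (Z.mem_Q _).mp hy
    refine ⟨δ a u, hN a u, ?_⟩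
    change c _ _ = ⁅x, y⁆
    rw [hcσ, e, e', z4 a b u v]
  have h3' := MonoidHom.mem_ker.mpr h3
  rw [Abelianization.ker_of] at h3'
  obtain ⟨z, hz1, hz2⟩ := h4 h3'
  change (z : Γ) = k ^ _ at hz2
  have h5 : N z = z ^ (Fintype.card F - 1) := by
    have : ∀ κ, cj κ z = z := fun κ => Subtype.ext (by
      change s (Z.M κ) * z * (s (Z.M κ))⁻¹ = z
      rw [hz2, Subgroup.mem_center_iff.mp (Subgroup.pow_mem _ (hc hk) _), mul_inv_cancel_right])
    simp only [N, MonoidHom.finsetProd_apply, this, Finset.prod_const, Finset.card_univ, Fintype.card_units]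
  have h6 := congrArg Subtype.val (h5.symm.trans hz1)
  rw [Subgroup.coe_pow, hz2, ← pow_mul, Z.Q.index_comap_of_surjective (fun g => ⟨_, hσs g⟩), Z.index_Q] at h6
  refine Model.one_of_coprime ?_ h1 h6
  exact ((Nat.Coprime.coprime_dvd_right (dvd_mul_right _ _) Z.coprime_B).symm.mul_right Z.coprime_q).mul_right
    Z.coprime_q


/-- Schur multipliers of the Suzuki groups: for q = 2^(2m+1) with m ≥ 2 the Schur multiplier of Sz(q) is trivial (here the Schur multiplier is described through stem extensions, as in the definitions); q = 8 is exceptional. -/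
theorem result {F : Type*} [Field F] [Fintype F] {m : ℕ} (hm : 2 ≤ m) (hF : Fintype.card F = 2 ^ (2 * m + 1)) : Cfsg.HasCyclicSchurMultiplier ↥(Cfsg.Lie.Sz F (2 ^ (m + 1))) 1 := by
  obtain ⟨_, ⟨Z⟩⟩ := RankOne.Sz.exists_model_lie hF (by omega)
  have := Z.finite
  refine ⟨⟨_, inferInstance, inferInstance, MonoidHom.id _, ⟨Function.surjective_id, by simp, by simp⟩, ?_⟩, ?_⟩
  · rw [MonoidHom.ker_id]
    exact ⟨MulEquiv.ofUnique⟩
  · rintro Γ _ _ σ ⟨h1, h2, h3⟩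
    exact ⟨1, fun k => ⟨1, Subtype.ext (ker_eq_bot Z hm σ h1 h2 h3 k.2).symm⟩⟩

end Cfsg.Agent.S2111
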