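import Mathlib
import Cfsg.Statements.S2126
import Cfsg.Agent.RankOne.SzLie
import Cfsg.Agent.RankOne.SzAut
-- import your own Cfsg.Agent.* helpers here

set_option autoImplicit false
open Cfsg

namespace Cfsg.Agent.S2126

/-- Outer automorphisms of the Suzuki groups: for q = 2^(2m+1) with m ≥ 1 the outer automorphism group of Sz(q) has order 2m + 1 (field automorphisms only). -/
theorem result {F : Type*} [Field F] [Fintype F] {m : ℕ} (hm : 1 ≤ m) (hF : Fintype.card F = 2 ^ (2 * m + 1)) : Nat.card (Cfsg.Out ↥(Cfsg.Lie.Sz F (2 ^ (m + 1)))) = 2 * m + 1 := by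
  obtain ⟨_, ⟨Z⟩⟩ := RankOne.Sz.exists_model_lie hF hm
  rw [← RankOne.card_ringHom_self (F := F) (n := 2 * m + 1) Nat.prime_two (by rw [Nat.card_eq_fintype_card, hF])]
  symm
  apply Nat.card_eq_of_bijective (fun f => (QuotientGroup.mk (Z.liftAut f) : Cfsg.Out _))
  constructor
  · intro f f' h
    obtain ⟨g, hg⟩ := QuotientGroup.eq.mp h
    exact Z.liftAut_inj (g := g) (by rw [hg, mul_inv_cancel_left])
  · intro x
    obtain ⟨α, rfl⟩ := QuotientGroup.mk_surjective x
    obtain ⟨g, f, rfl⟩ := Z.exists_aut_eq α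
    refine ⟨f, ?_⟩
    rw [QuotientGroup.mk_mul, (QuotientGroup.eq_one_iff (N := Cfsg.Inn _) (MulAut.conj g)).mpr ⟨g, rfl⟩, one_mul]

end Cfsg.Agent.S2126
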