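import Cfsg.Statements.S2132
import Mathlib
import Cfsg.Agent.H3x.McL
import Cfsg.Agent.SchurG.McL.Iso

set_option autoImplicit false
open Cfsg

namespace Cfsg.Agent.S2132


/-- The McLaughlin group (as a two-vector stabiliser in the automorphism group of the rank-24 lattice) has a single conjugacy class of involutions, and the centraliser of an involution is a non-split double cover of the alternating group of degree 8. -/
theorem result : (∀ x y : ↥Cfsg.Spor.McL, orderOf x = 2 → orderOf y = 2 → IsConj x y) ∧ ∃ t : ↥Cfsg.Spor.McL, orderOf t = 2 ∧ Cfsg.IsNonsplitDoubleCover ↥(Subgroup.centralizer ({t} : Set ↥Cfsg.Spor.McL)) ↥(alternatingGroup (Fin 8)) := by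
  obtain ⟨e⟩ := SchurG.McL.exists_iso
  obtain ⟨t, h1, h2, ⟨f⟩, h3⟩ := H3x.McL.B.dc
  let c := Comp.cenEquiv e t
  have k : (Subgroup.center _).map c.toMonoidHom = Subgroup.center _ := by
    ext g
    obtain ⟨g, rfl⟩ := c.surjective g
    exact ⟨fun ⟨x, hx, h⟩ => h ▸ MulEquivClass.apply_mem_center c hx,
      fun h => ⟨g, (MulEquivClass.apply_mem_center_iff c).mp h, rfl⟩⟩
  refine ⟨fun x y hx hy => ?_, e t, (e.orderOf_eq t).trans h1,
    (Nat.card_congr (Subgroup.centerCongr c).toEquiv).symm.trans h2,
    ⟨(QuotientGroup.congr _ _ c k).symm.trans f⟩, fun L hL => h3 (L.comap c.toMonoidHom) ?_⟩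
  · simpa using e.toMonoidHom.map_isConj
      (H3x.McL.A.one _ _ ((e.symm.orderOf_eq x).trans hx) ((e.symm.orderOf_eq y).trans hy))
  · rw [← k] at hL
    have := SchurG.McL.card.1
    refine Subgroup.isComplement'_of_card_mul_and_disjoint ?_ (Subgroup.disjoint_def.mpr fun {x} hx hy => ?_)
    · rw [Nat.card_congr c.toEquiv, ← hL.card_mul, Subgroup.card_map_of_injective c.injective,
        ← Subgroup.card_map_of_injective (K := L.comap c.toMonoidHom) (f := c.toMonoidHom) c.injective,
        Subgroup.map_comap_eq_self_of_surjective c.surjective]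
    · exact c.map_eq_one_iff.mp (Subgroup.disjoint_def.mp hL.disjoint (Subgroup.mem_map_of_mem _ hx) hy)

end Cfsg.Agent.S2132
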