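import Cfsg.Statements.S2134
import Mathlib
import Cfsg.Agent.H3x.He

set_option autoImplicit false
open Cfsg

namespace Cfsg.Agent.S2134
open Cfsg.Agent.Golay
open scoped Pointwise


/-- The Held group (presented on seven involutions, as in the definitions) has an involution whose centraliser is isomorphic to the centraliser of a transvection in SL(5, 2) (a group of shape 2^{1+6}:GL(3, 2)). -/
theorem result (s : Matrix.SpecialLinearGroup (Fin 5) (ZMod 2)) (hs : (s : Matrix (Fin 5) (Fin 5) (ZMod 2)) = Matrix.transvection 0 1 1) : ∃ z : Cfsg.Spor.He, orderOf z = 2 ∧ Nonempty (↥(Subgroup.centralizer ({z} : Set Cfsg.Spor.He)) ≃* ↥(Subgroup.centralizer ({s} : Set (Matrix.SpecialLinearGroup (Fin 5) (ZMod 2))))) := by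
  obtain ⟨ψ, h1, h2, h3⟩ := oct_hom
  have h0 := (isCAct_mk M24).inj_tbl (um_spec (tbl := tbl32) fun v => get_lt _ _ _)
    (by decide +kernel)
  have hz : ψ ⟨_, mem_oct0_2A⟩ = s := by
    refine Subtype.ext (hs ▸ Matrix.ext_iff_mulVec.2 fun v => h0 ((h3 _ v).symm.trans ?_))
    show tp c2A • um (tbl32 v) = um (tbl32 _)
    rw [← mk_inj, ← act_pc, pc_2A, tbl32, tbl32, mk_um_get, mk_um_get]
    revert v; decide +kernel
  have h4 : ∀ g : Subgroup.centralizer ({⟨_, mem_2A⟩} : Set M24), g.1.1 ∈ St M24 oct0 := fun g =>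
    cent2A_le (mem_St_cj.2 ⟨g.1.2, congrArg Subtype.val
      (Subgroup.mem_centralizer_singleton_iff.1 g.2)⟩)
  let χ := (ψ.comp ((M24.subtype.comp (Subgroup.centralizer ({⟨_, mem_2A⟩} : Set M24)).subtype).codRestrict _ h4)).codRestrict
    (Subgroup.centralizer {s}) fun g => by
      rw [Subgroup.mem_centralizer_singleton_iff, ← hz, MonoidHom.comp_apply, ← map_mul, ← map_mul]
      have := congrArg Subtype.val (Subgroup.mem_centralizer_singleton_iff.1 g.2)
      exact congrArg ψ (Subtype.ext this)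
  obtain ⟨z, hz2, ⟨e1⟩⟩ := H3x.He.main
  obtain ⟨e2⟩ := H3x.He.iso0
  have e3 : (Subgroup.centralizer ({⟨_, mem_2A⟩} : Set M24)).map M24.subtype = St M24 (cj (tp c2A)) := by
    ext g
    exact ⟨by
      rintro ⟨g, hg, rfl⟩
      exact mem_St_cj.2 ⟨g.2, congrArg Subtype.val (Subgroup.mem_centralizer_singleton_iff.1 hg)⟩,
      fun h => ⟨⟨g, h.1⟩, Subgroup.mem_centralizer_singleton_iff.2 (Subtype.ext (mem_St_cj.1 h).2), rfl⟩⟩
  refine ⟨z, hz2, ⟨((e1.symm.trans e2).trans ((Subgroup.equivMapOfInjective _ _ M24.subtype_injective).trans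
    (MulEquiv.subgroupCongr e3)).symm).trans <| MulEquiv.ofBijective χ
    ⟨fun a b e => by
      have := congrArg Subtype.val (h1 (congrArg Subtype.val e))
      exact Subtype.ext (Subtype.ext this),
      fun ⟨M, hM⟩ => ?_⟩⟩⟩
  have h5 := Subgroup.mem_centralizer_singleton_iff.1 hM
  have h6 : M ∈ ψ.range := by
    have h7 : ∀ v : Fin 5 → ZMod 2, v ≠ 0 → ∀ w, (Matrix.transvection 0 1 1).mulVec w = w + v →
      v = Pi.single 0 1 := by decide +kernel
    rw [h2]
    refine h7 _ ((smul_ne_zero_iff_ne M).2 (by decide)) (M • Pi.single 1 1) ?_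
    rw [← hs, ← smul_add]
    show s • M • (Pi.single 1 1 : Fin 5 → ZMod 2) = _
    rw [← mul_smul, ← h5, mul_smul]
    congr 1
    show s.1.mulVec _ = _
    rw [hs]; decide +kernel
  obtain ⟨g, rfl⟩ := h6
  rw [← hz, ← map_mul, ← map_mul] at h5
  have h8 := congrArg Subtype.val (h1 h5)
  exact ⟨⟨⟨g, g.2.1⟩, Subgroup.mem_centralizer_singleton_iff.2 (Subtype.ext h8)⟩, rfl⟩

end Cfsg.Agent.S2134
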