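import Mathlib
import Cfsg.Statements.S2162
import Cfsg.Agent.Conj.Reg
-- import your own Cfsg.Agent.* helpers here

set_option autoImplicit false
open Cfsg

namespace Cfsg.Agent.S2162

/-- Conjugacy of involutions in the special linear group over a finite field of characteristic two, in dimension at least 3: two elements of order 2 of SL_n(F) are conjugate in SL_n(F) exactly when the matrices a − 1 and b − 1 have the same rank (the rank of a − 1 is the dimension of the commutator space [V, a]). -/
theorem result {F : Type*} [Field F] [Fintype F] [CharP F 2] {n : ℕ} (hn : 3 ≤ n) (a b : Matrix.SpecialLinearGroup (Fin n) F) (ha : orderOf a = 2) (hb : orderOf b = 2) :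
    IsConj a b ↔ ((a : Matrix (Fin n) (Fin n) F) - 1).rank = ((b : Matrix (Fin n) (Fin n) F) - 1).rank := by
  have sq : ∀ a : Matrix.SpecialLinearGroup (Fin n) F, orderOf a = 2 →
      (Matrix.toLin' a.1 - 1) * (Matrix.toLin' a.1 - 1) = 0 := by
    intro a ha
    have h1 : a.1 * a.1 = 1 := by
      have := pow_orderOf_eq_one a
      rw [ha, sq] at this
      exact congrArg Subtype.val this
    have h2 : (a.1 - 1) * (a.1 - 1) = 0 := by
      have : (a.1 - 1) * (a.1 - 1) = a.1 * a.1 + 1 - (2 : F) • a.1 := by
        rw [two_smul]; noncomm_ring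
      rw [this, h1, ← two_smul F, show (2 : F) = 0 from CharP.cast_eq_zero F 2, zero_smul,
        zero_smul, sub_zero]
    rw [← Conj.toLin'_sub_one, ← Conj.toLin'_mul', h2, map_zero]
  rw [Conj.rank_eq_finrank, Conj.rank_eq_finrank, Conj.toLin'_sub_one, Conj.toLin'_sub_one]
  constructor
  · intro h
    have := Conj.isConj_GL_iff_sim.1 (Matrix.SpecialLinearGroup.toGL.map_isConj h)
    exact this.sub_one.finrank_range
  · intro h
    refine Conj.isConj_SL_of_sim (Conj.sim_sub_one_iff.1
      (Conj.sim_of_sq_zero (sq a ha) (sq b hb) rfl h)) fun d _ => ?_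
    obtain ⟨t, e, he, s⟩ := Conj.exists_jordan (f := Matrix.toLin' a.1 - 1)
      ⟨2, by rw [_root_.sq, sq a ha]⟩
    have h2 := (Conj.nil_pow_eq_zero_iff e 2).1 ((s.pow 2).zero_iff.1 (by rw [_root_.sq, sq a ha]))
    have h3 : ∃ c : Module.End F (Fin n → F), c * (Matrix.toLin' a.1 - 1) =
        (Matrix.toLin' a.1 - 1) * c ∧ LinearMap.det c = d := by
      apply s.exists_commute_det
      rcases t with _ | t
      · have := s.finrank_eq
        rw [Conj.finrank_nil] at this
        simp at this
        omega
      · obtain ⟨c, hc⟩ : ∃ c : F, c ^ (Polynomial.X ^ e 0 : Polynomial F).natDegree = d := by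
          rw [Polynomial.natDegree_X_pow]
          have := he 0
          have := h2 0
          obtain h | h : e 0 = 1 ∨ e 0 = 2 := by omega
          · exact ⟨d, by rw [h, pow_one]⟩
          · rw [h]
            haveI : Fact (Nat.Prime 2) := ⟨Nat.prime_two⟩
            exact (bijective_frobenius F 2).2 d
        rw [← hc]
        exact Conj.exists_commute_det_pow (fun _ => Polynomial.monic_X_pow _) 0 c
    obtain ⟨c, hc, hd⟩ := h3
    exact ⟨c, by simpa [mul_sub, sub_mul] using hc, hd⟩

end Cfsg.Agent.S2162
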