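import Mathlib
import Cfsg.Statements.S2163
-- import your own Cfsg.Agent.* helpers here

set_option autoImplicit false
open Cfsg

namespace Cfsg.Agent.S2163

/-- Over a finite field of characteristic two and for n ≥ 3: for every ℓ with 1 ≤ ℓ and 2ℓ ≤ n, the matrix j_ℓ that is the identity plus the entries 1 in positions (n − ℓ + i, i) for i < ℓ (an identity block of size ℓ in the lower left corner) lies in SL_n(F), has order 2, and j_ℓ − 1 has rank ℓ. Together with the conjugacy criterion by rank, these matrices represent the conjugacy classes of involutions of SL_n(F). -/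
theorem result {F : Type*} [Field F] [Fintype F] [CharP F 2] {n : ℕ} (hn : 3 ≤ n) (ℓ : ℕ) (h1 : 1 ≤ ℓ) (h2 : 2 * ℓ ≤ n) :
    ∃ a : Matrix.SpecialLinearGroup (Fin n) F, (a : Matrix (Fin n) (Fin n) F) = 1 + Matrix.of (fun i j : Fin n => if j.val < ℓ ∧ i.val = j.val + (n - ℓ) then (1 : F) else 0) ∧ orderOf a = 2 ∧ ((a : Matrix (Fin n) (Fin n) F) - 1).rank = ℓ := by
  set N : Matrix (Fin n) (Fin n) F := Matrix.of (fun i j : Fin n => if j.val < ℓ ∧ i.val = j.val + (n - ℓ) then (1 : F) else 0) with hN
  have hNN : N * N = 0 := by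
    ext i j
    rw [Matrix.mul_apply, Finset.sum_eq_zero]
    · rfl
    · intro k _
      simp only [hN, Matrix.of_apply]
      split_ifs <;> first | omega | simp
  have hMM : (1 + N) * (1 + N) = 1 := by
    rw [add_mul, mul_add, mul_add, hNN, one_mul, one_mul, mul_one, add_zero, add_assoc, ← two_smul F,
      CharTwo.two_eq_zero, zero_smul, add_zero]
  have hdet : (1 + N).det = 1 := by
    have := congrArg Matrix.det hMM
    rw [Matrix.det_mul, Matrix.det_one, mul_self_eq_one_iff, CharTwo.neg_eq, or_self] at this
    exact this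
  let A : Matrix (Fin ℓ) (Fin n) F := Matrix.of fun k i => if i.val = k then 1 else 0
  let P : Matrix (Fin n) (Fin ℓ) F :=
    Matrix.of fun i k => if i.val = k + (n - ℓ) then 1 else 0
  have h3 : N = P * A := by
    ext i j
    have hi := i.2
    have hj := j.2
    rw [Matrix.mul_apply]
    by_cases h : j.val < ℓ
    · rw [Finset.sum_eq_single ⟨j, h⟩] <;> simp +contextual [hN, P, A, h, Fin.ext_iff, eq_comm]
    · rw [Finset.sum_eq_zero]
      · simp [hN, h]
      · intro k _
        have := k.2
        simp only [A, Matrix.of_apply]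
        rw [if_neg (by omega), mul_zero]
  have h4 : P.transpose * N * A.transpose = 1 := by
    ext k l
    have := k.2
    have := l.2
    rw [Matrix.mul_apply, Finset.sum_eq_single ⟨l, by omega⟩, Matrix.mul_apply,
      Finset.sum_eq_single ⟨k + (n - ℓ), by omega⟩]
    · simp [A, P, hN, Matrix.one_apply, Fin.ext_iff]
    all_goals simp +contextual [A, P, Fin.ext_iff]
  have h5 : N.rank = ℓ := by
    apply le_antisymm
    · rw [h3]
      exact (Matrix.rank_mul_le_left _ _).trans (by simpa using Matrix.rank_le_width P)
    · have := congrArg Matrix.rank h4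
      rw [Matrix.rank_one, Fintype.card_fin] at this
      rw [← this]
      exact (Matrix.rank_mul_le_left _ _).trans (Matrix.rank_mul_le_right _ _)
  refine ⟨⟨_, hdet⟩, rfl, orderOf_eq_prime ?_ ?_, by simpa using h5⟩
  · exact (@sq (Matrix.SpecialLinearGroup (Fin n) F) _ ⟨_, hdet⟩).trans (Subtype.ext hMM)
  · intro h
    have : 1 + N = 1 := congrArg Subtype.val h
    rw [add_eq_left] at this
    rw [this] at h5
    simp at h5; omega

end Cfsg.Agent.S2163
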