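import Mathlib
import Cfsg.Statements.S2164
import Cfsg.Agent.Herm.Conj
-- import your own Cfsg.Agent.* helpers here

set_option autoImplicit false
open Cfsg

namespace Cfsg.Agent.S2164

/-- Conjugacy of involutions in the special unitary group SU_n(q), q even, n ≥ 3, realised over the field F with q² elements as the matrices of determinant 1 preserving the form Σ u_i v_i^q: for two elements of order 2 of SU_n(q) the following are equivalent — they are conjugate in SU_n(q); they are conjugate in SL_n(F); the matrices a − 1 and b − 1 have the same rank. -/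
theorem result {F : Type*} [Field F] [Fintype F] [CharP F 2] {n q : ℕ} (hF : Fintype.card F = q ^ 2) (hn : 3 ≤ n) (a b : ↥(Cfsg.SU n F q)) (ha : orderOf a = 2) (hb : orderOf b = 2) :
    (IsConj a b ↔ IsConj (a : Matrix.SpecialLinearGroup (Fin n) F) (b : Matrix.SpecialLinearGroup (Fin n) F)) ∧
    (IsConj a b ↔ (((a : Matrix.SpecialLinearGroup (Fin n) F) : Matrix (Fin n) (Fin n) F) - 1).rank = (((b : Matrix.SpecialLinearGroup (Fin n) F) : Matrix (Fin n) (Fin n) F) - 1).rank) := by
  have hF' := Herm.natCard_of_card hF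
  have hB := Herm.hf_sB hF' n
  have h1 : IsConj a b → IsConj (a : Matrix.SpecialLinearGroup (Fin n) F)
      (b : Matrix.SpecialLinearGroup (Fin n) F) := fun h => (Cfsg.SU n F q).subtype.map_isConj h
  have h2 : IsConj (a : Matrix.SpecialLinearGroup (Fin n) F)
      (b : Matrix.SpecialLinearGroup (Fin n) F) → (((a : Matrix.SpecialLinearGroup (Fin n) F) : Matrix (Fin n) (Fin n) F) - 1).rank = (((b : Matrix.SpecialLinearGroup (Fin n) F) : Matrix (Fin n) (Fin n) F) - 1).rank := by
    intro h
    obtain ⟨g, hg⟩ := isConj_iff.1 h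
    have : ((b : Matrix.SpecialLinearGroup (Fin n) F) : Matrix (Fin n) (Fin n) F) - 1 =
        g.1 * (((a : Matrix.SpecialLinearGroup (Fin n) F) : Matrix (Fin n) (Fin n) F) - 1) *
          (g⁻¹).1 := by
      rw [← hg, mul_sub, sub_mul, mul_one, ← Matrix.SpecialLinearGroup.coe_mul g g⁻¹,
        mul_inv_cancel]; rfl
    rw [this, Matrix.rank_mul_eq_left_of_isUnit_det _ _ (by rw [(g⁻¹).2]; exact isUnit_one),
      Matrix.rank_mul_eq_right_of_isUnit_det _ _ (by simp)]
  have h3 : (((a : Matrix.SpecialLinearGroup (Fin n) F) : Matrix (Fin n) (Fin n) F) - 1).rank = (((b : Matrix.SpecialLinearGroup (Fin n) F) : Matrix (Fin n) (Fin n) F) - 1).rank → IsConj a b := by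
    intro h
    rw [← Herm.finrank_mov_toSUG hF', ← Herm.finrank_mov_toSUG hF'] at h
    have k : ∀ a : ↥(Cfsg.SU n F q), orderOf a = 2 →
        (Herm.toSUG hF' n a).1 * (Herm.toSUG hF' n a).1 = 1 := fun a ha => by
      rw [← Subgroup.coe_mul, ← map_mul, ← sq, ← ha, pow_orderOf_eq_one, map_one]; rfl
    obtain ⟨g, hg, e⟩ := hB.invol_conj (k a ha) (k b hb) h
    refine isConj_iff.2 ⟨(Herm.toSUG hF' n).symm ⟨g, hg⟩, (Herm.toSUG hF' n).injective ?_⟩
    rw [map_mul, map_mul, map_inv, MulEquiv.apply_symm_apply]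
    exact Subtype.ext e
  exact ⟨⟨h1, fun h => h3 (h2 h)⟩, ⟨fun h => h2 (h1 h), h3⟩⟩

end Cfsg.Agent.S2164
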