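import Mathlib
import Cfsg.Statements.S2165
import Cfsg.Agent.Herm.Conj
-- import your own Cfsg.Agent.* helpers here

set_option autoImplicit false
open Cfsg

namespace Cfsg.Agent.S2165

/-- In SU_n(q), q even, n ≥ 3 (matrices of determinant 1 over the field with q² elements preserving Σ u_i v_i^q): for every ℓ with 1 ≤ ℓ and 2ℓ ≤ n, the permutation matrix of the involution of {0, …, n−1} exchanging i and n − ℓ + i for each i < ℓ lies in SU_n(q), has order 2, and differs from the identity by a matrix of rank ℓ. So every rank between 1 and n/2 occurs for involutions of SU_n(q). -/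
theorem result {F : Type*} [Field F] [Fintype F] [CharP F 2] {n q : ℕ} (hF : Fintype.card F = q ^ 2) (hn : 3 ≤ n) (ℓ : ℕ) (h1 : 1 ≤ ℓ) (h2 : 2 * ℓ ≤ n) :
    ∃ a : ↥(Cfsg.SU n F q), (((a : Matrix.SpecialLinearGroup (Fin n) F) : Matrix (Fin n) (Fin n) F) = Matrix.of (fun i j : Fin n => if (j.val < ℓ ∧ i.val = j.val + (n - ℓ)) ∨ (i.val < ℓ ∧ j.val = i.val + (n - ℓ)) ∨ (i = j ∧ ℓ ≤ i.val ∧ i.val < n - ℓ) then (1 : F) else 0)) ∧ orderOf a = 2 ∧ ((((a : Matrix.SpecialLinearGroup (Fin n) F) : Matrix (Fin n) (Fin n) F)) - 1).rank = ℓ := by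
  have hF' := Herm.natCard_of_card hF
  set M : Matrix (Fin n) (Fin n) F := Matrix.of (fun i j : Fin n => if (j.val < ℓ ∧ i.val = j.val + (n - ℓ)) ∨ (i.val < ℓ ∧ j.val = i.val + (n - ℓ)) ∨ (i = j ∧ ℓ ≤ i.val ∧ i.val < n - ℓ) then (1 : F) else 0) with hM
  let π : Fin n → Fin n := fun j => if h : j.val < ℓ then ⟨j + (n - ℓ), by omega⟩ else
    if n - ℓ ≤ j.val then ⟨j - (n - ℓ), by omega⟩ else j
  have hπ : ∀ i j, M i j = if i = π j then 1 else 0 := by
    intro i j
    simp only [hM, Matrix.of_apply, π]
    congr 1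
    have := i.2; have := j.2
    split_ifs <;> simp only [Fin.ext_iff, eq_iff_iff] <;> omega
  have hππ : ∀ j, π (π j) = j := by
    intro j
    have := j.2
    have hv : ∀ j, (π j).val = if j.val < ℓ then j.val + (n - ℓ) else
        if n - ℓ ≤ j.val then j.val - (n - ℓ) else j.val := fun j => by
      simp only [π]; split_ifs <;> rfl
    rw [Fin.ext_iff, hv, hv]
    split_ifs <;> omega
  have hMM : M * M = 1 := by
    ext i j
    simp [Matrix.mul_apply, hπ, hππ, Matrix.one_apply]
  have hct : Herm.ct (Herm.frob hF') M = M := by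
    ext i j
    simp only [Herm.ct_apply, Matrix.transpose_apply, Matrix.map_apply, hπ]
    by_cases h : i = π j
    · simp [h, hππ]
    · rw [if_neg h, if_neg, map_zero]
      rintro rfl; exact h (hππ i).symm
  have hdet : M.det = 1 := by
    have := congrArg Matrix.det hMM
    rw [Matrix.det_mul, Matrix.det_one, mul_self_eq_one_iff, CharTwo.neg_eq, or_self] at this
    exact this
  obtain ⟨a, ha⟩ := (Herm.mem_range_suToGU (Herm.mkGU hF' M (by rw [hct, hMM]))).2 hdet
  have ha' : ((a : Matrix.SpecialLinearGroup (Fin n) F) : Matrix (Fin n) (Fin n) F) = M := by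
    rw [← Herm.suToGU_coe, ha]; rfl
  let A : Matrix (Fin ℓ) (Fin n) F := Matrix.of fun k i => if i.val = k then 1 else 0
  let P : Matrix (Fin n) (Fin ℓ) F :=
    Matrix.of fun i k => if i.val = k ∨ i.val = k + (n - ℓ) then 1 else 0
  have h3 : M - 1 = P * (A * (M - 1)) := by
    ext i j
    have hi := i.2
    have hj := j.2
    have e : ∀ k : Fin ℓ, (A * (M - 1) : Matrix (Fin ℓ) (Fin n) F) k j = (M - 1) ⟨k, by omega⟩ j := fun k => by
      rw [Matrix.mul_apply, Finset.sum_eq_single ⟨k, by omega⟩] <;>
        simp +contextual [A, Fin.ext_iff]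
    rw [Matrix.mul_apply]
    simp only [e]
    by_cases h : i.val < ℓ
    · rw [Finset.sum_eq_single ⟨i, h⟩]
      · simp [P]
      · intro k _ hk
        have := k.2
        simp only [P, Matrix.of_apply, ne_eq, Fin.ext_iff] at hk ⊢
        rw [if_neg (by omega), zero_mul]
      · simp
    by_cases h' : n - ℓ ≤ i.val
    · rw [Finset.sum_eq_single ⟨i - (n - ℓ), by omega⟩]
      · simp only [P, Matrix.of_apply, Matrix.sub_apply, hM, Matrix.one_apply, Fin.ext_iff]
        rw [if_pos (c := i.val = i.val - (n - ℓ) ∨ _) (by omega), one_mul, CharTwo.sub_eq_add, CharTwo.sub_eq_add, add_comm]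
        congr 1 <;> congr 1 <;> simp only [eq_iff_iff] <;> omega
      · intro k _ hk
        have := k.2
        simp only [P, Matrix.of_apply, ne_eq, Fin.ext_iff] at hk ⊢
        rw [if_neg (by omega), zero_mul]
      · simp
    · rw [Finset.sum_eq_zero]
      · simp only [Matrix.of_apply, Matrix.sub_apply, hM, Matrix.one_apply, Fin.ext_iff]
        rw [sub_eq_zero]; congr 1; simp only [eq_iff_iff]; omega
      · intro k _
        have := k.2
        simp only [P, Matrix.of_apply]
        rw [if_neg (by omega), zero_mul]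
  have h4 : A * (M - 1) * A.transpose = 1 := by
    ext k l
    have := k.2
    have := l.2
    rw [Matrix.mul_apply, Finset.sum_eq_single ⟨l, by omega⟩, Matrix.mul_apply,
      Finset.sum_eq_single ⟨k, by omega⟩]
    · simp only [A, Matrix.of_apply, Matrix.sub_apply, hM, Matrix.one_apply, Fin.ext_iff,
        Matrix.transpose_apply, if_true, one_mul, mul_one]
      rw [if_neg (by omega), CharTwo.sub_eq_add, zero_add]
    all_goals simp +contextual [A, Fin.ext_iff]
  have h5 : (M - 1).rank = ℓ := by
    apply le_antisymm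
    · rw [h3]
      exact (Matrix.rank_mul_le_left _ _).trans (by simpa using Matrix.rank_le_width P)
    · have := congrArg Matrix.rank h4
      rw [Matrix.rank_one, Fintype.card_fin] at this
      rw [← this]
      exact (Matrix.rank_mul_le_left _ _).trans (Matrix.rank_mul_le_right _ _)
  refine ⟨a, ha', orderOf_eq_prime ?_ ?_, by rw [ha', h5]⟩
  · apply Subtype.ext; apply Subtype.ext
    rw [sq]; change _ * _ = _
    rw [ha', hMM]; rfl
  · rintro rfl
    rw [← ha'] at h5
    simp at h5; omega

end Cfsg.Agent.S2165
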