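import Mathlib
import Cfsg.Statements.S2166
import Cfsg.Agent.Orth.Inv2Mat
-- import your own Cfsg.Agent.* helpers here

set_option autoImplicit false
open Cfsg

namespace Cfsg.Agent.S2166

/-- Conjugacy of involutions in the symplectic group Sp_{2m}(F), F a finite field of characteristic two, m ≥ 2 (Sp taken as the matrices A with A J Aᵀ = J, acting on column vectors, with the alternating form f(u, v) = u ⬝ (J v)). For an involution t write V(t) for the set of vectors v with f(v, t v) = 0 (a subspace). Two involutions a, b are conjugate in Sp_{2m}(F) exactly when a − 1 and b − 1 have the same rank and, in case that rank is even, V(a) and V(b) have the same number of elements. -/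
theorem result {F : Type*} [Field F] [Fintype F] [CharP F 2] {m : ℕ} (hm : 2 ≤ m) (a b : ↥(Matrix.symplecticGroup (Fin m) F)) (ha : orderOf a = 2) (hb : orderOf b = 2) :
    IsConj a b ↔ ((((a : ↥(Matrix.symplecticGroup (Fin m) F)) : Matrix (Fin m ⊕ Fin m) (Fin m ⊕ Fin m) F) - 1).rank = (((b : ↥(Matrix.symplecticGroup (Fin m) F)) : Matrix (Fin m ⊕ Fin m) (Fin m ⊕ Fin m) F) - 1).rank ∧
      (Even (((a : ↥(Matrix.symplecticGroup (Fin m) F)) : Matrix (Fin m ⊕ Fin m) (Fin m ⊕ Fin m) F) - 1).rank → Nat.card {v : Fin m ⊕ Fin m → F // Cfsg.sympForm m F v (Matrix.mulVec ((a : ↥(Matrix.symplecticGroup (Fin m) F)) : Matrix (Fin m ⊕ Fin m) (Fin m ⊕ Fin m) F) v) = 0} = Nat.card {v : Fin m ⊕ Fin m → F // Cfsg.sympForm m F v (Matrix.mulVec ((b : ↥(Matrix.symplecticGroup (Fin m) F)) : Matrix (Fin m ⊕ Fin m) (Fin m ⊕ Fin m) F) v) = 0})) := by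
  have h2 : (2 : F) = 0 := Orth.two_eq_zero_of_charP
  open Classical.SpMat in
  have key : ∀ a : Matrix.symplecticGroup (Fin m) F, orderOf a = 2 → spEquiv _ F a * spEquiv _ F a = 1 :=
    fun a ha => by rw [← map_mul, (Orth.orderOf_eq_two_iff'.1 ha).1, map_one]
  open Classical.SpMat in
  rw [← Orth.isConj_equiv_iff (spEquiv _ F), Orth.sp_isConj_iff h2 sB_nondeg sB_alt (key a ha) (key b hb),
    Orth.rank_spEquiv, Orth.rank_spEquiv]
  simp only [Classical.SpMat.sympForm_eq, ← Classical.SpMat.spEquiv_apply]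
  have hS := Orth.symND_of_alt h2 (Classical.SpMat.sB_nondeg (ι := Fin m) (F := F)) Classical.SpMat.sB_alt
  generalize hA : Classical.SpMat.spEquiv _ F a = t at *
  have ht : t * t = 1 := hA ▸ key a ha
  generalize hB : Classical.SpMat.spEquiv _ F b = s at *
  have hs : s * s = 1 := hB ▸ key b hb
  have c1 := Orth.card_zero_set h2 hS.symm t.2 (Orth.invol_of_mul_self ht)
  have c2 := Orth.card_zero_set h2 hS.symm s.2 (Orth.invol_of_mul_self hs)
  have e1 := fun h => ((Orth.sa_mv t.2 (Orth.invol_of_mul_self ht)).symND_wall hS).even_of_alt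
    ((Orth.isAlt_wall_mv Classical.SpMat.sB_alt t.2 (Orth.invol_of_mul_self ht)).2 h)
  have e2 := fun h => ((Orth.sa_mv s.2 (Orth.invol_of_mul_self hs)).symND_wall hS).even_of_alt
    ((Orth.isAlt_wall_mv Classical.SpMat.sB_alt s.2 (Orth.invol_of_mul_self hs)).2 h)
  have hq : 1 < Nat.card F := Finite.one_lt_card
  have hp : 0 < Nat.card F ^ Module.finrank F (Fin m ⊕ Fin m → F) := by positivity
  refine and_congr_right fun h => ?_
  rw [← h] at e2
  by_cases h1 : ∀ v, Classical.SpMat.sB (Fin m) F v (t.1 v) = 0 <;>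
    by_cases h3 : ∀ v, Classical.SpMat.sB (Fin m) F v (s.1 v) = 0
  · exact iff_of_true (iff_of_true h1 h3) fun _ => (c1.1 h1).trans (c2.1 h3).symm
  · refine iff_of_false (fun h => h3 (h.1 h1)) fun h => ?_
    have := c2.2 h3
    rw [← h (e1 h1), c1.1 h1] at this
    nlinarith
  · refine iff_of_false (fun h => h1 (h.2 h3)) fun h => ?_
    have := c1.2 h1
    rw [h (e2 h3), c2.1 h3] at this
    nlinarith
  · exact iff_of_true (iff_of_false h1 h3) fun _ =>
      Nat.eq_of_mul_eq_mul_right (by omega) ((c1.2 h1).trans (c2.2 h3).symm)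

end Cfsg.Agent.S2166
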