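import Mathlib
import Cfsg.Statements.S2167
import Cfsg.Agent.Orth.Inv2Mat
-- import your own Cfsg.Agent.* helpers here

set_option autoImplicit false
open Cfsg

namespace Cfsg.Agent.S2167

/-- For an involution t of the symplectic group Sp_{2m}(F), m ≥ 2, F a finite field of characteristic two (matrices A with A J Aᵀ = J acting on column vectors, alternating form f(u, v) = u ⬝ (J v)): the set V(t) of vectors v with f(v, t v) = 0 has either q^{2m} or q^{2m−1} elements, q the order of F (it is a subspace of codimension at most 1), and if it is the whole space then t − 1 has even rank. -/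
theorem result {F : Type*} [Field F] [Fintype F] [CharP F 2] {m : ℕ} (hm : 2 ≤ m) (a : ↥(Matrix.symplecticGroup (Fin m) F)) (ha : orderOf a = 2) :
    (Nat.card {v : Fin m ⊕ Fin m → F // Cfsg.sympForm m F v (Matrix.mulVec ((a : ↥(Matrix.symplecticGroup (Fin m) F)) : Matrix (Fin m ⊕ Fin m) (Fin m ⊕ Fin m) F) v) = 0} = Fintype.card F ^ (2 * m) ∨ Nat.card {v : Fin m ⊕ Fin m → F // Cfsg.sympForm m F v (Matrix.mulVec ((a : ↥(Matrix.symplecticGroup (Fin m) F)) : Matrix (Fin m ⊕ Fin m) (Fin m ⊕ Fin m) F) v) = 0} * Fintype.card F = Fintype.card F ^ (2 * m)) ∧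
    ((∀ v : Fin m ⊕ Fin m → F, Cfsg.sympForm m F v (Matrix.mulVec ((a : ↥(Matrix.symplecticGroup (Fin m) F)) : Matrix (Fin m ⊕ Fin m) (Fin m ⊕ Fin m) F) v) = 0) → Even (((a : ↥(Matrix.symplecticGroup (Fin m) F)) : Matrix (Fin m ⊕ Fin m) (Fin m ⊕ Fin m) F) - 1).rank) := by
  have h2 : (2 : F) = 0 := Orth.two_eq_zero_of_charP
  have ht : Classical.SpMat.spEquiv _ F a * Classical.SpMat.spEquiv _ F a = 1 := by
    rw [← map_mul, (Orth.orderOf_eq_two_iff'.1 ha).1, map_one]
  rw [Orth.rank_spEquiv]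
  simp only [Classical.SpMat.sympForm_eq, ← Classical.SpMat.spEquiv_apply]
  have hS := Orth.symND_of_alt h2 (Classical.SpMat.sB_nondeg (ι := Fin m) (F := F)) Classical.SpMat.sB_alt
  generalize Classical.SpMat.spEquiv _ F a = t at *
  have c1 := Orth.card_zero_set h2 hS.symm t.2 (Orth.invol_of_mul_self ht)
  rw [Orth.finrank_plus] at c1
  rw [← Nat.card_eq_fintype_card]
  exact ⟨(em _).imp c1.1 c1.2, fun h => ((Orth.sa_mv t.2 (Orth.invol_of_mul_self ht)).symND_wall hS).even_of_alt
    ((Orth.isAlt_wall_mv Classical.SpMat.sB_alt t.2 (Orth.invol_of_mul_self ht)).2 h)⟩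

end Cfsg.Agent.S2167
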