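import Mathlib
import Cfsg.Statements.S2168
import Cfsg.Agent.Orth.Inv2Mat
-- import your own Cfsg.Agent.* helpers here

set_option autoImplicit false
open Cfsg

namespace Cfsg.Agent.S2168

theorem main {F : Type*} [Field F] [Finite F] (h2 : (2 : F) = 0) {ι : Type} [Fintype ι] [DecidableEq ι]
    {Q : QuadraticForm F (ι → F)} (hQ : Orth.ND Q) (t s : Cfsg.isometryGroup F ⇑Q) (ht : orderOf t = 2)
    (hs : orderOf s = 2) : IsConj t s ↔ ∃ g ∈ Cfsg.preserving (Units.coeHom (Matrix ι ι F))
      (fun u v => Q (u + v) - Q u - Q v), g * (t : GL ι F) * g⁻¹ = s := by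
  rw [← Orth.isConj_equiv_iff (Orth.toOG Q), hQ.isConj_iff_sp h2
    (by rw [← map_mul, (Orth.orderOf_eq_two_iff'.1 ht).1, map_one])
    (by rw [← map_mul, (Orth.orderOf_eq_two_iff'.1 hs).1, map_one]), Orth.isConj_subgroup_iff]
  constructor
  · rintro ⟨g, hg, h⟩
    obtain ⟨g, rfl⟩ := (Orth.glEquiv ι F).surjective g
    exact ⟨g, hg, (Orth.glEquiv ι F).injective (by rw [map_mul, map_mul, map_inv]; exact h)⟩
  · rintro ⟨g, hg, h⟩
    refine ⟨Orth.glEquiv ι F g, hg, ?_⟩
    have := congrArg (Orth.glEquiv ι F) h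
    rwa [map_mul, map_mul, map_inv] at this

/-- Involutions in the full isometry group O of the hyperbolic quadratic form Σ x_i y_i in dimension 2m over a finite field F of characteristic two, m ≥ 4 (plus type): two elements of order 2 of O are conjugate in O exactly when they are conjugate under the group of all invertible matrices preserving the polar bilinear form (u, v) ↦ Q(u + v) − Q(u) − Q(v) (the symplectic group of that form). -/
theorem result {F : Type*} [Field F] [Fintype F] [CharP F 2] {m : ℕ} (hm : 4 ≤ m) (t s : ↥(Cfsg.isometryGroup F (Cfsg.quadFormPlus m F))) (ht : orderOf t = 2) (hs : orderOf s = 2) :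
    IsConj t s ↔ ∃ g ∈ Cfsg.preserving (Units.coeHom (Matrix (Fin m ⊕ Fin m) (Fin m ⊕ Fin m) F)) (fun u v => Cfsg.quadFormPlus m F (u + v) - Cfsg.quadFormPlus m F u - Cfsg.quadFormPlus m F v), g * ((t : ↥(Cfsg.isometryGroup F (Cfsg.quadFormPlus m F))) : GL (Fin m ⊕ Fin m) F) * g⁻¹ = ((s : ↥(Cfsg.isometryGroup F (Cfsg.quadFormPlus m F))) : GL (Fin m ⊕ Fin m) F) := by
  exact main (Q := Orth.plusQ m F) Orth.two_eq_zero_of_charP (Orth.nd_plusQ m) t s ht hs

end Cfsg.Agent.S2168
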