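import Mathlib
import Cfsg.Statements.S2172
import Cfsg.Agent.Orth.Inv2Mat
-- import your own Cfsg.Agent.* helpers here

set_option autoImplicit false
open Cfsg

namespace Cfsg.Agent.S2172

theorem omega_iff {F : Type*} [Field F] {ι : Type} [Fintype ι] [DecidableEq ι]
    {Q : QuadraticForm F (ι → F)} (t s : Cfsg.isometryGroup F ⇑Q) :
    (∃ g ∈ Cfsg.Omega F ⇑Q, g * t * g⁻¹ = s) ↔
      ∃ g ∈ commutator (Orth.OG Q), g * Orth.toOG Q t * g⁻¹ = Orth.toOG Q s := by
  constructor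
  · rintro ⟨g, hg, rfl⟩
    exact ⟨_, (Orth.mem_Omega_iff g).1 hg, by simp⟩
  · rintro ⟨g, hg, h⟩
    obtain ⟨g, rfl⟩ := (Orth.toOG Q).surjective g
    exact ⟨g, (Orth.mem_Omega_iff g).2 hg, (Orth.toOG Q).injective (by simpa using h)⟩

theorem range_eq {F : Type*} [Field F] {ι : Type} [Fintype ι] [DecidableEq ι]
    {Q : QuadraticForm F (ι → F)} (t : Cfsg.isometryGroup F ⇑Q) :
    LinearMap.range (Matrix.toLin' (((t : GL ι F) : Matrix ι ι F) - 1)) = Orth.mov (Orth.toOG Q t) := by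
  congr 1
  refine LinearMap.ext fun x => ?_
  simp

theorem sing_iff {F : Type*} [Field F] (h2 : (2 : F) = 0) {ι : Type} [Fintype ι] [DecidableEq ι]
    {Q : QuadraticForm F (ι → F)} (t : Cfsg.isometryGroup F ⇑Q) :
    (∀ v, Q (v + ((t : GL ι F) : Matrix ι ι F).mulVec v) = 0) ↔ Orth.Sing Q (Orth.mov (Orth.toOG Q t)) := by
  have : ∀ v, v + ((t : GL ι F) : Matrix ι ι F).mulVec v = (Orth.toOG Q t).1 v - v := fun v => by
    funext i; simp only [Orth.toOG_apply, Pi.add_apply, Pi.sub_apply]; linear_combination v i * h2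
  simp only [this]
  exact ⟨fun h _ ⟨v, hv⟩ => hv ▸ h v, fun h v => h _ (Orth.sub_mem_mov _ v)⟩

/-- Splitting of involution classes from O to Ω for the hyperbolic quadratic form Q = Σ x_i y_i in dimension 2m over a finite field F of characteristic two, m ≥ 4. Let t, s be involutions of the commutator subgroup Ω that are conjugate in the full isometry group O. If it is not the case that t − 1 has rank m and Q(v + t v) = 0 for every vector v, then t and s are conjugate by an element of Ω. If t − 1 has rank m and Q(v + t v) = 0 for all v, then t and s are conjugate by an element of Ω exactly when the intersection of the images of t − 1 and s − 1 has even dimension (so the class of t in O meets at most two classes of Ω). -/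
theorem result {F : Type*} [Field F] [Fintype F] [CharP F 2] {m : ℕ} (hm : 4 ≤ m) (t s : ↥(Cfsg.isometryGroup F (Cfsg.quadFormPlus m F))) (ht : orderOf t = 2) (hs : orderOf s = 2) (htO : t ∈ Cfsg.Omega F (Cfsg.quadFormPlus m F)) (hsO : s ∈ Cfsg.Omega F (Cfsg.quadFormPlus m F)) (hconj : IsConj t s) :
    (¬ (((((t : ↥(Cfsg.isometryGroup F (Cfsg.quadFormPlus m F))) : GL (Fin m ⊕ Fin m) F) : Matrix (Fin m ⊕ Fin m) (Fin m ⊕ Fin m) F) - 1).rank = m ∧ ∀ v : Fin m ⊕ Fin m → F, Cfsg.quadFormPlus m F (v + Matrix.mulVec (((t : ↥(Cfsg.isometryGroup F (Cfsg.quadFormPlus m F))) : GL (Fin m ⊕ Fin m) F) : Matrix (Fin m ⊕ Fin m) (Fin m ⊕ Fin m) F) v) = 0) →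
      ∃ g ∈ Cfsg.Omega F (Cfsg.quadFormPlus m F), g * t * g⁻¹ = s) ∧
    ((((((t : ↥(Cfsg.isometryGroup F (Cfsg.quadFormPlus m F))) : GL (Fin m ⊕ Fin m) F) : Matrix (Fin m ⊕ Fin m) (Fin m ⊕ Fin m) F) - 1).rank = m ∧ ∀ v : Fin m ⊕ Fin m → F, Cfsg.quadFormPlus m F (v + Matrix.mulVec (((t : ↥(Cfsg.isometryGroup F (Cfsg.quadFormPlus m F))) : GL (Fin m ⊕ Fin m) F) : Matrix (Fin m ⊕ Fin m) (Fin m ⊕ Fin m) F) v) = 0) →
      ((∃ g ∈ Cfsg.Omega F (Cfsg.quadFormPlus m F), g * t * g⁻¹ = s) ↔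
        Even (Module.finrank F ↥(LinearMap.range (Matrix.toLin' ((((t : ↥(Cfsg.isometryGroup F (Cfsg.quadFormPlus m F))) : GL (Fin m ⊕ Fin m) F) : Matrix (Fin m ⊕ Fin m) (Fin m ⊕ Fin m) F) - 1)) ⊓ LinearMap.range (Matrix.toLin' ((((s : ↥(Cfsg.isometryGroup F (Cfsg.quadFormPlus m F))) : GL (Fin m ⊕ Fin m) F) : Matrix (Fin m ⊕ Fin m) (Fin m ⊕ Fin m) F) - 1)))))) := by
  have h2 : (2 : F) = 0 := Orth.two_eq_zero_of_charP
  have hQ := Orth.nd_plusQ (F := F) m
  have hg : Orth.Good F (Fin m ⊕ Fin m → F) := Orth.good_plus (Or.inr (by omega))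
  revert t s
  intro (t : Cfsg.isometryGroup F ⇑(Orth.plusQ m F)) (s : Cfsg.isometryGroup F ⇑(Orth.plusQ m F))
    ht hs _ _ hconj
  have ht' : Orth.toOG _ t * Orth.toOG _ t = 1 :=
    (map_mul _ _ _).symm.trans ((congrArg _ (Orth.orderOf_eq_two_iff'.1 ht).1).trans (map_one _))
  have hc := (Orth.isConj_equiv_iff (Orth.toOG _)).2 hconj
  have h1 := sing_iff h2 t
  have h3 := omega_iff t s
  refine ⟨fun h => h3.2 (hQ.omega_conj_of_not h2 (hQ.dickKer_of_good h2 hg) ht' (fun h' => h ⟨?_, h1.2 h'.2⟩) hc),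
    fun h => h3.trans ?_⟩
  · have := h'.1
    rw [Orth.finrank_plus, Orth.rk_toOG] at this
    omega
  · rw [← Orth.rk_toOG] at h
    have he := hQ.even_rk_of_sing h2 ht' (h1.1 h.2)
    have hle : Module.finrank F (Orth.mov (Orth.toOG _ t) ⊓ Orth.mov (Orth.toOG _ s) : Submodule F _) ≤
      Orth.rk (Orth.toOG _ t) := Submodule.finrank_mono inf_le_left
    rw [hQ.omega_conj_iff h2 hg (Orth.finrank_plus m) h.1 (h1.1 h.2) hc, range_eq, range_eq]
    simp only [Nat.even_iff] at he ⊢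
    omega

end Cfsg.Agent.S2172
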