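import Mathlib
import Cfsg.Statements.S2173
import Cfsg.Agent.S2172
-- import your own Cfsg.Agent.* helpers here

set_option autoImplicit false
open Cfsg

namespace Cfsg.Agent.S2173

/-- For the quadratic form Σ x_i y_i + (z₁² + c z₁ z₂ + d z₂²) in dimension 2m with anisotropic binary part over a finite field F of characteristic two, m ≥ 4 (minus type): two involutions of the commutator subgroup Ω that are conjugate in the full isometry group O are conjugate by an element of Ω (no class of involutions of O inside Ω splits). -/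
theorem result {F : Type*} [Field F] [Fintype F] [CharP F 2] {m : ℕ} (hm : 4 ≤ m) (c d : F) (hcd : ∀ z₁ z₂ : F, z₁ ^ 2 + c * z₁ * z₂ + d * z₂ ^ 2 = 0 → z₁ = 0 ∧ z₂ = 0) (t s : ↥(Cfsg.isometryGroup F (Cfsg.quadFormMinus (m - 1) F c d))) (ht : orderOf t = 2) (hs : orderOf s = 2) (htO : t ∈ Cfsg.Omega F (Cfsg.quadFormMinus (m - 1) F c d)) (hsO : s ∈ Cfsg.Omega F (Cfsg.quadFormMinus (m - 1) F c d)) (hconj : IsConj t s) :
    ∃ g ∈ Cfsg.Omega F (Cfsg.quadFormMinus (m - 1) F c d), g * t * g⁻¹ = s := by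
  have h2 : (2 : F) = 0 := Orth.two_eq_zero_of_charP
  have hQ : Orth.ND (Orth.minusQ (m - 1) F c d) := Orth.nd_minusQ _ (Orth.aniso_disc_ne_zero hcd)
  have hp := Orth.not_isPlus_minusQ (m - 1) hcd
  refine (S2172.omega_iff (Q := Orth.minusQ (m - 1) F c d) t s).2 (hQ.omega_conj_of_not h2
    (hQ.dickKer_of_not_isPlus h2 hp) ?_ (fun h => hp ⟨_, h.2, h.1⟩) ((Orth.isConj_equiv_iff (Orth.toOG _)).2 hconj))
  exact (map_mul _ _ _).symm.trans ((congrArg _ (Orth.orderOf_eq_two_iff'.1 ht).1).trans (map_one _))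

end Cfsg.Agent.S2173
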