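import Cfsg.Statements.S2181
import Mathlib
import Cfsg.Agent.Chev.InvC7

set_option autoImplicit false
open Cfsg

namespace Cfsg.Agent.S2181
open Cfsg.Lie Cfsg.Agent.Chev

/-- The Chevalley group of type E₇ over a finite field of characteristic two (the matrix group generated by the root elements) has exactly five conjugacy classes of elements of order 2. -/
theorem result {F : Type*} [Field F] [Fintype F] [CharP F 2] :
    (ConjClasses.mk '' {g : ↥(Cfsg.Lie.chevE7.group F) | orderOf g = 2}).ncard = 5 := by
  letI := good2E7
  rw [group_eq]
  exact ncard_classes (K := repsE7) le_rfl comm_E7 (pairwise_NC _ nc_E7)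
    (fun _ _ => StSys.zN_mem _ _) (classify_id (loc_id (oc_of_chk oc_E7) Nat.prime_three (by decide)
      three_dvd_card (dvd_ca_of_chk cab_E7 le_rfl)) tree_E7 (by decide) red_E7 fin_E7)

end Cfsg.Agent.S2181
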