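import Cfsg.Statements.S2182
import Mathlib
import Cfsg.Agent.Chev.Inv5

set_option autoImplicit false
open Cfsg

namespace Cfsg.Agent.S2182
open Cfsg.Lie Cfsg.Agent.Chev

/-- The twisted group ²E₆(q), q even, realised inside the Chevalley group of type E₆ over the field K with q² elements, has exactly three conjugacy classes of elements of order 2. -/
theorem result {K : Type*} [Field K] [Fintype K] [CharP K 2] (q : ℕ) (hK : Fintype.card K = q ^ 2) :
    (ConjClasses.mk '' {g : ↥(Cfsg.Lie.twistedE6 K q) | orderOf g = 2}).ncard = 3 := by
  exact classes_twE6 hK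

end Cfsg.Agent.S2182
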