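import Cfsg.Statements.S2184
import Mathlib
import Cfsg.Agent.Chev.Ree3
import Cfsg.Agent.Comp.F42.Iso

set_option autoImplicit false
open Cfsg

namespace Cfsg.Agent.S2184
open Cfsg.Lie Cfsg.Agent.Chev

/-- The twisted group ²F₄(q), q = 2^(2m+1) with m ≥ 0 (realised inside the Chevalley group of type F₄ over the field K with q elements, θ the 2^m-th power map), has exactly two conjugacy classes of elements of order 2; and so does the Tits group, the commutator subgroup of ²F₄(2). -/
theorem result {K : Type*} [Field K] [Fintype K] (m : ℕ) (hK : Fintype.card K = 2 ^ (2 * m + 1)) :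
    (ConjClasses.mk '' {g : ↥(Cfsg.Lie.twistedF4 K (2 ^ m)) | orderOf g = 2}).ncard = 2 ∧ (ConjClasses.mk '' {g : Cfsg.Lie.TitsGroup | orderOf g = 2}).ncard = 2 := by
  letI := good2F4
  obtain ⟨C⟩ := exists_CF4 hK
  obtain ⟨C'⟩ := exists_CF4 (K := ZMod 2) (m := 0) rfl
  exact ⟨C.classes, CF4.classes_comm (e := 1) C' Comp.F42.tits.2.2⟩

end Cfsg.Agent.S2184
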