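import Cfsg.Statements.S2185
import Mathlib
import Cfsg.Agent.Chev.Ree3
import Cfsg.Agent.Comp.F42.Iso

set_option autoImplicit false
open Cfsg

namespace Cfsg.Agent.S2185
open Cfsg.Lie Cfsg.Agent.Chev

/-- In the group ²F₄(2) (realised inside the Chevalley group of type F₄ over the field with two elements, θ the identity) every element of order 2 lies in the commutator subgroup (the Tits group, of index 2): there are no involutions outside it. -/
theorem result (g : ↥(Cfsg.Lie.twistedF4 (ZMod 2) 1)) (hg : orderOf g = 2) :
    g ∈ commutator ↥(Cfsg.Lie.twistedF4 (ZMod 2) 1) := by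
  letI := good2F4
  obtain ⟨C⟩ := exists_CF4 (K := ZMod 2) (m := 0) rfl
  exact mem_comm_iff.mp (CF4.mem_comm (e := 1) C Comp.F42.tits.2.2 (C.isTw.le g.2)
    ((Subgroup.orderOf_coe g).trans hg))

end Cfsg.Agent.S2185
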