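import Cfsg.Statements.S2186
import Mathlib
import Cfsg.Agent.Chev.Cent2

set_option autoImplicit false
open Cfsg

namespace Cfsg.Agent.S2186
open Cfsg.Lie Cfsg.Agent.Chev

theorem aux {F : Type*} [Field F] [Fintype F] [CharP F 2] {D : ChevalleyDatum} [Good2 D]
    (α β : Rt D) (h : β = ng α ∧ ∀ r : Rt D, Pos r → commP D 2 r α = true) (g : GL D.Idx F)
    (hg : g ∈ D.group F) :
    IsPGroup 2 ↥(D.rootSubgroup F α ⊔ (D.rootSubgroup F α).map (MulAut.conj g).toMonoidHom) ∨
    ∃ h ∈ D.group F, (D.rootSubgroup F α ⊔ (D.rootSubgroup F α).map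
      (MulAut.conj g).toMonoidHom).map (MulAut.conj h).toMonoidHom =
        D.rootSubgroup F α ⊔ D.rootSubgroup F β := by
  rw [group_eq] at hg ⊢
  rw [rootSubgroup_eq, rootSubgroup_eq, h.1]
  obtain ⟨w, hw⟩ := StSys.exists_cell hg
  obtain ⟨u, hu, a, -, hm, v, hv, rfl⟩ := StSys.exists_normal' hw
  have key : ∀ u ∈ (glSys D F).U, ((glSys D F).XS {α}).map (MulAut.conj u).toMonoidHom =
      (glSys D F).XS {α} := fun u hu => by
    have : ∀ y ∈ (glSys D F).XS {α}, MulAut.conj u y = y := fun y hy => by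
      obtain ⟨t, rfl⟩ := (glSys D F).mem_XS_singleton.mp hy
      exact mul_inv_eq_iff_eq_mul.mpr (Subgroup.mem_centralizer_singleton_iff.mp
        ((glSys D F).XS_le.mpr (fun r hr c => Subgroup.mem_centralizer_singleton_iff.mpr
          (StSys.commuteP _ 2 (h.2 r hr) c t).eq) hu))
    exact le_antisymm (by rintro _ ⟨y, hy, rfl⟩; exact (this y hy).symm ▸ hy)
      fun y hy => ⟨y, hy, this y hy⟩
  have e : ((glSys D F).XS {α} ⊔ ((glSys D F).XS {α}).map (MulAut.conj (u * a * v)).toMonoidHom).map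
      (MulAut.conj u⁻¹).toMonoidHom = (glSys D F).XS {α} ⊔ (glSys D F).XS {w • α} := by
    rw [Subgroup.map_sup, key _ (inv_mem hu), Subgroup.map_map,
      show (MulAut.conj u⁻¹).toMonoidHom.comp (MulAut.conj (u * a * v)).toMonoidHom =
        (MulAut.conj a).toMonoidHom.comp (MulAut.conj v).toMonoidHom by
          ext1; simp [mul_assoc], ← Subgroup.map_map, key _ (StSys.Uw_le_U _ hv), hm.map_XS]
    simp [inv_smul_eq_iff]
  by_cases hα : w • α = ng α
  · exact Or.inr ⟨u⁻¹, inv_mem ((glSys D F).U_le_grp hu), hα ▸ e⟩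
  · obtain ⟨c, h1, h2⟩ := exists_ph_pos hα
    obtain ⟨n, -, hn⟩ := FiniteField.card F 2
    have : IsPGroup 2 ((glSys D F).XS (Hc c)) := IsPGroup.of_card (by
      rw [(glSys D F).card_XS (uni_Hc c), Nat.card_eq_fintype_card, hn, ← pow_mul])
    have h3 := this.to_le (e.le.trans (sup_le ((glSys D F).XS_mono (by rintro _ rfl; exact h1))
      ((glSys D F).XS_mono (by rintro _ rfl; exact h2))))
    exact Or.inl (h3.of_equiv (Subgroup.equivMapOfInjective _ _ (MulAut.conj u⁻¹).injective).symm)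

/-- Let G be the Chevalley group of type G₂ (over a field with at least four elements), D₄, E₆, E₇ or E₈ over a finite field F of characteristic two, and let X be the root subgroup of the highest root (the last root index) — a long root subgroup, of order |F|. For every g in G, the subgroup generated by X and its conjugate g X g⁻¹ is either a 2-group or is conjugate by an element of G to the subgroup generated by X and the root subgroup of the lowest root (index 0, the negative of the highest root), which is a copy of SL₂(F). -/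
theorem result {F : Type*} [Field F] [Fintype F] [CharP F 2] (D : Cfsg.Lie.ChevalleyDatum) (hD : D ∈ [Cfsg.Lie.chevG2, Cfsg.Lie.chevD4, Cfsg.Lie.chevE6, Cfsg.Lie.chevE7, Cfsg.Lie.chevE8]) (hF : D = Cfsg.Lie.chevG2 → 4 ≤ Fintype.card F) (g : GL D.Idx F) (hg : g ∈ D.group F) :
    IsPGroup 2 ↥(D.rootSubgroup F (D.nroots - 1) ⊔ (D.rootSubgroup F (D.nroots - 1)).map (MulAut.conj g).toMonoidHom) ∨
    ∃ h ∈ D.group F, (D.rootSubgroup F (D.nroots - 1) ⊔ (D.rootSubgroup F (D.nroots - 1)).map (MulAut.conj g).toMonoidHom).map (MulAut.conj h).toMonoidHom = D.rootSubgroup F (D.nroots - 1) ⊔ D.rootSubgroup F 0 := by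
  simp only [List.mem_cons, List.not_mem_nil, or_false] at hD
  rcases hD with rfl | rfl | rfl | rfl | rfl
  · exact @aux F _ _ _ _ good2G2 ⟨11, by decide⟩ ⟨0, by decide⟩ (by decide +kernel) g hg
  · exact @aux F _ _ _ _ good2D4 ⟨23, by decide⟩ ⟨0, by decide⟩ (by decide +kernel) g hg
  · exact @aux F _ _ _ _ good2E6 ⟨71, by decide⟩ ⟨0, by decide⟩ (by decide +kernel) g hg
  · exact @aux F _ _ _ _ good2E7 ⟨125, by decide⟩ ⟨0, by decide⟩ (by decide +kernel) g hg
  · exact @aux F _ _ _ _ good2E8 ⟨239, by decide⟩ ⟨0, by decide⟩ (by decide +kernel) g hg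

end Cfsg.Agent.S2186
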