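import Cfsg.Statements.S2190
import Mathlib
import Cfsg.Agent.Chev.MxU10

set_option autoImplicit false
open Cfsg

namespace Cfsg.Agent.S2190
open Cfsg.Lie Cfsg.Agent.Chev

/-- Subfield subgroups of prime degree are maximal. Let K be a finite field with q^r elements, r a prime, q a power of the characteristic, and G the Chevalley group of type G₂, B₂, D₄, F₄, E₆, E₇ or E₈ over K (the matrix group generated by the root elements). Let M be the subgroup of G consisting of the matrices all of whose entries lie in the subfield with q elements (entries c with c^q = c). Then M is a proper subgroup of G and is maximal: every subgroup of G containing M is M or G. -/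
theorem result {K : Type*} [Field K] [Fintype K] (p : ℕ) [Fact p.Prime] [CharP K p] (D : Cfsg.Lie.ChevalleyDatum) (hD : D ∈ [Cfsg.Lie.chevG2, Cfsg.Lie.chevB2, Cfsg.Lie.chevD4, Cfsg.Lie.chevF4, Cfsg.Lie.chevE6, Cfsg.Lie.chevE7, Cfsg.Lie.chevE8]) (a r : ℕ) (ha : 1 ≤ a) (hr : r.Prime) (hK : Fintype.card K = (p ^ a) ^ r) (M : Subgroup (GL D.Idx K))
    (hM : ∀ g : GL D.Idx K, g ∈ M ↔ g ∈ D.group K ∧ ∀ i j : D.Idx, ((g : Matrix D.Idx D.Idx K) i j) ^ (p ^ a) = (g : Matrix D.Idx D.Idx K) i j) :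
    M ≠ D.group K ∧ ∀ H : Subgroup (GL D.Idx K), M ≤ H → H ≤ D.group K → H = M ∨ H = D.group K := by
  obtain ⟨g, hb⟩ := exists_good_btw (F := K) p hD
  have hq : IsPrimePow (p ^ a) := (Fact.out : p.Prime).isPrimePow.pow (by omega)
  have hf : ∀ r t, (glSys D K).x r t ∈ M ↔ t ^ p ^ a = t := fun r t => by
    rw [hM, ← map_eq_iff_pow _ (iterateFrobenius_def p a), (fieldGL D _).f_x' fun _ _ => rfl,
      group_eq]
    exact ⟨fun h => (glSys D K).x_inj h.2, fun h => ⟨(glSys D K).x_mem_grp r t,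
      congrArg _ h⟩⟩
  refine ⟨fun e => ?_, fun H h1 h2 => ?_⟩
  · obtain ⟨t, ht⟩ := exists_not_fixed hq hr.one_lt hK
    exact ht ((hf (sim ⟨0, g.rank_pos⟩) t).mp (e ▸ group_eq (D := D) (F := K) ▸ (glSys D K).x_mem_grp _ t))
  have hx : ∀ r t, t ^ p ^ a = t → (glSys D K).x r t ∈ H := fun r t ht => h1 ((hf r t).mpr ht)
  obtain ⟨n, -, a1, a2, a3⟩ := (hb H ⟨gl_R3, gl_inj, fun _ μ _ => ⟨⊤, inferInstance, trivial⟩,
    inferInstance, group_eq (D := D) (F := K) ▸ h2, bot_le_of p hx⟩).exists_pow p (card_fixed hq.pos hK) hx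
  obtain ⟨m, -, e⟩ := card_pow_of_le
    (le_top : (iterateFrobenius K p (a * n)).eqLocusField (RingHom.id K) ≤ ⊤)
  rw [Nat.card_congr Subfield.topEquiv.toEquiv, Nat.card_eq_fintype_card, hK, (Nat.card_congr
    (Equiv.subtypeEquivRight fun t => by rw [← pow_mul]; rfl)).trans a1, ← pow_mul (p ^ a)] at e
  rcases (Nat.dvd_prime hr).mp ⟨m, Nat.pow_right_injective hq.two_le e⟩ with rfl | rfl
  · exact Or.inl (le_antisymm (fun y hy => (hM y).mpr ⟨h2 hy, by simpa using a3 y hy⟩) h1)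
  · refine Or.inr (le_antisymm h2 ?_)
    rw [group_eq]
    exact (glSys D K).XS_le.mpr fun r _ t => a2 r t (hK ▸ FiniteField.pow_card t)

end Cfsg.Agent.S2190
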