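import Cfsg.Statements.S2209
import Mathlib
import Cfsg.Agent.Chev.Cent2

set_option autoImplicit false
open Cfsg

namespace Cfsg.Agent.S2209
open Cfsg.Lie Cfsg.Agent.Chev

theorem aux {F : Type*} [Field F] [CharP F 2] {D : ChevalleyDatum} [Good2 D] (α : Rt D) (k : Ix D)
    (L : List ℕ) (h : Pos α ∧ (∀ i, ca i α = if i = k then 1 else 0) ∧
      (∀ r : Rt D, Pos r ∨ (r : ℕ) ∈ L → commP D 2 r α = true) ∧
      (∀ i ≠ k, ((ng (sim i) : Rt D) : ℕ) ∈ L) ∧ ∀ r ∈ L, r < D.nroots)
    (t : GL D.Idx F) (ht : (t : Matrix D.Idx D.Idx F) = D.x F α 1) :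
    D.group F ⊓ Subgroup.centralizer {t} = D.posUnipotent F ⊔ Subgroup.closure
      {g : GL D.Idx F | ∃ s ∈ L, ∃ c : F, (g : Matrix D.Idx D.Idx F) = D.x F s c} := by
  obtain rfl := val_eq_x_iff.mp ht
  rw [group_eq, posUnipotent_eq, StSys.cent_top gl_R3 h.1 h.2.1 (T := {r | Pos r} ∪ {r : Rt D | (r : ℕ) ∈ L})
    (fun r hr t => StSys.commuteP _ 2 (h.2.2.1 r hr) _ _) (fun _ => Or.inl)
    fun i hi => Or.inr (h.2.2.2.1 i hi), StSys.XS_union, ← closure_x_eq h.2.2.2.2]
  simp only [exists_and_left]
  rfl

/-- Centralizer of a long root involution in the Chevalley groups of type E₆, E₇, E₈ over a finite field F of characteristic two. Let G be the group generated by the root elements, U the subgroup generated by the positive root subgroups, r the highest root (the last root index: 71, 125, 239 respectively), and t the element of G with matrix x_r(1). Then the centralizer of t in G is the subgroup generated by U together with the root subgroups X_{−p} for the fundamental roots p orthogonal to r — all fundamental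 roots except p₂ for E₆, except p₁ for E₇, except p₈ for E₈ (numbering with p₁–p₃–p₄–…–p_l the long chain and p₂ joined to p₄); the indices of these negative fundamental roots are 15, 29, 32, 34, 35 (E₆), 47, 52, 56, 59, 61, 62 (E₇), 77, 98, 104, 109, 113, 116, 118 (E₈). (This is the unipotent radical of the corresponding maximal parabolic subgroup extended by the root subgroups of its Levi factor, of type A₅, D₆, E₇ respectively.) -/
theorem result {F : Type*} [Field F] [Fintype F] [CharP F 2] (d : Cfsg.Lie.ChevalleyDatum × List ℕ)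
    (hd : d ∈ [(Cfsg.Lie.chevE6, [15, 29, 32, 34, 35]), (Cfsg.Lie.chevE7, [47, 52, 56, 59, 61, 62]), (Cfsg.Lie.chevE8, [77, 98, 104, 109, 113, 116, 118])])
    (t : GL d.1.Idx F) (ht : (t : Matrix d.1.Idx d.1.Idx F) = d.1.x F (d.1.nroots - 1) 1) :
    d.1.group F ⊓ Subgroup.centralizer {t} = d.1.posUnipotent F ⊔ Subgroup.closure {g : GL d.1.Idx F | ∃ s ∈ d.2, ∃ c : F, (g : Matrix d.1.Idx d.1.Idx F) = d.1.x F s c} := by
  simp only [List.mem_cons, List.not_mem_nil, or_false] at hd
  rcases hd with rfl | rfl | rfl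
  · exact @aux F _ _ _ good2E6 ⟨71, by decide⟩ ⟨1, by decide⟩ _ (by decide +kernel) t ht
  · exact @aux F _ _ _ good2E7 ⟨125, by decide⟩ ⟨0, by decide⟩ _ (by decide +kernel) t ht
  · exact @aux F _ _ _ good2E8 ⟨239, by decide⟩ ⟨7, by decide⟩ _ (by decide +kernel) t ht

end Cfsg.Agent.S2209
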