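import Cfsg.Statements.S2214
import Mathlib
import Cfsg.Agent.Chev.Nrm
import Cfsg.Agent.Chev.AutC

set_option autoImplicit false
open Cfsg

namespace Cfsg.Agent.S2214
open Cfsg.Lie Cfsg.Agent.Chev StSys Matrix

/-- Let k be an algebraically closed field of prime characteristic p, G the adjoint Chevalley group of type G₂, B₂, D₄, F₄, E₆, E₇ or E₈ over k (the matrix group generated by the root elements x_s(t), t ∈ k, acting on the Lie algebra), q = p^a with a ≥ 1, and K a subgroup of G containing every root element x_s(t) with t^q = t and consisting of matrices all of whose entries c satisfy c^q = c. Then the centralizer of K in G is trivial, and the normalizer of K in G is exactly the set of elements of G all of whose entries c satisfy c^q = c. -/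
theorem result {k : Type*} [Field k] [IsAlgClosed k] (p : ℕ) [Fact p.Prime] [CharP k p] (D : Cfsg.Lie.ChevalleyDatum) (hD : D ∈ [Cfsg.Lie.chevG2, Cfsg.Lie.chevB2, Cfsg.Lie.chevD4, Cfsg.Lie.chevF4, Cfsg.Lie.chevE6, Cfsg.Lie.chevE7, Cfsg.Lie.chevE8]) (a : ℕ) (ha : 1 ≤ a) (K : Subgroup (GL D.Idx k)) (hKG : K ≤ D.group k)
    (hLK : Subgroup.closure {g : GL D.Idx k | ∃ (s : ℕ) (t : k), t ^ (p ^ a) = t ∧ (g : Matrix D.Idx D.Idx k) = D.x k s t} ≤ K)
    (hKfix : ∀ g ∈ K, ∀ i j : D.Idx, ((g : Matrix D.Idx D.Idx k) i j) ^ (p ^ a) = (g : Matrix D.Idx D.Idx k) i j) :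
    D.group k ⊓ Subgroup.centralizer (K : Set (GL D.Idx k)) = ⊥ ∧
    ∀ g : GL D.Idx k, g ∈ D.group k → (g ∈ Subgroup.normalizer (K : Set (GL D.Idx k)) ↔ ∀ i j : D.Idx, ((g : Matrix D.Idx D.Idx k) i j) ^ (p ^ a) = (g : Matrix D.Idx D.Idx k) i j) := by
  obtain ⟨g, -⟩ := good3_of_mem hD
  let ψ := iterateFrobenius k p a
  have hE : ∀ t, t ∈ ψ.eqLocusField (RingHom.id k) ↔ ψ t = t := fun _ => Iff.rfl
  have hm : ∀ y : GL D.Idx k, GeneralLinearGroup.map ψ y = y ↔ ∀ i j : D.Idx,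
      ((y : Matrix D.Idx D.Idx k) i j) ^ (p ^ a) = (y : Matrix D.Idx D.Idx k) i j := fun y => by
    rw [Units.ext_iff, ← Matrix.ext_iff]; rfl
  have h1 : (glSys D k).GS (ψ.eqLocusField (RingHom.id k)) ≤ K :=
    GS_le.mpr fun r t ht => hLK (Subgroup.subset_closure ⟨r, t, ht, rfl⟩)
  have h3 := fun z hz => (hm z).mpr (hKfix z hz)
  obtain ⟨hx, hn⟩ := GS_wit _ h1
  rw [group_eq] at hKG ⊢
  refine ⟨eq_bot_iff.mpr fun y hy => eq_one_of_cent hx hn (mem_GD_of_grp hy.1) fun z hz => ?_,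
    fun y hy => ⟨fun h => (hm y).mp (fix_of_norm hx hn ψ h3 h3 (mem_GD_of_grp hy) fun z hz =>
      (Subgroup.mem_normalizer_iff.mp h z).mp hz), fun h => mem_normalizer_of
      (fun z hz => conj_mem_of_fix hE h1 hKG h3 hy ((hm y).mpr h) hz) fun z hz => ?_⟩⟩
  · rw [mul_inv_eq_iff_eq_mul, hy.2 z hz]
  · simpa using conj_mem_of_fix hE h1 hKG h3 (inv_mem hy) (by rw [map_inv, (hm y).mpr h]) hz

end Cfsg.Agent.S2214
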