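import Mathlib
import Cfsg.Statements.S2221
import Cfsg.Agent.Elu.Alt4

set_option autoImplicit false
set_option backward.isDefEq.respectTransparency false
open Cfsg

namespace Cfsg.Agent.S2221

open Cfsg.Agent.Elu in

/-- Direct decomposability of the Sylow 2-subgroups of the alternating groups. Let n ≥ 4 and let P be a Sylow 2-subgroup of the alternating group of degree n. Then P is the internal direct product of two nontrivial subgroups if and only if n = 4, n = 5, or n ≡ 2, 3 (mod 4) with 4⌊n/4⌋ not a power of 2. In the remaining cases (n ≡ 0, 1 (mod 4) with n ≥ 8, or n ≡ 2, 3 (mod 4) with 4⌊n/4⌋ a power of 2) P is directly indecomposable. -/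
theorem result (n : ℕ) (hn : 4 ≤ n)
    (P : Sylow 2 (alternatingGroup (Fin n))) :
    (∃ S₁ S₂ : Subgroup (alternatingGroup (Fin n)), S₁ ≠ ⊥ ∧ S₂ ≠ ⊥ ∧
        Cfsg.IsInternalDirectProduct S₁ S₂ (P : Subgroup (alternatingGroup (Fin n)))) ↔
      (n = 4 ∨ n = 5 ∨ ((n % 4 = 2 ∨ n % 4 = 3) ∧ ∀ r : ℕ, 4 * (n / 4) ≠ 2 ^ r)) := by
  constructor
  · rintro ⟨S₁, S₂, h1, h2, h⟩
    obtain ⟨S, X, Y, hS⟩ := sy_hyp P S₁ S₂ h1 h2 h
    by_contra hc
    simp only [not_or, not_and, not_forall, not_not] at hc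
    by_cases e : n % 4 ≤ 1
    · exact hS.false_of_mod (by omega) e
    · obtain ⟨r, hr⟩ := hc.2.2 (by omega)
      exact hS.trans_false (by omega) (sy_trans S hS.le hn (by omega) hr)
  · rintro (h | h | ⟨h1, h2⟩)
    · exact sy_dec_small n (Or.inl h) P
    · exact sy_dec_small n (Or.inr h) P
    · exact sy_dec_big n hn P h1 h2

end Cfsg.Agent.S2221
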