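import Mathlib
import Cfsg.Statements.S2222
import Cfsg.Agent.Spec.Syl2
import Cfsg.Agent.FGS.Pron
-- import your own Cfsg.Agent.* helpers here

set_option autoImplicit false
open Cfsg

namespace Cfsg.Agent.S2222

/-- In the alternating group of degree n ≥ 5 every subgroup H of odd index is pronormal: for every element g, the subgroups H and gHg⁻¹ are conjugate by an element of the subgroup they generate. -/
theorem result (n : ℕ) (hn : 5 ≤ n)
    (H : Subgroup (alternatingGroup (Fin n))) (hH : Odd H.index) : Cfsg.IsPronormal H := by
  have h2 : ¬ 2 ∣ H.index := by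
    rw [← even_iff_two_dvd]; exact Nat.not_even_iff_odd.mpr hH
  obtain ⟨S, hS⟩ := FGS.exists_sylow_le_of_not_dvd_index h2
  rcases (show n = 5 ∨ 6 ≤ n by omega) with rfl | h6
  · have hc : Nat.card (alternatingGroup (Fin 5)) = 60 := by
      have := two_mul_nat_card_alternatingGroup (α := Fin 5)
      rw [Nat.card_eq_fintype_card (α := Equiv.Perm (Fin 5)), Fintype.card_perm, Fintype.card_fin] at this
      simp only [Nat.factorial] at this
      omega
    have h3 : H.index ∣ 15 := by
      have := H.index_dvd_card
      rw [hc, show 60 = 15 * 2 ^ 2 by norm_num] at this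
      exact Nat.Coprime.dvd_of_dvd_mul_right
        (Nat.Coprime.pow_right 2 (Nat.coprime_two_right.mpr hH)) this
    have h4 : H.index ∈ Nat.divisors 15 := Nat.mem_divisors.mpr ⟨h3, by norm_num⟩
    have h5 : Nat.divisors 15 = {1, 3, 5, 15} := by decide
    rw [h5] at h4
    simp only [Finset.mem_insert, Finset.mem_singleton] at h4
    rcases h4 with e | e | e | e
    · exact Spec.pron_of_index (Or.inl e)
    · exact Spec.pron_of_index (Or.inr (by rw [e]; norm_num))
    · exact Spec.pron_of_index (Or.inr (by rw [e]; norm_num))
    · have h6 := H.index_mul_card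
      rw [hc, e] at h6
      have h7 : IsPGroup 2 H := IsPGroup.of_card (n := 2) (by omega)
      have h8 : H = S := (S.3 h7 hS)
      exact Spec.pron_of_sylow S hS (by rw [h8])
  · exact Spec.pron_of_sylow S hS
      ((Spec.sylow_two_alt_selfnorm (by simpa using h6) S).trans (hS.trans Subgroup.le_normalizer))

end Cfsg.Agent.S2222
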