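import Mathlib
import Cfsg.Statements.S2225
import Cfsg.Agent.ULT.PronB
import Cfsg.Agent.ULT.All
import Cfsg.Agent.Classical.PSL2Basic

set_option autoImplicit false
open Cfsg

namespace Cfsg.Agent.S2225


/-- Let F be a finite field and d = 2^w ≥ 2 a power of 2 such that PSL_d(F) is simple. Then every subgroup H of PSL_d(F) of odd index is pronormal: for every g, H and gHg⁻¹ are conjugate by an element of the subgroup they generate. -/
theorem result {F : Type*} [Field F] [Fintype F]
    (w : ℕ) (hw : 1 ≤ w) (hs : IsSimpleGroup (Matrix.ProjectiveSpecialLinearGroup (Fin (2 ^ w)) F))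
    (H : Subgroup (Matrix.ProjectiveSpecialLinearGroup (Fin (2 ^ w)) F)) (hH : Odd H.index) : Cfsg.IsPronormal H := by
  rcases ULT.two_ne_or F with h2 | h2
  · obtain rfl | ⟨n, rfl⟩ : w = 1 ∨ ∃ n, w = n + 2 := by
      rcases hw.eq_or_lt with h | h
      exacts [.inl h.symm, .inr ⟨w - 2, by omega⟩]
    exacts [ULT.pron_two h2 hH, ULT.pron_PSL h2 hH]
  obtain ⟨K, _, _, ⟨e⟩⟩ := Classical.Congr.exists_small F
  have : CharP K 2 := (RingHom.charP_iff e.toRingHom e.injective 2).mpr h2
  refine ULT.LT.pron (ULT.lt_PSL ⟨K, inferInstance, inferInstance, this, 2 ^ w,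
    Nat.pow_le_pow_right (n := 2) (by norm_num) hw, fun h => ?_,
    ⟨(Classical.Congr.pslCongr e).symm⟩⟩) hH
  rw [Fintype.card_congr e.toEquiv]
  have h3 := FiniteField.even_card_of_char_two (ringChar.eq F 2)
  have h4 := Fintype.one_lt_card (α := F)
  by_contra h5
  generalize 2 ^ w = n at h hs
  subst h
  obtain ⟨f⟩ := Classical.PSL2Basic.psl_equiv_S3 (F := F) (by rw [Nat.card_eq_fintype_card]; omega)
  have := f.symm.isSimpleGroup
  rcases (alternatingGroup.normal (α := Fin 3)).eq_bot_or_eq_top with h | h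
  · exact absurd ((Subgroup.eq_bot_iff_forall _).mp h (Equiv.swap 0 1 * Equiv.swap 1 2)
      (by simp [Equiv.Perm.mem_alternatingGroup])) (by decide)
  · simpa [Equiv.Perm.mem_alternatingGroup] using h.ge (Subgroup.mem_top (Equiv.swap 0 1))

end Cfsg.Agent.S2225
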