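import Mathlib
import Cfsg.Statements.S2226
import Cfsg.Agent.ULT.PronB
import Cfsg.Agent.ULT.All
import Cfsg.Agent.ULT.G22

set_option autoImplicit false
open Cfsg

namespace Cfsg.Agent.S2226


/-- Let F be a finite field with q² elements and d = 2^w ≥ 4 a power of 2 such that the unitary group PSU_d(q) (realised over F) is simple. Then every subgroup H of PSU_d(q) of odd index is pronormal: for every g, H and gHg⁻¹ are conjugate by an element of the subgroup they generate. -/
theorem result {F : Type*} [Field F] [Fintype F] (q : ℕ)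
    (hF : Fintype.card F = q ^ 2) (w : ℕ) (hw : 2 ≤ w) (hs : IsSimpleGroup (Cfsg.PSU (2 ^ w) F q))
    (H : Subgroup (Cfsg.PSU (2 ^ w) F q)) (hH : Odd H.index) : Cfsg.IsPronormal H := by
  rcases ULT.two_ne_or F with h2 | h2
  · obtain ⟨n, rfl⟩ := Nat.exists_eq_add_of_le' hw
    exact ULT.pron_PSU h2 (by rw [Nat.card_eq_fintype_card, hF]) hH
  obtain ⟨K, _, _, ⟨e⟩⟩ := Classical.Congr.exists_small F
  have : CharP K 2 := (RingHom.charP_iff e.toRingHom e.injective 2).mpr h2
  have h3 : 2 ^ 2 ≤ 2 ^ w := Nat.pow_le_pow_right (by norm_num) hw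
  exact (ULT.lt_PSU ⟨K, _, _, this, 2 ^ w, q, by rw [Fintype.card_congr e.toEquiv, hF], by omega,
    by omega, ⟨Classical.Congr.centerQuotCongr (ULT.suMap e.symm _ _)⟩⟩).pron hH

end Cfsg.Agent.S2226
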