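import Cfsg.Statements.S2227
import Mathlib
import Cfsg.Agent.DCE.E6.Fin

set_option autoImplicit false
open Cfsg

namespace Cfsg.Agent.S2227

/-- In the twisted group ²E₆(2) all elements of order 5 are conjugate, and the centralizer of an element of order 5 is isomorphic to the direct product of a cyclic group of order 5 with the alternating group of degree 8. -/
theorem result {K : Type*} [Field K] [Fintype K] (hK : Fintype.card K = 4) :
    (∀ x y : ↥(Cfsg.Lie.twistedE6 K 2), orderOf x = 5 → orderOf y = 5 → IsConj x y) ∧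
      ∀ x : ↥(Cfsg.Lie.twistedE6 K 2), orderOf x = 5 →
        Nonempty (↥(Subgroup.centralizer ({x} : Set ↥(Cfsg.Lie.twistedE6 K 2))) ≃* (Multiplicative (ZMod 5) × ↥(alternatingGroup (Fin 8)))) := by
  obtain ⟨a, ha⟩ := DCE.E6.conj_five hK
  have h1 : ∀ x y : ↥(Cfsg.Lie.twistedE6 K 2), orderOf x = 5 → orderOf y = 5 → IsConj x y :=
    fun x y hx hy => (ha x hx).symm.trans (ha y hy)
  refine ⟨h1, fun x hx => ?_⟩
  obtain ⟨b, hb, ⟨e⟩⟩ := DCE.E6.exists_iso hK
  obtain ⟨g, hg⟩ := isConj_iff.mp (h1 x b hx hb)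
  have h2 : (Subgroup.centralizer {x}).map (MulAut.conj g).toMonoidHom = Subgroup.centralizer {b} := by
    ext y
    rw [Subgroup.mem_map_equiv, Subgroup.mem_centralizer_singleton_iff,
      Subgroup.mem_centralizer_singleton_iff, ← hg, MulAut.conj_symm_apply]
    constructor
    · intro h
      calc y * (g * x * g⁻¹) = g * (g⁻¹ * y * g * x) * g⁻¹ := by group
        _ = _ := by rw [h]; group
    · intro h
      calc g⁻¹ * y * g * x = g⁻¹ * (y * (g * x * g⁻¹)) * g := by group
        _ = _ := by rw [h]; group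
  exact ⟨(((MulAut.conj g).subgroupMap _).trans (MulEquiv.subgroupCongr h2)).trans e⟩

end Cfsg.Agent.S2227
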