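import Mathlib
import Cfsg.Statements.S2239
import Cfsg.Agent.RankOne.SzOvoid
import Cfsg.Agent.RankOne.SzClass
-- import your own Cfsg.Agent.* helpers here

set_option autoImplicit false
open Cfsg

namespace Cfsg.Agent.S2239

/-- Subfield subgroups of the Suzuki group: let q = 2^(2m+1) and s = 2^(2k+1) with m, k ≥ 1 and 2k+1 dividing 2m+1 (so q is a power of s), both groups realised as stabilisers in SL₄ of the Suzuki–Tits ovoid. Then Sz(q) has a subgroup isomorphic to Sz(s), and any two subgroups of Sz(q) isomorphic to Sz(s) are conjugate. -/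
theorem result {F : Type*} [Field F] [Fintype F] {m : ℕ} (hm : 1 ≤ m) (hF : Fintype.card F = 2 ^ (2 * m + 1)) {K : Type*} [Field K] [Fintype K] {k : ℕ} (hk : 1 ≤ k) (hK : Fintype.card K = 2 ^ (2 * k + 1)) (hdiv : 2 * k + 1 ∣ 2 * m + 1) :
    (∃ S : Subgroup ↥(Cfsg.Sz F m), Nonempty (↥S ≃* ↥(Cfsg.Sz K k))) ∧
    ∀ S₁ S₂ : Subgroup ↥(Cfsg.Sz F m), Nonempty (↥S₁ ≃* ↥(Cfsg.Sz K k)) → Nonempty (↥S₂ ≃* ↥(Cfsg.Sz K k)) →
      ∃ g : ↥(Cfsg.Sz F m), S₂ = S₁.map (MulAut.conj g).toMonoidHom := by
  let Z := RankOne.Sz.model hF hm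
  let Y := RankOne.Sz.model hK hk
  have := Z.finite
  have hcard : ∀ a b : ℕ, 1 ≤ a → a < b → a ^ 2 * (a ^ 2 + 1) * (a - 1) < b ^ 2 * (b ^ 2 + 1) * (b - 1) := by
    intro a b h1 h2
    apply Nat.mul_lt_mul_of_le_of_lt _ (by omega) (Nat.mul_pos (pow_pos (by omega) _) (by positivity))
    gcongr
  have key : ∀ S : Subgroup (Cfsg.Sz F m), Nonempty (S ≃* Cfsg.Sz K k) →
      ∃ (g : Cfsg.Sz F m) (L : Subfield F), Nat.card L = Fintype.card K ∧ S = (Z.conj g).sub L := by
    rintro S ⟨e⟩
    have := Y.isSimpleGroup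
    have hns : ¬ Group.IsSolvable (Cfsg.Sz K k) := by
      intro h
      have := (IsSimpleGroup.comm_iff_isSolvable.mpr h) (Y.S 0 1) Y.t
      exact Y.S_zero_one_ne (Y.one_of_comm_t rfl this)
    rcases Z.subgroup_cases S with h | ⟨c, hc⟩ | ⟨g, L, hL, rfl⟩
    · exact absurd (solvable_of_surjective (f := e.toMonoidHom) e.surjective) hns
    · exfalso
      obtain ⟨X, rfl⟩ := Z.exists_model_one c
      have h1 : (e.symm Y.t : Cfsg.Sz F m) * e.symm Y.t = 1 := by
        rw [← Subgroup.coe_mul, ← map_mul, Y.t_mul_t, map_one, Subgroup.coe_one]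
      have h2 : (e.symm (Y.S 0 1) : Cfsg.Sz F m) * e.symm (Y.S 0 1) = 1 := by
        rw [← Subgroup.coe_mul, ← map_mul, Y.S_zero_mul_self, map_one, Subgroup.coe_one]
      obtain ⟨b, hb⟩ := X.exists_S_zero_of_involution (hc (e.symm Y.t).2) h1
      obtain ⟨c, hc⟩ := X.exists_S_zero_of_involution (hc (e.symm (Y.S 0 1)).2) h2
      apply Y.S_zero_one_ne (Y.one_of_comm_t rfl _)
      apply e.symm.injective
      apply Subtype.ext
      rw [map_mul, map_mul, Subgroup.coe_mul, Subgroup.coe_mul, hb, hc, X.S_zero_comm]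
    · refine ⟨g, L, ?_, rfl⟩
      obtain ⟨j, hj, h1, -⟩ := Z.exists_card_subfield L hL
      letI := Fintype.ofFinite L
      rw [Nat.card_eq_fintype_card] at h1
      obtain ⟨e'⟩ := (Z.conj g).nonempty_equiv_sub (RankOne.Sz.model h1 hj) L Nat.card_eq_fintype_card
      have h2 := Nat.card_congr (e'.symm.trans e).toEquiv
      rw [(RankOne.Sz.model h1 hj).card_G, Y.card_G] at h2
      rw [Nat.card_eq_fintype_card]
      rcases lt_trichotomy (Fintype.card L) (Fintype.card K) with h | h | h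
      · exact absurd h2 (hcard _ _ Fintype.card_pos h).ne
      · exact h
      · exact absurd h2 (hcard _ _ Fintype.card_pos h).ne'
  constructor
  · obtain ⟨f⟩ := (RankOne.nonempty_ringHom_iff (K := K) (F := F) Nat.prime_two (by rw [Nat.card_eq_fintype_card, hK])
      (by rw [Nat.card_eq_fintype_card, hF])).mpr hdiv
    exact ⟨_, ⟨(MonoidHom.ofInjective (Z.lift_inj Y f)).symm⟩⟩
  · intro S₁ S₂ h₁ h₂
    obtain ⟨g₁, L₁, e₁, rfl⟩ := key S₁ h₁
    obtain ⟨g₂, L₂, e₂, rfl⟩ := key S₂ h₂
    have hle : ∀ L L' : Subfield F, Nat.card L = Fintype.card K → Nat.card L' = Fintype.card K → L ≤ L' := by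
      classical
      intro L L' e e' x hx
      have h1 : ∀ L : Subfield F, Nat.card L = Fintype.card K → ∀ x ∈ L,
          x ∈ (Polynomial.X ^ Fintype.card K - Polynomial.X : Polynomial F).roots.toFinset := by
        intro L e x hx
        letI := Fintype.ofFinite L
        rw [Multiset.mem_toFinset, Polynomial.mem_roots
          (FiniteField.X_pow_card_sub_X_ne_zero F Fintype.one_lt_card)]
        have := congrArg Subtype.val (FiniteField.pow_card (⟨x, hx⟩ : L))
        rw [← Nat.card_eq_fintype_card, e] at this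
        simpa [sub_eq_zero] using this
      have h2 : (L' : Set F).toFinset = (Polynomial.X ^ Fintype.card K - Polynomial.X : Polynomial F).roots.toFinset := by
        apply Finset.eq_of_subset_of_card_le (fun y hy => h1 L' e' y (by simpa using hy))
        rw [← Set.ncard_eq_toFinset_card', ← Nat.card_coe_set_eq]
        change _ ≤ Nat.card L'
        rw [e']
        exact (Multiset.toFinset_card_le _).trans ((Polynomial.card_roots' _).trans
          (FiniteField.X_pow_card_sub_X_natDegree_eq F Fintype.one_lt_card).le)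
      have := h1 L e x hx
      rw [← h2] at this
      simpa using this
    obtain rfl : L₁ = L₂ := le_antisymm (hle _ _ e₁ e₂) (hle _ _ e₂ e₁)
    refine ⟨g₂ * g₁⁻¹, ?_⟩
    rw [Z.conj_sub, Z.conj_sub, Subgroup.map_map]
    congr 1
    ext x
    simp [mul_assoc]

end Cfsg.Agent.S2239
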