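import Mathlib
import Cfsg.Statements.S2240
import Cfsg.Agent.RankOne.SzOvoid
import Cfsg.Agent.RankOne.SzSub
import Cfsg.Agent.RankOne.FieldTwo
-- import your own Cfsg.Agent.* helpers here

set_option autoImplicit false
open Cfsg

namespace Cfsg.Agent.S2240

/-- Elementary abelian TI-subgroups of the Suzuki group: let q = 2^(2m+1) with m ≥ 1, the group realised as the stabiliser in SL₄ of the Suzuki–Tits ovoid, and n ≥ 2. There is an elementary abelian 2-subgroup E of order 2^n that is a TI-subgroup (every conjugate of E meeting E nontrivially is E itself) if and only if n divides 2m + 1. -/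
theorem result {F : Type*} [Field F] [Fintype F] {m : ℕ} (hm : 1 ≤ m) (hF : Fintype.card F = 2 ^ (2 * m + 1)) (n : ℕ) (hn : 2 ≤ n) :
    (∃ E : Subgroup ↥(Cfsg.Sz F m), Cfsg.IsElementaryAbelian 2 E ∧ Nat.card ↥E = 2 ^ n ∧
      ∀ x : ↥(Cfsg.Sz F m), E ⊓ E.map (MulAut.conj x).toMonoidHom ≠ ⊥ → x ∈ Subgroup.normalizer (E : Set ↥(Cfsg.Sz F m))) ↔ n ∣ 2 * m + 1 := by
  let Z := RankOne.Sz.model hF hm
  have hF' : Nat.card F = 2 ^ (2 * m + 1) := by rw [Nat.card_eq_fintype_card, hF]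
  have := Z.charP
  have := Z.finite
  constructor
  · rintro ⟨E, ⟨hE1, hE2⟩, hc, hTI⟩
    obtain ⟨Y, hY⟩ := Z.exists_model_of_isPGroup (IsPGroup.of_card hc)
    have h0 : ∀ g ∈ E, ∃ b, g = Y.S 0 b := fun g hg =>
      Y.exists_S_zero_of_involution (Y.Q_le_B (hY hg)) (by rw [← sq]; exact hE2 g hg)
    have h1 : ∀ μ b : F, b ≠ 0 → Y.S 0 b ∈ E → Y.S 0 (μ * b) ∈ E → ∀ c, Y.S 0 c ∈ E → Y.S 0 (μ * c) ∈ E := by
      intro μ b hb h1 h2 c h3
      by_cases hμ : μ = 0
      · rw [hμ, zero_mul, Y.S_zero]; exact E.one_mem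
      obtain ⟨κ, hκ⟩ := Y.exists_unit_mul_θ one_ne_zero hμ
      rw [mul_one] at hκ
      have e : ∀ c, Y.M κ * Y.S 0 c * (Y.M κ)⁻¹ = Y.S 0 (μ * c) := fun c => by
        rw [Y.M_conj_S, mul_zero, hκ]
      have h4 := hTI (Y.M κ) (Subgroup.ne_bot_iff_exists_ne_one.mpr ⟨⟨_, h2, _, h1, e b⟩, fun h => by
        have := Y.S_eq_one_iff.mp (congrArg Subtype.val h)
        simp [hμ, hb] at this⟩)
      rw [← e]
      exact (Subgroup.mem_normalizer_iff.mp h4 _).mp h3
    obtain ⟨w, hw0, hw⟩ : ∃ w, w ≠ 0 ∧ Y.S 0 w ∈ E := by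
      have : E ≠ ⊥ := by
        rintro rfl
        rw [Subgroup.card_bot] at hc
        have := Nat.one_lt_two_pow (n := n) (by omega)
        omega
      obtain ⟨⟨g, hg⟩, hg1⟩ := Subgroup.ne_bot_iff_exists_ne_one.mp this
      obtain ⟨b, rfl⟩ := h0 g hg
      exact ⟨b, by rintro rfl; exact hg1 (Subtype.ext Y.S_zero), hg⟩
    let K : Subfield F :=
      { carrier := {μ | Y.S 0 (μ * w) ∈ E}
        mul_mem' := fun {x y} hx hy => by
          have := h1 x w hw0 hw hx _ hy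
          rwa [← mul_assoc] at this
        one_mem' := by simpa using hw
        add_mem' := fun {x y} hx hy => by
          have := E.mul_mem hx hy
          rwa [Y.S_zero_mul, ← add_mul] at this
        zero_mem' := by simp [Y.S_zero]
        neg_mem' := fun {x} hx => by rwa [CharTwo.neg_eq]
        inv_mem' := fun x hx => by
          by_cases h : x = 0
          · simp [h, Y.S_zero]
          · exact h1 x⁻¹ (x * w) (mul_ne_zero h hw0) hx (by rwa [inv_mul_cancel_left₀ h]) w hw }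
    have hK : Nat.card K = 2 ^ n := by
      rw [← hc]
      apply Nat.card_eq_of_bijective (fun μ : K => (⟨Y.S 0 (μ * w), μ.2⟩ : E))
      constructor
      · intro x y h
        exact Subtype.ext (mul_right_cancel₀ hw0 (Y.S_inj (congrArg Subtype.val h)).2)
      · rintro ⟨g, hg⟩
        obtain ⟨b, rfl⟩ := h0 g hg
        exact ⟨⟨b / w, by change Y.S 0 (b / w * w) ∈ E; rwa [div_mul_cancel₀ _ hw0]⟩,
          Subtype.ext (by simp [hw0])⟩
    exact (RankOne.nonempty_ringHom_iff Nat.prime_two hK hF').mp ⟨K.subtype⟩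
  · intro h
    have : Fact (Nat.Prime 2) := ⟨Nat.prime_two⟩
    obtain ⟨f⟩ := (RankOne.nonempty_ringHom_iff Nat.prime_two (GaloisField.card 2 n (by omega)) hF').mpr h
    let φ : Multiplicative (GaloisField 2 n) →* Cfsg.Sz F m :=
      { toFun := fun x => Z.S 0 (f x.toAdd)
        map_one' := by simp [Z.S_zero]
        map_mul' := fun x y => by simp [Z.S_zero_mul] }
    have hφ : Function.Injective φ := fun x y h => f.injective (Z.S_inj h).2
    have hmem : ∀ g, g ∈ φ.range ↔ ∃ x, Z.S 0 (f x) = g := fun g => Iff.rfl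
    refine ⟨φ.range, ⟨inferInstance, ?_⟩, ?_, ?_⟩
    · rintro _ ⟨x, rfl⟩
      rw [sq]; exact Z.S_zero_mul_self _
    · rw [← Nat.card_congr (MonoidHom.ofInjective hφ).toEquiv]
      exact GaloisField.card 2 n (by omega)
    · intro g hg
      obtain ⟨⟨u, ⟨x, hx⟩, _, ⟨y, rfl⟩, hy⟩, hu1⟩ := Subgroup.ne_bot_iff_exists_ne_one.mp hg
      have hu1' : u ≠ 1 := fun h => hu1 (Subtype.ext h)
      change g * Z.S 0 (f y.toAdd) * g⁻¹ = u at hy
      change Z.S 0 (f x.toAdd) = u at hx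
      have hy1 : Z.S 0 (f y.toAdd) ≠ 1 := by
        intro h; rw [h] at hy; exact hu1' (by simpa using hy.symm)
      have hB := Z.mem_B_of_conj_mem_Q (Z.S_mem _ _) hy1 (hy ▸ hx ▸ Z.S_mem _ _)
      have hy0 : f y.toAdd ≠ 0 := by intro h; exact hy1 (by rw [h, Z.S_zero])
      obtain ⟨a, b, κ, rfl⟩ := Z.exists_S_mul_M hB
      have e : ∀ c, Z.S a b * Z.M κ * Z.S 0 c * (Z.S a b * Z.M κ)⁻¹ = Z.S 0 (κ * Z.θ κ * c) := by
        intro c
        calc _ = Z.S a b * (Z.M κ * Z.S 0 c * (Z.M κ)⁻¹) * (Z.S a b)⁻¹ := by group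
          _ = _ := by rw [Z.M_conj_S, mul_zero, ← Z.S_zero_comm, mul_inv_cancel_right]
      rw [e, ← hx] at hy
      have h2 : (κ : F) * Z.θ κ = f (x.toAdd / y.toAdd) := by
        rw [map_div₀, ← (Z.S_inj hy).2, mul_div_cancel_right₀ _ hy0]
      apply Subgroup.mem_normalizer_fintype
      rintro _ ⟨z, rfl⟩
      change Z.S a b * Z.M κ * Z.S 0 (f z.toAdd) * (Z.S a b * Z.M κ)⁻¹ ∈ _
      rw [e, h2, ← map_mul]
      exact (hmem _).mpr ⟨_, rfl⟩

end Cfsg.Agent.S2240
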