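import Mathlib
import Cfsg.Statements.S2251
import Cfsg.Agent.RankOne.SzOvoid
import Cfsg.Agent.RankOne.SzClass
-- import your own Cfsg.Agent.* helpers here

set_option autoImplicit false
open Cfsg

namespace Cfsg.Agent.S2251

/-- The subgroups of the Suzuki group: with q = 2^(2m+1), m ≥ 1, r = 2^m and the group realised as the stabiliser in SL₄ of the Suzuki–Tits ovoid, every proper subgroup is contained in the normalizer of a Sylow 2-subgroup, or in the normalizer of a cyclic subgroup of order q − 1, q + 2r + 1 or q − 2r + 1, or in a subgroup isomorphic to a smaller Suzuki group Sz(s) with s = 2^(2k+1) ≥ 8 and 2k+1 a proper divisor of 2m+1. -/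
theorem result {F : Type*} [Field F] [Fintype F] {m : ℕ} (hm : 1 ≤ m) (hF : Fintype.card F = 2 ^ (2 * m + 1)) (M : Subgroup ↥(Cfsg.Sz F m)) (hM : M ≠ ⊤) :
    (∃ P : Sylow 2 ↥(Cfsg.Sz F m), M ≤ Subgroup.normalizer ((P : Subgroup ↥(Cfsg.Sz F m)) : Set ↥(Cfsg.Sz F m))) ∨
    (∃ U : Subgroup ↥(Cfsg.Sz F m), IsCyclic ↥U ∧ Nat.card ↥U ∈ ({2 ^ (2 * m + 1) - 1, 2 ^ (2 * m + 1) + 2 ^ (m + 1) + 1, 2 ^ (2 * m + 1) - 2 ^ (m + 1) + 1} : Set ℕ) ∧
      M ≤ Subgroup.normalizer (U : Set ↥(Cfsg.Sz F m))) ∨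
    (∃ (K : Type) (_ : Field K) (_ : Fintype K) (k : ℕ), 1 ≤ k ∧ k < m ∧ Fintype.card K = 2 ^ (2 * k + 1) ∧ 2 * k + 1 ∣ 2 * m + 1 ∧
      ∃ S : Subgroup ↥(Cfsg.Sz F m), Nonempty (↥S ≃* ↥(Cfsg.Sz K k)) ∧ M ≤ S) := by
  let Z := RankOne.Sz.model hF hm
  have hB : ∀ c : Cfsg.suzukiOvoid F m, M ≤ MulAction.stabilizer _ c → ∃ P : Sylow 2 ↥(Cfsg.Sz F m),
      M ≤ Subgroup.normalizer ((P : Subgroup ↥(Cfsg.Sz F m)) : Set ↥(Cfsg.Sz F m)) := by
    intro c hc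
    obtain ⟨Y, rfl⟩ := Z.exists_model_one c
    exact ⟨Y.sylowQ, by rw [Y.coe_sylowQ, Y.normalizer_Q]; exact hc⟩
  rcases Z.subgroup_cases M with h | ⟨c, hc⟩ | ⟨g, K, hK, rfl⟩
  · rcases Z.solvable_cases h with ⟨c, hc⟩ | ⟨Y, hY⟩ | ⟨g, hg, h⟩
    · exact Or.inl (hB c hc)
    · exact Or.inr (Or.inl ⟨Y.D, Y.isCyclic_D, Or.inl (by rw [Y.card_D, hF]), hY⟩)
    · exact Or.inr (Or.inl ⟨_, Z.isCyclic_centralizer_fpf hg, Or.inr (Z.card_torus hg), h⟩)
  · exact Or.inl (hB c hc)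
  · right; right
    obtain ⟨k, hk, h1, h2⟩ := Z.exists_card_subfield K hK
    have : Fact (Nat.Prime 2) := ⟨Nat.prime_two⟩
    letI := Fintype.ofFinite (GaloisField 2 (2 * k + 1))
    have h3 : Fintype.card (GaloisField 2 (2 * k + 1)) = 2 ^ (2 * k + 1) := by
      rw [← Nat.card_eq_fintype_card, GaloisField.card 2 _ (by omega)]
    refine ⟨GaloisField 2 (2 * k + 1), inferInstance, inferInstance, k, hk, ?_, h3, h2, _,
      (Z.conj g).nonempty_equiv_sub (RankOne.Sz.model h3 hk) K (by rw [h1, h3]), le_rfl⟩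
    have h4 := Nat.le_of_dvd (by omega) h2
    by_contra h5
    have h6 : k = m := by omega
    subst h6
    apply hM
    have : K = ⊤ := by
      have : K.toAddSubgroup = ⊤ := AddSubgroup.eq_top_of_card_eq _ (by
        rw [Nat.card_eq_fintype_card (α := F), hF, ← h1]; rfl)
      rw [eq_top_iff]
      intro x _
      exact (show x ∈ K.toAddSubgroup from this ▸ AddSubgroup.mem_top x)
    rw [this, RankOne.Sz.Model.sub_top]

end Cfsg.Agent.S2251
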