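import Mathlib
import Cfsg.Statements.S2254
import Cfsg.Agent.SymNil.Conj

set_option autoImplicit false
open Cfsg

namespace Cfsg.Agent.S2254

open Cfsg.Agent.SymNil

/-- Let n ≡ 3 (mod 4). Then every nilpotent subgroup of the symmetric group on n letters has order at most 3 times the order of a Sylow 2-subgroup of the symmetric group on n − 3 letters; the bound is attained by a nilpotent subgroup isomorphic to the direct product of such a Sylow 2-subgroup with a cyclic group of order 3; and any two nilpotent subgroups attaining the bound are conjugate. -/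
theorem result  (n : ℕ) (hn : n % 4 = 3)
    (P : Sylow 2 (Equiv.Perm (Fin (n - 3)))) :
    (∀ N : Subgroup (Equiv.Perm (Fin n)), Group.IsNilpotent N → Nat.card N ≤ 3 * Nat.card P) ∧
    (∃ M : Subgroup (Equiv.Perm (Fin n)), Group.IsNilpotent M ∧ Nat.card M = 3 * Nat.card P ∧
      Nonempty (M ≃* (↥(P : Subgroup (Equiv.Perm (Fin (n - 3)))) × Multiplicative (ZMod 3)))) ∧
    (∀ N₁ N₂ : Subgroup (Equiv.Perm (Fin n)), Group.IsNilpotent N₁ → Group.IsNilpotent N₂ →
      Nat.card N₁ = 3 * Nat.card P → Nat.card N₂ = 3 * Nat.card P →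
      ∃ g : Equiv.Perm (Fin n), N₂ = N₁.map (MulAut.conj g).toMonoidHom) := by
  have h3 : 3 ≤ n := by omega
  have e := g_add_three (n := n - 3) (by omega)
  rw [Nat.sub_add_cancel h3] at e
  refine ⟨fun N hN => ?_, ?_, fun N₁ N₂ n₁ n₂ c₁ c₂ => ?_⟩
  · have := (sym_aux n _ N hN (Fintype.card_fin n)).1
    rw [card_sylow_sym]
    omega
  · obtain ⟨f, hf, -⟩ := exists_emb n h3
    exact exists_prod _ P.isPGroup' f hf
  rw [card_sylow_sym] at c₁ c₂
  have := g_pos (n - 3)
  have key : ∀ N : Subgroup (Equiv.Perm (Fin n)), Group.IsNilpotent N → Nat.card N = 3 * g (n - 3) →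
      ∃ c ∈ N, c.IsThreeCycle ∧ IsPGroup 2 (N ⊓ Fx c.supportᶜ : Subgroup _) ∧
      (Fx c.supportᶜ).relIndex N = 3 := fun N hN hc => by
    rcases (sym_aux n _ N hN (Fintype.card_fin n)).2 with h | h | h
    · have := two_le_g h
      rw [Fintype.card_fin] at this
      omega
    · exact h
    · omega
  obtain ⟨x₁, h₁, t₁, p₁, i₁⟩ := key N₁ n₁ c₁
  obtain ⟨x₂, h₂, t₂, p₂, i₂⟩ := key N₂ n₂ c₂
  obtain ⟨x, hx⟩ := isConj_iff.1 (Equiv.Perm.isConj_iff_cycleType_eq.2 (t₁.trans t₂.symm))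
  obtain ⟨y, -, hy⟩ := conj_of_three (Γ := ⊤) le_top le_top h₁ h₂ t₁ t₂ p₁ p₂ i₁ i₂ trivial hx
    (c₁.trans c₂.symm) fun Q hQ h => by
      have := (card_le_of_Fx t₂ hQ (h.trans inf_le_right)).1
      rw [Fintype.card_fin] at this
      omega
  exact ⟨y, hy⟩

end Cfsg.Agent.S2254
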