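import Mathlib
import Cfsg.Statements.S2255
import Cfsg.Agent.SymNil.Conj

set_option autoImplicit false
open Cfsg

namespace Cfsg.Agent.S2255

open Cfsg.Agent.SymNil

/-- Let n be a natural number not congruent to 3 modulo 4, with n ∉ {5, 6, 9}. Then every nilpotent subgroup of the alternating group on n letters has order at most the order of a Sylow 2-subgroup of the alternating group (so the nilpotent subgroups of largest order are exactly the Sylow 2-subgroups). -/
theorem result  (n : ℕ) (hn : n % 4 ≠ 3)
    (h5 : n ≠ 5) (h6 : n ≠ 6) (h9 : n ≠ 9)
    (N : Subgroup (alternatingGroup (Fin n))) (hN : Group.IsNilpotent N)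
    (P : Sylow 2 (alternatingGroup (Fin n))) :
    Nat.card N ≤ Nat.card P := by
  have hc : Nat.card (N.map (alternatingGroup (Fin n)).subtype) = Nat.card N :=
    Subgroup.card_map_of_injective (Subgroup.subtype_injective _)
  have hA : N.map (alternatingGroup (Fin n)).subtype ≤ alternatingGroup (Fin n) :=
    Subgroup.map_subtype_le _
  by_cases h2 : n < 2
  · have h := (sym_aux n _ _ (Core.nilpotent_map hN (alternatingGroup (Fin n)).subtype)
      (Fintype.card_fin n)).1
    have : g n = 1 := by
      interval_cases n
      exacts [g_zero, g_one]
    have : 0 < Nat.card P := Nat.card_pos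
    omega
  have hP := card_sylow_alt (not_lt.1 h2) P
  rcases (alt_aux n _ _ (Core.nilpotent_map hN _) hA (Fintype.card_fin n)).2 with
    h | ⟨c, -, h1, h2', h3⟩ | h
  · have := two_le_g_alt h hA (by simp; omega)
    rw [Fintype.card_fin] at this
    omega
  · obtain ⟨a, b, d⟩ := card_three h1 h2' h3
    rw [Fintype.card_fin] at a b d
    have := g_add_three' (n := n - 3) (by omega)
    rw [Nat.sub_add_cancel a] at this
    by_cases h4 : n = 4
    · subst h4
      have : 8 ≤ g 4 := le_g (k := 3) (by decide)
      rw [g_one] at b
      omega
    · have := d hA (by omega)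
      omega
  · omega

end Cfsg.Agent.S2255
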