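import Mathlib
import Cfsg.Statements.S2256
import Cfsg.Agent.SymNil.Conj

set_option autoImplicit false
open Cfsg

namespace Cfsg.Agent.S2256

open Cfsg.Agent.SymNil

/-- Let n ≡ 3 (mod 4) with n ≥ 7. Then every nilpotent subgroup of the alternating group on n letters has order at most 3 times the order of a Sylow 2-subgroup of the alternating group on n − 3 letters; the bound is attained by a nilpotent subgroup isomorphic to the direct product of such a Sylow 2-subgroup with a cyclic group of order 3; and any two nilpotent subgroups of the alternating group attaining the bound are conjugate in it. -/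
theorem result  (n : ℕ) (hn : n % 4 = 3) (h7 : 7 ≤ n)
    (P : Sylow 2 (alternatingGroup (Fin (n - 3)))) :
    (∀ N : Subgroup (alternatingGroup (Fin n)), Group.IsNilpotent N → Nat.card N ≤ 3 * Nat.card P) ∧
    (∃ M : Subgroup (alternatingGroup (Fin n)), Group.IsNilpotent M ∧ Nat.card M = 3 * Nat.card P ∧
      Nonempty (M ≃* (↥(P : Subgroup (alternatingGroup (Fin (n - 3)))) × Multiplicative (ZMod 3)))) ∧
    (∀ N₁ N₂ : Subgroup (alternatingGroup (Fin n)), Group.IsNilpotent N₁ → Group.IsNilpotent N₂ →
      Nat.card N₁ = 3 * Nat.card P → Nat.card N₂ = 3 * Nat.card P →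
      ∃ g : alternatingGroup (Fin n), N₂ = N₁.map (MulAut.conj g).toMonoidHom) := by
  have h3 : 3 ≤ n := by omega
  have e := g_add_three (n := n - 3) (by omega)
  rw [Nat.sub_add_cancel h3] at e
  have hP := card_sylow_alt (n := n - 3) (by omega) P
  have hc : ∀ N : Subgroup (alternatingGroup (Fin n)),
      Nat.card (N.map (alternatingGroup (Fin n)).subtype) = Nat.card N := fun N =>
    Subgroup.card_map_of_injective (Subgroup.subtype_injective _)
  have hA : ∀ N : Subgroup (alternatingGroup (Fin n)),
      N.map (alternatingGroup (Fin n)).subtype ≤ alternatingGroup (Fin n) := fun N =>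
    Subgroup.map_subtype_le _
  refine ⟨fun N hN => ?_, ?_, fun N₁ N₂ n₁ n₂ c₁ c₂ => ?_⟩
  · have := (alt_aux n _ _ (Core.nilpotent_map hN _) (hA N) (Fintype.card_fin n)).1 (by omega) (by omega)
    rw [hc] at this
    omega
  · obtain ⟨f, hf, hs⟩ := exists_emb n h3
    refine exists_prod _ P.isPGroup' ((f.comp ((alternatingGroup _).subtype.prodMap
      (MonoidHom.id _))).codRestrict _ fun x => ?_) fun x y h => ?_
    · exact Equiv.Perm.mem_alternatingGroup.2 ((hs _).trans x.1.2)
    · exact ((Subgroup.subtype_injective _).prodMap Function.injective_id) (hf (congrArg Subtype.val h))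
  have := g_pos (n - 3)
  have key : ∀ N : Subgroup (alternatingGroup (Fin n)), Group.IsNilpotent N →
      Nat.card N = 3 * Nat.card P → ∃ c ∈ N.map (alternatingGroup (Fin n)).subtype, c.IsThreeCycle ∧
      IsPGroup 2 (N.map (alternatingGroup (Fin n)).subtype ⊓ Fx c.supportᶜ : Subgroup _) ∧
      (Fx c.supportᶜ).relIndex (N.map (alternatingGroup (Fin n)).subtype) = 3 := fun N hN h0 => by
    have := hc N
    rcases (alt_aux n _ _ (Core.nilpotent_map hN _) (hA N) (Fintype.card_fin n)).2 with h | h | h
    · have := two_le_g_alt h (hA N) (by simp; omega)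
      rw [Fintype.card_fin] at this
      omega
    · exact h
    · omega
  obtain ⟨x₁, h₁, t₁, p₁, i₁⟩ := key N₁ n₁ c₁
  obtain ⟨x₂, h₂, t₂, p₂, i₂⟩ := key N₂ n₂ c₂
  obtain ⟨x, hx⟩ := isConj_iff.1 (alternatingGroup.isThreeCycle_isConj (by simp; omega)
    (σ := ⟨x₁, t₁.mem_alternatingGroup⟩) (τ := ⟨x₂, t₂.mem_alternatingGroup⟩) t₁ t₂)
  obtain ⟨y, hy, ey⟩ := conj_of_three (hA N₁) (hA N₂) h₁ h₂ t₁ t₂ p₁ p₂ i₁ i₂ x.2
    (congrArg Subtype.val hx) (by rw [hc, hc, c₁, c₂]) fun Q hQ h => by
      have := (card_le_of_Fx t₂ hQ (h.trans inf_le_right)).2 (h.trans inf_le_left) (by simp; omega)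
      rw [Fintype.card_fin] at this
      rw [hc]
      omega
  refine ⟨⟨y, hy⟩, Subgroup.map_injective (Subgroup.subtype_injective _) ?_⟩
  rw [ey, Subgroup.map_map, Subgroup.map_map]
  rfl

end Cfsg.Agent.S2256
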