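import Mathlib
import Cfsg.Statements.S2257
import Cfsg.Agent.Max.L2h

set_option autoImplicit false
open Cfsg

namespace Cfsg.Agent.S2257

open scoped Pointwise
open Cfsg.Agent.Max.L2 Cfsg.Agent.Classical.PSL2Basic Cfsg.Agent.Classical.P1Ident
  Cfsg.Agent.Classical.Congr Cfsg.Agent.Classical.P1
open Cfsg.Agent.Classical.P1Inst

/-- Let G = PSL_2(F) with F a field of order q = 2^p, p prime, and for x ∈ G call the solubilizer of x the set of y ∈ G such that x and y generate a solvable subgroup. Then the solubilizer of an involution has 3q(q − 1) elements; that of a non-identity element of order dividing q − 1 has 2q(q − 1) elements; and that of a non-identity element of order dividing q + 1 has 2(q + 1) elements. -/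
theorem result (p : ℕ) (hp : p.Prime) {F : Type*} [Field F] [Fintype F]
    (hF : Fintype.card F = 2 ^ p) (x : Matrix.ProjectiveSpecialLinearGroup (Fin 2) F) :
    (orderOf x = 2 → Nat.card {y : Matrix.ProjectiveSpecialLinearGroup (Fin 2) F // Group.IsSolvable ↥(Subgroup.closure ({x, y} : Set (Matrix.ProjectiveSpecialLinearGroup (Fin 2) F)))} = 3 * 2 ^ p * (2 ^ p - 1)) ∧
    (x ≠ 1 → orderOf x ∣ 2 ^ p - 1 → Nat.card {y : Matrix.ProjectiveSpecialLinearGroup (Fin 2) F // Group.IsSolvable ↥(Subgroup.closure ({x, y} : Set (Matrix.ProjectiveSpecialLinearGroup (Fin 2) F)))} = 2 * 2 ^ p * (2 ^ p - 1)) ∧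
    (x ≠ 1 → orderOf x ∣ 2 ^ p + 1 → Nat.card {y : Matrix.ProjectiveSpecialLinearGroup (Fin 2) F // Group.IsSolvable ↥(Subgroup.closure ({x, y} : Set (Matrix.ProjectiveSpecialLinearGroup (Fin 2) F)))} = 2 * (2 ^ p + 1)) := by
  rw [← Nat.card_eq_fintype_card] at hF
  haveI : Fact (Nat.Prime 2) := ⟨Nat.prime_two⟩
  haveI := charP_of_card (F := F) hF
  have h2 : (2 : F) = 0 := CharTwo.two_eq_zero
  have hd : dd F = 1 := gcd_eq_one h2
  have q4 : 4 ≤ Nat.card F := hF ▸ Nat.pow_le_pow_right two_pos hp.two_le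
  have hG : Gen (toP x) := fun y hy => by
    have h3 : toP x ∈ Subgroup.closure {toP x, y} := Subgroup.subset_closure (by simp)
    have h4 : y ∈ Subgroup.closure {toP x, y} := Subgroup.subset_closure (by simp)
    rcases dickson2 (Subgroup.closure {toP x, y}) with ⟨z, h⟩ | ⟨T, D, k, hT, h⟩ | h | ⟨K, c, hK, h⟩
    · exact Or.inl ⟨z, h h3, h h4⟩
    · exact Or.inr ⟨T, D, k, hT, h h3, h h4⟩
    · exact absurd h2 h.1
    · rcases sub_cases Nat.prime_two hp hF K with e | rfl
      · omega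
      · exact absurd (solvable_of_le (LL_le_of_top h) hy.2) (not_solvable_LL q4)
  have key : ∀ k, (k = Nat.card F - 1 ∨ k = Nat.card F + 1) → x ≠ 1 → orderOf x ∣ k →
      toP x * toP x ≠ 1 ∧ ∃ T D, Tor T D k ∧ toP x ∈ T := by
    intro k hk h1 h3
    have h4 : orderOf x ≠ 1 := mt orderOf_eq_one_iff.1 h1
    have h5 : 2 ∣ Nat.card F := hF ▸ dvd_pow_self 2 hp.ne_zero
    have h6 : ¬ orderOf x ∣ 2 := fun h => by
      rw [(Nat.dvd_prime Nat.prime_two).1 h |>.resolve_left h4] at h3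
      omega
    have h7 : toP x ^ 2 ≠ 1 := by
      rwa [Ne, ← orderOf_dvd_iff_pow_eq_one, orderOf_injective toP toP_injective]
    exact ⟨by rwa [← sq], tor_of_dvd h7 (by rwa [← sq]) hk
      (by rwa [orderOf_injective toP toP_injective])⟩
  rw [card_Sol, ← hF]
  refine ⟨fun h => ?_, fun h1 h => ?_, fun h1 h => ?_⟩
  · rw [← orderOf_injective toP toP_injective] at h
    have hL : toP x ∈ LL F := ⟨x, rfl⟩
    generalize toP x = u at h hL hG
    have u1 : u ≠ 1 := by rintro rfl; simp at h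
    have u2 : u ^ 2 = 1 := orderOf_dvd_iff_pow_eq_one.1 h.dvd
    have u3 : u * u = 1 := by rwa [← sq]
    obtain ⟨c, hc⟩ := exists_UU u2
    have hz := (mem_UU_iff.1 hc).1
    let B : Set (Matrix.ProjGenLinGroup (Fin 2) F) :=
      (MulAction.stabilizer _ (c • (inf : PL F)) ⊓ LL F : Subgroup _)
    let I := {y | y ∈ LL F ∧ y * y = 1}
    let J := {y | y ∈ LL F ∧ u * y * (u * y) = 1}
    have e1 : Sol u = B ∪ I ∪ J := by
      ext y
      constructor
      · intro hy
        rcases hG y hy with ⟨z, h3, h4⟩ | ⟨T, D, k, hT, h3, h4⟩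
        · obtain rfl : z = c • inf := by_contra fun e => u1 (unip_fix u u2 _ _ h3 hz e)
          exact Or.inl (Or.inl ⟨h4, hy.1⟩)
        · by_cases h5 : y ∈ T
          · exact Or.inr ⟨hy.1, hT.sq _ (mul_mem h3 h4) fun e =>
              u1 (hT.ss ((T.mul_mem_cancel_right h5).1 e) u2)⟩
          · exact Or.inl (Or.inr ⟨hy.1, hT.sq _ h4 h5⟩)
      · rintro ((hy | hy) | hy)
        exacts [mem_Sol_of (solvable_stab _) hz hy.1 hy.2, mem_Sol_inv u3 hy.1 (Or.inl hy.2),
          mem_Sol_inv u3 hy.1 (Or.inr hy.2)]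
    have e2 : B ∩ I = UU c := by
      ext y
      exact ⟨fun h => mem_UU_iff.2 ⟨h.1.1, by rw [sq, h.2.2]⟩, fun h =>
        ⟨⟨(mem_UU_iff.1 h).1, UU_le_LL c h⟩, UU_le_LL c h, by rw [← sq, (mem_UU_iff.1 h).2]⟩⟩
    have e3 : (B ∪ I) ∩ J = UU c := by
      ext y
      constructor
      · rintro ⟨h3 | h3, h4⟩
        · exact ((UU c).mul_mem_cancel_left hc).1
            (mem_UU_iff.2 ⟨mul_mem (s := MulAction.stabilizer _ _) hz h3.1, by rw [sq, h4.2]⟩)
        · rw [← centralizer_UU hc u1]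
          refine Subgroup.mem_centralizer_singleton_iff.2 ?_
          rw [← inv_eq_of_mul_eq_one_right h4.2, mul_inv_rev, inv_eq_of_mul_eq_one_right h3.2,
            inv_eq_of_mul_eq_one_right u3]
      · exact fun h => ⟨Or.inl ⟨(mem_UU_iff.1 h).1, UU_le_LL c h⟩, UU_le_LL c h,
          by rw [← sq, (mem_UU_iff.1 (mul_mem hc h)).2]⟩
    have c1 := Set.ncard_union_add_ncard_inter B I
    have c2 := Set.ncard_union_add_ncard_inter (B ∪ I) J
    have c3 := card_stab_inf (c • (inf : PL F))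
    have c4 := Subgroup.index_mul_card (UU c)
    rw [card_UU, card_PGL_two, mul_comm, Nat.mul_left_cancel_iff (by omega)] at c4
    rw [hd, one_mul] at c3
    rw [e2, ncard_coe, ncard_coe, c3, card_inv hL u1 u3, centralizer_UU hc u1, c4, card_UU] at c1
    rw [e3, ← e1, ncard_coe, card_inv' hL, card_inv hL u1 u3, centralizer_UU hc u1, c4,
      card_UU] at c2
    obtain ⟨n, hn⟩ : ∃ n, Nat.card F = n + 1 := ⟨Nat.card F - 1, by omega⟩
    rw [hn] at c1 c2 ⊢
    have : (n + 1) ^ 2 - 1 + 1 = n * n + 2 * n + 1 := by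
      rw [Nat.sub_add_cancel (Nat.one_le_pow _ _ (by omega))]; ring
    rw [this] at c1 c2
    simp only [Nat.add_sub_cancel] at c1 ⊢
    nlinarith
  · obtain ⟨h3, T, D, hT, hx⟩ := key _ (Or.inl rfl) h1 h
    rw [mul_assoc, ← card_sol_minus hT hx h3 hG, hd, one_mul]
  · obtain ⟨h3, T, D, hT, hx⟩ := key _ (Or.inr rfl) h1 h
    rw [← card_sol_plus hT hx h3 hG, hd, one_mul]

end Cfsg.Agent.S2257
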