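import Mathlib
import Cfsg.Statements.S2258
import Cfsg.Agent.Max.L2h

set_option autoImplicit false
open Cfsg

namespace Cfsg.Agent.S2258

open scoped Pointwise
open Cfsg.Agent.Max.L2 Cfsg.Agent.Classical.PSL2Basic Cfsg.Agent.Classical.P1Ident
  Cfsg.Agent.Classical.Congr Cfsg.Agent.Classical.P1
open Cfsg.Agent.Classical.P1Inst Matrix
open scoped MatrixGroups

theorem ex_A4 {G : Type*} [Group G] {H : Subgroup G} (e : Nonempty (H ≃* alternatingGroup (Fin 4)))
    {x y : G} (hx : x ∈ H) (hy : y ∈ H) : ∃ f : alternatingGroup (Fin 4) →* G,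
      Function.Injective f ∧ ∃ a b, f a = x ∧ f b = y := by
  obtain ⟨e⟩ := e
  exact ⟨H.subtype.comp e.symm.toMonoidHom, H.subtype_injective.comp e.symm.injective,
    e ⟨x, hx⟩, e ⟨y, hy⟩, by simp, by simp⟩

theorem A4_a : ∀ x y : alternatingGroup (Fin 4), x * x = 1 →
    y * y = 1 ∨ (y ^ 3 = 1 ∧ (y * x) ^ 3 = 1) := by
  decide +kernel

theorem A4_b : ∀ x : alternatingGroup (Fin 4), x * x = 1 ∨ x ^ 3 = 1 := by
  decide +kernel

/-- Involutions forming a Moore pair with `x`. -/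
def WW {G : Type*} [Group G] (x : G) : Set G := {y | y * y = 1 ∧ y ≠ 1 ∧ (x * y) ^ 3 = 1}

theorem A4_c : ∀ x y : alternatingGroup (Fin 4), x ^ 3 = 1 → x ≠ 1 → y = 1 ∨ y = x ∨ y = x * x ∨
    (y * y = 1 ∧ y ≠ 1 ∧ (x * y) ^ 3 = 1) ∨
    (x * y * (x * y) = 1 ∧ x * y ≠ 1 ∧ (x * (x * y)) ^ 3 = 1) ∨
    (x * (x * y) * (x * (x * y)) = 1 ∧ x * (x * y) ≠ 1 ∧ (x * (x * (x * y))) ^ 3 = 1) := by
  decide +kernel

theorem eq_one {G : Type*} [Group G] {x : G} (h2 : x * x = 1) (h3 : x ^ 3 = 1) : x = 1 := by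
  rwa [pow_three', h2, one_mul] at h3

section
variable {F : Type*} [Field F]

theorem cube_aff {X : GL (Fin 2) F} (hX : X 0 0 * X 1 1 - X 0 1 * X 1 0 = 1)
    (ht : X 0 0 + X 1 1 = 0) {b : F} (h1 : aff 1 b * ProjGenLinGroup.mk X ≠ 1) :
    (aff 1 b * ProjGenLinGroup.mk X) ^ 3 = 1 ↔ (b * X 1 0) ^ 2 = 1 := by
  rw [aff, ← map_mul] at h1 ⊢
  rw [mk_cube_iff h1]
  simp only [Units.val_mul, mat_coe, Matrix.mul_apply, Fin.sum_univ_two, Units.val_one]
  simp [-sq_eq_one_iff]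
  constructor <;> intro h
  · linear_combination h + hX - (X 0 0 + X 1 1 + 2 * b * X 1 0) * ht
  · linear_combination h - hX + (X 0 0 + X 1 1 + 2 * b * X 1 0) * ht

theorem aff_injective (c : PGL(2, F)) : Function.Injective fun b : F => c * aff 1 b * c⁻¹ :=
  fun _ _ h => (aff_inj.1 (by simpa using h)).2

variable [Finite F] [CharP F 3]

theorem card_W1 {x : PGL(2, F)} (hL : x ∈ LL F) (h2 : x * x = 1) (hf : ∀ z : PL F, x • z ≠ z) :
    {y | y ^ 3 = 1 ∧ (y * x) ^ 3 = 1}.ncard = 2 * (Nat.card F + 1) := by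
  haveI : Fact (Nat.Prime 3) := ⟨Nat.prime_three⟩
  have h1 : x ≠ 1 := by rintro rfl; exact hf inf (one_smul _ _)
  have e1 : {y | y ^ 3 = 1 ∧ (y * x) ^ 3 = 1} =
      ⋃ z : PL F, {y | y • z = z ∧ y ^ 3 = 1 ∧ (y * x) ^ 3 = 1} := by
    ext y
    simp only [Set.mem_iUnion, Set.mem_setOf_eq, exists_and_right, iff_and_self]
    exact fun h => pfix_of_finite (p := 3) y 1 h.1
  have e2 : ∀ z : PL F, {y | y • z = z ∧ y ^ 3 = 1 ∧ (y * x) ^ 3 = 1}.ncard = 2 := by
    intro z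
    obtain ⟨c, rfl⟩ := exists_smul_inf' z
    obtain ⟨X, hX, e⟩ := exists_SL (normal_LL.conj_mem _ hL c⁻¹)
    rw [inv_inv] at e
    have e' : x = c * ProjGenLinGroup.mk X * c⁻¹ := by rw [← e]; group
    have h3 : ProjGenLinGroup.mk X ≠ 1 := fun h => h1 (by rw [e', h]; simp)
    have h4 : ProjGenLinGroup.mk X * ProjGenLinGroup.mk X = 1 := by
      rw [← e, show c⁻¹ * x * c * (c⁻¹ * x * c) = c⁻¹ * (x * x) * c by group, h2]; simp
    have h5 : X 1 0 ≠ 0 := fun h => hf (c • inf) (by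
      rw [e', mul_smul, inv_smul_smul, mul_smul, mk_smul, (smul_inf_eq_inf_iff X).2 h])
    have h6 : ∀ b : F, (c * aff 1 b * c⁻¹ * x) ^ 3 = 1 ↔ b = (X 1 0)⁻¹ ∨ b = -(X 1 0)⁻¹ := by
      intro b
      rw [e', conj_mul, conj_pow_eq_one_iff, cube_aff hX ((mk_sq_iff h3).1 h4) fun h => h3 (eq_one h4
        (by rw [eq_inv_of_mul_eq_one_right h, inv_pow, (aff_pow_char_iff _ _).2 rfl, inv_one])),
        sq_eq_one_iff, mul_eq_one_iff_eq_inv₀ h5, ← neg_eq_iff_eq_neg, ← neg_mul,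
        mul_eq_one_iff_eq_inv₀ h5, neg_eq_iff_eq_neg]
    rw [show {y | y • c • inf = c • inf ∧ y ^ 3 = 1 ∧ (y * x) ^ 3 = 1} =
      (fun b : F => c * aff 1 b * c⁻¹) '' {(X 1 0)⁻¹, -(X 1 0)⁻¹} from ?_,
      Set.ncard_image_of_injective _ (aff_injective c), Set.ncard_pair]
    · intro h
      have h7 : (3 : F) = 0 := by simpa using CharP.cast_eq_zero F 3
      exact inv_ne_zero h5 (by linear_combination -h + (X 1 0)⁻¹ * h7)
    · ext y
      rw [Set.mem_setOf_eq, ← and_assoc, ← mem_UU_iff, mem_UU]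
      exact ⟨by rintro ⟨⟨b, rfl⟩, h⟩; exact ⟨b, (h6 b).1 h, rfl⟩,
        by rintro ⟨b, h, rfl⟩; exact ⟨⟨b, rfl⟩, (h6 b).2 h⟩⟩
  rw [e1, Set.ncard_iUnion_of_finite (fun _ => Set.toFinite _)]
  · haveI := Fintype.ofFinite (PL F)
    simp only [e2, finsum_eq_sum_of_fintype, Finset.sum_const, Finset.card_univ, smul_eq_mul]
    rw [← Nat.card_eq_fintype_card, card_PL, mul_comm]
  · intro z w hzw
    refine Set.disjoint_left.2 fun y h3 h4 => ?_
    obtain rfl := unip_fix y h3.2.1 _ _ h3.1 h4.1 hzw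
    exact h1 (eq_one h2 (by simpa using h3.2.2))

theorem card_W2 {x : PGL(2, F)} (h1 : x ≠ 1) (h3 : x ^ 3 = 1) : (WW x).ncard = Nat.card F := by
  haveI : Fact (Nat.Prime 3) := ⟨Nat.prime_three⟩
  haveI : NeZero (2 : F) := ⟨Cfsg.Agent.Classical.SL2Basic.two_ne_zero_of_char (p := 3) (by omega)⟩
  obtain ⟨c, hc⟩ := exists_UU h3
  obtain ⟨b, rfl⟩ := mem_UU.1 hc
  have hb : b ≠ 0 := by rintro rfl; simp at h1
  have hn : ∀ X : PGL(2, F), X * X = 1 → X ≠ 1 → aff 1 b * X ≠ 1 := fun X h4 h5 h => h5 (eq_one h4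
    (by rw [eq_inv_of_mul_eq_one_right h, inv_pow, (aff_pow_char_iff _ _).2 rfl, inv_one]))
  have hd : ∀ a : F, a * -a - -(b * (1 + a ^ 2)) * b⁻¹ = 1 := fun a => by field_simp; ring
  let m : F → GL (Fin 2) F := fun a => mat a (-(b * (1 + a ^ 2))) b⁻¹ (-a) (hd a ▸ one_ne_zero)
  have hi : Function.Injective fun a => c * ProjGenLinGroup.mk (m a) * c⁻¹ := fun a a' h => by
    obtain ⟨u, hu⟩ := mk_eq_mk_iff_smul.1 (by simpa using h : ProjGenLinGroup.mk (m a) = .mk (m a'))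
    have h4 := congrFun (congrFun hu 1) 0
    have h5 := congrFun (congrFun hu 0) 0
    simp [m, hb] at h4 h5
    rw [h5, h4, one_mul]
  rw [show WW (c * aff 1 b * c⁻¹) = Set.range fun a => c * ProjGenLinGroup.mk (m a) * c⁻¹ from ?_,
    Set.ncard_range_of_injective hi]
  ext v
  constructor
  · rintro ⟨h4, h5, h6⟩
    have hL : v ∈ LL F := ((LL F).mul_mem_cancel_left (UU_le_LL c hc)).1 (mem_LL_of_cube h6)
    obtain ⟨X, hX, e⟩ := exists_SL (normal_LL.conj_mem _ hL c⁻¹)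
    obtain rfl : v = c * ProjGenLinGroup.mk X * c⁻¹ := by rw [← e]; group
    rw [conj_mul, conj_eq_one_iff] at h4
    rw [Ne, conj_eq_one_iff] at h5
    have ht := (mk_sq_iff h5).1 h4
    rw [conj_mul, conj_pow_eq_one_iff, cube_aff hX ht (hn _ h4 h5)] at h6
    refine ⟨b * X 1 0 * X 0 0, congrArg (c * · * c⁻¹) (mk_eq_mk_of_smul (b * X 1 0) ?_).symm⟩
    ext i j
    fin_cases i <;> fin_cases j <;> simp [m]
    · linear_combination b * hX - b * X 0 0 * ht - b * X 0 0 ^ 2 * h6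
    · field_simp; exact h6.symm.trans (by ring)
    · linear_combination (-(b * X 1 0)) * ht
  · rintro ⟨a, rfl⟩
    have h5 : ProjGenLinGroup.mk (m a) ≠ 1 := by rw [Ne, mk_eq_one_iff]; simp [m, hb]
    have ht : m a 0 0 + m a 1 1 = 0 := by simp [m]
    have h4 := (mk_sq_iff h5).2 ht
    refine ⟨by rw [conj_mul, h4]; simp, by rwa [Ne, conj_eq_one_iff], ?_⟩
    rw [conj_mul, conj_pow_eq_one_iff, cube_aff (by simpa [m] using hd a) ht (hn _ h4 h5)]
    simp [m, hb]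

end

/-- Let G = PSL_2(F) with F a field of order q = 3^p, p an odd prime, and for x ∈ G call the solubilizer of x the set of y ∈ G such that x and y generate a solvable subgroup. Then the solubilizer of an involution has q(q + 1) elements; that of an element of order 3 has q(q + 5)/2 elements; that of an element of order neither 1 nor 2 dividing q − 1 has q(q − 1) elements; and that of an element of order neither 1 nor 2 dividing q + 1 has q + 1 elements. -/
theorem result (p : ℕ) (hp : p.Prime) (hodd : Odd p) {F : Type*} [Field F] [Fintype F]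
    (hF : Fintype.card F = 3 ^ p) (x : Matrix.ProjectiveSpecialLinearGroup (Fin 2) F) :
    (orderOf x = 2 → Nat.card {y : Matrix.ProjectiveSpecialLinearGroup (Fin 2) F // Group.IsSolvable ↥(Subgroup.closure ({x, y} : Set (Matrix.ProjectiveSpecialLinearGroup (Fin 2) F)))} = 3 ^ p * (3 ^ p + 1)) ∧
    (orderOf x = 3 → 2 * Nat.card {y : Matrix.ProjectiveSpecialLinearGroup (Fin 2) F // Group.IsSolvable ↥(Subgroup.closure ({x, y} : Set (Matrix.ProjectiveSpecialLinearGroup (Fin 2) F)))} = 3 ^ p * (3 ^ p + 5)) ∧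
    (x ≠ 1 → orderOf x ≠ 2 → orderOf x ∣ 3 ^ p - 1 → Nat.card {y : Matrix.ProjectiveSpecialLinearGroup (Fin 2) F // Group.IsSolvable ↥(Subgroup.closure ({x, y} : Set (Matrix.ProjectiveSpecialLinearGroup (Fin 2) F)))} = 3 ^ p * (3 ^ p - 1)) ∧
    (x ≠ 1 → orderOf x ≠ 2 → orderOf x ∣ 3 ^ p + 1 → Nat.card {y : Matrix.ProjectiveSpecialLinearGroup (Fin 2) F // Group.IsSolvable ↥(Subgroup.closure ({x, y} : Set (Matrix.ProjectiveSpecialLinearGroup (Fin 2) F)))} = 3 ^ p + 1) := by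
  rw [← Nat.card_eq_fintype_card] at hF
  haveI : Fact (Nat.Prime 3) := ⟨Nat.prime_three⟩
  haveI := charP_of_card (F := F) hF
  have h2 : (2 : F) ≠ 0 := Cfsg.Agent.Classical.SL2Basic.two_ne_zero_of_char (p := 3) (by omega)
  haveI := NeZero.mk h2
  have hd : dd F = 2 := gcd_eq_two h2
  have q4 : 9 ≤ Nat.card F := hF ▸ Nat.pow_le_pow_right (n := 3) (by omega) hp.two_le
  have q8 : Nat.card F % 8 = 3 := by
    obtain ⟨n, rfl⟩ := hodd
    rw [hF, pow_succ, pow_mul, Nat.mul_mod, Nat.pow_mod]; simp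
  have q3 : 3 ∣ Nat.card F := hF ▸ dvd_pow_self 3 hp.ne_zero
  rw [card_Sol, ← hF, ← orderOf_injective toP toP_injective, ← toP_injective.ne_iff, map_one]
  have hL : toP x ∈ LL F := ⟨x, rfl⟩
  generalize toP x = u at hL
  have hG : ∀ y ∈ Sol u, ((∃ z : PL F, u • z = z ∧ y • z = z) ∨
      ∃ (T D : Subgroup PGL(2, F)) (k : ℕ), Tor T D k ∧ u ∈ D ∧ y ∈ D) ∨
      ∃ f : alternatingGroup (Fin 4) →* PGL(2, F), Function.Injective f ∧
        ∃ a b, f a = u ∧ f b = y := fun y hy => by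
    have h3 : u ∈ Subgroup.closure {u, y} := Subgroup.subset_closure (by simp)
    have h4 : y ∈ Subgroup.closure {u, y} := Subgroup.subset_closure (by simp)
    have h5 : ¬ Nonempty (Subgroup.closure {u, y} ≃* Equiv.Perm (Fin 4)) := fun h => by
      have := isSquare_two_iff'.1 ((S4_le_LL h).1 (closure_le_LL hL hy.1))
      omega
    rcases dickson2 (Subgroup.closure {u, y}) with ⟨z, h⟩ | ⟨T, D, k, hT, h⟩ | ⟨-, h | h | h⟩ |
      ⟨K, c, hK, h⟩
    · exact Or.inl (Or.inl ⟨z, h h3, h h4⟩)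
    · exact Or.inl (Or.inr ⟨T, D, k, hT, h h3, h h4⟩)
    · exact Or.inr (ex_A4 h h3 h4)
    · exact absurd h h5
    · exact absurd ((solvable_congr h).1 hy.2) not_solvable_A5
    · rcases sub_cases Nat.prime_three hp hF K with e | rfl
      · have e1 := Cfsg.Agent.Classical.Dickson.conjEquiv (Subgroup.closure {u, y}) c
        rcases h with h | h <;> rw [h] at e1
        · obtain ⟨e2⟩ := pgl_equiv_S4 e
          exact absurd ⟨e1.trans ((subPGLEquiv K).symm.trans e2)⟩ h5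
        · obtain ⟨e2⟩ := psl_equiv_A4 e
          exact Or.inr (ex_A4 ⟨e1.trans ((subPSLEquiv K).symm.trans e2)⟩ h3 h4)
      · exact absurd (solvable_of_le (LL_le_of_top h) hy.2) (not_solvable_LL (by omega))
  have key : ∀ k, (k = Nat.card F - 1 ∨ k = Nat.card F + 1) → u ≠ 1 → orderOf u ≠ 2 →
      orderOf u ∣ k → u * u ≠ 1 ∧ Gen u ∧ ∃ T D, Tor T D k ∧ u ∈ T := by
    intro k hk h1 h3 h4
    have h5 : u * u ≠ 1 := fun e => h3 (orderOf_eq_prime (by rwa [sq]) h1)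
    have h6 : u ^ 3 ≠ 1 := fun e => by
      rw [orderOf_eq_prime e h1] at h4
      omega
    refine ⟨h5, fun y hy => (hG y hy).resolve_right ?_, tor_of_dvd h6 h5 hk h4⟩
    rintro ⟨f, -, a, -, rfl, -⟩
    rcases A4_b a with e | e
    exacts [h5 (by rw [← map_mul, e, map_one]), h6 (by rw [← map_pow, e, map_one])]
  refine ⟨fun h => ?_, fun h => ?_, fun h1 h3 h => ?_, fun h1 h3 h => ?_⟩
  · have u1 : u ≠ 1 := by rintro rfl; simp at h
    have u3 : u * u = 1 := by rw [← sq, orderOf_dvd_iff_pow_eq_one.1 h.dvd]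
    obtain ⟨T, D, k, hT, hu, hk⟩ := inv_tor h2 hL u1 u3
    obtain rfl : k = Nat.card F + 1 := hT.k_eq.resolve_left (by omega)
    have hf : ∀ z : PL F, u • z ≠ z := fun z e => u1 (hT.free hu e)
    let I := {y | y ∈ LL F ∧ y * y = 1}
    let J := {y | y ∈ LL F ∧ u * y * (u * y) = 1}
    let C : Set PGL(2, F) := (D ⊓ LL F : Subgroup _)
    let W := {y | y ^ 3 = 1 ∧ (y * u) ^ 3 = 1}
    let E : Set PGL(2, F) := (T ⊓ LL F : Subgroup _)
    have hc : ∀ y, y ∈ D ↔ y * u = u * y := fun y => by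
      rw [← hT.centralizer_eq' hu u1 u3, Subgroup.mem_centralizer_singleton_iff]
    have e1 : Sol u = I ∪ J ∪ C ∪ W := by
      ext y
      constructor
      · intro hy
        rcases hG y hy with (⟨z, h3, -⟩ | ⟨T', D', k, hT', h3, h4⟩) | ⟨f, hi, a, b, rfl, rfl⟩
        · exact absurd h3 (hf z)
        · by_cases h5 : u ∈ T'
          · exact Or.inl (Or.inr ⟨(hT.uniq hT' hu h5 u1).2.1 ▸ h4, hy.1⟩)
          by_cases h6 : y ∈ T'
          · exact Or.inl (Or.inl (Or.inr ⟨hy.1, hT'.sq _ (mul_mem h3 h4) fun e =>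
              h5 ((T'.mul_mem_cancel_right h6).1 e)⟩))
          · exact Or.inl (Or.inl (Or.inl ⟨hy.1, hT'.sq _ h4 h6⟩))
        · rcases A4_a a b (hi (by rw [map_mul, u3, map_one])) with e | e
          · exact Or.inl (Or.inl (Or.inl ⟨hy.1, by rw [← map_mul, e, map_one]⟩))
          · exact Or.inr ⟨by rw [← map_pow, e.1, map_one], by rw [← map_mul, ← map_pow, e.2, map_one]⟩
      · rintro (((hy | hy) | hy) | hy)
        exacts [mem_Sol_inv u3 hy.1 (Or.inl hy.2), mem_Sol_inv u3 hy.1 (Or.inr hy.2),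
          mem_Sol_of (solvable_D hT) (hT.le hu) hy.1 hy.2,
          mem_Sol_of ((solvable_congr (closure_A4 hy.1 (by rwa [sq]) hy.2 u1)).2 solvable_A4)
            (Subgroup.subset_closure (by simp)) (Subgroup.subset_closure (by simp))
            (mem_LL_of_cube hy.1)]
    have h4 : ∀ y ∈ D, u * y * (u * y) = y * y := fun y hy => by
      rw [mul_assoc, ← mul_assoc y, (hc y).1 hy, ← mul_assoc, ← mul_assoc, u3, one_mul]
    have e2 : I ∩ J = C ∩ I := by
      ext y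
      refine ⟨fun ⟨h5, h6⟩ => ⟨⟨(hc y).2 ?_, h5.1⟩, h5⟩, fun ⟨h5, h6⟩ => ⟨h6, h6.1, ?_⟩⟩
      · rw [← inv_eq_of_mul_eq_one_right h6.2, _root_.mul_inv_rev, inv_eq_of_mul_eq_one_right h5.2,
          inv_eq_of_mul_eq_one_right u3]
      · rw [h4 y h5.1, h6.2]
    have e3 : (I ∪ J) ∩ C = C ∩ I := by
      ext y
      refine ⟨fun ⟨h5, h6⟩ => ⟨h6, h6.2, ?_⟩, fun ⟨h5, h6⟩ => ⟨Or.inl h6, h5⟩⟩
      rcases h5 with h5 | h5
      exacts [h5.2, h4 y h6.1 ▸ h5.2]
    have e4 : Disjoint (I ∪ J ∪ C) W := Set.disjoint_left.2 fun y h5 h6 => by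
      have y1 : y * y ≠ 1 := fun e => u1 (eq_one u3 (by simpa [eq_one e h6.1] using h6.2))
      rcases h5 with (h5 | h5) | h5
      · exact y1 h5.2
      · have h7 : y * u = 1 := eq_one (by
          rw [show y * u * (y * u) = u⁻¹ * (u * y * (u * y)) * u by group, h5.2]; simp) h6.2
        exact y1 (by rw [eq_inv_of_mul_eq_one_left h7, ← _root_.mul_inv_rev, u3, inv_one])
      · exact y1 (by rw [hT.ss (hT.mem_of_sq h5.1 y1) h6.1, one_mul])
    have e5 : (C ∩ I) ∪ E = C := by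
      ext y
      refine ⟨?_, fun h => ?_⟩
      · rintro (h | h)
        exacts [h.1, ⟨hT.le h.1, h.2⟩]
      · by_cases h5 : y ∈ T
        exacts [Or.inr ⟨h5, h.2⟩, Or.inl ⟨h, h.2, hT.sq _ h.1 h5⟩]
    have e6 : (C ∩ I) ∩ E = (Subgroup.zpowers u : Subgroup _) := by
      haveI := hT.cyc
      ext y
      refine ⟨fun ⟨h5, h6⟩ => mem_zpowers_of_cyclic hu h6.1 ?_, ?_⟩
      · rw [h, orderOf_dvd_iff_pow_eq_one, sq, h5.2.2]
      · rintro ⟨n, rfl⟩
        exact ⟨⟨⟨hT.le (zpow_mem hu n), zpow_mem hL n⟩, zpow_mem hL n, by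
          simp only; rw [← (Commute.refl u).mul_zpow, u3, _root_.one_zpow]⟩, zpow_mem hu n,
          zpow_mem hL n⟩
    have c1 := Set.ncard_union_add_ncard_inter I J
    have c2 := Set.ncard_union_add_ncard_inter (I ∪ J) C
    have c3 := Set.ncard_union_add_ncard_inter (C ∩ I) E
    have c4 := Subgroup.index_mul_card D
    have c5 : C.ncard = Nat.card F + 1 := by rw [ncard_coe, hT.DL.2, hd]; omega
    rw [e2, card_inv' hL, card_inv hL u1 u3, hT.centralizer_eq' hu u1 u3] at c1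
    rw [e3, c5] at c2
    rw [e5, e6, c5, ncard_coe, ncard_coe, Nat.card_zpowers, h, hT.card_T_inf', hd] at c3
    rw [hT.card_D, card_PGL_two] at c4
    rw [e1, Set.ncard_union_eq e4, card_W1 hL u3 hf]
    obtain ⟨n, hn⟩ : ∃ n, Nat.card F = 2 * n + 1 := ⟨Nat.card F / 2, by omega⟩
    rw [hn] at c2 c3 c4 ⊢
    have c6 : D.index = (2 * n + 1) * n := Nat.eq_of_mul_eq_mul_right (m := 2 * (2 * n + 1 + 1))
      (by omega) (by
        rw [c4, show (2 * n + 1) ^ 2 = 4 * n * n + 4 * n + 1 by ring, Nat.add_sub_cancel]; ring)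
    rw [show (2 * n + 1 + 1) / 2 = n + 1 by omega] at c3
    rw [c6] at c1
    nlinarith
  · have u1 : u ≠ 1 := by rintro rfl; simp at h
    have u3 : u ^ 3 = 1 := orderOf_dvd_iff_pow_eq_one.1 h.dvd
    have u2 : u * u ≠ 1 := fun e => u1 (eq_one e u3)
    obtain ⟨z, hz⟩ := pfix_of_finite (p := 3) u 1 u3
    let B : Set PGL(2, F) := (MulAction.stabilizer _ z ⊓ LL F : Subgroup _)
    let W1 := (u * ·) ⁻¹' WW u
    let W2 := (u * ·) ⁻¹' W1
    have hA : ∀ v ∈ WW u, Nonempty (Subgroup.closure {u, v} ≃* alternatingGroup (Fin 4)) :=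
      fun v hv => closure_A4 u3 (by rw [sq, hv.1]) hv.2.2 hv.2.1
    have hS : ∀ v ∈ WW u, ∀ y, y ∈ Subgroup.closure {u, v} → y ∈ Sol u := fun v hv y hy =>
      mem_Sol_of ((solvable_congr (hA v hv)).2 solvable_A4) (Subgroup.subset_closure (by simp)) hy
        (A4_le_LL (hA v hv) hy)
    have hm : ∀ v, u ∈ Subgroup.closure {u, v} := fun v => Subgroup.subset_closure (by simp)
    have hm' : ∀ v, v ∈ Subgroup.closure {u, v} := fun v => Subgroup.subset_closure (by simp)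
    have e1 : Sol u = B ∪ (WW u ∪ W1 ∪ W2) := by
      ext y
      constructor
      · intro hy
        rcases hG y hy with (⟨w, h3, h4⟩ | ⟨T', D', k, hT', h3, -⟩) | ⟨f, hi, a, b, rfl, rfl⟩
        · obtain rfl : w = z := by_contra fun e => u1 (unip_fix u u3 _ _ h3 hz e)
          exact Or.inl ⟨h4, hy.1⟩
        · exact absurd (hT'.ss (hT'.mem_of_sq h3 u2) u3) u1
        · have h3 := A4_c a b (hi (by rw [map_pow, u3, map_one])) (by rintro rfl; simp at u1)
          simp only [← hi.eq_iff, Ne, map_mul, map_pow, map_one] at h3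
          rcases h3 with e | e | e | e | e | e
          exacts [Or.inl ⟨by rw [e]; exact one_mem _, hy.1⟩, Or.inl ⟨by rw [e]; exact hz, hy.1⟩,
            Or.inl ⟨by rw [e]; exact mul_mem (s := MulAction.stabilizer _ _) hz hz, hy.1⟩,
            Or.inr (Or.inl (Or.inl e)), Or.inr (Or.inl (Or.inr e)), Or.inr (Or.inr e)]
      · rintro (hy | (hy | hy) | hy)
        exacts [mem_Sol_of (solvable_stab z) hz hy.1 hy.2, hS _ hy _ (hm' _),
          hS _ hy _ ((Subgroup.mul_mem_cancel_left _ (hm _)).1 (hm' _)),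
          hS _ hy _ ((Subgroup.mul_mem_cancel_left _ (hm _)).1
            ((Subgroup.mul_mem_cancel_left _ (hm _)).1 (hm' _)))]
    have h3 : ∀ v ∈ WW u, v ∉ MulAction.stabilizer PGL(2, F) z := fun v hv h =>
      not_le_stab h2 z (hA v hv) (by
        rw [Subgroup.closure_le]
        rintro _ (rfl | rfl)
        exacts [hz, h])
    have h4 : ∀ v ∈ WW u, u * v ∉ WW u := fun v hv h => u2 (by
      rw [eq_inv_of_mul_eq_one_left (eq_one h.1 hv.2.2), ← _root_.mul_inv_rev, hv.1, inv_one])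
    have e2 : Disjoint B (WW u ∪ W1 ∪ W2) := Set.disjoint_left.2 fun y h5 h6 => by
      rcases h6 with (h6 | h6) | h6
      exacts [h3 _ h6 h5.1, h3 _ h6 (mul_mem hz h5.1), h3 _ h6 (mul_mem hz (mul_mem hz h5.1))]
    have e3 : Disjoint (WW u) W1 := Set.disjoint_left.2 h4
    have e4 : Disjoint (WW u ∪ W1) W2 := Set.disjoint_left.2 fun y h5 h6 => by
      rcases h5 with h5 | h5
      · exact h4 _ h6 (by rwa [← mul_assoc, ← mul_assoc, ← pow_three', u3, one_mul])
      · exact h4 _ h5 h6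
    have c1 : ∀ S : Set PGL(2, F), ((u * ·) ⁻¹' S).ncard = S.ncard := fun S =>
      Set.ncard_preimage_of_injective_subset_range (mul_right_injective u)
        (by rw [(mul_left_surjective u).range_eq]; exact Set.subset_univ _)
    have c2 := card_stab_inf z
    rw [hd] at c2
    rw [e1, Set.ncard_union_eq e2, Set.ncard_union_eq e4, Set.ncard_union_eq e3, c1, c1, c1,
      card_W2 u1 u3, mul_add, ncard_coe, c2]
    obtain ⟨n, hn⟩ : ∃ n, Nat.card F = n + 1 := ⟨Nat.card F - 1, by omega⟩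
    rw [hn, Nat.add_sub_cancel]
    ring
  · obtain ⟨h4, h5, T, D, hT, hx⟩ := key _ (Or.inl rfl) h1 h3 h
    exact Nat.eq_of_mul_eq_mul_left two_pos (by rw [← card_sol_minus hT hx h4 h5, hd])
  · obtain ⟨h4, h5, T, D, hT, hx⟩ := key _ (Or.inr rfl) h1 h3 h
    exact Nat.eq_of_mul_eq_mul_left two_pos (by rw [← card_sol_plus hT hx h4 h5, hd])

end Cfsg.Agent.S2258
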