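import Mathlib
import Cfsg.Statements.S2259
import Cfsg.Agent.RankOne.SzLie
import Cfsg.Agent.RankOne.SzSolv
-- import your own Cfsg.Agent.* helpers here

set_option autoImplicit false
open Cfsg

namespace Cfsg.Agent.S2259

theorem arith {q a b : ℕ} (h8 : 8 ≤ q) (e2 : 2 * a = q ^ 2 * (q - 2)) (e3 : 2 * b = q ^ 3) :
    q ^ 2 * (q - 1) + 2 * a + 4 * b = q ^ 2 * (4 * q - 3) := by
  zify [show 1 ≤ q by omega, show 2 ≤ q by omega, show 3 ≤ 4 * q by omega] at e2 e3 ⊢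
  linear_combination e2 + 2 * e3

/-- Let G be the Suzuki group Sz(q), q = 2^(2m+1) with 2m + 1 prime and m ≥ 1, realised inside Sp_4(F) for F the field of order q, write r = 2^(m+1) (so r² = 2q), and for x ∈ G call the solubilizer of x the set of y ∈ G such that x and y generate a solvable subgroup. Then the solubilizer of an involution has q²(4q − 3) elements; that of an element of order 4 has q²(q + 3) elements; that of a non-identity element of order dividing q − 1 has 2q²(q − 1) elements; that of a non-identity element of order dividing q + r + 1 has 4(q + r + 1) elements; and that of a non-identity element of order dividing q − r + 1 has 4(q − r + 1) elements. -/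
theorem result {F : Type*} [Field F] [Fintype F] {m : ℕ} (hm : 1 ≤ m)
    (hp : (2 * m + 1).Prime) (hF : Fintype.card F = 2 ^ (2 * m + 1)) (x : ↥(Cfsg.Lie.Sz F (2 ^ (m + 1)))) :
    (orderOf x = 2 → Nat.card {y : ↥(Cfsg.Lie.Sz F (2 ^ (m + 1))) // Group.IsSolvable ↥(Subgroup.closure ({x, y} : Set (↥(Cfsg.Lie.Sz F (2 ^ (m + 1))))))} = (2 ^ (2 * m + 1)) ^ 2 * (4 * 2 ^ (2 * m + 1) - 3)) ∧
    (orderOf x = 4 → Nat.card {y : ↥(Cfsg.Lie.Sz F (2 ^ (m + 1))) // Group.IsSolvable ↥(Subgroup.closure ({x, y} : Set (↥(Cfsg.Lie.Sz F (2 ^ (m + 1))))))} = (2 ^ (2 * m + 1)) ^ 2 * (2 ^ (2 * m + 1) + 3)) ∧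
    (x ≠ 1 → orderOf x ∣ 2 ^ (2 * m + 1) - 1 →
      Nat.card {y : ↥(Cfsg.Lie.Sz F (2 ^ (m + 1))) // Group.IsSolvable ↥(Subgroup.closure ({x, y} : Set (↥(Cfsg.Lie.Sz F (2 ^ (m + 1))))))} = 2 * (2 ^ (2 * m + 1)) ^ 2 * (2 ^ (2 * m + 1) - 1)) ∧
    (x ≠ 1 → orderOf x ∣ 2 ^ (2 * m + 1) + 2 ^ (m + 1) + 1 → Nat.card {y : ↥(Cfsg.Lie.Sz F (2 ^ (m + 1))) // Group.IsSolvable ↥(Subgroup.closure ({x, y} : Set (↥(Cfsg.Lie.Sz F (2 ^ (m + 1))))))} = 4 * (2 ^ (2 * m + 1) + 2 ^ (m + 1) + 1)) ∧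
    (x ≠ 1 → orderOf x ∣ 2 ^ (2 * m + 1) - 2 ^ (m + 1) + 1 → Nat.card {y : ↥(Cfsg.Lie.Sz F (2 ^ (m + 1))) // Group.IsSolvable ↥(Subgroup.closure ({x, y} : Set (↥(Cfsg.Lie.Sz F (2 ^ (m + 1))))))} = 4 * (2 ^ (2 * m + 1) - 2 ^ (m + 1) + 1)) := by
  obtain ⟨_, ⟨Z⟩⟩ := RankOne.Sz.exists_model_lie hF hm
  have hQ : x ^ 4 = 1 → ∃ Y : RankOne.Sz.Model _ (Cfsg.suzukiOvoid F m) F m, x ∈ Y.Q := fun h => by
    obtain ⟨Y, hY⟩ := Z.exists_model_of_isPGroup (H := Subgroup.zpowers x)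
      (IsPGroup.of_card_dvd_pow (n := 2) (by rw [Nat.card_zpowers]; exact orderOf_dvd_of_pow_eq_one h))
    exact ⟨Y, hY (Subgroup.mem_zpowers x)⟩
  have h8 := Z.eight_le_q
  refine ⟨fun h => ?_, fun h => ?_, fun h1 h => ?_, fun h1 h => ?_, fun h1 h => ?_⟩
  · have h2 : x * x = 1 := by rw [← sq]; exact orderOf_dvd_iff_pow_eq_one.mp (by rw [h])
    have h1 : x ≠ 1 := by rintro rfl; simp at h
    obtain ⟨Y, hY⟩ := hQ (orderOf_dvd_iff_pow_eq_one.mp (by rw [h]; norm_num))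
    have e1 := Y.ncard_sol_two hY h1
    have e2 := Y.ncard_I_fix hY h1 h2
    have e3 := Y.ncard_I_fpf hY h1 h2
    refine Eq.trans e1 ?_
    rw [← hF]
    exact arith h8 e2 e3
  · have h1 : x ≠ 1 := by rintro rfl; simp at h
    obtain ⟨Y, hY⟩ := hQ (orderOf_dvd_iff_pow_eq_one.mp (by rw [h]))
    have e1 := Y.ncard_sol_two hY h1
    obtain ⟨u, v, rfl⟩ := (Y.mem_Q x).mp hY
    have hu : u ≠ 0 := by
      rintro rfl
      have := orderOf_dvd_of_pow_eq_one (x := Y.S 0 v) (n := 2) (by rw [sq]; exact Y.S_zero_mul_self v)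
      rw [h] at this
      norm_num at this
    refine Eq.trans e1 ?_
    rw [Y.I_fix_four hu, Y.ncard_I_four hu, ← hF, Set.ncard_empty]
    zify [show 1 ≤ Fintype.card F by omega]
    ring
  · rw [← hF] at h ⊢
    obtain ⟨Y, κ, hκ, rfl, -⟩ := Z.exists_model_of_pow h1 (orderOf_dvd_iff_pow_eq_one.mp h)
    exact Y.ncard_sol_M hκ
  · obtain ⟨h2, h3⟩ := Z.card_torus_of_pow_kp h1 (orderOf_dvd_iff_pow_eq_one.mp h)
    rw [← h3, ← Z.card_normalizer_torus h2]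
    exact congrArg Set.ncard (Z.sol_fpf h2)
  · obtain ⟨h2, h3⟩ := Z.card_torus_of_pow_km h1 (orderOf_dvd_iff_pow_eq_one.mp h)
    rw [← h3, ← Z.card_normalizer_torus h2]
    exact congrArg Set.ncard (Z.sol_fpf h2)

end Cfsg.Agent.S2259
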