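import Cfsg.Statements.S2268
import Cfsg.Agent.LocalEven.SylowIn

set_option autoImplicit false
open Cfsg

namespace Cfsg.Agent.S2268

open Cfsg.Agent.LocalEven

open Subgroup

/-- Let G be a finite group with an abelian Sylow p-subgroup P and let Q ≤ P. Then N_G(Q) = (N_G(Q) ∩ N_G(P))·C_G(Q), so that N_G(Q)/C_G(Q) is a homomorphic image of the subgroup (N_G(Q) ∩ N_G(P))/C_G(P) of N_G(P)/C_G(P); in particular the order of N_G(Q)/C_G(Q) divides the order of N_G(P)/C_G(P). -/
theorem result {G : Type*} [Group G] [Finite G] {p : ℕ} [Fact p.Prime]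
    (P : Sylow p G) (hP : IsMulCommutative (P : Subgroup G)) (Q : Subgroup G) (hQ : Q ≤ (P : Subgroup G)) :
    Subgroup.normalizer (Q : Set G) =
      (Subgroup.normalizer (Q : Set G) ⊓ Subgroup.normalizer ((P : Subgroup G) : Set G)) ⊔ Subgroup.centralizer (Q : Set G) ∧
    ((Subgroup.centralizer (Q : Set G)).subgroupOf (Subgroup.normalizer (Q : Set G))).index ∣ ((Subgroup.centralizer ((P : Subgroup G) : Set G)).subgroupOf (Subgroup.normalizer ((P : Subgroup G) : Set G))).index := by
  have hPC : (P : Subgroup G) ≤ centralizer (Q : Set G) := by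
    intro x hx
    rw [mem_centralizer_iff]
    intro y hy
    have := hP.is_comm.comm (⟨y, hQ hy⟩ : (P : Subgroup G)) ⟨x, hx⟩
    exact congrArg Subtype.val this
  have hS : IsSylowIn p (P : Subgroup G) (centralizer (Q : Set G)) := isSylowIn_of_sylow_le P hPC
  have hCN : centralizer (Q : Set G) ≤ normalizer (Q : Set G) := centralizer_le_normalizer _
  have h1 := hS.frattini_sup hCN (normalizer_le_normalizer_centralizer Q)
  refine ⟨by rw [sup_comm]; exact h1.symm, ?_⟩
  set NQ := normalizer (Q : Set G)
  set CQ := centralizer (Q : Set G)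
  set NP := normalizer ((P : Subgroup G) : Set G)
  set CP := centralizer ((P : Subgroup G) : Set G)
  change CQ.relIndex NQ ∣ CP.relIndex NP
  have hCPQ : CP ≤ CQ := centralizer_le hQ
  have hnQ : (CQ.subgroupOf NQ).Normal :=
    (normal_subgroupOf_iff_le_normalizer hCN).2 (normalizer_le_normalizer_centralizer Q)
  have hCPN : CP ≤ NP := centralizer_le_normalizer _
  have hnP : (CP.subgroupOf NP).Normal :=
    (normal_subgroupOf_iff_le_normalizer hCPN).2 (normalizer_le_normalizer_centralizer _)
  have e1 : CQ.relIndex NQ = CQ.relIndex (NQ ⊓ NP) := by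
    have := relIndex_sup_right ((NQ ⊓ NP).subgroupOf NQ) (CQ.subgroupOf NQ)
    rw [← subgroupOf_sup inf_le_left hCN, sup_comm, h1, relIndex_subgroupOf le_rfl,
      relIndex_subgroupOf inf_le_left] at this
    exact this
  have e2 : CP.relIndex (NQ ⊓ NP) ∣ CP.relIndex NP := by
    have := relIndex_dvd_index_of_normal (CP.subgroupOf NP) ((NQ ⊓ NP).subgroupOf NP)
    rwa [relIndex_subgroupOf inf_le_right] at this
  rw [e1]
  exact (relIndex_dvd_of_le_left _ hCPQ).trans e2

end Cfsg.Agent.S2268
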