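import Mathlib
import Cfsg.Statements.S2269
import Cfsg.Agent.FGS.SymSyl
import Cfsg.Agent.PGrp.Aut

set_option autoImplicit false
open Cfsg

namespace Cfsg.Agent.S2269

open Equiv Subgroup

/-- a dihedral group of order 8 in `A₆` -/
def d8 : DihedralGroup 4 →* Perm (Fin 6) := MonoidHom.mk' (fun
  | .r i => (swap 0 1 * swap 1 2 * swap 2 3 * swap 4 5) ^ i.val
  | .sr i => swap 0 1 * swap 2 3 * (swap 0 1 * swap 1 2 * swap 2 3 * swap 4 5) ^ i.val) (by decide +kernel)

/-- Let n ≥ 5 and let P be an abelian Sylow p-subgroup of the alternating group A_n. Then N(P)/C(P) (taken in A_n) has even order, or P is cyclic, except when n = 5 and p = 2, where P is a four-group and N(P)/C(P) has order 3. -/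
theorem result (n : ℕ) (hn : 5 ≤ n) {p : ℕ} [Fact p.Prime]
    (P : Sylow p (alternatingGroup (Fin n))) (hP : IsMulCommutative (P : Subgroup (alternatingGroup (Fin n)))) :
    (¬ (n = 5 ∧ p = 2) → 2 ∣ ((Subgroup.centralizer ((P : Subgroup (alternatingGroup (Fin n))) : Set (alternatingGroup (Fin n)))).subgroupOf (Subgroup.normalizer ((P : Subgroup (alternatingGroup (Fin n))) : Set (alternatingGroup (Fin n))))).index ∨ IsCyclic (P : Subgroup (alternatingGroup (Fin n)))) ∧
    ((n = 5 ∧ p = 2) → ((Subgroup.centralizer ((P : Subgroup (alternatingGroup (Fin n))) : Set (alternatingGroup (Fin n)))).subgroupOf (Subgroup.normalizer ((P : Subgroup (alternatingGroup (Fin n))) : Set (alternatingGroup (Fin n))))).index = 3 ∧ IsKleinFour (P : Subgroup (alternatingGroup (Fin n)))) := by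
  have hp : p.Prime := Fact.out
  haveI : Nontrivial (Fin n) := Fin.nontrivial_iff_two_le.mpr (by omega)
  have hc := two_mul_nat_card_alternatingGroup (α := Fin n)
  rw [Nat.card_perm, Nat.card_fin] at hc
  refine ⟨fun h => ?_, ?_⟩
  · by_cases hp2 : p = 2
    · subst hp2
      exfalso
      let j := (Perm.viaEmbeddingHom (Fin.castLEEmb (by omega : 6 ≤ n))).comp d8
      have hj : ∀ x, j x ∈ alternatingGroup (Fin n) := fun x => (FGS.sign_viaEmbeddingHom _ _).trans (by
        revert x; decide +kernel)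
      obtain ⟨Q, hQ⟩ := ((IsPGroup.of_card (p := 2) (n := 3) (G := DihedralGroup 4) (by
        rw [DihedralGroup.nat_card]; rfl)).of_surjective _ (j.codRestrict _ hj).rangeRestrict_surjective).exists_le_sylow
      have h1 := (Q.equiv P).injective (a₁ := ⟨_, hQ ⟨.r 1, rfl⟩⟩ * ⟨_, hQ ⟨.sr 0, rfl⟩⟩)
        (a₂ := ⟨_, hQ ⟨.sr 0, rfl⟩⟩ * ⟨_, hQ ⟨.r 1, rfl⟩⟩) (by rw [map_mul, map_mul, hP.is_comm.comm])
      have h2 : j (.r 1) * j (.sr 0) = j (.sr 0) * j (.r 1) := congrArg (fun y => y.1.1) h1
      rw [← map_mul, ← map_mul] at h2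
      exact absurd (Perm.viaEmbeddingHom_injective _ h2) (by decide +kernel)
    by_cases hpn : p + 2 ≤ n
    · left
      obtain ⟨σ, hσ⟩ := (Perm.exists_with_cycleType_iff (Fin n) (m := {p})).mpr ⟨by simp; omega, by simp [hp.two_le]⟩
      have h1 : orderOf σ = p := by rw [← σ.lcm_cycleType, hσ]; simp
      let x : alternatingGroup (Fin n) := ⟨σ, FGS.sign_eq_one_of_odd (h1 ▸ hp.odd_of_ne_two hp2)⟩
      have hx : orderOf x = p := (orderOf_mk _ _).trans h1
      refine FGS.two_dvd_of_real P (k := 1) (hx.trans (pow_one p).symm) (fun h => hp2 ?_)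
        (alternatingGroup.isConj_of (Perm.isConj_iff_cycleType_eq.mpr (Perm.cycleType_inv σ).symm) ?_)
      · exact (Nat.prime_dvd_prime_iff_eq hp Nat.prime_two).mp (hx ▸ orderOf_dvd_of_pow_eq_one h)
      · rw [← Perm.sum_cycleType]
        simpa [x, hσ] using hpn
    · right
      refine isCyclic_of_card_dvd_prime (p := p) ?_
      obtain ⟨R, hR⟩ := (P.isPGroup'.map (alternatingGroup (Fin n)).subtype).exists_le_sylow
      have h1 := card_dvd_of_le hR
      rw [Core.card_map_subtype, FGS.card_sylow_perm, Nat.card_fin, FGS.padicValNat_factorial_div] at h1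
      have h2 : n / p < 2 := (Nat.div_lt_iff_lt_mul hp.pos).mpr (by omega)
      refine h1.trans ?_
      interval_cases n / p <;> simp
  · rintro ⟨rfl, rfl⟩
    haveI : IsSimpleGroup (alternatingGroup (Fin 5)) := alternatingGroup.isSimpleGroup (by simp)
    have h0 : Nat.card (alternatingGroup (Fin 5)) = 60 := by rw [show (5 : ℕ).factorial = 120 from rfl] at hc; omega
    have h1 : Nat.card P = 4 := by
      rw [P.card_eq_multiplicity, h0, Nat.factorization_def _ hp]
      decide +kernel
    have h2 : ∀ v : (P : Subgroup (alternatingGroup (Fin 5))), v ^ 2 = 1 := fun v => by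
      have h3 : ∀ σ : Perm (Fin 5), Perm.sign σ = 1 → σ ^ 4 = 1 → σ ^ 2 = 1 := by decide +kernel
      exact Subtype.ext (Subtype.ext (h3 _ v.1.2 (congrArg (fun y => y.1.1) (h1 ▸ pow_card_eq_one' (x := v)))))
    haveI : Nontrivial (P : Subgroup (alternatingGroup (Fin 5))) := Finite.one_lt_card_iff_nontrivial.mp (by omega)
    refine ⟨?_, h1, (Monoid.exponent_eq_prime_iff Nat.prime_two).mpr fun v hv => orderOf_eq_prime (h2 v) hv⟩
    have h3 := (PGrp.relIndex_centralizer_dvd_card_mulAut (le_refl (normalizer _))).trans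
      (PGrp.card_mulAut_dvd_of_card_le_sq hP h2 h1.le)
    have h4 : ¬ 2 ∣ (centralizer ((P : Subgroup (alternatingGroup (Fin 5))) : Set (alternatingGroup (Fin 5)))).relIndex
        (normalizer ((P : Subgroup (alternatingGroup (Fin 5))) : Set (alternatingGroup (Fin 5)))) := fun h =>
      P.not_dvd_index (h.trans ((relIndex_dvd_of_le_left _ (le_centralizer _)).trans
        (relIndex_dvd_index_of_le le_normalizer)))
    have h5 : (centralizer ((P : Subgroup (alternatingGroup (Fin 5))) : Set (alternatingGroup (Fin 5)))).relIndex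
        (normalizer ((P : Subgroup (alternatingGroup (Fin 5))) : Set (alternatingGroup (Fin 5)))) ≠ 1 := fun h => by
      have h5 := MonoidHom.ker_transferSylow_isComplement' P (relIndex_eq_one.mp h)
      have h6 := h5.card_mul
      rcases (MonoidHom.normal_ker (MonoidHom.transferSylow P (relIndex_eq_one.mp h))).eq_bot_or_eq_top with e | e
      · rw [e, h0, h1, card_bot] at h6; omega
      · rw [e, card_top, h0, h1] at h6; omega
    have h6 : ∀ m : ℕ, m ∣ (2 ^ 2 - 1) * (2 ^ 2 - 2) → ¬ 2 ∣ m → m ≠ 1 → m = 3 := fun m h3 h4 h5 => by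
      have := Nat.le_of_dvd (by norm_num) h3
      interval_cases m <;> simp_all
    exact h6 _ h3 h4 h5

end Cfsg.Agent.S2269
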