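import Mathlib
import Cfsg.Statements.S2284
import Cfsg.Agent.Pres.Alt5
-- import your own Cfsg.Agent.* helpers here

set_option autoImplicit false
open Cfsg

namespace Cfsg.Agent.S2284

/-- For every n, the symmetric group S_n and the alternating group A_n each have a presentation with 2 generators and at most 8 relations. -/
theorem result (n : ℕ) : (∃ rels : Finset (FreeGroup (Fin 2)), rels.card ≤ 8 ∧ Nonempty (PresentedGroup (↑rels : Set (FreeGroup (Fin 2))) ≃* Equiv.Perm (Fin n))) ∧ (∃ rels : Finset (FreeGroup (Fin 2)), rels.card ≤ 8 ∧ Nonempty (PresentedGroup (↑rels : Set (FreeGroup (Fin 2))) ≃* ↥(alternatingGroup (Fin n)))) := by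
  by_cases hn : 3 ≤ n
  · obtain ⟨⟨-, f, hf⟩, -, g, hg⟩ := Pres.good_all n hn
    exact ⟨(hf.mono (by norm_num)).iso', (hg.mono (by norm_num)).iso'⟩
  · have h : Nat.card (Equiv.Perm (Fin n)) ≤ 2 := by
      rw [Nat.card_eq_fintype_card, Fintype.card_perm, Fintype.card_fin]
      exact Nat.factorial_le (show n ≤ 2 by omega)
    obtain ⟨f, hf⟩ := Pres.pres_le_two h
    obtain ⟨g, hg⟩ := Pres.pres_le_two (H := alternatingGroup (Fin n))
      ((Subgroup.card_le_card_group _).trans h)
    exact ⟨(hf.mono (by norm_num)).iso', (hg.mono (by norm_num)).iso'⟩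

end Cfsg.Agent.S2284
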