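import Mathlib
import Cfsg.Statements.S2286
import Cfsg.Agent.Pres.SL2
-- import your own Cfsg.Agent.* helpers here

set_option autoImplicit false
open Cfsg

namespace Cfsg.Agent.S2286

/-- For every finite field F, SL_2(F) and PSL_2(F) have presentations with 3 generators and at most 9 relations; when F has characteristic 2, PSL_2(F) has a presentation with 3 generators and at most 5 relations. -/
theorem result {F : Type*} [Field F] [Fintype F] :
    (∃ rels : Finset (FreeGroup (Fin 3)), rels.card ≤ 9 ∧ Nonempty (PresentedGroup (↑rels : Set (FreeGroup (Fin 3))) ≃* Matrix.SpecialLinearGroup (Fin 2) F)) ∧ (∃ rels : Finset (FreeGroup (Fin 3)), rels.card ≤ 9 ∧ Nonempty (PresentedGroup (↑rels : Set (FreeGroup (Fin 3))) ≃* Matrix.ProjectiveSpecialLinearGroup (Fin 2) F)) ∧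
    (CharP F 2 → ∃ rels : Finset (FreeGroup (Fin 3)), rels.card ≤ 5 ∧ Nonempty (PresentedGroup (↑rels : Set (FreeGroup (Fin 3))) ≃* Matrix.ProjectiveSpecialLinearGroup (Fin 2) F)) := by
  obtain ⟨⟨f, hf⟩, h2⟩ := Pres.sl2_pres_eight F
  refine ⟨(hf.mono (by norm_num)).iso', hf.quot_center.iso', fun h => ?_⟩
  obtain ⟨g, hg⟩ := h2 h
  refine (hg.quot_center' ?_).iso'
  rw [eq_bot_iff]
  intro a ha
  rcases Root.sl2_mem_center ha with rfl | rfl
  · exact one_mem _
  · rw [Subgroup.mem_bot]
    ext i j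
    simp [CharTwo.neg_eq]

end Cfsg.Agent.S2286
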