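import Mathlib
import Cfsg.Statements.S2290
import Cfsg.Agent.Pres.Gen2
import Cfsg.Agent.Pres.SL3
-- import your own Cfsg.Agent.* helpers here

set_option autoImplicit false
open Cfsg

namespace Cfsg.Agent.S2290

/-- For every finite field F with q elements and n ≥ 2, with q ≥ 4 when n = 2, the simple group PSL_n(F) has a presentation with 2 generators and at most 80 relations. -/
theorem result {F : Type*} [Field F] [Fintype F] (n : ℕ) (hn : 2 ≤ n) (h2 : n = 2 → 4 ≤ Fintype.card F) :
    ∃ rels : Finset (FreeGroup (Fin 2)), rels.card ≤ 80 ∧ Nonempty (PresentedGroup (↑rels : Set (FreeGroup (Fin 2))) ≃* Matrix.ProjectiveSpecialLinearGroup (Fin n) F) := by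
  obtain ⟨g, hg⟩ := Pres.sl_two_gen F n hn
  have key : ∀ {κ : Type} {f : κ → Matrix.SpecialLinearGroup (Fin n) F} {m : ℕ}, Pres.PresOn f m → m ≤ 70 →
      ∃ rels : Finset (FreeGroup (Fin 2)), rels.card ≤ 80 ∧ Nonempty (PresentedGroup (↑rels : Set (FreeGroup (Fin 2))) ≃* Matrix.ProjectiveSpecialLinearGroup (Fin n) F) :=
    fun h hm => ((h.any g hg).quot_center.mono (by simp; omega)).iso'
  by_cases e2 : n = 2
  · subst e2
    obtain ⟨f, hf⟩ := (Pres.sl2_pres_eight F).1
    exact key hf (by norm_num)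
  by_cases e3 : n = 3
  · subst e3
    obtain ⟨f, hf⟩ := Pres.sl3_pres F
    exact key hf (by norm_num)
  obtain ⟨f, hf⟩ := ((Pres.sl_pres_fin F).2.2 n (by omega)).1
  exact key hf (by norm_num)

end Cfsg.Agent.S2290
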