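import Mathlib
import Cfsg.Statements.S2292
import Cfsg.Agent.Pres.TG2
-- import your own Cfsg.Agent.* helpers here

set_option autoImplicit false
open Cfsg

namespace Cfsg.Agent.S2292

/-- Let F be a finite field with q elements and m ≥ 2 with (m, q) ≠ (2, 2). Then the simple group PSp_2m(F) has a presentation with 2 generators and at most 80 relations. -/
theorem result {F : Type*} [Field F] [Fintype F] (m : ℕ) (hm : 2 ≤ m) (h22 : ¬ (m = 2 ∧ Fintype.card F = 2)) :
    ∃ rels : Finset (FreeGroup (Fin 2)), rels.card ≤ 80 ∧ Nonempty (PresentedGroup (↑rels : Set (FreeGroup (Fin 2))) ≃* Cfsg.PSp m F) := by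
  obtain ⟨n, rfl⟩ : ∃ k, m = k + 2 := ⟨m - 2, by omega⟩
  have := Pres.UD.cyc_center (D := Pres.spD (Fin (n + 2)) F) Pres.ex_D2
  obtain ⟨g, hg⟩ := Pres.sp_two_gen (F := F) (n := n) fun e => by
    have := Fintype.one_lt_card (α := F)
    have : Fintype.card F ≠ 2 := fun e' => h22 ⟨by omega, e'⟩
    omega
  have key : ∀ {κ : Type} {f : κ → (Pres.spD (Fin (n + 2)) F).E} {r : ℕ}, Pres.PresOn f r → r ≤ 70 →
      ∃ rels : Finset (FreeGroup (Fin 2)), rels.card ≤ 80 ∧
        Nonempty (PresentedGroup (↑rels : Set (FreeGroup (Fin 2))) ≃* Cfsg.PSp (n + 2) F) :=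
    fun h hr => ((h.any g hg).both Pres.sp_equiv 2 79 (by simp) (by simp; omega)).2
  rcases n with _ | _ | n
  · obtain ⟨f, hf⟩ := Pres.sp_pres2 F
    exact key hf (by norm_num)
  · obtain ⟨f, hf⟩ := Pres.sl3_pres F
    obtain ⟨f, hf⟩ := Pres.sp_pres (n := 1) le_rfl hf
    exact key hf (by norm_num)
  · obtain ⟨f, hf⟩ := ((Pres.sl_pres_fin F).2.2 (n + 1 + 1 + 2) (by omega)).2
    obtain ⟨f, hf⟩ := Pres.sp_pres (by omega) hf
    exact key hf (by norm_num)

end Cfsg.Agent.S2292
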