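import Mathlib
import Cfsg.Statements.S2294
import Cfsg.Agent.Pres.TC8
-- import your own Cfsg.Agent.* helpers here

set_option autoImplicit false
open Cfsg

namespace Cfsg.Agent.S2294

/-- Let F be a field with q² elements and n ≥ 4, and SU_n(q), PSU_n(q) the special unitary group of the standard Hermitian form and its central quotient. Then SU_n(q) has a presentation with 6 generators and at most 39 relations and PSU_n(q) one with 6 generators and at most 40 relations; moreover SU_4(q) and SU_5(q) have presentations with 6 generators and at most 35 relations, and PSU_4(q) one with 6 generators and at most 36 relations. -/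
theorem result {F : Type*} [Field F] [Fintype F] (q : ℕ) (hF : Fintype.card F = q ^ 2) (n : ℕ) (hn : 4 ≤ n) :
    (∃ rels : Finset (FreeGroup (Fin 6)), rels.card ≤ 39 ∧ Nonempty (PresentedGroup (↑rels : Set (FreeGroup (Fin 6))) ≃* ↥(Cfsg.SU n F q))) ∧ (∃ rels : Finset (FreeGroup (Fin 6)), rels.card ≤ 40 ∧ Nonempty (PresentedGroup (↑rels : Set (FreeGroup (Fin 6))) ≃* Cfsg.PSU n F q)) ∧
    (∃ rels : Finset (FreeGroup (Fin 6)), rels.card ≤ 35 ∧ Nonempty (PresentedGroup (↑rels : Set (FreeGroup (Fin 6))) ≃* ↥(Cfsg.SU 4 F q))) ∧ (∃ rels : Finset (FreeGroup (Fin 6)), rels.card ≤ 35 ∧ Nonempty (PresentedGroup (↑rels : Set (FreeGroup (Fin 6))) ≃* ↥(Cfsg.SU 5 F q))) ∧ (∃ rels : Finset (FreeGroup (Fin 6)), rels.card ≤ 36 ∧ Nonempty (PresentedGroup (↑rels : Set (FreeGroup (Fin 6))) ≃* Cfsg.PSU 4 F q)) := by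
  have key : ∀ n, 4 ≤ n → ∀ r, (if n ≤ 5 then 35 else 39) ≤ r → (∃ rels : Finset (FreeGroup (Fin 6)), rels.card ≤ r ∧
      Nonempty (PresentedGroup (↑rels : Set (FreeGroup (Fin 6))) ≃* ↥(Cfsg.SU n F q))) ∧
      ∃ rels : Finset (FreeGroup (Fin 6)), rels.card ≤ r + 1 ∧
        Nonempty (PresentedGroup (↑rels : Set (FreeGroup (Fin 6))) ≃* Cfsg.PSU n F q) := fun n hn r hr => by
    obtain ⟨k, od, e, hk⟩ : ∃ k od, Nonempty ((Pres.suD (Fin (k + 2)) (Herm.inv_frob (Herm.natCard_of_card hF)) od).E ≃*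
        Cfsg.SU n F q) ∧ n / 2 = k + 2 := by
      rcases Nat.even_or_odd' n with ⟨k, rfl | rfl⟩
      · exact ⟨k - 2, False, Pres.su_equiv_even hF (by simp; omega), by omega⟩
      · exact ⟨k - 2, True, Pres.su_equiv_odd hF (by simp; omega), by omega⟩
    have := Pres.UD.cyc_center (D := Pres.suD (Fin (k + 2)) (Herm.inv_frob (Herm.natCard_of_card hF)) od) Pres.ex_D2
    rcases k with _ | _ | k
    · obtain ⟨g, hg⟩ := Pres.su_pres2 (Herm.inv_frob (Herm.natCard_of_card hF)) od
      exact hg.both e 6 r (by simp) (by simpa [show n ≤ 5 by omega] using hr)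
    · obtain ⟨f, hf⟩ := Pres.sl3_pres F
      obtain ⟨g, hg⟩ := Pres.su_pres (Herm.inv_frob (Herm.natCard_of_card hF)) od (n := 1) le_rfl hf
      exact hg.both e 6 r (by simp) (by split_ifs at hr <;> simp <;> omega)
    · obtain ⟨f, hf⟩ := ((Pres.sl_pres_fin F).2.2 (k + 1 + 1 + 2) (by omega)).2
      obtain ⟨g, hg⟩ := Pres.su_pres (Herm.inv_frob (Herm.natCard_of_card hF)) od (by omega) hf
      exact hg.both e 6 r (by simp) (by split_ifs at hr <;> simp <;> omega)
  have h1 := key n hn 39 (by split_ifs <;> simp)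
  have h2 := key 4 le_rfl 35 (by simp)
  exact ⟨h1.1, h1.2, h2.1, (key 5 (by simp) 35 (by simp)).1, h2.2⟩

end Cfsg.Agent.S2294
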