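import Mathlib
import Cfsg.Statements.S2295
import Cfsg.Agent.Pres.FP6
-- import your own Cfsg.Agent.* helpers here

set_option autoImplicit false
open Cfsg

namespace Cfsg.Agent.S2295

/-- Let F be a finite field and n ≥ 4, and let Ω⁺_2n(F) be the commutator subgroup of the orthogonal group of the hyperbolic quadratic form Σ x_i y_i, with PΩ⁺_2n(F) its central quotient. Then Ω⁺_2n(F) has a presentation with 8 generators and at most 31 relations (at most 29 if n = 4 or 5), and PΩ⁺_2n(F) one with 8 generators and at most 32 relations (at most 30 if n = 4 or 5). -/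
theorem result {F : Type*} [Field F] [Fintype F] (n : ℕ) (hn : 4 ≤ n) :
    (∃ rels : Finset (FreeGroup (Fin 8)), rels.card ≤ 31 ∧ Nonempty (PresentedGroup (↑rels : Set (FreeGroup (Fin 8))) ≃* ↥(Cfsg.Omega F (Cfsg.quadFormPlus n F)))) ∧ (∃ rels : Finset (FreeGroup (Fin 8)), rels.card ≤ 32 ∧ Nonempty (PresentedGroup (↑rels : Set (FreeGroup (Fin 8))) ≃* Cfsg.POmega F (Cfsg.quadFormPlus n F))) ∧
    (n ≤ 5 → (∃ rels : Finset (FreeGroup (Fin 8)), rels.card ≤ 29 ∧ Nonempty (PresentedGroup (↑rels : Set (FreeGroup (Fin 8))) ≃* ↥(Cfsg.Omega F (Cfsg.quadFormPlus n F)))) ∧ (∃ rels : Finset (FreeGroup (Fin 8)), rels.card ≤ 30 ∧ Nonempty (PresentedGroup (↑rels : Set (FreeGroup (Fin 8))) ≃* Cfsg.POmega F (Cfsg.quadFormPlus n F)))) := by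
  obtain ⟨n, rfl⟩ : ∃ k, n = k + 2 := ⟨n - 2, by omega⟩
  have := Pres.UD.cyc_center (D := Pres.oD (Fin (n + 2)) F) (Pres.Lift.rk_of (by omega) (Pres.oD (Fin (n + 2)) F)).1
  have e := Pres.o_equiv (F := F) (m := n + 2) (by omega)
  have h5 : n + 2 ≤ 5 → ∃ g : (Fin 2 ⊕ Fin 2) ⊕ Unit → (Pres.oD (Fin (n + 2)) F).E, Pres.PresOn g 26 := fun h => by
    obtain rfl | rfl : n = 2 ∨ n = 3 := by omega
    · obtain ⟨f, hf⟩ := (Pres.sl_pres_fin F).1
      exact Pres.o_pres (n := 2) le_rfl hf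
    · obtain ⟨f, hf⟩ := (Pres.sl_pres_fin F).2.1
      exact Pres.o_pres (n := 3) (by simp) hf
  refine and_assoc.mp ⟨?_, fun h => (h5 h).elim fun g hg => hg.both e 8 29 (by simp) (by simp)⟩
  by_cases h : n + 2 ≤ 5
  · exact (h5 h).elim fun g hg => hg.both e 8 31 (by simp) (by simp)
  · obtain ⟨f, hf⟩ := ((Pres.sl_pres_fin F).2.2 _ hn).1
    obtain ⟨g, hg⟩ := Pres.o_pres (by omega) hf
    exact hg.both e 8 31 (by simp) (by simp [show 3 ≤ n by omega])

end Cfsg.Agent.S2295
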