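import Mathlib
import Cfsg.Statements.S2296
import Cfsg.Agent.Pres.TC8
-- import your own Cfsg.Agent.* helpers here

set_option autoImplicit false
open Cfsg

namespace Cfsg.Agent.S2296

/-- Let F be a finite field. Sp_2n(F) has a presentation with 10 generators and at most 58 relations for n ≥ 4, with 9 generators and at most 57 relations for n = 4 or 5, and with 8 generators and at most 52 relations for n = 3; in each case PSp_2n(F) has a presentation with the same number of generators and at most one more relation. -/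
theorem result {F : Type*} [Field F] [Fintype F] (n : ℕ) :
    (4 ≤ n → (∃ rels : Finset (FreeGroup (Fin 10)), rels.card ≤ 58 ∧ Nonempty (PresentedGroup (↑rels : Set (FreeGroup (Fin 10))) ≃* Matrix.symplecticGroup (Fin n) F)) ∧ (∃ rels : Finset (FreeGroup (Fin 10)), rels.card ≤ 59 ∧ Nonempty (PresentedGroup (↑rels : Set (FreeGroup (Fin 10))) ≃* Cfsg.PSp n F))) ∧
    ((n = 4 ∨ n = 5) → (∃ rels : Finset (FreeGroup (Fin 9)), rels.card ≤ 57 ∧ Nonempty (PresentedGroup (↑rels : Set (FreeGroup (Fin 9))) ≃* Matrix.symplecticGroup (Fin n) F)) ∧ (∃ rels : Finset (FreeGroup (Fin 9)), rels.card ≤ 58 ∧ Nonempty (PresentedGroup (↑rels : Set (FreeGroup (Fin 9))) ≃* Cfsg.PSp n F))) ∧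
    (n = 3 → (∃ rels : Finset (FreeGroup (Fin 8)), rels.card ≤ 52 ∧ Nonempty (PresentedGroup (↑rels : Set (FreeGroup (Fin 8))) ≃* Matrix.symplecticGroup (Fin n) F)) ∧ (∃ rels : Finset (FreeGroup (Fin 8)), rels.card ≤ 53 ∧ Nonempty (PresentedGroup (↑rels : Set (FreeGroup (Fin 8))) ≃* Cfsg.PSp n F))) := by
  have key : ∀ n, 4 ≤ n → ∀ k r, 6 ≤ k → 39 + (k - 6) ≤ r → (∃ rels : Finset (FreeGroup (Fin k)), rels.card ≤ r ∧
      Nonempty (PresentedGroup (↑rels : Set (FreeGroup (Fin k))) ≃* Matrix.symplecticGroup (Fin n) F)) ∧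
      ∃ rels : Finset (FreeGroup (Fin k)), rels.card ≤ r + 1 ∧
        Nonempty (PresentedGroup (↑rels : Set (FreeGroup (Fin k))) ≃* Cfsg.PSp n F) := fun n hn k r hk hr => by
    obtain ⟨n, rfl⟩ : ∃ k, n = k + 2 := ⟨n - 2, by omega⟩
    have := Pres.UD.cyc_center (D := Pres.spD (Fin (n + 2)) F) Pres.ex_D2
    obtain ⟨f, hf⟩ := ((Pres.sl_pres_fin F).2.2 _ hn).2
    obtain ⟨g, hg⟩ := Pres.sp_pres (by omega) hf
    exact hg.both Pres.sp_equiv k r (by simpa) (by simpa)
  refine ⟨fun h => key n h 10 58 (by simp) (by simp), fun h => key n (by omega) 9 57 (by simp) (by simp), ?_⟩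
  rintro rfl
  have := Pres.UD.cyc_center (D := Pres.spD (Fin (1 + 2)) F) Pres.ex_D2
  obtain ⟨f, hf⟩ := Pres.sl3_pres F
  obtain ⟨g, hg⟩ := Pres.sp_pres (n := 1) le_rfl hf
  exact hg.both Pres.sp_equiv 8 52 (by simp) (by simp)

end Cfsg.Agent.S2296
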