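import Mathlib
import Cfsg.Statements.S2332
import Cfsg.Agent.Classical.LSL2
import Cfsg.Agent.Char.Indicator

set_option autoImplicit false
set_option backward.isDefEq.respectTransparency false
open Cfsg

namespace Cfsg.Agent.S2332

open Cfsg.Agent.Classical Cfsg.Agent.Classical.LS

/-- Smallest degree of a non-linear irreducible complex representation of SL_n over a finite field with q elements, for n ≥ 3 and (n, q) not one of (3, 2), (3, 4), (4, 2), (4, 3): every irreducible complex representation of SL_n(F) of degree at least 2 has degree at least (q^n − q)/(q − 1), and there is an irreducible complex representation of exactly that degree. -/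
theorem result {F : Type*} [Field F] [Fintype F] [DecidableEq F] (n : ℕ) (hn : 3 ≤ n)
    (hex : (n, Fintype.card F) ≠ (3, 2) ∧ (n, Fintype.card F) ≠ (3, 4) ∧ (n, Fintype.card F) ≠ (4, 2) ∧ (n, Fintype.card F) ≠ (4, 3)) :
    (∀ (k : ℕ) (ρ : Representation ℂ (Matrix.SpecialLinearGroup (Fin n) F) (Fin k → ℂ)), ρ.IsIrreducible → 2 ≤ k → (Fintype.card F ^ n - Fintype.card F) / (Fintype.card F - 1) ≤ k) ∧
    (∃ ρ : Representation ℂ (Matrix.SpecialLinearGroup (Fin n) F) (Fin ((Fintype.card F ^ n - Fintype.card F) / (Fintype.card F - 1)) → ℂ), ρ.IsIrreducible) := by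
  have hq : 2 ≤ Fintype.card F := Fintype.one_lt_card
  obtain ⟨m, rfl⟩ : ∃ m, n = m + 1 := ⟨n - 1, by omega⟩
  have e : (Fintype.card F ^ (m + 1) - Fintype.card F) / (Fintype.card F - 1) =
      Fintype.card F * ∑ j ∈ Finset.range m, Fintype.card F ^ j := by
    refine Nat.div_eq_of_eq_mul_right (by omega) ?_
    rw [mul_left_comm, geom (by omega), Nat.mul_sub_one, pow_succ']
  rw [e]
  refine ⟨fun k ρ h hk => ?_, ?_⟩
  · simpa using sl_bound (m + 1) hn hex _ ρ (nontriv_of_irr ρ h (by simpa using hk))
  · have hc : Nat.card (Projectivization F (Fin (m + 1) → F)) =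
        Fintype.card F * ∑ j ∈ Finset.range m, Fintype.card F ^ j + 1 := by
      rw [Projectivization.card_of_finrank F _ (n := m + 1) (by simp), Finset.sum_range_succ',
        Finset.mul_sum, Nat.card_eq_fintype_card]
      simp [pow_succ']
    have h1 : 0 < ∑ j ∈ Finset.range m, Fintype.card F ^ j :=
      Finset.sum_pos (fun _ _ => by positivity) ⟨0, by simp; omega⟩
    have : Nontrivial (Projectivization F (Fin (m + 1) → F)) :=
      Finite.one_lt_card_iff_nontrivial.1 (by rw [hc]; nlinarith)
    obtain ⟨k, ρ, h, hρ⟩ := (Char.isIrr_perm_sub_one_iff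
      (G := Matrix.SpecialLinearGroup (Fin (m + 1)) F)
      (Projectivization F (Fin (m + 1) → F))).2 inferInstance
    have h2 := congrFun hρ 1
    rw [ρ.char_one, MulAction.fixedBy_one_eq_univ, Nat.card_congr (Equiv.Set.univ _), hc] at h2
    refine exists_fin ρ h ?_
    have : (Module.finrank ℂ (Fin k → ℂ) : ℂ) =
        (Fintype.card F * ∑ j ∈ Finset.range m, Fintype.card F ^ j : ℕ) := by
      rw [h2]; push_cast; ring
    exact_mod_cast this

end Cfsg.Agent.S2332
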