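import Mathlib
import Cfsg.Statements.S2333
import Cfsg.Agent.Classical.LSE

set_option autoImplicit false
set_option backward.isDefEq.respectTransparency false
open Cfsg

namespace Cfsg.Agent.S2333

open Cfsg.Agent.Classical Cfsg.Agent.Classical.LS Cfsg.Agent.Classical.SpWitt
  Cfsg.Agent.Classical.SpMat Module

/-- For a finite field F of even order q and n ≥ 2 with (n, q) ≠ (2, 2), every irreducible complex representation of the symplectic group Sp_{2n}(F) of degree at least 2 has degree at least (q^n − 1)(q^n − q)/(2(q + 1)). -/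
theorem result {F : Type*} [Field F] [Fintype F] [DecidableEq F] (n : ℕ) (hn : 2 ≤ n) (heven : Even (Fintype.card F)) (hex : (n, Fintype.card F) ≠ (2, 2)) :
    (∀ (k : ℕ) (ρ : Representation ℂ (Matrix.symplecticGroup (Fin n) F) (Fin k → ℂ)), ρ.IsIrreducible → 2 ≤ k → (Fintype.card F ^ n - 1) * (Fintype.card F ^ n - Fintype.card F) / (2 * (Fintype.card F + 1)) ≤ k) := by
  intro k ρ hρ hk
  have h2 : (2 : F) = 0 := by
    have := FiniteField.even_card_iff_char_two.2 (Nat.even_iff.1 heven)
    exact_mod_cast (ringChar.spec F 2).2 (this ▸ dvd_refl _)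
  obtain ⟨g, hg⟩ := nontriv_of_irr ρ hρ (by simpa using hk)
  let φ : (Fin n → F) →ₗ[F] (Fin n ⊕ Fin n → F) :=
    { toFun := fun x => Sum.elim x 0
      map_add' := fun x y => by ext (i | i) <;> simp
      map_smul' := fun c x => by ext (i | i) <;> simp }
  have hφ : Function.Injective φ := fun x y h => funext fun i => congrFun h (Sum.inl i)
  have hd : finrank F (LinearMap.range φ) = n := by
    rw [LinearMap.finrank_range_of_inj hφ]; simp
  have hq : 2 ≤ Fintype.card F := Fintype.one_lt_card
  have := sp_even_bound sB_nondeg sB_alt (U := LinearMap.range φ) (by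
    rintro _ ⟨x, rfl⟩ _ ⟨y, rfl⟩
    simp [sB_eq_sum, φ]) h2 (by omega)
    (commutator_eq_top_congr (spEquiv (Fin n) F).symm (commutator_eq_top (by
      simp only [ne_eq, Prod.mk.injEq] at hex
      rw [Fintype.card_fin, Nat.card_eq_fintype_card]; omega)))
    (ρ.comp (spEquiv (Fin n) F).symm.toMonoidHom) ⟨spEquiv _ _ g, by simpa using hg⟩
  rw [hd, finrank_fin_fun] at this
  exact Nat.div_le_of_le_mul this

end Cfsg.Agent.S2333
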