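import Mathlib
import Cfsg.Statements.S2334
import Cfsg.Agent.Classical.LSU
import Cfsg.Agent.Herm.Matrix

set_option autoImplicit false
set_option backward.isDefEq.respectTransparency false
open Cfsg

namespace Cfsg.Agent.S2334

open Cfsg.Agent.Classical.LS Cfsg.Agent.Herm

/-- For odd n ≥ 3 and a finite field F with q² elements, (n, q) ≠ (3, 2), every irreducible complex representation of the special unitary group SU_n(q) (the determinant-one isometries of the standard Hermitian form over F) of degree at least 2 has degree at least (q^n − q)/(q + 1). -/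
theorem result {F : Type*} [Field F] [Fintype F] [DecidableEq F] (n q : ℕ) (hn : 3 ≤ n) (hodd : Odd n) (hF : Fintype.card F = q ^ 2) (hex : (n, q) ≠ (3, 2)) :
    (∀ (k : ℕ) (ρ : Representation ℂ (Cfsg.SU n F q) (Fin k → ℂ)), ρ.IsIrreducible → 2 ≤ k → (q ^ n - q) / (q + 1) ≤ k) := by
  intro k ρ hρ hk
  have hF' := natCard_of_card hF
  obtain ⟨m, rfl⟩ := hodd
  obtain ⟨g, hg⟩ := nontriv_of_irr ρ hρ (by simpa using hk)
  have := unitary_odd (hf_sB hF' (2 * m + 1)) hF' (m := m) (by omega) (by simp)
    (fun h => hex (by simp [h.1, h.2])) (ρ.comp (toSUG hF' _).symm.toMonoidHom)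
    ⟨toSUG hF' _ g, by simpa using hg⟩
  simp only [Module.finrank_fin_fun] at this
  refine Nat.div_le_of_le_mul ?_
  rwa [pow_succ, ← Nat.sub_one_mul]

end Cfsg.Agent.S2334
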