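import Mathlib
import Cfsg.Statements.S2335
import Cfsg.Agent.Classical.LSU
import Cfsg.Agent.Herm.Matrix

set_option autoImplicit false
set_option backward.isDefEq.respectTransparency false
open Cfsg

namespace Cfsg.Agent.S2335

open Cfsg.Agent.Classical.LS Cfsg.Agent.Herm

/-- For even n ≥ 4 and a finite field F with q² elements, (n, q) not (4, 2) or (4, 3), every irreducible complex representation of the special unitary group SU_n(q) (the determinant-one isometries of the standard Hermitian form over F) of degree at least 2 has degree at least (q^n − 1)/(q + 1). -/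
theorem result {F : Type*} [Field F] [Fintype F] [DecidableEq F] (n q : ℕ) (hn : 4 ≤ n) (heven : Even n) (hF : Fintype.card F = q ^ 2) (hex : (n, q) ≠ (4, 2) ∧ (n, q) ≠ (4, 3)) :
    (∀ (k : ℕ) (ρ : Representation ℂ (Cfsg.SU n F q) (Fin k → ℂ)), ρ.IsIrreducible → 2 ≤ k → (q ^ n - 1) / (q + 1) ≤ k) := by
  intro k ρ hρ hk
  have hF' := natCard_of_card hF
  obtain ⟨m, rfl⟩ := heven.two_dvd
  obtain ⟨g, hg⟩ := nontriv_of_irr ρ hρ (by simpa using hk)
  have := unitary_even (hf_sB hF' (2 * m)) hF' (m := m) (by omega) (by simp)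
    (ρ.comp (toSUG hF' _).symm.toMonoidHom) ⟨toSUG hF' _ g, by simpa using hg⟩
  simp only [Module.finrank_fin_fun] at this
  exact Nat.div_le_of_le_mul this

end Cfsg.Agent.S2335
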