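import Mathlib
import Cfsg.Statements.S2336
import Cfsg.Agent.Classical.LSL
import Cfsg.Agent.Char.Indicator
import Cfsg.Agent.Char.Constit

set_option autoImplicit false
set_option backward.isDefEq.respectTransparency false
open Cfsg

namespace Cfsg.Agent.S2336

open Cfsg.Agent.Classical Cfsg.Agent.Classical.LS Cfsg.Agent.Classical.Transv Matrix Module

section
variable {F : Type*} [Field F] {ι : Type*} [Fintype ι] [DecidableEq ι]

theorem mul_mv (g h : SpecialLinearGroup ι F) (v : ι → F) : (g * h).1 *ᵥ v = g.1 *ᵥ h.1 *ᵥ v :=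
  (mulVec_mulVec _ _ _).symm

theorem moveA {u w w' χ : ι → F} (h0 : χ ⬝ᵥ u = 0) (h1 : χ ⬝ᵥ w = 1) (h2 : χ ⬝ᵥ w' = 1) :
    ∃ g : SpecialLinearGroup ι F, g.1 *ᵥ u = u ∧ g.1 *ᵥ w = w' :=
  ⟨tv (w' - w) χ (by simp [h1, h2]), by simp [tv_mulVec, h0], by simp [tv_mulVec, h1]⟩

theorem moveB {u w y χ : ι → F} (h0 : χ ⬝ᵥ u = 0) (h1 : χ ⬝ᵥ w = 1) (h2 : χ ⬝ᵥ y = 0)
    (hy : y ∉ Submodule.span F {u}) :
    ∃ g : SpecialLinearGroup ι F, g.1 *ᵥ u = u ∧ g.1 *ᵥ w = y := by
  obtain ⟨ξ, e0, e1⟩ := exists_dot_zero_one hy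
  obtain ⟨g, g1, g2⟩ := moveA (w' := w + y) h0 h1 (by simp [h1, h2])
  obtain ⟨h, k1, k2⟩ := moveA (u := u) (w := w + y) (w' := y) (χ := ξ - (ξ ⬝ᵥ w) • χ)
    (by simp [h0, e0]) (by simp [h1, h2, e1]) (by simp [h2, e1])
  exact ⟨h * g, by simp [← mulVec_mulVec, g1, k1], by simp [← mulVec_mulVec, g2, k2]⟩

theorem moveC (hι : 3 ≤ Fintype.card ι) {u w w' : ι → F} (hw : w ∉ Submodule.span F {u})
    (hw' : w' ∉ Submodule.span F {u}) :
    ∃ g : SpecialLinearGroup ι F, g.1 *ᵥ u = u ∧ g.1 *ᵥ w = w' := by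
  obtain ⟨χ, h0, h1⟩ := exists_dot_zero_one hw
  by_cases h2 : χ ⬝ᵥ w' = 0
  · exact moveB h0 h1 h2 hw'
  obtain ⟨y, hy, hyu⟩ := exists_ker_not_mem ![χ] hι u
  have hy0 : χ ⬝ᵥ y = 0 := hy 0
  obtain ⟨g, g1, g2⟩ := moveB h0 h1 hy0 hyu
  obtain ⟨h, k1, k2⟩ := moveB (χ := (χ ⬝ᵥ w')⁻¹ • χ) (w := w') (by simp [h0]) (by simp [h2])
    (by simp [hy0]) hyu
  have e : ∀ v, (h⁻¹).1 *ᵥ h.1 *ᵥ v = v := fun v => by
    rw [mulVec_mulVec, show (h⁻¹).1 * h.1 = 1 from congrArg Subtype.val (inv_mul_cancel h),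
      one_mulVec]
  refine ⟨h⁻¹ * g, ?_, ?_⟩
  · rw [mul_mv, g1]; nth_rw 1 [← k1]; exact e u
  · rw [mul_mv, g2, ← k2, e]

theorem moveD (hι : 3 ≤ Fintype.card ι) {u u' : ι → F} (hu : u ≠ 0) (hu' : u' ≠ 0) :
    ∃ g : SpecialLinearGroup ι F, g.1 *ᵥ u = u' := by
  have key : ∀ u : ι → F, ∃ φ : ι → F, φ ≠ 0 ∧ φ ⬝ᵥ u = 0 := fun u => by
    obtain ⟨y, -, hy⟩ := exists_ker_not_mem (k := 0) ![] (by omega) u
    obtain ⟨χ, h0, h1⟩ := exists_dot_zero_one hy
    exact ⟨χ, by rintro rfl; simp at h1, h0⟩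
  obtain ⟨φ, h1, h2⟩ := key u
  obtain ⟨φ', h1', h2'⟩ := key u'
  exact (exists_SL_pair hι hu h1 hu' h1' h2 h2').imp fun g hg => hg.1

variable (F ι) in
/-- Non-zero vectors. -/
def X : Type _ := {v : ι → F // v ≠ 0}

instance [Finite F] : Finite (X F ι) := inferInstanceAs (Finite {v : ι → F // v ≠ 0})

instance : MulAction (SpecialLinearGroup ι F × Fˣ) (X F ι) where
  smul g v := ⟨(g.2 : F) • g.1.1 *ᵥ v.1,
    smul_ne_zero g.2.ne_zero (gl_mulVec_ne_zero (SpecialLinearGroup.toGL g.1) v.2)⟩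
  one_smul v := Subtype.ext (by change (1 : F) • (1 : Matrix ι ι F) *ᵥ v.1 = v.1; simp)
  mul_smul g h v := Subtype.ext (by
    change ((g.2 : F) * h.2) • (g.1.1 * h.1.1) *ᵥ v.1 = (g.2 : F) • g.1.1 *ᵥ (h.2 : F) • h.1.1 *ᵥ v.1
    rw [mulVec_smul, smul_smul, mulVec_mulVec])

theorem smul_val (g : SpecialLinearGroup ι F × Fˣ) (v : X F ι) :
    (g • v).1 = (g.2 : F) • g.1.1 *ᵥ v.1 := rfl

instance : MulAction (SpecialLinearGroup ι F) (X F ι) :=
  MulAction.compHom _ (MonoidHom.inl (SpecialLinearGroup ι F) Fˣ)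

theorem smul_val' (g : SpecialLinearGroup ι F) (v : X F ι) : (g • v).1 = g.1 *ᵥ v.1 :=
  one_smul _ _

theorem card_orbits [Fintype F] (hι : 3 ≤ Fintype.card ι) :
    Nat.card (MulAction.orbitRel.Quotient (SpecialLinearGroup ι F) (X F ι × X F ι)) ≤
      Fintype.card F := by
  classical
  obtain ⟨u, -, hu⟩ := exists_ker_not_mem (F := F) (ι := ι) (k := 0) ![] (by omega) 0
  obtain ⟨w, -, hw⟩ := exists_ker_not_mem (k := 0) ![] (by omega) u
  have hu0 : u ≠ 0 := by rintro rfl; simp at hu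
  have hw0 : w ≠ 0 := by rintro rfl; simp at hw
  let f : F → MulAction.orbitRel.Quotient (SpecialLinearGroup ι F) (X F ι × X F ι) := fun c =>
    Quotient.mk _ (⟨u, hu0⟩, if h : c = 0 then ⟨w, hw0⟩ else ⟨c • u, smul_ne_zero h hu0⟩)
  rw [← Nat.card_eq_fintype_card]
  refine Nat.card_le_card_of_surjective f fun z => ?_
  obtain ⟨⟨a, b⟩, rfl⟩ := Quotient.exists_rep z
  obtain ⟨g, hg⟩ := moveD hι a.2 hu0
  by_cases h : g.1 *ᵥ b.1 ∈ Submodule.span F {u}
  · obtain ⟨c, hc⟩ := Submodule.mem_span_singleton.1 h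
    have hc0 : c ≠ 0 := by
      rintro rfl
      exact gl_mulVec_ne_zero (SpecialLinearGroup.toGL g) b.2 (hc.symm.trans (zero_smul _ _))
    refine ⟨c, Quotient.sound ⟨g, Prod.ext (Subtype.ext ?_) (Subtype.ext ?_)⟩⟩
    · exact (smul_val' _ _).trans hg
    · simp only [dif_neg hc0]; exact (smul_val' _ _).trans hc.symm
  · obtain ⟨k, k1, k2⟩ := moveC hι h hw
    refine ⟨0, Quotient.sound ⟨k * g, Prod.ext (Subtype.ext ?_) (Subtype.ext ?_)⟩⟩
    · refine (smul_val' _ _).trans ?_
      rw [mul_mv, hg, k1]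
    · simp only [dif_pos]
      refine (smul_val' _ _).trans ?_
      rw [mul_mv, k2]

end

/-- A character of norm at most `k` that is a sum of `k` non-zero characters. -/
theorem irr_of_sum {G J : Type*} [Group G] [Fintype G] [Fintype J] (θ : J → G → ℂ)
    (h : ∀ j, IsCharacter G (θ j)) (h0 : ∀ j, θ j ≠ 0) {k : ℕ}
    (hk : classInner (∑ j, θ j) (∑ j, θ j) = k) (hJ : k ≤ Fintype.card J) :
    (∀ j, IsIrrCharacter G (θ j)) ∧ Function.Injective θ := by
  classical
  choose a ha using fun i j => Char.classInner_isChar_nat (h i) (h j)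
  have h1 : ∀ j, 1 ≤ a j j := fun j => Nat.pos_of_ne_zero fun e =>
    h0 j (Char.classInner_self_eq_zero.1 (by rw [ha, e, Nat.cast_zero]))
  simp only [Char.classInner_sum_left, Char.classInner_sum_right, ha] at hk
  have hk' : ∑ i, ∑ j, a j i = k := by exact_mod_cast hk
  have h2 : ∀ i, 1 ≤ ∑ j, a j i := fun i =>
    (h1 i).trans (Finset.single_le_sum (f := fun j => a j i) (fun _ _ => Nat.zero_le _) (by simp))
  have h3 : ∀ i, ∑ j, a j i = 1 := fun i => by
    by_contra e
    have := Finset.sum_lt_sum (s := Finset.univ) (f := fun _ => 1) (fun i _ => h2 i)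
      ⟨i, by simp, lt_of_le_of_ne (h2 i) (Ne.symm e)⟩
    simp at this; omega
  have h4 : ∀ i, a i i = 1 := fun i => le_antisymm ((h3 i).symm ▸
    Finset.single_le_sum (f := fun j => a j i) (fun _ _ => Nat.zero_le _) (by simp)) (h1 i)
  refine ⟨fun j => Char.Constit.isIrr_of_inner_self (h j) (by rw [ha, h4, Nat.cast_one]),
    fun i j e => ?_⟩
  by_contra hij
  have e1 : a j i = a i i := by
    have := ha j i; rw [← e, ha] at this; exact_mod_cast this.symm
  have := Finset.add_le_sum (f := fun j => a j i) (s := Finset.univ) (fun _ _ => Nat.zero_le _)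
    (Finset.mem_univ i) (Finset.mem_univ j) hij
  simp only [e1, h4, h3] at this; omega

/-- Let F be a finite field with q elements and n ≥ 3. The permutation character of SL_n(F) on the non-zero vectors of F^n (the function sending a matrix to the number of non-zero vectors it fixes) is the sum of the principal character and q − 1 pairwise distinct irreducible complex characters. -/
theorem result {F : Type*} [Field F] [Fintype F] [DecidableEq F] (n : ℕ) (hn : 3 ≤ n) :
    ∃ χ : Fin (Fintype.card F - 1) → (Matrix.SpecialLinearGroup (Fin n) F → ℂ),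
      (∀ i, Cfsg.IsIrrCharacter (Matrix.SpecialLinearGroup (Fin n) F) (χ i)) ∧ Function.Injective χ ∧
      ∀ g : Matrix.SpecialLinearGroup (Fin n) F,
        (Nat.card {v : Fin n → F // v ≠ 0 ∧ (g : Matrix (Fin n) (Fin n) F).mulVec v = v} : ℂ) = 1 + ∑ i, χ i g := by
  classical
  have hι : 3 ≤ Fintype.card (Fin n) := by simpa using hn
  let G := SpecialLinearGroup (Fin n) F
  have := Char.finiteDimensional_monoidAlgebra (X F (Fin n))
  let ρ := Representation.ofMulAction ℂ (G × Fˣ) (X F (Fin n))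
  let x : Additive Fˣ → G × Fˣ := fun c => (1, c.toMul)
  have hx : ∀ a b, x (a + b) = x a * x b := fun a b => by simp [x]
  let M : AddChar (Additive Fˣ) ℂ → Subrepresentation (ρ.comp (MonoidHom.inl G Fˣ)) := fun β =>
    ⟨Wt ρ x β, fun g v hv => apply_mem_Wt (ρ := ρ) (π := id) (fun i => by simp [x]) hv⟩
  let θ : AddChar (Additive Fˣ) ℂ → G → ℂ := fun β => (M β).toRepresentation.character
  have hθ : ∀ β g, θ β g = LinearMap.trace ℂ _ (ρ (g, 1) * P ρ x β) := fun β g =>
    (trace_mul_P_restrict hx fun v hv => (M β).apply_mem_toSubmodule g hv).symm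
  have hθ' : ∀ β g, θ β g = (Fintype.card (Additive Fˣ) : ℂ)⁻¹ *
      ∑ c, β (-c) * Nat.card (MulAction.fixedBy (X F (Fin n)) ((g, c.toMul) : G × Fˣ)) :=
    fun β g => by
    rw [hθ, P, mul_smul_comm, map_smul, Finset.mul_sum, map_sum, smul_eq_mul]
    congr 1
    refine Finset.sum_congr rfl fun c _ => ?_
    rw [mul_smul_comm, map_smul, ← map_mul, ← Char.character_ofMulAction]
    simp [x, Representation.character, ρ]
  let π : G → ℂ := fun g => Nat.card (MulAction.fixedBy (X F (Fin n)) g)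
  have hπ : π = ∑ β, θ β := funext fun g => by
    rw [Finset.sum_apply]
    simp only [hθ, ← trace_eq_sum hx]
    exact (Char.character_ofMulAction (X F (Fin n)) ((g, 1) : G × Fˣ)).symm
  have hq : 2 ≤ Fintype.card F := Fintype.one_lt_card
  have hA : Fintype.card (Additive Fˣ) = Fintype.card F - 1 := by simp [Fintype.card_units]
  have hX : Nat.card (X F (Fin n)) = Fintype.card F ^ n - 1 := by
    unfold X; simp
  have hdeg : ∀ β, ((Fintype.card F - 1 : ℕ) : ℂ) * θ β 1 = (Fintype.card F ^ n - 1 : ℕ) :=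
    fun β => by
    rw [hθ', hA, mul_inv_cancel_left₀ (by exact_mod_cast (by omega)), Finset.sum_eq_single 0]
    · rw [← hX]
      change β (-0) * (Nat.card (MulAction.fixedBy (X F (Fin n)) (1 : G × Fˣ)) : ℂ) = _
      simp
    · intro c _ hc
      have : IsEmpty (MulAction.fixedBy (X F (Fin n)) ((1, c.toMul) : G × Fˣ)) := ⟨fun v => by
        have h := congrArg Subtype.val v.2
        rw [smul_val] at h
        change (c.toMul : F) • (1 : Matrix (Fin n) (Fin n) F) *ᵥ v.1.1 = v.1.1 at h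
        rw [one_mulVec, ← sub_eq_zero] at h
        nth_rw 2 [← one_smul F v.1.1] at h
        rw [← sub_smul, smul_eq_zero, sub_eq_zero] at h
        exact hc (by simpa using h.resolve_right v.1.2)⟩
      simp
    · simp
  have hlt : Fintype.card F < Fintype.card F ^ n := by
    conv_lhs => rw [← pow_one (Fintype.card F)]
    exact Nat.pow_lt_pow_right hq (by omega)
  have hch : ∀ β, IsCharacter G (θ β) := fun β => Char.isChar_character _
  have h1 : classInner (θ 0) (fun _ => 1) ≠ 0 := by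
    have := Fintype.ofFinite (X F (Fin n))
    have hne : Nonempty (X F (Fin n)) := Nat.card_pos_iff.1 (by rw [hX]; omega) |>.1
    rw [Char.classInner_character_one, Nat.cast_ne_zero, ← Nat.pos_iff_ne_zero]
    refine (finrank_pos_iff_exists_ne_zero (R := ℂ) (M := (M 0).toRepresentation.invariants)).2 ?_
    have hv : ∀ g : G × Fˣ, ρ g (∑ v, MonoidAlgebra.single v 1) = ∑ v, MonoidAlgebra.single v 1 :=
      fun g => by
      simp only [map_sum, ρ, Representation.ofMulAction_single]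
      exact (MulAction.bijective g).sum_comp fun v => MonoidAlgebra.single v (1 : ℂ)
    refine ⟨⟨⟨∑ v, MonoidAlgebra.single v 1, mem_Wt.2 fun c => by simp [hv]⟩,
      fun g => Subtype.ext (hv _)⟩, fun h => ?_⟩
    have h2 : (∑ v, MonoidAlgebra.single v 1 : MonoidAlgebra ℂ (X F (Fin n))) = 0 :=
      congrArg (fun z => z.1.1) h
    obtain ⟨v⟩ := hne
    have := congrArg (fun z => z.coeff v) h2
    simp [Finsupp.single_apply] at this
  let η : AddChar (Additive Fˣ) ℂ → G → ℂ := fun β => if β = 0 then θ β - fun _ => 1 else θ β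
  have hη : π = ∑ j : Option (AddChar (Additive Fˣ) ℂ), j.elim (fun _ => 1) η := by
    rw [Fintype.sum_option, hπ, ← Finset.add_sum_erase _ _ (Finset.mem_univ 0),
      ← Finset.add_sum_erase _ _ (Finset.mem_univ 0)]
    simp only [Option.elim, η, if_true]
    rw [← add_assoc, add_sub_cancel]
    congr 1
    exact Finset.sum_congr rfl fun β hβ => (if_neg (Finset.ne_of_mem_erase hβ)).symm
  have hcard : Fintype.card (AddChar (Additive Fˣ) ℂ) = Fintype.card F - 1 := by
    rw [AddChar.card_eq, hA]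
  obtain ⟨i1, i2⟩ := irr_of_sum (fun j : Option (AddChar (Additive Fˣ) ℂ) => j.elim (fun _ => 1) η)
    (by
      rintro (_ | β)
      · exact Char.isChar_one
      · simp only [Option.elim, η]
        split_ifs with hβ
        · subst hβ; exact Char.isChar_sub_constituent (hch 0) Char.isIrr_one h1
        · exact hch β)
    (by
      rintro (_ | β) h
      · simpa using congrFun h 1
      · have h2 := congrFun h 1
        have h3 := hdeg β
        simp only [Option.elim, η] at h2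
        split_ifs at h2 with hβ
        · rw [Pi.sub_apply, Pi.zero_apply, sub_eq_zero] at h2
          rw [h2, mul_one, Nat.cast_inj] at h3; omega
        · rw [h2, Pi.zero_apply, mul_zero, eq_comm, Nat.cast_eq_zero] at h3; omega)
    (by rw [← hη]; exact Char.classInner_perm_perm (X F (Fin n)) (X F (Fin n)))
    ((card_orbits (F := F) hι).trans (by rw [Fintype.card_option, hcard]; omega))
  let e := Fintype.equivFinOfCardEq hcard
  refine ⟨fun i => η (e.symm i), fun i => i1 (some _), fun i j h =>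
    e.symm.injective (Option.some.inj (i2 h)), fun g => ?_⟩
  have := congrFun hη g
  rw [Finset.sum_apply, Fintype.sum_option] at this
  rw [e.symm.sum_comp fun β => η β g]
  refine Eq.trans ?_ this
  simp only [π]
  congr 1
  exact Nat.card_congr ⟨fun v => ⟨⟨v.1, v.2.1⟩, Subtype.ext ((smul_val' _ _).trans v.2.2)⟩,
    fun v => ⟨v.1.1, v.1.2, (smul_val' _ _).symm.trans (congrArg Subtype.val v.2)⟩,
    fun _ => rfl, fun _ => rfl⟩

end Cfsg.Agent.S2336
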