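import Mathlib
import Cfsg.Statements.S2337
import Cfsg.Agent.RankOne.SzLie
import Cfsg.Agent.RankOne.SzSub
import Cfsg.Agent.Char.Kernel
import Cfsg.Agent.Char.Constit
-- import your own Cfsg.Agent.* helpers here

set_option autoImplicit false
open Cfsg

namespace Cfsg.Agent.S2337

open RankOne RankOne.Sz Char
open scoped commutatorElement

theorem rad_unique {G Ω F : Type*} [Group G] [MulAction G Ω] [Field F] [Fintype F] {m : ℕ} (Z : Model G Ω F m)
    (l : F → ℂ) (hl : ∀ b c, l (b + c) = l b * l c) (h0 : l 0 = 1) (h1 : l 1 ≠ 1) :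
    (∀ b c, (∀ w, l (b * w) = l (c * w)) → b = c) ∧
    ∀ x y : F, x ≠ 0 → y ≠ 0 → (∀ u, l (Z.θ x * u + Z.θ u * x) = 1) → (∀ u, l (Z.θ y * u + Z.θ u * y) = 1) →
      x = y := by
  classical
  have := Z.charP
  have hsq : ∀ b, l b * l b = 1 := fun b => by rw [← hl, CharTwo.add_self_eq_zero, h0]
  have inj : ∀ b c, (∀ w, l (b * w) = l (c * w)) → b = c := by
    intro b c h
    by_contra hbc
    have h2 : b + c ≠ 0 := fun h => hbc (by grind)
    apply h1
    have := h (b + c)⁻¹
    rw [← mul_inv_cancel₀ h2, add_mul, hl, this, hsq]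
  refine ⟨inj, fun x y hx hy h2 h3 => ?_⟩
  let f : F →+ F := AddMonoidHom.id F + Z.θ.toAddMonoidHom
  have hf : ∀ v, f v = v + Z.θ v := fun _ => rfl
  have hk : Nat.card f.ker = 2 := by
    rw [Nat.card_eq_two_iff' 0]
    refine ⟨⟨1, by simp [AddMonoidHom.mem_ker, hf, CharTwo.add_self_eq_zero]⟩, fun h => one_ne_zero (congrArg Subtype.val h), ?_⟩
    rintro ⟨v, hv⟩ h
    apply Subtype.ext
    have e1 : Z.θ v = v := by rw [AddMonoidHom.mem_ker, hf] at hv; grind
    have e2 := Z.θθ v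
    rw [e1, e1] at e2
    have e3 : v ≠ 0 := fun h' => h (Subtype.ext h')
    apply mul_left_cancel₀ e3
    linear_combination -e2
  have hi : f.range.index = 2 := by
    have e1 := f.range.card_mul_index
    have e2 := f.ker.card_mul_index
    rw [AddSubgroup.index_ker, hk, mul_comm, ← e1] at e2
    exact (Nat.eq_of_mul_eq_mul_left Nat.card_pos e2).symm
  have key : ∀ x : F, x ≠ 0 → (∀ u, l (Z.θ x * u + Z.θ u * x) = 1) →
      ∀ w, l (x * Z.θ x * w) = if w ∈ f.range then 1 else -1 := by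
    intro x hx h
    have e1 : ∀ w ∈ f.range, l (x * Z.θ x * w) = 1 := by
      rintro _ ⟨v, rfl⟩
      rw [← h (x * v), hf, map_mul]
      congr 1; ring
    intro w
    split_ifs with hw
    · exact e1 w hw
    · rcases mul_self_eq_one_iff.mp (hsq (x * Z.θ x * w)) with e | e
      · exfalso
        have : x * Z.θ x = 0 := by
          apply inj
          intro w'
          rw [zero_mul, h0]
          by_cases hw' : w' ∈ f.range
          · exact e1 w' hw'
          · have := e1 (w' + w) ((AddSubgroup.add_mem_iff_of_index_two hi).mpr (by simp [hw, hw']))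
            rwa [mul_add, hl, e, mul_one] at this
        simp [hx] at this
      · exact e
  exact Z.mul_θ_inj (inj _ _ fun w => by rw [key x hx h2, key y hy h3])

theorem aux {G Ω F : Type*} [Group G] [MulAction G Ω] [Field F] [Fintype F] {m : ℕ} (Z : Model G Ω F m)
    (k : ℕ) (ρ : Representation ℂ G (Fin k → ℂ)) (hρ : ρ.IsIrreducible) (hk : 2 ≤ k) :
    2 ^ m * (Fintype.card F - 1) ≤ k := by
  classical
  have := Z.finite
  have := Fintype.ofFinite G
  have := Z.isSimpleGroup
  have hχ := isIrr_character ρ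
  have hχ1 : ρ.character 1 = k := by simp
  have hker := charKer_eq_bot_of_simple hχ (by
    intro h
    rw [h] at hχ1
    have : k = 1 := by simpa using hχ1.symm
    omega)
  have hQ := isChar_res Z.Q (isIrr_isChar hχ)
  let s : F → F → Z.Q := fun x y => ⟨Z.S x y, Z.S_mem x y⟩
  obtain ⟨ψ, hψ, hin, hs⟩ : ∃ ψ, IsIrrCharacter Z.Q ψ ∧ classInner (fun x : Z.Q => ρ.character x) ψ ≠ 0 ∧
      s 0 1 ∉ charKer ψ := by
    by_contra hcon
    push Not at hcon
    have h1 := (mem_charKer_iff hQ).mp (mem_charKer_of_forall_constituent (isChar_classFun hQ) hcon)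
    have h2 := (mem_charKer_iff (isIrr_isChar hχ)).mpr h1
    rw [hker] at h2
    exact Z.S_zero_one_ne h2
  obtain ⟨lam, hlam⟩ := isIrr_exists_central_linear hψ
  obtain ⟨d, hd0, hd⟩ := isIrr_degree hψ
  let l : F → ℂ := fun b => lam ⟨s 0 b, (Z.mem_center_Q_iff _).mpr ⟨b, rfl⟩⟩
  have hl : ∀ b g, ψ (s 0 b * g) = l b * ψ g := fun b g => hlam ⟨s 0 b, _⟩ g
  have hd' : (d : ℂ) ≠ 0 := by exact_mod_cast hd0.ne'
  have hl1 : ∀ b, ψ (s 0 b) = l b * d := fun b => by rw [← hd, ← hl, mul_one]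
  obtain ⟨inj, rad⟩ := rad_unique Z l
    (fun b c => by
      apply mul_right_cancel₀ hd'
      rw [mul_assoc, ← hl1, ← hl1, ← hl]
      congr 1
      exact Subtype.ext (Z.S_zero_mul b c).symm)
    (by
      apply mul_right_cancel₀ hd'
      rw [← hl1, one_mul, ← hd]
      congr 1
      exact Subtype.ext Z.S_zero)
    (fun h => hs fun g => by rw [hl, h, one_mul])
  have hdm : 2 ^ m ≤ d := by
    let R : Finset F := Finset.univ.filter fun x => ∀ u, l (Z.θ x * u + Z.θ u * x) = 1
    have hR : R.card ≤ 2 := by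
      have e1 : (R.erase 0).card ≤ 1 := Finset.card_le_one.mpr fun x hx y hy =>
        rad x y (Finset.mem_erase.mp hx).1 (Finset.mem_erase.mp hy).1
          (Finset.mem_filter.mp (Finset.mem_erase.mp hx).2).2 (Finset.mem_filter.mp (Finset.mem_erase.mp hy).2).2
      have := Finset.pred_card_le_card_erase (s := R) (a := 0)
      omega
    have hv : ∀ x y, x ∉ R → ψ (s x y) = 0 := by
      intro x y hx
      obtain ⟨u, hu⟩ : ∃ u, l (Z.θ x * u + Z.θ u * x) ≠ 1 := by simpa [R] using hx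
      have e1 := isIrr_classFun hψ (s x y) (s u 0)
      have e2 : s u 0 * s x y * (s u 0)⁻¹ = s 0 (Z.θ x * u + Z.θ u * x) * s x y := by
        apply Subtype.ext
        change Z.S u 0 * Z.S x y * (Z.S u 0)⁻¹ = Z.S 0 _ * Z.S x y
        rw [add_comm, ← Z.S_commutator u 0 x y, commutatorElement_def, inv_mul_cancel_right]
      rw [e2, hl] at e1
      by_contra h
      exact hu (by simpa [h] using e1)
    have h1 := isIrr_sum_norm_sq hψ
    rw [← Z.equivQ.sum_comp, Fintype.sum_prod_type, Z.card_Q] at h1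
    have h2 : ∑ x, ∑ y, ‖ψ (Z.equivQ (x, y))‖ ^ 2 ≤ ∑ x ∈ R, ∑ _y : F, (d : ℝ) ^ 2 := by
      rw [← Finset.sum_subset (Finset.subset_univ R) (fun x _ hx => Finset.sum_eq_zero fun y _ => by
        change ‖ψ (s x y)‖ ^ 2 = 0
        rw [hv x y hx]; simp)]
      gcongr with x _ y _
      exact isChar_norm_le (isIrr_isChar hψ) _ hd
    rw [h1, Finset.sum_const, Finset.sum_const, Finset.card_univ, nsmul_eq_mul, nsmul_eq_mul] at h2
    have h3 : Fintype.card F ^ 2 ≤ R.card * (Fintype.card F * d ^ 2) := by exact_mod_cast h2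
    have h4 : Fintype.card F * (2 * (2 ^ m) ^ 2) ≤ Fintype.card F * (2 * d ^ 2) := by
      calc _ = Fintype.card F ^ 2 := by rw [Z.card_F]; ring
        _ ≤ 2 * (Fintype.card F * d ^ 2) := h3.trans (Nat.mul_le_mul_right _ hR)
        _ = _ := by ring
    have h5 := Nat.le_of_mul_le_mul_left h4 Fintype.card_pos
    exact (Nat.pow_le_pow_iff_left two_ne_zero).mp (by omega)
  let α : Fˣ → Z.Q ≃* Z.Q := fun κ =>
    Subgroup.normalizerMonoidHom Z.Q ⟨Z.M κ, by rw [Z.normalizer_Q]; exact Z.M_a κ⟩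
  have hα : ∀ κ (x : Z.Q), (α κ x : G) = Z.M κ * x * (Z.M κ)⁻¹ := fun _ _ => rfl
  let φ : Fˣ → IrrCharacter Z.Q := fun κ => ⟨fun x => ψ (α κ x), isIrr_comp_equiv (α κ) hψ⟩
  have hφ : Function.Injective φ := by
    intro κ μ h
    apply Units.ext
    apply Z.mul_θ_inj
    apply inj
    intro w
    have e : ∀ κ : Fˣ, α κ (s 0 w) = s 0 (κ * Z.θ κ * w) := fun κ => Subtype.ext (by
      rw [hα, Z.M_conj_S, mul_zero])
    have := congrFun (congrArg Subtype.val h) (s 0 w)
    change ψ (α κ _) = ψ (α μ _) at this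
    rw [e, e, hl1, hl1] at this
    exact mul_right_cancel₀ hd' this
  obtain ⟨n, hn1, hn2⟩ := Constit.isChar_expand_nat hQ
  choose deg hdeg using fun θ : IrrCharacter Z.Q => isChar_degree (irr_isChar θ)
  have h1 : k = ∑ θ, n θ * deg θ := by
    have := congrFun hn2 1
    simp only [OneMemClass.coe_one, hχ1, Finset.sum_apply, Pi.smul_apply, hdeg, smul_eq_mul] at this
    exact_mod_cast this
  have h2 : ∀ κ, 2 ^ m ≤ n (φ κ) * deg (φ κ) := by
    intro κ
    have e1 : deg (φ κ) = d := by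
      have := hdeg (φ κ)
      change ψ (α κ 1) = _ at this
      rw [map_one, hd] at this
      exact_mod_cast this.symm
    have e2 : n (φ κ) ≠ 0 := by
      intro h
      apply hin
      have := hn1 (φ κ)
      rw [h, Nat.cast_zero] at this
      rw [← this, ← classInner_comp_equiv (α κ)]
      congr 1
      funext x
      rw [hα]
      exact isIrr_classFun hχ _ _
    rw [e1]
    exact hdm.trans (Nat.le_mul_of_pos_left _ (Nat.pos_of_ne_zero e2))
  calc 2 ^ m * (Fintype.card F - 1) = ∑ _κ : Fˣ, 2 ^ m := by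
        rw [Finset.sum_const, Finset.card_univ, Fintype.card_units, smul_eq_mul, mul_comm]
    _ ≤ ∑ κ, n (φ κ) * deg (φ κ) := Finset.sum_le_sum fun κ _ => h2 κ
    _ = ∑ θ ∈ Finset.univ.image φ, n θ * deg θ := by rw [Finset.sum_image fun _ _ _ _ h => hφ h]
    _ ≤ _ := h1 ▸ Finset.sum_le_sum_of_subset (Finset.subset_univ _)


/-- For the Suzuki group Sz(q), q = 2^(2m+1) with m ≥ 1 (realised inside Sp₄ over the field with q elements), every irreducible complex representation of degree at least 2 has degree at least 2^m·(q − 1). -/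
theorem result {F : Type*} [Field F] [Fintype F] (m : ℕ) (hm : 1 ≤ m) (hF : Fintype.card F = 2 ^ (2 * m + 1)) :
    (∀ (k : ℕ) (ρ : Representation ℂ (Cfsg.Lie.Sz F (2 ^ (m + 1))) (Fin k → ℂ)), ρ.IsIrreducible → 2 ≤ k → 2 ^ m * (2 ^ (2 * m + 1) - 1) ≤ k) := by
  obtain ⟨_, ⟨Z⟩⟩ := RankOne.Sz.exists_model_lie hF hm
  intro k ρ hρ hk
  rw [← hF]
  exact aux Z k ρ hρ hk

end Cfsg.Agent.S2337
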