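import Mathlib
import Cfsg.Statements.S2345
import Cfsg.Agent.ULT.OD7

set_option autoImplicit false
open Cfsg

namespace Cfsg.Agent.S2345


/-- For a finite field F with q > 3 elements and n ≥ 4, every irreducible complex representation of degree at least 2 of Ω⁺_{2n}(F) (the commutator subgroup of the isometry group of the hyperbolic quadratic form x₁y₁ + ⋯ + x_ny_n) has degree at least (q^n − 1)(q^{n−1} + q)/(q² − 1). -/
theorem result {F : Type*} [Field F] [Fintype F] (n : ℕ) (hn : 4 ≤ n) (h3 : 3 < Fintype.card F) :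
    (∀ (k : ℕ) (ρ : Representation ℂ (Cfsg.Omega F (Cfsg.quadFormPlus n F)) (Fin k → ℂ)), ρ.IsIrreducible → 2 ≤ k → (Fintype.card F ^ n - 1) * (Fintype.card F ^ (n - 1) + Fintype.card F) / (Fintype.card F ^ 2 - 1) ≤ k) := by
  intro k ρ hρ hk
  obtain ⟨m, rfl⟩ : ∃ m, n = m + 2 := ⟨n - 2, by omega⟩
  have hD : Module.finrank F (Fin (m + 2) ⊕ Fin (m + 2) → F) = 2 * m + 4 := by
    simp; omega
  have H : ULT.OD.Big (Orth.plusQ (m + 2) F) := ⟨Orth.nd_plusQ (m + 2), by omega⟩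
  obtain ⟨g, hg⟩ := Classical.LS.nontriv_of_irr ρ hρ (by simpa using hk)
  have := Classical.LS.le_of_irr (d := (Fintype.card F ^ (m + 2) - 1) *
      (Fintype.card F ^ (m + 1) + Fintype.card F) / (Fintype.card F ^ 2 - 1))
    (fun W _ _ _ τ h1 h4 => Nat.div_le_of_le_mul
      (ULT.OD.plus_final H (Orth.isPlus_plusQ _) h3 hD τ h1 (ULT.OD.two_le_of_ne H τ h4))) _
    (ρ.comp (Orth.omegaEquiv (Orth.plusQ (m + 2) F)).symm.toMonoidHom)
    ⟨Orth.omegaEquiv _ g, fun h => hg ((congrArg ρ (MulEquiv.symm_apply_apply _ g)).symm.trans h)⟩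
  rwa [Module.finrank_fin_fun] at this

end Cfsg.Agent.S2345
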