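import Mathlib
import Cfsg.Statements.S2346
import Cfsg.Agent.ULT.OD7

set_option autoImplicit false
open Cfsg

namespace Cfsg.Agent.S2346


/-- For a finite field F with q elements, n ≥ 4, and a, b ∈ F with z₁² + a z₁z₂ + b z₂² anisotropic, every irreducible complex representation of degree at least 2 of Ω⁻_{2n}(F) (the commutator subgroup of the isometry group of x₁y₁ + ⋯ + x_{n−1}y_{n−1} + z₁² + a z₁z₂ + b z₂²) has degree at least (q^n + 1)(q^{n−1} − q)/(q² − 1). -/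
theorem result {F : Type*} [Field F] [Fintype F] (n : ℕ) (hn : 4 ≤ n) (a b : F) (hab : ∀ z₁ z₂ : F, z₁ ^ 2 + a * z₁ * z₂ + b * z₂ ^ 2 = 0 → z₁ = 0 ∧ z₂ = 0) :
    (∀ (k : ℕ) (ρ : Representation ℂ (Cfsg.Omega F (Cfsg.quadFormMinus (n - 1) F a b)) (Fin k → ℂ)), ρ.IsIrreducible → 2 ≤ k → (Fintype.card F ^ n + 1) * (Fintype.card F ^ (n - 1) - Fintype.card F) / (Fintype.card F ^ 2 - 1) ≤ k) := by
  intro k ρ hρ hk
  obtain ⟨m, rfl⟩ : ∃ m, n = m + 4 := ⟨n - 4, by omega⟩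
  have hD : Module.finrank F ((Fin (m + 3) ⊕ Fin (m + 3)) ⊕ Fin 2 → F) = 2 * (m + 2) + 4 := by
    simp; omega
  obtain ⟨g, hg⟩ := Classical.LS.nontriv_of_irr ρ hρ (by simpa using hk)
  have := ULT.OD.minus_final m (Orth.nd_minusQ (m + 3) (Orth.aniso_disc_ne_zero hab))
    (Orth.not_isPlus_minusQ (m + 3) hab) hD _
    (ρ.comp (Orth.omegaEquiv (Orth.minusQ (m + 3) F a b)).symm.toMonoidHom)
    ⟨Orth.omegaEquiv _ g, fun h => hg ((congrArg ρ (MulEquiv.symm_apply_apply _ g)).symm.trans h)⟩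
  rw [Module.finrank_fin_fun] at this
  refine Nat.div_le_of_le_mul ?_
  have h1 : 1 ≤ Fintype.card F ^ 2 := Nat.one_le_pow _ _ Fintype.card_pos
  have h2 : Fintype.card F ≤ Fintype.card F ^ (m + 4 - 1) := Nat.le_self_pow (by omega) _
  rify [h1, h2]
  exact le_of_eq_of_le (by rw [show m + 4 - 1 = m + 3 from rfl]; ring) this

end Cfsg.Agent.S2346
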