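import Mathlib
import Cfsg.Statements.S2347
import Cfsg.Agent.Classical.Weil

set_option autoImplicit false
set_option backward.isDefEq.respectTransparency false
open Cfsg

namespace Cfsg.Agent.S2347

open Cfsg.Agent.Classical Cfsg.Agent.Classical.LS Cfsg.Agent.Classical.SpWitt
  Cfsg.Agent.Classical.SpMat Module

theorem lower {F : Type*} [Field F] [Fintype F] (n : ℕ) (hn : 2 ≤ n) (h2 : (2 : F) ≠ 0)
    {W : Type*} [AddCommGroup W] [Module ℂ W] [FiniteDimensional ℂ W]
    (ρ : Representation ℂ (SG (sB (Fin n) F)) W) (hρ : ∃ g, ρ g ≠ 1) :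
    Fintype.card F ^ n - 1 ≤ 2 * finrank ℂ W := by
  let φ : (Fin n → F) →ₗ[F] (Fin n ⊕ Fin n → F) :=
    { toFun := fun x => Sum.elim x 0
      map_add' := fun x y => by ext (i | i) <;> simp
      map_smul' := fun c x => by ext (i | i) <;> simp }
  have hφ : Function.Injective φ := fun x y h => funext fun i => congrFun h (Sum.inl i)
  have hd : finrank F (LinearMap.range φ) = n := by
    rw [LinearMap.finrank_range_of_inj hφ]; simp
  have := sp_bound sB_nondeg sB_alt (U := LinearMap.range φ) (by
    rintro _ ⟨x, rfl⟩ _ ⟨y, rfl⟩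
    simp [sB_eq_sum, φ]) h2 (by omega) ρ hρ
  rwa [hd] at this

/-- Smallest degree of a non-linear irreducible complex representation of the symplectic group Sp_{2n} over a finite field of odd order q, n ≥ 2: every irreducible complex representation of degree at least 2 has degree at least (q^n − 1)/2, and there is an irreducible complex representation of exactly that degree (a Weil representation). -/
theorem result {F : Type*} [Field F] [Fintype F] [DecidableEq F] (n : ℕ) (hn : 2 ≤ n) (hodd : Odd (Fintype.card F)) :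
    (∀ (k : ℕ) (ρ : Representation ℂ (Matrix.symplecticGroup (Fin n) F) (Fin k → ℂ)), ρ.IsIrreducible → 2 ≤ k → (Fintype.card F ^ n - 1) / 2 ≤ k) ∧
    (∃ ρ : Representation ℂ (Matrix.symplecticGroup (Fin n) F) (Fin ((Fintype.card F ^ n - 1) / 2) → ℂ), ρ.IsIrreducible) := by
  have h2 : (2 : F) ≠ 0 := by
    intro h
    have : ringChar F = 2 := CharP.ringChar_of_prime_eq_zero Nat.prime_two (by exact_mod_cast h)
    have := FiniteField.even_card_of_char_two this
    rw [Nat.odd_iff] at hodd
    omega
  refine ⟨fun k ρ hρ hk => ?_, ?_⟩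
  · obtain ⟨g, hg⟩ := nontriv_of_irr ρ hρ (by simpa using hk)
    have := lower n hn h2 (ρ.comp (spEquiv (Fin n) F).symm.toMonoidHom)
      ⟨spEquiv _ _ g, by simpa using hg⟩
    simp only [Module.finrank_fin_fun] at this
    exact Nat.div_le_of_le_mul this
  · obtain ⟨ρ, g, hg⟩ := exists_weil_odd (ι := Fin n) h2 (by simpa using hn)
    have hd : 2 * finrank ℂ (Ev F (Fin n) (-1)) = Fintype.card F ^ n - 1 := by
      have := finrank_Ev (ι := Fin n) h2 (s := -1) (by simp)
      have h : ((2 * finrank ℂ (Ev F (Fin n) (-1)) + 1 : ℕ) : ℂ) = ((Fintype.card F ^ n : ℕ) : ℂ) := by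
        push_cast; rw [this]; simp
      have := Nat.cast_injective h
      omega
    refine exists_fin (ρ.comp (spEquiv (Fin n) F).toMonoidHom)
      (irr_of_small _ ⟨(spEquiv _ _).symm g, by simpa using hg⟩ fun U hU s => ?_) (by omega)
    by_contra hs
    have := lower n hn h2 (W := U.toSubmodule)
      (MonoidHom.comp U.toRepresentation (spEquiv (Fin n) F).symm.toMonoidHom)
      ⟨spEquiv _ _ s, by simpa using hs⟩
    omega

end Cfsg.Agent.S2347
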