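import Mathlib
import Cfsg.Statements.S2352
import Cfsg.Agent.FGS.SymSyl

set_option autoImplicit false
open Cfsg

namespace Cfsg.Agent.S2352

open Equiv

/-- A non-trivial law holds in only finitely many alternating groups: for every non-trivial element w of the free group on countably many generators there is N such that for all n ≥ N some substitution of elements of the alternating group of degree n into w is not the identity. -/
theorem result (w : FreeGroup ℕ) (hw : w ≠ 1) :
    ∃ N : ℕ, ∀ n : ℕ, N ≤ n → ∃ f : ℕ → alternatingGroup (Fin n), FreeGroup.lift f w ≠ 1 := by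
  classical
  obtain ⟨L, rfl⟩ : ∃ L, FreeGroup.mk L = w := ⟨_, FreeGroup.mk_toWord⟩
  let B : Finset (FreeGroup ℕ) := (L.tails.map FreeGroup.mk).toFinset
  have hB : ∀ s, s <:+ L → FreeGroup.mk s ∈ B := fun s hs => by
    simp only [B, List.mem_toFinset, List.mem_map, List.mem_tails]; exact ⟨s, hs, rfl⟩
  have h1 : ∀ a : ℕ, ∃ σ : Perm B, ∀ x y : B, FreeGroup.of a * x = y → σ x = y := fun a => by
    obtain ⟨σ, hσ⟩ := Perm.exists_extending_pair (α := {x : B // FreeGroup.of a * x ∈ B}) (f := Subtype.val)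
      (g := fun x => (⟨_, x.2⟩ : B)) Subtype.val_injective fun x y e =>
        Subtype.ext (Subtype.ext (mul_left_cancel (congrArg Subtype.val e)))
    exact ⟨σ, fun x y e => (hσ ⟨x, e ▸ y.2⟩).trans (Subtype.ext e)⟩
  choose σ hσ using h1
  have h2 : ∀ s (hs : s <:+ L), FreeGroup.lift σ (FreeGroup.mk s) ⟨_, hB [] List.nil_suffix⟩ = ⟨_, hB s hs⟩ := by
    intro s hs
    induction s with
    | nil => rfl
    | cons a s ih =>
      have e : FreeGroup.mk (a :: s) = FreeGroup.mk [a] * FreeGroup.mk s := rfl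
      obtain ⟨a, _ | _⟩ := a
      · have e' : FreeGroup.mk [(a, false)] = (FreeGroup.of a)⁻¹ := rfl
        conv_lhs => rw [e, e', map_mul, map_inv, FreeGroup.lift_apply_of, Perm.mul_apply,
          ih ((List.suffix_cons _ _).trans hs)]
        exact Perm.inv_eq_iff_eq.mpr (hσ a _ _ (mul_inv_cancel_left (FreeGroup.of a) (FreeGroup.mk s))).symm
      · have e' : FreeGroup.mk [(a, true)] = FreeGroup.of a := rfl
        conv_lhs => rw [e, e', map_mul, FreeGroup.lift_apply_of, Perm.mul_apply,
          ih ((List.suffix_cons _ _).trans hs)]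
        exact hσ a _ _ rfl
  refine ⟨Fintype.card (B × Fin 2), fun n hn => ?_⟩
  obtain ⟨ι⟩ : Nonempty (B × Fin 2 ↪ Fin n) := Function.Embedding.nonempty_of_card_le (by rwa [Fintype.card_fin])
  let φ : Perm B →* alternatingGroup (Fin n) := ((Perm.viaEmbeddingHom ι).comp (FGS.wrTop B (Fin 2))).codRestrict _
    fun τ => (FGS.sign_viaEmbeddingHom ι _).trans ((Perm.sign_prodCongrLeft fun _ : Fin 2 => τ).trans (by simp))
  refine ⟨φ ∘ σ, fun h => hw ?_⟩
  rw [show FreeGroup.lift (φ ∘ σ) = φ.comp (FreeGroup.lift σ) from FreeGroup.ext_hom _ _ fun a => by simp] at h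
  have h3 : FreeGroup.lift σ (FreeGroup.mk L) = 1 := FGS.wrTop_injective (C := Fin 2)
    (Perm.viaEmbeddingHom_injective ι ((congrArg Subtype.val h).trans (by simp)))
  have h4 := h2 L (List.suffix_refl L)
  rw [h3] at h4
  exact (congrArg Subtype.val h4).symm

end Cfsg.Agent.S2352
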