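import Mathlib
import Cfsg.Statements.S2353
import Cfsg.Agent.Max.L2g

set_option autoImplicit false
open Cfsg

namespace Cfsg.Agent.S2353

open scoped Pointwise
open Cfsg.Agent.Max.L2 Cfsg.Agent.Classical.PSL2Basic Cfsg.Agent.Classical.P1Ident
  Cfsg.Agent.Classical.Congr Cfsg.Agent.Classical.P1
open Polynomial Matrix
open scoped MatrixGroups

section
variable {F : Type*} [Field F] (α : ℕ × Bool → F) (γ : F)

/-- Image of the vector `(γ, 1)` under the generic word. -/
noncomputable def pq : List (ℕ × Bool) → F[X] × F[X]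
  | [] => (C γ, 1)
  | l :: L => (X * (C (α l) * ((pq L).1 - C (α (l.1, !l.2)) * (pq L).2)) -
      C (α (l.1, !l.2)) * ((pq L).1 - C (α l) * (pq L).2),
    X * ((pq L).1 - C (α (l.1, !l.2)) * (pq L).2) - ((pq L).1 - C (α l) * (pq L).2))

theorem deg_sub {n : ℕ} {p q : F[X]} (a : F) (hp : p.natDegree ≤ n) (hq : q.natDegree ≤ n) :
    (p - C a * q).natDegree ≤ n :=
  (natDegree_sub_le _ _).trans (max_le hp ((natDegree_C_mul_le _ _).trans hq))

theorem deg_X {n : ℕ} {p : F[X]} (hp : p.natDegree ≤ n) : (X * p).natDegree ≤ n + 1 :=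
  natDegree_mul_le.trans (by have := natDegree_X_le (R := F); omega)

theorem pq_deg (L : List (ℕ × Bool)) :
    (pq α γ L).1.natDegree ≤ L.length ∧ (pq α γ L).2.natDegree ≤ L.length := by
  induction L with
  | nil => simp [pq]
  | cons l L ih =>
    exact ⟨deg_sub _ (deg_X ((natDegree_C_mul_le _ _).trans (deg_sub _ ih.1 ih.2)))
      ((deg_sub _ ih.1 ih.2).trans (Nat.le_succ _)), (natDegree_sub_le _ _).trans
        (max_le (deg_X (deg_sub _ ih.1 ih.2)) ((deg_sub _ ih.1 ih.2).trans (Nat.le_succ _)))⟩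

theorem pq_lead (S : Set (ℕ × Bool)) (h1 : ∀ l ∈ S, α (l.1, !l.2) ≠ γ)
    (h2 : ∀ l ∈ S, ∀ l' ∈ S, α l' = α (l.1, !l.2) → l' = (l.1, !l.2)) (L : List (ℕ × Bool))
    (hS : ∀ l ∈ L, l ∈ S) (hL : FreeGroup.IsReduced L) : ∃ c : F, c ≠ 0 ∧
      (pq α γ L).2.coeff L.length = c ∧
      (pq α γ L).1.coeff L.length = (L.head?.map α).getD γ * c := by
  induction L with
  | nil => exact ⟨1, one_ne_zero, by simp [pq]⟩
  | cons l L ih =>
    obtain ⟨c, hc, e1, e2⟩ := ih (fun l h => hS l (List.mem_cons_of_mem _ h)) (List.IsChain.tail hL)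
    have hd := pq_deg α γ L
    have h3 := coeff_eq_zero_of_natDegree_lt (Nat.lt_succ_of_le hd.1)
    have h4 := coeff_eq_zero_of_natDegree_lt (Nat.lt_succ_of_le hd.2)
    refine ⟨((L.head?.map α).getD γ - α (l.1, !l.2)) * c, mul_ne_zero (sub_ne_zero.2 ?_) hc, ?_, ?_⟩
    · cases L with
      | nil => exact (h1 l (hS l (by simp))).symm
      | cons l' L =>
        intro e
        have h5 := h2 l (hS l (by simp)) l' (hS l' (by simp)) e
        have h6 := (FreeGroup.isReduced_cons_cons.1 hL).1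
        rw [h5] at h6
        simp at h6
    · simp [pq, coeff_X_mul, h3, h4, e1, e2]; ring
    · simp [pq, coeff_X_mul, h3, h4, e1, e2]; left; ring

variable (hα : ∀ l : ℕ × Bool, α l ≠ α (l.1, !l.2)) {t : F} (ht : t ≠ 0)

/-- The matrix substituted for a letter. -/
noncomputable def gm (l : ℕ × Bool) : GL (Fin 2) F :=
  mat (t ^ 2 * α l - α (l.1, !l.2)) ((1 - t ^ 2) * α l * α (l.1, !l.2)) (t ^ 2 - 1)
    (α l - t ^ 2 * α (l.1, !l.2)) (by
      rw [show _ - _ = (t * (α l - α (l.1, !l.2))) ^ 2 by ring]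
      exact pow_ne_zero _ (mul_ne_zero ht (sub_ne_zero.2 (hα l))))

theorem gm_vec (L : List (ℕ × Bool)) :
    ((L.map (gm α hα ht)).prod : GL (Fin 2) F).1 *ᵥ ![γ, 1] =
      ![(pq α γ L).1.eval (t ^ 2), (pq α γ L).2.eval (t ^ 2)] := by
  induction L with
  | nil => simp [pq]
  | cons l L ih =>
    rw [List.map_cons, List.prod_cons, Units.val_mul, ← mulVec_mulVec, ih]
    ext i
    fin_cases i <;> simp [gm, pq, mulVec, dotProduct, Fin.sum_univ_two] <;> ring

theorem gm_mem (l : ℕ × Bool) : ProjGenLinGroup.mk (gm α hα ht l) ∈ LL F :=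
  mem_range_toP_iff.2 ⟨t * (α l - α (l.1, !l.2)), by simp [gm, Matrix.det_fin_two]; ring⟩

theorem gm_inv (i : ℕ) : ProjGenLinGroup.mk (gm α hα ht (i, false)) =
    (ProjGenLinGroup.mk (gm α hα ht (i, true)))⁻¹ := by
  rw [eq_inv_iff_mul_eq_one, ← map_mul, mk_eq_one_iff]
  simp [gm, Matrix.mul_apply, Fin.sum_univ_two]
  refine ⟨by ring, by ring, by ring⟩

end

/-- A non-trivial law holds in PSL_2 over only finitely many finite fields: for every non-trivial element w of the free group on countably many generators there is N such that over every finite field with at least N elements some substitution of elements of PSL_2 into w is not the identity. -/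
theorem result (w : FreeGroup ℕ) (hw : w ≠ 1) :
    ∃ N : ℕ, ∀ (F : Type*) [Field F] [Fintype F], N ≤ Fintype.card F →
      ∃ f : ℕ → Matrix.ProjectiveSpecialLinearGroup (Fin 2) F, FreeGroup.lift f w ≠ 1 := by
  obtain ⟨m, hm⟩ : ∃ m, ∀ l ∈ w.toWord, l.1 ≤ m :=
    ⟨(w.toWord.map Prod.fst).sum, fun l h => List.le_sum_of_mem (List.mem_map_of_mem h)⟩
  refine ⟨2 * m + 3 + 2 * w.toWord.length, fun F _ _ hF => ?_⟩
  obtain ⟨e⟩ := Function.Embedding.nonempty_of_card_le (α := Fin (2 * m + 3)) (β := F)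
    (by rw [Fintype.card_fin]; omega)
  let α : ℕ × Bool → F := fun l => e ⟨2 * min l.1 m + l.2.toNat, by
    have := Bool.toNat_le l.2; omega⟩
  let γ : F := e ⟨2 * m + 2, by omega⟩
  have hα : ∀ l : ℕ × Bool, α l ≠ α (l.1, !l.2) := by
    rintro ⟨i, _ | _⟩ <;> simp [α]
  have h1 : ∀ l : ℕ × Bool, α l ≠ γ := by
    rintro ⟨i, _ | _⟩ <;> simp [α, γ] <;> omega
  obtain ⟨c, hc, e1, e2⟩ := pq_lead α γ {l | l.1 ≤ m} (fun l _ => h1 _) (by
    rintro ⟨i, _ | _⟩ hi ⟨j, _ | _⟩ hj <;> simp at hi hj <;> simp [α, hi, hj] <;> omega)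
    w.toWord hm FreeGroup.isReduced_toWord
  have hd := pq_deg α γ w.toWord
  have h2 : (pq α γ w.toWord).1 - C γ * (pq α γ w.toWord).2 ≠ 0 := fun h => by
    have h3 := congrArg (coeff · w.toWord.length) h
    obtain ⟨l, L, h4⟩ := List.exists_cons_of_ne_nil (mt FreeGroup.toWord_eq_nil_iff.1 hw)
    simp only [coeff_sub, coeff_C_mul, e1, e2, coeff_zero] at h3
    rw [h4, ← sub_mul] at h3
    exact mul_ne_zero (sub_ne_zero.2 (h1 l)) hc h3
  obtain ⟨t, ht⟩ : ∃ t : F, (X * expand F 2 ((pq α γ w.toWord).1 -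
      C γ * (pq α γ w.toWord).2)).eval t ≠ 0 := by
    by_contra! h
    refine mul_ne_zero X_ne_zero (mt (expand_eq_zero two_pos).1 h2)
      (eq_zero_of_natDegree_lt_card_of_eval_eq_zero _ Function.injective_id h
        ((deg_X (n := 2 * w.toWord.length) ?_).trans_lt (by omega)))
    rw [natDegree_expand, mul_comm]
    exact Nat.mul_le_mul_left 2 (deg_sub _ hd.1 hd.2)
  rw [eval_mul, eval_X, expand_eval, mul_ne_zero_iff] at ht
  choose f hf using fun i => gm_mem α hα ht.1 (i, true)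
  refine ⟨f, fun h => ht.2 ?_⟩
  have h3 : ProjGenLinGroup.mk (w.toWord.map (gm α hα ht.1)).prod = 1 := by
    rw [← FreeGroup.mk_toWord (x := w), FreeGroup.lift_mk] at h
    rw [← map_one toP, ← h, map_list_prod, map_list_prod, List.map_map, List.map_map]
    congr 2
    ext ⟨i, _ | _⟩ <;> simp [hf, gm_inv]
  have h4 := gm_vec α γ hα ht.1 w.toWord
  obtain ⟨h5, h6, h7⟩ := mk_eq_one_iff.1 h3
  have h8 := congrFun h4 0
  have h9 := congrFun h4 1
  simp only [mulVec, dotProduct, Fin.sum_univ_two, h5, h6, h7, cons_val_zero, cons_val_one] at h8 h9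
  simp only [eval_sub, eval_mul, eval_C, ← h8, ← h9]
  ring

end Cfsg.Agent.S2353
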