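import Mathlib
import Cfsg.Statements.S2354
import Cfsg.Agent.RankOne.SzLie
import Cfsg.Agent.RankOne.SzSub
-- import your own Cfsg.Agent.* helpers here

set_option autoImplicit false
open Cfsg

namespace Cfsg.Agent.S2354

open RankOne RankOne.Sz Polynomial Matrix

/-- left exponent of a letter. -/
def lft (l : ℕ × Bool) : ℕ := if l.2 then 2 * l.1 + 1 else 2 * l.1 + 2

/-- right exponent of a letter. -/
def rgt (l : ℕ × Bool) : ℕ := if l.2 then 2 * l.1 + 2 else 2 * l.1 + 1

/-- action of a central unipotent matrix on a vector. -/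
def act {R : Type*} [CommRing R] (b c : R) (v : Fin 4 → R) : Fin 4 → R :=
  ![v 0 + b * v 2 + c * v 3, v 1 + b * v 3, v 2, v 3]

/-- reversal of a vector. -/
def rev {R : Type*} (v : Fin 4 → R) : Fin 4 → R := ![v 3, v 2, v 1, v 0]

/-- the polynomial vector attached to a word. -/
noncomputable def vec (F : Type*) [Field F] (r : ℕ) (L : List (ℕ × Bool)) : Fin 4 → F[X] :=
  L.foldr (fun l v => act (X ^ lft l) (X ^ (lft l * r)) (rev (act (X ^ rgt l) (X ^ (rgt l * r)) v)))
    ![1, 0, 0, 0]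

theorem vec_cons (F : Type*) [Field F] (r : ℕ) (l : ℕ × Bool) (L : List (ℕ × Bool)) :
    vec F r (l :: L) = act (X ^ lft l) (X ^ (lft l * r)) (rev (act (X ^ rgt l) (X ^ (rgt l * r)) (vec F r L))) :=
  rfl

theorem act_act {R : Type*} [CommRing R] (b c b' c' : R) (v : Fin 4 → R) :
    act b c (act b' c' v) = act (b + b') (c + c') v := by
  ext i
  fin_cases i <;> simp [act] <;> ring

theorem natDegree_X_pow_add {F : Type*} [Field F] {j k : ℕ} (h : j ≠ k) :
    (X ^ j + X ^ k : F[X]).natDegree = max j k := by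
  rcases lt_or_gt_of_ne h with h | h
  · rw [natDegree_add_eq_right_of_natDegree_lt (by simpa using h), natDegree_X_pow, max_eq_right h.le]
  · rw [natDegree_add_eq_left_of_natDegree_lt (by simpa using h), natDegree_X_pow, max_eq_left h.le]

theorem dom_step {F : Type*} [Field F] {b c : F[X]} {v : Fin 4 → F[X]} (hb : b.natDegree < c.natDegree)
    (h3 : v 3 ≠ 0) (h : ∀ i, (v i).natDegree ≤ (v 3).natDegree) :
    rev (act b c v) 3 ≠ 0 ∧ (∀ i, (rev (act b c v) i).natDegree ≤ (rev (act b c v) 3).natDegree) ∧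
      (rev (act b c v) 3).natDegree = c.natDegree + (v 3).natDegree := by
  have hc : c ≠ 0 := by rintro rfl; simp at hb
  have e1 : (c * v 3).natDegree = c.natDegree + (v 3).natDegree := natDegree_mul hc h3
  have e2 : (v 0 + b * v 2).natDegree < (c * v 3).natDegree := by
    have := natDegree_add_le (v 0) (b * v 2)
    have := natDegree_mul_le (p := b) (q := v 2)
    have := h 0
    have := h 2
    omega
  have e3 : (v 0 + b * v 2 + c * v 3).natDegree = c.natDegree + (v 3).natDegree := by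
    rw [natDegree_add_eq_right_of_natDegree_lt e2, e1]
  have e4 : rev (act b c v) 3 = v 0 + b * v 2 + c * v 3 := rfl
  refine ⟨?_, ?_, e4 ▸ e3⟩
  · intro h0
    rw [← e4, h0] at e3
    simp at e3
    omega
  · intro i
    rw [e4, e3]
    have := natDegree_add_le (v 1) (b * v 3)
    have := natDegree_mul_le (p := b) (q := v 3)
    have := h 1
    have := h 2
    fin_cases i <;> simp [rev, act] <;> omega

theorem dom {F : Type*} [Field F] {r d : ℕ} (hr : 2 ≤ r) (L : List (ℕ × Bool)) (l : ℕ × Bool)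
    (hL : FreeGroup.IsReduced (l :: L)) (hd : ∀ x ∈ l :: L, 2 * x.1 + 2 ≤ d) :
    rev (act (X ^ rgt l) (X ^ (rgt l * r)) (vec F r L)) 3 ≠ 0 ∧
      (∀ i, (rev (act (X ^ rgt l) (X ^ (rgt l * r)) (vec F r L)) i).natDegree ≤
        (rev (act (X ^ rgt l) (X ^ (rgt l * r)) (vec F r L)) 3).natDegree) ∧
      (rev (act (X ^ rgt l) (X ^ (rgt l * r)) (vec F r L)) 3).natDegree ≤ d * r * L.length := by
  induction L generalizing l with
  | nil =>
    refine ⟨by simp [rev, act, vec], fun i => ?_, by simp [rev, act, vec]⟩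
    fin_cases i <;> simp [rev, act, vec]
  | cons l' L ih =>
    rw [FreeGroup.IsReduced, List.isChain_cons_cons] at hL
    obtain ⟨h1, h2, h3⟩ := ih l' hL.2 (fun x hx => hd x (List.mem_cons_of_mem _ hx))
    have hne : rgt l ≠ lft l' := by
      have := hL.1
      obtain ⟨i, b⟩ := l
      obtain ⟨j, c⟩ := l'
      cases b <;> cases c <;> simp [rgt, lft] at this ⊢ <;> omega
    have p1 : 1 ≤ rgt l := by unfold rgt; split_ifs <;> omega
    have p2 : rgt l ≤ d := by have := hd l (by simp); unfold rgt; split_ifs <;> omega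
    have p3 : lft l' ≤ d := by have := hd l' (by simp); unfold lft; split_ifs <;> omega
    have e1 : (X ^ (rgt l * r) + X ^ (lft l' * r) : F[X]).natDegree = max (rgt l) (lft l') * r := by
      rw [natDegree_X_pow_add (fun h => hne (Nat.eq_of_mul_eq_mul_right (by omega) h)), Nat.mul_max_mul_right]
    rw [vec_cons, act_act]
    obtain ⟨h4, h5, h6⟩ := dom_step (b := X ^ rgt l + X ^ lft l') (c := X ^ (rgt l * r) + X ^ (lft l' * r))
      (by rw [e1, natDegree_X_pow_add hne]
          have : 1 ≤ max (rgt l) (lft l') := le_max_of_le_left p1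
          nlinarith) h1 h2
    refine ⟨h4, h5, ?_⟩
    rw [h6, e1, List.length_cons, Nat.mul_succ, add_comm]
    exact Nat.add_le_add h3 (Nat.mul_le_mul_right _ (max_le p2 p3))

theorem eval_vec {G Ω F : Type*} [Group G] [MulAction G Ω] [Field F] [Fintype F] {m : ℕ} (Z : Model G Ω F m)
    (x : F) (L : List (ℕ × Bool)) :
    Z.ρ (FreeGroup.lift (fun i => Z.S 0 (x ^ (2 * i + 1)) * Z.t * Z.S 0 (x ^ (2 * i + 2))) (FreeGroup.mk L)) *ᵥ
      e0 F = fun i => eval x (vec F (2 ^ (m + 1)) L i) := by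
  rw [FreeGroup.lift_mk]
  induction L with
  | nil =>
    ext i
    fin_cases i <;> simp [vec, e0]
  | cons l L ih =>
    have e : cond l.2 (Z.S 0 (x ^ (2 * l.1 + 1)) * Z.t * Z.S 0 (x ^ (2 * l.1 + 2)))
        (Z.S 0 (x ^ (2 * l.1 + 1)) * Z.t * Z.S 0 (x ^ (2 * l.1 + 2)))⁻¹ =
        Z.S 0 (x ^ lft l) * Z.t * Z.S 0 (x ^ rgt l) := by
      obtain ⟨i, b⟩ := l
      cases b
      · simp [lft, rgt, inv_eq_of_mul_self (Z.S_zero_mul_self _), Z.t_inv, mul_assoc]
      · simp [lft, rgt]
    rw [List.map_cons, List.prod_cons, map_mul, ← mulVec_mulVec, ih, e, map_mul, map_mul, Z.ρ_S, Z.ρ_S, Z.ρ_t,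
      vec_cons, ← mulVec_mulVec, ← mulVec_mulVec]
    ext i
    fin_cases i <;>
      simp [act, rev, Smat, Jmat, ff, Matrix.mulVec, dotProduct, Fin.sum_univ_succ, Z.θ_apply, ← pow_mul, add_assoc]


/-- A non-trivial law holds in only finitely many Suzuki groups: for every non-trivial element w of the free group on countably many generators there is N such that for q = 2^(2m+1) with m ≥ N some substitution of elements of the Suzuki group over the field with q elements into w is not the identity. -/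
theorem result (w : FreeGroup ℕ) (hw : w ≠ 1) :
    ∃ N : ℕ, ∀ (F : Type*) [Field F] [Fintype F] (m : ℕ), 1 ≤ m → N ≤ m →
      Fintype.card F = 2 ^ (2 * m + 1) →
      ∃ f : ℕ → ↥(Cfsg.Lie.Sz F (2 ^ (m + 1))), FreeGroup.lift f w ≠ 1 := by
  obtain ⟨l, L, hL⟩ := List.exists_cons_of_ne_nil (FreeGroup.toWord_eq_nil_iff.not.mpr hw)
  have hred := FreeGroup.isReduced_toWord (x := w)
  rw [hL] at hred
  obtain ⟨d, hd⟩ : ∃ d, ∀ x ∈ l :: L, 2 * x.1 + 2 ≤ d :=
    ⟨((l :: L).map fun x => 2 * x.1 + 2).sum, fun x hx => List.le_sum_of_mem (List.mem_map_of_mem hx)⟩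
  refine ⟨d * L.length, fun F _ _ m hm hN hF => ?_⟩
  obtain ⟨_, ⟨Z⟩⟩ := RankOne.Sz.exists_model_lie hF hm
  by_contra hcon
  push Not at hcon
  obtain ⟨h1, -, h2⟩ := dom (F := F) (r := 2 ^ (m + 1)) (d := d)
    (by rw [pow_succ]; have := Nat.one_le_two_pow (n := m); omega) L l hred hd
  apply h1
  apply Polynomial.eq_zero_of_natDegree_lt_card_of_eval_eq_zero _ Function.injective_id
  · intro x
    have h3 := eval_vec Z x (l :: L)
    rw [← hL, FreeGroup.mk_toWord, hcon, map_one, Matrix.one_mulVec, hL] at h3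
    exact (congrFun h3 3).symm
  · refine h2.trans_lt ?_
    rw [hF, mul_right_comm, show 2 * m + 1 = m + (m + 1) by ring, pow_add 2 m (m + 1)]
    exact Nat.mul_lt_mul_of_pos_right (hN.trans_lt Nat.lt_two_pow_self) (by positivity)

end Cfsg.Agent.S2354
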