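import Mathlib
import Cfsg.Statements.S2355
import Cfsg.Agent.Law.Emb
import Cfsg.Agent.S2352
import Cfsg.Agent.S2353
-- import your own Cfsg.Agent.* helpers here

set_option autoImplicit false
open Cfsg

namespace Cfsg.Agent.S2355

open Cfsg.Agent.Law Matrix
open scoped MatrixGroups

/-- the word takes central values. -/
def CL (w : FreeGroup ℕ) (H : Type*) [Group H] : Prop :=
  ∀ f : ℕ → H, FreeGroup.lift f w ∈ Subgroup.center H

theorem lift_map {H G : Type*} [Group H] [Group G] (φ : H →* G) (f : ℕ → H) (w : FreeGroup ℕ) :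
    φ (FreeGroup.lift f w) = FreeGroup.lift (φ ∘ f) w := by
  have : φ.comp (FreeGroup.lift f) = FreeGroup.lift (φ ∘ f) := by
    ext i; simp
  exact DFunLike.congr_fun this w

theorem CL.emb {w : FreeGroup ℕ} {H G : Type*} [Group H] [Group G] (h : CL w G) (e : Emb H G) : CL w H := by
  obtain ⟨φ, hφ⟩ := e
  intro f
  rw [Subgroup.mem_center_iff]
  intro x
  apply hφ
  rw [map_mul, map_mul, lift_map]
  exact Subgroup.mem_center_iff.1 (h _) _

theorem cl_of_law {w : FreeGroup ℕ} {H G : Type*} [Group H] [Group G] (e : G ≃* H ⧸ Subgroup.center H)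
    (h : ∀ f : ℕ → G, FreeGroup.lift f w = 1) : CL w H := by
  intro f
  have h1 := h (e.symm.toMonoidHom.comp (QuotientGroup.mk' (Subgroup.center H)) ∘ f)
  rw [← lift_map] at h1
  have h2 : (QuotientGroup.mk' (Subgroup.center H)) (FreeGroup.lift f w) = 1 := by
    apply e.symm.injective
    rw [map_one]
    exact h1
  exact (QuotientGroup.eq_one_iff _).1 h2

theorem law_of_cl {w : FreeGroup ℕ} {H : Type*} [Group H] (h : CL w H) (f : ℕ → H ⧸ Subgroup.center H) :
    FreeGroup.lift f w = 1 := by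
  choose g hg using fun i => QuotientGroup.mk'_surjective (Subgroup.center H) (f i)
  have : f = (QuotientGroup.mk' (Subgroup.center H)) ∘ g := funext fun i => (hg i).symm
  rw [this, ← lift_map]
  exact (QuotientGroup.eq_one_iff _).2 (h g)

theorem card_le_of {H G : Type*} [Group H] [Group G] [Finite H] (e : G ≃* H ⧸ Subgroup.center H) :
    Nat.card G ≤ Nat.card H := by
  rw [Nat.card_congr e.toEquiv]
  exact Nat.card_le_card_of_surjective _ (QuotientGroup.mk'_surjective (Subgroup.center H))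

theorem sl2_perfect {F : Type*} [Field F] [Fintype F] (h : 4 ≤ Fintype.card F) : commutator SL(2, F) = ⊤ := by
  classical
  have : ∃ a : F, a ∉ ({0, 1, -1} : Finset F) := by
    by_contra hc
    push Not at hc
    have h1 : (Finset.univ : Finset F) ⊆ {0, 1, -1} := fun a _ => hc a
    have h2 := Finset.card_le_card h1
    have h3 : ({0, 1, -1} : Finset F).card ≤ 3 := Finset.card_le_three
    rw [Finset.card_univ] at h2
    omega
  obtain ⟨a, ha⟩ := this
  simp only [Finset.mem_insert, Finset.mem_singleton, not_or] at ha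
  refine Matrix.SL2.commutator_eq_top ha.1 fun h => ?_
  rcases sq_eq_one_iff.1 h with h | h
  · exact ha.2.1 h
  · exact ha.2.2 h

theorem bounds (w : FreeGroup ℕ) (hw : w ≠ 1) : ∃ N : ℕ, 1 ≤ N ∧
    (∀ (G : Type) [Group G] (n : ℕ), CL w (commutator G) → Emb (alternatingGroup (Fin n)) G → n ≤ N) ∧
    (∀ (G : Type) [Group G] (F : Type) [Field F] [Fintype F], CL w (commutator G) → Emb SL(2, F) G →
      Fintype.card F ≤ N) ∧
    ∀ n : ℕ, (∀ f : ℕ → alternatingGroup (Fin n), FreeGroup.lift f w = 1) → n ≤ N := by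
  obtain ⟨N₁, h₁⟩ := S2352.result w hw
  obtain ⟨N₂, h₂⟩ := S2353.result.{0} w hw
  refine ⟨N₁ + N₂ + 5, by omega, fun G _ n h e => ?_, fun G _ F _ _ h e => ?_, fun n h => ?_⟩
  · by_contra hn
    have h5 : 5 ≤ Nat.card (Fin n) := by simp; omega
    have hc := h.emb (e.comm (commutator_alternatingGroup_eq_top h5))
    obtain ⟨f, hf⟩ := h₁ n (by omega)
    have := hc f
    rw [alternatingGroup.center_eq_bot (by omega)] at this
    exact hf this
  · by_contra hn
    have hc := h.emb (e.comm (sl2_perfect (by omega)))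
    obtain ⟨f, hf⟩ := h₂ F (by omega)
    exact hf (law_of_cl hc f)
  · by_contra hn
    obtain ⟨f, hf⟩ := h₁ n (by omega)
    exact hf (h f)

theorem fin_bound {N a b d : ℕ} (hN : 1 ≤ N) (ha : a ≤ N ^ 2) (hd : d ≤ 2 * N + 2) (hb : b ≤ a ^ (d * d)) :
    b ≤ (N ^ 2) ^ ((2 * N + 2) * (2 * N + 2)) :=
  hb.trans ((Nat.pow_le_pow_left ha _).trans
    (Nat.pow_le_pow_right (Nat.one_le_pow _ _ hN) (Nat.mul_le_mul hd hd)))

/-- A non-trivial law is satisfied by only finitely many finite simple groups that are alternating or classical, up to isomorphism: for every non-trivial element w of the free group on countably many generators there is a bound N such that every alternating group of degree ≥ 5 and every simple classical group (linear, symplectic, unitary or orthogonal, in this problem's sense) in which w is a law has order at most N. -/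
theorem result (w : FreeGroup ℕ) (hw : w ≠ 1) :
    ∃ N : ℕ, ∀ (G : Type*) [Group G] [Finite G],
      (Cfsg.IsAlternating G ∨ Cfsg.IsPSL G ∨ Cfsg.IsPSp G ∨ Cfsg.IsPSU G ∨ Cfsg.IsPOmegaOdd G ∨
          Cfsg.IsPOmegaPlus G ∨ Cfsg.IsPOmegaMinus G) →
      (∀ f : ℕ → G, FreeGroup.lift f w = 1) → Nat.card G ≤ N := by
  obtain ⟨N, hN, hA, hS, hA'⟩ := bounds w hw
  have hNN : N ≤ N ^ 2 := by nlinarith
  have key : ∀ (G : Type) [Group G] (F : Type) [Field F] [Fintype F] (m : ℕ), 2 ≤ m →
      CL w (commutator G) → Emb (GL (Fin m) F) G → m ≤ N ∧ Fintype.card F ≤ N := by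
    intro G _ F _ _ m hm h e
    exact ⟨hA G m h (((Emb.sub _).trans emb_perm_GL).trans e),
      hS G F h ((emb_SL_GL.trans (emb_GL hm)).trans e)⟩
  refine ⟨N.factorial + (N ^ 2) ^ ((2 * N + 2) * (2 * N + 2)), fun G _ _ hG hl => ?_⟩
  rcases hG with ⟨n, -, ⟨e⟩⟩ | hG
  · have hn : n ≤ N := hA' n fun f => by
      have := hl (e.symm.toMonoidHom ∘ f)
      rw [← lift_map] at this
      exact e.symm.injective (this.trans (map_one _).symm)
    refine le_trans ?_ (Nat.le_add_right _ _)
    rw [Nat.card_congr e.toEquiv]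
    refine ((Emb.sub (alternatingGroup (Fin n))).card_le).trans ?_
    rw [Nat.card_perm]
    simpa using Nat.factorial_le hn
  refine le_trans ?_ (Nat.le_add_left _ _)
  rcases hG with ⟨F, _, _, n, hn, -, ⟨e⟩⟩ | ⟨F, _, _, n, hn, -, ⟨e⟩⟩ | ⟨F, _, _, n, q, hF, hn, -, ⟨e⟩⟩ |
    ⟨F, _, _, n, hn, -, ⟨e⟩⟩ | ⟨F, _, _, n, hn, ⟨e⟩⟩ | ⟨F, _, _, n, a, b, hn, -, ⟨e⟩⟩
  · obtain ⟨h1, h2⟩ := key (GL (Fin n) F) F n hn ((cl_of_law e hl).emb emb_comm_SL) Emb.rfl'
    refine fin_bound (d := n) hN (h2.trans hNN) (by omega) ((card_le_of e).trans (emb_SL_GL.card_le.trans ?_))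
    simpa using card_GL_le (ι := Fin n) (F := F)
  · haveI : Finite (symplecticGroup (Fin n) F) := inferInstance
    obtain ⟨h1, h2⟩ := key (symplecticGroup (Fin n) F) F n hn ((cl_of_law e hl).emb (Emb.sub _)) emb_GL_Sp
    refine fin_bound (d := n + n) hN (h2.trans hNN) (by omega)
      ((card_le_of e).trans (emb_Sp_GL.card_le.trans ?_))
    simpa using card_GL_le (ι := Fin n ⊕ Fin n) (F := F)
  · have hF' := Herm.natCard_of_card hF
    have hc := (cl_of_law e hl).emb (emb_comm_SU n)
    have h1 := hA _ n hc ((Emb.sub _).trans (emb_perm_GU hF' n))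
    obtain ⟨K, _, _, hK⟩ : ∃ (K : Type) (_ : Field K) (_ : Fintype K), Fintype.card K = q := by
      obtain ⟨p, hp⟩ := CharP.exists F
      obtain ⟨k, hpp, hk⟩ := FiniteField.card F p
      haveI := Fact.mk hpp
      have : q ∣ p ^ (k : ℕ) := by rw [← hk, hF]; exact Dvd.intro_left (q ^ 1) (by ring)
      obtain ⟨j, -, hj⟩ := (Nat.dvd_prime_pow hpp).1 this
      have hj0 : j ≠ 0 := by
        rintro rfl
        have := Fintype.one_lt_card (α := F)
        rw [hF, hj] at this
        simp at this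
      refine ⟨GaloisField p j, inferInstance, Fintype.ofFinite _, ?_⟩
      rw [Fintype.card_eq_nat_card, GaloisField.card p j hj0, hj]
    obtain ⟨e2⟩ := emb_SL2_SU2 hF' (K := K) (by rw [Nat.card_eq_fintype_card, hK])
    have h2 := hS _ K hc (((Emb.of_equiv e2).trans ⟨_, Herm.suToGU_injective⟩).trans (emb_GU hF' (by omega)))
    refine fin_bound (d := n) (a := Fintype.card F) hN (by rw [hF, ← hK]; exact Nat.pow_le_pow_left h2 2) (by omega)
      ((card_le_of e).trans (((Emb.sub _).trans emb_SL_GL).card_le.trans ?_))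
    simpa using card_GL_le (ι := Fin n) (F := F)
  · obtain ⟨h1, h2⟩ := key _ F n (by omega) (cl_of_law e hl) (emb_GL_odd n)
    refine fin_bound (d := 1 + (n + n)) hN (h2.trans hNN) (by omega)
      ((card_le_of e).trans (((Emb.sub _).trans (Emb.sub _)).card_le.trans ?_))
    simpa using card_GL_le (ι := Unit ⊕ (Fin n ⊕ Fin n)) (F := F)
  · obtain ⟨h1, h2⟩ := key _ F n (by omega) (cl_of_law e hl) (emb_GL_plus n)
    refine fin_bound (d := n + n) hN (h2.trans hNN) (by omega)
      ((card_le_of e).trans (((Emb.sub _).trans (Emb.sub _)).card_le.trans ?_))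
    simpa using card_GL_le (ι := Fin n ⊕ Fin n) (F := F)
  · obtain ⟨h1, h2⟩ := key _ F (n - 1) (by omega) (cl_of_law e hl) (emb_GL_minus (n - 1) a b)
    refine fin_bound (d := (n - 1) + (n - 1) + 2) hN (h2.trans hNN) (by omega)
      ((card_le_of e).trans (((Emb.sub _).trans (Emb.sub _)).card_le.trans ?_))
    simpa using card_GL_le (ι := (Fin (n - 1) ⊕ Fin (n - 1)) ⊕ Fin 2) (F := F)

end Cfsg.Agent.S2355
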