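import Mathlib
import Cfsg.Statements.S2359
import Cfsg.Agent.Ree.Lie3
import Cfsg.Agent.Ree.Hall
-- import your own Cfsg.Agent.* helpers here

set_option autoImplicit false
open Cfsg

namespace Cfsg.Agent.S2359

/-- Let R be the small Ree group over the field with q = 3^(2m+1) ≥ 27 elements. If H is a cyclic subgroup of R of order (q−1)/2, then the centralizer of H in R is cyclic of order q−1, and every non-trivial subgroup of H has the same centralizer as H. If H is a cyclic subgroup of order (q+1)/4, then the centralizer of H is abelian of order q+1 with no element of order 4 (so it is the direct product of H and a group of order 4 whose non-identity elements all have order 2), and every non-trivial subgroup of H has the same centralizer as H. -/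
theorem result {K : Type*} [Field K] [Fintype K] {m : ℕ} (hm : 1 ≤ m)
    (hK : Fintype.card K = 3 ^ (2 * m + 1)) (H : Subgroup ↥(Cfsg.Lie.twistedG2 K (3 ^ m))) (hH : IsCyclic H) :
    (Nat.card H = (3 ^ (2 * m + 1) - 1) / 2 →
      IsCyclic ↥(Subgroup.centralizer (H : Set ↥(Cfsg.Lie.twistedG2 K (3 ^ m)))) ∧
        Nat.card ↥(Subgroup.centralizer (H : Set ↥(Cfsg.Lie.twistedG2 K (3 ^ m)))) = 3 ^ (2 * m + 1) - 1 ∧
        ∀ A : Subgroup ↥(Cfsg.Lie.twistedG2 K (3 ^ m)), A ≤ H → A ≠ ⊥ →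
          Subgroup.centralizer (A : Set ↥(Cfsg.Lie.twistedG2 K (3 ^ m))) = Subgroup.centralizer (H : Set ↥(Cfsg.Lie.twistedG2 K (3 ^ m)))) ∧
    (Nat.card H = (3 ^ (2 * m + 1) + 1) / 4 →
      IsMulCommutative ↥(Subgroup.centralizer (H : Set ↥(Cfsg.Lie.twistedG2 K (3 ^ m)))) ∧
        Nat.card ↥(Subgroup.centralizer (H : Set ↥(Cfsg.Lie.twistedG2 K (3 ^ m)))) = 3 ^ (2 * m + 1) + 1 ∧
        (∀ x ∈ Subgroup.centralizer (H : Set ↥(Cfsg.Lie.twistedG2 K (3 ^ m))), orderOf x ≠ 4) ∧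
        ∀ A : Subgroup ↥(Cfsg.Lie.twistedG2 K (3 ^ m)), A ≤ H → A ≠ ⊥ →
          Subgroup.centralizer (A : Set ↥(Cfsg.Lie.twistedG2 K (3 ^ m))) = Subgroup.centralizer (H : Set ↥(Cfsg.Lie.twistedG2 K (3 ^ m)))) := by
  obtain ⟨Z, -, -⟩ := Ree.exists_model hK
  have hq := Z.le_q hm
  rw [← hK]
  refine ⟨fun h => ?_, fun h => ?_⟩
  · have h0 : H ≠ ⊥ := fun e => by rw [e, Subgroup.card_bot] at h; omega
    obtain ⟨Y, rfl⟩ := Z.exists_eq_A1 hm hH h
    rw [Y.centralizer_le_A1 le_rfl h0]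
    exact ⟨Y.isCyclic_H, Y.card_H, fun A h1 h2 => Y.centralizer_le_A1 h1 h2⟩
  · obtain ⟨Y, rfl⟩ := Z.exists_eq_A hm hH h
    rw [Y.centralizer_le_A le_rfl (Y.A_ne_bot hm)]
    refine ⟨⟨⟨fun x y => Subtype.ext (Y.D_comm x.2 y.2)⟩⟩, Y.card_D, fun x _ e => ?_,
      fun A h1 h2 => Y.centralizer_le_A h1 h2⟩
    have := orderOf_dvd_of_pow_eq_one (Y.sq_eq_one_of_pow_four (g := x) (e ▸ pow_orderOf_eq_one x))
    rw [e] at this
    exact absurd this (by norm_num)

end Cfsg.Agent.S2359
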