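import Cfsg.Statements.S2371
import Mathlib
import Cfsg.Agent.Chev.ToriC

set_option autoImplicit false
open Cfsg

namespace Cfsg.Agent.S2371
open Cfsg.Lie Cfsg.Agent.Chev

/-- The group G₂(q), q ≥ 3, contains a cyclic subgroup of order q² + q + 1 which is its own centralizer. -/
theorem result {F : Type*} [Field F] [Fintype F] (q : ℕ) (hF : Fintype.card F = q) (hq : 3 ≤ q) :
    ∃ H : Subgroup ↥(Cfsg.Lie.chevG2.group F), IsCyclic ↥H ∧ Nat.card ↥H = q ^ 2 + q + 1 ∧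
      Subgroup.centralizer (H : Set ↥(Cfsg.Lie.chevG2.group F)) = H := by
  letI := good2G2
  obtain ⟨H, h1, h2, h3⟩ := exists_cyc_chev (D := chevG2) (ker_st_of_ker (ker_G2 _)) cyc_G2
    ([0, 1, 0, 1] : List (Fin 2)) cyw_G2 hF hq (M := q ^ 2 + q + 1) (by
      change _ = (q : ℤ) ^ 2 + evp 2 _ _
      simp [evp_eq, Fin.sum_univ_succ]; ring)
  exact ⟨H, h1, by rwa [card_ker_G2, one_mul] at h2, h3⟩

end Cfsg.Agent.S2371
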