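import Mathlib
import Cfsg.Statements.S2389
import Cfsg.Agent.Conj.SsMat
import Cfsg.Agent.Conj.Reg
-- import your own Cfsg.Agent.* helpers here

set_option autoImplicit false
open Cfsg

namespace Cfsg.Agent.S2389

/-- In the symplectic group `Sp_{2n}(q)`, `q` a power of the prime `p`, two elements of order prime to `p` with the same characteristic polynomial are conjugate in `Sp_{2n}(q)`. -/
theorem result {F : Type*} [Field F] [Fintype F] (p : ℕ) [Fact p.Prime] [CharP F p] (n : ℕ)
    (g h : ↥(Matrix.symplecticGroup (Fin n) F)) (hg : (orderOf g).Coprime p) (hh : (orderOf h).Coprime p)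
    (hc : (g : Matrix (Fin n ⊕ Fin n) (Fin n ⊕ Fin n) F).charpoly = (h : Matrix (Fin n ⊕ Fin n) (Fin n ⊕ Fin n) F).charpoly) :
    IsConj g h := by
  have h1 : ∀ g : ↥(Matrix.symplecticGroup (Fin n) F), (g : Matrix (Fin n ⊕ Fin n) (Fin n ⊕ Fin n) F) ^ orderOf g = 1 := fun g => by
    rw [← SubmonoidClass.coe_pow, pow_orderOf_eq_one]; rfl
  have sg := Conj.squarefree_X_pow_sub_one (Conj.natCast_ne_zero_of_coprime (F := F) hg)
  have sh := Conj.squarefree_X_pow_sub_one (Conj.natCast_ne_zero_of_coprime (F := F) hh)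
  rw [Conj.sp_isConj_iff (Conj.natCast_ne_zero_of_coprime (F := F) hg) (pow_orderOf_eq_one g),
    Conj.isConj_iff_sim]
  refine Conj.sim_of_charpoly sg sh (Conj.aeval_toLin'_pow_sub_one (h1 g))
    (Conj.aeval_toLin'_pow_sub_one (h1 h)) ?_
  rw [Matrix.charpoly_toLin', Matrix.charpoly_toLin', hc]

end Cfsg.Agent.S2389
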