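import Mathlib
import Cfsg.Statements.S2385
import Cfsg.Agent.Conj.SsEx
import Cfsg.Agent.S2389
-- import your own Cfsg.Agent.* helpers here

set_option autoImplicit false
open Cfsg

namespace Cfsg.Agent.S2385

open Cfsg.Agent.Conj Polynomial Matrix

theorem coprime_of_pow {F G : Type*} [Field F] [Group G] (p : ℕ) [hp : Fact p.Prime] [CharP F p] {g : G} {N : ℕ}
    (hN : (N : F) ≠ 0) (h : g ^ N = 1) : (orderOf g).Coprime p := by
  rw [Nat.coprime_comm, hp.out.coprime_iff_not_dvd]
  intro hd
  exact hN ((CharP.cast_eq_zero_iff F p N).2 (hd.trans (orderOf_dvd_of_pow_eq_one h)))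

theorem roots_stab {F L : Type*} [Field F] [Fintype F] [Field L] [IsAlgClosed L] [Algebra F L] (f : F[X]) :
    (f.map (algebraMap F L)).roots.map (· ^ Fintype.card F) = (f.map (algebraMap F L)).roots := by
  obtain ⟨ψ, hψ⟩ := exists_frob_hom (F := F) L
  have h := (IsAlgClosed.splits (f.map (algebraMap F L))).roots_map ψ
  rw [Polynomial.map_map, show ψ.comp (algebraMap F L) = algebraMap F L by
    ext a; simp [hψ, ← map_pow, FiniteField.pow_card]] at h
  rw [show (fun z : L => z ^ Fintype.card F) = ψ from funext fun z => (hψ z).symm, ← h]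

theorem exp_roots {F : Type*} [Field F] [Fintype F] (f : F[X])
    (h : (f.map (algebraMap F (AlgebraicClosure F))).roots.prod = 1) :
    ∃ N : ℕ, (N : F) ≠ 0 ∧ ∀ z ∈ (f.map (algebraMap F (AlgebraicClosure F))).roots, z ^ N = 1 :=
  exists_exp _ _ (fun z hz h0 => by
    subst h0
    rw [Multiset.prod_eq_zero hz] at h
    exact zero_ne_one h) fun z _ => Algebra.IsAlgebraic.isAlgebraic z

theorem eq_of_roots {F L : Type*} [Field F] [Field L] [IsAlgClosed L] [Algebra F L] {f g : F[X]}
    (hf : f.Monic) (hg : g.Monic) (h : (f.map (algebraMap F L)).roots = (g.map (algebraMap F L)).roots) :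
    f = g := by
  apply Polynomial.map_injective _ (algebraMap F L).injective
  rw [(IsAlgClosed.splits _).eq_prod_roots_of_monic (hf.map _), h,
    ← (IsAlgClosed.splits _).eq_prod_roots_of_monic (hg.map _)]

/-- In the symplectic group `Sp_{2n}(q)`, `q` a power of the prime `p`, the number of conjugacy classes of elements of order prime to `p` is `q^n`. -/
theorem result {F : Type*} [Field F] [Fintype F] {q : ℕ} (hq : Fintype.card F = q) (p : ℕ) [Fact p.Prime] [CharP F p] (n : ℕ) :
    Nat.card {c : ConjClasses ↥(Matrix.symplecticGroup (Fin n) F) //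
      ∃ g : ↥(Matrix.symplecticGroup (Fin n) F), ConjClasses.mk g = c ∧ (orderOf g).Coprime p} = q ^ n := by
  let L := AlgebraicClosure F
  rw [card_classes' (fun g : symplecticGroup (Fin n) F => (orderOf g).Coprime p) (fun g => g.1.charpoly)
    (fun g h hg hh => ⟨fun H => ?_, S2389.result p n g h hg hh⟩)
    (fun f => (f.Monic ∧ f.natDegree = 2 * n) ∧
      (fun a : Fin (2 * n + 1) → F => ∀ i, a i.rev = a i) fun i => f.coeff i) (fun f => ?_),
    card_poly (2 * n) (fun a => ∀ i, a i.rev = a i), card_palin, Nat.card_eq_fintype_card, hq]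
  · have := (isConj_iff_sim.1 ((symplecticGroup (Fin n) F).subtype.map_isConj H)).charpoly_eq
    rwa [charpoly_toLin', charpoly_toLin'] at this
  have hev : ∀ g : symplecticGroup (Fin n) F, ev L (subRep _ (Classical.SpMat.spEquiv (Fin n) F g)) =
      (g.1.charpoly.map (algebraMap F L)).roots := fun g => by
    rw [subRep_apply, spEquiv_lin, ev, charpoly_toLin']
  constructor
  · rintro ⟨⟨h1, h2⟩, h3⟩
    obtain ⟨h4, h5⟩ := (rev_iff (RingHom.id F) (RingHom.id L) (fun _ => rfl) h1 h2).2 fun i => by
      simpa using h3 i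
    obtain ⟨N, hN, hN'⟩ := exp_roots f h5
    obtain ⟨g, hg, hg'⟩ := exists_sg_ev L (Classical.SpMat.sB_nondeg (ι := Fin n)) Classical.SpMat.sB_alt hN _
      (by rw [← (IsAlgClosed.splits _).natDegree_eq_card_roots, natDegree_map, h2]; simp [two_mul])
      (roots_stab f) h4 hN' h5
    obtain ⟨g, rfl⟩ := (Classical.SpMat.spEquiv (Fin n) F).surjective g
    refine ⟨g, coprime_of_pow p hN ((Classical.SpMat.spEquiv (Fin n) F).injective (by rw [map_pow, hg, map_one])),
      eq_of_roots (L := L) (charpoly_monic _) h1 (by rw [← hev, hg'])⟩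
  · rintro ⟨g, hg, rfl⟩
    have hd : g.1.charpoly.natDegree = 2 * n := by simp [two_mul]
    refine ⟨⟨charpoly_monic _, hd⟩, fun i => ?_⟩
    have := (rev_iff (RingHom.id F) (RingHom.id L) (fun _ => rfl) (charpoly_monic _) hd).1 ⟨?_, ?_⟩ i
    · simpa using this
    · rw [← hev]
      exact sg_ev L Classical.SpMat.sB_nondeg Classical.SpMat.sB_alt (natCast_ne_zero_of_coprime hg) _
        (by rw [← map_pow, pow_orderOf_eq_one, map_one])
    · rw [← hev, prod_ev_eq_det, subRep_apply, spEquiv_lin, LinearMap.det_toLin', SymplecticGroup.det_eq_one g.2,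
        map_one]

end Cfsg.Agent.S2385
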