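import Mathlib
import Cfsg.Statements.S2390
import Cfsg.Agent.Conj.SsEx
-- import your own Cfsg.Agent.* helpers here

set_option autoImplicit false
open Cfsg

namespace Cfsg.Agent.S2390

/-- In the special unitary group `SU_n(q)` (inside `SL_n` over the field with `q²` elements), `q` a power of the prime `p`, two elements of order prime to `p` with the same characteristic polynomial are conjugate in `SU_n(q)`. -/
theorem result {F : Type*} [Field F] [Fintype F] {q : ℕ} (hF : Fintype.card F = q ^ 2) (p : ℕ) [Fact p.Prime] [CharP F p] (n : ℕ)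
    (g h : ↥(Cfsg.SU n F q)) (hg : (orderOf g).Coprime p) (hh : (orderOf h).Coprime p)
    (hc : ((g : Matrix.SpecialLinearGroup (Fin n) F) : Matrix (Fin n) (Fin n) F).charpoly =
      ((h : Matrix.SpecialLinearGroup (Fin n) F) : Matrix (Fin n) (Fin n) F).charpoly) : IsConj g h := by
  have h1 : ∀ g : ↥(Cfsg.SU n F q), ((g : Matrix.SpecialLinearGroup (Fin n) F) : Matrix (Fin n) (Fin n) F) ^ orderOf g = 1 := fun g => by
    rw [← Matrix.SpecialLinearGroup.coe_pow, ← SubgroupClass.coe_pow, pow_orderOf_eq_one]; rfl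
  have sg := Conj.squarefree_X_pow_sub_one (Conj.natCast_ne_zero_of_coprime (F := F) hg)
  have sh := Conj.squarefree_X_pow_sub_one (Conj.natCast_ne_zero_of_coprime (F := F) hh)
  rw [Conj.su_isConj_iff (Herm.natCard_of_card hF) g h (Conj.natCast_ne_zero_of_coprime (F := F) hg)
    (pow_orderOf_eq_one g)]
  refine Conj.sim_of_charpoly sg sh (Conj.aeval_toLin'_pow_sub_one (h1 g))
    (Conj.aeval_toLin'_pow_sub_one (h1 h)) ?_
  rw [Matrix.charpoly_toLin', Matrix.charpoly_toLin', hc]

end Cfsg.Agent.S2390
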