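import Mathlib
import Cfsg.Statements.S2386
import Cfsg.Agent.Conj.SsEx
import Cfsg.Agent.S2385
import Cfsg.Agent.S2390
-- import your own Cfsg.Agent.* helpers here

set_option autoImplicit false
open Cfsg

namespace Cfsg.Agent.S2386

open Cfsg.Agent.Conj Polynomial Matrix S2385

/-- In the special unitary group `SU_n(q)` (matrices of determinant one over the field with `q²` elements preserving the standard Hermitian form), `q` a power of the prime `p`, the number of conjugacy classes of elements of order prime to `p` is `q^(n-1)`. -/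
theorem result {F : Type*} [Field F] [Fintype F] {q : ℕ} (hF : Fintype.card F = q ^ 2) (p : ℕ) [Fact p.Prime] [CharP F p] (n : ℕ) (hn : 1 ≤ n) :
    Nat.card {c : ConjClasses ↥(Cfsg.SU n F q) // ∃ g : ↥(Cfsg.SU n F q), ConjClasses.mk g = c ∧ (orderOf g).Coprime p} = q ^ (n - 1) := by
  let L := AlgebraicClosure F
  have hF' := Herm.natCard_of_card hF
  rw [card_classes' (fun g : Cfsg.SU n F q => (orderOf g).Coprime p) (fun g => g.1.1.charpoly)
    (fun g h hg hh => ⟨fun H => ?_, S2390.result hF p n g h hg hh⟩)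
    (fun f => (f.Monic ∧ f.natDegree = n) ∧
      (fun a : Fin (n + 1) → F => ∀ i, a i.rev = (-1) ^ n * Herm.frob hF' (a i)) fun i => f.coeff i) (fun f => ?_),
    card_poly n (fun a => ∀ i, a i.rev = (-1) ^ n * Herm.frob hF' (a i)), card_palinU hF' (Herm.inv_frob hF') hn]
  · have := ((su_isConj_iff hF' g h (natCast_ne_zero_of_coprime hg) (pow_orderOf_eq_one g)).1 H).charpoly_eq
    rwa [charpoly_toLin', charpoly_toLin'] at this
  obtain ⟨ψ, hψ⟩ := exists_pow_hom L hF
  have hσ : ∀ a, ψ (algebraMap F L a) = algebraMap F L (Herm.frob hF' a) := fun a => by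
    rw [hψ, Herm.frob_apply, map_pow]
  have hev : ∀ A : Matrix (Fin n) (Fin n) F, ev L (toLin' A) = (A.charpoly.map (algebraMap F L)).roots :=
    fun g => by rw [ev, charpoly_toLin']
  constructor
  · rintro ⟨⟨h1, h2⟩, h3⟩
    obtain ⟨h4, h5⟩ := (rev_iff _ ψ hσ h1 h2).2 h3
    obtain ⟨N, hN, hN'⟩ := exp_roots f h5
    obtain ⟨A, hA, hA'⟩ := exists_of_multiset L _ (roots_stab f) (s := X ^ N - 1) (fun z hz => by simp [hN' z hz])
      (ι := Fin n) (by rw [← (IsAlgClosed.splits _).natDegree_eq_card_roots, natDegree_map, h2]; simp)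
    have hA1 : A ^ N = 1 := by simpa [sub_eq_zero] using hA
    obtain ⟨g, hg⟩ := (exists_gu_iff L hF hN hA1).2 (by rw [hA']; simpa [hψ] using h4)
    obtain ⟨k, rfl⟩ : g ∈ (Herm.suToGU n F q).range := by
      rw [Herm.mem_range_suToGU, ← LinearMap.det_toLin', ← guRep_apply, ← hg.det_eq]
      apply (algebraMap F L).injective
      rw [← prod_ev_eq_det, hA', h5, map_one]
    refine ⟨k, coprime_of_pow p hN ?_, eq_of_roots (L := L) (charpoly_monic _) h1 ?_⟩
    · have := (hg.pow N).one_iff.1 (by rw [← toLin'_pow', hA1, toLin'_one]; rfl)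
      rw [guRep_apply, ← toLin'_pow', Herm.suToGU_coe] at this
      apply Subtype.ext
      apply Subtype.ext
      apply toLin'.injective
      exact this.trans toLin'_one.symm
    · rw [← hA', hg.ev L, ← hev]; rfl
  · rintro ⟨g, hg, rfl⟩
    have hd : g.1.1.charpoly.natDegree = n := by simp
    refine ⟨⟨charpoly_monic _, hd⟩, (rev_iff _ ψ hσ (charpoly_monic _) hd).1 ⟨?_, ?_⟩⟩
    · rw [← hev]
      have := (exists_gu_iff L hF (A := g.1.1) (natCast_ne_zero_of_coprime hg) (by
        rw [← Matrix.SpecialLinearGroup.coe_pow, ← SubgroupClass.coe_pow, pow_orderOf_eq_one]; rfl)).1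
        ⟨Herm.suToGU n F q g, Sim.refl _⟩
      simpa [hψ] using this
    · rw [← hev, prod_ev_eq_det, LinearMap.det_toLin', g.1.2, map_one]

end Cfsg.Agent.S2386
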