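import Mathlib
import Cfsg.Statements.S2430
import Cfsg.Agent.GL2.Torus

set_option autoImplicit false
open Cfsg

namespace Cfsg.Agent.S2430

/-- Let F be a finite field with q elements, q odd, ℓ an odd prime, and P a Sylow ℓ-subgroup of SL₂ over F. If ℓ divides q − 1, the centraliser of P is cyclic of order q − 1 (a split torus) and the normaliser of P has order 2(q − 1); if ℓ divides q + 1, the centraliser of P is cyclic of order q + 1 (a non-split torus) and the normaliser of P has order 2(q + 1). -/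
theorem result {F : Type*} [Field F] [Fintype F] (hodd : Odd (Fintype.card F)) (ℓ : ℕ) [Fact ℓ.Prime] (hℓ : ℓ ≠ 2)
    (P : Sylow ℓ (Matrix.SpecialLinearGroup (Fin 2) F)) :
    (ℓ ∣ Fintype.card F - 1 →
      Nat.card (Subgroup.centralizer ((P : Subgroup (Matrix.SpecialLinearGroup (Fin 2) F)) : Set (Matrix.SpecialLinearGroup (Fin 2) F))) = Fintype.card F - 1 ∧
      IsCyclic (Subgroup.centralizer ((P : Subgroup (Matrix.SpecialLinearGroup (Fin 2) F)) : Set (Matrix.SpecialLinearGroup (Fin 2) F))) ∧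
      Nat.card (Subgroup.normalizer ((P : Subgroup (Matrix.SpecialLinearGroup (Fin 2) F)) : Set (Matrix.SpecialLinearGroup (Fin 2) F))) = 2 * (Fintype.card F - 1)) ∧
    (ℓ ∣ Fintype.card F + 1 →
      Nat.card (Subgroup.centralizer ((P : Subgroup (Matrix.SpecialLinearGroup (Fin 2) F)) : Set (Matrix.SpecialLinearGroup (Fin 2) F))) = Fintype.card F + 1 ∧
      IsCyclic (Subgroup.centralizer ((P : Subgroup (Matrix.SpecialLinearGroup (Fin 2) F)) : Set (Matrix.SpecialLinearGroup (Fin 2) F))) ∧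
      Nat.card (Subgroup.normalizer ((P : Subgroup (Matrix.SpecialLinearGroup (Fin 2) F)) : Set (Matrix.SpecialLinearGroup (Fin 2) F))) = 2 * (Fintype.card F + 1)) := by
  have h2 := Classical.SL2Basic.two_ne_zero_of_odd hodd
  have hl := (Fact.out : ℓ.Prime)
  have h1 := Fintype.one_lt_card (α := F)
  have hq : Fintype.card F ^ 2 - 1 = (Fintype.card F + 1) * (Fintype.card F - 1) := Nat.sq_sub_sq _ 1
  have hn : ¬ (ℓ ∣ Fintype.card F + 1 ∧ ℓ ∣ Fintype.card F - 1) := fun h => hℓ
    ((Nat.prime_dvd_prime_iff_eq hl Nat.prime_two).1 (by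
      simpa [show Fintype.card F + 1 - (Fintype.card F - 1) = 2 by omega] using Nat.dvd_sub h.1 h.2))
  have key : ℓ ∣ Fintype.card F ^ 2 - 1 → ∃ g : Matrix.SpecialLinearGroup (Fin 2) F, ¬ GL2.Par g.1 ∧
      ℓ ∣ Nat.card (Subgroup.centralizer ({g} : Set _)) ∧
      Subgroup.centralizer (P : Set (Matrix.SpecialLinearGroup (Fin 2) F)) = Subgroup.centralizer {g} ∧
      Subgroup.normalizer (P : Set (Matrix.SpecialLinearGroup (Fin 2) F)) =
        Subgroup.normalizer (Subgroup.centralizer ({g} : Set _)) := by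
    intro h
    have : Nontrivial P := (Subgroup.nontrivial_iff_ne_bot _).2 (P.ne_bot_of_dvd_card (by
      rw [Classical.SLBasic.card_SL_two, Nat.card_eq_fintype_card]; exact h.mul_left _))
    have := P.2.center_nontrivial
    obtain ⟨g, hg⟩ := exists_prime_orderOf_dvd_card' (G := Subgroup.center P) ℓ (by
      obtain ⟨n, h1, h2⟩ := (P.2.to_subgroup (Subgroup.center P)).nontrivial_iff_card.1 this
      exact h2 ▸ dvd_pow_self _ h1.ne')
    rw [← Subgroup.orderOf_coe, ← Subgroup.orderOf_coe] at hg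
    have h3 : ¬ GL2.Par g.1.1.1 := fun e => by
      rcases (Nat.Prime.dvd_mul hl).1 (hg ▸ GL2.orderOf_par e) with e | e
      · exact hℓ ((Nat.prime_dvd_prime_iff_eq hl Nat.prime_two).1 e)
      · exact hl.not_dvd_one ((Nat.dvd_sub_iff_right (Nat.one_le_pow _ _ (by omega))
          (dvd_pow e two_ne_zero)).1 h)
    have h0 := mt GL2.Sc.par h3
    have h4 : ∀ x ∈ P, x ∈ Subgroup.centralizer {g.1.1} := fun x hx =>
      Subgroup.mem_centralizer_singleton_iff.2 (congrArg Subtype.val (Subgroup.mem_center_iff.1 g.2 ⟨x, hx⟩))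
    refine ⟨g.1.1, h3, hg.symm.dvd.trans (GL2.orderOf_dvd_Z _), le_antisymm (Subgroup.centralizer_le (by simp))
      fun x hx y hy => GL2.Z_comm h0 y (h4 y hy) x hx, le_antisymm (fun n hn => ?_) fun n hn => ?_⟩
    · have := GL2.eq_or_inv h2 h3 (h4 _ ((Subgroup.mem_normalizer_iff.1 hn _).1 g.1.2)) (GL2.trace_conj n _)
      rwa [mul_inv_eq_iff_eq_mul, mul_inv_eq_iff_eq_mul, ← Subgroup.mem_centralizer_singleton_iff,
        ← GL2.mem_norm_iff h2 h3] at this
    · refine Subgroup.mem_normalizer_fintype fun x hx => ?_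
      rcases (GL2.mem_norm_iff h2 h3).1 hn with e | e
      · rwa [GL2.Z_comm h0 n e x (h4 x hx), mul_inv_cancel_right]
      · rw [GL2.inv_of_inv h0 e (h4 x hx), mul_inv_cancel_right]
        exact inv_mem hx
  refine ⟨fun h => ?_, fun h => ?_⟩
  · obtain ⟨g, e1, e2, e3, e4⟩ := key (hq ▸ h.mul_left _)
    have : Nat.card (Subgroup.centralizer ({g} : Set _)) = Fintype.card F - 1 := by
      rcases GL2.cls_SL g with e | e | ⟨x, y, e⟩ | e
      exacts [absurd e.par e1, absurd e.2 e1, GL2.cent_SL_split e.1 e.2.1 e.2.2,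
        absurd ⟨GL2.cent_SL_ell e ▸ e2, h⟩ hn]
    erw [e3, e4]
    exact ⟨this, GL2.isCyclic_Z e1, this ▸ GL2.card_norm h2 e1⟩
  · obtain ⟨g, e1, e2, e3, e4⟩ := key (hq ▸ h.mul_right _)
    have : Nat.card (Subgroup.centralizer ({g} : Set _)) = Fintype.card F + 1 := by
      rcases GL2.cls_SL g with e | e | ⟨x, y, e⟩ | e
      exacts [absurd e.par e1, absurd e.2 e1, absurd ⟨h, GL2.cent_SL_split e.1 e.2.1 e.2.2 ▸ e2⟩ hn,
        GL2.cent_SL_ell e]
    erw [e3, e4]
    exact ⟨this, GL2.isCyclic_Z e1, this ▸ GL2.card_norm h2 e1⟩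

end Cfsg.Agent.S2430
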