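import Mathlib
import Cfsg.Statements.S2450
import Cfsg.Agent.Max.L2f

set_option autoImplicit false
open Cfsg

namespace Cfsg.Agent.S2450

open scoped Pointwise
open Cfsg.Agent.Max.L2 Cfsg.Agent.Classical.PSL2Basic Cfsg.Agent.Classical.P1Ident
  Cfsg.Agent.Classical.Congr Cfsg.Agent.Classical.P1
theorem exists_rep {F : Type*} [Field F] {a : Matrix.ProjGenLinGroup (Fin 2) F} (ha : a ∈ LL F)
    (h1 : a ≠ 1) : ∃ c ∈ LL F, ∃ A : GL (Fin 2) F, A 0 0 * A 1 1 - A 0 1 * A 1 0 = 1 ∧ A 1 0 ≠ 0 ∧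
      c * a * c⁻¹ = Matrix.ProjGenLinGroup.mk A := by
  obtain ⟨x, hx⟩ : ∃ x : PL F, a • x ≠ x := by
    by_contra h
    push Not at h
    exact h1 (eq_one_of_fix_std (h _) (h _) (h _))
  obtain ⟨c, rfl⟩ := Cfsg.Agent.Classical.SL2Basic.exists_smul_inf_SL x
  have hc : (Matrix.SpecialLinearGroup.toPGL c)⁻¹ ∈ LL F := inv_mem ⟨c, rfl⟩
  obtain ⟨A, hA, e⟩ := exists_SL ((normal_LL (F := F)).conj_mem _ ha _) (g := 
    (Matrix.SpecialLinearGroup.toPGL c)⁻¹ * a * (Matrix.SpecialLinearGroup.toPGL c)⁻¹⁻¹)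
  refine ⟨_, hc, A, hA, fun h => hx ?_, e⟩
  rw [← smul_inf_eq_inf_iff, ← mk_smul, ← e, inv_inv, mul_smul, mul_smul, inv_smul_eq_iff] at h
  exact h

theorem tr_sq {F : Type*} [Field F] {A B : GL (Fin 2) F} (hA : A 0 0 * A 1 1 - A 0 1 * A 1 0 = 1)
    (hB : B 0 0 * B 1 1 - B 0 1 * B 1 0 = 1) (c : Matrix.ProjGenLinGroup (Fin 2) F)
    (h : c * Matrix.ProjGenLinGroup.mk A * c⁻¹ = Matrix.ProjGenLinGroup.mk B) :
    (A 0 0 + A 1 1) ^ 2 = (B 0 0 + B 1 1) ^ 2 := by
  induction c using Matrix.ProjGenLinGroup.induction_on with | mk c =>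
  rw [← map_inv, ← map_mul, ← map_mul] at h
  obtain ⟨u, hu⟩ := mk_eq_mk_iff_smul.1 h
  have h1 := congrArg Matrix.det hu
  have h2 := congrArg Matrix.trace hu
  rw [Matrix.det_smul, Units.val_mul, Units.val_mul, Matrix.coe_units_inv,
    Matrix.det_conj c.isUnit, Matrix.det_fin_two, Matrix.det_fin_two, hA, hB] at h1
  rw [Matrix.trace_smul, Units.val_mul, Units.val_mul, Matrix.coe_units_inv,
    Matrix.trace_conj c.isUnit, Matrix.trace_fin_two, Matrix.trace_fin_two] at h2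
  simp only [Fintype.card_fin, smul_eq_mul] at h1 h2
  rw [h2, mul_pow]
  linear_combination (A 0 0 + A 1 1) ^ 2 * h1

/-- The Arad–Herzog conjecture for PSL(2,q): let F be a finite field with q ≥ 4 elements. For any two non-identity elements a, b of PSL(2,F), the set of products of a conjugate of a with a conjugate of b is not a single conjugacy class. -/
theorem result {F : Type*} [Field F] [Fintype F] (h4 : 4 ≤ Fintype.card F)
    (a b : Matrix.ProjectiveSpecialLinearGroup (Fin 2) F) (ha : a ≠ 1) (hb : b ≠ 1) (c : Matrix.ProjectiveSpecialLinearGroup (Fin 2) F) :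
    {g : Matrix.ProjectiveSpecialLinearGroup (Fin 2) F | ∃ u v : Matrix.ProjectiveSpecialLinearGroup (Fin 2) F, g = (u * a * u⁻¹) * (v * b * v⁻¹)} ≠ {g | IsConj c g} := by
  intro h
  obtain ⟨_, ⟨u, rfl⟩, A, hA, hA', eA⟩ := exists_rep (a := toP a) ⟨a, rfl⟩
    fun e => ha (toP_injective (e.trans (map_one _).symm))
  obtain ⟨_, ⟨v, rfl⟩, B, hB, hB', eB⟩ := exists_rep (a := toP b) ⟨b, rfl⟩
    fun e => hb (toP_injective (e.trans (map_one _).symm))
  obtain ⟨C, hC, eC⟩ := exists_SL (g := toP c) ⟨c, rfl⟩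
  let f : Polynomial F := Polynomial.C (-(A 1 0 * B 1 0)) * Polynomial.X ^ 2 +
    Polynomial.C (A 0 0 * B 1 0 + A 1 0 * (B 1 1 - B 0 0) - A 1 1 * B 1 0) * Polynomial.X +
    Polynomial.C (A 0 0 * B 0 0 + A 0 1 * B 1 0 + A 1 0 * B 0 1 + A 1 1 * B 1 1)
  have hf : f.natDegree = 2 := Polynomial.natDegree_quadratic (by simp [hA', hB'])
  have key : ∀ x : F, f.eval x ^ 2 = (C 0 0 + C 1 1) ^ 2 := fun x => by
    obtain ⟨w, hw⟩ : aff 1 x ∈ LL F := aff_mem_LL.2 (by simp)
    have h1 : u * a * u⁻¹ * (w * v * b * (w * v)⁻¹) ∈ {g | IsConj c g} := h ▸ ⟨u, w * v, rfl⟩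
    obtain ⟨d, hd⟩ := isConj_iff.1 h1
    have h2 := congrArg toP hd
    rw [show w * v * b * (w * v)⁻¹ = w * (v * b * v⁻¹) * w⁻¹ by group] at h2
    simp only [map_mul, map_inv] at h2
    rw [eA, eB, eC, hw, aff_inv, aff, aff, ← map_mul, ← map_mul, ← map_mul] at h2
    rw [tr_sq hC _ _ h2]
    · simp [f, Matrix.mul_apply, Fin.sum_univ_two, Matrix.vecMul, dotProduct]; ring
    · simp [Matrix.mul_apply, Fin.sum_univ_two, Matrix.vecMul, dotProduct]
      linear_combination (B 0 0 * B 1 1 - B 0 1 * B 1 0) * hA + hB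
  have h5 : ∀ (g : Polynomial F), g.natDegree ≠ 0 → (∀ x, g.eval x = 0) →
      Fintype.card F ≤ g.natDegree := fun g hg h => by
    classical
    refine le_trans ?_ (Polynomial.card_roots' g)
    refine le_trans ?_ (Multiset.toFinset_card_le _)
    exact Finset.card_le_card fun x _ => by
      rw [Multiset.mem_toFinset, Polynomial.mem_roots (by rintro rfl; simp at hg)]; exact h x
  by_cases h2 : (2 : F) = 0
  · have h6 := h5 (f - Polynomial.C (C 0 0 + C 1 1)) (by rw [Polynomial.natDegree_sub_C, hf]; norm_num)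
      fun x => by
        have := key x
        rw [sq_eq_sq_iff_eq_or_eq_neg] at this
        rw [Polynomial.eval_sub, Polynomial.eval_C]
        rcases this with e | e
        · rw [e, sub_self]
        · rw [e]; linear_combination (-(C 0 0 + C 1 1)) * h2
    rw [Polynomial.natDegree_sub_C, hf] at h6
    omega
  · have h6 := h5 (f ^ 2 - Polynomial.C ((C 0 0 + C 1 1) ^ 2)) (by
      rw [Polynomial.natDegree_sub_C, Polynomial.natDegree_pow, hf]; norm_num)
      fun x => by rw [Polynomial.eval_sub, Polynomial.eval_C, Polynomial.eval_pow, key, sub_self]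
    rw [Polynomial.natDegree_sub_C, Polynomial.natDegree_pow, hf] at h6
    have := Nat.odd_iff.1 (odd_card_iff.2 h2)
    rw [Nat.card_eq_fintype_card] at this
    omega

end Cfsg.Agent.S2450
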