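import Mathlib
import Cfsg.Statements.S2456
import Cfsg.Agent.Max.L2f

set_option autoImplicit false
open Cfsg

namespace Cfsg.Agent.S2456

open scoped Pointwise
open Cfsg.Agent.Max.L2 Cfsg.Agent.Classical.PSL2Basic Cfsg.Agent.Classical.P1Ident
  Cfsg.Agent.Classical.Congr Cfsg.Agent.Classical.P1
theorem cover {F : Type*} [Field F] [Finite F] {p : ℕ} [Fact p.Prime] [CharP F p]
    {X : GL (Fin 2) F} (hX : X 0 0 * X 1 1 - X 0 1 * X 1 0 = 1)
    (hp : Matrix.ProjGenLinGroup.mk X ^ p ≠ 1) (h4 : (X 0 0 + X 1 1) ^ 2 ≠ 4)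
    (hs : ∀ τ : F, ∃ c d σ : F, (σ = X 0 0 + X 1 1 ∨ σ = -(X 0 0 + X 1 1)) ∧
      c ^ 2 - τ * c * d + d ^ 2 + σ * c - (X 0 0 + X 1 1) * d + 1 = 0)
    {x : Matrix.ProjectiveSpecialLinearGroup (Fin 2) F} (hx : toP x = Matrix.ProjGenLinGroup.mk X)
    (g : Matrix.ProjectiveSpecialLinearGroup (Fin 2) F) (hg : g ≠ 1) :
    ∃ u v : Matrix.ProjectiveSpecialLinearGroup (Fin 2) F, g = (u * x * u⁻¹) * (v * x * v⁻¹) := by
  have hX1 : Matrix.ProjGenLinGroup.mk X ≠ 1 := fun e => hp (by rw [e, one_pow])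
  have cj : ∀ (Y : GL (Fin 2) F) (e : Matrix.ProjGenLinGroup (Fin 2) F),
      Y 0 0 * Y 1 1 - Y 0 1 * Y 1 0 = 1 → Y 0 0 + Y 1 1 = X 0 0 + X 1 1 →
      ∃ u : Matrix.ProjectiveSpecialLinearGroup (Fin 2) F,
        toP (u * x * u⁻¹) = e * Matrix.ProjGenLinGroup.mk Y * e⁻¹ := by
    intro Y e h1 h2
    obtain ⟨c, hc⟩ := conj_of_trace hX1 (h := Y) (fun e => h4 (by
      obtain ⟨e1, e2, e3⟩ := mk_eq_one_iff.1 e
      rw [← h2]
      rw [e1, e3] at h1
      rw [e3]
      linear_combination 4 * h1)) h2.symm (Units.ext (by simp [Matrix.det_fin_two, hX, h1]))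
    obtain ⟨_, ⟨u, rfl⟩, hu⟩ := conj_L_of_ss hp (e * c)
    exact ⟨u, by rw [map_mul, map_mul, map_inv, hx, hu, ← hc]; group⟩
  obtain ⟨G, hG, eG⟩ := exists_SL (g := toP g) ⟨g, rfl⟩
  obtain ⟨e, he⟩ := exists_cmp G (eG ▸ fun e => hg (toP_injective (e.trans (map_one _).symm)))
  have hd : Matrix.GeneralLinearGroup.det G = 1 := Units.ext (by simp [Matrix.det_fin_two, hG])
  rw [hd] at he
  generalize G 0 0 + G 1 1 = τ at he
  obtain ⟨c, d, σ, hσ, h⟩ := hs τ
  generalize hS : X 0 0 + X 1 1 = s at *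
  obtain ⟨ε, hε, hε'⟩ : ∃ ε : F, ε * ε = 1 ∧ σ = ε * s := by
    rcases hσ with rfl | rfl
    · exact ⟨1, by ring, by ring⟩
    · exact ⟨-1, by ring, by ring⟩
  obtain ⟨u, hu⟩ := cj (mat d (-(c - d * τ + σ)) (-c) (s - d) (by
    rw [show d * (s - d) - -(c - d * τ + σ) * -c = 1 by linear_combination -h]; exact one_ne_zero))
    (Matrix.ProjGenLinGroup.mk e) (by simp; linear_combination -h) (by simp)
  obtain ⟨v, hv⟩ := cj (mat (ε * (c - d * τ + σ)) (ε * (-(s - d) + (c - d * τ + σ) * τ)) (ε * d)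
    (ε * (-c + d * τ)) (by
      rw [show ε * (c - d * τ + σ) * (ε * (-c + d * τ)) - ε * (-(s - d) + (c - d * τ + σ) * τ) *
        (ε * d) = 1 by linear_combination (-(ε * ε)) * h + hε]; exact one_ne_zero))
    (Matrix.ProjGenLinGroup.mk e) (by simp; linear_combination (-(ε * ε)) * h + hε)
    (by simp; linear_combination ε * hε' + s * hε)
  refine ⟨u, v, toP_injective ?_⟩
  rw [map_mul, hu, hv, eG, show G = e * Cfsg.Agent.Max.L2.cmp τ 1 * e⁻¹ by rw [← he]; group, map_mul, map_mul,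
    map_inv]
  simp only [mul_assoc, inv_mul_cancel_left, mul_right_inj]
  rw [← mul_assoc, mul_left_inj, ← map_mul]
  apply mk_eq_mk_of_smul ε
  ext i j
  fin_cases i <;> fin_cases j <;> simp [Cfsg.Agent.Max.L2.cmp, Matrix.mul_apply, Fin.sum_univ_two]
  · ring
  · linear_combination ε * h
  · linear_combination (-ε) * h
  · linear_combination (-ε * τ) * h

theorem tr_ne {F : Type*} [Field F] [Finite F] {p : ℕ} [Fact p.Prime] [CharP F p]
    {X : GL (Fin 2) F} (hX : X 0 0 * X 1 1 - X 0 1 * X 1 0 = 1)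
    (hp : Matrix.ProjGenLinGroup.mk X ^ p ≠ 1) : (X 0 0 + X 1 1) ^ 2 ≠ 4 := by
  intro h
  have hX1 : Matrix.ProjGenLinGroup.mk X ≠ 1 := fun e => hp (by rw [e, one_pow])
  obtain ⟨ε, hε, e⟩ : ∃ ε : F, ε * ε = 1 ∧ X 0 0 + X 1 1 = 2 * ε := by
    have : (X 0 0 + X 1 1 - 2) * (X 0 0 + X 1 1 + 2) = 0 := by linear_combination h
    rcases mul_eq_zero.1 this with e | e
    · exact ⟨1, by ring, by linear_combination e⟩
    · exact ⟨-1, by ring, by linear_combination e⟩
  have h1 : Matrix.ProjGenLinGroup.mk (mat ε ε 0 ε (by simpa using left_ne_zero_of_mul_eq_one hε)) =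
      aff 1 1 := (mk_eq_mk_of_smul ε (by
        ext i j; fin_cases i <;> fin_cases j <;> simp)).symm
  obtain ⟨c, hc⟩ := conj_of_trace hX1 (h := mat ε ε 0 ε (by
    simpa using left_ne_zero_of_mul_eq_one hε)) (by rw [h1]; simp [aff_eq_one_iff])
    (by simp [e]; ring) (Units.ext (by simp [Matrix.det_fin_two, hX, hε]))
  apply hp
  rw [← Cfsg.Agent.Classical.P1Inst.conj_pow_eq_one_iff c, hc, h1, aff_pow_char_iff]

/-- A strong covering result in the direction of Thompson's conjecture (non-identity elements) for PSL(2,q), q even: let F be a finite field of characteristic 2 with q ≥ 4 elements and let x ∈ PSL(2,F) have order greater than 2 and not dividing q + 1. Then every non-identity element of PSL(2,F) is a product of two conjugates of x. -/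
theorem result {F : Type*} [Field F] [Fintype F] [CharP F 2] (h4 : 4 ≤ Fintype.card F)
    (x : Matrix.ProjectiveSpecialLinearGroup (Fin 2) F) (hx2 : 2 < orderOf x) (hxq : ¬ orderOf x ∣ Fintype.card F + 1) : ∀ g : Matrix.ProjectiveSpecialLinearGroup (Fin 2) F, g ≠ 1 → ∃ u v : Matrix.ProjectiveSpecialLinearGroup (Fin 2) F, g = (u * x * u⁻¹) * (v * x * v⁻¹) := by
  haveI : Fact (Nat.Prime 2) := ⟨Nat.prime_two⟩
  obtain ⟨X, hX, hx⟩ := exists_SL (g := toP x) ⟨x, rfl⟩
  have h2 : (2 : F) = 0 := CharTwo.two_eq_zero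
  have h1 : Matrix.ProjGenLinGroup.mk X ^ 2 ≠ 1 := fun e => by
    rw [← hx, ← map_pow, ← map_one toP, toP_injective.eq_iff] at e
    have := orderOf_le_of_pow_eq_one (by norm_num) e
    omega
  refine cover hX h1 (tr_ne hX h1) (fun τ => ?_) hx
  by_cases h3 : τ = 0
  · obtain ⟨T, D, k, hT, ha⟩ := exists_tor h1
    rcases hT.k_eq with rfl | rfl
    · obtain ⟨y, y2, -, hm⟩ := hT.split
      have h5 := ((hm _).1 ha).1
      rw [mk_smul] at h5
      rcases inf_or_pt y with rfl | ⟨z, rfl⟩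
      · rw [smul_inf_eq_inf_iff] at h5
        rw [h5] at hX
        exact ⟨X 0 0, 0, _, Or.inr rfl, by linear_combination -hX⟩
      · rw [smul_pt_eq_pt_iff] at h5
        exact ⟨X 1 0 * z + X 1 1, 0, _, Or.inr rfl, by linear_combination -hX - X 1 0 * h5⟩
    · have := hT.orderOf_dvd ha
      rw [← hx, orderOf_injective toP toP_injective, Nat.card_eq_fintype_card] at this
      exact absurd this hxq
  · generalize X 0 0 + X 1 1 = s
    obtain ⟨m, hm⟩ := FiniteField.isSquare_of_char_two (ringChar.eq F 2) (1 + s ^ 2 / τ)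
    refine ⟨m + s / τ, s / τ, s, Or.inl rfl, ?_⟩
    have h5 : τ * (m * m) = τ + s ^ 2 := by rw [← hm]; field_simp
    field_simp
    linear_combination τ * h5 + (τ ^ 2 + s ^ 2 + m * s * τ) * h2

end Cfsg.Agent.S2456
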