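import Mathlib
import Cfsg.Statements.S2459
import Cfsg.Agent.Conj.Reg

set_option autoImplicit false
set_option backward.isDefEq.respectTransparency false
open Cfsg

namespace Cfsg.Agent.S2459

open Matrix Polynomial

variable {F : Type*} [Field F]

/-- the characteristic polynomial of the class -/
noncomputable def ff (τ : F) : F[X] := (X - C 1) * (X ^ 2 - C τ * X + 1)

def Q (τ : F) (g : Matrix (Fin 3) (Fin 3) F) : Prop := ∃ A B : Matrix (Fin 3) (Fin 3) F,
  A.charpoly = ff τ ∧ B.charpoly = ff τ ∧ g = A * B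

theorem Q.conj {τ : F} {g g' P : Matrix (Fin 3) (Fin 3) F} (h : Q τ g') (e : g * P = P * g') (hP : P.det ≠ 0) :
    Q τ g := by
  obtain ⟨A, B, h1, h2, rfl⟩ := h
  obtain ⟨P, rfl⟩ := (isUnit_iff_isUnit_det P).2 hP.isUnit
  refine ⟨P * A * P⁻¹, P * B * P⁻¹, by rw [← h1, ← charpoly_units_conj P A]; simp,
    by rw [← h2, ← charpoly_units_conj P B]; simp, ?_⟩
  rw [(Units.eq_mul_inv_iff_mul_eq P).2 e]
  simp [mul_assoc]

theorem cp {τ x y x' y' a b c d : F} (h1 : a + d = τ) (h2 : a * d - b * c = 1) (h : x = 0 ∧ y = 0 ∨ x' = 0 ∧ y' = 0) :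
    (!![1, x, y; x', a, b; y', c, d]).charpoly = ff τ := by
  have := congrArg C h2
  subst h1
  rcases h with ⟨rfl, rfl⟩ | ⟨rfl, rfl⟩ <;> simp [charpoly, det_fin_three, ff] at * <;>
    linear_combination (X - 1) * this

theorem base {τ x y x' y' a b c d p r s : F} (h1 : a * d - b * c = 1) (h2 : p * (τ - p) - r * s = 1)
    (h3 : a * p + b * s + c * r + d * (τ - p) = τ) :
    Q τ !![1, x, y; x', x' * x + a, x' * y + b; y', y' * x + c, y' * y + d] := by
  refine ⟨!![1, 0, 0; x', a * p + b * s, a * r + b * (τ - p); y', c * p + d * s, c * r + d * (τ - p)],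
    !![1, x, y; 0, τ - p, -r; 0, -s, p], cp (by linear_combination h3)
      (by linear_combination (p * (τ - p) - r * s) * h1 + h2) (by simp), cp (by ring) (by linear_combination h2)
      (by simp), ?_⟩
  ext i j
  fin_cases i <;> fin_cases j <;> simp [mul_apply, Fin.sum_univ_three] <;> grind

theorem cyc (τ c d : F) : Q τ !![0, 0, 1; 1, 0, d; 0, 1, c] := by
  obtain ⟨m, hm⟩ : ∃ m, (1 - (c + 1) * (τ - (c + 1)) + 1 + c * (τ - (c + 1))) - τ = m := ⟨_, rfl⟩
  refine (base (τ := τ) (x := m - 1) (y := 1 + d + c * m - m) (x' := 1) (y' := 0) (a := -m) (b := -m * c - 1) (c := 1)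
    (d := c) (p := c + 1) (r := 1 - (c + 1) * (τ - (c + 1))) (s := -1) (by ring) (by ring)
    (by linear_combination hm)).conj (P := !![1, -1, -m; 0, 1, 0; 0, 0, 1]) ?_ (by simp [det_fin_three])
  ext i j
  fin_cases i <;> fin_cases j <;> simp [mul_apply, Fin.sum_univ_three] <;> ring

theorem ncyc {τ : F} (hτ : τ = 0 ∨ (2 : F) = 0) {d e : F} (h : d * d * e = 1) :
    Q τ !![0, -(d * e), 0; 1, d + e, 0; 0, 0, d] := by
  obtain ⟨p, hp⟩ : ∃ p, p * (d * e - d) = τ * (1 - d) := by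
    rcases hτ with rfl | h2
    · exact ⟨0, by simp⟩
    by_cases h1 : 1 + d = 0
    · exact ⟨0, by linear_combination τ * h1 - τ * h2⟩
    · exact ⟨τ * d / (1 + d), by field_simp; linear_combination τ * h⟩
  refine (base (τ := τ) (x := d + e - d * e - 1) (y := 0) (x' := 1) (y' := 0) (a := d * e) (b := 0) (c := 0)
    (d := d) (p := p) (r := 1) (s := p * (τ - p) - 1) (by linear_combination h) (by ring)
    (by linear_combination hp)).conj (P := !![1, -1, 0; 0, 1, 0; 0, 0, 1]) ?_ (by simp [det_fin_three])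
  ext i j
  fin_cases i <;> fin_cases j <;> simp [mul_apply, Fin.sum_univ_three] <;> ring

theorem cyc' (τ : F) {g : Matrix (Fin 3) (Fin 3) F} (hg : g.det = 1) (v : Fin 3 → F)
    (h : (of ![v, g *ᵥ v, g *ᵥ g *ᵥ v]).det ≠ 0) : Q τ g := by
  refine (cyc τ g.trace (-g.adjugate.trace)).conj (P := (of ![v, g *ᵥ v, g *ᵥ g *ᵥ v])ᵀ) ?_ (by rwa [det_transpose])
  rw [det_fin_three] at hg
  ext i j
  fin_cases i <;> fin_cases j <;>
    simp [mul_apply, Fin.sum_univ_three, mulVec, dotProduct, adjugate_fin_three, trace_fin_three]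
  all_goals first | ring1 | linear_combination v 0 * hg | linear_combination v 1 * hg | linear_combination v 2 * hg

theorem std {τ : F} (hτ : τ = 0 ∨ (2 : F) = 0) {g : Matrix (Fin 3) (Fin 3) F} (hg : g.det = 1) (h1 : g 0 0 = 0)
    (h2 : g 1 0 = 1) (h3 : g 2 0 = 0) : Q τ g := by
  by_contra hh
  have key (v) := not_not.1 (mt (cyc' τ hg v) hh)
  have e1 := key ![1, 0, 0]
  simp [det_fin_three, mulVec, dotProduct, Fin.sum_univ_three, mul_apply, h1, h2, h3] at e1
  simp [det_fin_three, h1, h2, h3, e1] at hg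
  have e2 (s t x y) (hx : x = g 0 2 - g 2 2 * s + g 0 1 * t) (hy : y = g 1 2 + s + (g 1 1 - g 2 2) * t) :
      x * x + g 1 1 * x * y - g 0 1 * y * y = 0 := by
    have := key ![s, t, 1]
    simp [det_fin_three, mulVec, dotProduct, Fin.sum_univ_three, mul_apply, h1, h2, h3, e1] at this
    rw [hx, hy]
    linear_combination this
  have e3 : g 0 1 = g 2 2 * g 2 2 - g 1 1 * g 2 2 := by
    by_contra e
    obtain ⟨k, hk⟩ : ∃ k, (g 2 2 * g 2 2 - g 1 1 * g 2 2 - g 0 1) * k = 1 :=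
      ⟨_, mul_inv_cancel₀ (sub_ne_zero.2 (Ne.symm e))⟩
    simpa using e2 (((g 1 1 - g 2 2) * (1 - g 0 2) + g 0 1 * g 1 2) * k) ((g 2 2 * g 1 2 - (1 - g 0 2)) * k) 1 0
      (by linear_combination (g 0 2 - 1) * hk) (by linear_combination g 1 2 * hk)
  have e4 : g 0 2 + g 2 2 * g 1 2 = 0 := by
    have a1 := e2 0 0 _ _ rfl rfl
    have a2 := e2 1 0 _ _ rfl rfl
    rw [e3] at a1 a2
    grind
  refine hh ((ncyc hτ (d := g 2 2) (e := g 1 1 - g 2 2) (by grind)).conj (P := !![1, 0, -g 1 2; 0, 1, 0; 0, 0, 1]) ?_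
    (by simp [det_fin_three]))
  ext i j
  fin_cases i <;> fin_cases j <;> simp [mul_apply, Fin.sum_univ_three, h1, h2, h3, e1, e3]
  all_goals first | ring1 | linear_combination e4

theorem nsc {τ : F} (hτ : τ = 0 ∨ (2 : F) = 0) {g : Matrix (Fin 3) (Fin 3) F} (hg : g.det = 1)
    (h : ∀ c, g ≠ scalar _ c) : Q τ g := by
  obtain ⟨v, w, hv⟩ : ∃ v w, (of ![v, g *ᵥ v, w]).det ≠ 0 := by
    by_contra! hh
    have a1 := hh ![1, 0, 0] ![0, 1, 0]
    have a2 := hh ![1, 0, 0] ![0, 0, 1]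
    have a3 := hh ![0, 1, 0] ![1, 0, 0]
    have a4 := hh ![0, 1, 0] ![0, 0, 1]
    have a5 := hh ![0, 0, 1] ![1, 0, 0]
    have a6 := hh ![0, 0, 1] ![0, 1, 0]
    have a7 := hh ![1, 1, 0] ![0, 0, 1]
    have a8 := hh ![1, 0, 1] ![0, 1, 0]
    simp [det_fin_three, mulVec, dotProduct, Fin.sum_univ_three] at a1 a2 a3 a4 a5 a6 a7 a8
    refine h (g 0 0) ?_
    ext i j
    fin_cases i <;> fin_cases j <;> simp [*] <;> grind
  rw [← det_transpose] at hv
  set P := (of ![v, g *ᵥ v, w])ᵀ with hP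
  have e : P * (P⁻¹ * g * P) = g * P := by rw [← mul_assoc, mul_nonsing_inv_cancel_left _ _ hv.isUnit]
  have e1 : (P⁻¹ * g * P) *ᵥ Pi.single 0 1 = Pi.single 1 1 := by
    apply mulVec_injective_of_isUnit ((isUnit_iff_isUnit_det P).2 hv.isUnit)
    rw [mulVec_mulVec, e, ← mulVec_mulVec]
    ext i
    simp [hP]
    rfl
  refine (std hτ (by rw [det_mul, det_mul, hg, mul_one, det_nonsing_inv_mul_det _ hv.isUnit]) ?_ ?_ ?_).conj e.symm hv
  exacts [by simpa using congrFun e1 0, by simpa using congrFun e1 1, by simpa using congrFun e1 2]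

theorem conj_SL {τ : F} {N : ℕ} (hN : (N : F) ≠ 0) (hd : ff τ ∣ X ^ N - 1) {A : Matrix (Fin 3) (Fin 3) F}
    (hA : A.charpoly = ff τ) : ∃ u : SpecialLinearGroup (Fin 3) F, A * u = u * !![1, 0, 0; 0, 0, -1; 0, 1, τ] := by
  have h0 : (!![1, 0, 0; 0, 0, -1; 0, 1, τ]).charpoly = ff τ := cp (by simp) (by simp) (by simp)
  have hs := (Conj.squarefree_X_pow_sub_one hN).squarefree_of_dvd hd
  obtain ⟨P, hP⟩ := Conj.isConj_iff_sim.2 (Conj.sim_of_charpoly (f := toLin' !![1, 0, 0; 0, 0, -1; 0, 1, τ])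
    (g := toLin' A) hs hs (by rw [← Conj.toLin'_aeval, ← h0, aeval_self_charpoly, map_zero])
    (by rw [← Conj.toLin'_aeval, ← hA, aeval_self_charpoly, map_zero]) (by simp [h0, hA]))
  refine ⟨⟨P * !![P.1.det⁻¹, 0, 0; 0, 1, 0; 0, 0, 1], by
    simp [det_fin_three !![_, _, _; _, _, _; _, _, _], GeneralLinearGroup.det_ne_zero P]⟩, ?_⟩
  simp only [← mul_assoc, ← hP.eq]
  simp [mul_assoc]

/-- A form of Thompson's conjecture for PSL(3,q), q > 2 (covering the non-identity elements), with a semisimple class: for F a finite field of characteristic p with more than 2 elements there is an element x of PSL(3,F) of order prime to p such that every non-identity element of PSL(3,F) is a product of two conjugates of x. -/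
theorem result {F : Type*} [Field F] [Fintype F] (p : ℕ) [Fact p.Prime] [CharP F p] (h3 : 3 ≤ Fintype.card F) :
    ∃ x : Matrix.ProjectiveSpecialLinearGroup (Fin 3) F, ¬ p ∣ orderOf x ∧ ∀ g : Matrix.ProjectiveSpecialLinearGroup (Fin 3) F, g ≠ 1 → ∃ u v : Matrix.ProjectiveSpecialLinearGroup (Fin 3) F, g = (u * x * u⁻¹) * (v * x * v⁻¹) := by
  classical
  obtain ⟨τ, N, h1, h2, h3, h4⟩ : ∃ (τ : F) (N : ℕ), (τ = 0 ∨ (2 : F) = 0) ∧ ¬ p ∣ N ∧ ff τ ∣ X ^ N - 1 ∧
      (!![1, 0, 0; 0, 0, -1; 0, 1, τ]) ^ N = 1 := by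
    by_cases h : p = 2
    · subst h
      refine ⟨-1, 3, Or.inr CharTwo.two_eq_zero, by norm_num, dvd_of_eq (by simp [ff]; ring), ?_⟩
      simp [pow_succ, one_fin_three]
    · refine ⟨0, 4, Or.inl rfl, fun e => h ((Nat.prime_dvd_prime_iff_eq Fact.out Nat.prime_two).1
        ((Fact.out : p.Prime).dvd_of_dvd_pow (n := 2) e)), ⟨X + 1, by simp [ff]; ring⟩, ?_⟩
      simp [pow_succ, one_fin_three]
  have hN : (N : F) ≠ 0 := by rwa [Ne, CharP.cast_eq_zero_iff F p]
  let x : SpecialLinearGroup (Fin 3) F := ⟨!![1, 0, 0; 0, 0, -1; 0, 1, τ], by simp [det_fin_three]⟩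
  refine ⟨x, fun e => h2 (e.trans (orderOf_dvd_of_pow_eq_one ?_)), fun g hg => ?_⟩
  · rw [← QuotientGroup.mk_pow, show x ^ N = 1 from Subtype.ext h4, QuotientGroup.mk_one]
  obtain ⟨g, rfl⟩ := QuotientGroup.mk_surjective g
  obtain ⟨A, B, hA, hB, e⟩ := nsc h1 g.2 fun c e => hg ((QuotientGroup.eq_one_iff _).2
    (Matrix.SpecialLinearGroup.mem_center_iff.2 ⟨c, show c ^ Fintype.card (Fin 3) = 1 by simpa [e] using g.2, e.symm⟩))
  obtain ⟨u, hu⟩ := conj_SL hN h3 hA
  obtain ⟨v, hv⟩ := conj_SL hN h3 hB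
  refine ⟨u, v, ?_⟩
  simp only [← QuotientGroup.mk_inv, ← QuotientGroup.mk_mul]
  congr 1
  have k (u : SpecialLinearGroup (Fin 3) F) {A} (h : A * u.1 = u * x.1) : (u * x * u⁻¹).1 = A := by
    rw [Matrix.SpecialLinearGroup.coe_mul, Matrix.SpecialLinearGroup.coe_mul, ← h, mul_assoc, ← Matrix.SpecialLinearGroup.coe_mul]
    simp
  exact Subtype.ext (by rw [Matrix.SpecialLinearGroup.coe_mul, k u hu, k v hv, e])

end Cfsg.Agent.S2459
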