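import Mathlib
import Cfsg.Statements.S2466

set_option autoImplicit false
open Cfsg

namespace Cfsg.Agent.S2466

theorem exists_mem_of_prime_dvd_lcm {p : ℕ} (hp : p.Prime) {m : Multiset ℕ} (h : p ∣ m.lcm) : ∃ a ∈ m, p ∣ a := by
  induction m using Multiset.induction_on with
  | empty => exact absurd (Nat.dvd_one.mp h) hp.one_lt.ne'
  | cons a m ih =>
    rw [Multiset.lcm_cons] at h
    rcases hp.dvd_mul.mp (h.trans (lcm_dvd_mul _ _)) with h | h
    · exact ⟨a, Multiset.mem_cons_self _ _, h⟩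
    · obtain ⟨b, hb, h⟩ := ih h
      exact ⟨b, Multiset.mem_cons_of_mem hb, h⟩

/-- Adjacency of odd primes in the prime graph of the alternating groups: let r ≠ s be odd primes at most n. The alternating group of degree n has an element of order r·s if and only if r + s ≤ n. -/
theorem result (n r s : ℕ) (hr : r.Prime) (hs : s.Prime) (hr2 : r ≠ 2) (hs2 : s ≠ 2) (hrs : r ≠ s) (hrn : r ≤ n) (hsn : s ≤ n) :
    (r * s ∈ Set.range (orderOf : alternatingGroup (Fin n) → ℕ)) ↔ r + s ≤ n := by
  constructor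
  · rintro ⟨⟨σ, hσ⟩, h⟩
    rw [Subgroup.orderOf_mk, ← σ.lcm_cycleType] at h
    obtain ⟨a, ha, hra⟩ := exists_mem_of_prime_dvd_lcm hr (h ▸ dvd_mul_right r s)
    obtain ⟨b, hb, hsb⟩ := exists_mem_of_prime_dvd_lcm hs (h ▸ dvd_mul_left s r)
    have h1 := σ.sum_cycleType_le
    rw [Fintype.card_fin] at h1
    have ha0 := Equiv.Perm.two_le_of_mem_cycleType ha
    have hb0 := Equiv.Perm.two_le_of_mem_cycleType hb
    by_cases hab : a = b
    · subst hab
      have h2 := Nat.le_of_dvd (by omega) (((Nat.coprime_primes hr hs).mpr hrs).mul_dvd_of_dvd_of_dvd hra hsb)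
      have h3 := Multiset.single_le_sum (fun _ _ => Nat.zero_le _) a ha
      have := Nat.add_le_mul hr.two_le hs.two_le
      omega
    · obtain ⟨m, hm⟩ := Multiset.exists_cons_of_mem ha
      rw [hm] at hb h1
      have h3 := Multiset.single_le_sum (fun _ _ => Nat.zero_le _) b ((Multiset.mem_cons.mp hb).resolve_left
        (Ne.symm hab))
      rw [Multiset.sum_cons] at h1
      have := Nat.le_of_dvd (by omega) hra
      have := Nat.le_of_dvd (by omega) hsb
      omega
  · intro h
    obtain ⟨σ, hσ⟩ := (Equiv.Perm.exists_with_cycleType_iff (Fin n) (m := {r, s})).mpr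
      ⟨by simpa using h, by simp [hr.two_le, hs.two_le]⟩
    refine ⟨⟨σ, ?_⟩, ?_⟩
    · rw [Equiv.Perm.mem_alternatingGroup, Equiv.Perm.sign_of_cycleType, hσ]
      refine Even.neg_one_pow ?_
      simpa using ((hr.odd_of_ne_two hr2).add_odd (hs.odd_of_ne_two hs2)).add even_two
    · rw [Subgroup.orderOf_mk, ← σ.lcm_cycleType, hσ]
      simpa [lcm_eq_nat_lcm] using ((Nat.coprime_primes hr hs).mpr hrs).lcm_eq_mul

end Cfsg.Agent.S2466
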