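import Mathlib
import Cfsg.Statements.S2467
import Cfsg.Agent.S2466

set_option autoImplicit false
open Cfsg

namespace Cfsg.Agent.S2467

theorem exists_even {m : Multiset ℕ} (h : Odd (m.sum + m.card)) : ∃ a ∈ m, Even a := by
  induction m using Multiset.induction_on with
  | empty => simp at h
  | cons a m ih =>
    by_cases ha : Even a
    · exact ⟨a, Multiset.mem_cons_self _ _, ha⟩
    · obtain ⟨b, hb, h⟩ := ih (by
        rw [Multiset.sum_cons, Multiset.card_cons, Nat.odd_iff] at h
        rw [Nat.even_iff] at ha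
        rw [Nat.odd_iff]; omega)
      exact ⟨b, Multiset.mem_cons_of_mem hb, h⟩

/-- Adjacency of 2 and an odd prime in the prime graph of the alternating groups: let r be an odd prime at most n, with n ≥ 4. The alternating group of degree n has an element of order 2r if and only if r + 4 ≤ n. -/
theorem result (n r : ℕ) (hn : 4 ≤ n) (hr : r.Prime) (hr2 : r ≠ 2) (hrn : r ≤ n) :
    (2 * r ∈ Set.range (orderOf : alternatingGroup (Fin n) → ℕ)) ↔ r + 4 ≤ n := by
  constructor
  · rintro ⟨⟨σ, hσ⟩, h⟩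
    rw [Subgroup.orderOf_mk, ← σ.lcm_cycleType] at h
    obtain ⟨a, ha, hra⟩ := S2466.exists_mem_of_prime_dvd_lcm hr (h ▸ dvd_mul_left r 2)
    have h1 := σ.sum_cycleType_le
    rw [Fintype.card_fin] at h1
    rw [Equiv.Perm.mem_alternatingGroup, Equiv.Perm.sign_of_cycleType,
      neg_one_pow_eq_one_iff_even (by decide)] at hσ
    have h2 : ∀ a ∈ σ.cycleType, 2 ≤ a := fun a => Equiv.Perm.two_le_of_mem_cycleType
    obtain ⟨b, hb, h2b⟩ := S2466.exists_mem_of_prime_dvd_lcm Nat.prime_two (h ▸ dvd_mul_right 2 r)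
    have ha0 := h2 a ha
    have hle : ∀ {m : Multiset ℕ} {c}, c ∈ m → c ≤ m.sum := fun hc =>
      Multiset.single_le_sum (fun _ _ => Nat.zero_le _) _ hc
    obtain ⟨m, hm⟩ := Multiset.exists_cons_of_mem ha
    rw [hm] at hb h1 hσ h2
    rw [Multiset.sum_cons] at h1
    rw [Multiset.sum_cons, Multiset.card_cons, Nat.even_iff] at hσ
    by_cases hea : 2 ∣ a
    · obtain ⟨c, hc, -⟩ := exists_even (m := m) (by rw [Nat.odd_iff]; omega)
      have := Nat.le_of_dvd (by omega) (((Nat.coprime_primes Nat.prime_two hr).mpr hr2.symm).mul_dvd_of_dvd_of_dvd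
        hea hra)
      have := h2 c (Multiset.mem_cons_of_mem hc)
      have := hle hc
      have := hr.two_le
      omega
    · obtain ⟨m', rfl⟩ := Multiset.exists_cons_of_mem ((Multiset.mem_cons.mp hb).resolve_left fun e => hea (e ▸ h2b))
      rw [Multiset.sum_cons] at h1
      rw [Multiset.sum_cons, Multiset.card_cons] at hσ
      obtain ⟨c, hc, -⟩ := exists_even (m := m') (by rw [Nat.odd_iff]; omega)
      have := h2 c (Multiset.mem_cons_of_mem (Multiset.mem_cons_of_mem hc))
      have := h2 b hb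
      have := hle hc
      have := Nat.le_of_dvd (by omega) hra
      omega
  · intro h
    obtain ⟨σ, hσ⟩ := (Equiv.Perm.exists_with_cycleType_iff (Fin n) (m := {r, 2, 2})).mpr
      ⟨by simpa using h, by simp [hr.two_le]⟩
    refine ⟨⟨σ, ?_⟩, ?_⟩
    · rw [Equiv.Perm.mem_alternatingGroup, Equiv.Perm.sign_of_cycleType, hσ]
      refine Even.neg_one_pow ?_
      simpa using (hr.odd_of_ne_two hr2).add_odd (show Odd 7 by decide)
    · rw [Subgroup.orderOf_mk, ← σ.lcm_cycleType, hσ, mul_comm]
      simpa [lcm_eq_nat_lcm] using ((Nat.coprime_primes hr Nat.prime_two).mpr hr2).lcm_eq_mul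

end Cfsg.Agent.S2467
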