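import Mathlib
import Cfsg.Statements.S2471
import Cfsg.Agent.Max.L2d

set_option autoImplicit false
open Cfsg

namespace Cfsg.Agent.S2471

open scoped Pointwise
open Cfsg.Agent.Max.L2 Cfsg.Agent.Classical.PSL2Basic Cfsg.Agent.Classical.P1Ident
  Cfsg.Agent.Classical.Congr Cfsg.Agent.Classical.P1

/-- In PSL(2,q) with q odd, the characteristic p is isolated from 2 in the prime graph: for F a finite field of odd characteristic p with at least 5 elements, PSL(2,F) has no element of order 2p. -/
theorem result {F : Type*} [Field F] [Fintype F] (p : ℕ) [Fact p.Prime] [CharP F p] (hp : p ≠ 2) (h5 : 5 ≤ Fintype.card F) (g : Matrix.ProjectiveSpecialLinearGroup (Fin 2) F) :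
    orderOf g ≠ 2 * p := by
  intro h
  rw [← orderOf_injective toP toP_injective] at h
  have hp' : p.Prime := Fact.out
  have h1 := Cfsg.Agent.Classical.GLBasic.char_dvd_card F p
  have h2 := Cfsg.Agent.Classical.SLBasic.one_lt_card (F := F)
  rcases order_cases p (toP g) with e | e | e
  · have := Nat.le_of_dvd hp'.pos (orderOf_dvd_of_pow_eq_one e)
    have := hp'.pos
    omega
  · have := Nat.dvd_sub h1 (Dvd.dvd.trans (Dvd.intro_left _ h.symm) e)
    rw [Nat.sub_sub_self h2.le, Nat.dvd_one] at this
    exact hp'.one_lt.ne' this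
  · have := (Nat.dvd_add_right h1).1 (Dvd.dvd.trans (Dvd.intro_left _ h.symm) e)
    exact hp'.one_lt.ne' (Nat.dvd_one.1 this)

end Cfsg.Agent.S2471
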