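import Mathlib
import Cfsg.Statements.S2474
import Cfsg.Agent.Spc.Orth
-- import your own Cfsg.Agent.* helpers here

set_option autoImplicit false
open Cfsg

namespace Cfsg.Agent.S2474

open Cfsg.Agent.Spc Cfsg.Agent.Conj Module

/-- For q odd and n ≥ 3 the simple groups PΩ(2n+1,q) and PSp(2n,q) (which have the same order but different sets of element orders) have the same prime graph: for all distinct primes r, s, one of them has an element of order r·s if and only if the other does. -/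
theorem result {F : Type*} [Field F] [Fintype F] (hodd : Odd (Fintype.card F)) (n : ℕ) (hn : 3 ≤ n) (r s : ℕ) (hr : r.Prime) (hs : s.Prime) (hrs : r ≠ s) :
    (r * s ∈ Set.range (orderOf : Cfsg.POmega F (Cfsg.quadFormOdd n F) → ℕ)) ↔ (r * s ∈ Set.range (orderOf : Cfsg.PSp n F → ℕ)) := by
  obtain ⟨p, hp0⟩ := CharP.exists F
  haveI hp : Fact p.Prime := ⟨CharP.char_is_prime F p⟩
  have hp2 : p ≠ 2 := by
    rintro rfl
    obtain ⟨k, -, hk⟩ := FiniteField.card F 2
    rw [hk] at hodd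
    exact Nat.not_even_iff_odd.2 hodd (even_two.pow_of_ne_zero k.ne_zero)
  have h2 : (2 : F) ≠ 0 := natCast_ne_zero_of_ne (F := F) Nat.prime_two hp2.symm
  have key : ∀ r s : ℕ, r.Prime → s.Prime → r ≠ s → (r = 2 ∨ (r ≠ 2 ∧ s = p) ∨
      (r ≠ 2 ∧ s ≠ 2 ∧ r ≠ p ∧ s ≠ p)) →
      (r * s ∈ Spec.spec (Cfsg.POmega F (Cfsg.quadFormOdd n F)) ↔ r * s ∈ Spec.spec (Cfsg.PSp n F)) := by
    intro r s hr hs hrs h
    obtain ⟨ηk, hηk⟩ := exists_eta (orderOf (Fintype.card F : ZMod r))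
    obtain ⟨ηl, hηl⟩ := exists_eta (orderOf (Fintype.card F : ZMod s))
    rcases h with rfl | ⟨h1, rfl⟩ | ⟨h1, h3, h4, h5⟩
    · by_cases hsp : s = p
      · subst hsp
        exact iff_of_true (om_two_char s hp2 (by omega)) (sp_two_char s hp2 (by omega))
      · have s0 : (s : F) ≠ 0 := natCast_ne_zero_of_ne hs hsp
        rw [om_two_prime h2 (by omega) hs hrs.symm s0 rfl hηl, sp_two_prime h2 (by omega) hs hrs.symm s0 rfl hηl]
    · rw [om_char_prime s hp2 (by omega) hr h1 hrs rfl hηk,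
        spec_psp_iff ((hr.odd_of_ne_two h1).mul (hs.odd_of_ne_two hp2)), sp_char_prime s hr h1 hrs rfl hηk]
    · have r0 : (r : F) ≠ 0 := natCast_ne_zero_of_ne hr h4
      have s0 : (s : F) ≠ 0 := natCast_ne_zero_of_ne hs h5
      rw [spec_psp_iff ((hr.odd_of_ne_two h1).mul (hs.odd_of_ne_two h3))]
      rcases le_total ηk ηl with h | h
      · rw [om_two_primes h2 (by omega) hr hs h1 h3 hrs r0 s0 rfl rfl hηk hηl h,
          sp_two_primes hr hs h1 h3 hrs r0 s0 rfl rfl hηk hηl h]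
      · rw [mul_comm, om_two_primes h2 (by omega) hs hr h3 h1 hrs.symm s0 r0 rfl rfl hηl hηk h,
          sp_two_primes hs hr h3 h1 hrs.symm s0 r0 rfl rfl hηl hηk h]
  by_cases h1 : r = 2
  · exact key r s hr hs hrs (Or.inl h1)
  by_cases h3 : s = 2
  · rw [mul_comm]; exact key s r hs hr hrs.symm (Or.inl h3)
  by_cases h4 : s = p
  · exact key r s hr hs hrs (Or.inr (Or.inl ⟨h1, h4⟩))
  by_cases h5 : r = p
  · rw [mul_comm]; exact key s r hs hr hrs.symm (Or.inr (Or.inl ⟨h3, h5⟩))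
  exact key r s hr hs hrs (Or.inr (Or.inr ⟨h1, h3, h5, h4⟩))

end Cfsg.Agent.S2474
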