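import Mathlib
import Cfsg.Statements.S2478
import Cfsg.Agent.UGL.ClMain

set_option autoImplicit false
open Cfsg

namespace Cfsg.Agent.S2478

/-- The number of conjugacy classes of GL(n,q): for F a finite field with q elements and n ≥ 1, the number k of conjugacy classes of GL(n,F) satisfies q^n − q^(n−1) ≤ k ≤ q^n. -/
theorem result {F : Type*} [Field F] [Fintype F] (n : ℕ) (hn : 1 ≤ n) :
    Fintype.card F ^ n - Fintype.card F ^ (n - 1) ≤ Nat.card (ConjClasses (Matrix.GeneralLinearGroup (Fin n) F)) ∧ Nat.card (ConjClasses (Matrix.GeneralLinearGroup (Fin n) F)) ≤ Fintype.card F ^ n := by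
  obtain ⟨n, rfl⟩ : ∃ m, n = m + 1 := ⟨n - 1, by omega⟩
  have h1 := UGL.Cl.card_M0_succ (F := F) n
  have h2 := UGL.Cl.le_card_GL (F := F) (n := n + 1)
  have h3 := UGL.Cl.card_GL_le (F := F) (n := n + 1)
  have h4 := (UGL.Cl.card_SS_le (F := F) (n + 1) (n + 1)).trans
    (UGL.Cl.coeff_AA_le Fintype.card_pos hn le_rfl)
  have h5 : (UGL.Cl.SS F (n + 1) (n + 1)).card ≤ Fintype.card F ^ (n + 1) := by
    zify; linarith
  rw [Nat.add_sub_cancel]
  constructor <;> omega

end Cfsg.Agent.S2478
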