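import Mathlib
import Cfsg.Statements.S2485
import Cfsg.Agent.Max.L2f

set_option autoImplicit false
open scoped Pointwise
open Cfsg

namespace Cfsg.Agent.S2485

open scoped Pointwise
open Cfsg.Agent.Max.L2 Cfsg.Agent.Classical.PSL2Basic Cfsg.Agent.Classical.P1Ident
  Cfsg.Agent.Classical.Congr Cfsg.Agent.Classical.P1

/-- Let q = 2^k − 1 ≥ 7 be a prime and let G = PGL(2,q), the general linear group of degree 2 over the field with q elements modulo its centre. Then any two Sylow 2-subgroups of G have a non-trivial intersection: for a Sylow 2-subgroup H and every x ∈ G, H ∩ H^x ≠ 1. -/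
theorem result {q k : ℕ} [Fact q.Prime] (hk : q + 1 = 2 ^ k) (hq : 7 ≤ q)
    (H : Sylow 2 (GL (Fin 2) (ZMod q) ⧸ Subgroup.center (GL (Fin 2) (ZMod q))))
    (x : GL (Fin 2) (ZMod q) ⧸ Subgroup.center (GL (Fin 2) (ZMod q))) :
    (H : Subgroup (GL (Fin 2) (ZMod q) ⧸ Subgroup.center (GL (Fin 2) (ZMod q)))) ⊓ MulAut.conj x • (H : Subgroup _) ≠ ⊥ := by
  have hF : Nat.card (ZMod q) = q := Nat.card_zmod q
  obtain ⟨T, D, hT⟩ := exists_tor_plus (ZMod q)
  have h1 : Nat.card D = 2 ^ (k + 1) := by rw [hT.card_D, hF, hk, pow_succ']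
  obtain ⟨Q, hQ⟩ := (IsPGroup.of_card h1).exists_le_sylow
  have h4 : 4 ∣ q + 1 := by
    rw [hk]
    obtain ⟨j, rfl⟩ : ∃ j, k = j + 2 := ⟨k - 2, by
      by_contra h
      have : 2 ^ k ≤ 2 ^ 1 := Nat.pow_le_pow_right (by norm_num) (by omega)
      omega⟩
    exact ⟨2 ^ j, by ring⟩
  have h2 := Cfsg.Agent.Classical.GLBasic.sylow_card_of_eq Q (k := k + 1) (m := q * ((q - 1) / 2))
    (by
      rw [card_PGL_two, hF, pow_succ 2 k, ← hk, show q ^ 2 - 1 = (q + 1) * (q - 1) by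
        rw [← Nat.sq_sub_sq]]
      obtain ⟨m, hm⟩ : 2 ∣ q - 1 := by omega
      rw [hm, Nat.mul_div_cancel_left _ two_pos]; ring)
    (by rw [Nat.prime_two.dvd_mul]; omega)
  have h3 : D = Q := Subgroup.eq_of_le_of_card_ge hQ (by rw [h1, h2])
  let H' : Sylow 2 (Matrix.ProjGenLinGroup (Fin 2) (ZMod q)) := H
  obtain ⟨g, hg⟩ := MulAction.exists_smul_eq (Matrix.ProjGenLinGroup (Fin 2) (ZMod q)) Q H'
  have h5 : (H' : Subgroup (Matrix.ProjGenLinGroup (Fin 2) (ZMod q))) = MulAut.conj g • D := by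
    rw [h3]; exact (congrArg Sylow.toSubgroup hg).symm
  have h6 := (hT.conj g).inf_ne_bot ((hT.conj g).conj x)
  rw [← h5] at h6
  exact h6

end Cfsg.Agent.S2485
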