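import Mathlib
import Cfsg.Statements.S2488
import Cfsg.Agent.PGrp.Basic

set_option autoImplicit false
open scoped Pointwise
open Cfsg

namespace Cfsg.Agent.S2488

open Equiv Equiv.Perm
open scoped Pointwise

theorem a1 : (Finset.univ.filter fun y : Perm (Fin 6) =>
    y * y = 1 ∧ sign y = 1 ∧ (swap 0 1 * swap 2 3 * y) ^ 5 = 1).card = 17 := by decide +kernel

theorem a2 : (Finset.univ.filter fun y : Perm (Fin 6) =>
    y * y = 1 ∧ sign y = 1 ∧ ¬ (swap 0 1 * swap 2 3 * y) ^ 5 = 1).card = 29 := by decide +kernel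

theorem a3 : (Finset.univ.filter fun y : Perm (Fin 6) =>
    swap 0 1 * swap 2 3 * y = y * (swap 0 1 * swap 2 3) ∧ sign y = 1).card = 8 := by decide +kernel

theorem exists_conj {z : Perm (Fin 6)} (h1 : orderOf z = 2) (h2 : sign z = 1) :
    ∃ c, c * z * c⁻¹ = swap 0 1 * swap 2 3 := by
  refine isConj_iff.mp (isConj_of_cycleType_eq ?_)
  have h3 := cycleType_of_pow_prime_eq_one (h1 ▸ pow_orderOf_eq_one z)
  have h4 := z.sum_cycleType_le
  have h5 : z.cycleType.card ≠ 0 := fun e => by simp [card_cycleType_eq_zero.mp e] at h1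
  rw [sign_of_cycleType] at h2
  rw [cycleType_swap_mul_swap_of_nodup (by decide)]
  generalize z.cycleType.card = k at h3 h2 h5
  rw [h3] at h4 h2 ⊢
  simp at h4
  obtain rfl | rfl | rfl : k = 1 ∨ k = 2 ∨ k = 3 := by omega
  exacts [absurd h2 (by decide), rfl, absurd h2 (by decide)]

theorem card_le {α : Type*} {P : Perm (Fin 6) → Prop} [DecidablePred P] (f : α → Perm (Fin 6))
    (hf : Function.Injective f) (c : Perm (Fin 6)) (h : ∀ a, P (c * f a * c⁻¹)) :
    Nat.card α ≤ (Finset.univ.filter P).card := by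
  have := Nat.card_le_card_of_injective (fun a => (⟨_, Finset.mem_filter.mpr ⟨Finset.mem_univ _,
    h a⟩⟩ : Finset.univ.filter P)) fun a b e => hf (by simpa using e)
  rwa [Nat.card_eq_finsetCard] at this

/-- Let G be a finite group with a normal subgroup N of index 4 isomorphic to the alternating group of degree 6 and with trivial centralizer in G (so G is the full automorphism group of A₆). Then any two Sylow 2-subgroups of G have a non-trivial intersection: for a Sylow 2-subgroup H and every x ∈ G, H ∩ H^x ≠ 1. -/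
theorem result {G : Type*} [Group G] [Finite G] (N : Subgroup G) [N.Normal]
    (e : N ≃* alternatingGroup (Fin 6)) (hidx : N.index = 4)
    (hC : Subgroup.centralizer (N : Set G) = ⊥)
    (H : Sylow 2 G) (x : G) :
    (H : Subgroup G) ⊓ MulAut.conj x • (H : Subgroup G) ≠ ⊥ := by
  intro h0
  let ψ : N →* Perm (Fin 6) := (alternatingGroup _).subtype.comp e
  have hψ : Function.Injective ψ := Subtype.val_injective.comp e.injective
  have hs : ∀ n, sign (ψ n) = 1 := fun n => (e n).2
  have h1 : Nat.card G = 1440 := by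
    rw [← N.card_mul_index, hidx, Nat.card_congr e.toEquiv, nat_card_alternatingGroup]
    simp [Nat.factorial]
  have h2 : Nat.card (H : Subgroup G) = 32 := by
    rw [H.card_eq_multiplicity, h1, show 1440 = 2 ^ 5 * 45 by norm_num, Nat.factorization_mul
      (by norm_num) (by norm_num), Nat.prime_two.factorization_pow]
    simp [Nat.factorization_eq_zero_of_not_dvd]
  obtain ⟨z, hz, hz', hz2⟩ := PGrp.exists_mem_center_orderOf_eq H.isPGroup' (N.subgroupOf H)
    fun e => by
      have := Nat.le_of_dvd (by norm_num) (hidx ▸ N.relIndex_dvd_index_of_normal H)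
      rw [Subgroup.relIndex, e, Subgroup.index_bot, h2] at this
      omega
  have hz3 : ∀ h ∈ (H : Subgroup G), h * z = z * h := fun h hh =>
    congrArg Subtype.val (Subgroup.mem_center_iff.mp hz' ⟨h, hh⟩)
  have hN : ∀ g : G, g * z * g⁻¹ ∈ N := fun g => Subgroup.Normal.conj_mem ‹N.Normal› z.1 hz g
  have ho : ∀ g, orderOf (ψ ⟨_, hN g⟩) = 2 := fun g => by
    rw [orderOf_injective ψ hψ, Subgroup.orderOf_mk, ← MulAut.conj_apply, MulEquiv.orderOf_eq,
      Subgroup.orderOf_coe, hz2]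
  have h3 : Subgroup.centralizer {x * z * x⁻¹} ≤ MulAut.conj x • (H : Subgroup G) := by
    refine (Subgroup.eq_of_le_of_card_ge ?_ ?_).ge
    · rintro _ ⟨h, hh, rfl⟩
      refine Subgroup.mem_centralizer_singleton_iff.mpr ?_
      change x * h * x⁻¹ * _ = _ * (x * h * x⁻¹)
      rw [conj_mul, conj_mul, hz3 h hh]
    obtain ⟨c, hc⟩ := exists_conj (ho x) (hs _)
    have h4 := a3 ▸ card_le (fun g : N.subgroupOf (Subgroup.centralizer {x * z * x⁻¹}) =>
      ψ ⟨g.1.1, g.2⟩) (fun a b e => Subtype.ext (Subtype.ext (congrArg Subtype.val (hψ e) :))) c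
      fun g => And.intro (by
        have : ψ ⟨g.1.1, g.2⟩ * ψ ⟨_, hN x⟩ = ψ ⟨_, hN x⟩ * ψ ⟨g.1.1, g.2⟩ := by
          rw [← map_mul, ← map_mul]
          exact congrArg ψ (Subtype.ext (Subgroup.mem_centralizer_singleton_iff.mp g.1.2))
        simp only [← hc, conj_mul, this]) (by simp [hs])
    have h5 := Nat.le_of_dvd (by norm_num)
      (hidx ▸ N.relIndex_dvd_index_of_normal (Subgroup.centralizer {x * z * x⁻¹}))
    rw [← (N.subgroupOf _).card_mul_index,
      ← Nat.card_congr ((H : Subgroup G).equivSMul (MulAut.conj x)).toEquiv, h2]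
    exact Nat.mul_le_mul h4 h5
  have h4 : Function.Injective fun h : H => ψ ⟨_, hN (h * x)⟩ := fun a b e => by
    have h4 : (b⁻¹ * a : H).1 ∈ (⊥ : Subgroup G) := h0 ▸ ⟨(b⁻¹ * a).2, h3
      (Subgroup.mem_centralizer_singleton_iff.mpr (by
        have : a * x * z * (a * x)⁻¹ = b * x * z * (b * x)⁻¹ := congrArg Subtype.val (hψ e)
        calc _ = (b : G)⁻¹ * (a * x * z * (a * x)⁻¹) * a := by simp [mul_assoc]
          _ = _ := by rw [this]; simp [mul_assoc]))⟩
    exact (inv_mul_eq_one.mp (Subtype.ext h4)).symm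
  obtain ⟨c, hc⟩ := exists_conj (ho 1) (hs _)
  have h5 : ∀ h : H, (swap 0 1 * swap 2 3 * (c * ψ ⟨_, hN (h * x)⟩ * c⁻¹)) ^ 5 = 1 ↔
      (z * (x * z * x⁻¹)) ^ 5 = 1 := fun h => by
    rw [← hc, conj_mul, conj_pow, conj_eq_one_iff, ← map_mul, ← map_pow,
      map_eq_one_iff ψ hψ, Subtype.ext_iff, ← conj_eq_one_iff (a := (h : G)), ← conj_pow]
    simp [mul_assoc, ← mul_assoc z.1 h, ← hz3 h h.2]
  have h6 : ∀ h : H, c * ψ ⟨_, hN (h * x)⟩ * c⁻¹ * (c * ψ ⟨_, hN (h * x)⟩ * c⁻¹) = 1 := fun h => by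
    rw [conj_mul, conj_eq_one_iff, ← sq]
    exact orderOf_dvd_iff_pow_eq_one.mp (ho (h * x)).dvd
  by_cases h7 : (z * (x * z * x⁻¹)) ^ 5 = 1
  · have := a1 ▸ card_le _ h4 c fun h => And.intro (h6 h) (And.intro (by simp [hs]) ((h5 h).mpr h7))
    exact absurd (h2.ge.trans this) (by norm_num)
  · have := a2 ▸ card_le _ h4 c fun h => And.intro (h6 h) (And.intro (by simp [hs]) (mt (h5 h).mp h7))
    exact absurd (h2.ge.trans this) (by norm_num)

end Cfsg.Agent.S2488
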