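import Mathlib
import Cfsg.Statements.S2493
import Cfsg.Agent.H2.SchurAlt
-- import your own Cfsg.Agent.* helpers here

set_option autoImplicit false
open Cfsg

namespace Cfsg.Agent.S2493

open Equiv Equiv.Perm Subgroup H2.Schur H2.Carm
open scoped commutatorElement

variable {α : Type*} [Fintype α] [DecidableEq α]

/-- Every permutation is a product of two involutions with controlled supports. -/
theorem invols : ∀ (N : ℕ) (p : Perm α), p.support.card ≤ N → ∀ a : α, ∃ s t : Perm α,
    s * s = 1 ∧ t * t = 1 ∧ p = s * t ∧ s a = a ∧ (∀ x, p x = x → s x = x ∧ t x = x) ∧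
    s.support.card ≤ t.support.card ∧ t.support.card ≤ s.support.card + 2 ∧
    (p ≠ 1 → s.support.card + t.support.card + 2 ≤ 2 * p.support.card) := by
  intro N
  induction N with
  | zero =>
    intro p hp a
    have : p = 1 := by simpa using hp
    exact ⟨1, 1, by simp, by simp, by simp [this], rfl, by simp, le_rfl, by simp, fun h => (h this).elim⟩
  | succ N ih =>
    intro p hp a0
    by_cases h1 : p = 1
    · exact ⟨1, 1, by simp, by simp, by simp [h1], rfl, by simp, le_rfl, by simp, fun h => (h h1).elim⟩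
    have key : ∀ a, p a ≠ a → ∃ s t : Perm α,
        s * s = 1 ∧ t * t = 1 ∧ p = s * t ∧ s a = a ∧ (∀ x, p x = x → s x = x ∧ t x = x) ∧
        s.support.card ≤ t.support.card ∧ t.support.card ≤ s.support.card + 2 ∧
        (p ≠ 1 → s.support.card + t.support.card + 2 ≤ 2 * p.support.card) := by
      intro a ha
      set b := p⁻¹ a with hb
      have hpb : p b = a := by simp [hb]
      have hab : a ≠ b := fun h => ha (by rw [← h] at hpb; exact hpb)
      have hfix : ∀ x, p x = x ∨ x = a → (p * swap a b)⁻¹ x = x := by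
        intro x hx
        rw [Perm.inv_eq_iff_eq, Perm.mul_apply]
        rcases hx with hx | rfl
        · have h2 : x ≠ a := fun h => ha (h ▸ hx)
          have h3 : x ≠ b := fun h => hab (by rw [← hpb, ← h, hx])
          rw [swap_apply_of_ne_of_ne h2 h3, hx]
        · rw [swap_apply_left, hpb]
      have hsub : (p * swap a b)⁻¹.support ⊆ p.support.erase a := by
        intro x hx
        rw [mem_support] at hx
        rw [Finset.mem_erase, mem_support]
        exact ⟨fun h => hx (hfix x (Or.inr h)), fun h => hx (hfix x (Or.inl h))⟩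
      have hc := Finset.card_le_card hsub
      rw [Finset.card_erase_of_mem (mem_support.2 ha)] at hc
      have h2 : 2 ≤ p.support.card := two_le_card_support_of_ne_one h1
      obtain ⟨s, t, hs, ht, e, hsb, hf, c1, c2, c3⟩ := ih (p * swap a b)⁻¹ (by omega) b
      have hsa : s a = a := (hf a (hfix a (Or.inr rfl))).1
      have hd : Perm.Disjoint s (swap a b) := fun x => by
        by_cases h3 : x = a
        · left; rw [h3, hsa]
        by_cases h4 : x = b
        · left; rw [h4, hsb]
        right; exact swap_apply_of_ne_of_ne h3 h4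
      have hcs : (s * swap a b).support.card = s.support.card + 2 := by
        rw [hd.card_support_mul, card_support_swap hab]
      refine ⟨t, s * swap a b, ht, ?_, ?_, (hf a (hfix a (Or.inr rfl))).2, fun x hx => ?_,
        by omega, by omega, fun _ => ?_⟩
      · rw [mul_assoc, ← mul_assoc (swap a b), ← hd.commute.eq, mul_assoc, swap_mul_self, mul_one, hs]
      · have e2 : p * swap a b = t * s := by
          rw [← inv_inv (p * swap a b), e, mul_inv_rev, inv_eq_of_mul_eq_one_right hs,
            inv_eq_of_mul_eq_one_right ht]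
        rw [← mul_assoc, ← e2, mul_assoc, swap_mul_self, mul_one]
      · have h3 := hf x (hfix x (Or.inl hx))
        have h4 : x ≠ a := fun h => ha (h ▸ hx)
        have h5 : x ≠ b := fun h => hab (by rw [← hpb, ← h, hx])
        exact ⟨h3.2, by rw [Perm.mul_apply, swap_apply_of_ne_of_ne h4 h5, h3.1]⟩
      · by_cases h3 : (p * swap a b)⁻¹ = 1
        · have h4 : s = 1 := Equiv.ext fun x => (hf x (by rw [h3]; rfl)).1
          have h5 : t = 1 := Equiv.ext fun x => (hf x (by rw [h3]; rfl)).2
          rw [hcs, h4, h5]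
          simp only [support_one, Finset.card_empty]
          omega
        · have := c3 h3
          omega
    by_cases ha : p a0 = a0
    · obtain ⟨a, ha'⟩ : ∃ a, p a ≠ a := by
        by_contra h
        push Not at h
        exact h1 (Equiv.ext h)
      obtain ⟨s, t, hs, ht, e, -, hf, c⟩ := key a ha'
      exact ⟨s, t, hs, ht, e, (hf a0 ha).1, hf, c⟩
    · exact key a0 ha

theorem invol_type {s : Perm α} (hs : s * s = 1) : ∃ m, s.cycleType = Multiset.replicate m 2 ∧
    s.support.card = 2 * m ∧ sign s = (-1) ^ m := by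
  have h := cycleType_of_pow_prime_eq_one (σ := s) (p := 2) (by rw [sq, hs])
  refine ⟨_, h, ?_, ?_⟩
  · rw [← sum_cycleType]
    conv_lhs => rw [h]
    simp [mul_comm]
  · rw [sign_of_cycleType]
    conv_lhs => rw [h]
    simp [pow_add, mul_comm _ 2, pow_mul]

theorem type_eq {s t : Perm α} (hs : s * s = 1) (ht : t * t = 1)
    (h : s.support.card = t.support.card) : s.cycleType = t.cycleType := by
  obtain ⟨m, h1, h2, -⟩ := invol_type hs
  obtain ⟨k, h3, h4, -⟩ := invol_type ht
  rw [h1, h3, show m = k by omega]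

theorem ext4 {f g : Perm α} (a b c d : α) (ha : f a = g a) (hb : f b = g b) (hc : f c = g c)
    (hd : f d = g d) (ho : ∀ z, z ≠ a → z ≠ b → z ≠ c → z ≠ d → f z = g z) : f = g := by
  ext z
  by_cases h1 : z = a
  · rw [h1, ha]
  by_cases h2 : z = b
  · rw [h2, hb]
  by_cases h3 : z = c
  · rw [h3, hc]
  by_cases h4 : z = d
  · rw [h4, hd]
  exact ho z h1 h2 h3 h4

/-- `x` contains two transpositions as cycles. -/
def Good (x : Perm α) : Prop :=
  ∃ a b c d : α, [a, b, c, d].Nodup ∧ x a = b ∧ x b = a ∧ x c = d ∧ x d = c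

theorem good_of_invol {s : Perm α} (hs : s * s = 1) (h1 : s ≠ 1) (h2 : sign s = 1) :
    ∃ a b c d : α, [a, b, c, d].Nodup ∧ s a = b ∧ s b = a ∧ s c = d ∧ s d = c := by
  have hss : ∀ x, s (s x) = x := fun x => by rw [← Perm.mul_apply, hs]; rfl
  obtain ⟨a, ha⟩ : ∃ a, s a ≠ a := by
    by_contra h
    push Not at h
    exact h1 (Equiv.ext h)
  obtain ⟨c, hc⟩ : ∃ c, c ≠ a ∧ c ≠ s a ∧ s c ≠ c := by
    by_contra h
    push Not at h
    have : s = swap a (s a) := Equiv.ext fun x => by
      by_cases h3 : x = a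
      · rw [h3, swap_apply_left]
      by_cases h4 : x = s a
      · rw [h4, swap_apply_right, hss]
      rw [swap_apply_of_ne_of_ne h3 h4, h x h3 h4]
    rw [this, sign_swap ha.symm] at h2
    exact absurd h2 (by decide)
  refine ⟨a, s a, c, s c, ?_, rfl, hss a, rfl, hss c⟩
  have h3 : s c ≠ a := fun h => hc.2.1 (by rw [← h, hss])
  have h4 : s c ≠ s a := fun h => hc.1 (s.injective h)
  simp [ha.symm, hc.1.symm, hc.2.1.symm, hc.2.2.symm, h3.symm, h4.symm]

/-- The goal shape. -/
def Fac (p : Perm α) : Prop :=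
  ∃ x y : Perm α, p = x * y ∧ IsConj x⁻¹ y ∧ sign x = 1 ∧ Good x

theorem fac_dbl {a b c d a' b' c' d' : α} (h : [a, b, c, d].Nodup) (h' : [a', b', c', d'].Nodup) :
    Fac ((swap a b * swap c d) * (swap a' b' * swap c' d')) := by
  have sq : ∀ {a b c d : α}, [a, b, c, d].Nodup →
      (swap a b * swap c d) * (swap a b * swap c d) = 1 ∧ (swap a b * swap c d).support.card = 4 := by
    intro a b c d h
    have hd := disjoint_swap_swap h
    simp only [List.nodup_cons, List.mem_cons, not_or] at h
    refine ⟨?_, by rw [hd.card_support_mul, card_support_swap h.1.1, card_support_swap h.2.2.1.1]⟩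
    rw [mul_assoc, ← mul_assoc (swap c d), ← hd.commute.eq, mul_assoc, swap_mul_self, mul_one,
      swap_mul_self]
  refine ⟨_, _, rfl, ?_, ?_, a, b, c, d, h, ?_⟩
  · rw [inv_eq_of_mul_eq_one_right (sq h).1, isConj_iff_cycleType_eq]
    exact type_eq (sq h).1 (sq h').1 ((sq h).2.trans (sq h').2.symm)
  · simp only [List.nodup_cons, List.mem_cons, not_or] at h
    simp [h.1.1, h.2.2.1.1]
  · simp only [List.nodup_cons, List.mem_cons, not_or] at h
    simp only [Perm.mul_apply, swap_apply_def]
    grind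

theorem exists_two (hn : 5 ≤ Fintype.card α) (a b c : α) :
    ∃ d e, d ≠ e ∧ d ∉ ({a, b, c} : Finset α) ∧ e ∉ ({a, b, c} : Finset α) := by
  have h : 1 < (({a, b, c} : Finset α)ᶜ).card := by
    rw [Finset.card_compl]
    have := Finset.card_le_three (a := a) (b := b) (c := c)
    omega
  obtain ⟨d, hd, e, he, hde⟩ := Finset.one_lt_card.1 h
  exact ⟨d, e, hde, Finset.mem_compl.1 hd, Finset.mem_compl.1 he⟩

theorem split_invol {s : Perm α} (hs : s * s = 1) {b : α} (hb : s b ≠ b) :
    ∃ s' : Perm α, s' * s' = 1 ∧ s = swap b (s b) * s' ∧ s' b = b ∧ s' (s b) = s b ∧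
      (∀ x, s x = x → s' x = x) ∧ s.support.card = s'.support.card + 2 := by
  have hss : ∀ x, s (s x) = x := fun x => by rw [← Perm.mul_apply, hs]; rfl
  have h1 : (swap b (s b) * s) b = b := by simp
  have h2 : (swap b (s b) * s) (s b) = s b := by simp [hss]
  have hd : Perm.Disjoint (swap b (s b)) (swap b (s b) * s) := fun x => by
    by_cases h3 : x = b
    · right; rw [h3, h1]
    by_cases h4 : x = s b
    · right; rw [h4, h2]
    left; exact swap_apply_of_ne_of_ne h3 h4
  have e : s = swap b (s b) * (swap b (s b) * s) := by rw [← mul_assoc, swap_mul_self, one_mul]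
  refine ⟨swap b (s b) * s, ?_, e, h1, h2, fun x hx => ?_, ?_⟩
  · have h3 := hd.commute.eq
    rw [← e] at h3
    calc swap b (s b) * s * (swap b (s b) * s) = (swap b (s b) * s * swap b (s b)) * s := by
          simp only [mul_assoc]
      _ = 1 := by rw [← h3, hs]
  · have h3 : x ≠ b := fun h => hb (h ▸ hx)
    have h4 : x ≠ s b := fun h => h3 (s.injective (by rw [hx, h]))
    rw [Perm.mul_apply, hx, swap_apply_of_ne_of_ne h3 h4]
  · conv_lhs => rw [e]
    rw [hd.card_support_mul, card_support_swap hb.symm, add_comm]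

theorem fac (hn : 5 ≤ Fintype.card α) {p : Perm α} (hp : sign p = 1) : Fac p := by
  obtain ⟨a0⟩ : Nonempty α := Fintype.card_pos_iff.1 (by omega)
  by_cases h1 : p = 1
  · obtain ⟨b0, c0, h2, h3, h4⟩ := exists_two hn a0 a0 a0
    obtain ⟨d, e, h5, h6, h7⟩ := exists_two hn a0 b0 b0
    have h : [a0, b0, d, e].Nodup := by
      simp only [Finset.mem_insert, Finset.mem_singleton, not_or] at h3 h6 h7
      simp only [List.nodup_cons, List.mem_cons, not_or]
      grind
    have := fac_dbl h h
    have hd := disjoint_swap_swap h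
    rwa [mul_assoc, ← mul_assoc (swap d e), ← hd.commute.eq, mul_assoc, swap_mul_self, mul_one,
      swap_mul_self, ← h1] at this
  obtain ⟨s, t, hs, ht, e, -, hf, c1, c2, c3⟩ := invols _ p le_rfl a0
  have c4 := c3 h1
  obtain ⟨m, -, m1, m2⟩ := invol_type hs
  obtain ⟨k, -, k1, k2⟩ := invol_type ht
  have hmk : m = k := by
    have h2 : k = m ∨ k = m + 1 := by omega
    rcases h2 with h2 | h2
    · exact h2.symm
    · rw [e, map_mul, m2, k2, h2, pow_succ, ← mul_assoc, ← mul_pow] at hp
      simp at hp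
  have hc : s.support.card = t.support.card := by rw [m1, k1, hmk]
  rcases Int.units_eq_one_or (sign s) with h2 | h2
  · refine ⟨s, t, e, ?_, h2, good_of_invol hs ?_ h2⟩
    · rw [inv_eq_of_mul_eq_one_right hs, isConj_iff_cycleType_eq]
      exact type_eq hs ht hc
    · rintro rfl
      have : t = 1 := by simpa using hc.symm
      exact h1 (by rw [e, this, mul_one])
  have hne : ∀ {s t : Perm α}, s.support.card = t.support.card → (p = s * t ∨ p = t * s) →
      s.support.card + t.support.card + 2 ≤ 2 * p.support.card → ∃ a, s a = a ∧ t a ≠ a := by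
    intro s t hc e c4
    by_contra h
    push Not at h
    have h3 : t.support ⊆ s.support := fun x hx => by
      rw [mem_support] at hx ⊢
      exact fun h' => hx (h x h')
    have h4 : p.support ⊆ s.support := fun x hx => by
      rw [mem_support] at hx ⊢
      intro h'
      apply hx
      rcases e with e | e <;> rw [e, Perm.mul_apply]
      · rw [h x h', h']
      · rw [h', h x h']
    have := Finset.card_le_card h4
    omega
  obtain ⟨a, ha, ha'⟩ := hne hc (Or.inl e) c4
  obtain ⟨b, hb, hb'⟩ := hne hc.symm (Or.inr e) (by omega)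
  obtain ⟨s', s1, s2, s3, s4, s5, s6⟩ := split_invol hs hb'
  obtain ⟨t', t1, t2, t3, t4, t5, t6⟩ := split_invol ht ha'
  have hab : a ≠ b := fun h => ha' (by rw [h, hb])
  have hab' : a ≠ s b := fun h => hab (s.injective (by rw [ha, h]))
  have hba' : b ≠ t a := fun h => hab (t.injective (by rw [hb, h]))
  by_cases h3 : s' = 1
  · have h4 : t' = 1 := by
      rw [h3] at s6
      simp only [support_one, Finset.card_empty] at s6
      rw [← card_support_eq_zero]
      omega
    rw [h3, mul_one] at s2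
    rw [h4, mul_one] at t2
    generalize s b = b' at *
    generalize t a = a' at *
    by_cases h5 : a' = b'
    · obtain ⟨d, f, h6, h7, h8⟩ := exists_two hn a b b'
      simp only [Finset.mem_insert, Finset.mem_singleton, not_or] at h7 h8
      have := fac_dbl (a := b) (b := b') (c := d) (d := f) (a' := d) (b' := f) (c' := a) (d' := a')
        (by simp only [List.nodup_cons, List.mem_cons, not_or]; grind)
        (by simp only [List.nodup_cons, List.mem_cons, not_or]; grind)
      rwa [mul_assoc, ← mul_assoc (swap d f), swap_mul_self, one_mul, ← s2, ← t2, ← e] at this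
    · have := fac_dbl (a := b) (b := a) (c := b') (d := a') (a' := b) (b' := a') (c' := b') (d' := a)
        (by simp only [List.nodup_cons, List.mem_cons, not_or]; grind)
        (by simp only [List.nodup_cons, List.mem_cons, not_or]; grind)
      convert this using 1
      rw [e, s2, t2]
      have h6 : a' ≠ b' := h5
      refine ext4 a b a' b' ?_ ?_ ?_ ?_ fun z z1 z2 z3 z4 => ?_ <;>
      simp [swap_apply_of_ne_of_ne, hab, hab.symm, hab', hab'.symm, hba', hba'.symm, h6, h6.symm,
        hb', hb'.symm, ha', ha'.symm, *]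
  · have h4 : sign s' = 1 := by
      rw [s2, map_mul, sign_swap hb'.symm] at h2
      simpa using h2
    have tri : ∀ {s s' : Perm α} {a b : α}, s' * s' = 1 → s = swap b (s b) * s' → s' b = b →
        s' (s b) = s b → s' a = a → a ≠ b → a ≠ s b → s b ≠ b →
        (swap a b * s).cycleType = {3} + s'.cycleType := by
      intro s s' a b s1 s2 s3 s4 s5 h1 h2 h3
      have hd : Perm.Disjoint (swap b a * swap b (s b)) s' := fun x => by
        by_cases h4 : x = a
        · right; rw [h4, s5]
        by_cases h5 : x = b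
        · right; rw [h5, s3]
        by_cases h6 : x = s b
        · right; rw [h6, s4]
        left
        rw [Perm.mul_apply, swap_apply_of_ne_of_ne h5 h6, swap_apply_of_ne_of_ne h5 h4]
      have := hd.cycleType_mul
      rw [(isThreeCycle_swap_mul_swap_same h1.symm h3.symm h2).cycleType, mul_assoc, ← s2,
        swap_comm] at this
      exact this
    refine ⟨s * swap a b, swap a b * t, by rw [mul_assoc, ← mul_assoc (swap a b), swap_mul_self,
      one_mul, e], ?_, by rw [map_mul, h2, sign_swap hab]; simp, ?_⟩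
    · rw [mul_inv_rev, swap_inv, inv_eq_of_mul_eq_one_right hs, isConj_iff_cycleType_eq,
        tri s1 s2 s3 s4 (s5 a ha) hab hab' hb', swap_comm,
        tri t1 t2 t3 t4 (t5 b hb) hab.symm hba' ha', type_eq s1 t1 (by omega)]
    · obtain ⟨x, y, z, w, h5, e1, e2, e3, e4⟩ := good_of_invol s1 h3 h4
      have ag : ∀ u, s' u ≠ u → (s * swap a b) u = s' u := by
        intro u hu
        have h6 : u ≠ a := fun h => hu (by rw [h, s5 a ha])
        have h7 : u ≠ b := fun h => hu (by rw [h, s3])
        have h8 : s' u ≠ b := fun h => h7 (s'.injective (by rw [h, s3]))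
        have h9 : s' u ≠ s b := fun h => hu (by
          have : u = s b := s'.injective (by rw [h, s4])
          rw [h, this])
        rw [Perm.mul_apply, swap_apply_of_ne_of_ne h6 h7]
        conv_lhs => rw [s2]
        rw [Perm.mul_apply, swap_apply_of_ne_of_ne h8 h9]
      have h6 := h5
      simp only [List.nodup_cons, List.mem_cons, not_or] at h6
      refine ⟨x, y, z, w, h5, ?_, ?_, ?_, ?_⟩
      · rw [ag x (by rw [e1]; exact Ne.symm h6.1.1), e1]
      · rw [ag y (by rw [e2]; exact h6.1.1), e2]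
      · rw [ag z (by rw [e3]; exact Ne.symm h6.2.2.1.1), e3]
      · rw [ag w (by rw [e4]; exact h6.2.2.1.1), e4]

theorem conj_alt {x y : alternatingGroup α} (h : IsConj x.1 y.1) {a b : α} (hab : a ≠ b)
    (hc : swap a b * x.1 = x.1 * swap a b) : ∃ u : alternatingGroup α, u * x * u⁻¹ = y := by
  obtain ⟨π, hπ⟩ := isConj_iff.1 h
  rcases Int.units_eq_one_or (Perm.sign π) with h4 | h4
  · exact ⟨⟨π, h4⟩, Subtype.ext hπ⟩
  · refine ⟨⟨π * swap a b, Perm.mem_alternatingGroup.2 (by simp [h4, hab])⟩, Subtype.ext ?_⟩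
    change π * swap a b * x.1 * (π * swap a b)⁻¹ = y.1
    rw [← hπ, mul_assoc π, hc]
    simp [mul_assoc]

/-- The double transposition as an element of the alternating group. -/
def dbl {a b c d : α} (h : [a, b, c, d].Nodup) : alternatingGroup α :=
  ⟨swap a b * swap c d, by
    simp only [List.nodup_cons, List.mem_cons, not_or] at h
    exact Perm.mem_alternatingGroup.2 (by simp [h.1.1, h.2.2.1.1])⟩

theorem dbl_sq {a b c d : α} (h : [a, b, c, d].Nodup) : (dbl h).1 * (dbl h).1 = 1 ∧
    (dbl h).1.support.card = 4 := by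
  have hd := disjoint_swap_swap h
  simp only [List.nodup_cons, List.mem_cons, not_or] at h
  refine ⟨?_, by
    change (swap a b * swap c d).support.card = 4
    rw [hd.card_support_mul, card_support_swap h.1.1, card_support_swap h.2.2.1.1]⟩
  change swap a b * swap c d * (swap a b * swap c d) = 1
  rw [mul_assoc, ← mul_assoc (swap c d), ← hd.commute.eq, mul_assoc, swap_mul_self, mul_one,
    swap_mul_self]

theorem dbl_conj {a b c d a' b' c' d' : α} (h : [a, b, c, d].Nodup) (h' : [a', b', c', d'].Nodup) :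
    ∃ u : alternatingGroup α, u * dbl h * u⁻¹ = dbl h' := by
  have hd := disjoint_swap_swap h
  have h1 := h
  simp only [List.nodup_cons, List.mem_cons, not_or] at h1
  refine conj_alt (isConj_iff_cycleType_eq.2 (type_eq (dbl_sq h).1 (dbl_sq h').1
    ((dbl_sq h).2.trans (dbl_sq h').2.symm))) h1.1.1 ?_
  change swap a b * (swap a b * swap c d) = swap a b * swap c d * swap a b
  rw [mul_assoc, ← hd.commute.eq]

variable {X : Type*} [Group X] {σ : X →* alternatingGroup α}

theorem sq_eq (hσ : CExt σ) (hk : ∀ k, σ k = 1 → k ^ 2 = 1) {a b c d a' b' c' d' : α}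
    (h : [a, b, c, d].Nodup) (h' : [a', b', c', d'].Nodup) {x y : X} (hx : σ x = dbl h)
    (hy : σ y = dbl h') : y ^ 2 = x ^ 2 := by
  obtain ⟨u, hu⟩ := dbl_conj h h'
  obtain ⟨u, rfl⟩ := hσ.surj u
  obtain ⟨w, hw, hw1, e⟩ := exists_central_of_map_eq hσ.cent (a := u * x * u⁻¹) (a' := y)
    (by rw [map_mul, map_mul, map_inv, hx, hu, hy])
  have h2 : x ^ 2 ∈ center X := hσ.cent (by
    rw [MonoidHom.mem_ker, map_pow, hx, sq]
    exact Subtype.ext (dbl_sq h).1)
  rw [e, Commute.mul_pow (mem_center_iff.1 hw _), conj_pow, hk w hw1, mul_one,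
    mem_center_iff.1 h2, mul_inv_cancel_right]

theorem sect (hσ : CExt σ) (hk : ∀ k, σ k = 1 → k ^ 2 = 1) {a b c d : α}
    (h : [a, b, c, d].Nodup) {y : X} (hy : σ y = dbl h) (h2 : y ^ 2 = 1) :
    ∃ s : alternatingGroup α →* X, σ.comp s = MonoidHom.id _ := by
  have hab : a ≠ b := by
    simp only [List.nodup_cons, List.mem_cons, not_or] at h
    exact h.1.1
  choose l hl using fun c => hσ.surj (cyc hab c)
  have e₀ : ∀ c, σ (l c ^ 4) = cyc hab c := fun c => by
    rw [map_pow, hl, pow_succ, cyc_pow_three, one_mul]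
  obtain ⟨s, hs⟩ := exists_hom hab (fun c => l c ^ 4) (fun c => by
    have := hk (l c ^ 3) (by rw [map_pow, hl, cyc_pow_three])
    rw [← pow_mul] at this ⊢
    rw [show 4 * 3 = 3 * 2 * 2 from rfl, pow_mul, this, one_pow]) fun c' d' hcd => by
    have h' : [a, c'.1, b, d'.1].Nodup := by
      simp [hab, d'.2.1, c'.2.2.symm, Subtype.ext_iff.not.1 hcd, c'.2.1, d'.2.2]
    rw [sq_eq hσ hk h h' hy (by
      rw [map_mul, e₀, e₀]
      exact Subtype.ext (coe_cyc_mul hab c' d')), h2]
  refine ⟨s, MonoidHom.eq_of_eqOn_dense (closure_cyc hab) ?_⟩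
  rintro _ ⟨c, rfl⟩
  rw [MonoidHom.comp_apply, hs]
  exact e₀ c

theorem noncomm (hσ : CExt σ) (hk : ∀ k, σ k = 1 → k ^ 2 = 1)
    (hns : ¬ ∃ s : alternatingGroup α →* X, σ.comp s = MonoidHom.id _) {x : X}
    (hx : Good (σ x).1) : ∃ v : X, Commute (σ v) (σ x) ∧ ¬ Commute v x := by
  obtain ⟨a, b, c, d, h, e1, e2, e3, e4⟩ := hx
  have h0 := h
  simp only [List.nodup_cons, List.mem_cons, not_or] at h0
  have h1 : [a, c, b, d].Nodup := by simp only [List.nodup_cons, List.mem_cons, not_or]; grind
  have h2 : [a, d, b, c].Nodup := by simp only [List.nodup_cons, List.mem_cons, not_or]; grind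
  obtain ⟨u, hu⟩ := hσ.surj (dbl h)
  obtain ⟨t, ht⟩ := hσ.surj ⟨swap a b * swap a c, Perm.mem_alternatingGroup.2
    (by simp [h0.1.1, h0.1.2.1])⟩
  have hr : ∀ z, z = a ∨ z = b ∨ z = c ∨ z = d → (σ (u⁻¹ * x)).1 z = z := by
    intro z hz
    rw [map_mul, map_inv, hu, Subgroup.coe_mul, Subgroup.coe_inv, Perm.mul_apply,
      Perm.inv_eq_iff_eq]
    change _ = (swap a b * swap c d) z
    simp only [Perm.mul_apply, swap_apply_def]
    grind
  have hcm : ∀ y : X, (∀ z, z ≠ a → z ≠ b → z ≠ c → z ≠ d → (σ y).1 z = z) →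
      Commute (σ y) (σ (u⁻¹ * x)) := by
    intro y hy
    refine Subtype.ext (Perm.Disjoint.commute fun z => ?_).eq
    by_cases hz : z = a ∨ z = b ∨ z = c ∨ z = d
    · exact Or.inr (hr z hz)
    · push Not at hz
      exact Or.inl (hy z hz.1 hz.2.1 hz.2.2.1 hz.2.2.2)
  have hcu := hcm u (fun z z1 z2 z3 z4 => by
    rw [hu]
    change (swap a b * swap c d) z = z
    rw [Perm.mul_apply, swap_apply_of_ne_of_ne z3 z4, swap_apply_of_ne_of_ne z1 z2])
  have hct := hcm t (fun z z1 z2 z3 z4 => by
    rw [ht]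
    change (swap a b * swap a c) z = z
    rw [Perm.mul_apply, swap_apply_of_ne_of_ne z1 z3, swap_apply_of_ne_of_ne z1 z2])
  have hv := commute_comm_lift hσ hcu hct
  have hv1 : σ ⁅u, t⁆ = dbl h2 ∧ σ (⁅u, t⁆ * u) = dbl h1 ∧ σ (u * ⁅u, t⁆) = dbl h1 := by
    have n1 := h0.1.1
    have n2 := h0.1.2.1
    have n3 := h0.1.2.2.1
    have n4 := h0.2.1.1
    have n5 := h0.2.1.2.1
    have n6 := h0.2.2.1.1
    have k1 : σ ⁅u, t⁆ = dbl h2 := by
      simp only [map_mul, hu, ht, commutatorElement_def, map_inv]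
      refine Subtype.ext ?_
      simp only [dbl, Subgroup.coe_mul, Subgroup.coe_inv, mul_inv_rev, swap_inv]
      refine ext4 a b c d ?_ ?_ ?_ ?_ fun z z1 z2 z3 z4 => ?_ <;>
      simp [swap_apply_of_ne_of_ne, Ne.symm n1, Ne.symm n2, Ne.symm n3, Ne.symm n4, Ne.symm n5,
        Ne.symm n6, *]
    refine ⟨k1, ?_, ?_⟩ <;> rw [map_mul, k1, hu] <;> refine Subtype.ext ?_ <;>
      simp only [dbl, Subgroup.coe_mul] <;>
      refine ext4 a b c d ?_ ?_ ?_ ?_ fun z z1 z2 z3 z4 => ?_ <;>
      simp [swap_apply_of_ne_of_ne, Ne.symm n1, Ne.symm n2, Ne.symm n3, Ne.symm n4, Ne.symm n5,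
        Ne.symm n6, *]
  refine ⟨⁅u, t⁆, ?_, fun hc => hns ?_⟩
  · have h3 : Commute (σ ⁅u, t⁆) (σ u) := by
      change _ = _
      rw [← map_mul, ← map_mul, hv1.2.1, hv1.2.2]
    have := h3.mul_right (hv.map σ)
    rwa [← map_mul, mul_inv_cancel_left] at this
  · have h3 : Commute ⁅u, t⁆ u := by
      have := hc.mul_right hv.inv_right
      rwa [mul_inv_rev, inv_inv, mul_inv_cancel_left] at this
    have h4 := sq_eq hσ hk h h1 hu hv1.2.1
    rw [h3.mul_pow, sq_eq hσ hk h h2 hu hv1.1] at h4
    exact sect hσ hk h hu (mul_eq_left.1 h4)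

/-- Let n ≥ 5 and let G be a finite perfect group whose centre has order 2 with G/Z(G) isomorphic to the alternating group of degree n (the double cover of the alternating group). Then every element of G is a commutator. -/
theorem result {G : Type*} [Group G] [Finite G] (hperf : commutator G = ⊤) {n : ℕ} (hn : 5 ≤ n)
    (hZ : Nat.card (Subgroup.center G) = 2) (e : G ⧸ Subgroup.center G ≃* alternatingGroup (Fin n))
    (g : G) :
    ∃ a b : G, a * b * a⁻¹ * b⁻¹ = g := by
  open Subgroup H2.Schur in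
  let σ := e.toMonoidHom.comp (QuotientGroup.mk' (center G))
  have h3 : ∀ x, σ x = 1 ↔ x ∈ center G := fun x => by simp [σ]
  have hσ : H2.Schur.CExt σ := ⟨e.surjective.comp (QuotientGroup.mk'_surjective _), fun x => (h3 x).1⟩
  have hk : ∀ k, σ k = 1 → k ^ 2 = 1 := fun k hk =>
    orderOf_dvd_iff_pow_eq_one.1 (hZ ▸ (Subgroup.center G).orderOf_dvd_natCard ((h3 k).1 hk))
  obtain ⟨z, hz, hz'⟩ := (Nat.card_eq_two_iff' (1 : Subgroup.center G)).1 hZ
  have hns : ¬ ∃ s : alternatingGroup (Fin n) →* G, σ.comp s = MonoidHom.id _ := by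
    rintro ⟨s, hs⟩
    have h4 : ∀ g, σ (s g) = g := DFunLike.congr_fun hs
    have h5 : ∀ g, g * (s (σ g))⁻¹ ∈ Subgroup.center G := fun g => (h3 _).1 (by simp [h4])
    let χ : G →* Subgroup.center G := MonoidHom.mk' (fun g => ⟨_, h5 g⟩) fun a b => Subtype.ext (by
      change a * b * (s (σ (a * b)))⁻¹ = a * (s (σ a))⁻¹ * (b * (s (σ b))⁻¹)
      rw [mul_assoc a _ (b * _), Subgroup.mem_center_iff.1 (h5 b), map_mul, map_mul]
      group)
    have h8 : z.1 ∈ commutator G := by
      rw [hperf]; exact Subgroup.mem_top _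
    have h6 : z.1 ∈ χ.ker := by
      haveI : IsMulCommutative (Subgroup.center G) := inferInstance
      refine (Subgroup.commutator_le.2 (fun a _ b _ => ?_) : commutator G ≤ χ.ker) h8
      rw [MonoidHom.mem_ker, map_commutatorElement, commutatorElement_eq_one_iff_commute]
      exact Subtype.ext (Subgroup.mem_center_iff.1 (χ b).2 _)
    have h7 : z.1 * (s (σ z.1))⁻¹ = 1 := congrArg Subtype.val (MonoidHom.mem_ker.1 h6)
    rw [(h3 _).2 z.2, map_one, inv_one, mul_one] at h7
    exact hz (Subtype.ext h7)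
  obtain ⟨x, y, e1, e2, e3, e4⟩ := fac (α := Fin n) (by simpa) (p := (σ g).1) (σ g).2
  obtain ⟨X, hX⟩ := hσ.surj ⟨x, e3⟩
  have hx : (σ X).1 = x := by rw [hX]
  obtain ⟨v, hv1, hv2⟩ := noncomm hσ hk hns (x := X) (hx ▸ e4)
  obtain ⟨a, b, c, d, h, f1, f2, f3, f4⟩ := e4
  have hab : a ≠ b := by
    simp only [List.nodup_cons, List.mem_cons, not_or] at h
    exact h.1.1
  obtain ⟨k, hk'⟩ := conj_alt (x := σ X⁻¹) (y := σ (X⁻¹ * g)) (by
    rw [map_mul, map_inv, Subgroup.coe_mul, Subgroup.coe_inv, hx, e1, inv_mul_cancel_left]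
    exact e2) hab (by
    rw [map_inv, Subgroup.coe_inv, hx]
    refine (Commute.inv_right (Equiv.ext fun w => ?_)).eq
    have := x.injective
    simp only [Equiv.Perm.mul_apply, Equiv.swap_apply_def]
    grind)
  obtain ⟨k, rfl⟩ := hσ.surj k
  obtain ⟨w, hw, -, e5⟩ := H2.Schur.exists_central_of_map_eq hσ.cent (a := k * X⁻¹ * k⁻¹)
    (a' := X⁻¹ * g) (by rw [map_mul, map_mul, map_inv σ k, hk'])
  by_cases hw1 : w = 1
  · refine ⟨X, k, ?_⟩
    rw [hw1, mul_one, inv_mul_eq_iff_eq_mul] at e5
    rw [e5]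
    group
  · obtain ⟨w', hw', -, e6⟩ := H2.Schur.exists_central_of_map_eq hσ.cent (a := X⁻¹)
      (a' := v * X⁻¹ * v⁻¹) (by
        rw [map_mul, map_mul, map_inv, map_inv, hv1.inv_right.eq, mul_inv_cancel_right])
    have h4 : w' ≠ 1 := by
      rintro rfl
      apply hv2
      rw [mul_one, mul_inv_eq_iff_eq_mul] at e6
      exact Commute.inv_right_iff.1 (show Commute v X⁻¹ from e6)
    have h5 : w' = w := congrArg Subtype.val ((hz' ⟨w', hw'⟩ fun h => h4 (congrArg Subtype.val h)).trans
      (hz' ⟨w, hw⟩ fun h => hw1 (congrArg Subtype.val h)).symm)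
    refine ⟨X, k * v, ?_⟩
    rw [inv_mul_eq_iff_eq_mul] at e5
    rw [e5, mul_assoc (k * X⁻¹), Subgroup.mem_center_iff.1 hw, ← h5]
    calc X * (k * v) * X⁻¹ * (k * v)⁻¹ = X * k * (v * X⁻¹ * v⁻¹) * k⁻¹ := by group
      _ = _ := by rw [e6]; group

end Cfsg.Agent.S2493
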