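import Mathlib
import Cfsg.Statements.S2503
import Cfsg.Agent.Max.L2f

set_option autoImplicit false
open Cfsg

namespace Cfsg.Agent.S2503

open scoped Pointwise
open Cfsg.Agent.Max.L2 Cfsg.Agent.Classical.PSL2Basic Cfsg.Agent.Classical.P1Ident
  Cfsg.Agent.Classical.Congr Cfsg.Agent.Classical.P1

/-- Let F be a finite field with q = 2^t ≥ 4 elements and L = PSL(2,F). Then L has a cyclic subgroup A of order q + 1 and an elementary abelian 2-subgroup B of order q such that L = ABA: every element of L is a product a·b·a' with a, a' ∈ A and b ∈ B. -/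
theorem result {F : Type*} [Field F] [Fintype F]
    (h2 : 2 ∣ Fintype.card F) (h4 : 4 ≤ Fintype.card F) :
    ∃ A B : Subgroup (Matrix.ProjectiveSpecialLinearGroup (Fin 2) F),
      IsCyclic A ∧ Nat.card A = Fintype.card F + 1 ∧ IsMulCommutative B ∧ (∀ b ∈ B, b * b = 1) ∧
        Nat.card B = Fintype.card F ∧
        ∀ g : Matrix.ProjectiveSpecialLinearGroup (Fin 2) F, ∃ a ∈ A, ∃ b ∈ B, ∃ c ∈ A, g = a * b * c := by
  rw [← Nat.card_eq_fintype_card] at *
  have h2' : (2 : F) = 0 := even_card_iff.1 (even_iff_two_dvd.2 h2)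
  haveI : CharP F 2 := CharTwo.of_one_ne_zero_of_two_eq_zero one_ne_zero h2'
  haveI : Fact (Nat.Prime 2) := ⟨Nat.prime_two⟩
  obtain ⟨T, D, hT⟩ := exists_tor_plus F
  have hs := toP_surjective_iff.2 h2'
  have hA := map_comap_toP (X := T) (by simp [LL_eq_top h2'])
  have hB := map_comap_toP (UU_le_LL (1 : Matrix.ProjGenLinGroup (Fin 2) F))
  have eA := (eqvP _).trans (MulEquiv.subgroupCongr hA)
  have eB := (eqvP _).trans (MulEquiv.subgroupCongr hB)
  haveI := hT.cyc
  refine ⟨T.comap toP, (UU 1).comap toP, isCyclic_of_surjective _ eA.symm.surjective,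
    by rw [Nat.card_congr eA.toEquiv, hT.card],
    ⟨⟨fun a b => Subtype.ext (toP_injective (by
      simp only [Subgroup.coe_mul, map_mul]; exact UU_comm a.2 b.2))⟩⟩,
    fun b hb => toP_injective (by rw [map_mul, ← sq, map_one]; exact (mem_UU_iff.1 hb).2),
    by rw [Nat.card_congr eB.toEquiv, card_UU], fun g => ?_⟩
  suffices ∃ a ∈ T, ∃ b ∈ UU 1, ∃ c ∈ T, toP g = a * b * c by
    obtain ⟨a, ha, b, hb, c, hc, e⟩ := this
    obtain ⟨a, rfl⟩ := hs a
    obtain ⟨b, rfl⟩ := hs b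
    obtain ⟨c, rfl⟩ := hs c
    exact ⟨a, ha, b, hb, c, hc, toP_injective (by rw [e, map_mul, map_mul])⟩
  obtain ⟨a, ha, e⟩ := hT.trans ((toP g)⁻¹ • inf) inf
  obtain ⟨α, β, e'⟩ := exists_aff (g := toP g * a⁻¹) (by
    rw [mul_smul, ← eq_inv_smul_iff, inv_smul_eq_iff, e])
  obtain ⟨z, hz, ⟨t, n, hq⟩, hm⟩ := hT.nonsplit
  obtain ⟨b, hb⟩ := FiniteField.isSquare_of_char_two (ringChar.eq F 2)
    ((-(t - α * t - β) * β - (1 - α) * (n - α * n)) / α)
  have hb' : α * (b * b) = -(t - α * t - β) * β - (1 - α) * (n - α * n) := by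
    rw [← hb]; field_simp
  obtain ⟨c, d, hcd, e1, e2⟩ : ∃ c d : F, (c ≠ 0 ∨ d ≠ 0) ∧
      c * (t - α * t - α * b - β) + d * (1 - α) = 0 ∧
      c * (t * b + n - α * n - β * b) + d * (b - β) = 0 := by
    by_cases h : t - α * t - α * b - β = 0 ∧ (1 : F) - α = 0
    · obtain ⟨c, d, hcd, e⟩ := exists_ker (t * b + n - α * n - β * b) (b - β)
      exact ⟨c, d, hcd, by rw [h.1, h.2]; ring, by linear_combination e⟩
    · exact ⟨1 - α, -(t - α * t - α * b - β), by rw [neg_ne_zero]; tauto, by ring,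
        by linear_combination hb'⟩
  let a' := Matrix.ProjGenLinGroup.mk (mat (c * t + d) (c * n) c d (no_root' hz hq hcd))
  have ha' : a' ∈ T := (hm _).2 ((fix_quad hz hq _).2 (by simp))
  have h3 : io (a' * aff 1 b) • pt z = io (aff α β) • pt z := by
    rw [map_mul, mul_smul, map_aff, map_aff, aff_smul_pt, aff_smul_pt,
      Matrix.ProjGenLinGroup.map_mk, mk_smul, smul_pt_eq_pt_iff]
    have f1 := congrArg ib e1
    have f2 := congrArg ib e2
    simp only [map_add, map_sub, map_mul, map_one, map_zero] at f1 f2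
    simp [Matrix.GeneralLinearGroup.map_apply]
    linear_combination z * f1 + f2 - ib (α : F) * ib c * hq
  refine ⟨a', ha', aff 1 b, ⟨b, by simp⟩, (a' * aff 1 b)⁻¹ * aff α β * a, mul_mem ((hm _).2 ?_) ha,
    by rw [← e']; group⟩
  rw [map_mul, mul_smul, ← h3, map_inv, inv_smul_smul]

end Cfsg.Agent.S2503
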