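import Mathlib
import Cfsg.Statements.S2504
import Cfsg.Agent.FGS.SymAb

set_option autoImplicit false
open Cfsg

namespace Cfsg.Agent.S2504

open FGS in
theorem aux {n c : ℕ} (h : ExAb True n c) (h' : abA n = c) :
    IsGreatest {c : ℕ | ∃ A : Subgroup (alternatingGroup (Fin n)), IsMulCommutative A ∧ Nat.card A = c} c := by
  obtain ⟨A, hA, h, h1⟩ := h
  refine ⟨⟨A.subgroupOf _, inferInstance, (Core.card_subgroupOf_of_le (h1 trivial)).trans h⟩, ?_⟩
  rintro _ ⟨B, hB, rfl⟩
  have := card_le_abA (A := B.map (Subgroup.subtype _)) inferInstance (fun a _ => Finset.subset_univ a.support)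
    (Subgroup.map_subtype_le _)
  rwa [Core.card_map_subtype, Finset.card_univ, Fintype.card_fin, h'] at this

/-- The largest order of an abelian subgroup of the alternating group of degree n is 3^k when n = 3k, 4·3^(k−1) when n = 3k + 1, and 16·3^(k−2) when n = 3k + 2, for every k ≥ 2 (so for all degrees n ≥ 6). -/
theorem result (k : ℕ) (hk : 2 ≤ k) :
    IsGreatest {c : ℕ | ∃ A : Subgroup (alternatingGroup (Fin (3 * k))), IsMulCommutative A ∧ Nat.card A = c} (3 ^ k) ∧
    IsGreatest {c : ℕ | ∃ A : Subgroup (alternatingGroup (Fin (3 * k + 1))), IsMulCommutative A ∧ Nat.card A = c}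
      (4 * 3 ^ (k - 1)) ∧
    IsGreatest {c : ℕ | ∃ A : Subgroup (alternatingGroup (Fin (3 * k + 2))), IsMulCommutative A ∧ Nat.card A = c}
      (16 * 3 ^ (k - 2)) := by
  obtain ⟨k, rfl⟩ := Nat.exists_eq_add_of_le' hk
  refine ⟨aux (.three _ _) (FGS.abA_eq k).1, aux ?_ (FGS.abA_eq k).2.1, aux ?_ (FGS.abA_eq k).2.2⟩
  · exact mul_comm _ 4 ▸ (FGS.ExAb.three _ (k + 1)).add (.four _)
  · exact mul_comm _ 16 ▸ (FGS.ExAb.three _ k).add ((FGS.ExAb.four _).add (.four _))

end Cfsg.Agent.S2504
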