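import Mathlib
import Cfsg.Statements.S2505
import Cfsg.Agent.FGS.SymAb

set_option autoImplicit false
open Cfsg

namespace Cfsg.Agent.S2505

open FGS in
theorem aux {n c : ℕ} (h : ExAb False n c) (h' : abS n = c) :
    IsGreatest {c : ℕ | ∃ A : Subgroup (Equiv.Perm (Fin n)), IsMulCommutative A ∧ Nat.card A = c} c := by
  obtain ⟨A, hA, h, -⟩ := h
  refine ⟨⟨A, hA, h⟩, ?_⟩
  rintro _ ⟨B, hB, rfl⟩
  simpa [h'] using card_le_abS hB fun a _ => Finset.subset_univ a.support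

/-- The largest order of an abelian subgroup of the symmetric group of degree n is 3^k when n = 3k, 4·3^(k−1) when n = 3k + 1, and 2·3^k when n = 3k + 2, for every k ≥ 1. -/
theorem result (k : ℕ) (hk : 1 ≤ k) :
    IsGreatest {c : ℕ | ∃ A : Subgroup (Equiv.Perm (Fin (3 * k))), IsMulCommutative A ∧ Nat.card A = c} (3 ^ k) ∧
    IsGreatest {c : ℕ | ∃ A : Subgroup (Equiv.Perm (Fin (3 * k + 1))), IsMulCommutative A ∧ Nat.card A = c}
      (4 * 3 ^ (k - 1)) ∧
    IsGreatest {c : ℕ | ∃ A : Subgroup (Equiv.Perm (Fin (3 * k + 2))), IsMulCommutative A ∧ Nat.card A = c}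
      (2 * 3 ^ k) := by
  obtain ⟨k, rfl⟩ := Nat.exists_eq_add_of_le' hk
  refine ⟨aux (.three _ _) (FGS.abS_eq k).1, aux ?_ (FGS.abS_eq k).2.1, aux ?_ (FGS.abS_eq k).2.2⟩
  · exact mul_comm _ 4 ▸ (FGS.ExAb.three _ k).add (.four _)
  · haveI := isCyclic_of_prime_card (α := (⊤ : Subgroup (Equiv.Perm (Fin 2)))) (p := 2) (by simp [Fintype.card_perm])
    exact mul_comm _ 2 ▸ (FGS.ExAb.three _ _).add ⟨⊤, inferInstance, by simp [Fintype.card_perm], False.elim⟩

end Cfsg.Agent.S2505
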