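import Cfsg.Statements.S2506
import Cfsg.Agent.Mix26.AbAlt
-- import your own Cfsg.Agent.* helpers here

set_option autoImplicit false
open scoped Pointwise
open Cfsg

namespace Cfsg.Agent.S2506

open Cfsg.Agent.Mix26


/-- In the alternating group of any degree, any two abelian subgroups of the largest possible order (among abelian subgroups) are conjugate. -/
theorem result (n : ℕ)
    (A B : Subgroup (alternatingGroup (Fin n))) (hA : IsMulCommutative A) (hB : IsMulCommutative B)
    (hAmax : ∀ C : Subgroup (alternatingGroup (Fin n)), IsMulCommutative C → Nat.card C ≤ Nat.card A)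
    (hBmax : ∀ C : Subgroup (alternatingGroup (Fin n)), IsMulCommutative C → Nat.card C ≤ Nat.card B) :
    ∃ g : alternatingGroup (Fin n), B = MulAut.conj g • A := by
  have up : ∀ C : Subgroup (alternatingGroup (Fin n)), IsMulCommutative C →
      Nat.card C ≤ FGS.abA n := fun C hC => by
    have := FGS.card_le_abA (A := C.map (Subgroup.subtype _)) inferInstance
      (fun a _ => Finset.subset_univ a.support) (Subgroup.map_subtype_le _)
    rwa [Core.card_map_subtype, Finset.card_univ, Fintype.card_fin] at this
  by_cases h5 : n = 5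
  · subst h5
    haveI : Fact (Nat.Prime 5) := ⟨by norm_num⟩
    have hc : Nat.card (alternatingGroup (Fin 5)) = 60 := by
      rw [nat_card_alternatingGroup]; simp; rfl
    have hf : (Nat.card (alternatingGroup (Fin 5))).factorization 5 = 1 := by
      rw [hc, Nat.factorization_def _ (by norm_num)]; decide +kernel
    obtain ⟨P⟩ : Nonempty (Sylow 5 (alternatingGroup (Fin 5))) := inferInstance
    have hP : Nat.card P = 5 := by rw [P.card_eq_multiplicity, hf]; rfl
    haveI := isCyclic_of_prime_card hP
    have a := le_antisymm (up A hA) (hP.ge.trans (hAmax P inferInstance))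
    have b := le_antisymm (up B hB) (hP.ge.trans (hBmax P inferInstance))
    obtain ⟨g, hg⟩ := MulAction.exists_smul_eq (alternatingGroup (Fin 5))
      (Sylow.ofCard A (p := 5) (by rw [a, hf]; rfl)) (Sylow.ofCard B (by rw [b, hf]; rfl))
    exact ⟨g, (congrArg Sylow.toSubgroup hg).symm⟩
  obtain ⟨C, hC, h, h1⟩ := exAb n h5
  have ex : ∀ D : Subgroup (alternatingGroup (Fin n)), IsMulCommutative D →
      (∀ C : Subgroup (alternatingGroup (Fin n)), IsMulCommutative C → Nat.card C ≤ Nat.card D) →
      Ext (D.map (Subgroup.subtype _)) Finset.univ := fun D hD hm =>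
    ⟨inferInstance, fun a _ => Finset.subset_univ _, Subgroup.map_subtype_le _, by
      rw [Core.card_map_subtype, Finset.card_univ, Fintype.card_fin]
      refine le_antisymm (up D hD) ?_
      rw [← h, ← Core.card_subgroupOf_of_le (h1 trivial)]
      exact hm _ inferInstance⟩
  obtain ⟨g, hg, e⟩ := (ex A hA hAmax).exists_conj_even (ex B hB hBmax) (by simpa)
  refine ⟨⟨g, hg⟩, Subgroup.ext fun x => ?_⟩
  have e1 : x ∈ B ↔ x.1 ∈ B.map (Subgroup.subtype _) :=
    (Subgroup.mem_map_iff_mem Subtype.val_injective).symm
  rw [e1, e, mem_cj, Subgroup.mem_pointwise_smul_iff_inv_smul_mem,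
    ← Subgroup.mem_map_iff_mem (f := Subgroup.subtype _) Subtype.val_injective]
  simp

end Cfsg.Agent.S2506
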