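import Mathlib
import Cfsg.Statements.S2510
import Cfsg.Agent.Spec.Absorb
import Cfsg.Agent.Spec.Lin2
-- import your own Cfsg.Agent.* helpers here

set_option autoImplicit false
open Cfsg

namespace Cfsg.Agent.S2510

/-- Let F be a finite field with q = p^a elements, n ≥ 2 (with q ≥ 4 when n = 2), L = PSL(n, F), and let r be a prime dividing q − 1 and not dividing n. Then for every m the direct product L × L × L × (ℤ/r)^m has the same set of element orders as L × L × L; and if n − 1 ≠ p^j for every j ≥ 0 (so never when n = 2, since 1 = p^0), then already L × L × (ℤ/r)^m has the same set of element orders as L × L. -/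
theorem result {F : Type*} [Field F] [Fintype F] (p a n r m : ℕ) (hp : p.Prime) (ha : 1 ≤ a) (hF : Fintype.card F = p ^ a)
    (hn : 2 ≤ n) (hn2 : n = 2 → 4 ≤ Fintype.card F) (hr : r.Prime) (hrq : r ∣ Fintype.card F - 1) (hrn : ¬ r ∣ n) :
    Set.range (orderOf : Matrix.ProjectiveSpecialLinearGroup (Fin n) F × Matrix.ProjectiveSpecialLinearGroup (Fin n) F × Matrix.ProjectiveSpecialLinearGroup (Fin n) F × Multiplicative (Fin m → ZMod r) → ℕ) =
      Set.range (orderOf : Matrix.ProjectiveSpecialLinearGroup (Fin n) F × Matrix.ProjectiveSpecialLinearGroup (Fin n) F × Matrix.ProjectiveSpecialLinearGroup (Fin n) F → ℕ) ∧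
    ((¬ ∃ j : ℕ, n - 1 = p ^ j) →
      Set.range (orderOf : Matrix.ProjectiveSpecialLinearGroup (Fin n) F × Matrix.ProjectiveSpecialLinearGroup (Fin n) F × Multiplicative (Fin m → ZMod r) → ℕ) =
        Set.range (orderOf : Matrix.ProjectiveSpecialLinearGroup (Fin n) F × Matrix.ProjectiveSpecialLinearGroup (Fin n) F → ℕ)) := by
  have := Fact.mk hp
  have : CharP F p := charP_of_card_eq_prime_pow hF
  rw [← Nat.card_eq_fintype_card] at hrq
  have hr' : r ∈ Spec.spec (Matrix.ProjectiveSpecialLinearGroup (Fin n) F) := by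
    refine Spec.block_mem p (d := 1) (e := n - 1) one_pos (by omega) (by omega) fun m h _ => ?_
    refine dvd_trans ?_ h
    rw [pow_one]
    have hc : r.Coprime (Nat.gcd n (Nat.card F - 1)) :=
      (Nat.Prime.coprime_iff_not_dvd hr).mpr fun h => hrn (h.trans (Nat.gcd_dvd_left _ _))
    refine hc.dvd_of_dvd_mul_right ?_
    rwa [Nat.div_mul_cancel (Nat.gcd_dvd_right _ _)]
  refine ⟨Spec.absorb_three (Spec.zmod_pi_pow m r) hr' (Spec.singer_mem p (by omega))
    (Spec.unip_mem p (by omega)) fun x hx => ?_, fun hj => Spec.absorb_two (Spec.zmod_pi_pow m r) hr'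
      (Spec.singer_mem p (by omega)) fun x hx => ?_⟩
  · exact (Spec.psl_tri p hn hr hrq hrn x hx).imp id (Or.imp id And.left)
  · exact (Spec.psl_tri p hn hr hrq hrn x hx).imp id fun h => h.resolve_right fun h => hj h.2

end Cfsg.Agent.S2510
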