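import Mathlib
import Cfsg.Statements.S2511
import Cfsg.Agent.Spc.Tri
-- import your own Cfsg.Agent.* helpers here

set_option autoImplicit false
open Cfsg

namespace Cfsg.Agent.S2511

open Cfsg.Agent.Spc Cfsg.Agent.Conj Module

/-- Let F be a finite field with q² elements, q = p^a, n ≥ 3 with (n, q) ≠ (3, 2), L = PSU(n, q) realised over F, and let r be a prime dividing q + 1 and not dividing n. Then for every m the direct product L × L × L × (ℤ/r)^m has the same set of element orders as L × L × L; and if n − 1 is not a power of p, then already L × L × (ℤ/r)^m has the same set of element orders as L × L. -/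
theorem result {F : Type*} [Field F] [Fintype F] (p a n q r m : ℕ) (hp : p.Prime) (ha : 1 ≤ a) (hq : q = p ^ a) (hF : Fintype.card F = q ^ 2)
    (hn : 3 ≤ n) (hn3 : ¬ (n = 3 ∧ q = 2)) (hr : r.Prime) (hrq : r ∣ q + 1) (hrn : ¬ r ∣ n) :
    Set.range (orderOf : Cfsg.PSU n F q × Cfsg.PSU n F q × Cfsg.PSU n F q × Multiplicative (Fin m → ZMod r) → ℕ) = Set.range (orderOf : Cfsg.PSU n F q × Cfsg.PSU n F q × Cfsg.PSU n F q → ℕ) ∧
    ((¬ ∃ j : ℕ, n - 1 = p ^ j) →
      Set.range (orderOf : Cfsg.PSU n F q × Cfsg.PSU n F q × Multiplicative (Fin m → ZMod r) → ℕ) = Set.range (orderOf : Cfsg.PSU n F q × Cfsg.PSU n F q → ℕ)) := by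
  haveI := Fact.mk hp
  haveI : CharP F p := charP_of_card_eq_prime_pow (f := a * 2) (by rw [hF, hq, pow_mul])
  have hF' := Herm.natCard_of_card hF
  have hr' : r ∈ Spec.spec (Cfsg.PSU n F q) := by
    refine Spec.mem_of_dvd (psu_block hF' p (n := n) (d := 1) (e := n - 1) one_pos (by omega) (by omega))
      (Dvd.dvd.mul_right ?_ _)
    rw [DU_odd q odd_one, pow_one]
    have hc : r.Coprime (Nat.gcd n (q + 1)) :=
      (Nat.Prime.coprime_iff_not_dvd hr).mpr fun h => hrn (h.trans (Nat.gcd_dvd_left _ _))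
    refine hc.dvd_of_dvd_mul_right ?_
    rwa [Nat.div_mul_cancel (Nat.gcd_dvd_right _ _)]
  have hδ : 0 < Nat.gcd n (q + 1) := Nat.gcd_pos_of_pos_right _ (by omega)
  have hT : GU' q n / Nat.gcd (GU' q n) (Nat.gcd n (q + 1)) ∈ Spec.spec (Cfsg.PSU n F q) :=
    psu_singer hF' (by omega) fun m hm => by
      refine Spec.div_dvd_of_dvd_mul (Nat.gcd_pos_of_pos_right _ hδ) (Nat.gcd_dvd_left _ _) ?_
      rw [← Nat.gcd_mul_right]
      exact Nat.dvd_gcd (dvd_mul_right _ _) hm
  have hT' : GU' q n ∣ Nat.gcd n (q + 1) * (GU' q n / Nat.gcd (GU' q n) (Nat.gcd n (q + 1))) := by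
    rw [← Nat.mul_div_assoc _ (Nat.gcd_dvd_left _ _), mul_comm, Nat.mul_div_assoc _ (Nat.gcd_dvd_right _ _)]
    exact dvd_mul_right _ _
  refine ⟨Spec.absorb_three (Spec.zmod_pi_pow m r) hr' hT (psu_unip hF' p (by omega)) fun x hx => ?_,
    fun hj => Spec.absorb_two (Spec.zmod_pi_pow m r) hr' hT fun x hx => ?_⟩
  · exact (psu_tri hF' p (by omega) hr hrq hrn x hx).imp id (Or.imp (fun h => h _ hT') And.left)
  · exact (psu_tri hF' p (by omega) hr hrq hrn x hx).imp id fun h => (h.resolve_right fun h => hj h.2) _ hT'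

end Cfsg.Agent.S2511
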