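import Mathlib
import Cfsg.Statements.S2512
import Cfsg.Agent.Spc.Tri
-- import your own Cfsg.Agent.* helpers here

set_option autoImplicit false
open Cfsg

namespace Cfsg.Agent.S2512

open Cfsg.Agent.Spc Cfsg.Agent.Conj Module

/-- Let F be a finite field of odd order q = p^a, n ≥ 2 (with q ≥ 3 automatic), and L = PSp(2n, F). Then for every m the direct product L × L × L × (ℤ/2)^m has the same set of element orders as L × L × L; and if 2n − 1 is not a power of p, then already L × L × (ℤ/2)^m has the same set of element orders as L × L. -/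
theorem result {F : Type*} [Field F] [Fintype F] (p a n m : ℕ) (hp : p.Prime) (ha : 1 ≤ a) (hF : Fintype.card F = p ^ a) (hodd : Odd (Fintype.card F))
    (hn : 2 ≤ n) :
    Set.range (orderOf : Cfsg.PSp n F × Cfsg.PSp n F × Cfsg.PSp n F × Multiplicative (Fin m → ZMod 2) → ℕ) = Set.range (orderOf : Cfsg.PSp n F × Cfsg.PSp n F × Cfsg.PSp n F → ℕ) ∧
    ((¬ ∃ j : ℕ, 2 * n - 1 = p ^ j) →
      Set.range (orderOf : Cfsg.PSp n F × Cfsg.PSp n F × Multiplicative (Fin m → ZMod 2) → ℕ) = Set.range (orderOf : Cfsg.PSp n F × Cfsg.PSp n F → ℕ)) := by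
  haveI := Fact.mk hp
  haveI : CharP F p := charP_of_card_eq_prime_pow hF
  have hp2 : p ≠ 2 := by
    rintro rfl
    rw [hF] at hodd
    exact Nat.not_even_iff_odd.2 hodd (even_two.pow_of_ne_zero (by omega))
  have hr' : 2 ∈ Spec.spec (Cfsg.PSp n F) := Spec.mem_of_dvd (sp_two_char p hp2 hn) (dvd_mul_right _ _)
  have hq := Nat.odd_iff.1 (hodd.pow (n := n))
  have hq1 := Nat.one_le_pow n _ (Fintype.card_pos (α := F))
  have hA : (Fintype.card F ^ n + 1) / 2 ∈ Spec.spec (Cfsg.PSp n F) :=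
    psp_half (by omega) (cast_pow_add_ne (d := n) (by omega)) (Or.inr (pow_add_zmod _ _)) fun m hm =>
      Spec.div_dvd_of_dvd_mul two_pos (by omega) (mul_comm m 2 ▸ hm)
  have hB : (Fintype.card F ^ n - 1) / 2 ∈ Spec.spec (Cfsg.PSp n F) :=
    psp_half (by omega) (cast_pow_sub_ne (d := n) (by omega)) (Or.inl (pow_sub_zmod Fintype.card_pos _))
      fun m hm => Spec.div_dvd_of_dvd_mul two_pos (by omega) (mul_comm m 2 ▸ hm)
  have h1 : ∀ a N : ℕ, Odd a → 2 ∣ N → a ∣ N → a ∣ N / 2 := fun a N ha h2 h =>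
    ha.coprime_two_right.dvd_of_dvd_mul_right (by rwa [Nat.div_mul_cancel h2])
  have h2 : ∀ a N : ℕ, Odd a → 4 ∣ N → a ∣ N → a * 2 ∣ N / 2 := fun a N ha h2 h =>
    ha.coprime_two_right.mul_dvd_of_dvd_of_dvd (h1 a N ha (by omega) h) (by omega)
  obtain ⟨T, hT, key⟩ : ∃ T ∈ Spec.spec (Cfsg.PSp n F), ∀ a, Odd a →
      (a ∣ Fintype.card F ^ n + 1 ∨ a ∣ Fintype.card F ^ n - 1) → a * 2 ∈ Spec.spec (Cfsg.PSp n F) ∨ a ∣ T := by
    by_cases h : Fintype.card F ^ n % 4 = 1
    · exact ⟨_, hA, fun a ha h' => h'.symm.imp (fun h' => Spec.mem_of_dvd hB (h2 _ _ ha (by omega) h'))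
        (h1 _ _ ha (by omega))⟩
    · exact ⟨_, hB, fun a ha h' => h'.imp (fun h' => Spec.mem_of_dvd hA (h2 _ _ ha (by omega) h'))
        (h1 _ _ ha (by omega))⟩
  refine ⟨Spec.absorb_three (Spec.zmod_pi_pow m 2) hr' hT (psp_unip p (by omega)) fun x hx => ?_,
    fun hj => Spec.absorb_two (Spec.zmod_pi_pow m 2) hr' hT fun x hx => ?_⟩
  · have ho : Odd (orderOf x) := Nat.odd_iff.2 (by omega)
    rcases psp_tri p hp2 hn ⟨x, rfl⟩ ho with h | h | h
    · exact Or.inl h
    · exact (key _ ho h).imp id Or.inl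
    · exact Or.inr (Or.inr h.1)
  · have ho : Odd (orderOf x) := Nat.odd_iff.2 (by omega)
    rcases psp_tri p hp2 hn ⟨x, rfl⟩ ho with h | h | h
    · exact Or.inl h
    · exact key _ ho h
    · exact absurd h.2 hj

end Cfsg.Agent.S2512
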