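import Mathlib
import Cfsg.Statements.S2513
import Cfsg.Agent.Spec.Lin2
-- import your own Cfsg.Agent.* helpers here

set_option autoImplicit false
open Cfsg

namespace Cfsg.Agent.S2513

open Polynomial in
theorem order_dvd {F : Type*} [Field F] [Finite F] (p : ℕ) [hp : Fact p.Prime] [CharP F p] {n M : ℕ}
    (h : ∀ i, 1 ≤ i → i ≤ n → Nat.card F ^ i - 1 ∣ M)
    (x : Matrix.ProjectiveSpecialLinearGroup (Fin n) F) : orderOf x ∣ M * p ^ Nat.clog p n := by
  obtain ⟨g, hg, hN⟩ := Spec.exists_lift x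
  have hd : g.charpoly.natDegree = n := by rw [LinearMap.charpoly_natDegree]; simp
  refine (hN _).mp ⟨_, Spec.pow_eq_of_dvd p (LinearMap.aeval_self_charpoly g) (c := 1) (k := n) ?_
    (Nat.le_pow_clog hp.out.one_lt n)⟩
  refine Spec.dvd_pow_of_forall_irreducible n g.charpoly_monic.ne_zero hd.le fun f hf hfd => ?_
  have h1 := Spec.irr_dvd_X_pow_sub_one hf fun hX => Spec.not_X_dvd_charpoly (g := g)
    (by rw [hg]; exact one_ne_zero) ((hf.associated_of_dvd irreducible_X hX).symm.dvd.trans hfd)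
  obtain ⟨c, hc⟩ := h _ hf.natDegree_pos (hd ▸ natDegree_le_of_dvd hfd g.charpoly_monic.ne_zero)
  refine h1.trans ?_
  rw [hc, pow_mul, C_1]
  simpa using sub_dvd_pow_sub_pow (X ^ (Nat.card F ^ f.natDegree - 1) : F[X]) 1 c

theorem aux {F : Type*} [Field F] [Fintype F] (hF : Fintype.card F = 2) (n k : ℕ) (hn : 2 ≤ n)
    (hk : (n + 3) / 2 ≤ k) :
    Spec.spec (Fin k → Matrix.ProjectiveSpecialLinearGroup (Fin n) F) =
      {m | m ∣ (Finset.Icc 1 n).lcm (fun i => 2 ^ i - 1) * 2 ^ Nat.clog 2 n} := by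
  have : CharP F 2 := charP_of_card_eq_prime hF
  have hq : Nat.card F = 2 := by rw [Nat.card_eq_fintype_card, hF]
  ext m
  constructor
  · rintro ⟨x, rfl⟩
    refine Spec.pi_orderOf_dvd.mpr fun i => order_dvd 2 (fun j h1 h2 => ?_) (x i)
    rw [hq]
    exact Finset.dvd_lcm (f := fun i => 2 ^ i - 1) (Finset.mem_Icc.mpr ⟨h1, h2⟩)
  · intro hm
    have hw : ∀ i : ℕ, ∃ w : Matrix.ProjectiveSpecialLinearGroup (Fin n) F,
        1 ≤ i → i ≤ n → orderOf w = 2 ^ i - 1 := by
      intro i
      by_cases h : 1 ≤ i ∧ i ≤ n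
      · rcases h.2.lt_or_eq with h2 | rfl
        · obtain ⟨w, hw⟩ := Spec.block_mem (F := F) (n := n) 2 (d := i) (e := n - i) h.1 (by omega)
            (by omega) (N := 2 ^ i - 1) fun m h _ => by simpa [hF] using h
          exact ⟨w, fun _ _ => hw⟩
        · obtain ⟨w, hw⟩ := Spec.singer_mem (F := F) (n := i) 2 h.1
          exact ⟨w, fun _ _ => by simpa [hF] using hw⟩
      · exact ⟨1, fun h1 h2 => absurd ⟨h1, h2⟩ h⟩
    choose w hw using hw
    obtain ⟨u, hu⟩ := Spec.unip_mem (F := F) (n := n) 2 (by omega)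
    let y : Fin k → Matrix.ProjectiveSpecialLinearGroup (Fin n) F :=
      fun i => if i.1 = 0 then u else w (n + 1 - i.1)
    refine Spec.mem_of_dvd ⟨y, rfl⟩ (dvd_trans hm ?_)
    refine Nat.Coprime.mul_dvd_of_dvd_of_dvd ?_ (Finset.lcm_dvd fun i hi => ?_) ?_
    · refine Nat.Coprime.pow_right _ (Nat.Coprime.coprime_dvd_left
        (Finset.lcm_dvd fun b hb => Finset.dvd_prod_of_mem (fun i => 2 ^ i - 1) hb) ?_)
      refine Nat.Coprime.prod_left fun i hi => ?_
      have := Spec.coprime_card_sub_one (F := F) 2 (Finset.mem_Icc.mp hi).1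
      rwa [hq] at this
    · obtain ⟨h1, h2⟩ := Finset.mem_Icc.mp hi
      have a1 : i * (n / i) ≤ n := Nat.mul_div_le n i
      have a2 : n < i * (n / i) + i := by
        have := Nat.div_add_mod n i
        have := Nat.mod_lt n h1
        omega
      have a3 : i ≤ i * (n / i) := Nat.le_mul_of_pos_right _ (Nat.div_pos h2 h1)
      have := Spec.dvd_pi_orderOf y ⟨n + 1 - i * (n / i), by omega⟩
      simp only [y] at this
      rw [if_neg (by omega), show n + 1 - (n + 1 - i * (n / i)) = i * (n / i) by omega,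
        hw _ (by omega) a1, pow_mul] at this
      exact (Spec.sub_one_dvd _ _).trans this
    · have := Spec.dvd_pi_orderOf y ⟨0, by omega⟩
      simp only [y, if_true] at this
      rwa [hu] at this

/-- Let F be the field with two elements, n ≥ 2, L = PSL(n, F) and k₀ = ⌊(n + 3)/2⌋. Then for every k ≥ k₀ the direct product of k copies of L has the same set of element orders as the direct product of k₀ copies of L. -/
theorem result {F : Type*} [Field F] [Fintype F] (hF : Fintype.card F = 2) (n k : ℕ) (hn : 2 ≤ n) (hk : (n + 3) / 2 ≤ k) :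
    Set.range (orderOf : (Fin k → Matrix.ProjectiveSpecialLinearGroup (Fin n) F) → ℕ) = Set.range (orderOf : (Fin ((n + 3) / 2) → Matrix.ProjectiveSpecialLinearGroup (Fin n) F) → ℕ) := by
  exact (aux hF n k hn hk).trans (aux hF n _ hn le_rfl).symm

end Cfsg.Agent.S2513
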