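import Mathlib
import Cfsg.Statements.S2516

set_option autoImplicit false
open Cfsg

namespace Cfsg.Agent.S2516

/-- Let F be a field of characteristic p > 0, V a non-zero finite-dimensional F-vector space, G a finite group and ρ a representation of G on V; form the semidirect product V ⋊ G. For g ∈ G of order k, the coset Vg contains an element of order pk if and only if the minimal polynomial of ρ(g) does not divide 1 + X + ⋯ + X^(k−1). -/
theorem result {F : Type*} [Field F] (p : ℕ) [Fact p.Prime] [CharP F p] {V : Type*} [AddCommGroup V] [Module F V] [FiniteDimensional F V] [Nontrivial V]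
    {G : Type*} [Group G] [Finite G] (ρ : Representation F G V) (g : G) :
    (∃ x : Multiplicative V ⋊[(MulAutMultiplicative V).symm.toMonoidHom.comp
        ((DistribMulAction.toAddAut ((V →ₗ[F] V)ˣ) V).comp ρ.asGroupHom)] G,
        x.right = g ∧ orderOf x = p * orderOf g) ↔
      ¬ (minpoly F (ρ g) ∣ ∑ i ∈ Finset.range (orderOf g), (Polynomial.X : Polynomial F) ^ i) := by
  set φ := (MulAutMultiplicative V).symm.toMonoidHom.comp
        ((DistribMulAction.toAddAut ((V →ₗ[F] V)ˣ) V).comp ρ.asGroupHom)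
  have hφ : ∀ g v, φ g (Multiplicative.ofAdd v) = Multiplicative.ofAdd (ρ g v) := fun g v => rfl
  have h1 : ∀ (v : V) (k : ℕ), (⟨Multiplicative.ofAdd v, g⟩ : Multiplicative V ⋊[φ] G) ^ k =
      ⟨Multiplicative.ofAdd ((∑ i ∈ Finset.range k, ρ g ^ i) v), g ^ k⟩ := fun v k => by
    induction k with
    | zero => simp
    | succ k ih =>
      rw [pow_succ, ih, Finset.sum_range_succ, pow_succ, ← map_pow]
      rfl
  have h2 : ∀ v : V, orderOf (⟨Multiplicative.ofAdd v, g⟩ : Multiplicative V ⋊[φ] G) =
      addOrderOf ((∑ i ∈ Finset.range (orderOf g), ρ g ^ i) v) * orderOf g := fun v => by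
    have h3 : orderOf g ∣ orderOf (⟨Multiplicative.ofAdd v, g⟩ : Multiplicative V ⋊[φ] G) :=
      orderOf_map_dvd SemidirectProduct.rightHom _
    rw [← Nat.div_mul_cancel h3, ← orderOf_pow_of_dvd (orderOf_pos g).ne' h3, h1, pow_orderOf_eq_one]
    congr 1
    exact orderOf_injective SemidirectProduct.inl SemidirectProduct.inl_injective _
  rw [minpoly.dvd_iff, map_sum]
  simp only [map_pow, Polynomial.aeval_X]
  constructor
  · rintro ⟨⟨v, g⟩, rfl, h⟩ h0
    have := h2 v.toAdd
    rw [h0, LinearMap.zero_apply, addOrderOf_zero, ofAdd_toAdd, h] at this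
    exact (Fact.out : p.Prime).one_lt.ne' (Nat.eq_of_mul_eq_mul_right (orderOf_pos _) this)
  · intro h
    obtain ⟨v, hv⟩ := DFunLike.ne_iff.mp h
    refine ⟨⟨Multiplicative.ofAdd v, g⟩, rfl, ?_⟩
    rw [h2, addOrderOf_eq_prime (p := p) (by rw [← Nat.cast_smul_eq_nsmul F, CharP.cast_eq_zero, zero_smul]) hv]

end Cfsg.Agent.S2516
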