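import Mathlib
import Cfsg.Statements.S2517
import Cfsg.Agent.Spc.O9b
-- import your own Cfsg.Agent.* helpers here

set_option autoImplicit false
open Cfsg

namespace Cfsg.Agent.S2517

open Module Cfsg.Agent.Spc Cfsg.Agent.Orth Cfsg.Agent.Conj in
theorem sdp_pow_iff {F V K : Type*} [Field F] [AddCommGroup V] [Module F V] [Group K]
    (φ : K →* MulAut (Multiplicative V)) (ρ : K →* End F V) (h : ∀ k v, (φ k v).toAdd = ρ k v.toAdd)
    (hi : Function.Injective ρ) (x : Multiplicative V ⋊[φ] K) (m : ℕ) :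
    x ^ m = 1 ↔ AP (ρ x.right) x.left.toAdd m := by
  have key : ∀ m, (x ^ m).left.toAdd = gs (ρ x.right) m x.left.toAdd ∧ (x ^ m).right = x.right ^ m := fun m => by
    induction m with
    | zero => simp [gs]
    | succ m ih =>
      rw [pow_succ, SemidirectProduct.mul_left, SemidirectProduct.mul_right, toAdd_mul, h, ih.1, ih.2, gs_succ,
        map_pow, pow_succ]
      exact ⟨rfl, rfl⟩
  rw [SemidirectProduct.ext_iff, AP, ← (key m).1, (key m).2, ← map_pow, map_eq_one_iff _ hi, and_comm]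
  rfl

/-- Let F be a finite field of odd order q, let Ω₉ be the simple orthogonal group PΩ(9, F), and let Ω₈⁻ be the commutator subgroup of the isometry group of a minus-type non-singular quadratic form on V = F⁸ (the simple group PΩ⁻(8, F), acting on its natural module V). Then Ω₉ and the semidirect product V ⋊ Ω₈⁻ have exactly the same set of element orders. -/
theorem result {F : Type*} [Field F] [Fintype F] (hF : Odd (Fintype.card F)) (a b : F)
    (hab : ∀ z₁ z₂ : F, z₁ ^ 2 + a * z₁ * z₂ + b * z₂ ^ 2 = 0 → z₁ = 0 ∧ z₂ = 0) :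
    Set.range (orderOf : Cfsg.POmega F (Cfsg.quadFormOdd 4 F) → ℕ) =
      Set.range (orderOf :
        (Multiplicative (((Fin 3 ⊕ Fin 3) ⊕ Fin 2) → F)) ⋊[
          (MulAutMultiplicative (((Fin 3 ⊕ Fin 3) ⊕ Fin 2) → F)).symm.toMonoidHom.comp
           ((DistribMulAction.toAddAut (LinearMap.GeneralLinearGroup F (((Fin 3 ⊕ Fin 3) ⊕ Fin 2) → F))
              (((Fin 3 ⊕ Fin 3) ⊕ Fin 2) → F)).comp
            (Matrix.GeneralLinearGroup.toLin.toMonoidHom.comp
              ((Cfsg.isometryGroup F (Cfsg.quadFormMinus 3 F a b)).subtype.comp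
                (Cfsg.Omega F (Cfsg.quadFormMinus 3 F a b)).subtype)))]
          ↥(Cfsg.Omega F (Cfsg.quadFormMinus 3 F a b)) → ℕ) := by
  have h2 : (2 : F) ≠ 0 := fun h => by
    have := FiniteField.even_card_iff_char_two.1 (ringChar.eq_iff.2 (CharTwo.of_one_ne_zero_of_two_eq_zero one_ne_zero h))
    rw [Nat.odd_iff] at hF; omega
  have hQ := Orth.nd_minusQ 3 (Orth.aniso_disc_ne_zero hab)
  have hd : Module.finrank F ((Fin 3 ⊕ Fin 3) ⊕ Fin 2 → F) = 2 * 4 := by simp
  let e := Orth.omegaEquiv (Orth.minusQ 3 F a b)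
  have key := sdp_pow_iff (F := F) ((MulAutMultiplicative (((Fin 3 ⊕ Fin 3) ⊕ Fin 2) → F)).symm.toMonoidHom.comp
           ((DistribMulAction.toAddAut (LinearMap.GeneralLinearGroup F (((Fin 3 ⊕ Fin 3) ⊕ Fin 2) → F))
              (((Fin 3 ⊕ Fin 3) ⊕ Fin 2) → F)).comp
            (Matrix.GeneralLinearGroup.toLin.toMonoidHom.comp
              ((Cfsg.isometryGroup F (Cfsg.quadFormMinus 3 F a b)).subtype.comp
                (Cfsg.Omega F (Cfsg.quadFormMinus 3 F a b)).subtype))))
    (((Conj.subRep _).comp (commutator _).subtype).comp e.toMonoidHom) (fun k v => rfl)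
    ((Conj.subRep_injective _).comp (Subtype.val_injective.comp e.injective))
  ext N
  constructor
  · intro h
    obtain ⟨g, hg, v, hv⟩ := Spc.rz_of_mem h2 hQ (Orth.not_isPlus_minusQ 3 hab) hd h
    refine @Spec.mem_of_dvd _ _ (Finite.of_equiv _ SemidirectProduct.equivProd.symm) _ _
      ⟨⟨Multiplicative.ofAdd v, e.symm ⟨g, hg⟩⟩, rfl⟩ (hv _ ?_)
    have := (key _ _).1 (pow_orderOf_eq_one ⟨Multiplicative.ofAdd v, e.symm ⟨g, hg⟩⟩)
    change Spc.AP (Conj.subRep _ (e (e.symm ⟨g, hg⟩)).1) v _ at this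
    rwa [e.apply_symm_apply] at this
  · rintro ⟨x, rfl⟩
    exact Spc.mem_of_ap h2 hQ (by decide) hd (e x.right).2 fun m hm => orderOf_dvd_of_pow_eq_one ((key _ _).2 hm)

end Cfsg.Agent.S2517
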