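import Cfsg.Statements.S2519
import Mathlib
import Cfsg.Agent.Chev.Oct6

set_option autoImplicit false
open Cfsg

namespace Cfsg.Agent.S2519
open Cfsg.Lie Cfsg.Agent.Chev.Oct Cfsg.Agent.Spec

/-- Let F be a finite field of odd order q = p^a ≥ 5. The element orders of the Chevalley group G₂(F) that are maximal under divisibility are exactly p(q + 1), p(q − 1), q² − 1, q² + q + 1, q² − q + 1, together with p² when p is 3 or 5. -/
theorem result {F : Type*} [Field F] [Fintype F] (p a : ℕ) (hp : p.Prime) (hp2 : p ≠ 2) (ha : 1 ≤ a) (hF : Fintype.card F = p ^ a) (hq5 : 5 ≤ Fintype.card F) :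
    {n : ℕ | n ∈ Set.range (orderOf : ↥(Cfsg.Lie.chevG2.group F) → ℕ) ∧ ∀ m ∈ Set.range (orderOf : ↥(Cfsg.Lie.chevG2.group F) → ℕ), n ∣ m → m = n} =
      ({p * (p ^ a + 1), p * (p ^ a - 1), p ^ (2 * a) - 1, p ^ (2 * a) + p ^ a + 1, p ^ (2 * a) - p ^ a + 1} : Set ℕ) ∪
        (if p = 3 ∨ p = 5 then ({p ^ 2} : Set ℕ) else ∅) := by
  haveI := Fact.mk hp
  haveI : CharP F p := charP_of_card_eq_prime_pow hF
  have hne : ∃ a : F, a ≠ 0 ∧ a ≠ 1 := by
    classical
    obtain ⟨a, -, ha⟩ := Finset.exists_mem_notMem_of_card_lt_card (s := ({0, 1} : Finset F))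
      (t := Finset.univ) (Finset.card_le_two.trans_lt (show 2 < Fintype.card F by omega))
    exact ⟨a, by simpa using ha⟩
  obtain ⟨k1, k2, k3, k4, k5⟩ := mem_all p hF
  have up := upper p hF
  have hq : p ∣ p ^ a := dvd_pow_self p (by omega)
  rw [pow_mul']
  rw [hF] at hq5
  generalize p ^ a = q at *
  obtain ⟨r, rfl⟩ : ∃ r, q = r + 1 := ⟨q - 1, by omega⟩
  have p2 := hp.two_le
  have p0 := hp.pos
  have r0 : 0 < r := by omega
  rw [show (r + 1) ^ 2 - 1 = r * (r + 2) by rw [Nat.sub_eq_iff_eq_add (by nlinarith)]; ring,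
    show (r + 1) ^ 2 - (r + 1) = r * (r + 1) by rw [Nat.sub_eq_iff_eq_add (by nlinarith)]; ring,
    Nat.add_sub_cancel] at *
  generalize hM : (_ ∪ _ : Set ℕ) = M
  have mem : ∀ n, n ∈ M ↔ n = p * (r + 1 + 1) ∨ n = p * r ∨ n = r * (r + 2) ∨
      n = (r + 1) ^ 2 + (r + 1) + 1 ∨ n = r * (r + 1) + 1 ∨ ((p = 3 ∨ p = 5) ∧ n = p * p) := fun n => by
    rw [← hM]; split_ifs with h <;> simp [h, or_assoc, pow_two]
    tauto
  have h2 : ∀ n ∈ M, n ∈ spec (chevG2.group F) := fun n hn => by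
    rcases (mem n).1 hn with rfl | rfl | rfl | rfl | rfl | ⟨h, rfl⟩
    exacts [k5, k4, k1, k2, k3, mem_sq p hne h]
  have h1 : ∀ g : chevG2.group F, ∃ m ∈ M, g ^ m = 1 := fun g => by
    simp only [mem]
    rcases up g with e | e | e | e | e | e | e
    iterate 5 exact ⟨_, by simp, e⟩
    · exact absurd e.1 hp2
    by_cases h : p = 3 ∨ p = 5
    · exact ⟨p * p, by simp [h], pow_two p ▸ e 2 (by rcases h with rfl | rfl <;> norm_num)⟩
    have : p ≠ 4 := by rintro rfl; exact absurd hp (by decide)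
    have : p ≠ 6 := by rintro rfl; exact absurd hp (by decide)
    exact ⟨p * r, by simp, by rw [pow_mul, ← pow_one p, e 1 (by rw [pow_one]; omega), one_pow]⟩
  have n0 : ∀ m, p ∣ m → ¬ p ∣ m + 1 := fun m h e => hp.one_lt.ne' (Nat.dvd_one.1
    ((Nat.dvd_add_right h).1 e))
  have n1 : ¬ p ∣ r := fun h => n0 _ h hq
  have n2 : ¬ p ∣ r + 1 + 1 := n0 _ hq
  have n3 : ¬ p ∣ r * (r + 2) := fun h => ((Nat.Prime.dvd_mul hp).1 h).elim n1 n2
  have n4 : ¬ p ∣ (r + 1) ^ 2 + (r + 1) + 1 := n0 _ (dvd_add (hq.pow two_ne_zero) hq)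
  have n5 : ¬ p ∣ r * (r + 1) + 1 := n0 _ (hq.mul_left _)
  have d1 : ∀ {X Y}, ¬ p ∣ X → X ∣ p * Y → X ∣ Y := fun h =>
    ((Nat.Prime.coprime_iff_not_dvd hp).2 h).symm.dvd_of_dvd_mul_left
  have d2 : ∀ {X}, ¬ p ∣ X → X ∣ p → X ≤ 1 := fun h e => Nat.le_of_dvd one_pos (d1 h (by rwa [mul_one]))
  have d3 : ∀ {X Y : ℕ}, X ∣ X + Y → Y ≠ 0 → X ≤ Y := fun h e =>
    Nat.le_of_dvd (Nat.pos_of_ne_zero e) ((Nat.dvd_add_right dvd_rfl).1 h)
  have h3 : ∀ n ∈ M, ∀ m ∈ M, n ∣ m → m = n := fun n hn m hm h => by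
    rcases (mem n).1 hn with rfl | rfl | rfl | rfl | rfl | ⟨-, rfl⟩ <;>
      rcases (mem m).1 hm with rfl | rfl | rfl | rfl | rfl | ⟨-, rfl⟩ <;>
      first
      | rfl
      | exact absurd ((dvd_mul_right _ _).trans h) (by assumption)
      | exact absurd (Nat.le_of_dvd (by positivity) h) (by nlinarith)
      | exact absurd (Nat.dvd_of_mul_dvd_mul_left hp.pos h) (by assumption)
      | exact absurd (d2 (by assumption) (Nat.dvd_of_mul_dvd_mul_left hp.pos h)) (by omega)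
      | exact absurd (d2 (by assumption) (d1 (by assumption) h)) (by nlinarith)
      | exact absurd (Nat.le_of_dvd (by omega) (d1 (by assumption) h)) (by nlinarith)
      | skip
    · exact absurd (d3 (Y := 2) (Nat.dvd_of_mul_dvd_mul_left hp.pos h) (by omega)) (by omega)
    · exact absurd (d3 (Y := r + 3) (by convert h using 1; ring) (by omega)) (by nlinarith)
    · exact absurd (d3 (X := r * (r + 1) + 1) (Y := r - 1) (by
        convert h using 1; rw [mul_add r r 2, mul_add]; omega) (by omega)) (by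
        have : r - 1 < r := by omega
        nlinarith)
    · exact absurd (d3 (Y := 2 * r + 2) (by convert h using 1; ring) (by omega)) (by nlinarith)
  ext n
  refine ⟨fun ⟨⟨g, e⟩, h⟩ => ?_, fun hn => ⟨h2 n hn, ?_⟩⟩
  · obtain ⟨m, hm, e'⟩ := h1 g
    rw [← h m (h2 m hm) (e ▸ orderOf_dvd_of_pow_eq_one e')]; exact hm
  · rintro _ ⟨g, rfl⟩ h
    obtain ⟨m, hm, e⟩ := h1 g
    have := orderOf_dvd_of_pow_eq_one e
    exact Nat.dvd_antisymm (h3 n hn m hm (h.trans this) ▸ this) h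

end Cfsg.Agent.S2519
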