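import Cfsg.Statements.S2520
import Mathlib
import Cfsg.Agent.Chev.Oct6

set_option autoImplicit false
open Cfsg

namespace Cfsg.Agent.S2520
open Cfsg.Lie Cfsg.Agent.Chev.Oct Cfsg.Agent.Spec

/-- Let F be a finite field with q = 2^a ≥ 4 elements and G₂(F) the Chevalley group of type G₂ over it. Every element order of G₂(F) maximal under divisibility lies in the set {8, 12, 2(q + 1), 2(q − 1), q² − 1, q² + q + 1, q² − q + 1}, and every member of that set is an element order of G₂(F). -/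
theorem result {F : Type*} [Field F] [Fintype F] (a : ℕ) (ha : 2 ≤ a) (hF : Fintype.card F = 2 ^ a) :
    {n : ℕ | n ∈ Set.range (orderOf : ↥(Cfsg.Lie.chevG2.group F) → ℕ) ∧ ∀ m ∈ Set.range (orderOf : ↥(Cfsg.Lie.chevG2.group F) → ℕ), n ∣ m → m = n} ⊆ ({8, 12, 2 * (2 ^ a + 1), 2 * (2 ^ a - 1), 2 ^ (2 * a) - 1, 2 ^ (2 * a) + 2 ^ a + 1, 2 ^ (2 * a) - 2 ^ a + 1} : Set ℕ) ∧
    ({8, 12, 2 * (2 ^ a + 1), 2 * (2 ^ a - 1), 2 ^ (2 * a) - 1, 2 ^ (2 * a) + 2 ^ a + 1, 2 ^ (2 * a) - 2 ^ a + 1} : Set ℕ) ⊆ Set.range (orderOf : ↥(Cfsg.Lie.chevG2.group F) → ℕ) := by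
  haveI : CharP F 2 := charP_of_card_eq_prime_pow hF
  have h4 : 2 < Fintype.card F := hF ▸ lt_of_lt_of_le (by norm_num) (Nat.pow_le_pow_right two_pos ha)
  have hne : ∃ a : F, a ≠ 0 ∧ a ≠ 1 := by
    classical
    obtain ⟨a, -, ha⟩ := Finset.exists_mem_notMem_of_card_lt_card (s := ({0, 1} : Finset F))
      (t := Finset.univ) (Finset.card_le_two.trans_lt h4)
    exact ⟨a, by simpa using ha⟩
  obtain ⟨k1, k2, k3, k4, k5⟩ := mem_all 2 hF
  rw [pow_mul']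
  refine (and_iff_right_of_imp fun h2 => ?_).2 ?_
  · rintro n ⟨⟨g, rfl⟩, h⟩
    suffices ∃ m ∈ _, g ^ m = 1 by
      obtain ⟨m, hm, e⟩ := this
      rw [← h m (h2 hm) (orderOf_dvd_of_pow_eq_one e)]; exact hm
    rcases upper 2 hF g with e | e | e | e | e | e | e
    exacts [⟨_, by simp, e⟩, ⟨_, by simp, e⟩, ⟨_, by simp, e⟩, ⟨_, by simp, e⟩, ⟨_, by simp, e⟩,
      ⟨_, by simp, e.2⟩, ⟨_, by simp, e 3 (by norm_num)⟩]
  · rintro n (rfl | rfl | rfl | rfl | rfl | rfl | rfl)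
    exacts [mem_word 2 hne [7, 6] (by norm_num) (by decide +kernel),
      mem_word 2 hne [0, 2, 9] (by norm_num) (by decide +kernel), k5, k4, k1, k2, k3]

end Cfsg.Agent.S2520
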