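import Mathlib
import Cfsg.Statements.S2522
import Cfsg.Agent.Lev.C
-- import your own Cfsg.Agent.* helpers here

set_option autoImplicit false
open Cfsg

namespace Cfsg.Agent.S2522

open Module Polynomial Cfsg.Agent.Lev in
theorem ring_aux {A : Type*} [Ring A] {N R : A} (h1 : N * R = 0) (h2 : R * N = 0) (h3 : R * R = 0)
    (hN : IsNilpotent N) : ∃ M : A, 1 + R = (1 + N) * (1 + M) ∧ ∀ k, M ^ (k + 2) = 0 ↔ N ^ (k + 2) = 0 := by
  obtain ⟨U, hU⟩ := hN.isUnit_one_add
  set B : A := ↑U⁻¹ with hB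
  have b1 : (1 + N) * B = 1 := by rw [← hU, hB]; simp
  have b2 : B * (1 + N) = 1 := by rw [← hU, hB]; simp
  have hc : Commute B N := by
    have : Commute B (1 + N) := by rw [Commute, SemiconjBy, b1, b2]
    simpa using this.sub_right (Commute.one_right B)
  have r2 : R * B = R := by
    calc R * B = R * (1 + N) * B := by rw [mul_add, h2]; simp
      _ = R := by rw [mul_assoc, b1, mul_one]
  have s1 : -(B * N) * R = 0 := by rw [neg_mul, mul_assoc, h1]; simp
  have s2 : R * -(B * N) = 0 := by rw [mul_neg, ← mul_assoc, r2, h2]; simp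
  refine ⟨-(B * N) + R, ?_, fun k => ?_⟩
  · have : 1 + (-(B * N) + R) = B + R := by rw [← b2]; noncomm_ring
    rw [this, mul_add, b1, add_mul, h1]; simp
  · have e : (-(B * N) + R) ^ (k + 2) = (-(B * N)) ^ (k + 2) := by
      induction k with
      | zero => simp only [zero_add, pow_two, mul_add, add_mul, s1, s2, h3, add_zero]
      | succ k ih =>
        rw [pow_succ, ih, mul_add, ← pow_succ, pow_succ _ (k + 1), mul_assoc, s1, mul_zero, add_zero]
    rw [e, neg_pow, hc.mul_pow, ((isUnit_one.neg).pow _).mul_right_eq_zero,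
      ((Units.isUnit U⁻¹).pow _).mul_right_eq_zero]

open Module Polynomial Cfsg.Agent.Lev in
theorem fact {F : Type*} [Field F] (h3 : Big F) (n : ℕ) (R : End F (Fin (n + 3) → F))
    (hd : LinearMap.det (1 + R) = 1) (hns : ¬ ∃ c : F, ∀ z, R z = c • z) :
    ∃ N M : End F (Fin (n + 3) → F), 1 + R = (1 + N) * (1 + M) ∧ N ^ (n + 3) = 0 ∧ N ^ (n + 2) ≠ 0 ∧
      M ^ (n + 3) = 0 ∧ M ^ (n + 2) ≠ 0 := by
  have hn : finrank F (Fin (n + 3) → F) = n + 3 := by simp
  by_cases hrk : ∀ u, ∃ z, ∀ t : F, R z ≠ t • u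
  · obtain ⟨N, M, a1, a2, a3, a4, z, a5⟩ := main h3 (n + 2) _ R hn hd (fun _ => ⟨hns, hrk⟩)
      (fun _ => 1) (fun e => one_ne_zero (congrFun e 0)) (LinearMap.proj 0) ⟨fun _ => 1, by simp⟩
    exact ⟨N, M, a1, a2, fun e => a3 (by rw [e]; rfl), a4, fun e => a5 (by rw [e]; rfl)⟩
  · push Not at hrk
    obtain ⟨u, hu⟩ := hrk
    rcases rank_one hd hu with h | ⟨hu0, φ, b1, b2⟩
    · exact absurd ⟨0, fun z => by simp [h]⟩ hns
    obtain ⟨v, hv⟩ : ∃ v, φ v = 1 := by
      by_contra hc
      push Not at hc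
      refine hns ⟨0, fun z => ?_⟩
      have : φ z = 0 := by
        by_contra h
        exact hc ((φ z)⁻¹ • z) (by simp [h])
      simp [b2, this]
    have hk := finrank_ker φ v hv
    obtain ⟨N₁, c1, c2, z, c3⟩ := regnil (F := F) (n + 1) (LinearMap.ker φ) (by omega) ⟨u, b1⟩
      (fun e => hu0 (congrArg Subtype.val e))
    obtain ⟨N, l1, l2, l3⟩ := extL φ v hv N₁ z (n + 1) c2 c3
    have l4 : N ^ (n + 2) ≠ 0 := fun e => l3 v (by simp [hv]) (by rw [e]; rfl)
    have hNu : N u = 0 := by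
      have := pr_val φ v hv ⟨u, b1⟩
      rw [l1, this, c1, b1]; simp
    obtain ⟨M, m1, m2⟩ := ring_aux (N := N) (R := R)
      (LinearMap.ext fun z => by rw [End.mul_apply, b2, map_smul, hNu]; simp)
      (LinearMap.ext fun w => by
        rw [End.mul_apply, b2, l1, map_add, map_smul, LinearMap.mem_ker.mp (N₁ _).2,
          LinearMap.mem_ker.mp z.2]; simp)
      (LinearMap.ext fun w => by rw [End.mul_apply, b2 w, map_smul, b2 u, b1]; simp) ⟨_, l2⟩
    exact ⟨N, M, m1, l2, l4, (m2 (n + 1)).mpr l2, fun e => l4 ((m2 n).mp e)⟩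

open Module Polynomial in
theorem cy_unip {F : Type*} [Field F] {m : ℕ} {N : End F (Fin (m + 1) → F)} (h1 : N ^ (m + 1) = 0)
    (h2 : N ^ m ≠ 0) : Com.Cy (1 + N) ((X - C 1) ^ (m + 1)) := by
  have e : ∀ j, aeval (1 + N) ((X - C (1 : F)) ^ j) = N ^ j := fun j => by simp
  refine Com.cy_of_dvd ((monic_X_sub_C 1).pow _) (by rw [natDegree_pow, natDegree_X_sub_C]; simp) fun g hg => ?_
  obtain ⟨j, hj, ha⟩ := (dvd_prime_pow (prime_X_sub_C (1 : F)) (m + 1)).mp
    (minpoly.dvd F (1 + N) ((e _).trans h1))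
  have hj' : j = m + 1 := by
    by_contra hc
    apply h2
    obtain ⟨q, hq⟩ := ha.dvd.trans (pow_dvd_pow _ (show j ≤ m by omega))
    rw [← e, hq, map_mul, minpoly.aeval, zero_mul]
  subst hj'
  exact ha.symm.dvd.trans (minpoly.dvd F _ hg)

open Module in
theorem conj_of_sim {F : Type*} [Field F] {m : ℕ} (J : GL (Fin m) F) {L : End F (Fin m → F)}
    (h : Com.Sim (Matrix.toLin' (J : Matrix (Fin m) (Fin m) F)) L) :
    ∃ x : GL (Fin m) F, Matrix.toLin' ((x * J * x⁻¹ : GL (Fin m) F) : Matrix (Fin m) (Fin m) F) = L := by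
  obtain ⟨e, he⟩ := h
  refine ⟨⟨LinearMap.toMatrix' e.toLinearMap, LinearMap.toMatrix' e.symm.toLinearMap,
    by rw [← LinearMap.toMatrix'_comp]; simp, by rw [← LinearMap.toMatrix'_comp]; simp⟩, ?_⟩
  change Matrix.toLin' (LinearMap.toMatrix' e.toLinearMap * (J : Matrix (Fin m) (Fin m) F) *
    LinearMap.toMatrix' e.symm.toLinearMap) = L
  rw [Matrix.toLin'_mul, Matrix.toLin'_mul, Matrix.toLin'_toMatrix', Matrix.toLin'_toMatrix']
  refine LinearMap.ext fun z => ?_
  change e (Matrix.toLin' (J : Matrix (Fin m) (Fin m) F) (e.symm z)) = L z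
  rw [he]; simp

/-- Let K be a field with at least four elements (finite or infinite), n ≥ 3, and J ∈ GL(n, K) the regular unipotent matrix (ones on the diagonal and the superdiagonal, zeros elsewhere). Then every non-scalar g ∈ GL(n, K) with det g = 1 is a product of two GL(n, K)-conjugates of J. -/
theorem result {K : Type*} [Field K] (hK : 4 ≤ Cardinal.mk K) (n : ℕ) (hn : 3 ≤ n) (J g : GL (Fin n) K)
    (hJ : ∀ i j : Fin n, (J : Matrix (Fin n) (Fin n) K) i j = if i = j then 1 else if j.val = i.val + 1 then 1 else 0)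
    (hg : ¬ ∃ c : K, (g : Matrix (Fin n) (Fin n) K) = c • (1 : Matrix (Fin n) (Fin n) K))
    (hdet : (g : Matrix (Fin n) (Fin n) K).det = 1) :
    ∃ x y : GL (Fin n) K, g = (x * J * x⁻¹) * (y * J * y⁻¹) := by
  open Module Polynomial Cfsg.Agent.Lev in
  classical
  have h3 : Big K := by
    intro x y z
    obtain ⟨w, hw⟩ := Cardinal.exists_notMem_of_length_lt [x, y, z] (lt_of_lt_of_le (by norm_num) hK)
    exact ⟨w, by simpa using hw⟩
  obtain ⟨n, rfl⟩ : ∃ m, n = m + 3 := ⟨n - 3, by omega⟩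
  obtain ⟨N, M, a1, a2, a3, a4, a5⟩ := fact h3 n (Matrix.toLin' (g : Matrix _ _ K) - 1)
    (by rw [add_sub_cancel, LinearMap.det_toLin', hdet]) (by
      rintro ⟨c, hc⟩
      refine hg ⟨c + 1, Matrix.toLin'.injective (LinearMap.ext fun z => ?_)⟩
      have := hc z
      simp only [LinearMap.sub_apply, End.one_apply] at this
      rw [sub_eq_iff_eq_add] at this
      rw [this, map_smul, Matrix.toLin'_one, add_smul]; simp)
  rw [add_sub_cancel] at a1
  set N₀ : End K (Fin (n + 3) → K) := Matrix.toLin' (J : Matrix _ _ K) - 1 with hN₀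
  have e0 : ∀ z i, N₀ z i = if h : i.val + 1 < n + 3 then z ⟨i.val + 1, h⟩ else 0 := by
    intro z i
    have : ∀ j, (J : Matrix (Fin (n + 3)) (Fin (n + 3)) K) i j * z j =
        (if i = j then z j else 0) + if j.val = i.val + 1 then z j else 0 := by
      intro j
      rw [hJ]
      by_cases h : i = j
      · subst h; simp
      · simp [h]
    simp only [hN₀, LinearMap.sub_apply, Matrix.toLin'_apply, End.one_apply, Pi.sub_apply,
      Matrix.mulVec, dotProduct, this, Finset.sum_add_distrib, Finset.sum_ite_eq, Finset.mem_univ,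
      if_true, add_sub_cancel_left]
    split_ifs with h
    · rw [Finset.sum_eq_single ⟨i.val + 1, h⟩ (fun j _ hj => if_neg fun e => hj (Fin.ext e)) (by simp)]
      simp
    · exact Finset.sum_eq_zero fun j _ => if_neg fun e => h (by have := j.2; omega)
  have e1 : ∀ k z i, (N₀ ^ k) z i = if h : i.val + k < n + 3 then z ⟨i.val + k, h⟩ else 0 := by
    intro k
    induction k with
    | zero => intro z i; simp
    | succ k ih =>
      intro z i
      rw [pow_succ, End.mul_apply, ih]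
      split_ifs with h1 h2 h2
      · rw [e0, dif_pos (by simp only; omega)]; rfl
      · rw [e0, dif_neg (by simp only; omega)]
      · omega
      · rfl
  have c0 : Com.Cy (1 + N₀) ((X - C 1) ^ (n + 2 + 1)) := cy_unip
    (by ext z i; simp [e1]) (fun e => by
      have := e1 (n + 2) (fun _ => 1) 0
      rw [e, dif_pos (by simp)] at this
      exact zero_ne_one this)
  rw [hN₀, add_sub_cancel] at c0
  obtain ⟨x, hx⟩ := conj_of_sim J (c0.sim (cy_unip a2 a3))
  obtain ⟨y, hy⟩ := conj_of_sim J (c0.sim (cy_unip a4 a5))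
  refine ⟨x, y, Units.ext (Matrix.toLin'.injective ?_)⟩
  rw [Units.val_mul, Matrix.toLin'_mul, hx, hy, a1]; rfl

end Cfsg.Agent.S2522
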