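import Mathlib
import Cfsg.Statements.S2524
import Cfsg.Agent.ULT.SW7

set_option autoImplicit false
open Cfsg

namespace Cfsg.Agent.S2524


/-- Let F be a finite field of odd order q and G = Sp(2n, F) with n ≥ 2. Then G has exactly four irreducible complex characters of degree (q^n + 1)/2 or (q^n − 1)/2 (two of each), and every other non-principal irreducible character has degree at least (q^n − 1)(q^n − q)/(2(q + 1)). -/
theorem result {F : Type*} [Field F] [Fintype F] (hodd : Odd (Fintype.card F)) (n : ℕ) (hn : 2 ≤ n) :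
    Nat.card {χ : Cfsg.IrrCharacter ↥(Matrix.symplecticGroup (Fin n) F) // (χ : ↥(Matrix.symplecticGroup (Fin n) F) → ℂ) 1 = (((Fintype.card F) ^ n + 1 : ℕ) : ℂ) / 2} = 2 ∧
    Nat.card {χ : Cfsg.IrrCharacter ↥(Matrix.symplecticGroup (Fin n) F) // (χ : ↥(Matrix.symplecticGroup (Fin n) F) → ℂ) 1 = (((Fintype.card F) ^ n - 1 : ℕ) : ℂ) / 2} = 2 ∧
    ∀ χ : Cfsg.IrrCharacter ↥(Matrix.symplecticGroup (Fin n) F),
      (χ : ↥(Matrix.symplecticGroup (Fin n) F) → ℂ) 1 ≠ 1 →
      (χ : ↥(Matrix.symplecticGroup (Fin n) F) → ℂ) 1 ≠ (((Fintype.card F) ^ n + 1 : ℕ) : ℂ) / 2 →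
      (χ : ↥(Matrix.symplecticGroup (Fin n) F) → ℂ) 1 ≠ (((Fintype.card F) ^ n - 1 : ℕ) : ℂ) / 2 →
      (((Fintype.card F) ^ n - 1 : ℕ) : ℝ) * (((Fintype.card F) ^ n - Fintype.card F : ℕ) : ℝ) / (2 * ((Fintype.card F : ℕ) + 1 : ℝ)) ≤ ‖(χ : ↥(Matrix.symplecticGroup (Fin n) F) → ℂ) 1‖ := by
  classical
  have h2 : (2 : F) ≠ 0 := by
    intro h
    have : ringChar F = 2 := CharP.ringChar_of_prime_eq_zero Nat.prime_two (by exact_mod_cast h)
    have := FiniteField.even_card_of_char_two this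
    rw [Nat.odd_iff] at hodd
    omega
  have hq : 3 ≤ Fintype.card F := by
    have := Fintype.one_lt_card (α := F)
    rw [Nat.odd_iff] at hodd
    omega
  obtain ⟨χ, h1, h3⟩ := ULT.SW.weil_class (ι := Fin n) h2 (by simpa using hn)
  simp only [Fintype.card_fin] at h1 h3
  let e := Classical.SpMat.spEquiv (Fin n) F
  have h9 : 9 ≤ Fintype.card F ^ n :=
    le_trans (by nlinarith) (Nat.pow_le_pow_right (by omega) hn : Fintype.card F ^ 2 ≤ _)
  have key : ∀ φ : Cfsg.IrrCharacter ↥(Matrix.symplecticGroup (Fin n) F), φ.1 1 ≠ 1 →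
      ∃ k : ℕ, φ.1 1 = k ∧ ((∃ s j, s * s = 1 ∧ φ.1 = fun g => χ s j (e g)) ∨
        (Fintype.card F ^ n - 1) * (Fintype.card F ^ n - Fintype.card F) ≤
          2 * (Fintype.card F + 1) * k) := fun φ hφ => by
    obtain ⟨k, ρ, hρ, hc⟩ := Char.isIrr_comp_equiv e.symm φ.2
    have hk : φ.1 1 = k := by simpa using (congrFun hc 1).symm
    have h0 := Char.isIrr_one_ne_zero φ.2
    refine ⟨k, hk, (h3 k ρ hρ ?_).imp_left fun ⟨s, j, a, b⟩ => ⟨s, j, a, funext fun g => ?_⟩⟩
    · rw [hk] at hφ h0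
      have a : k ≠ 1 := by exact_mod_cast hφ
      have b : k ≠ 0 := by exact_mod_cast h0
      omega
    · rw [← b, hc]; simp
  have cnt : ∀ s : ℂ, s * s = 1 → ∀ d : ℕ, (d : ℂ) = Fintype.card F ^ n + s →
      Nat.card {φ : Cfsg.IrrCharacter ↥(Matrix.symplecticGroup (Fin n) F) //
        φ.1 1 = (d : ℂ) / 2} = 2 := fun s hs d hd => by
    obtain ⟨a, b⟩ := h1 s hs
    have hd' : Fintype.card F ^ n - 1 ≤ d ∧ d ≤ Fintype.card F ^ n + 1 := by
      rcases mul_self_eq_one_iff.1 hs with rfl | rfl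
      · have : d = Fintype.card F ^ n + 1 := by exact_mod_cast hd
        omega
      · have : d + 1 = Fintype.card F ^ n := by exact_mod_cast (eq_add_neg_iff_add_eq.1 hd)
        omega
    let f (j : Bool) : {φ : Cfsg.IrrCharacter ↥(Matrix.symplecticGroup (Fin n) F) //
        φ.1 1 = (d : ℂ) / 2} := ⟨⟨_, Char.isIrr_comp_equiv e (a j).1⟩, by
      simp only [map_one]; rw [hd, ← (a j).2]; ring⟩
    refine Nat.card_eq_two_iff.2 ⟨f false, f true, fun h => b (funext fun g => ?_),
      Set.eq_univ_of_forall fun φ => ?_⟩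
    · simpa [f] using congrFun (congrArg (fun φ => φ.1.1) h) (e.symm g)
    · obtain ⟨k, hk, h⟩ := key φ.1 fun h => by
        have : (d : ℂ) = 2 := by have := φ.2; rw [h] at this; linear_combination -2 * this
        have : d = 2 := by exact_mod_cast this
        omega
      have hk2 : 2 * k = d := by
        have : (2 * k : ℂ) = d := by rw [← hk, φ.2]; ring
        exact_mod_cast this
      obtain ⟨s', j, hs', h⟩ := h.resolve_right (ULT.SW.num_lt hq hn (by omega)).not_ge
      obtain rfl : s' = s := by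
        have a := ((h1 s' hs').1 j).2
        have b := φ.2
        rw [h] at b
        simp only [map_one] at b
        linear_combination 2 * b - a + hd
      cases j
      · exact Or.inl (Subtype.ext (Subtype.ext h))
      · exact Or.inr (Subtype.ext (Subtype.ext h))
  have hm : ((Fintype.card F ^ n - 1 : ℕ) : ℂ) = Fintype.card F ^ n + -1 := by
    rw [Nat.cast_sub (by omega)]; push_cast; ring
  refine ⟨cnt 1 (by simp) _ (by simp), cnt (-1) (by simp) _ hm, fun φ a b c => ?_⟩
  obtain ⟨k, hk, ⟨s, j, hs, h⟩ | h⟩ := key φ a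
  · have := ((h1 s hs).1 j).2
    rw [h] at b c
    simp only [map_one] at b c
    rcases mul_self_eq_one_iff.1 hs with rfl | rfl
    · exact absurd (by push_cast; linear_combination this / 2) b
    · exact absurd (by rw [hm]; linear_combination this / 2) c
  · rw [hk, Complex.norm_natCast, div_le_iff₀ (by positivity), mul_comm (k : ℝ)]
    exact_mod_cast h

end Cfsg.Agent.S2524
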