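import Cfsg.Statements.S2525
import Mathlib
import Cfsg.Agent.Chev.SsF4b
import Cfsg.Agent.S1062

set_option autoImplicit false
open Cfsg

namespace Cfsg.Agent.S2525
open Cfsg.Lie Cfsg.Agent.Chev

/-- Let F be a finite field with q = 2^n elements and G = F₄(F). For an odd prime r let e(r, q) be the multiplicative order of q modulo r. Two distinct primes r, s dividing the order of G are non-adjacent in the prime graph of G (no element of order rs) if and only if, up to swapping r and s, either r = 2 and e(s, q) ∈ {8, 12}, or r, s are both odd with k = e(r, q) < l = e(s, q) and one of: l ∈ {8, 12}; l = 6 and k ∈ {3, 4}; l = 4 and k = 3. -/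
theorem result {F : Type*} [Field F] [Fintype F] (n : ℕ) (hn : 1 ≤ n) (hF : Fintype.card F = 2 ^ n)
    (r s : ℕ) (hr : r.Prime) (hs : s.Prime) (hrs : r ≠ s) (hrG : r ∣ Nat.card ↥(Cfsg.Lie.chevF4.group F)) (hsG : s ∣ Nat.card ↥(Cfsg.Lie.chevF4.group F)) :
    (¬ ∃ x : ↥(Cfsg.Lie.chevF4.group F), orderOf x = r * s) ↔
      ((r = 2 ∧ orderOf ((Fintype.card F : ℕ) : ZMod s) ∈ ({8, 12} : Finset ℕ)) ∨ (s = 2 ∧ orderOf ((Fintype.card F : ℕ) : ZMod r) ∈ ({8, 12} : Finset ℕ)) ∨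
       (r ≠ 2 ∧ s ≠ 2 ∧
         ((orderOf ((Fintype.card F : ℕ) : ZMod r) < orderOf ((Fintype.card F : ℕ) : ZMod s) ∧ (orderOf ((Fintype.card F : ℕ) : ZMod s) ∈ ({8, 12} : Finset ℕ) ∨ (orderOf ((Fintype.card F : ℕ) : ZMod s) = 6 ∧ orderOf ((Fintype.card F : ℕ) : ZMod r) ∈ ({3, 4} : Finset ℕ)) ∨ (orderOf ((Fintype.card F : ℕ) : ZMod s) = 4 ∧ orderOf ((Fintype.card F : ℕ) : ZMod r) = 3))) ∨
          (orderOf ((Fintype.card F : ℕ) : ZMod s) < orderOf ((Fintype.card F : ℕ) : ZMod r) ∧ (orderOf ((Fintype.card F : ℕ) : ZMod r) ∈ ({8, 12} : Finset ℕ) ∨ (orderOf ((Fintype.card F : ℕ) : ZMod r) = 6 ∧ orderOf ((Fintype.card F : ℕ) : ZMod s) ∈ ({3, 4} : Finset ℕ)) ∨ (orderOf ((Fintype.card F : ℕ) : ZMod r) = 4 ∧ orderOf ((Fintype.card F : ℕ) : ZMod s) = 3)))))) := by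
  have h2 : (2 : F) = 0 := by
    have := FiniteField.cast_card_eq_zero F
    rw [hF, Nat.cast_pow] at this
    exact (pow_eq_zero_iff (by omega)).mp this
  haveI : CharP F 2 := (CharP.charP_iff_prime_eq_zero Nat.prime_two).mpr h2
  have key : ∀ r : ℕ, r.Prime → r ≠ 2 → r ∣ Nat.card ↥(chevF4.group F) → ∀ e,
      e = orderOf ((Fintype.card F : ℕ) : ZMod r) → ((Fintype.card F : ℕ) : ZMod r) ≠ 0 ∧
      (e = 1 ∨ e = 2 ∨ e = 3 ∨ e = 4 ∨ e = 6 ∨ e = 8 ∨ e = 12) ∧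
      (((Fintype.card F : ZMod r) ^ 4 = 1 ∨ (Fintype.card F : ZMod r) ^ 6 = 1) ↔ (e ∣ 4 ∨ e ∣ 6)) ∧
      ∀ i, fF4 i (Fintype.card F : ZMod r) = 0 ↔
        ![e ∣ 2 ∨ e ∣ 3, e ∣ 4, e ∣ 2 ∨ (e ∣ 6 ∧ ¬ e ∣ 3), e ∣ 8 ∧ ¬ e ∣ 4,
          e ∣ 12 ∧ ¬ e ∣ 6 ∧ ¬ e ∣ 4] i := fun r hr h2 hG e he => by
    haveI := Fact.mk hr
    have h3 : (2 : ZMod r) ≠ 0 := fun h => h2 ((Nat.prime_dvd_prime_iff_eq hr Nat.prime_two).mp
      ((ZMod.natCast_eq_zero_iff 2 r).mp h))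
    have h0 : ((Fintype.card F : ℕ) : ZMod r) ≠ 0 := by rw [hF]; simp [h3]
    have h4 : (3 : ZMod r) = 0 → ((Fintype.card F : ℕ) : ZMod r) ^ 2 = 1 := fun h => by
      obtain rfl := (Nat.prime_dvd_prime_iff_eq hr Nat.prime_three).mp
        ((ZMod.natCast_eq_zero_iff 3 r).mp h)
      exact ZMod.pow_card_sub_one_eq_one h0
    have h5 : e ∣ 8 ∨ e ∣ 12 := by
      rw [S1062.result rfl, ← ZMod.natCast_eq_zero_iff] at hG
      have := fun k => Nat.one_le_pow k _ (Fintype.card_pos (α := F))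
      simp only [Nat.cast_mul, Nat.cast_sub (this _), Nat.cast_pow, Nat.cast_one, mul_eq_zero,
        sub_eq_zero, pow_eq_zero_iff (by decide : 24 ≠ 0), h0, false_or,
        ← orderOf_dvd_iff_pow_eq_one, ← he] at hG
      rcases hG with ((h | h) | h) | h
      exacts [.inl (h.trans (by decide)), .inr (h.trans (by decide)), .inl h, .inr h]
    refine ⟨h0, ?_, by simp only [he, orderOf_dvd_iff_pow_eq_one], fun i => ?_⟩
    · rcases h5 with h | h <;> have := Nat.le_of_dvd (by decide) h <;> clear he <;>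
        interval_cases e <;> omega
    obtain ⟨a, b, c, d, f⟩ := fF4_field _ h3 h4
    fin_cases i <;> simp only [fF4, he, orderOf_dvd_iff_pow_eq_one, Matrix.cons_val, Fin.zero_eta,
      Fin.mk_one, Fin.reduceFinMk] <;> assumption
  by_cases h1 : r = 2
  · subst h1
    obtain ⟨h0, h3, h4, -⟩ := key s hs hrs.symm hsG _ rfl
    rw [adj_two_F4 hs hrs.symm h0, h4]
    rcases h3 with h | h | h | h | h | h | h <;> simp [h, hrs.symm]
  by_cases h1' : s = 2
  · subst h1'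
    obtain ⟨h0, h3, h4, -⟩ := key r hr hrs hrG _ rfl
    rw [mul_comm, adj_two_F4 hr hrs h0, h4]
    rcases h3 with h | h | h | h | h | h | h <;> simp [h, hrs]
  obtain ⟨-, h3, -, h4⟩ := key r hr h1 hrG _ rfl
  obtain ⟨-, h5, -, h6⟩ := key s hs h1' hsG _ rfl
  simp only [adj_odd_F4 hr hs hrs h1 h1', h4, h6, h1, h1', false_and, false_or, ne_eq,
    not_false_eq_true, true_and, Fin.exists_fin_succ, Matrix.cons_val_zero, Matrix.cons_val_succ]
  generalize orderOf ((Fintype.card F : ℕ) : ZMod r) = a at h3 ⊢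
  generalize orderOf ((Fintype.card F : ℕ) : ZMod s) = b at h5 ⊢
  rcases h3 with rfl | rfl | rfl | rfl | rfl | rfl | rfl <;>
    rcases h5 with rfl | rfl | rfl | rfl | rfl | rfl | rfl <;> simp

end Cfsg.Agent.S2525
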