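import Mathlib
import Cfsg.Statements.S2556
import Cfsg.Agent.Gl23.SA
import Cfsg.Agent.RankOne.SzLie
import Cfsg.Agent.RankOne.SzSylow

set_option autoImplicit false
open Cfsg

namespace Cfsg.Agent.S2556


/-- Let S be a Sylow 2-subgroup of the Suzuki group Sz(q), q = 2ⁿ with n = 2m + 1 ≥ 3 (realised as 4 × 4 matrices over the field with q elements). Then the largest normal 2-subgroup of the automorphism group of S is elementary abelian of order 2^(n²), and the automorphism group of S has order 2^(n²) · n · (q − 1). -/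
theorem result {S : Type*} [Group S] [Finite S] (m : ℕ) (hm : 1 ≤ m)
    {F : Type*} [Field F] [Fintype F] (hF : Fintype.card F = 2 ^ (2 * m + 1))
    (P : Sylow 2 ↥(Cfsg.Lie.Sz F (2 ^ (m + 1)))) (hS : Nonempty (S ≃* ↥(P : Subgroup ↥(Cfsg.Lie.Sz F (2 ^ (m + 1)))))) :
    Cfsg.IsElementaryAbelian 2 (Cfsg.pCore 2 (MulAut S)) ∧ Nat.card ↥(Cfsg.pCore 2 (MulAut S)) = 2 ^ ((2 * m + 1) ^ 2) ∧
      Nat.card (MulAut S) = 2 ^ ((2 * m + 1) ^ 2) * ((2 * m + 1) * (2 ^ (2 * m + 1) - 1)) := by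
  have : CharP F 2 := RankOne.Sz.charP_of_card hF
  obtain ⟨_, ⟨Z⟩⟩ := RankOne.Sz.exists_model_lie hF hm
  obtain ⟨Y, hY⟩ := Z.exists_model_sylow P
  obtain ⟨e0⟩ := hS
  let θ : RingAut F := RingEquiv.ofBijective Y.θ (Finite.injective_iff_bijective.1 Y.θ.injective)
  have hθ : ∀ x, θ x = Y.θ x := fun _ => rfl
  have h : Gl23.SA.Tw θ (2 * m + 1) := by
    refine ⟨by rw [Nat.card_eq_fintype_card, hF], Y.θθ, fun ρ x => by
      rw [hθ, hθ, Y.θ_apply, Y.θ_apply, map_pow], ?_⟩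
    obtain ⟨y, hy⟩ := RankOne.Sz.exists_theta_ne hm hF Y.θθ
    refine ⟨y, fun e => hy ?_⟩
    have e1 : ∀ k, y ^ 2 ^ (2 * k + 1) = y ^ 2 := fun k => by
      induction k with
      | zero => simp
      | succ k ih => rw [show 2 ^ (2 * (k + 1) + 1) = 4 * 2 ^ (2 * k + 1) by ring, pow_mul, e, ih]
    have e2 := e1 m
    rw [RankOne.Sz.pow_q hF] at e2
    have : y = 0 ∨ y = 1 := by
      have : y * (y - 1) = 0 := by linear_combination - e2
      exact (mul_eq_zero.1 this).imp id sub_eq_zero.1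
    rcases this with rfl | rfl <;> simp
  let f : Gl23.SA.SG θ →* Y.Q := MonoidHom.mk' (fun x => ⟨Y.S x.a x.l, (Y.mem_Q _).2 ⟨_, _, rfl⟩⟩)
    fun x y => Subtype.ext (Y.S_mul _ _ _ _).symm
  have hf : Function.Bijective f := ⟨fun x y e => Gl23.SA.SG.ext (Y.S_inj (congrArg Subtype.val e)).1
    (Y.S_inj (congrArg Subtype.val e)).2, fun g => by
      obtain ⟨x, y, e⟩ := (Y.mem_Q _).1 g.2
      exact ⟨⟨x, y⟩, Subtype.ext e.symm⟩⟩
  exact h.main (e0.trans ((MulEquiv.subgroupCongr hY.symm).trans (MulEquiv.ofBijective f hf).symm))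

end Cfsg.Agent.S2556
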