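import Mathlib
import Cfsg.Statements.S2685
import Cfsg.Agent.S2683
import Cfsg.Agent.S2172
-- import your own Cfsg.Agent.* helpers here

set_option autoImplicit false
open Cfsg

namespace Cfsg.Agent.S2685

/-- For the hyperbolic form Q = Σ x_j y_j on F^(2m) over a finite field with q elements, q even (excluding m = 2 over the field of two elements), and an involution x of the orthogonal group with s = rank(x − 1) even and Q not vanishing on the image of x − 1 (f(v, xv) ≠ 0 for some v, where f(u, w) = Q(u + w) − Q(u) − Q(w) is the bilinear form of Q; type c_s, which lies in Ω): its centraliser in Ω (the commutator subgroup of the orthogonal group) has order q^(2m(s−1) − (3s² − 5s)/2 − 1) · |Sp_(s−2)(q)| · |Sp_(2m−2s)(q)|. -/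
theorem result {F : Type*} [Field F] [Fintype F] [CharP F 2] {q : ℕ} (hF : Fintype.card F = q) {m s : ℕ} (h : Fintype.card F ≠ 2 ∨ m ≠ 2) (x : ↥(Cfsg.isometryGroup F (Cfsg.quadFormPlus m F))) (hx : x ^ 2 = 1) (hs : (((x : Matrix.GeneralLinearGroup (Fin m ⊕ Fin m) F) : Matrix (Fin m ⊕ Fin m) (Fin m ⊕ Fin m) F) - 1).rank = s) (heven : Even s) (hna : ∃ v : Fin m ⊕ Fin m → F, Cfsg.quadFormPlus m F ((((x : Matrix.GeneralLinearGroup (Fin m ⊕ Fin m) F) : Matrix (Fin m ⊕ Fin m) (Fin m ⊕ Fin m) F) - 1).mulVec v) ≠ 0) : Nat.card {g : ↥(Cfsg.Omega F (Cfsg.quadFormPlus m F)) // (g : ↥(Cfsg.isometryGroup F (Cfsg.quadFormPlus m F))) * x = x * (g : ↥(Cfsg.isometryGroup F (Cfsg.quadFormPlus m F)))} = q ^ (2 * m * (s - 1) - (3 * s ^ 2 - 5 * s) / 2 - 1) * ((q : ℕ) ^ (((s - 2) / 2) ^ 2) * ∏ i : Fin ((s - 2) / 2), (q ^ (2 * ((i : ℕ) + 1)) - 1)) * ((q : ℕ) ^ ((m - s) ^ 2) * ∏ i : Fin (m - s), (q ^ (2 * ((i : ℕ) + 1)) - 1)) := by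
  have h2 : (2 : F) = 0 := Orth.two_eq_zero_of_charP
  have hQ := Orth.nd_plusQ (F := F) m
  refine (S2683.conv (Q := Orth.plusQ m F) x).trans ?_
  have ht : Orth.toOG (Orth.plusQ m F) x * Orth.toOG _ x = 1 :=
    (map_mul _ _ _).symm.trans ((congrArg _ ((pow_two x).symm.trans hx)).trans (map_one _))
  have hs' : Orth.rk (Orth.toOG (Orth.plusQ m F) x) = s := (Orth.rk_toOG _).trans hs
  have h3 : ¬ Orth.Sing (Orth.plusQ m F) (Orth.mov (Orth.toOG (Orth.plusQ m F) x)) := fun h => by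
    obtain ⟨v, hv⟩ := hna
    refine hv (h _ ?_)
    rw [Matrix.sub_mulVec, Matrix.one_mulVec]
    exact Orth.sub_mem_mov (Orth.toOG (Orth.plusQ m F) x) v
  generalize Orth.toOG (Orth.plusQ m F) x = t at ht hs' h3
  obtain ⟨h6, h7, h8⟩ := S2683.main h2 (Orth.good_plus h) t ht h3
  have h9 : Module.finrank F (LinearMap.range (Orth.mv t.1)) = s := hs'
  rw [h8, (hQ.symND_wall ht).card_SG_nonalt h2 (mt (Orth.isAlt_wall_iff_sing h2 ht).1 h3), h9, if_pos heven,
    hs', Nat.card_eq_fintype_card, hF, S2681.ordSp_eq, S2681.ordSp_eq, ← mul_assoc (q ^ _), ← pow_add]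
  congr 3
  rw [hs'] at h6 h7
  obtain ⟨r, rfl⟩ : ∃ r, m = s + r := ⟨m - s, by omega⟩
  obtain ⟨k, rfl⟩ : ∃ k, s = k + 2 := ⟨s - 2, by rw [Nat.even_iff] at heven; omega⟩
  obtain ⟨T, hT⟩ := Nat.even_mul_succ_self k
  simp only [Nat.add_sub_cancel_left, show k + 2 - 1 = k + 1 by omega]
  rw [show 2 * (k + 2 + r) * (k + 1) = 2 * (k * (k + 1)) + 4 * (k + 1) + 2 * (k + 1) * r by ring,
    show 3 * (k + 2) ^ 2 = 3 * (k * (k + 1)) + 9 * k + 12 by ring,
    show (k + 2) * (k + 1) = k * (k + 1) + 2 * (k + 1) by ring]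
  omega

end Cfsg.Agent.S2685
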