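import Mathlib
import Cfsg.Statements.S2686
import Cfsg.Agent.Classical.Bal3

set_option autoImplicit false
set_option backward.isDefEq.respectTransparency false
open Cfsg

namespace Cfsg.Agent.S2686

open Classical.AutPSL Classical.AutPSL2 Classical.AutPSL3 Classical.Bal

/-- A criterion for the failure of local balance in almost simple groups with linear socle. Let F be a finite field of characteristic r and K = PSL_n(F) (n ≥ 2) simple. Let A be a group of automorphisms of K containing all inner automorphisms (an almost simple group with socle K), and β ∈ A an automorphism of prime order p ≠ r that is not inner-diagonal (not induced by conjugation by an invertible matrix). Then the largest normal subgroup of C_A(β) of order prime to p is nontrivial if and only if β is the composite of an inner-diagonal automorphism with the automorphism induced by a field automorphism applied entrywise (β is of field type) and p does not divide the number of fixed points of β on K. -/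
theorem result
    (F : Type*) [Field F] [Fintype F] (r : ℕ) [Fact r.Prime] [CharP F r] (n : ℕ) (hn : 2 ≤ n)
    (hK : IsSimpleGroup (Matrix.ProjectiveSpecialLinearGroup (Fin n) F))
    (𝒢 : Subgroup (MulAut (Matrix.ProjectiveSpecialLinearGroup (Fin n) F))) (hinn : ∀ k : Matrix.ProjectiveSpecialLinearGroup (Fin n) F, MulAut.conj k ∈ 𝒢)
    (p : ℕ) [Fact p.Prime] (hpr : p ≠ r) (β : MulAut (Matrix.ProjectiveSpecialLinearGroup (Fin n) F)) (hβ : β ∈ 𝒢) (hord : orderOf β = p)
    (hnot : ¬ Cfsg.IsInnerDiagonalAutPSL β) :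
    Cfsg.pPrimeCore p ↥(𝒢 ⊓ Subgroup.centralizer {β}) ≠ ⊥ ↔
      ((∃ γ φ : MulAut (Matrix.ProjectiveSpecialLinearGroup (Fin n) F), Cfsg.IsInnerDiagonalAutPSL γ ∧ Cfsg.IsFieldAutPSL φ ∧ β = φ.trans γ) ∧
        Nat.Coprime p (Nat.card ↥(MonoidHom.eqLocus β.toMonoidHom (MonoidHom.id (Matrix.ProjectiveSpecialLinearGroup (Fin n) F))))) := by
  have : Nontrivial (Fin n) := Fin.nontrivial_iff_two_le.2 hn
  have hp : p.Prime := Fact.out
  have hr : r.Coprime p := (Nat.coprime_primes Fact.out hp).2 hpr.symm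
  have h1 : (∃ γ φ : MulAut (Matrix.ProjectiveSpecialLinearGroup (Fin n) F),
      Cfsg.IsInnerDiagonalAutPSL γ ∧ Cfsg.IsFieldAutPSL φ ∧ β = φ.trans γ) ↔
      ∃ g σ, β = dA g * fA _ σ := by
    simp only [isInnerDiagonal_iff, isField_iff]
    exact ⟨by rintro ⟨_, _, ⟨g, rfl⟩, ⟨σ, rfl⟩, h⟩; exact ⟨g, σ, h⟩,
      fun ⟨g, σ, h⟩ => ⟨_, _, ⟨g, rfl⟩, ⟨σ, rfl⟩, h⟩⟩
  rw [h1]
  by_cases h : ∃ g σ, β = dA g * fA _ σ
  · rw [and_iff_right h]
    obtain ⟨g, σ, rfl⟩ := h
    have h2 : orderOf σ = p := ((Nat.dvd_prime hp).1 (hord ▸ dictL.ord g σ)).resolve_left fun h =>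
      hnot (isInnerDiagonal_iff.2 ⟨g, by rw [orderOf_eq_one_iff.1 h, map_one, mul_one]⟩)
    exact (crit_fA hn hp hr h2).iff hp conj_injL
      (isConjUnder_fA hp.ne_zero h2 (hord ▸ pow_orderOf_eq_one _)) hinn
  refine iff_of_false (not_not.2 ?_) fun h2 => h h2.1
  obtain ⟨g, σ, rfl⟩ := (exists_decomp hn β).imp fun g h2 => h2.imp fun σ h2 =>
    h2.resolve_left fun h3 => h ⟨g, σ, h3⟩
  rcases hn.eq_or_lt with rfl | h3
  · obtain ⟨w, hw⟩ := exists_gA_eq_dA (F := F)
    exact (h ⟨_, σ, by rw [hw, mul_assoc, fA_mul_dA, ← mul_assoc, ← map_mul]⟩).elim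
  obtain rfl : p = 2 := by_contra fun h4 => h (decomp_odd h3
    (hord ▸ (Nat.coprime_primes hp Nat.prime_two).2 h4))
  rw [mul_assoc] at hord ⊢
  exact bot_gA h3 (Nat.coprime_two_right.1 hr) (hord ▸ pow_orderOf_eq_one _) _ hinn

end Cfsg.Agent.S2686
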