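import Mathlib
import Cfsg.Statements.S2687
import Cfsg.Agent.Classical.Bal3
import Cfsg.Agent.S0827

set_option autoImplicit false
set_option backward.isDefEq.respectTransparency false
open Cfsg

namespace Cfsg.Agent.S2687

open Classical.AutU Classical.Bal Classical.GrF

/-- A criterion for the failure of local balance in almost simple groups with unitary socle. Let F be a finite field of characteristic r with q² elements and K = PSU_n(q) (n ≥ 3, the central quotient of the determinant-one isometries of the standard Hermitian form) simple. Let A be a group of automorphisms of K containing all inner automorphisms, and β ∈ A an automorphism of prime order p ≠ r that is not inner-diagonal (not induced by conjugation by a matrix of the general unitary group). Then the largest normal subgroup of C_A(β) of order prime to p is nontrivial if and only if β is the composite of an inner-diagonal automorphism with the automorphism induced by a field automorphism of F applied entrywise and p does not divide the number of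 fixed points of β on K. -/
theorem result
    (F : Type*) [Field F] [Fintype F] (r : ℕ) [Fact r.Prime] [CharP F r] (q : ℕ) (hF : Fintype.card F = q ^ 2)
    (n : ℕ) (hn : 3 ≤ n) (hK : IsSimpleGroup (Cfsg.PSU n F q))
    (𝒢 : Subgroup (MulAut (Cfsg.PSU n F q))) (hinn : ∀ k : Cfsg.PSU n F q, MulAut.conj k ∈ 𝒢)
    (p : ℕ) [Fact p.Prime] (hpr : p ≠ r) (β : MulAut (Cfsg.PSU n F q)) (hβ : β ∈ 𝒢) (hord : orderOf β = p)
    (hnot : ¬ Cfsg.IsInnerDiagonalAutPSU β) :
    Cfsg.pPrimeCore p ↥(𝒢 ⊓ Subgroup.centralizer {β}) ≠ ⊥ ↔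
      ((∃ γ φ : MulAut (Cfsg.PSU n F q), Cfsg.IsInnerDiagonalAutPSU γ ∧ (∃ σ : F ≃+* F, Cfsg.IsFieldAutPSUOf σ φ) ∧ β = φ.trans γ) ∧
        Nat.Coprime p (Nat.card ↥(MonoidHom.eqLocus β.toMonoidHom (MonoidHom.id (Cfsg.PSU n F q))))) := by
  have hp : p.Prime := Fact.out
  have hr : r.Coprime p := (Nat.coprime_primes Fact.out hp).2 hpr.symm
  have hF' := Herm.natCard_of_card hF
  have h32 : ¬ (n = 3 ∧ q = 2) := by
    rintro ⟨rfl, rfl⟩
    obtain ⟨N, hN, h1, -, ⟨e⟩⟩ := S0827.result hF
    rcases hN.eq_bot_or_eq_top with rfl | rfl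
    · simp at h1
    · have := QuotientGroup.subsingleton_quotient_top (G := Cfsg.PSU 3 F 2)
      exact absurd (e.symm.injective (Subsingleton.elim _ _) :
        (QuaternionGroup.xa 0 : QuaternionGroup 2) = 1) (by decide)
  obtain ⟨g, σ, rfl⟩ := exists_decomp hF' hn h32 β
  rw [and_iff_right ⟨_, _, isInnerDiagonal_iff.2 ⟨g, rfl⟩, ⟨σ, isField_iff.2 rfl⟩, rfl⟩]
  have h1 : σ ≠ 1 := fun h => hnot (isInnerDiagonal_iff.2 ⟨g, by rw [h, map_one, mul_one]⟩)
  have h2 : orderOf σ = p := ((Nat.dvd_prime hp).1 (hord ▸ (dictU hF' hn h32).ord g σ)).resolve_left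
    (mt orderOf_eq_one_iff.1 h1)
  have h3 := conj_injective hF' hn h32
  rcases hp.eq_two_or_odd' with rfl | ho
  · obtain rfl : σ = fr hF' := RingEquiv.ext
      ((Classical.AutPSL3.inv_of_sq h1 (h2 ▸ pow_orderOf_eq_one _)).apply_pow hF')
    exact (crit_fr hF' hn h32 (Nat.coprime_two_right.1 hr) (hord ▸ pow_orderOf_eq_one _)).iff hp h3
      (D := ⊤) ⟨1, trivial, by simp⟩ hinn
  · exact (crit_fU hF' hn h32 hp ho hr h2).iff hp h3
      (isConjUnder_fU' hF' hn h32 ho h2 (hord ▸ pow_orderOf_eq_one _)) hinn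

end Cfsg.Agent.S2687
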