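import Mathlib
import Cfsg.Statements.S2730
import Cfsg.Agent.Classical.AutSp5

set_option autoImplicit false
set_option backward.isDefEq.respectTransparency false
open Cfsg

namespace Cfsg.Agent.S2730

open Classical.AutSp2 Classical.AutSp3 Classical.AutSp5 Classical.Balance

/-- A criterion for the failure of local balance in almost simple groups whose socle is a projective symplectic group PSp_{2m}(F) (m ≥ 2, (2m, |F|) ≠ (4, 2)). Let F be a finite field of characteristic r and K the (simple) group in question; let A be a group of automorphisms of K containing all inner automorphisms, and x ∈ A an automorphism of prime order p ≠ r that is not inner-diagonal (not induced by a conformal symplectic matrix). Then the largest normal subgroup of C_A(x) of order prime to p is nontrivial if and only if x is a field automorphism of K (conjugate under Aut(K) to a non-identity standard field automorphism) and p does not divide the number of fixed points of x on K. -/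
theorem result {F : Type*} [Field F] [Fintype F] {r : ℕ} [Fact r.Prime] [CharP F r] {m : ℕ} (hm : 2 ≤ m) (hs : m = 2 → 3 ≤ Fintype.card F) (hK : IsSimpleGroup (Cfsg.PSp m F)) (A : Subgroup (MulAut (Cfsg.PSp m F))) (hinn : ∀ k : Cfsg.PSp m F, MulAut.conj k ∈ A) {p : ℕ} [Fact p.Prime] (hpr : p ≠ r) (x : MulAut (Cfsg.PSp m F)) (hxA : x ∈ A) (hord : orderOf x = p) (hnot : ¬ Cfsg.IsInnerDiagonalAutPSp x) :
    Cfsg.pPrimeCore p ↥(A ⊓ Subgroup.centralizer {x}) ≠ ⊥ ↔ (Cfsg.IsFieldAutClassPSp x ∧ Nat.Coprime p (Nat.card ↥(MonoidHom.eqLocus x.toMonoidHom (MonoidHom.id (Cfsg.PSp m F))))) := by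
  haveI : NeZero m := ⟨by omega⟩
  have hp : p.Prime := Fact.out
  obtain ⟨g, σ, hx⟩ := exists_decomp_prime hm hp hpr hord
  have h1 : σ ≠ 1 := by
    rintro rfl
    exact hnot (isInnerDiagonal_iff.2 ⟨g, by rw [hx, map_one, mul_one]⟩)
  have h2 : (dS g * fS m σ) ^ p = 1 := by rw [← hx, ← hord, pow_orderOf_eq_one]
  have h3 : orderOf σ = p := orderOf_eq_prime
    (eq_one_of_dS_mul_fS ((pow_dS_mul_fS g σ p).symm.trans h2)) h1
  obtain ⟨α, -, hα⟩ := Classical.SplitCount.IsConjUnder.symm (isConjUnder_fS hp.ne_zero h3 h2)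
  rw [← hx] at hα
  constructor
  · intro h
    refine ⟨⟨α, σ, h1, isStdField_iff.2 hα.symm⟩, by_contra fun hc => h (core_eq_bot_conj α ?_)⟩
    obtain ⟨k, hk, hkp⟩ := exists_fix_orderOf hp α hc
    rw [← hα] at hk ⊢
    exact core_eq_bot_fS hm hp hpr h3 (inn_map hinn α) hk hkp
  · rintro ⟨-, h⟩
    refine core_ne_bot conj_injective hinn (k := α⁻¹ (tvM (m := m) 1 (1 : F) :)) (α.injective ?_)
      (fun h0 => one_ne_zero (tv_coeff_inj (m := m) (v := 1) (c := (1 : F)) (d := 0) one_ne_zero ?_)) h
    · have := congrArg (fun β : MulAut (PSp m F) => β (tvM (m := m) 1 (1 : F) :)) hα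
      simp only [fS_mk, fieldSp_tvM, map_one] at this
      rw [show σ ∘ (1 : Fin m ⊕ Fin m → F) = 1 from funext fun _ => map_one σ] at this
      simpa using this.symm
    · rw [map_eq_one_iff _ (MulEquiv.injective _)] at h0
      rw [h0, tvM, Classical.SpWitt.tv_zero, map_one, QuotientGroup.mk_one]

end Cfsg.Agent.S2730
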