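import Mathlib
import Cfsg.Statements.S2731
import Cfsg.Agent.Classical.GamO9

set_option autoImplicit false
set_option backward.isDefEq.respectTransparency false
open Cfsg

namespace Cfsg.Agent.S2731

open Classical.GamO Orth

/-- A criterion for the failure of local balance in almost simple groups whose socle is an odd-dimensional orthogonal group Ω_{2m+1}(F) (m ≥ 3, |F| odd; the form x₀² + Σ xᵢ yᵢ). Let F be a finite field of characteristic r and K the (simple) group in question; let A be a group of automorphisms of K containing all inner automorphisms, and x ∈ A an automorphism of prime order p ≠ r that is not inner-diagonal (not induced by a similarity of the form). Then the largest normal subgroup of C_A(x) of order prime to p is nontrivial if and only if x is a field automorphism of K (conjugate under Aut(K) to a non-identity standard field automorphism) and p does not divide the number of fixed points of x on K. -/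
theorem result {F : Type*} [Field F] [Fintype F] {r : ℕ} [Fact r.Prime] [CharP F r] (hodd : Odd (Fintype.card F)) {m : ℕ} (hm : 3 ≤ m) (hK : IsSimpleGroup (Cfsg.POmega F (Cfsg.quadFormOdd m F))) (A : Subgroup (MulAut (Cfsg.POmega F (Cfsg.quadFormOdd m F)))) (hinn : ∀ k : Cfsg.POmega F (Cfsg.quadFormOdd m F), MulAut.conj k ∈ A) {p : ℕ} [Fact p.Prime] (hpr : p ≠ r) (x : MulAut (Cfsg.POmega F (Cfsg.quadFormOdd m F))) (hxA : x ∈ A) (hord : orderOf x = p) (hnot : ¬ Cfsg.IsInnerDiagonalAutPOmegaOdd m x) :
    Cfsg.pPrimeCore p ↥(A ⊓ Subgroup.centralizer {x}) ≠ ⊥ ↔ (Cfsg.IsFieldAutClassPOmega (Cfsg.quadFormOdd m F) x ∧ Nat.Coprime p (Nat.card ↥(MonoidHom.eqLocus x.toMonoidHom (MonoidHom.id (Cfsg.POmega F (Cfsg.quadFormOdd m F)))))) := by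
  have h2 := two_ne_zero_of_odd hodd
  have h := big_oddQ (m := m) h2 (by omega)
  have hA := model_aM h
  have hp : p.Prime := Fact.out
  obtain ⟨b, rfl⟩ := surj_odd h2 hm x
  have hb : b.σ ≠ 1 := fun h3 => hnot ((isInnDiag_odd h).2 ⟨b, (DO_oddQ h).ge h3, rfl⟩)
  refine (hA.balance (center_POmega h) (surj_odd h2 hm) hb hp hord (fun h3 => hpr
    ((Nat.prime_dvd_prime_iff_eq Fact.out hp).1 ((CharP.cast_eq_zero_iff F r p).1 h3)).symm)
    hinn).trans (and_iff_right ?_).symm
  obtain ⟨φ, hφ⟩ := exists_fix_hom (σ := b.σ) rfl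
  have h6 : ∀ (K : Type _) [Field K], ¬ IsPlus (oddQ m K) := fun K _ ⟨W, _, hW⟩ => by
    rw [finrank_odd] at hW; omega
  obtain ⟨c, j, e, h7, h8, hj, h9⟩ := hA.exists_form hb hp hord hφ
    ((isForm_oddQ m φ).nd_iff.1 h.nd) (finrank_odd.trans finrank_odd.symm)
    (iff_of_false (h6 _) fun h => h6 _ h.1)
  obtain ⟨k, -, hk⟩ := hj.exists_conj h (isForm_oddQ m φ) h9 (b := std b.σ (std_odd _))
    (fun v => funext fun i => (hφ _).2 ⟨_, rfl⟩) h8 Iff.rfl
  exact ⟨aM k, _, b.σ, hb, (isField_std (std_odd _)).2 rfl, by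
    rw [h7, ← hk, map_mul, map_mul, map_inv]⟩

end Cfsg.Agent.S2731
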