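import Cfsg.Statements.S2732
import Mathlib
import Cfsg.Agent.Chev.BalO

set_option autoImplicit false
open Cfsg

namespace Cfsg.Agent.S2732

/-- A criterion for the failure of local balance in almost simple groups whose socle is a plus-type orthogonal group PΩ⁺_{2m}(F) (m ≥ 4; the form Σ xᵢ yᵢ). Let F be a finite field of characteristic r and K the (simple) group in question; let A be a group of automorphisms of K containing all inner automorphisms, and x ∈ A an automorphism of prime order p ≠ r that is not inner-diagonal (not induced by a similarity preserving the two classes of maximal totally singular subspaces). Then the largest normal subgroup of C_A(x) of order prime to p is nontrivial if and only if x is a field automorphism of K (conjugate under Aut(K) to a non-identity standard field automorphism) and p does not divide the number of fixed points of x on K. -/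
theorem result {F : Type*} [Field F] [Fintype F] {r : ℕ} [Fact r.Prime] [CharP F r] {m : ℕ} (hm : 4 ≤ m) (hK : IsSimpleGroup (Cfsg.POmega F (Cfsg.quadFormPlus m F))) (A : Subgroup (MulAut (Cfsg.POmega F (Cfsg.quadFormPlus m F)))) (hinn : ∀ k : Cfsg.POmega F (Cfsg.quadFormPlus m F), MulAut.conj k ∈ A) {p : ℕ} [Fact p.Prime] (hpr : p ≠ r) (x : MulAut (Cfsg.POmega F (Cfsg.quadFormPlus m F))) (hxA : x ∈ A) (hord : orderOf x = p) (hnot : ¬ Cfsg.IsInnerDiagonalAutPOmegaPlus m x) :
    Cfsg.pPrimeCore p ↥(A ⊓ Subgroup.centralizer {x}) ≠ ⊥ ↔ (Cfsg.IsFieldAutClassPOmega (Cfsg.quadFormPlus m F) x ∧ Nat.Coprime p (Nat.card ↥(MonoidHom.eqLocus x.toMonoidHom (MonoidHom.id (Cfsg.POmega F (Cfsg.quadFormPlus m F)))))) := by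
  have h := Classical.GamO.big_plusQ (F := F) (m := m) (by omega)
  refine ⟨fun h1 => ?_, fun h1 => ?_⟩
  · have h2 := fun h2 => hnot ((Classical.GamO.isInnDiag_plus h).2 h2)
    obtain ⟨⟨b, h3, h4, rfl⟩, h5⟩ := hm.eq_or_lt.elim
      (by rintro rfl; exact Chev.balance_four hpr hinn hord h2 h1)
      fun h3 => Chev.balance_five hpr h3 hinn hord h2 h1
    exact ⟨Chev.field_of_pres (by omega) h3 h4 Fact.out hord, h5⟩
  · obtain ⟨k, h2, h3⟩ := Chev.fix_of_field (by omega) h1.1
    exact Classical.Balance.core_ne_bot (Classical.GamO.conj_injective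
      (Classical.GamO.center_POmega h)) hinn h3 h2 h1.2

end Cfsg.Agent.S2732
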