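import Mathlib
import Cfsg.Statements.S2733
import Cfsg.Agent.Classical.GamO11

set_option autoImplicit false
set_option backward.isDefEq.respectTransparency false
open Cfsg

namespace Cfsg.Agent.S2733

open Classical.GamO Orth

/-- A criterion for the failure of local balance in almost simple groups whose socle is a minus-type orthogonal group PΩ⁻_{2m+2}(F) (m ≥ 3; the form Σ xᵢ yᵢ + z₁² + a z₁ z₂ + b z₂² with anisotropic binary part). Let F be a finite field of characteristic r and K the (simple) group in question; let A be a group of automorphisms of K containing all inner automorphisms, and x ∈ A an automorphism of prime order p ≠ r that is not inner-diagonal (not induced by a class-preserving similarity, classes read over a quadratic extension). Then the largest normal subgroup of C_A(x) of order prime to p is nontrivial if and only if x is a field automorphism of K (conjugate under Aut(K) to a non-identity standard field automorphism) and p does not divide the number of fixed points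 of x on K. -/
theorem result {F : Type*} [Field F] [Fintype F] {r : ℕ} [Fact r.Prime] [CharP F r] {m : ℕ} (hm : 3 ≤ m) (a b : F) (hab : (∀ z₁ z₂ : F, z₁ ^ 2 + a * z₁ * z₂ + b * z₂ ^ 2 = 0 → z₁ = 0 ∧ z₂ = 0)) (hK : IsSimpleGroup (Cfsg.POmega F (Cfsg.quadFormMinus m F a b))) (A : Subgroup (MulAut (Cfsg.POmega F (Cfsg.quadFormMinus m F a b)))) (hinn : ∀ k : Cfsg.POmega F (Cfsg.quadFormMinus m F a b), MulAut.conj k ∈ A) {p : ℕ} [Fact p.Prime] (hpr : p ≠ r) (x : MulAut (Cfsg.POmega F (Cfsg.quadFormMinus m F a b))) (hxA : x ∈ A) (hord : orderOf x = p) (hnot : ¬ Cfsg.IsInnerDiagonalAutPOmegaMinus m a b x) :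
    Cfsg.pPrimeCore p ↥(A ⊓ Subgroup.centralizer {x}) ≠ ⊥ ↔ (Cfsg.IsFieldAutClassPOmegaMinus m x ∧ Nat.Coprime p (Nat.card ↥(MonoidHom.eqLocus x.toMonoidHom (MonoidHom.id (Cfsg.POmega F (Cfsg.quadFormMinus m F a b)))))) := by
  have h := big_minusQ (m := m) (by omega) hab
  have hA := model_aM h
  have hp : p.Prime := Fact.out
  have hs := surj_minus hm hab
  have hP := not_isPlus_minusQ m hab
  have hpF : (p : F) ≠ 0 := fun h3 => hpr
    ((Nat.prime_dvd_prime_iff_eq Fact.out hp).1 ((CharP.cast_eq_zero_iff F r p).1 h3)).symm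
  obtain ⟨g, rfl⟩ := hs x
  have h7 : g ∉ DO _ := fun h7 => hnot ((isInnDiag_minus hab h).2 ⟨g, h7, rfl⟩)
  by_cases hb : g.σ = 1
  · refine iff_of_false (not_not.2 ?_) fun h3 => ?_
    · rcases hp.eq_two_or_odd' with rfl | ⟨k, rfl⟩
      · exact hA.core_graph (center_POmega h) hs hpF hinn hP finrank_minus (by omega) hb h7 hord
      refine (h7 ?_).elim
      have h3 : g ^ (2 * k + 1) ∈ DO _ := (hA.mem_map (NO_le_DO h)).1 (by
        rw [map_pow, ← hord, pow_orderOf_eq_one]; exact one_mem _)
      rwa [pow_succ, pow_mul, mul_mem_cancel_left (pow_mem (by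
        rw [pow_two, mul_mem_DO h (even_of_eq finrank_minus) hb hb]) k)] at h3
    · obtain ⟨g', h4, h5⟩ := field_minus hm hab h3.1
      exact h5 ((hA.σ_eq h4).symm.trans hb)
  refine (hA.balance (center_POmega h) hs hb hp hord hpF hinn).trans (and_iff_right ?_).symm
  obtain ⟨φ, hφ⟩ := exists_fix_hom (σ := g.σ) rfl
  obtain ⟨b₀, h₀⟩ := exists_aniso (F := Herm.fixF g.σ.toRingHom)
  have h1 := hA.orderOf_σ hp hord hb
  obtain ⟨c, j, e, h8, h9, hj, h10⟩ := hA.exists_form hb hp hord hφ
    (nd_minusQ m (aniso_disc_ne_zero h₀)) (finrank_minus.trans finrank_minus.symm)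
    (iff_of_false (not_isPlus_minusQ m h₀) fun h => hP h.1)
  have ho : Odd p := hp.odd_of_ne_two fun h10 => hP
    (hj.isPlus_of_sq h (even_of_eq finrank_minus) (by rw [card_eq_of_fix hφ, h1, h10]))
  have hj' := isForm_minusQ m φ 1 b₀
  have h11 : ∀ d, g.σ (φ d) = φ d := fun d => (hφ _).2 ⟨d, rfl⟩
  have h12 : ∀ v, (std g.σ (std_minus (m := m) (h11 1) (h11 b₀))).T (mapV _ φ v) = mapV _ φ v :=
    fun v => funext fun i => h11 _
  have h' := hj'.big_iff.2 (big_minusQ (by omega) h₀)
  have h13 : Aniso (φ 1) (φ b₀) := fun x y h13 => by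
    by_contra h14
    have h15 : y ≠ 0 := by
      rintro rfl; exact h14 ⟨by simpa using h13, rfl⟩
    exact not_isPlus_minusQ m h₀ (hj'.isPlus_of_odd h' (Classical.GamO.isPlus_minusQ (t := x / y)
      (by field_simp; linear_combination h13)) h12 (fun c => (hφ c).1) (h1 ▸ ho))
  obtain ⟨f⟩ := (nd_minusQ m (aniso_disc_ne_zero h13)).iso_minusQ (not_isPlus_minusQ m h13)
    finrank_minus hab
  obtain ⟨χ, hχ⟩ := exists_transportM h f
  obtain ⟨s, h14, h15, h16⟩ := hχ (std g.σ (std_minus (h11 1) (h11 b₀)))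
  have hj'' : IsForm φ (minusQ m _ 1 b₀) (minusQ m F a b)
      (f.symm.toLinearEquiv.toLinearMap.comp (mapV _ φ)) 1 :=
    ⟨by rw [LinearMap.coe_comp, Set.range_comp, ← Submodule.map_span, hj'.span, Submodule.map_top,
      LinearEquiv.range], hj.dim, one_ne_zero, fun v => (f.symm.map_app _).trans (hj'.q v)⟩
  obtain ⟨k, -, hk⟩ := hj.exists_conj h hj'' h10 (b := s) (fun v => f.injective (by
    refine (h15 _).symm.trans ?_
    exact (congrArg _ (f.apply_symm_apply _)).trans ((h12 v).trans (f.apply_symm_apply _).symm)))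
    (h9.trans h14.symm) Iff.rfl
  refine ⟨_, _, (aM k).trans χ, g.σ, h13, hb, h11 1, h11 b₀,
    (isField_std (std_minus (h11 1) (h11 b₀))).2 ?_⟩
  have key : ∀ {G H : Type _} [Group G] [Group H] (α β : MulAut G) (χ : G ≃* H),
      ((MulEquiv.trans α χ).symm.trans β).trans (MulEquiv.trans α χ) =
        MulAut.congr χ (α * β * α⁻¹) := fun _ _ _ => rfl
  refine (key _ _ _).trans (Eq.trans (congrArg _ ?_) h16)
  rw [← hk, h8, map_mul, map_mul, map_inv]

end Cfsg.Agent.S2733
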