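import Mathlib
import Cfsg.Statements.S2739
import Cfsg.Agent.Spec.L3
import Cfsg.Agent.S0243
import Cfsg.Agent.Perm.Small2
import Cfsg.Agent.Perm.Small3
import Cfsg.Agent.Classical.Congr

set_option autoImplicit false
open scoped Pointwise
open Cfsg

namespace Cfsg.Agent.S2739

open Subgroup
open scoped Pointwise

variable {G : Type*} [Group G] [Finite G]

theorem isConj_of {p r : ℕ} [Fact p.Prime] (P : Sylow p G) (hC : ∀ x ∈ P, x ≠ 1 → centralizer {x} = (P : Subgroup G))
    (hr : Nat.card G = Nat.card P * r) (hm : r + 1 ≡ 0 [MOD Nat.card P]) {x y : G} (hx : x ∈ P) (hx1 : x ≠ 1)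
    (hy : y ∈ P) (hy1 : y ≠ 1) : IsConj x y := by
  set N := normalizer ((P : Subgroup G) : Set G)
  letI : MulAction N G := MulAction.compHom G (MulAut.conj.comp N.subtype)
  have hs : ∀ (g : N) (a : G), g • a = g * a * (g : G)⁻¹ := fun _ _ => rfl
  have h1 : MulAction.stabilizer N x = (P : Subgroup G).subgroupOf N := by
    ext g
    rw [MulAction.mem_stabilizer_iff, hs, mem_subgroupOf, ← hC x hx hx1, mem_centralizer_singleton_iff,
      mul_inv_eq_iff_eq_mul]
  have h2 : MulAction.orbit N x ⊆ ((P : Subgroup G) : Set G) \ {1} := by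
    rintro _ ⟨g, rfl⟩
    exact ⟨(g.2 x).mp hx, fun e => hx1 (by simpa [hs] using e)⟩
  have h3 : Nat.card (Sylow p G) ≡ 1 [MOD Nat.card P] := Perm.card_sylow_modEq_of_dvd P fun Q hQ => by
    have : (Q : Subgroup G) ⊓ P = ⊥ := eq_bot_iff.mpr fun z hz => by
      by_contra h
      obtain ⟨g, rfl⟩ := MulAction.exists_smul_eq G P Q
      have h4 : g⁻¹ * z * g ∈ (P : Subgroup G) := by simpa using (Subgroup.mem_pointwise_smul_iff_inv_smul_mem).mp hz.1
      refine hQ (Sylow.ext (eq_of_le_of_card_ge (fun w hw => ?_) (Nat.card_congr (Sylow.equiv P (g • P)).toEquiv).le))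
      have h6 : g⁻¹ * w * g ∈ (P : Subgroup G) := by simpa using (Subgroup.mem_pointwise_smul_iff_inv_smul_mem).mp hw
      rw [← hC z hz.2 h, mem_centralizer_singleton_iff]
      rw [← hC _ h4 (fun e => h (by simpa [mul_eq_one_iff_eq_inv] using e)), mem_centralizer_singleton_iff] at h6
      simp only [← mul_assoc, mul_inv_cancel_right, mul_left_inj] at h6
      simpa [mul_assoc] using h6
    rw [← inf_relIndex_right, this, relIndex_bot_left]
  have h4 := Perm.card_sylow_mul P
  have h5 := ((P : Subgroup G).subgroupOf N).card_mul_index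
  rw [Nat.card_congr (subgroupOfEquivOfLe le_normalizer).toEquiv, ← h1, MulAction.index_stabilizer] at h5
  have h6 := Set.ncard_le_ncard h2
  rw [Set.ncard_diff_singleton_of_mem (one_mem _), ← Nat.card_coe_set_eq ((P : Subgroup G) : Set G)] at h6
  have h7 : (MulAction.orbit N x).ncard = Nat.card P - 1 := by
    have h8 : Nat.card (Sylow p G) * (MulAction.orbit N x).ncard = r := by
      refine Nat.eq_of_mul_eq_mul_left (Nat.card_pos (α := P)) ?_
      rw [← hr, ← h4, ← h5]; ring
    have h9 : (MulAction.orbit N x).ncard + 1 ≡ 0 [MOD Nat.card P] := by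
      refine Nat.ModEq.trans ?_ hm
      rw [← h8]
      simpa using ((h3.mul_right (MulAction.orbit N x).ncard).add_right 1).symm
    have := Nat.le_of_dvd (Nat.succ_pos _) ((Nat.modEq_zero_iff_dvd).mp h9)
    simp only [SetLike.coe_sort_coe] at h6
    omega
  have h8 := Set.eq_of_subset_of_ncard_le h2 (by
    rw [Set.ncard_diff_singleton_of_mem (one_mem _), ← Nat.card_coe_set_eq ((P : Subgroup G) : Set G), h7]; rfl)
  obtain ⟨g, hg⟩ : y ∈ MulAction.orbit N x := by rw [h8]; exact ⟨hy, hy1⟩
  exact isConj_iff.mpr ⟨g, hg⟩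

theorem main (hG : Nat.card G = 20160) (h : ∀ x : G, 3 ∣ orderOf x → orderOf x = 3) {x y : G} (hx : orderOf x = 3)
    (hy : orderOf y = 3) : IsConj x y := by
  have : Fact (Nat.Prime 3) := ⟨Nat.prime_three⟩
  obtain ⟨P⟩ : Nonempty (Sylow 3 G) := inferInstance
  have hP : Nat.card P = 3 ^ 2 := Perm.sylow_card_eq P (m := 2240) (by rw [hG]; norm_num) (by norm_num)
  have hC : ∀ x ∈ P, x ≠ 1 → centralizer {x} = (P : Subgroup G) := fun x hx hx1 => by
    have h1 : (P : Subgroup G) ≤ centralizer {x} := fun z hz => by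
      have := IsPGroup.commGroupOfCardEqPrimeSq hP
      exact mem_centralizer_singleton_iff.mpr (congrArg Subtype.val
        ((IsPGroup.commutative_of_card_eq_prime_sq hP) ⟨z, hz⟩ ⟨x, hx⟩))
    have hx3 : orderOf x = 3 := h x (by
      obtain ⟨k, hk⟩ := IsPGroup.iff_orderOf.mp P.2 ⟨x, hx⟩
      rw [← Subgroup.orderOf_coe] at hk
      rcases k with _ | k
      · exact absurd (orderOf_eq_one_iff.mp hk) hx1
      · rw [hk]; exact dvd_pow_self 3 (Nat.succ_ne_zero _))
    refine P.is_maximal' (IsPGroup.iff_card.mpr ⟨_, Nat.eq_prime_pow_of_unique_prime_dvd Nat.card_pos.ne' fun {s} hs hd => ?_⟩) h1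
    by_contra h3
    obtain ⟨y, hy⟩ := Perm.exists_orderOf_mul hx3 hs ((Nat.coprime_primes Nat.prime_three hs).mpr (Ne.symm h3)) hd
    have := h y (by rw [hy]; exact dvd_mul_right _ _)
    have := hs.two_le
    omega
  obtain ⟨a, ha⟩ := Perm.exists_conj_mem_sylow P (k := 1) (x := x) (by simpa using hx)
  obtain ⟨b, hb⟩ := Perm.exists_conj_mem_sylow P (k := 1) (x := y) (by simpa using hy)
  have := isConj_of P hC (r := 2240) (by rw [hG, hP]; norm_num) (by rw [hP]; decide) ha
    (fun e => by simp [show x = 1 by simpa using e] at hx) hb (fun e => by simp [show y = 1 by simpa using e] at hy)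
  exact (isConj_iff.mpr ⟨a, rfl⟩).trans (this.trans (isConj_iff.mpr ⟨b, rfl⟩).symm)

/-- In the projective special linear group PSL(3, 4) all subgroups of order 3 are conjugate. -/
theorem result (F : Type*) [Field F] [Fintype F] (hF : Fintype.card F = 4) (X Y : Subgroup (Matrix.ProjectiveSpecialLinearGroup (Fin 3) F)) (hX : Nat.card ↥X = 3) (hY : Nat.card ↥Y = 3) : ∃ g : Matrix.ProjectiveSpecialLinearGroup (Fin 3) F, MulAut.conj g • X = Y := by
  have h2 := S0243.result hF 3 (by norm_num)
  simp only [Fin.prod_univ_succ, Fin.prod_univ_zero] at h2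
  norm_num at h2
  have hK' : Nat.card F = 4 := by rw [Nat.card_eq_fintype_card, hF]
  have : Fact (Nat.Prime 2) := ⟨Nat.prime_two⟩
  have : Fact (Nat.Prime 3) := ⟨Nat.prime_three⟩
  have : CharP F 2 := Classical.Congr.charP_of_card (k := 2) hK'
  obtain ⟨x, hx, hx3⟩ := Perm.exists_mem_orderOf_prime X Nat.prime_three (by rw [hX])
  obtain ⟨y, hy, hy3⟩ := Perm.exists_mem_orderOf_prime Y Nat.prime_three (by rw [hY])
  obtain ⟨g, rfl⟩ := isConj_iff.mp (main (by omega) (fun z hz => by
    have h3 := Spec.L3_upper 2 z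
    rw [hK'] at h3
    norm_num at h3
    rcases h3 with h | h | h | h | h <;> have := Nat.le_of_dvd (by norm_num) h <;>
      interval_cases orderOf z <;> simp_all) hx3 hy3)
  refine ⟨g, ?_⟩
  rw [← Perm.zpowers_eq_of_card_prime hX hx (fun e => by simp [e] at hx3),
    ← Perm.zpowers_eq_of_card_prime hY hy (fun e => by simp [e] at hy3)]
  exact MonoidHom.map_zpowers _ _

end Cfsg.Agent.S2739
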