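import Mathlib
import Cfsg.Statements.S2896
import Cfsg.Agent.Comp2.CharP

set_option autoImplicit false
open Cfsg

namespace Cfsg.Agent.S2896

open Cfsg.Agent.Comp2


/-- Let p be a prime dividing the order of the finite group G, S a Sylow p-subgroup of G and X a subgroup of S. (i) If some nontrivial element z of the centre of X has F*(C_G(z)) = O_p(C_G(z)), then F*(N_G(X)) = O_p(N_G(X)). (ii) G has parabolic characteristic p if and only if F*(C_G(z)) = O_p(C_G(z)) for every nontrivial z ∈ Ω₁(Z(S)). (iii) If F*(C_G(z)) = O_p(C_G(z)) for every element z of S of order p, then G has local characteristic p. -/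
theorem result {G : Type*} [Group G] [Finite G] {p : ℕ} [Fact p.Prime] (hdiv : p ∣ Nat.card G) (S : Sylow p G) (X : Subgroup G) (hX : X ≤ (S : Subgroup G)) : (∀ z : G, z ≠ 1 → z ∈ X → (∀ x ∈ X, x * z = z * x) → Cfsg.generalizedFittingSubgroup ↥(Subgroup.centralizer ({z} : Set G)) = Cfsg.pCore p ↥(Subgroup.centralizer ({z} : Set G)) → Cfsg.generalizedFittingSubgroup ↥(Subgroup.normalizer (X : Set G)) = Cfsg.pCore p ↥(Subgroup.normalizer (X : Set G))) ∧ (Cfsg.IsOfParabolicCharacteristic p G ↔ ∀ z : G, z ≠ 1 → z ∈ Cfsg.omegaOne p ((S : Subgroup G) ⊓ Subgroup.centralizer ((S : Subgroup G) : Set G)) → Cfsg.generalizedFittingSubgroup ↥(Subgroup.centralizer ({z} : Set G)) = Cfsg.pCore p ↥(Subgroup.centralizer ({z} : Set G))) ∧ ((∀ z : G, z ∈ (S : Subgroup G) → orderOf z = p → Cfsg.generalizedFittingSubgroup ↥(Subgroup.centralizer ({z} : Set G)) = Cfsg.pCore p ↥(Subgroup.centralizer ({z} : Set G))) → Cfsg.IsOfLocalCharacteristic p G) := by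
  refine ⟨fun z _ hz _ h => charP_normalizer_of_mem p (S.isPGroup'.to_le hX) hz h, ⟨?_, ?_⟩, ?_⟩
  · intro h z hz1 hz
    have hzZ : z ∈ (S : Subgroup G) ⊓ Subgroup.centralizer ((S : Subgroup G) : Set G) := by
      refine (Subgroup.closure_le _).mpr ?_ hz
      exact fun x hx => hx.1
    have hp : IsPGroup p (Subgroup.zpowers z) :=
      S.isPGroup'.to_le (Subgroup.zpowers_le.mpr hzZ.1)
    have h1 := h (Subgroup.zpowers z) hp (by simpa using hz1) ⟨S, by
      refine le_trans ?_ (Subgroup.centralizer_le_normalizer _)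
      rw [Subgroup.le_centralizer_iff, Subgroup.zpowers_le]
      exact hzZ.2⟩
    have h2 := charP_centralizer_of_normalizer p ((genFitting_eq_pCore_iff p).mpr h1)
    rwa [centralizer_zpowers] at h2
  · rintro h R hR hR1 ⟨T, hT⟩
    rw [← genFitting_eq_pCore_iff]
    -- `R ≤ T` and `R ∩ Z(T) ≠ 1`
    have hRT : R ≤ T := by
      have h1 : IsPGroup p ↥((T : Subgroup G) ⊔ R) := T.isPGroup'.to_sup_of_normal_right' hR hT
      exact le_sup_right.trans (T.is_maximal' h1 le_sup_left).le
    have hn : (R.subgroupOf T).Normal := Subgroup.normal_subgroupOf_of_le_normalizer hT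
    have hne : R ⊓ Subgroup.centralizer ((T : Subgroup G) : Set G) ≠ ⊥ := by
      obtain ⟨n, hn⟩ := exists_iterate_commutator_eq_bot (U := R) (P := T) (R := T)
        T.isPGroup'.isNilpotent hRT le_rfl
      intro hbot
      have key : ∀ n : ℕ, ∀ Y : Subgroup G, Y ≤ R →
          (fun Y => ⁅Y, (T : Subgroup G)⁆)^[n] Y = ⊥ → Y = ⊥ := by
        intro n
        induction n with
        | zero => exact fun Y _ h => h
        | succ n ih =>
          intro Y hY h
          rw [Function.iterate_succ_apply] at h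
          have h2 := ih _ ((Subgroup.commutator_mono hY le_rfl).trans
            (Subgroup.le_normalizer_iff_commutator_le_left.mp hT)) h
          rw [eq_bot_iff, ← hbot]
          exact le_inf hY (Subgroup.commutator_eq_bot_iff_le_centralizer.mp h2)
      exact hR1 (key n R le_rfl hn)
    obtain ⟨z, hz, hzo⟩ := exists_orderOf_eq_of_isPGroup (hR.to_le inf_le_left) hne
    refine charP_normalizer_of_mem p hR hz.1 ?_
    obtain ⟨g, hg⟩ := MulAction.exists_smul_eq G T S
    have hz' : g * z * g⁻¹ ∈ omegaOne p ((S : Subgroup G) ⊓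
        Subgroup.centralizer ((S : Subgroup G) : Set G)) := by
      refine Subgroup.subset_closure ⟨⟨?_, ?_⟩, ?_⟩
      · rw [← hg]
        exact ⟨z, hRT hz.1, rfl⟩
      · rw [← hg]
        refine Subgroup.mem_centralizer_iff.mpr ?_
        rintro _ ⟨s, hs, rfl⟩
        change g * s * g⁻¹ * (g * z * g⁻¹) = g * z * g⁻¹ * (g * s * g⁻¹)
        have := Subgroup.mem_centralizer_iff.mp hz.2 s hs
        calc g * s * g⁻¹ * (g * z * g⁻¹) = g * (s * z) * g⁻¹ := by group
          _ = g * (z * s) * g⁻¹ := by rw [this]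
          _ = _ := by group
      · rw [conj_pow, ← hzo, pow_orderOf_eq_one]; simp
    have hz1 : g * z * g⁻¹ ≠ 1 := by
      intro h1
      have : z = 1 := by simpa using h1
      rw [this, orderOf_one] at hzo
      exact (Fact.out : p.Prime).ne_one hzo.symm
    have h3 := charP_centralizer_conj p g⁻¹ (h _ hz1 hz')
    have e : g⁻¹ * (g * z * g⁻¹) * g⁻¹⁻¹ = z := by group
    rwa [e] at h3
  · intro h
    refine ⟨hdiv, fun T hT hT1 => ?_⟩
    rw [← genFitting_eq_pCore_iff]
    obtain ⟨z, hz, hzo⟩ := exists_orderOf_eq_of_isPGroup hT hT1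
    refine charP_normalizer_of_mem p hT hz ?_
    obtain ⟨Q, hQ⟩ := hT.exists_le_sylow
    obtain ⟨g, hg⟩ := MulAction.exists_smul_eq G Q S
    have hz' : g * z * g⁻¹ ∈ (S : Subgroup G) := by
      rw [← hg]
      exact ⟨z, hQ hz, rfl⟩
    have ho : orderOf (g * z * g⁻¹) = p := by
      rw [← hzo]
      exact (MulAut.conj g).orderOf_eq z
    have h3 := charP_centralizer_conj p g⁻¹ (h _ hz' ho)
    have e : g⁻¹ * (g * z * g⁻¹) * g⁻¹⁻¹ = z := by group
    rwa [e] at h3

end Cfsg.Agent.S2896
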