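import Mathlib
import Cfsg.Statements.S2898
import Cfsg.Agent.LocalEven.CharP3
import Cfsg.Agent.Core.Cores

set_option autoImplicit false
open Cfsg

namespace Cfsg.Agent.S2898

open Cfsg.Agent.LocalEven

open Subgroup

/-- Let G be a finite group of even order with parabolic characteristic 2. If the centre of G ⧸ O(G) is trivial, then O(G) = 1. -/
theorem result {G : Type*} [Group G] [Finite G] (h2 : 2 ∣ Nat.card G) (hG : Cfsg.IsOfParabolicCharacteristic 2 G) [hN : (Cfsg.oddCore G).Normal] (hZ : Subgroup.center (G ⧸ Cfsg.oddCore G) = ⊥) : Cfsg.oddCore G = ⊥ := by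
  haveI : Fact (Nat.Prime 2) := ⟨Nat.prime_two⟩
  obtain ⟨S⟩ : Nonempty (Sylow 2 G) := inferInstance
  have hS := isSylowIn_top S
  have hO : (Nat.card (oddCore G)).Coprime 2 := Core.pPrimeCore_coprime 2
  have hn : ∀ X : Subgroup G, X ≤ normalizer (oddCore G : Set G) := fun X =>
    le_top.trans (normalizer_eq_top _).ge
  -- central involutions act fixed-point-freely on `O(G)`
  have key : ∀ z ∈ (S : Subgroup G), z ∈ centralizer ((S : Subgroup G) : Set G) → z ≠ 1 →
      oddCore G ⊓ centralizer ({z} : Set G) = ⊥ := fun z hz hzc hz1 =>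
    eq_bot_of_charP_of_coprime (charP_centralizer_of_parabolic hG hS hz hzc hz1) inf_le_right
      (le_normalizer_inf (hn _) le_normalizer)
      (hO.coprime_dvd_left (card_dvd_of_le inf_le_left))
  by_contra hne
  set C := centralizer (oddCore G : Set G) with hC
  have hCn : C.Normal := inferInstance
  have hCodd : (Nat.card C).Coprime 2 := by
    refine ((Nat.Prime.coprime_iff_not_dvd Nat.prime_two).2 fun hd => ?_).symm
    have h1 := sylow_inf_normal S C
    obtain ⟨z, hz1, hz2, hz3⟩ := exists_mem_inf_centralizer S.isPGroup' h1.pgrp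
      (le_normalizer_inf le_normalizer (le_top.trans (normalizer_eq_top C).ge)) (h1.ne_bot hd)
    apply hne
    rw [← key z hz1.1 hz2 (ne_one_of_orderOf_eq hz3), eq_comm, inf_eq_left]
    intro x hx
    exact mem_centralizer_singleton.2 (hz1.2 x hx).symm
  have hCO : C ≤ oddCore G := Core.le_pPrimeCore hCn hCodd
  have hSne : (S : Subgroup G) ≠ ⊥ := hS.ne_bot (by rwa [card_top])
  obtain ⟨z, hz1, hz2, hz3⟩ := exists_mem_inf_centralizer S.isPGroup' S.isPGroup' le_normalizer hSne
  have hzz : z * z = 1 := by rw [← sq, ← hz3]; exact pow_orderOf_eq_one z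
  have hinv := (H2.inverts_of_involution (hn _ (mem_top z)) hzz
    (key z hz1 hz2 (ne_one_of_orderOf_eq hz3))).1
  have hzi : z⁻¹ = z := inv_eq_of_mul_eq_one_right hzz
  have h3 : ∀ g : G, g * z * g⁻¹ * z⁻¹ ∈ oddCore G := fun g => by
    refine hCO (mem_centralizer_iff.2 fun k hk => ?_)
    have e1 := hinv k hk
    have e2 := hinv (g⁻¹ * k⁻¹ * g) (by
      simpa using hN.conj_mem _ (inv_mem hk) g⁻¹)
    have e3 : z⁻¹ * k = k⁻¹ * z⁻¹ := by
      rw [← e1, hzi]; simp [mul_assoc, hzz]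
    calc k * (g * z * g⁻¹ * z⁻¹) = g * (g⁻¹ * k⁻¹ * g)⁻¹ * z * g⁻¹ * z⁻¹ := by group
      _ = g * (z * (g⁻¹ * k⁻¹ * g) * z⁻¹) * z * g⁻¹ * z⁻¹ := by rw [e2]
      _ = g * z * g⁻¹ * (k⁻¹ * z⁻¹) := by group
      _ = g * z * g⁻¹ * z⁻¹ * k := by rw [← e3]; group
  have h4 : (z : G ⧸ oddCore G) ∈ center (G ⧸ oddCore G) := by
    refine mem_center_iff.2 fun y => ?_
    obtain ⟨g, rfl⟩ := QuotientGroup.mk_surjective y
    have := (QuotientGroup.eq_one_iff _).2 (h3 g)
    simp only [QuotientGroup.mk_mul, QuotientGroup.mk_inv] at this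
    rw [mul_inv_eq_one, mul_inv_eq_iff_eq_mul] at this
    exact this
  rw [hZ, mem_bot, QuotientGroup.eq_one_iff] at h4
  exact (Nat.Prime.coprime_iff_not_dvd Nat.prime_two).1 hO.symm (dvd_card_of_mem h4 hz3)

end Cfsg.Agent.S2898
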