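import Mathlib
import Cfsg.Statements.S2905
import Cfsg.Agent.LocalEven.PMin

set_option autoImplicit false
open Cfsg

namespace Cfsg.Agent.S2905

open Cfsg.Agent.LocalEven

open Subgroup

/-- Let P be a finite p-minimal group (a Sylow p-subgroup S is not normal and lies in a unique maximal subgroup M of P) and let F be the normal core of M. Then: every subnormal subgroup N of P contained in M satisfies N ∩ S ≤ O_p(P); if O^p(P) has a normal Sylow p-subgroup then the order of P has at most two prime divisors; every normal subgroup N of P either contains O^p(P) or is contained in F; and O^p(P)F ⧸ F is a minimal normal subgroup of P ⧸ F. -/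
theorem result {P : Type*} [Group P] [Finite P] {p : ℕ} [Fact p.Prime] (hP : Cfsg.IsPMinimal p P) (S : Sylow p P) (M : Subgroup P) (hM : IsCoatom M) (hSM : (S : Subgroup P) ≤ M) [hF : M.normalCore.Normal] : (∀ N : Subgroup P, N.IsSubnormal → N ≤ M → N ⊓ (S : Subgroup P) ≤ Cfsg.pCore p P) ∧ ((∀ T : Sylow p ↥(Cfsg.pResidual p P), (T : Subgroup ↥(Cfsg.pResidual p P)).Normal) → (Nat.card P).primeFactors.card ≤ 2) ∧ (∀ N : Subgroup P, N.Normal → Cfsg.pResidual p P ≤ N ∨ N ≤ M.normalCore) ∧ (∀ N : Subgroup P, N.Normal → M.normalCore ≤ N → N ≤ Cfsg.pResidual p P ⊔ M.normalCore → N = M.normalCore ∨ N = Cfsg.pResidual p P ⊔ M.normalCore) ∧ M.normalCore < Cfsg.pResidual p P ⊔ M.normalCore := by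
  have hS := isSylowIn_top S
  have h := IsPMinimal.minOv' hP hS hM hSM
  have h3 : ∀ N : Subgroup P, N.Normal → pResidual p P ≤ N ∨ N ≤ M.normalCore := fun N hN =>
    (h.pResidual_le_or hS.pgrp N).imp_right fun h0 => normal_le_normalCore.2 h0
  refine ⟨fun N hN hle => h.le_pCore_of_subnormal hS.pgrp hN hle (hS.pgrp.to_le inf_le_right)
    inf_le_left, fun hT => h.primeFactors_card_le hS (pcl_iff.1 ?_), h3, fun N hN a b => ?_, ?_⟩
  · exact hT
  · rcases h3 N hN with h0 | h0
    · exact Or.inr (le_antisymm b (sup_le h0 a))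
    · exact Or.inl (le_antisymm h0 a)
  · exact lt_of_le_of_ne le_sup_right fun h0 =>
      h.not_pResidual_le hS ((le_sup_left.trans h0.ge).trans (normalCore_le M))

end Cfsg.Agent.S2905
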