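import Mathlib
import Cfsg.Statements.S2906
import Cfsg.Agent.LocalEven.PMin
import Cfsg.Agent.LocalEven.Trace

set_option autoImplicit false
open Cfsg

namespace Cfsg.Agent.S2906

open Cfsg.Agent.LocalEven

open Subgroup

/-- Let P be a finite p-minimal group with O_p(P) = 1, S a Sylow p-subgroup of P and K a component of P. Then O^p(P) = F*(P) = E(P) is generated by the S-conjugates of K, and the subgroup K·N_S(K) is again p-minimal. -/
theorem result {P : Type*} [Group P] [Finite P] {p : ℕ} [Fact p.Prime] (hP : Cfsg.IsPMinimal p P) (hOp : Cfsg.pCore p P = ⊥) (S : Sylow p P) (K : Subgroup P) (hK : Cfsg.IsComponent K) : Cfsg.pResidual p P = Cfsg.generalizedFittingSubgroup P ∧ Cfsg.generalizedFittingSubgroup P = Cfsg.layer P ∧ Cfsg.layer P = ⨆ s : ↥(S : Subgroup P), K.map (MulAut.conj (s : P)).toMonoidHom ∧ Cfsg.IsPMinimal p ↥(K ⊔ ((S : Subgroup P) ⊓ Subgroup.normalizer (K : Set P))) := by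
  have hS := isSylowIn_top S
  obtain ⟨-, M, ⟨hM, hSM⟩, -⟩ := hP S
  have h := IsPMinimal.minOv' hP hS hM hSM
  have hKK := Comp2.component_commutator_self hK
  have hER : layer P ≤ pResidual p P := by
    rw [← pResOf_eq_self_of_perfect (p := p) (Comp2.layer_commutator_self (G := P)), ← pResOf_top]
    exact pResOf_mono le_top
  have hES : layer P ⊔ S = ⊤ := by
    by_contra hne
    have h1 : layer P ≤ frattini P := Core.le_frattini_iff.2 fun Y hY =>
      h.normal_le_coatom hS.pgrp (le_sup_left.trans (h.le_of_ne _ le_sup_right hne)) hY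
        (hOp ▸ bot_le)
    exact Comp2.quasisimple_not_le_of_isSolvable hK.2 Core.fitting_solvable
      (((Comp2.component_le_layer hK).trans h1).trans Core.frattini_le_fitting)
  have hRE : pResidual p P = layer P := by
    refine le_antisymm ?_ hER
    rw [← pResOf_top, ← hES]
    exact pResOf_sup_le hS.pgrp (le_top.trans (normalizer_eq_top _).ge)
  have hL : cjClos K S = cjClos K ⊤ := by
    refine le_antisymm (cjClos_mono le_rfl le_top) (cjClos_le_iff.2 fun g _ => ?_)
    obtain ⟨s, hs, e, he, rfl⟩ := (mem_sup_iff_of_le_normalizer (H := S) (N := layer P)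
      (le_top.trans (normalizer_eq_top _).ge)).1 (by rw [sup_comm, hES]; exact mem_top g)
    rw [cj_mul, cj_eq_of_mem_normalizer (Comp2.layer_le_normalizer hK he)]
    exact cj_le_cjClos hs
  haveI hLn : (cjClos K ⊤).Normal := normalizer_eq_top_iff.1 (top_le_iff.1
    (le_normalizer_cjClos K ⊤))
  have hEL : layer P = cjClos K ⊤ := by
    refine le_antisymm ?_ (cjClos_le (Comp2.component_le_layer hK) (normalizer_eq_top _).ge)
    rcases h.pResidual_le_or hS.pgrp (cjClos K ⊤) with h0 | h0
    · exact hER.trans h0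
    · have h1 : cjClos K ⊤ ≤ frattini P := Core.le_frattini_iff.2 fun Y hY =>
        h.normal_le_coatom hS.pgrp h0 hY (hOp ▸ bot_le)
      exact absurd (((le_cjClos K ⊤).trans h1).trans Core.frattini_le_fitting)
        (Comp2.quasisimple_not_le_of_isSolvable hK.2 Core.fitting_solvable)
  have hF : generalizedFittingSubgroup P = layer P := by
    refine le_antisymm (sup_le le_rfl ?_) le_sup_left
    refine (Core.fitting_le_pCore_sup_pPrimeCore p).trans (sup_le (hOp ▸ bot_le) ?_)
    exact hRE ▸ Transfer.le_pResidual_of_coprime (Core.pPrimeCore_coprime p)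
  refine ⟨hRE.trans hF.symm, hF, by rw [hEL, ← hL]; rfl, ?_⟩
  have hsn : H2.SN ⊤ K := H2.SN.top_iff.2 hK.1
  have hOK : pCoreOf p K = ⊥ := by
    rw [eq_bot_iff, ← hOp]; exact pCoreOf_le_pCore_of_isSubnormal hK.1
  have hSK : IsSylowIn p ((S : Subgroup P) ⊓ K) K := isSylowIn_inf_of_sn hS hsn
  have hne : (S : Subgroup P) ⊓ K ≠ ⊥ := by
    intro h0
    have hK' : ¬ p ∣ Nat.card K := fun hd => hSK.ne_bot hd h0
    have h2 : cjClos K ⊤ ≤ pPrimeCore p P := cjClos_le (Core.le_pPrimeCore_of_isSubnormal hK.1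
      ((Nat.Prime.coprime_iff_not_dvd Fact.out).2 hK').symm) (normalizer_eq_top _).ge
    have h3 : PCl p (pResidual p P) := pcl_of_not_dvd fun hd =>
      Core.not_dvd_card_pPrimeCore Fact.out (hd.trans (card_dvd_of_le (by rwa [hRE, hEL])))
    obtain ⟨q, hq, Q, hQ, h4, h5⟩ := h.exists_prime hS h3
    have h6 : pCoreOf p (pResidual p P) = ⊥ := by
      rw [eq_bot_iff, ← hOp]; exact pCoreOf_le_pCore_of_normal _
    rw [h6, sup_bot_eq] at h4 h5
    have h7 : pResidual p P ≤ Q := by
      rw [← pResOf_top, ← h5]; exact pResOf_sup_le hS.pgrp h4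
    exact Comp2.quasisimple_not_le_of_isSolvable hK.2 (Core.solvable_of_isPGroup hQ)
      (((Comp2.component_le_layer hK).trans hER).trans h7)
  have hKM : ¬ K ≤ M := fun h0 => hne (eq_bot_iff.2 (hOp ▸
    h.le_pCore_of_subnormal hS.pgrp hK.1 h0 hSK.pgrp inf_le_right))
  set S₀ := (S : Subgroup P) ⊓ normalizer (K : Set P) with hS₀
  have hS₀K : S₀ ⊓ K = (S : Subgroup P) ⊓ K :=
    le_antisymm (inf_le_inf_right _ inf_le_left)
      (le_inf (inf_le_inf_left _ le_normalizer) inf_le_right)
  have hT : IsSylowIn p S₀ (K ⊔ S₀) := by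
    refine isSylowIn_of_not_dvd le_sup_right (hS.pgrp.to_le inf_le_left) ?_
    rw [H2.relIndex_sup_right_of_le_normalizer inf_le_right, ← inf_relIndex_right, hS₀K]
    exact hSK.not_dvd
  refine (isPMinimal_iff hT).2 ⟨M ⊓ (K ⊔ S₀), minIn_of_sylow hT (fun h0 => hne ?_)
    (le_inf (inf_le_left.trans hSM) le_sup_right)
    (lt_of_le_of_ne inf_le_right fun h0 => hKM (le_sup_left.trans (h0.ge.trans inf_le_left)))
    fun X hX hlt => le_inf ?_ hlt.le⟩
  · rw [eq_bot_iff, ← hOK, ← hS₀K]
    exact le_pCoreOf inf_le_right (le_normalizer_inf (le_sup_left.trans h0) le_normalizer)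
      (hT.pgrp.to_le inf_le_left)
  have hXeq : S₀ ⊔ (K ⊓ X) = X := by
    rw [← inf_sup_of_le_normalizer inf_le_right hX, sup_comm, inf_eq_right.2 hlt.le]
  set X₀ := K ⊓ X with hX₀
  have hn : S₀ ≤ normalizer (X₀ : Set P) := le_normalizer_inf inf_le_right (hX.trans le_normalizer)
  have hY : cjClos X₀ S ⊔ S ≠ ⊤ := by
    intro h0
    have h1 : K ≤ cjClos X₀ S := by
      refine ((Comp2.component_le_layer hK).trans hER).trans ?_
      rw [← pResOf_top, ← h0]
      exact pResOf_sup_le hS.pgrp (le_normalizer_cjClos _ _)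
    have h2 : cjClos X₀ S ≤ X₀ ⊔ centralizer (K : Set P) := cjClos_le_iff.2 fun s hs => by
      by_cases hsK : cj s K = K
      · rw [cj_eq_of_mem_normalizer (hn ⟨hs, cj_eq_self_iff.1 hsK⟩)]
        exact le_sup_left
      · exact ((cj_mono s inf_le_left).trans (LocalEven.commutator_eq_bot_iff.1
          (Comp2.component_commutator_eq_bot_of_ne (Comp2.component_conj hK s) hK hsK))).trans
          le_sup_right
    have h3 : K = X₀ ⊔ (centralizer (K : Set P) ⊓ K) := by
      rw [← inf_sup_of_le_normalizer ((inf_le_left.trans le_normalizer).trans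
        (normalizer_le_normalizer_centralizer K)) inf_le_left, inf_eq_right.2 (h1.trans h2)]
    have h4 : ⁅K, K⁆ ≤ X₀ := by
      have h5 : ⁅X₀, K⁆ ≤ X₀ := by
        conv_lhs => rw [h3]
        refine commutator_sup_right_le (commutator_le_left_of_le_normalizer le_normalizer) ?_
          le_normalizer ((inf_le_left.trans (centralizer_le (inf_le_left : X₀ ≤ K))).trans
            (centralizer_le_normalizer' _))
        rw [commutator_comm, LocalEven.commutator_eq_bot_iff.2
          (inf_le_left.trans (centralizer_le (inf_le_left : X₀ ≤ K)))]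
        exact bot_le
      conv_lhs => lhs; rw [h3]
      refine commutator_sup_left_le h5 ?_ le_normalizer
        ((inf_le_left.trans (centralizer_le (inf_le_left : X₀ ≤ K))).trans
            (centralizer_le_normalizer' _))
      rw [LocalEven.commutator_eq_bot_iff.2 inf_le_left]
      exact bot_le
    rw [hKK] at h4
    exact hlt.not_ge (sup_le (h4.trans inf_le_right) hX)
  rw [← hXeq]
  exact sup_le (inf_le_left.trans hSM)
    (((le_cjClos _ _).trans le_sup_left).trans (h.le_of_ne _ le_sup_right hY))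

end Cfsg.Agent.S2906
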