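import Mathlib
import Cfsg.Statements.S2907
import Cfsg.Agent.LocalEven.Resid
import Cfsg.Agent.PGrp.Comm

set_option autoImplicit false
open Cfsg

namespace Cfsg.Agent.S2907

open Cfsg.Agent.LocalEven

open Subgroup
open scoped commutatorElement

/-- Let X be a finite semi-extraspecial p-group and x an element of X outside the centre. Then the index of C_X(x) in X equals the order of Z(X), and the commutators [x, y], y ∈ X, form exactly the centre Z(X). -/
theorem result {X : Type*} [Group X] [Finite X] {p : ℕ} [Fact p.Prime] (hX : Cfsg.IsSemiExtraspecial p X) (x : X) (hx : x ∉ Subgroup.center X) : (Subgroup.centralizer ({x} : Set X)).index = Nat.card ↥(Subgroup.center X) ∧ {z : X | ∃ y : X, z = x * y * x⁻¹ * y⁻¹} = (Subgroup.center X : Set X) := by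
  obtain ⟨⟨hp, hΦ, hD⟩, hY⟩ := hX
  have hc : ∀ a b : X, ⁅a, b⁆ ∈ center X := fun a b =>
    hD ▸ PGrp.commutatorElement_mem_commutator a b
  let f : X →* X := MonoidHom.mk' (fun y => ⁅x, y⁆) fun a b =>
    PGrp.commutator_mul_right_of_commute (mem_center_iff.1 (hc x b) a)
  have hker : f.ker = centralizer ({x} : Set X) := by
    ext y
    rw [MonoidHom.mem_ker, mem_centralizer_singleton]
    exact commutatorElement_eq_one_iff_mul_comm
  have hle : f.range ≤ center X := by rintro _ ⟨y, rfl⟩; exact hc x y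
  have hr : f.range = center X := by
    by_contra hne
    have h1 : f.range.subgroupOf (center X) ≠ ⊤ := fun h0 =>
      hne (le_antisymm hle (subgroupOf_eq_top.1 h0))
    obtain ⟨M, hM, hle2⟩ := PGrp.exists_coatom_ge h1
    obtain ⟨hn, ⟨-, -, h2⟩, h3⟩ := hY (M.map (center X).subtype) (map_subtype_le M)
      (by rwa [map_subtype_subgroupOf])
    set Y := M.map (center X).subtype with hYdef
    have h4 : (x : X ⧸ Y) ∈ center (X ⧸ Y) := by
      refine mem_center_iff.2 fun b => ?_
      obtain ⟨y, rfl⟩ := QuotientGroup.mk_surjective b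
      have h5 : ⁅x, y⁆ ∈ Y := ⟨⟨_, hc x y⟩, hle2 ⟨y, rfl⟩, rfl⟩
      have h6 := (QuotientGroup.eq_one_iff _).2 h5
      have h7 : ⁅(x : X ⧸ Y), (y : X ⧸ Y)⁆ = 1 := h6
      exact (commutatorElement_eq_one_iff_mul_comm.1 h7).symm
    rw [← h2, commutator_def, ← QuotientGroup.range_mk' Y, MonoidHom.range_eq_map,
      ← map_commutator, ← commutator_def, hD] at h4
    obtain ⟨z, hz, e⟩ := h4
    have h8 : z⁻¹ * x ∈ Y := QuotientGroup.eq.1 e
    exact hx (by simpa using mul_mem hz (map_subtype_le M h8))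
  refine ⟨by rw [← hker, index_ker, hr], ?_⟩
  rw [← hr]
  ext z
  exact ⟨fun ⟨y, e⟩ => ⟨y, e.symm⟩, fun ⟨y, e⟩ => ⟨y, e.symm⟩⟩

end Cfsg.Agent.S2907
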