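import Mathlib
import Cfsg.Statements.S2909
import Cfsg.Agent.LocalEven.CharP3

set_option autoImplicit false
open Cfsg

namespace Cfsg.Agent.S2909

open Cfsg.Agent.LocalEven

open Subgroup

/-- Let p be a prime, E a normal p-subgroup of the finite group G, and U a non-cyclic elementary abelian p-subgroup of G such that either C_E(U) = C_E(u) for every nontrivial u ∈ U, or [E, U] = [E, ⟨u⟩] for every nontrivial u ∈ U. If R is a subgroup of order prime to p normalized by U, then [R, U] centralizes E. -/
theorem result {G : Type*} [Group G] [Finite G] {p : ℕ} [Fact p.Prime] (E : Subgroup G) [E.Normal] (hE : IsPGroup p ↥E) (U : Subgroup G) (hU : Cfsg.IsElementaryAbelian p U) (hnc : ¬ IsCyclic ↥U) (hcond : (∀ u ∈ U, u ≠ 1 → E ⊓ Subgroup.centralizer (U : Set G) = E ⊓ Subgroup.centralizer ({u} : Set G)) ∨ (∀ u ∈ U, u ≠ 1 → ⁅E, U⁆ = ⁅E, Subgroup.zpowers u⁆)) (R : Subgroup G) (hR : ¬ p ∣ Nat.card ↥R) (hRU : U ≤ Subgroup.normalizer (R : Set G)) : ⁅R, U⁆ ≤ Subgroup.centralizer (E : Set G) := by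
  have hcR : (Nat.card R).Coprime p := ((Nat.Prime.coprime_iff_not_dvd Fact.out).2 hR).symm
  have hUp := isPGroup_of_elemAb hU
  have hn : ∀ X : Subgroup G, X ≤ normalizer (E : Set G) := fun X =>
    le_top.trans (normalizer_eq_top E).ge
  have key : R ≤ centMod U (centralizer (E : Set G)) := by
    refine Core.le_of_centralizers hU.1 hnc hRU (Core.coprime_of_isPGroup hUp hcR).symm
      fun u hu hu1 => ?_
    refine le_centMod.2 ⟨le_normalizer_centralizer (hn _), ?_⟩
    set R₀ := R ⊓ centralizer ({u} : Set G) with hR₀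
    have hUu : U ≤ centralizer ({u} : Set G) :=
      (elemAb_le_centralizer hU).trans (centralizer_le (by simpa using hu))
    have hUR₀ : U ≤ normalizer (R₀ : Set G) :=
      le_normalizer_inf hRU (hUu.trans le_normalizer)
    have hBR : ⁅U, R₀⁆ ≤ R₀ := commutator_le_right_of_le_normalizer hUR₀
    have hcB : (Nat.card (⁅U, R₀⁆ : Subgroup G)).Coprime p :=
      hcR.coprime_dvd_left (card_dvd_of_le (hBR.trans inf_le_left))
    have hBu : ⁅U, R₀⁆ ≤ centralizer ((zpowers u : Subgroup G) : Set G) := by
      rw [centralizer_zpowers]; exact hBR.trans inf_le_right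
    have hup : IsPGroup p (zpowers u) := hUp.to_le (zpowers_le.2 hu)
    rcases hcond with h | h
    · refine Core.p_times_q (P := zpowers u) hup hcB hE (le_centralizer_iff.1 hBu) (hn _) (hn _) ?_
      rw [centralizer_zpowers]
      refine le_centralizer_iff.1 ?_
      rw [commutator_comm]
      refine Core.commutator_le_centralizer_of_normalizes ?_ ?_
      · exact le_normalizer_inf (hn _) (inf_le_right.trans le_normalizer)
      · rw [← h u hu hu1]
        exact le_centralizer_iff.1 inf_le_right
    · refine le_centralizer_iff.1 (LocalEven.commutator_eq_bot_iff.1 ?_)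
      refine commutator_eq_bot_of_le_commutator hE hup hcB (hn _) (hn _)
        (LocalEven.commutator_eq_bot_iff.2 (le_centralizer_iff.1 hBu)) ?_
      have hD : R₀ ≤ normalizer ((⁅E, zpowers u⁆ : Subgroup G) : Set G) :=
        le_normalizer_commutator (hn _) (inf_le_right.trans (by
          rw [← centralizer_zpowers]; exact centralizer_le_normalizer' _))
      have hD2 : U ≤ normalizer ((⁅E, zpowers u⁆ : Subgroup G) : Set G) :=
        le_normalizer_commutator (hn _) (hUu.trans (by
          rw [← centralizer_zpowers]; exact centralizer_le_normalizer' _))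
      have h1 : U ≤ centMod E ⁅E, zpowers u⁆ := le_centMod.2 ⟨hD2, (h u hu hu1).le⟩
      have h2 : R₀ ≤ normalizer (centMod E ⁅E, zpowers u⁆ : Set G) :=
        le_normalizer_centMod (hn _) hD
      exact (le_centMod.1 ((commutator_mono h1 le_rfl).trans
        (commutator_le_left_of_le_normalizer h2))).2
  rw [commutator_comm]
  exact (le_centMod.1 key).2

end Cfsg.Agent.S2909
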