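import Mathlib
import Cfsg.Statements.S2910
import Cfsg.Agent.LocalEven.Resid
import Cfsg.Agent.PGrp.Critical
import Cfsg.Agent.Transfer.Frobenius

set_option autoImplicit false
open Cfsg

namespace Cfsg.Agent.S2910

open Cfsg.Agent.LocalEven

open Subgroup

/-- Let p be an odd prime dividing the order of the finite group G and P a Sylow p-subgroup of G. If Ω₁(P) (generated by the elements of order dividing p) is contained in the centre of G, then G has a normal p-complement. In particular, if G is quasisimple then Ω₁(P) is not central in G. -/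
theorem result {G : Type*} [Group G] [Finite G] {p : ℕ} [Fact p.Prime] (hp : p ≠ 2) (hdiv : p ∣ Nat.card G) (P : Sylow p G) (hZ : Cfsg.omegaOne p (P : Subgroup G) ≤ Subgroup.center G) : Cfsg.HasNormalPComplement p G ∧ ¬ Cfsg.IsQuasisimple G := by
  have h1 : HasNormalPComplement p G := by
    refine Transfer.hasNormalPComplement_of_forall_le_sylow' P fun Q hQ _ g hg hc => ?_
    refine PGrp.le_centralizer_of_le_centralizer_omegaOne hp (P.isPGroup'.to_le hQ)
      (zpowers_le.2 hg) (by rwa [Nat.card_zpowers]) ?_ (mem_zpowers g)
    exact le_centralizer_iff.1 (((omegaOne_mono hQ).trans hZ).trans (center_le_centralizer _))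
  refine ⟨h1, fun hq => ?_⟩
  have h2 : pResidual p G ≠ ⊤ := fun h0 => by
    rw [Transfer.hasNormalPComplement_iff_not_dvd, h0, card_top] at h1
    exact h1 hdiv
  obtain ⟨N, hN, hi, -⟩ := Transfer.exists_normal_index_eq_of_pResidual_ne_top h2
  have h3 := PGrp.commutator_le_of_index_prime Fact.out hi
  rw [hq.1.commutator_eq_top, top_le_iff] at h3
  rw [h3, index_top] at hi
  exact (Fact.out : p.Prime).one_lt.ne hi

end Cfsg.Agent.S2910
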