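import Mathlib
import Cfsg.Statements.S2911
import Cfsg.Agent.LocalEven.CentTr
import Cfsg.Agent.LocalEven.CharP2

set_option autoImplicit false
open Cfsg

namespace Cfsg.Agent.S2911

open Cfsg.Agent.LocalEven

open Subgroup

abbrev K := Multiplicative (ZMod 2) × DihedralGroup 4
def c : K := (Multiplicative.ofAdd 1, 1)
def z : K := (1, DihedralGroup.r 2)

theorem central : ∀ x : K, (∀ y, y * x = x * y) → x = 1 ∨ x = z ∨ x = c ∨ x = c * z := by decide
theorem sq_mem : ∀ y : K, y * y = 1 ∨ y * y = z := by decide
theorem z_eq : z = (1, DihedralGroup.r 1) * (1, DihedralGroup.r 1) := by decide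
theorem c_comm : ∀ y : K, y * c = c * y := by decide
theorem z_comm : ∀ y : K, y * z = z * y := by decide

theorem c_sq : c ^ 2 = 1 := by decide
theorem sq_one : ∀ y : Multiplicative (ZMod 2), y ^ 2 = 1 := by decide
theorem c_fst : c.1 ≠ 1 := by decide
theorem czz : c * z * z = c := by decide

theorem aut_z (β : K ≃* K) : β z = z := by
  rcases sq_mem (β (1, DihedralGroup.r 1)) with h | h
  · rw [← map_mul, ← z_eq, map_eq_one_iff _ β.injective] at h
    exact absurd h (by decide)
  · rwa [← map_mul, ← z_eq] at h

theorem aut_c (β : K ≃* K) : β c = c ∨ β c = c * z := by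
  rcases central (β c) (fun y => by
    obtain ⟨y, rfl⟩ := β.surjective y
    rw [← map_mul, ← map_mul, c_comm]) with h | h | h | h
  · rw [map_eq_one_iff _ β.injective] at h
    exact absurd h (by decide)
  · rw [← aut_z β] at h
    exact absurd (β.injective h) (by decide)
  · exact Or.inl h
  · exact Or.inr h

/-- A finite group whose Sylow 2-subgroups are isomorphic to the direct product of a group of order 2 and a dihedral group of order 8 has a subgroup of index two. -/
theorem result {G : Type*} [Group G] [Finite G] (S : Sylow 2 G) (hS : Nonempty (↥(S : Subgroup G) ≃* Multiplicative (ZMod 2) × DihedralGroup 4)) : ∃ H : Subgroup G, H.index = 2 := by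
  haveI : Fact (Nat.Prime 2) := ⟨Nat.prime_two⟩
  obtain ⟨e⟩ := hS
  set N := normalizer ((S : Subgroup G) : Set G) with hN
  have hβ : ∀ n ∈ N, ∃ β : K ≃* K, ∀ x : K, n * (e.symm x : G) * n⁻¹ = e.symm (β x) :=
    fun n hn => ⟨(e.symm.trans ((S : Subgroup G).normalizerMonoidHom ⟨n, hn⟩)).trans e,
      fun x => by simp only [MulEquiv.trans_apply, MulEquiv.symm_apply_apply]; rfl⟩
  have h1 : (e.symm c : G) ∉ pResidual 2 G := by
    refine not_mem_pResidual_of_central S (e.symm c).2 ?_ ?_ ?_
    · rw [← coe_pow, ← map_pow, c_sq, map_one, coe_one]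
    · have h2 : N ≤ centralizer ({(e.symm c : G)} : Set G) := by
        refine (isSylowIn_of_sylow_le S (le_normalizer : _ ≤ N)).pResOf_sup.ge.trans <|
          sup_le (pResOf_le_iff.2 fun n hn ho => ?_) fun s hs => ?_
        · obtain ⟨β, h3⟩ := hβ n hn
          have h4 : n * n ∈ centralizer ({(e.symm c : G)} : Set G) := by
            refine mem_centralizer_singleton.2 ?_
            have h5 : β (β c) = c := by
              rcases aut_c β with h | h
              · rw [h, h]
              · rw [h, map_mul, h, aut_z, czz]
            have h6 : n * (n * (e.symm c : G) * n⁻¹) * n⁻¹ = e.symm c := by rw [h3, h3, h5]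
            conv_lhs => rw [← h6]
            group
          exact PGrp.mem_of_pow_mem_of_coprime ho (by rw [pow_orderOf_eq_one]; exact one_mem _)
            (by rwa [sq])
        · refine mem_centralizer_singleton.2 ?_
          have := congrArg (fun x => (e.symm x : G)) (c_comm (e ⟨s, hs⟩))
          simpa using this.symm
      exact fun n hn => (mem_centralizer_singleton.1 (h2 hn)).symm
    · rw [mem_map_subtype]
      intro h3
      have h4 : frattini (S : Subgroup G) ≤
          ((MonoidHom.fst (Multiplicative (ZMod 2)) (DihedralGroup 4)).comp e.toMonoidHom).ker := by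
        refine (PGrp.frattini_le_iff S.isPGroup').2 ⟨Abelianization.commutator_subset_ker _,
          fun x => ?_⟩
        rw [MonoidHom.mem_ker, map_pow]
        exact sq_one _
      have h5 := h4 h3
      rw [MonoidHom.mem_ker] at h5
      simp only [MonoidHom.coe_comp, MulEquiv.toMonoidHom_eq_coe, MonoidHom.coe_coe,
        Function.comp_apply, MulEquiv.apply_symm_apply] at h5
      exact c_fst h5
  obtain ⟨H, -, h2, -⟩ := Transfer.exists_normal_index_eq_of_pResidual_ne_top (p := 2) (G := G)
    fun h0 => h1 (h0 ▸ mem_top _)
  exact ⟨H, h2⟩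

end Cfsg.Agent.S2911
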