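import Mathlib
import Cfsg.Statements.S2912
import Cfsg.Agent.BG.RepExtra

set_option autoImplicit false
open Cfsg

namespace Cfsg.Agent.S2912

open Module Cfsg.Agent.BG.RepGlue Cfsg.Agent.BG.RepWeight Cfsg.Agent.BG.RepExtra
open scoped commutatorElement Matrix

theorem wt_bound {k E W : Type*} [Field k] [IsAlgClosed k] [Group E] [Finite E] [AddCommGroup W]
    [Module k W] [FiniteDimensional k W] {p w : ℕ} [hp : Fact p.Prime] (hpk : (p : k) ≠ 0)
    (hE : Cfsg.IsExtraspecial p E) (hcard : Nat.card E = p ^ (2 * w + 1))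
    (ρ : Representation k E W) (χ : Subgroup.center E →* kˣ) (hχ : χ ≠ 1)
    (hne : wt ρ (Subgroup.center E) χ ≠ ⊥) : p ^ w ≤ finrank k (wt ρ (Subgroup.center E) χ) := by
  set U := wt ρ (Subgroup.center E) χ with hU
  have hinv : ∀ g : E, U ≤ U.comap (ρ g) := by
    intro g v hv
    rw [Submodule.mem_comap, hU, mem_wt]
    intro a
    have h1 := mem_wt.mp hv a
    have h2 : (a : E) * g = g * a := (Subgroup.mem_center_iff.mp a.2 g).symm
    calc ρ a (ρ g v) = ρ ((a : E) * g) v := by rw [map_mul]; rfl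
      _ = ρ g (ρ a v) := by rw [h2, map_mul]; rfl
      _ = _ := by rw [h1, map_smul]
  let σ : Representation k E U := ρ.subrepresentation U hinv
  have hσ : ∀ (g : E) (v : U), ((σ g v : U) : W) = ρ g v := fun g v => rfl
  haveI : Nontrivial U := Submodule.nontrivial_iff_ne_bot.mpr hne
  have hker : ∀ z : Subgroup.center E, χ z = 1 → z = 1 := by
    intro z hz
    haveI : Fact (Nat.card (Subgroup.center E)).Prime := ⟨hE.2 ▸ hp.out⟩
    rcases χ.ker.eq_bot_or_eq_top_of_prime_card with h | h
    · have : z ∈ χ.ker := hz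
      rwa [h] at this
    · exact absurd (by ext x; have : x ∈ χ.ker := h ▸ Subgroup.mem_top x; simpa using this) hχ
  have hscal : ∀ z : Subgroup.center E, σ z = (χ z : k) • 1 := by
    intro z
    ext v
    simp only [LinearMap.smul_apply, Module.End.one_apply, Submodule.coe_smul]
    rw [hσ]; exact mem_wt.mp v.2 z
  have hcomm : ∀ a b : E, ⁅a, b⁆ ∈ Subgroup.center E := by
    intro a b
    have h1 : ⁅a, b⁆ ∈ commutator E :=
      Subgroup.commutator_mem_commutator (Subgroup.mem_top a) (Subgroup.mem_top b)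
    rwa [hE.1.2.2] at h1
  have h := finrank_sq_eq σ ⊤ (Subgroup.center E)
    (by rw [Subgroup.normalizer_eq_top])
    (fun z hz => ⟨_, hscal ⟨z, hz⟩⟩) (fun a _ b _ => hcomm a b)
    (by
      intro g _ hg
      rw [Subgroup.mem_center_iff]
      intro y
      have h1 : σ ⁅y, g⁆ = 1 := by
        rw [commutatorElement_def, map_mul, map_mul, map_mul, hg y (Subgroup.mem_top y)]
        rw [mul_assoc (σ g), ← map_mul, mul_inv_cancel, map_one, mul_one, ← map_mul,
          mul_inv_cancel, map_one]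
      have h2 := hscal ⟨_, hcomm y g⟩
      simp only at h2
      rw [h1] at h2
      obtain ⟨v, hv⟩ := exists_ne (0 : U)
      have h3 : v = (χ ⟨_, hcomm y g⟩ : k) • v := by
        simpa using congrArg (fun f : Module.End k U => f v) h2
      have h4 : ((χ ⟨_, hcomm y g⟩ : k) - 1) • v = 0 := by rw [sub_smul, one_smul, ← h3, sub_self]
      have h5 : (χ ⟨_, hcomm y g⟩ : k) = 1 := by
        rcases smul_eq_zero.mp h4 with h | h
        · exact sub_eq_zero.mp h
        · exact absurd h hv
      have h6 := hker _ (Units.ext h5)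
      have h7 : ⁅y, g⁆ = 1 := congrArg Subtype.val h6
      exact (commutatorElement_eq_one_iff_mul_comm.mp h7))
    (by rw [Subgroup.card_top, hcard]; push_cast; exact pow_ne_zero _ hpk)
  have hrel : (Subgroup.center E).relIndex ⊤ = p ^ (2 * w) := by
    rw [Subgroup.relIndex_top_right]
    have h1 := (Subgroup.center E).card_mul_index
    rw [hE.2, hcard, pow_succ, mul_comm] at h1
    exact Nat.eq_of_mul_eq_mul_right hp.out.pos h1
  have hpos : 0 < finrank k (fixSub (conjRep σ) ((⊤ : Subgroup E) : Set E)) := by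
    rw [Nat.pos_iff_ne_zero]
    intro hb
    rw [Submodule.finrank_eq_zero] at hb
    have h1 : (1 : Module.End k U) ∈ fixSub (conjRep σ) ((⊤ : Subgroup E) : Set E) := by
      rw [mem_fixSub_conjRep]; intro a _; simp
    rw [hb] at h1
    exact one_ne_zero ((Submodule.mem_bot k).mp h1)
  have h2 : (p ^ w) ^ 2 ≤ finrank k U ^ 2 := by
    rw [h, hrel, ← pow_mul, mul_comm w 2]
    exact Nat.le_mul_of_pos_right _ hpos
  exact (Nat.pow_le_pow_iff_left two_ne_zero).mp h2

/-- Let p and r be distinct primes, let E be an extraspecial subgroup of order p^(2w+1) of a finite group, and let A be an elementary abelian r-subgroup normalized by E on which E acts faithfully (C_E(A) = 1). If n ≥ 1 is least with p dividing rⁿ − 1 (the smallest dimension of a faithful representation of a group of order p over the field with r elements), then the order of A is at least r^(n·p^w). -/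
theorem result {G : Type*} [Group G] [Finite G] {p r : ℕ} [Fact p.Prime] [hr : Fact r.Prime] (hpr : p ≠ r) (E A : Subgroup G) (w : ℕ) (hE : Cfsg.IsExtraspecial p ↥E) (hEcard : Nat.card ↥E = p ^ (2 * w + 1)) (hA : Cfsg.IsElementaryAbelian r A) (hnorm : E ≤ Subgroup.normalizer (A : Set G)) (hfaith : E ⊓ Subgroup.centralizer (A : Set G) = ⊥) (n : ℕ) (hn : 1 ≤ n) (hdiv : p ∣ r ^ n - 1) (hmin : ∀ k : ℕ, 1 ≤ k → p ∣ r ^ k - 1 → n ≤ k) : r ^ (n * p ^ w) ≤ Nat.card ↥A := by
  classical
  have hp : p.Prime := Fact.out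
  haveI : IsMulCommutative A := hA.1
  obtain ⟨m, hm⟩ : ∃ m, Nat.card A = r ^ m := by
    obtain ⟨m, ⟨e⟩⟩ := exists_mulEquiv (p := r) (V := A) (fun v => Subtype.ext (hA.2 v v.2))
    exact ⟨m, card_of_mulEquiv e⟩
  obtain ⟨φ, hφ⟩ := exists_matrix_rep_ker hA hm E.subtype (fun g => hnorm g.2)
  let k := AlgebraicClosure (ZMod r)
  haveI : CharP k r := inferInstance
  have hpk : (p : k) ≠ 0 := by
    intro h
    have := (CharP.cast_eq_zero_iff k r p).mp h
    exact hpr ((Nat.prime_dvd_prime_iff_eq hr.out hp).mp this).symm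
  let ψ : E →* Matrix (Fin m) (Fin m) k :=
    ((algebraMap (ZMod r) k).mapMatrix : Matrix (Fin m) (Fin m) (ZMod r) →+* _).toMonoidHom.comp φ
  have hψ : ∀ g i j, ψ g i j = algebraMap (ZMod r) k (φ g i j) := fun g i j => rfl
  let ρ : Representation k E (Fin m → k) :=
    (Matrix.toLinAlgEquiv' (R := k) (n := Fin m)).toRingEquiv.toMonoidHom.comp ψ
  have hρ : ∀ g v, ρ g v = ψ g *ᵥ v := fun g v => by
    show Matrix.toLinAlgEquiv' (ψ g) v = _
    rw [Matrix.toLinAlgEquiv'_apply]
  set Z := Subgroup.center E with hZ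
  have hZc : Nat.card Z = p := hE.2
  haveI : Finite (Z →* kˣ) := by
    apply Nat.finite_of_card_ne_zero
    rw [card_monoidHom Z (by rw [hZc]; exact hpk), hZc]; exact hp.ne_zero
  haveI : Fintype (Z →* kˣ) := Fintype.ofFinite _
  obtain ⟨π, hπ⟩ := exists_isWtProj ρ Z (by rw [hZc]; exact hpk) (by
    intro a ha b _
    rw [← map_mul, ← map_mul, (Subgroup.mem_center_iff.mp ha b)])
  obtain ⟨χ, hχ1, hχ⟩ : ∃ χ : Z →* kˣ, χ ≠ 1 ∧ wt ρ Z χ ≠ ⊥ := by
    by_contra hcon
    push Not at hcon
    have hall : ∀ v, v ∈ wt ρ Z 1 := by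
      intro v
      rw [← hπ.sum v]
      refine Submodule.sum_mem _ (fun χ _ => ?_)
      by_cases h : χ = 1
      · rw [h]; exact hπ.mem 1 v
      · have := hπ.mem χ v
        rw [hcon χ h] at this
        rw [(Submodule.mem_bot k).mp this]; exact Submodule.zero_mem _
    haveI : Nontrivial Z := by
      rw [← Finite.one_lt_card_iff_nontrivial, hZc]; exact hp.one_lt
    obtain ⟨z, hz⟩ := exists_ne (1 : Z)
    have h1 : ψ z = 1 := by
      apply Matrix.toLin'.injective
      refine LinearMap.ext (fun v => ?_)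
      have := mem_wt.mp (hall v) z
      rw [hρ] at this
      simpa using this
    have h2 : φ z = 1 := by
      ext i j
      apply (algebraMap (ZMod r) k).injective
      rw [← hψ, h1]
      by_cases hij : i = j
      · subst hij; simp
      · simp [Matrix.one_apply_ne hij]
    have h3 : ((z : E) : G) ∈ E ⊓ Subgroup.centralizer (A : Set G) := ⟨(z : E).2, (hφ z).mp h2⟩
    rw [hfaith] at h3
    exact hz (Subtype.ext (Subtype.ext (Subgroup.mem_bot.mp h3)))
  let pw : ℕ → (Z →* kˣ) := fun i => (powMonoidHom (r ^ i) : kˣ →* kˣ).comp χ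
  have hpw : ∀ i a, pw i a = χ a ^ (r ^ i) := fun i a => rfl
  have hfrob : ∀ i, wt ρ Z (pw i) ≠ ⊥ → wt ρ Z (pw (i + 1)) ≠ ⊥ := by
    intro i0 hθ
    obtain ⟨v, hv, hv0⟩ := Submodule.exists_mem_ne_zero_of_ne_bot hθ
    intro hb
    have h1 : (fun i => v i ^ r) ∈ wt ρ Z (pw (i0 + 1)) := by
      rw [mem_wt]
      intro a
      have h2 := mem_wt.mp hv a
      rw [hρ] at h2 ⊢
      funext i
      have h3 := congrFun h2 i
      simp only [Matrix.mulVec, dotProduct, Pi.smul_apply, smul_eq_mul] at h3 ⊢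
      have h4 := congrArg (frobenius k r) h3
      rw [map_sum, map_mul] at h4
      simp only [map_mul, frobenius_def] at h4
      have h5 : ((pw (i0 + 1) a : kˣ) : k) = ((pw i0 a : kˣ) : k) ^ r := by
        rw [hpw, hpw, pow_succ, pow_mul, Units.val_pow_eq_pow_val]
      rw [h5, ← h4]
      refine Finset.sum_congr rfl (fun j _ => ?_)
      rw [hψ, ← map_pow, ZMod.pow_card]
    rw [hb] at h1
    apply hv0
    funext i
    have h2 := congrFun ((Submodule.mem_bot k).mp h1) i
    exact pow_eq_zero_iff hr.out.ne_zero |>.mp h2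
  have hne : ∀ i : ℕ, wt ρ Z (pw i) ≠ ⊥ := by
    intro i
    induction i with
    | zero =>
      have : pw 0 = χ := by ext a; rw [hpw, pow_zero, pow_one]
      rwa [this]
    | succ i ih => exact hfrob _ ih
  obtain ⟨z₀, hz₀⟩ : ∃ z₀ : Z, χ z₀ ≠ 1 := by
    by_contra hcon
    push Not at hcon
    exact hχ1 (MonoidHom.ext hcon)
  have hord : orderOf (χ z₀) = p := by
    apply orderOf_eq_prime _ hz₀
    rw [← map_pow, ← hZc, pow_card_eq_one', map_one]
  have hcop : Nat.Coprime p r := (Nat.coprime_primes hp hr.out).mpr hpr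
  have hne1 : ∀ i : ℕ, pw i ≠ 1 := by
    intro i h
    have h0 : χ z₀ ^ (r ^ i) = 1 := by rw [← hpw, h]; rfl
    have h1 := orderOf_dvd_of_pow_eq_one h0
    rw [hord] at h1
    exact hp.one_lt.ne' (Nat.Coprime.eq_one_of_dvd (hcop.pow_right i) h1)
  have hlt : ∀ i j : ℕ, i < j → j < n → pw i ≠ pw j := by
    intro i j hij hj h
    have h0 : χ z₀ ^ (r ^ i) = χ z₀ ^ (r ^ j) := by rw [← hpw, ← hpw, h]
    have h1 : r ^ i ≡ r ^ j [MOD p] := by rw [← hord]; exact pow_eq_pow_iff_modEq.mp h0
    have h2 : p ∣ r ^ j - r ^ i :=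
      (Nat.modEq_iff_dvd' (Nat.pow_le_pow_right hr.out.pos hij.le)).mp h1
    have h3 : r ^ j - r ^ i = r ^ i * (r ^ (j - i) - 1) := by
      rw [Nat.mul_sub, ← pow_add, mul_one]; congr 2; omega
    rw [h3] at h2
    have h4 := (hcop.pow_right i).dvd_of_dvd_mul_left h2
    have := hmin (j - i) (by omega) h4
    omega
  have hinj : Set.InjOn pw (Finset.range n : Set ℕ) := by
    intro i hi j hj h
    have hi' : i < n := by simpa using hi
    have hj' : j < n := by simpa using hj
    rcases lt_trichotomy i j with hij | hij | hij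
    · exact absurd h (hlt i j hij hj')
    · exact hij
    · exact absurd h.symm (hlt j i hij hi')
  have hsum := hπ.sum_finrank
  rw [Module.finrank_fin_fun] at hsum
  have hle : n * p ^ w ≤ m := by
    calc n * p ^ w = ∑ _i ∈ Finset.range n, p ^ w := by simp
      _ ≤ ∑ i ∈ Finset.range n, finrank k (wt ρ Z (pw i)) :=
          Finset.sum_le_sum (fun i _ => wt_bound hpk hE hEcard ρ _ (hne1 i) (hne i))
      _ = ∑ θ ∈ (Finset.range n).image pw, finrank k (wt ρ Z θ) :=
          (Finset.sum_image (f := fun θ => finrank k (wt ρ Z θ)) hinj).symm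
      _ ≤ ∑ θ, finrank k (wt ρ Z θ) := Finset.sum_le_sum_of_subset (Finset.subset_univ _)
      _ = m := hsum
  rw [hm]
  exact Nat.pow_le_pow_right hr.out.pos hle

end Cfsg.Agent.S2912
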