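import Mathlib
import Cfsg.Statements.S2925
import Cfsg.Agent.LocalEven.SylowIn
import Cfsg.Agent.Comp2.Component

set_option autoImplicit false
open Cfsg

namespace Cfsg.Agent.S2925

open Cfsg.Agent.LocalEven

open Subgroup
open scoped commutatorElement

/-- Let K be a component of the finite group X and T a Sylow 2-subgroup of X. If some abelian normal subgroup Y of T does not normalize K, then K ⧸ Z(K) has abelian Sylow 2-subgroups. -/
theorem result {X : Type*} [Group X] [Finite X] (K : Subgroup X) (hK : Cfsg.IsComponent K) (T : Sylow 2 X) (Y : Subgroup X) (hYT : Y ≤ (T : Subgroup X)) (hYn : (Y.subgroupOf (T : Subgroup X)).Normal) (hYab : IsMulCommutative ↥Y) (hnot : ¬ Y ≤ Subgroup.normalizer (K : Set X)) (P : Sylow 2 (↥K ⧸ Subgroup.center ↥K)) : IsMulCommutative ↥(P : Subgroup (↥K ⧸ Subgroup.center ↥K)) := by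
  obtain ⟨y, hy, hyn⟩ := SetLike.not_le_iff_exists.1 hnot
  have hne : K ≠ cj y K := fun h => hyn (cj_eq_self_iff.1 h.symm)
  have hc := Comp2.commutator_eq_bot_iff_forall.1
    (Comp2.component_commutator_eq_bot_of_ne hK (Comp2.component_conj hK y) hne)
  have hS := sylow_inf_subnormal T hK.1
  have hYc : ∀ a ∈ Y, ∀ b ∈ Y, a * b = b * a := fun a ha b hb =>
    congrArg Subtype.val (hYab.is_comm.comm (⟨a, ha⟩ : Y) ⟨b, hb⟩)
  have hmem : ∀ s ∈ (T : Subgroup X), s * (y * s⁻¹ * y⁻¹) ∈ Y := fun s hs => by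
    have h1 : s * y * s⁻¹ ∈ Y := hYn.conj_mem ⟨y, hYT hy⟩ hy ⟨s, hs⟩
    have := mul_mem h1 (inv_mem hy)
    convert this using 1; group
  have key : ∀ a ∈ (T : Subgroup X) ⊓ K, ∀ b ∈ (T : Subgroup X) ⊓ K, ∀ k ∈ K,
      k * ⁅a, b⁆ = ⁅a, b⁆ * k := by
    intro a ha b hb k hk
    have h1 := hYc _ (hmem a ha.1) _ (hmem b hb.1)
    have ha' : y * a⁻¹ * y⁻¹ ∈ cj y K := conj_mem_cj (inv_mem ha.2)
    have hb' : y * b⁻¹ * y⁻¹ ∈ cj y K := conj_mem_cj (inv_mem hb.2)
    set a' := y * a⁻¹ * y⁻¹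
    set b' := y * b⁻¹ * y⁻¹
    have h2 : a * b * (a' * b') = b * a * (b' * a') := by
      calc a * b * (a' * b') = a * (b * a') * b' := by group
        _ = a * a' * (b * b') := by rw [hc b hb.2 a' ha']; group
        _ = b * (b' * a) * a' := by rw [h1]; group
        _ = _ := by rw [← hc a ha.2 b' hb']; group
    have h3 : (b * a)⁻¹ * (a * b) ∈ cj y K := by
      have : (b * a)⁻¹ * (a * b) = (b' * a') * (a' * b')⁻¹ := by
        calc (b * a)⁻¹ * (a * b) = (b * a)⁻¹ * (a * b * (a' * b')) * (a' * b')⁻¹ := by group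
          _ = _ := by rw [h2]; group
      rw [this]
      exact mul_mem (mul_mem hb' ha') (inv_mem (mul_mem ha' hb'))
    have h4 := hc _ (mul_mem hb.2 ha.2) _ h3
    have h5 : ⁅a, b⁆ = (b * a)⁻¹ * (a * b) := by
      calc ⁅a, b⁆ = (b * a) * ((b * a)⁻¹ * (a * b)) * (b * a)⁻¹ := by
            rw [commutatorElement_def]; group
        _ = _ := by rw [h4]; group
    rw [h5]
    exact hc k hk _ h3
  let Q : Sylow 2 (K ⧸ center K) := hS.toSylow.mapSurjective (QuotientGroup.mk'_surjective _)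
  have hQ : IsMulCommutative (Q : Subgroup (K ⧸ center K)) := ⟨⟨by
    rintro ⟨_, a, ha, rfl⟩ ⟨_, b, hb, rfl⟩
    apply Subtype.ext
    show QuotientGroup.mk' _ a * QuotientGroup.mk' _ b = QuotientGroup.mk' _ b * QuotientGroup.mk' _ a
    rw [← commutatorElement_eq_one_iff_mul_comm, ← map_commutatorElement]
    exact (QuotientGroup.eq_one_iff _).2 (mem_center_iff.2 fun k => Subtype.ext
      (key a ha b hb k k.2))⟩⟩
  obtain ⟨g, rfl⟩ := MulAction.exists_smul_eq (K ⧸ center K) Q P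
  rw [sylow_smul_coe]
  exact isMulCommutative_cj g hQ

end Cfsg.Agent.S2925
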