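import Mathlib
import Cfsg.Statements.S2939
import Cfsg.Agent.LocalEven.SylCtrl

set_option autoImplicit false
open Cfsg

namespace Cfsg.Agent.S2939

open Cfsg.Agent.LocalEven

open Subgroup Relation

variable {G : Type*} [Group G]

theorem conjRight_subset {g : G} {A B : Set G} :
    conjRight g A ⊆ B ↔ ∀ a ∈ A, g⁻¹ * a * g ∈ B := Set.forall_mem_image

def FStep (p : ℕ) (𝓕 : Set (Subgroup G)) (S : Subgroup G) (A : Set G) (z w : G) : Prop :=
  ∃ Y ∈ sylowMembers p 𝓕 S, z⁻¹ * w ∈ Y ∧ ∀ a ∈ A, w⁻¹ * a * w ∈ S ⊓ Y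

theorem strong_iff {p : ℕ} {𝓕 : Set (Subgroup G)} :
    FamilyStronglyControlsFusion p 𝓕 ↔ ∀ (S : Sylow p G) (A : Set G) (g : G), A ⊆ (S : Set G) →
      (∃ a ∈ A, a ≠ 1) → conjRight g A ⊆ (S : Set G) →
      ∃ z, ReflTransGen (FStep p 𝓕 S A) 1 z ∧ z⁻¹ * g ∈ normalizer ((S : Subgroup G) : Set G) := by
  refine forall₃_congr fun S A g => forall₃_congr fun _ _ _ => ⟨?_, ?_⟩
  · rintro ⟨n, Y, y, y₀, h0, hY, rfl, hA⟩
    refine ⟨(List.ofFn y).prod, rtg_iff_fin.2 ⟨n, Fin.partialProd y, Fin.partialProd_zero y, ?_,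
      fun i => ⟨Y i, (hY i).1, ?_, ?_⟩⟩, by simpa using h0⟩
    · simp only [Fin.partialProd, Fin.val_last]
      rw [List.take_of_length_le (by simp)]
    · rw [Fin.partialProd_succ]; simpa using (hY i).2
    · exact conjRight_subset.1 (hA i)
  · rintro ⟨z, hz, h0⟩
    obtain ⟨n, c, hc0, hcl, hs⟩ := rtg_iff_fin.1 hz
    choose Y hY h1 h2 using hs
    have e : ∀ j, Fin.partialProd (fun i : Fin n => (c i.castSucc)⁻¹ * c i.succ) j = c j := by
      intro j
      have := congrFun (Fin.partialProd_left_inv c) j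
      rwa [hc0, one_smul] at this
    refine ⟨n, Y, fun i => (c i.castSucc)⁻¹ * c i.succ, z⁻¹ * g, h0, fun i => ⟨hY i, h1 i⟩, ?_,
      fun i => ?_⟩
    · have := e (Fin.last n)
      simp only [Fin.partialProd, Fin.val_last] at this
      rw [List.take_of_length_le (by simp)] at this
      rw [this, hcl, mul_inv_cancel_left]
    · have := e i.succ
      simp only [Fin.partialProd, Fin.val_succ] at this
      rw [this]
      exact conjRight_subset.2 (h2 i)

/-- Let p be a prime dividing the order of the finite group G and 𝓕 a family of subgroups of G closed under conjugation, with conjugates taken as X^g = g⁻¹Xg. Then 𝓕 controls Sylow p-intersections in G (any two distinct Sylow p-subgroups S and T with S ∩ T ≠ 1 are joined by a chain S = S₀, S₁, …, Sₙ = T of Sylow p-subgroups where, for each i, some member Xᵢ of 𝓕 meets both S_{i-1} and Sᵢ in Sylow p-subgroups of Xᵢ, satisfies S ∩ T ≤ Sᵢ ∩ Xᵢ, and contains an element xᵢ with Sᵢ^{xᵢ}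 = S_{i-1}) if and only if 𝓕 strongly controls p-fusion in G (whenever A is a subset of a Sylow p-subgroup S, A contains an element other than 1, and A^g ⊆ S, the element g factorises as g = y₁⋯yₙy with y ∈ N_G(S) and each yᵢ in a member Yᵢ of 𝓕 that meets S in a Sylow p-subgroup of Yᵢ, with A^{y₁⋯yᵢ} ⊆ S ∩ Yᵢ for each i). -/
theorem result {G : Type*} [Group G] [Finite G] {p : ℕ} [Fact p.Prime] (hdiv : p ∣ Nat.card G) (𝓕 : Set (Subgroup G)) (h𝓕 : Cfsg.IsNormalSet 𝓕) : Cfsg.ControlsSylowIntersections p 𝓕 ↔ Cfsg.FamilyStronglyControlsFusion p 𝓕 := by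
  rw [controls_iff, strong_iff]
  constructor
  · intro h S A g hA ⟨a, ha, ha1⟩ hg
    have hS := isSylowIn_top S
    have hAD : ∀ a ∈ A, a ∈ (S : Subgroup G) ⊓ cj g S := fun a ha =>
      ⟨hA ha, mem_cj.2 (conjRight_subset.1 hg a ha)⟩
    have h1 := h S (cj g S) hS (hS.cj_of_mem (mem_top g)) fun h0 =>
      ha1 (mem_bot.1 (h0 ▸ hAD a ha))
    have key : ∀ T, ReflTransGen (SStep p ⊤ 𝓕 ((S : Subgroup G) ⊓ cj g S)) S T →
        ∃ z, ReflTransGen (FStep p 𝓕 S A) 1 z ∧ cj z (S : Subgroup G) = T := by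
      intro T hT
      induction hT with
      | refl => exact ⟨1, ReflTransGen.refl, cj_one _⟩
      | @tail b c _ hbc ih =>
        obtain ⟨z, hz, rfl⟩ := ih
        obtain ⟨-, X, hX, a1, -, ⟨x, hx, rfl⟩, a2⟩ := hbc
        refine ⟨x * z, hz.tail ⟨cj z⁻¹ X, mem_sylowMembers.2
          ⟨IsNormalSet.cj_mem' h𝓕 hX _, ?_⟩, ?_, fun a ha => ⟨?_, ?_⟩⟩, cj_mul _ _ _⟩
        · have := a1.cj z⁻¹
          rwa [cj_inf, cj_inv_cj] at this
        · rw [mem_cj_inv]; simpa [mul_assoc] using hx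
        · have := (a2 (hAD a ha)).1
          rw [cj_cj] at this
          exact mem_cj.1 this
        · have := mul_mem (mul_mem (inv_mem hx) (a2 (hAD a ha)).2) hx
          refine mem_cj_inv.2 ?_
          simpa [mul_assoc] using this
    obtain ⟨z, hz, e⟩ := key _ h1
    refine ⟨z, hz, ?_⟩
    rw [← cj_eq_self_iff, cj_mul, ← e, cj_inv_cj]
  · intro h S T hS hT hne
    obtain ⟨g, -, rfl⟩ := hS.conj hT
    obtain ⟨S, rfl⟩ := hS.exists_sylow_top
    obtain ⟨z, hz, h0⟩ := h S ((S : Subgroup G) ⊓ cj g S : Subgroup G) g (fun a ha => ha.1)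
      (by
        obtain ⟨⟨a, ha⟩, ha1⟩ := ne_bot_iff_exists_ne_one.1 hne
        exact ⟨a, ha, fun h1 => ha1 (Subtype.ext h1)⟩)
      (conjRight_subset.2 fun a ha => mem_cj.1 ha.2)
    have e : cj g (S : Subgroup G) = cj z S := by
      rw [← mul_inv_cancel_left z g, cj_mul, cj_eq_of_mem_normalizer h0]
    have := hz.lift (fun z => cj z (S : Subgroup G))
      (p := SStep p ⊤ 𝓕 ((S : Subgroup G) ⊓ cj g S)) ?_
    · have h3 : ReflTransGen (SStep p ⊤ 𝓕 ((S : Subgroup G) ⊓ cj g S)) (cj 1 S) (cj z S) := this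
      rw [cj_one, ← e] at h3
      exact h3
    · rintro u w ⟨Y, hY, h1, h2⟩
      obtain ⟨hY1, hY2⟩ := mem_sylowMembers.1 hY
      have e2 : cj w Y = cj u Y := by
        rw [← mul_inv_cancel_left u w, cj_mul, cj_eq_of_mem h1]
      refine ⟨hS.cj_of_mem (mem_top w), cj u Y, IsNormalSet.cj_mem' h𝓕 hY1 _, ?_, ?_,
        ⟨u * (u⁻¹ * w) * u⁻¹, conj_mem_cj h1, ?_⟩, ?_⟩
      · rw [← cj_inf]; exact hY2.cj u
      · rw [← e2, ← cj_inf]; exact hY2.cj w
      · rw [cj_cj]; congr 1; group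
      · rw [← e2, ← cj_inf]
        exact fun a ha => mem_cj.2 (h2 a ha)

end Cfsg.Agent.S2939
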