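import Mathlib
import Cfsg.Statements.S2955
import Cfsg.Agent.LocalEven.SylCtrl

set_option autoImplicit false
open Cfsg

namespace Cfsg.Agent.S2955

open Cfsg.Agent.LocalEven

open Subgroup

/-- Let p be a prime dividing the order of the finite group G and 𝓕 a conjugation-closed family of subgroups that controls Sylow p-intersections in G. Suppose the Sylow p-subgroups of G are chain-connected: any two of them are joined by a chain of Sylow p-subgroups, consecutive ones distinct with nontrivial intersection, all containing the intersection of the two ends (equivalently, the graph on the Sylow p-subgroups whose edges are the distinct pairs meeting nontrivially is connected). Then for every Sylow p-subgroup S, G is generated by N_G(S) together with the members of 𝓕 that meet S in a Sylow p-subgroup of themselves. -/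
theorem result {G : Type*} [Group G] [Finite G] (p : ℕ) [Fact p.Prime] (hdiv : p ∣ Nat.card G)
    (𝓕 : Set (Subgroup G)) (h𝓕 : Cfsg.IsNormalSet 𝓕) (hc : Cfsg.ControlsSylowIntersections p 𝓕)
    (hconn : Cfsg.IsSylowChainConnected p G) (S : Sylow p G) :
    (⨆ X ∈ Cfsg.sylowMembers p 𝓕 (S : Subgroup G), X) ⊔ Subgroup.normalizer ((S : Subgroup G) : Set G) = ⊤ := by
  rw [controls_iff] at hc
  set H := (⨆ X ∈ Cfsg.sylowMembers p 𝓕 (S : Subgroup G), X) ⊔
    normalizer ((S : Subgroup G) : Set G) with hH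
  have step : ∀ D A B : Subgroup G, Relation.ReflTransGen (SStep p ⊤ 𝓕 D) A B →
      (∃ h ∈ H, cj h (S : Subgroup G) = A) → ∃ h ∈ H, cj h (S : Subgroup G) = B := by
    intro D A B hAB hA
    induction hAB with
    | refl => exact hA
    | @tail b c _ hbc ih =>
      obtain ⟨h, hh, rfl⟩ := ih
      obtain ⟨-, X, hX, a1, -, ⟨x, hx, rfl⟩, -⟩ := hbc
      have h1 : cj h⁻¹ X ∈ sylowMembers p 𝓕 (S : Subgroup G) := by
        refine mem_sylowMembers.2 ⟨IsNormalSet.cj_mem' h𝓕 hX _, ?_⟩
        have := a1.cj h⁻¹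
        rwa [cj_inf, cj_inv_cj] at this
      have h2 : cj h⁻¹ X ≤ H := (le_iSup₂_of_le (f := fun X (_ : X ∈ sylowMembers p 𝓕
        (S : Subgroup G)) => X) _ h1 le_rfl).trans le_sup_left
      have h3 : h⁻¹ * x * h ∈ H := h2 (by simpa using conj_mem_cj (g := h⁻¹) hx)
      refine ⟨h * (h⁻¹ * x * h), mul_mem hh h3, ?_⟩
      rw [cj_cj]; congr 1; group
  refine eq_top_iff.2 fun g _ => ?_
  obtain ⟨n, c, h0, hl, -, hs⟩ := hconn S (g • S)
  have : ∀ i : Fin (n + 1), ∃ h ∈ H, cj h (S : Subgroup G) = c i := fun i =>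
    Fin.induction ⟨1, one_mem _, by rw [cj_one, h0]⟩ (fun j ih =>
      step _ _ _ (hc _ _ (isSylowIn_top _) (isSylowIn_top _) (hs j).2) ih) i
  obtain ⟨h, hh, e⟩ := this (Fin.last n)
  rw [hl, sylow_smul_coe] at e
  have h1 : h⁻¹ * g ∈ normalizer ((S : Subgroup G) : Set G) := by
    rw [← cj_eq_self_iff, cj_mul, ← e, cj_inv_cj]
  simpa using mul_mem hh (mem_sup_right h1 : h⁻¹ * g ∈ H)

end Cfsg.Agent.S2955
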