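import Mathlib
import Cfsg.Statements.S2956
import Cfsg.Agent.LocalEven.SylCtrl

set_option autoImplicit false
open Cfsg

namespace Cfsg.Agent.S2956

open Cfsg.Agent.LocalEven

open Subgroup Relation

theorem exists_max {G : Type*} [Group G] [Finite G] {p : ℕ} {Q : Subgroup G} (hQ : IsPGroup p Q)
    (hne : Q ≠ ⊥) : ∃ M, IsMaximalPLocal p M ∧ normalizer (Q : Set G) ≤ M := by
  obtain ⟨M, hM⟩ := exists_maximal_of_wellFoundedGT
    (fun M => IsPLocal p M ∧ normalizer (Q : Set G) ≤ M) ⟨_, ⟨Q, hQ, hne, rfl⟩, le_rfl⟩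
  exact ⟨M, ⟨hM.1.1, fun N hN hle => le_antisymm (hM.2 ⟨hN, hM.1.2.trans hle⟩ hle) hle⟩, hM.1.2⟩

theorem card_lt {G : Type*} [Group G] [Finite G] {H K : Subgroup G} (h : H < K) :
    Nat.card H < Nat.card K :=
  lt_of_not_ge fun h1 => h.ne (eq_of_le_of_card_le h.le h1)

/-- Let p be a prime dividing the order of the finite group G, and f an assignment to every p-subgroup P of a set f(P) of subgroups of P, each normalized by N_G(P), compatible with conjugation, such that for P ≠ 1 the members of f(P) are nontrivial. Let 𝓕 be the family of the normalizers N_G(F) of the members F of f(S) over the Sylow p-subgroups S of G, and 𝓕' the family of the maximal p-local subgroups M of G that are singular for f (the corresponding family of normalizers inside M does not control Sylow p-intersections in M). Then 𝓕 ∪ 𝓕' controls Sylow p-intersections in G. -/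
theorem result {G : Type*} [Group G] [Finite G] (p : ℕ) [Fact p.Prime] (hdiv : p ∣ Nat.card G)
    (f : Subgroup G → Set (Subgroup G)) (hf : Cfsg.IsNormalizerFunctor p f)
    (hf1 : ∀ P : Subgroup G, IsPGroup p ↥P → P ≠ ⊥ → ∀ F ∈ f P, F ≠ ⊥)
    (𝓕 𝓕' : Set (Subgroup G)) (h𝓕 : 𝓕 = Cfsg.functorFamily p f ⊤)
    (h𝓕' : 𝓕' = {M | Cfsg.IsMaximalPLocal p M ∧ ¬ Cfsg.IsFunctorRegular p f M}) :
    Cfsg.ControlsSylowIntersections p (𝓕 ∪ 𝓕') := by
  rw [controls_iff]
  subst h𝓕 h𝓕'
  set 𝓖 := functorFamily p f ⊤ ∪ {M | IsMaximalPLocal p M ∧ ¬ IsFunctorRegular p f M} with h𝓖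
  suffices H : ∀ D : Subgroup G, D ≠ ⊥ → ∀ S T, IsSylowIn p S ⊤ → IsSylowIn p T ⊤ → D ≤ S →
      D ≤ T → ReflTransGen (SStep p ⊤ 𝓖 D) S T from
    fun S T hS hT hne => H _ hne S T hS hT inf_le_left inf_le_right
  intro D
  induction D using WellFoundedGT.induction with
  | ind D ih =>
  intro hD
  have ih' : ∀ E S T, D < E → IsSylowIn p S ⊤ → IsSylowIn p T ⊤ → E ≤ S → E ≤ T →
      ReflTransGen (SStep p ⊤ 𝓖 D) S T := fun E S T hE hS hT h1 h2 =>
    chain_mono (ih E hE (fun h0 => hD (eq_bot_iff.2 (hE.le.trans h0.le))) S T hS hT h1 h2)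
      le_rfl hE.le
  have main : ∀ (k : ℕ) (M P Q : Subgroup G), IsMaximalPLocal p M → IsSylowIn p P M →
      IsSylowIn p Q M → Nat.card G - Nat.card P ≤ k → D < P → D ≤ Q →
      ∀ S T, IsSylowIn p S ⊤ → IsSylowIn p T ⊤ → P ≤ S → Q ≤ T →
      ReflTransGen (SStep p ⊤ 𝓖 D) S T := by
    intro k
    induction k using Nat.strong_induction_on with
    | _ k ihk =>
    intro M P Q hM hP hQ hk hDP hDQ S T hS hT hPS hQT
    have hlt : ∀ R, IsSylowIn p R M → D ≤ R → D < R := fun R hR h =>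
      lt_of_le_of_ne h fun h0 => (card_lt hDP).ne (by rw [h0]; exact hR.card_eq_card hP)
    by_cases hreg : IsFunctorRegular p f M
    · have hch := chain_mono (regular_iff.1 hreg P Q hP hQ
        (fun h0 => hD (eq_bot_iff.2 ((le_inf hDP.le hDQ).trans h0.le)))) le_rfl
        (le_inf hDP.le hDQ)
      have key : ∀ R, ReflTransGen (SStep p M (functorFamily p f M) D) P R →
          IsSylowIn p R M ∧ D ≤ R ∧ ∀ T, IsSylowIn p T ⊤ → R ≤ T →
            ReflTransGen (SStep p ⊤ 𝓖 D) S T := by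
        intro R hR
        induction hR with
        | refl => exact ⟨hP, hDP.le, fun T hT h => ih' P S T hDP hS hT hPS h⟩
        | @tail b c _ hbc ihb =>
          obtain ⟨hb, hDb, ihb⟩ := ihb
          obtain ⟨R, hR, F, hF, h1, h2, ⟨x, hx, h3⟩, h4⟩ := hbc.functor_le hf hb
          refine ⟨hbc.1, h4, fun T hT hcT => ?_⟩
          by_cases hRs : IsSylowIn p R ⊤
          · have hb' : IsSylowIn p b ⊤ := hb.of_sylow_le le_top hRs hR.le
            have hc' : IsSylowIn p c ⊤ := hbc.1.of_sylow_le le_top hRs hR.le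
            rw [← hc'.eq_of_le hT hcT]
            refine (ihb b hb' le_rfl).tail ⟨hc', ⊤ ⊓ normalizer (F : Set G),
              Or.inl (mem_functorFamily.2 ⟨R, hRs, F, hF, rfl⟩), ?_, ?_,
              ⟨x, ⟨mem_top x, hx⟩, h3⟩, ?_⟩
            · rw [top_inf_eq, inf_eq_left.2 h1]; exact hb'.mono h1 le_top
            · rw [top_inf_eq, inf_eq_left.2 h2]; exact hc'.mono h2 le_top
            · rw [top_inf_eq, inf_eq_left.2 h2]; exact h4
          · obtain ⟨U, hU, hRU⟩ := exists_isSylowIn_le hR.pgrp (le_top : R ≤ ⊤)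
            have hRU' : R < U := lt_of_le_of_ne hRU fun h0 => hRs (h0 ▸ hU)
            have hF' := (hf R hR.pgrp).1 F hF
            have hRne : R ≠ ⊥ := fun h0 => by
              have := hR.card_eq_card hP
              rw [h0, card_bot] at this
              have h5 := card_lt hDP
              have h6 : 0 < Nat.card D := Nat.card_pos
              omega
            obtain ⟨M', hM', hle⟩ := exists_max (hR.pgrp.to_le hF'.1) (hf1 R hR.pgrp hRne F hF)
            obtain ⟨P', hP', hbP⟩ := exists_isSylowIn_le hb.pgrp (h1.trans hle)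
            obtain ⟨Q', hQ', hcQ⟩ := exists_isSylowIn_le hbc.1.pgrp (h2.trans hle)
            obtain ⟨S', hS', hPS'⟩ := exists_isSylowIn_le hP'.pgrp (le_top : P' ≤ ⊤)
            obtain ⟨T', hT', hQT'⟩ := exists_isSylowIn_le hQ'.pgrp (le_top : Q' ≤ ⊤)
            have hc1 : Nat.card P < Nat.card P' := by
              rw [← hR.card_eq_card hP]
              exact (card_lt (lt_inf_normalizer hU.pgrp hRU')).trans_le
                (hP'.card_le ((inf_le_right.trans hF'.2).trans hle) (hU.pgrp.to_le inf_le_left))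
            have hc2 : Nat.card P' ≤ Nat.card G := card_le_card_group P'
            refine ((ihb S' hS' (hbP.trans hPS')).trans (ihk (Nat.card G - Nat.card P') (by omega)
              M' P' Q' hM' hP' hQ' le_rfl ((hlt b hb hDb).trans_le hbP) (h4.trans hcQ) S' T' hS' hT'
              hPS' hQT')).trans (ih' c T' T (hlt c hbc.1 h4) hT' hT (hcQ.trans hQT') hcT)
      exact (key Q hch).2.2 T hT hQT
    · obtain ⟨x, hx, hxP⟩ := hP.conj hQ
      have hT' : IsSylowIn p (cj x⁻¹ T) ⊤ := hT.cj_of_mem (mem_top _)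
      have hPT : P ≤ cj x⁻¹ T := by rw [le_cj_iff, inv_inv, hxP]; exact hQT
      have e1 : cj x⁻¹ T ⊓ M = P :=
        hP.max _ inf_le_right (hT'.pgrp.to_le inf_le_left) (le_inf hPT hP.le)
      have e2 : T ⊓ M = Q :=
        hQ.max _ inf_le_right (hT.pgrp.to_le inf_le_left) (le_inf hQT hQ.le)
      refine (ih' P S _ hDP hS hT' hPS hPT).tail ⟨hT, M, Or.inr ⟨hM, hreg⟩, ?_, ?_,
        ⟨x, hx, cj_cj_inv _ _⟩, ?_⟩
      · rwa [e1]
      · rwa [e2]
      · rwa [e2]
  intro S T hS hT hDS hDT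
  by_cases hST : S = T
  · rw [hST]
  have h1 : D < S := lt_of_le_of_ne hDS fun h0 => hST (hS.eq_of_le hT (h0 ▸ hDT))
  have h2 : D < T := lt_of_le_of_ne hDT fun h0 => hST (hT.eq_of_le hS (h0 ▸ hDS)).symm
  obtain ⟨M, hM, hle⟩ := exists_max (hS.pgrp.to_le hDS) hD
  obtain ⟨P, hP, hP1⟩ := exists_isSylowIn_le (hS.pgrp.to_le inf_le_left)
    ((inf_le_right : S ⊓ normalizer (D : Set G) ≤ _).trans hle)
  obtain ⟨Q, hQ, hQ1⟩ := exists_isSylowIn_le (hT.pgrp.to_le inf_le_left)
    ((inf_le_right : T ⊓ normalizer (D : Set G) ≤ _).trans hle)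
  obtain ⟨S', hS', hPS'⟩ := exists_isSylowIn_le hP.pgrp (le_top : P ≤ ⊤)
  obtain ⟨T', hT', hQT'⟩ := exists_isSylowIn_le hQ.pgrp (le_top : Q ≤ ⊤)
  have a1 := lt_inf_normalizer hS.pgrp h1
  have a2 := lt_inf_normalizer hT.pgrp h2
  exact ((ih' _ S S' a1 hS hS' inf_le_left (hP1.trans hPS')).trans
    (main _ M P Q hM hP hQ le_rfl (a1.trans_le hP1) (a2.le.trans hQ1) S' T' hS' hT' hPS' hQT')).trans
    (ih' _ T' T a2 hT' hT (hQ1.trans hQT') inf_le_left)

end Cfsg.Agent.S2956
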