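import Mathlib
import Cfsg.Statements.S2957
import Cfsg.Agent.LocalEven.SylCtrl

set_option autoImplicit false
open Cfsg

namespace Cfsg.Agent.S2957

open Cfsg.Agent.LocalEven

open Subgroup

/-- Let p be a prime dividing the order of the finite group G, f an equivariant assignment of a set of subgroups f(P) of P to every p-subgroup P, each normalized by N_G(P), and S a Sylow p-subgroup. If G = G₁G₂ for subgroups G₁, G₂ both containing S and both regular for f (in each Gᵢ, the family of normalizers in Gᵢ of the members of f(P), P a Sylow p-subgroup of Gᵢ, controls Sylow p-intersections), then G itself is regular for f. -/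
theorem result {G : Type*} [Group G] [Finite G] (p : ℕ) [Fact p.Prime] (hdiv : p ∣ Nat.card G)
    (f : Subgroup G → Set (Subgroup G)) (hf : Cfsg.IsNormalizerFunctor p f) (S : Sylow p G)
    (G₁ G₂ : Subgroup G) (h₁ : (S : Subgroup G) ≤ G₁) (h₂ : (S : Subgroup G) ≤ G₂)
    (hprod : ∀ g : G, ∃ g₁ ∈ G₁, ∃ g₂ ∈ G₂, g = g₁ * g₂)
    (hr₁ : Cfsg.IsFunctorRegular p f G₁) (hr₂ : Cfsg.IsFunctorRegular p f G₂) :
    Cfsg.IsFunctorRegular p f ⊤ := by
  rw [regular_iff] at hr₁ hr₂ ⊢
  have hN := isNormalSet_functorFamily hf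
  have hS := isSylowIn_top S
  have key : ∀ g : G, (S : Subgroup G) ⊓ cj g S ≠ ⊥ → Relation.ReflTransGen
      (SStep p ⊤ (functorFamily p f ⊤) ((S : Subgroup G) ⊓ cj g S)) S (cj g S) := by
    intro g hne
    obtain ⟨U, hU, h3, h4⟩ := exists_sylow_between hS h₁ h₂ hprod g
    have a1 : (S : Subgroup G) ⊓ cj g S ≤ (S : Subgroup G) ⊓ U := le_inf inf_le_left h3
    have c1 := (chain_top_of_functor hf hS h₁ (hr₁ S U (hS.mono h₁ le_top)
      (hU.mono (h4.trans inf_le_left) le_top) (fun h0 => hne (eq_bot_iff.2 (a1.trans h0.le))))).2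
    have hU' : IsSylowIn p (cj g⁻¹ U) ⊤ := hU.cj_of_mem (mem_top _)
    have hU2 : cj g⁻¹ U ≤ G₂ := le_cj_iff.1 (h4.trans inf_le_right)
    have a2 : (S : Subgroup G) ⊓ cj g S ≤ cj g (cj g⁻¹ U ⊓ S) := by
      rw [cj_inf, cj_cj_inv]; exact le_inf h3 inf_le_right
    have c2 := chain_cj hN (chain_top_of_functor hf hU' hU2 (hr₂ _ S (hU'.mono hU2 le_top)
      (hS.mono h₂ le_top) (fun h0 => hne (eq_bot_iff.2 (a2.trans (by rw [h0, cj_bot])))))).2 g
    rw [cj_cj_inv] at c2
    exact (chain_mono c1 le_rfl a1).trans (chain_mono c2 le_rfl a2)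
  intro A B hA hB hne
  obtain ⟨a, -, rfl⟩ := hS.conj hA
  obtain ⟨b, -, rfl⟩ := hS.conj hB
  have e : cj b (S : Subgroup G) = cj a (cj (a⁻¹ * b) S) := by rw [cj_cj, mul_inv_cancel_left]
  rw [e, ← cj_inf] at hne ⊢
  exact chain_cj hN (key _ fun h0 => hne (by rw [h0, cj_bot])) a

end Cfsg.Agent.S2957
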