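import Mathlib
import Cfsg.Statements.S2958
import Cfsg.Agent.LocalEven.Conj

set_option autoImplicit false
open Cfsg

namespace Cfsg.Agent.S2958

open Cfsg.Agent.LocalEven

open Subgroup

/-- Let X, A, B be subgroups of a group G such that G is generated by the conjugates of X and every conjugate of X is contained in A or in B. Then A = G or B = G. -/
theorem result {G : Type*} [Group G] (X A B : Subgroup G) (hgen : (⨆ g : G, X.map (MulAut.conj g).toMonoidHom) = ⊤) (hcover : ∀ g : G, X.map (MulAut.conj g).toMonoidHom ≤ A ∨ X.map (MulAut.conj g).toMonoidHom ≤ B) : A = ⊤ ∨ B = ⊤ := by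
  by_contra h
  push Not at h
  obtain ⟨hA, hB⟩ := h
  set A₀ : Subgroup G := ⨆ g : {g : G // ¬ cj g X ≤ B}, cj g X with hA₀
  have h1 : A₀ ≤ A := iSup_le fun g => (hcover g).resolve_right g.2
  have h2 : B ≤ normalizer (A₀ : Set G) := le_normalizer_of_cj_le fun b hb => by
    rw [hA₀, cj_iSup]
    refine iSup_le fun g => le_iSup_of_le ⟨b * g, fun h0 => g.2 ?_⟩ (le_of_eq (cj_cj _ _ _))
    rw [cj_mul, cj_le_iff, cj_eq_of_mem (inv_mem hb)] at h0
    exact h0
  have h3 : ⊤ ≤ normalizer (A₀ : Set G) := by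
    rw [← hgen]
    refine iSup_le fun g => ?_
    by_cases hg : cj g X ≤ B
    · exact hg.trans h2
    · exact (le_iSup_of_le (f := fun g : {g : G // ¬ cj g X ≤ B} => cj (g : G) X) ⟨g, hg⟩
        le_rfl).trans le_normalizer
  obtain ⟨g, hg⟩ : ∃ g, ¬ cj g X ≤ B := by
    by_contra h0
    push Not at h0
    exact hB (eq_top_iff.2 (hgen ▸ iSup_le h0))
  refine hA (eq_top_iff.2 (hgen ▸ iSup_le fun k => le_trans ?_ h1))
  have h4 : cj g X ≤ A₀ := le_iSup_of_le (f := fun g : {g : G // ¬ cj g X ≤ B} => cj (g : G) X) ⟨g, hg⟩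
    le_rfl
  have h5 := cj_le_of_mem_normalizer (h3 (mem_top (k * g⁻¹))) h4
  rwa [cj_cj, inv_mul_cancel_right] at h5

end Cfsg.Agent.S2958
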