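import Mathlib
import Cfsg.Statements.S2962
import Cfsg.Agent.Inv.ZStar
import Cfsg.Agent.Core.PConstrained
import Cfsg.Agent.S0205
-- import your own Cfsg.Agent.* helpers here

set_option autoImplicit false
open Cfsg

namespace Cfsg.Agent.S2962

open Subgroup Cfsg.Agent.Core

/-- Let G be a finite group with G = QN, where N is a normal subgroup of G and Q is a non-abelian 2-subgroup with Q ∩ N = 1. Suppose that some nontrivial element t of Z(Q) ∩ [Q, Q] satisfies C_N(Q) = C_N(t). Then [N, Q] is solvable of odd order. -/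
theorem result {G : Type*} [Group G] [Finite G] (N Q : Subgroup G) [N.Normal] (hG : Q ⊔ N = ⊤) (hQ : IsPGroup 2 ↥Q) (hQna : ¬ IsMulCommutative ↥Q) (hdisj : Q ⊓ N = ⊥) (t : G) (ht1 : t ≠ 1) (htZ : t ∈ Q ⊓ Subgroup.centralizer (Q : Set G)) (htQ : t ∈ ⁅Q, Q⁆) (hC : N ⊓ Subgroup.centralizer (Q : Set G) = N ⊓ Subgroup.centralizer ({t} : Set G)) : Group.IsSolvable ↥⁅N, Q⁆ ∧ Odd (Nat.card ↥⁅N, Q⁆) := by
  have hC' : ∀ c ∈ N, Commute c t → ∀ q ∈ Q, Commute c q := fun c hc h q hq =>
    ((hC.ge ⟨hc, mem_centralizer_singleton_iff.2 h⟩).2 q hq).symm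
  have hA : ∀ g, Commute (g * t * g⁻¹) t → g * t * g⁻¹ = t := fun g h => by
    obtain ⟨n, hn, q, hq, rfl⟩ := (mem_sup_of_le_normalizer (N := N) (H := Q) le_normalizer_of_normal).1
      ((sup_comm Q N ▸ hG).ge (mem_top g))
    rw [show n * q * t * (n * q)⁻¹ = n * t * n⁻¹ by rw [mul_assoc n, htZ.2 q hq]; group] at h ⊢
    have hd : ∀ q, q⁻¹ * (n * q * n⁻¹) ∈ N := fun q => by
      simpa [mul_assoc] using N.mul_mem (Normal.conj_mem' inferInstance n hn q) (N.inv_mem hn)
    have hC2 : ∀ c ∈ N, Commute c (n * t * n⁻¹) → ∀ q ∈ Q, Commute c (n * q * n⁻¹) := fun c hc h q hq => by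
      have := (hC' (n⁻¹ * c * n) (Normal.conj_mem' inferInstance c hc n)
        (by simpa [mul_assoc] using h.map (MulAut.conj n⁻¹)) q hq).map (MulAut.conj n)
      simpa [mul_assoc] using this
    have hq1 : ∀ q ∈ Q, Commute q t := fun q hq => htZ.2 q hq
    have h1 : ∀ q ∈ Q, Commute (n * q * n⁻¹) t := fun q hq => by
      have e1 := hC2 _ (hd t) (h.symm.inv_left.mul_left (Commute.refl _)) q hq
      have e2 : Commute (n * q * n⁻¹) (n * t * n⁻¹) := (hq1 q hq).map (MulAut.conj n)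
      simpa [mul_assoc] using e2.mul_right e1.symm.inv_right
    have h2 : ∀ q ∈ Q, Commute q (n * t * n⁻¹) := fun q hq => by
      simpa using (hq1 q hq).mul_right (hC' _ (hd t) ((Commute.refl t).inv_left.mul_left h) q hq).symm
    have h3 : ⁅Q, Q⁆ ≤ centralizer {n} := commutator_le.2 fun q hq r hr => by
      have a1 := fun q hq => hC' _ (hd q) ((hq1 q hq).inv_left.mul_left (h1 q hq))
      have a2 := hC2 _ (hd q) ((h2 q hq).inv_left.mul_left ((hq1 q hq).map (MulAut.conj n))) r hr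
      have a3 := a1 q hq q hq
      have a4 := a1 r hr q hq
      have a5 := a1 r hr r hr
      rw [mem_centralizer_singleton_iff, eq_comm, ← mul_inv_eq_iff_eq_mul, commutatorElement_def]
      set d := q⁻¹ * (n * q * n⁻¹) with hd
      set e := r⁻¹ * (n * r * n⁻¹) with he
      calc _ = (q * d) * (n * r * n⁻¹) * (q * d)⁻¹ * (r * e)⁻¹ := by rw [hd, he]; group
        _ = q * (r * e) * q⁻¹ * (r * e)⁻¹ := by rw [mul_assoc q d, a2.eq, he]; group
        _ = _ := by rw [mul_assoc q, mul_assoc r, a4.inv_right.eq]; group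
    rw [← mem_centralizer_singleton_iff.1 (h3 htQ), mul_inv_cancel_right]
  obtain ⟨S, hS⟩ := hQ.exists_le_sylow
  have hB : (S : Subgroup G) ≤ centralizer {t} := by
    by_contra h
    obtain ⟨s, hs, hs'⟩ := SetLike.exists_of_lt (lt_inf_normalizer_of_nilpotent S.isPGroup'.isNilpotent
      (lt_of_le_of_ne inf_le_left (mt inf_eq_left.1 h) : (S : Subgroup G) ⊓ centralizer {t} < S))
    exact hs' ⟨hs.1, mem_centralizer_singleton_iff.2 (mul_inv_eq_iff_eq_mul.1 (hA s (mem_centralizer_singleton_iff.1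
      ((mem_normalizer_iff.1 hs.2 t).1 ⟨hS htZ.1, mem_centralizer_singleton_iff.2 rfl⟩).2)))⟩
  have hZ := Inv.zstar_elem (S := S) (w := t) ⟨hS htZ.1, fun g hg => hA g (mem_centralizer_singleton_iff.1 (hB hg))⟩
  have hO : ⁅N, Q⁆ ≤ oddCore G := commutator_le.2 fun n hn q hq => by
    obtain ⟨o, ho, c, hc, rfl⟩ := exists_eq_mul_centralizer (zpowers t) N (N ⊓ oddCore G) inf_le_left
      le_normalizer_of_normal (coprime_of_le_right (coprime_pPrimeCore_of_isPGroup (hQ.to_le (zpowers_le.2 htZ.1))) inf_le_right)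
      (Or.inl inferInstance) (le_inf (commutator_le_left _ _) (commutator_le.2 (by
        rintro m - _ ⟨k, rfl⟩
        have : Commute (t : G ⧸ oddCore G) m := by
          have := (QuotientGroup.eq_one_iff _).2 (hZ m)
          exact commutatorElement_eq_one_iff_commute.1 this
        exact (QuotientGroup.eq_one_iff _).1 (commutatorElement_eq_one_iff_commute.2 (this.zpow_left k).symm)))) n hn
    have := hC' c hc.1 (hc.2 t (mem_zpowers t)).symm q hq
    rw [commutatorElement_def, mul_assoc o c, this.eq]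
    simpa [mul_assoc] using mul_mem ho.2 (Normal.conj_mem inferInstance _ (inv_mem ho.2) q)
  have := Inv.odd_card_oddCore.of_dvd_nat (card_dvd_of_le hO)
  exact ⟨S0205.result this, this⟩

end Cfsg.Agent.S2962
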