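import Mathlib
import Cfsg.Statements.S2963
import Cfsg.Agent.LocalEven.PMin

set_option autoImplicit false
open Cfsg

namespace Cfsg.Agent.S2963

open Cfsg.Agent.LocalEven

open Subgroup MulAction Equiv

/-- Let n be odd. If the symmetric group of degree n is a minimal parabolic group for the prime 2, that is, a Sylow 2-subgroup is not normal and lies in exactly one maximal subgroup, then n = 2^m + 1 for some natural number m. -/
theorem result (n : ℕ) (hn : Odd n) (h : Cfsg.IsPMinimal 2 (Equiv.Perm (Fin n))) : ∃ m : ℕ, n = 2 ^ m + 1 := by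
  haveI : Fact (Nat.Prime 2) := ⟨Nat.prime_two⟩
  obtain ⟨S, M, hS, hM⟩ := isPMinimal_iff_top.1 h
  obtain ⟨a, ha⟩ := hS.pgrp.nonempty_fixed_point_of_prime_not_dvd_card (Fin n)
    (by rw [Nat.card_eq_fintype_card, Fintype.card_fin]; exact hn.not_two_dvd_nat)
  have ha' : S ≤ stabilizer (Perm (Fin n)) a := fun s hs => ha ⟨s, hs⟩
  obtain ⟨c, hc⟩ : ∃ c, c ≠ a := by
    by_contra h0
    push Not at h0
    refine hM.coatom.1 (eq_top_iff.2 fun g _ => ?_)
    rw [show g = 1 from Equiv.ext fun x => by rw [h0 (g x), h0 ((1 : Perm (Fin n)) x)]]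
    exact one_mem _
  have h1 : stabilizer (Perm (Fin n)) a ≤ M := hM.le_of_ne _ ha' fun h0 => by
    have : swap a c ∈ stabilizer (Perm (Fin n)) a := h0 ▸ mem_top _
    exact hc (by simpa using this)
  obtain ⟨m, hm⟩ := hS.pgrp.card_orbit c
  have hao : a ∉ orbit S c := by
    rintro ⟨s, hs⟩
    have h2 : s⁻¹ • a = c := by rw [← hs, inv_smul_smul]
    exact hc (h2.symm.trans (ha s⁻¹))
  by_cases hall : ∀ b, b ≠ a → b ∈ orbit S c
  · refine ⟨m, ?_⟩
    have e : (Set.univ : Set (Fin n)) = insert a (orbit S c) := by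
      ext b
      by_cases hb : b = a
      · simp [hb]
      · simp [hall b hb]
    have := congrArg Set.ncard e
    rw [Set.ncard_insert_of_notMem hao, Set.ncard_univ, Nat.card_eq_fintype_card,
      Fintype.card_fin, ← Nat.card_coe_set_eq, hm] at this
    exact this
  push Not at hall
  obtain ⟨b, hb, hbo⟩ := hall
  let X : Subgroup (Perm (Fin n)) :=
    { carrier := {g | ∀ x, g x ∈ orbit S c ↔ x ∈ orbit S c}
      mul_mem' := fun {g k} hg hk x => (hg (k x)).trans (hk x)
      one_mem' := fun x => Iff.rfl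
      inv_mem' := fun {g} hg x => by simpa using (hg (g⁻¹ x)).symm }
  have h2 : X ≤ M := hM.le_of_ne _ (fun s hs x =>
    ⟨fun h => inv_smul_smul (⟨s, hs⟩ : S) x ▸ mem_orbit_of_mem_orbit (⟨s, hs⟩ : S)⁻¹ h,
      fun h => mem_orbit_of_mem_orbit (⟨s, hs⟩ : S) h⟩) fun h0 => by
    have : swap a c ∈ X := h0 ▸ mem_top _
    exact hao (by simpa using (this c).2 (mem_orbit_self c))
  have h3 : swap a b ∈ M := h2 fun x => by
    by_cases hxa : x = a
    · simp [hxa, hao, hbo]
    by_cases hxb : x = b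
    · simp [hxb, hao, hbo]
    rw [swap_apply_of_ne_of_ne hxa hxb]
  refine absurd (eq_top_iff.2 fun g _ => ?_) hM.coatom.1
  by_cases hg : g a = a
  · exact h1 hg
  have h4 : swap b (g a) ∈ M := h1 (swap_apply_of_ne_of_ne hb.symm (Ne.symm hg))
  have h5 : (swap b (g a) * swap a b)⁻¹ * g ∈ M := h1 (by
    show ((swap b (g a) * swap a b)⁻¹ * g) a = a
    simp)
  simpa only [mul_inv_cancel_left] using mul_mem (mul_mem h4 h3) h5

end Cfsg.Agent.S2963
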