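import Cfsg.Statements.S2981
import Cfsg.Agent.Push.CStar

set_option autoImplicit false
open Cfsg

namespace Cfsg.Agent.S2981

open Cfsg.Agent.LocalEven Cfsg.Agent.Glaub

open Cfsg.Agent.Push Subgroup

/-- The local C**(G,T)-Theorem for minimal parabolic groups. Let G be a finite p-minimal group (a Sylow p-subgroup T is not normal and lies in exactly one maximal subgroup) of characteristic p (C_G(O_p(G)) ≤ O_p(G)), and suppose G ≠ C**(G,T), the subgroup generated by C_G(Ω₁(Z(T))) and N_G(J(T)) (J(T) generated by the elementary abelian p-subgroups of T of largest order). Put V = Ω₁(Z(O_p(G))) and C = C_G(V). Then there are subgroups E₁, …, E_r of G containing C such that: J(G)TC = G and the E_i C/C form an internal direct product equal to J(G)C/C; any two of the E_i are conjugate by an element of T; V = C_V(⟨E_i⟩)·∏[V, E_i] with [V, E_i, E_j] = 1 for i ≠ j; for some n ≥ 1, each E_i/C is isomorphic to SL₂(pⁿ), or p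 = 2 and to the symmetric group of degree 2ⁿ + 1; and E_i acts on [V, E_i]/C_{[V,E_i]}(E_i) as the natural two-dimensional SL₂(pⁿ)-module, respectively as the symmetric group of degree 2ⁿ+1 on its even-weight permutation module. -/
theorem result {G : Type*} [Group G] [Finite G] {p : ℕ} [Fact p.Prime] (hmin : Cfsg.IsPMinimal p G) (hG : Subgroup.centralizer (Cfsg.pCore p G : Set G) ≤ Cfsg.pCore p G) (T : Sylow p G) (hne : Cfsg.cStarStarOf p (T : Subgroup G) ≠ ⊤) : ∃ (r : ℕ) (E : Fin r → Subgroup G), (∀ i, Subgroup.centralizer (Cfsg.omegaOneCenter p (Cfsg.pCore p G) : Set G) ≤ E i) ∧ Cfsg.thompsonSubgroup p G ⊔ (T : Subgroup G) ⊔ Subgroup.centralizer (Cfsg.omegaOneCenter p (Cfsg.pCore p G) : Set G) = ⊤ ∧ (⨆ i, E i) = Cfsg.thompsonSubgroup p G ⊔ Subgroup.centralizer (Cfsg.omegaOneCenter p (Cfsg.pCore p G) : Set G) ∧ (∀ i j, i ≠ j → ⁅E i, E j⁆ ≤ Subgroup.centralizer (Cfsg.omegaOneCenter p (Cfsg.pCore p G) : Set G)) ∧ (∀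 i, E i ⊓ (⨆ j ∈ {j | j ≠ i}, E j) ≤ Subgroup.centralizer (Cfsg.omegaOneCenter p (Cfsg.pCore p G) : Set G)) ∧ (∀ i j, ∃ t ∈ (T : Subgroup G), (E i).map (MulAut.conj t).toMonoidHom = E j) ∧ (Cfsg.omegaOneCenter p (Cfsg.pCore p G) ⊓ Subgroup.centralizer ((⨆ i, E i : Subgroup G) : Set G)) ⊔ (⨆ i, ⁅Cfsg.omegaOneCenter p (Cfsg.pCore p G), E i⁆) = Cfsg.omegaOneCenter p (Cfsg.pCore p G) ∧ (∀ i j, i ≠ j → ⁅⁅Cfsg.omegaOneCenter p (Cfsg.pCore p G), E i⁆, E j⁆ = ⊥) ∧ ∀ i, ∃ n : ℕ, 1 ≤ n ∧ ((∃ (F : Type) (_ : Field F) (_ : Fintype F), Fintype.card F = p ^ n ∧ (∃ _ : ((Subgroup.centralizer (Cfsg.omegaOneCenter p (Cfsg.pCore p G) : Set G)).subgroupOf (E i)).Normal, Nonempty (↥(E i) ⧸ (Subgroup.centralizer (Cfsg.omegaOneCenter p (Cfsg.pCore p G) : Set G)).subgroupOf (E i) ≃* Matrix.SpecialLinearGroup (Fin 2) F)) ∧ Cfsg.ActsAsSL2OnSection F ⊤ (E i) ⁅Cfsg.omegaOneCenter p (Cfsg.pCore p G), E i⁆ (⁅Cfsg.omegaOneCenter p (Cfsg.pCore p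 G), E i⁆ ⊓ Subgroup.centralizer ((E i : Subgroup G) : Set G))) ∨ (p = 2 ∧ (∃ _ : ((Subgroup.centralizer (Cfsg.omegaOneCenter p (Cfsg.pCore p G) : Set G)).subgroupOf (E i)).Normal, Nonempty (↥(E i) ⧸ (Subgroup.centralizer (Cfsg.omegaOneCenter p (Cfsg.pCore p G) : Set G)).subgroupOf (E i) ≃* Equiv.Perm (Fin (2 ^ n + 1)))) ∧ Cfsg.ActsAsOddPermModuleOnSection (2 ^ n + 1) ⊤ (E i) ⁅Cfsg.omegaOneCenter p (Cfsg.pCore p G), E i⁆ (⁅Cfsg.omegaOneCenter p (Cfsg.pCore p G), E i⁆ ⊓ Subgroup.centralizer ((E i : Subgroup G) : Set G)))) := by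
  haveI := Transfer.omegaOneCenter_normal (p := p) (pCore p G)
  have hT := isSylowIn_top T
  have hle : (T : Subgroup G) ≤ cStarStarOf p (T : Subgroup G) :=
    (Transfer.le_centralizer_omegaOneCenter _).trans le_sup_left
  obtain ⟨M, hM⟩ := (isPMinimal_iff (H := ⊤) hT).1 (by
    obtain ⟨M, h⟩ := (eq_top_or_exists_le_coatom _).resolve_left hne
    exact (isPMinimal_iff hT).2 ⟨M, minIn_top.2 (IsPMinimal.minOv' hmin hT h.1 (hle.trans h.2))⟩)
  have hM' : cStarStarOf p (T : Subgroup G) ≤ M := hM.le_of_lt _ hle (lt_top_iff_ne_top.2 hne)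
  have hZ : omegaOneCenter p (T : Subgroup G) ≤ omegaOneCenter p (pCore p G) :=
    (Transfer.omegaOneCenter_le_omegaClosure T).trans
      (Transfer.omegaClosure_le_omegaOneCenter_pCore hG)
  have hc : centralizer ((omegaOneCenter p (pCore p G) ⊓ centralizer (T : Set G) : Subgroup G) : Set G)
      ≤ M := (Push.cent_anti (le_inf hZ (Transfer.omegaOneCenter_le_centralizer _))).trans
      (le_sup_left.trans hM')
  have hO : pCore p G ≤ T := IsPGroup.le_sylow_of_normal isPGroup_pCore T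
  obtain ⟨r, E, -, h1, h2, h3, h4, h5, h6, h7, h8, h9⟩ := cstar_struct
    (Transfer.ea_omegaOneCenter (pCore p G)) T hM (Transfer.le_centralizer_omegaOneCenter _) hc
    fun e => by
      have := (minIn_le_pCoreOf hM hT.pgrp le_normalizer_of_normal
        ((Push.cent_anti inf_le_left).trans hc) (hT.pgrp.to_le (Transfer.thompsonSubgroupOf_le _))
        e).trans pCoreOf_top.le
      refine hne (top_le_iff.1 (le_trans ?_ le_sup_right))
      rw [← Transfer.thompsonSubgroupOf_eq_of_le this hO]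
      haveI := Transfer.thompsonSubgroupOf_normal (p := p) (pCore p G)
      exact le_normalizer_of_normal
  refine ⟨r, E, h1, h2, h3, h4, h5, h6, h7, fun i j e => comm_bot_of_le_cent (h8 i j e),
    fun i => ?_⟩
  obtain ⟨n, hn, ⟨F, _, _, hF, σ, ψ, d, b, k⟩ | ⟨hp, σ, ψ, d, b, k⟩⟩ := h9 i
  · exact ⟨n, hn, Or.inl ⟨F, inferInstance, inferInstance, hF, ⟨inferInstance,
      ⟨(QuotientGroup.quotientMulEquivOfEq k.symm).trans
        (QuotientGroup.quotientKerEquivOfSurjective σ b)⟩⟩,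
      actsAs_iff.2 ⟨σ, ψ, d, MonoidHom.range_eq_top.2 b⟩⟩⟩
  · exact ⟨n, hn, Or.inr ⟨hp, ⟨inferInstance,
      ⟨(QuotientGroup.quotientMulEquivOfEq k.symm).trans
        (QuotientGroup.quotientKerEquivOfSurjective σ b)⟩⟩,
      actsAsPerm_iff.2 ⟨σ, ψ, d, MonoidHom.range_eq_top.2 b⟩⟩⟩

end Cfsg.Agent.S2981
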