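import Cfsg.Statements.S2990
import Cfsg.Agent.Push.MCL

set_option autoImplicit false
open Cfsg

namespace Cfsg.Agent.S2990

open Cfsg.Agent.LocalEven Cfsg.Agent.Glaub

open Cfsg.Agent.Push Subgroup

/-- Let G be a finite group and S a Sylow p-subgroup of G in the basic pushing-up situation (G ≠ 1, C_G(O_p(G)) ≤ O_p(G), S lies in a unique maximal subgroup of G, and some quotient of G is isomorphic to PSL₂ over a field of order a power of p), and suppose that S centralizes Z(J(S)), where J(S) is generated by the abelian subgroups of S of largest order (that is, J̃(S) = C_S(Z(J(S))) = S). Call a subgroup R of S centrally large if |R|·|Z(R)| is as large as possible among subgroups of S, let Q be a minimal centrally large subgroup of S and let S_MCL be the subgroup generated by all minimal centrally large subgroups of S. Then the derived subgroup [Q, Q] is characteristic in S; Z(S) ∩ [Q, Q] or S_MCL is normal in G; and if [Q, Q] = 1, the minimal centrally large subgroups of S are exactly the abelian subgroups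 of S of largest order. -/
theorem result {G : Type*} [Group G] [Finite G] {p : ℕ} [Fact p.Prime] (S : Subgroup G) (hE : Cfsg.IsPushingUpSituation p S) (hJ : S ≤ Subgroup.centralizer (Cfsg.centerThompsonAOf S : Set G)) (Q : Subgroup ↥S) (hQ : Cfsg.IsMinimalCentrallyLarge Q) : (⁅Q, Q⁆).Characteristic ∧ (((S ⊓ Subgroup.centralizer (S : Set G)) ⊓ (⁅Q, Q⁆).map S.subtype).Normal ∨ ((Cfsg.minimalCentrallyLargeJoin ↥S).map S.subtype).Normal) ∧ (⁅Q, Q⁆ = ⊥ → ∀ R : Subgroup ↥S, Cfsg.IsMinimalCentrallyLarge R ↔ R ∈ Cfsg.maxAbelianSubgroups ↥S) := by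
  obtain ⟨M, h, hT⟩ := ab_of_pu hE
  obtain ⟨f, hb, hS⟩ := exists_bd hJ
  have q := isMinimalCentrallyLarge_iff.1 hQ
  refine ⟨mcl_comm_char q, ?_, fun e R => isMinimalCentrallyLarge_iff.trans (q.iff_of_comm
    (ea0 (le_cent_of_comm_bot e)).1 R)⟩
  by_cases hZ : S ⊓ 𝐂⟮S⟯ ≤ 𝐂⟮(⊤ : Subgroup G)⟯
  · exact Or.inl (normal_of_le_cent (inf_le_left.trans hZ))
  rw [map_commutator, mcl_join hb hS]
  exact ((h.pn_of_le hT hZ hJ).1.mcl_case hb hS ((mcl_iff hb hS).1 q)).imp normal_of_le_cent
    fun n => normalizer_eq_top_iff.1 (top_le_iff.1 n)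

end Cfsg.Agent.S2990
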