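import Mathlib
import Cfsg.Statements.S2998
import Cfsg.Agent.LocalEven.Iso
import Cfsg.Agent.LocalEven.CentTr

set_option autoImplicit false
open Cfsg

namespace Cfsg.Agent.S2998

open Cfsg.Agent.LocalEven

open Subgroup

/-- Let G be a finite group, p a prime, P a Sylow p-subgroup of G and x ∈ P an element such that N_G(R) ≤ C_G(x) for every nontrivial subgroup R of P. Then P ≤ C_G(x); every G-conjugate of x lying in P equals x (so g ∈ C_G(x) whenever g x g⁻¹ ∈ P); and for every normal subgroup N of G, the image of x in G ⧸ N has the same property with respect to the image of P: the normalizer of every nontrivial subgroup of the image of P centralizes the image of x. -/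
theorem result {G : Type*} [Group G] [Finite G] {p : ℕ} [Fact p.Prime] (P : Sylow p G) (x : G) (hxP : x ∈ (P : Subgroup G)) (hlc : ∀ R : Subgroup G, R ≤ (P : Subgroup G) → R ≠ ⊥ → Subgroup.normalizer (R : Set G) ≤ Subgroup.centralizer ({x} : Set G)) : (P : Subgroup G) ≤ Subgroup.centralizer ({x} : Set G) ∧ (∀ g : G, g * x * g⁻¹ ∈ (P : Subgroup G) → g * x * g⁻¹ = x) ∧ ∀ (N : Subgroup G) [N.Normal], ∀ R : Subgroup (G ⧸ N), R ≤ (P : Subgroup G).map (QuotientGroup.mk' N) → R ≠ ⊥ → Subgroup.normalizer (R : Set (G ⧸ N)) ≤ Subgroup.centralizer ({(QuotientGroup.mk x : G ⧸ N)} : Set (G ⧸ N)) := by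
  by_cases h1 : x = 1
  · subst h1
    refine ⟨fun g _ => mem_centralizer_singleton.2 (by simp), fun g _ => by simp,
      fun N _ R _ _ g _ => mem_centralizer_singleton.2 (by simp)⟩
  have hP : (P : Subgroup G) ≠ ⊥ := fun h => h1 (mem_bot.1 (h ▸ hxP))
  have key := induced_of_fullyNormalized (N := centralizer ({x} : Set G)) (isSylowIn_top P)
    (fun U hU _ _ g hg => by
      by_cases h0 : U = ⊥
      · exact ⟨1, one_mem _, fun a ha => by subst h0; rw [mem_bot.1 ha]; simp⟩
      · exact ⟨g, hlc U hU h0 hg, fun _ _ => rfl⟩)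
  have h2 : ∀ g : G, g * x * g⁻¹ ∈ (P : Subgroup G) → g * x * g⁻¹ = x := fun g hg => by
    obtain ⟨c, hc, h⟩ := key (zpowers x) (zpowers_le.2 hxP) g (by
      rw [cj_zpowers]; exact zpowers_le.2 hg)
    rw [h x (mem_zpowers x), mem_centralizer_singleton_iff_conj.1 hc]
  refine ⟨le_normalizer.trans (hlc P le_rfl hP), h2, fun N _ R hR hR0 g hg => ?_⟩
  obtain ⟨g, rfl⟩ := QuotientGroup.mk'_surjective N g
  set K := R.comap (QuotientGroup.mk' N) with hK
  have hNK : N ≤ K := fun n hn => by
    rw [hK, mem_comap, QuotientGroup.mk'_apply, (QuotientGroup.eq_one_iff n).2 hn]; exact one_mem _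
  have hgK : g ∈ normalizer (K : Set G) := le_normalizer_comap _ hg
  have hKPN : K ≤ (P : Subgroup G) ⊔ N := by
    refine (comap_mono hR).trans ?_
    rw [comap_map_eq, QuotientGroup.ker_mk']
  have hK' : (K ⊓ P) ⊔ N = K := by
    rw [inf_comm, ← inf_sup_of_le_normalizer' (le_top.trans (normalizer_eq_top N).ge) hNK]
    exact inf_eq_right.2 hKPN
  have hS : IsSylowIn p (K ⊓ P) K := by
    refine ⟨inf_le_left, P.2.to_le inf_le_right, fun Q hQ hQp hle => le_antisymm ?_ hle⟩
    have h3 := (sylow_inf_normal P N).max (N ⊓ Q) inf_le_left (hQp.to_le inf_le_right)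
      (le_inf inf_le_right (le_trans (le_inf (inf_le_right.trans hNK) inf_le_left) hle))
    have h4 := inf_sup_of_le_normalizer (H := K ⊓ P) (N := N) (K := Q)
      (le_top.trans (normalizer_eq_top N).ge) hle
    rw [hK', inf_eq_right.2 hQ, h3] at h4
    exact h4.le.trans (sup_le le_rfl (le_inf (inf_le_right.trans hNK) inf_le_left))
  have hne : K ⊓ P ≠ ⊥ := fun h0 => hR0 (by
    rw [h0, bot_sup_eq] at hK'
    rw [← map_comap_eq_self_of_surjective (QuotientGroup.mk'_surjective N) R, ← hK, ← hK']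
    exact (Subgroup.map_eq_bot_iff N).2 (QuotientGroup.ker_mk' N).ge)
  obtain ⟨n, hn, y, hy, rfl⟩ := hS.frattini hgK
  rw [← hK'] at hn
  obtain ⟨a, ha, b, hb, rfl⟩ := (mem_sup_iff_of_le_normalizer
    (le_top.trans (normalizer_eq_top N).ge)).1 hn
  have e1 := mem_centralizer_singleton.1 (hlc _ inf_le_right hne hy)
  have e2 := mem_centralizer_singleton.1 (hlc P le_rfl hP (le_normalizer ha.2))
  have e3 : (QuotientGroup.mk' N) b = 1 := (QuotientGroup.eq_one_iff b).2 hb
  refine mem_centralizer_singleton.2 ?_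
  show QuotientGroup.mk' N x * _ = _ * QuotientGroup.mk' N x
  rw [map_mul, map_mul, e3, mul_one, ← map_mul, ← map_mul, ← map_mul, ← mul_assoc, e2, mul_assoc, e1,
    mul_assoc]

end Cfsg.Agent.S2998
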