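import Cfsg.Statements.S2999
import Cfsg.Agent.Push.MinPar

set_option autoImplicit false
open Cfsg

namespace Cfsg.Agent.S2999

open Cfsg.Agent.LocalEven Cfsg.Agent.Glaub

open Cfsg.Agent.Push

/-- Let p be a prime and let P and V be subgroups of a finite group with V elementary abelian, P normalizing V and acting faithfully on it (P ∩ C(V) = 1). Suppose P is p-minimal (a Sylow p-subgroup T of P is not normal and lies in a unique maximal subgroup M of P) and A ≤ T is an elementary abelian subgroup such that: |V/C_V(A)| ≤ |A| while |A₀|·|C_V(A₀)| < |A|·|C_V(A)| for every nontrivial proper subgroup A₀ of A; [C_V(T), P] ≠ 1; and P = ⟨A, xAx⁻¹⟩ for every x ∈ P outside M. Then, with q = |A|, there is a field F with q elements such that P ≅ SL₂(F), C_V(A) = [V, A]·C_V(P), and P acts on V/C_V(P) as SL₂(F) on its natural two-dimensional module. -/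
theorem result {G : Type*} [Group G] [Finite G] {p : ℕ} [Fact p.Prime] (V P : Subgroup G) (hV : Cfsg.IsElementaryAbelian p V) (hPV : P ≤ Subgroup.normalizer (V : Set G)) (hfaith : P ⊓ Subgroup.centralizer (V : Set G) = ⊥) (hmin : Cfsg.IsPMinimal p ↥P) (T : Sylow p ↥P) (M : Subgroup ↥P) (hM : IsCoatom M) (hTM : (T : Subgroup ↥P) ≤ M) (A : Subgroup G) (hAT : A ≤ ((T : Subgroup ↥P).map P.subtype)) (hAel : Cfsg.IsElementaryAbelian p A) (hi : Nat.card ↥V ≤ Nat.card ↥A * Nat.card ↥(V ⊓ Subgroup.centralizer ((A : Subgroup G) : Set G)) ∧ ∀ A₀ : Subgroup G, A₀ ≤ A → A₀ ≠ ⊥ → A₀ ≠ A → Nat.card ↥A₀ * Nat.card ↥(V ⊓ Subgroup.centralizer ((A₀ : Subgroup G) : Set G)) < Nat.card ↥A * Nat.card ↥(V ⊓ Subgroup.centralizer ((A : Subgroup G) : Set G))) (hii : ⁅(V ⊓ Subgroup.centralizer ((((T : Subgroup ↥P).map P.subtype) : Subgroup G) : Set G)), P⁆ ≠ ⊥) (hiii : ∀ x : ↥P, x ∉ M → A ⊔ A.map (MulAut.conj (x : G)).toMonoidHom = P)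 : ∃ (F : Type) (_ : Field F) (_ : Fintype F), Fintype.card F = Nat.card ↥A ∧ Nonempty (↥P ≃* Matrix.SpecialLinearGroup (Fin 2) F) ∧ (V ⊓ Subgroup.centralizer ((A : Subgroup G) : Set G)) = ⁅V, A⁆ ⊔ (V ⊓ Subgroup.centralizer ((P : Subgroup G) : Set G)) ∧ Cfsg.ActsAsSL2OnSection F ⊤ P V (V ⊓ Subgroup.centralizer ((P : Subgroup G) : Set G)) := by
  have h := minIn_map_subtype.2 (IsPMinimal.minOv' hmin (isSylowIn_top T) hM hTM)
  have hT := isSylowIn_map T
  obtain ⟨x, hx, hxM⟩ := SetLike.not_le_iff_exists.1 h.lt.not_ge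
  have hg : ∀ x ∈ P, x ∉ M.map P.subtype → A ⊔ cj x A = P := fun x hx hxM =>
    hiii ⟨x, hx⟩ fun h' => hxM ⟨_, h', rfl⟩
  obtain ⟨k, k'⟩ := natPair_of_min hV hPV hfaith hT.pgrp h hT.pCoreOf_le hAT
    (fun y hy hy' => (hg y hy hy').ge.trans le_sup_left)
    (fun h' => hii (comm_bot_of_le_cent (le_cent_comm h'))) hAel hi.1 hi.2 hx hxM
  rw [hg x hx hxM] at k k'
  obtain ⟨n, hn, hq⟩ := k.pow
  obtain ⟨F, _, _, hF⟩ := exists_field_card (p := p) hn
  obtain ⟨σ, ψ, d, s, -⟩ := k.nat F (hF.trans hq.symm)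
  refine ⟨F, inferInstance, inferInstance, ?_, ⟨MulEquiv.ofBijective σ
    ⟨d.bij fun l hl hl' => k' l hl fun v hv => (hl' v hv).2, s⟩⟩, k.fixA,
    actsAs_iff.2 ⟨σ, ψ, d, MonoidHom.range_eq_top.2 s⟩⟩
  rw [hF, ← hq, ← card_inf_mul_relIndex' (Subgroup.centralizer (V : Set G)) A, eq_bot_iff.2
    ((inf_le_inf_right _ (hAT.trans hT.le)).trans hfaith.le), Subgroup.card_bot, one_mul]

end Cfsg.Agent.S2999
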