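import Cfsg.Statements.S3000
import Cfsg.Agent.Push.Struct

set_option autoImplicit false
open Cfsg

namespace Cfsg.Agent.S3000

open Cfsg.Agent.LocalEven Cfsg.Agent.Glaub

open Cfsg.Agent.Push

/-- Let p be a prime and let P and V be subgroups of a finite group with V elementary abelian, P normalizing V and acting faithfully on it (P ∩ C(V) = 1). Suppose P is p-minimal (a Sylow p-subgroup T of P is not normal and lies in a unique maximal subgroup M of P), O_p(P) = 1, C_P(C_V(T)) ≤ M, and P has a best offender on V: a subgroup A not centralizing V, with A/C_A(V) elementary abelian, such that |B|·|C_V(B)| ≤ |A|·|C_V(A)| for every subgroup B of A. Then there are subgroups E₁, …, E_r of P (r ≥ 1), pairwise commuting and forming with T a product P = (E₁ × ⋯ × E_r)T (internal direct product of the E_i), any two of which are conjugate by an element of T, such that V = C_V(E₁⋯E_r)·∏[V,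 E_i] with [V, E_i, E_j] = 1 for i ≠ j, and for each i there is n ≥ 1 with either E_i ≅ SL₂(pⁿ) acting on [V, E_i]/C_{[V,E_i]}(E_i) as on its natural two-dimensional module, or p = 2 and E_i isomorphic to the symmetric group of degree 2ⁿ + 1 acting on [V, E_i]/C_{[V,E_i]}(E_i) as on its even-weight permutation module. -/
theorem result {G : Type*} [Group G] [Finite G] {p : ℕ} [Fact p.Prime] (V P : Subgroup G) (hV : Cfsg.IsElementaryAbelian p V) (hPV : P ≤ Subgroup.normalizer (V : Set G)) (hfaith : P ⊓ Subgroup.centralizer (V : Set G) = ⊥) (hmin : Cfsg.IsPMinimal p ↥P) (T : Sylow p ↥P) (M : Subgroup ↥P) (hM : IsCoatom M) (hTM : (T : Subgroup ↥P) ≤ M) (hOp : Cfsg.pCore p ↥P = ⊥) (hoff : ∃ A : Subgroup G, A ≤ P ∧ ¬ A ≤ Subgroup.centralizer (V : Set G) ∧ Cfsg.IsBestOffenderOn p V A) (hCT : P ⊓ Subgroup.centralizer ((V ⊓ Subgroup.centralizer ((((T : Subgroup ↥P).map P.subtype)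 : Subgroup G) : Set G)) : Set G) ≤ M.map P.subtype) : ∃ (r : ℕ) (E : Fin r → Subgroup G), 1 ≤ r ∧ (∀ i, E i ≤ P) ∧ (∀ i j, i ≠ j → ⁅E i, E j⁆ = ⊥) ∧ (∀ i, E i ⊓ (⨆ j ∈ {j | j ≠ i}, E j) = ⊥) ∧ (⨆ i, E i) ⊔ ((T : Subgroup ↥P).map P.subtype) = P ∧ (∀ i j, ∃ t ∈ ((T : Subgroup ↥P).map P.subtype), (E i).map (MulAut.conj t).toMonoidHom = E j) ∧ (V ⊓ Subgroup.centralizer (((⨆ i, E i) : Subgroup G) : Set G)) ⊔ (⨆ i, ⁅V, E i⁆) = V ∧ (∀ i j, i ≠ j → ⁅⁅V, E i⁆, E j⁆ = ⊥) ∧ ∀ i, ∃ n : ℕ, 1 ≤ n ∧ ((∃ (F : Type) (_ : Field F) (_ : Fintype F), Fintype.card F = p ^ n ∧ Nonempty (↥(E i) ≃* Matrix.SpecialLinearGroup (Fin 2) F) ∧ Cfsg.ActsAsSL2OnSection F ⊤ (E i) ⁅V, E i⁆ (⁅V, E i⁆ ⊓ Subgroup.centralizer ((E i : Subgroup G) : Set G))) ∨ (p = 2 ∧ Nonempty (↥(E i) ≃* Equiv.Perm (Fin (2 ^ n + 1))) ∧ Cfsg.ActsAsOddPermModuleOnSection (2 ^ n + 1) ⊤ (E i) ⁅V, E i⁆ (⁅V, E i⁆ ⊓ Subgroup.centralizer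 ((E i : Subgroup G) : Set G)))) := by
  have h : MinPar p V P _ _ := ⟨hV, hPV, hfaith, isSylowIn_map T,
    minIn_map_subtype.2 (IsPMinimal.minOv' hmin (isSylowIn_top T) hM hTM),
    pCoreOf_eq_bot_iff.2 hOp, hCT⟩
  obtain ⟨A, a1, a2, a3⟩ := hoff
  obtain ⟨B, b1, m⟩ := exists_minOff_of_best hfaith a1 a2 a3
  obtain ⟨r, E, h1, h2, h3, h4, h5, h6, h7, h8, h9⟩ := h.struct (h.tvSet (b1.trans a1) m)
    ⟨1, Subgroup.one_mem _, cj_one B⟩ (by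
      rintro _ ⟨g, hg, rfl⟩ _ ⟨k, hk, rfl⟩
      exact ⟨k * g⁻¹, P.mul_mem hk (P.inv_mem hg), by rw [cj_mul, cj_inv_cj]⟩)
  refine ⟨r, E, h1, fun i => (le_iSup E i).trans (h2.le.trans wJ_le),
    fun i j e => comm_bot_of_le_cent (h5 i j e), h6, h2.symm ▸ h3, h7, h8,
    fun i j e => comm_bot_of_le_cent (h4 i j e), fun i => ?_⟩
  obtain ⟨n, hn, ⟨F, _, _, hF, σ, ψ, d, b⟩ | ⟨hp, σ, ψ, d, b⟩⟩ := h9 i
  · exact ⟨n, hn, Or.inl ⟨F, inferInstance, inferInstance, hF, ⟨MulEquiv.ofBijective σ b⟩,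
      actsAs_iff.2 ⟨σ, ψ, d, MonoidHom.range_eq_top.2 b.2⟩⟩⟩
  · exact ⟨n, hn, Or.inr ⟨hp, ⟨MulEquiv.ofBijective σ b⟩,
      actsAsPerm_iff.2 ⟨σ, ψ, d, MonoidHom.range_eq_top.2 b.2⟩⟩⟩

end Cfsg.Agent.S3000
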