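import Mathlib
import Cfsg.Statements.S3003
import Cfsg.Agent.LocalEven.WeakCl
import Cfsg.Agent.LocalEven.Spe2
import Cfsg.Agent.Core.CoprimeGen

set_option autoImplicit false
open Cfsg

namespace Cfsg.Agent.S3003

open Cfsg.Agent.LocalEven

theorem coatom_of_sup_zpowers {G : Type*} [Group G] [Finite G] {p : ℕ} [hp : Fact p.Prime]
    {U B : Subgroup G} (hU : IsElementaryAbelian p U) (hB : B ≤ U) {a : G} (ha : a ∈ U)
    (h : B ⊔ Subgroup.zpowers a = U) (hne : B ≠ U) : IsCoatom (B.subgroupOf U) := by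
  refine ⟨fun h0 => hne (le_antisymm hB (Subgroup.subgroupOf_eq_top.1 h0)), fun X hX => ?_⟩
  have hn : B ≤ Subgroup.normalizer (Subgroup.zpowers a : Set G) :=
    (hB.trans ((elemAb_le_centralizer hU).trans
      (Subgroup.centralizer_le (Subgroup.zpowers_le.2 ha)))).trans (centralizer_le_normalizer' _)
  have h1 : B ≤ X.map U.subtype := by
    rw [← Subgroup.map_subgroupOf_eq_of_le hB]; exact Subgroup.map_mono hX.le
  have h2 := inf_sup_of_le_normalizer hn h1
  rw [h, inf_eq_right.2 (Subgroup.map_subtype_le X)] at h2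
  have h3 : Subgroup.zpowers a ⊓ X.map U.subtype ≠ ⊥ := by
    intro h0
    rw [h0, sup_bot_eq] at h2
    apply hX.ne
    rw [← h2, map_subtype_subgroupOf]
  have ho : orderOf a = p := by
    refine orderOf_eq_prime (hU.2 a ha) ?_
    rintro rfl
    exact h3 (by simp)
  have h4 : Subgroup.zpowers a ⊓ X.map U.subtype = Subgroup.zpowers a := by
    refine eq_of_le_of_card_le inf_le_left ?_
    have h5 := Subgroup.card_dvd_of_le
      (inf_le_left : Subgroup.zpowers a ⊓ X.map U.subtype ≤ Subgroup.zpowers a)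
    rw [Nat.card_zpowers, ho] at h5 ⊢
    rcases (Nat.dvd_prime hp.out).1 h5 with h6 | h6
    · exact absurd (Subgroup.card_eq_one.1 h6) h3
    · exact h6.ge
  rw [h4, h] at h2
  rw [← map_subtype_subgroupOf X, h2, Subgroup.subgroupOf_self]

/-- Let G be a finite group, p a prime and Q a large p-subgroup of G: C_G(Q) ≤ Q and N_G(U) ≤ N_G(Q) for every nontrivial subgroup U of C_G(Q). Let Q ≤ G₁ ≤ G, let R be a subgroup of order prime to p normalized by G₁, and let U ≤ G₁ be a p-subgroup. If U contains a nontrivial element which is G₁-conjugate to an element of Z(Q), then C_R(U) = 1. In particular, if U is elementary abelian of order at least p² and every maximal subgroup of U contains a nontrivial element G₁-conjugate into Z(Q), then R = 1. -/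
theorem result {G : Type*} [Group G] [Finite G] {p : ℕ} [Fact p.Prime] (Q : Subgroup G) (hQp : IsPGroup p ↥Q) (hlarge : Cfsg.IsLarge Q) (G₁ : Subgroup G) (hQG : Q ≤ G₁) (R : Subgroup G) (hR : (Nat.card ↥R).Coprime p) (hGR : G₁ ≤ Subgroup.normalizer (R : Set G)) (U : Subgroup G) (hUG : U ≤ G₁) (hUp : IsPGroup p ↥U) : ((∃ x ∈ U, x ≠ 1 ∧ ∃ g ∈ G₁, g * x * g⁻¹ ∈ Q ⊓ Subgroup.centralizer (Q : Set G)) → R ⊓ Subgroup.centralizer (U : Set G) = ⊥) ∧ (Cfsg.IsElementaryAbelian p U → p ^ 2 ≤ Nat.card ↥U → (∀ U₀ : Subgroup G, U₀ ≤ U → IsCoatom (U₀.subgroupOf U) → ∃ x ∈ U₀, x ≠ 1 ∧ ∃ g ∈ G₁, g * x * g⁻¹ ∈ Q ⊓ Subgroup.centralizer (Q : Set G)) → R = ⊥) := by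
  have hR' := not_dvd_of_coprime hR
  have key : ∀ V : Subgroup G, (∃ x ∈ V, x ≠ 1 ∧ ∃ g ∈ G₁,
      g * x * g⁻¹ ∈ Q ⊓ Subgroup.centralizer (Q : Set G)) →
      R ⊓ Subgroup.centralizer (V : Set G) = ⊥ := by
    rintro V ⟨x, hx, hx1, g, hg, hz⟩
    have h1 : R ⊓ Subgroup.centralizer ({g * x * g⁻¹} : Set G) ≤ ⊥ := by
      set C := R ⊓ Subgroup.centralizer ({g * x * g⁻¹} : Set G)
      have h2 : C ≤ Subgroup.normalizer (Q : Set G) := inf_le_right.trans
        (large_centralizer_singleton_le hlarge hz.2 (by simpa using hx1))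
      have h3 : ⁅C, Q⁆ ≤ Q ⊓ R := le_inf (commutator_le_right_of_le_normalizer h2)
        ((Subgroup.commutator_mono inf_le_left le_rfl).trans
          (commutator_le_left_of_le_normalizer (hQG.trans hGR)))
      rw [inf_eq_bot_of_not_dvd hQp hR', le_bot_iff, LocalEven.commutator_eq_bot_iff] at h3
      rw [← inf_eq_bot_of_not_dvd hQp hR']
      exact le_inf (h3.trans hlarge.1) inf_le_left
    rw [← cj_eq_of_mem_normalizer (hGR hg), ← cj_centralizer_singleton, ← cj_inf, le_bot_iff,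
      cj_eq_bot] at h1
    exact le_bot_iff.1 (h1 ▸ inf_le_inf_left R
      (Subgroup.centralizer_le (Set.singleton_subset_iff.2 hx)))
  refine ⟨key U, fun hU hc h => le_bot_iff.1 ?_⟩
  refine Core.le_of_centralizers_cocyclic hU.1 (hUG.trans hGR)
    (coprime_card_of_isPGroup hUp hR') ?_
  rintro B hB ⟨a, ha, he⟩
  rw [le_bot_iff]
  apply key
  by_cases hne : B = U
  · have hnt : (⊥ : Subgroup U) ≠ ⊤ := by
      intro h0
      have : Nat.card U = 1 := by
        rw [← Subgroup.card_top, ← h0, Subgroup.card_bot]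
      have h2 : 1 < p ^ 2 := Nat.one_lt_pow two_ne_zero (Fact.out : p.Prime).one_lt
      omega
    obtain ⟨X, hX, -⟩ := (eq_top_or_exists_le_coatom (⊥ : Subgroup U)).resolve_left hnt
    obtain ⟨x, hx, h2⟩ := h (X.map U.subtype) (Subgroup.map_subtype_le X)
      (by rwa [map_subtype_subgroupOf])
    exact ⟨x, hne ▸ Subgroup.map_subtype_le X hx, h2⟩
  · exact h B hB (coatom_of_sup_zpowers hU hB ha he hne)

end Cfsg.Agent.S3003
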