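import Mathlib
import Cfsg.Statements.S3008
import Cfsg.Agent.LocalEven.CD2

set_option autoImplicit false
open Cfsg

namespace Cfsg.Agent.S3008

open Cfsg.Agent.LocalEven

/-- Let P be a finite p-group, with J(P) generated by its abelian subgroups of largest order and J̃(P) = C_P(Z(J(P))); call R ≤ P centrally large if |R|·|Z(R)| is as large as possible, and let P_MCL be generated by the minimal centrally large subgroups. Then: for every centrally large Q, Q·J(P) ⊇ J̃(P); some minimal centrally large subgroup of P is normalized by both J(P) and P_MCL; if P = J(P) and d(P)² = |P|·|Z(P)|, where d(P) is the largest order of an abelian subgroup, then every minimal centrally large subgroup of P is abelian; and if every minimal centrally large subgroup is abelian then J̃(P) = J(P). -/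
theorem result {p : ℕ} [Fact p.Prime] (P : Type*) [Group P] [Finite P] (hP : IsPGroup p P) : (∀ Q : Subgroup P, Cfsg.IsCentrallyLarge Q → Subgroup.centralizer ((Cfsg.thompsonSubgroupA P ⊓ Subgroup.centralizer (Cfsg.thompsonSubgroupA P : Set P) : Subgroup P) : Set P) ≤ Q ⊔ Cfsg.thompsonSubgroupA P) ∧ (∃ Q : Subgroup P, Cfsg.IsMinimalCentrallyLarge Q ∧ Cfsg.thompsonSubgroupA P ≤ Subgroup.normalizer (Q : Set P) ∧ Cfsg.minimalCentrallyLargeJoin P ≤ Subgroup.normalizer (Q : Set P)) ∧ (Cfsg.thompsonSubgroupA P = ⊤ → (∀ A ∈ Cfsg.maxAbelianSubgroups P, Nat.card ↥A ^ 2 = Nat.card P * Nat.card ↥(Subgroup.center P)) → ∀ Q : Subgroup P, Cfsg.IsMinimalCentrallyLarge Q → IsMulCommutative ↥Q) ∧ ((∀ Q : Subgroup P, Cfsg.IsMinimalCentrallyLarge Q → IsMulCommutative ↥Q) → Subgroup.centralizer ((Cfsg.thompsonSubgroupA P ⊓ Subgroup.centralizer (Cfsg.thompsonSubgroupA P : Set P) : Subgroup P) : Set P) = Cfsg.thompsonSubgroupA P) := by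
  simp only [isMinimalCentrallyLarge_iff, isCentrallyLarge_iff]
  obtain ⟨A, hA⟩ := exists_maxAbelian (G := P)
  refine ⟨fun Q hQ => hQ.centralizer_center_thompson_le, ?_, fun hJ hd Q hQ => ?_, fun h => ?_⟩
  · obtain ⟨Q, hQ, h⟩ := exists_mcl_normalized hP.isNilpotent
    refine ⟨Q, hQ, sSup_le fun B hB => h B hB.1 (hQ.1.sup_maxAbelian hB).2.2.2,
      sSup_le fun R hR => ?_⟩
    have hR' := isMinimalCentrallyLarge_iff.1 hR
    rw [← hR'.eq_sup hQ.1]
    exact sup_le (inf_le_right.trans Subgroup.le_normalizer) (h _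
      (Subgroup.le_centralizer_iff_isMulCommutative.1 hR'.1.comm)
      (hQ.1.1.centralizer.1.coe_sup hR'.1.1.centralizer.1))
  · have h1 := hQ.1.sup_thompson
    rw [hJ, sup_top_eq] at h1
    have h2 : CL A := ⟨h1.1.of_le (by
      rw [cdm, cdm, centralizer_eq_of_maxAbelian hA, ← sq, hd A hA, Subgroup.card_top,
        Subgroup.coe_top, Subgroup.centralizer_univ]), (centralizer_eq_of_maxAbelian hA).le⟩
    obtain ⟨R, hRA, hR⟩ := h2.exists_mcl
    exact ((hR.iff_of_comm (isMulCommutative_of_le hA.1 hRA) Q).1 hQ).1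
  · obtain ⟨Q, hQ⟩ := exists_mcl (G := P)
    have h1 := (hQ.iff_of_comm (h Q hQ) A).2 hA
    refine le_antisymm (h1.1.centralizer_center_thompson_le.trans
      (sup_le (le_sSup hA) le_rfl)) (Subgroup.le_centralizer_iff.1 inf_le_right)

end Cfsg.Agent.S3008
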