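import Mathlib
import Cfsg.Statements.S3011
import Cfsg.Agent.LocalEven.Sidki

set_option autoImplicit false
open Cfsg

namespace Cfsg.Agent.S3011

open Cfsg.Agent.LocalEven

open Subgroup

theorem core {G : Type*} [Group G] {V : Subgroup G} (hV : IsElementaryAbelian 2 V)
    (hS : IsSidkiPair V) {a b x y : G} (ha : a ∈ V) (hb : b ∈ V)
    (hall : ∀ w ∈ V, w = 1 ∨ w = a ∨ w = b ∨ w = a * b) (hx : Odd (orderOf x)) (hx1 : x ≠ 1)
    (hy : Odd (orderOf y)) (hy1 : y ≠ 1) (hax : a * x * a⁻¹ = x⁻¹) (hbx : Commute b x)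
    (hby : b * y * b⁻¹ = y⁻¹) (hay : Commute a y) : False := by
  obtain ⟨s, hs, hs2⟩ := Inv.exists_conj_mul_of_odd hax hx
  have hbs : Commute b s := (Inv.commute_of_mem_zpowers hbx.symm hs).symm
  set z := s * y * s⁻¹ with hz
  have hzo : Odd (orderOf z) := by rwa [hz, Inv.orderOf_conj]
  have hz1 : z ≠ 1 := fun h => hy1 (by simpa [hz] using h)
  have hbz : b * z * b⁻¹ = z⁻¹ := by
    calc b * z * b⁻¹ = (b * s) * y * (b * s)⁻¹ := by rw [hz]; group
      _ = s * (b * y * b⁻¹) * s⁻¹ := by rw [hbs.eq]; group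
      _ = z⁻¹ := by rw [hby, hz]; group
  have htz : Commute (x * a) z := hs2 ▸ hay.conj s
  have hnb : ¬ Commute b z := fun h => hz1 (eq_one_of_inverts_of_commute hzo hbz h)
  obtain ⟨w, hw, hw1, hw2⟩ := hS z b hb hzo hbz
  have hw2 : Commute w z := hw2
  rcases hall w hw with rfl | rfl | rfl | rfl
  · exact hw1 rfl
  · have hxz : Commute x z := by simpa using htz.mul_left hw2.inv_left
    obtain ⟨u, hu, hu1, hu2, hu3⟩ := sidki_prod hV hS ha hb hx hzo hxz hax hw2 hbz hbx
    rcases hall u hu with rfl | rfl | rfl | rfl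
    · exact hu1 rfl
    · exact hx1 (eq_one_of_inverts_of_commute hx hax hu2)
    · exact hnb hu3
    · exact hnb (by simpa using hw2.inv_left.mul_left hu3)
  · exact hnb hw2
  · have h1 : Commute (x * b) z := by
      have := htz.mul_left hw2
      rwa [mul_assoc, ← mul_assoc a, elemAb_two_mul_self hV ha, one_mul] at this
    have h2 : Commute (x * x) z := by
      have := h1.mul_left h1
      rwa [mul_assoc, ← mul_assoc b, hbx.eq, mul_assoc, elemAb_two_mul_self hV hb, mul_one] at this
    exact hnb (by simpa using (commute_of_commute_sq hx h2).inv_left.mul_left h1)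

/-- Let G be a finite group and V a nontrivial elementary abelian 2-subgroup of G of order at most 4 such that, whenever an element of V inverts an element h of G of odd order, some nontrivial element of V commutes with h. Then V meets O₂(G) nontrivially. (The case of order at most 4 has a short argument from the Baer–Suzuki theorem.) -/
theorem result {G : Type*} [Group G] [Finite G] (V : Subgroup G) (hV : Cfsg.IsElementaryAbelian 2 V) (hV1 : V ≠ ⊥) (hS : Cfsg.IsSidkiPair V) (h4 : Nat.card V ≤ 4) : V ⊓ Cfsg.pCore 2 G ≠ ⊥ := by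
  intro h0
  have hn : ∀ v ∈ V, v ≠ 1 → ∃ x : G, x ≠ 1 ∧ Odd (orderOf x) ∧ v * x * v⁻¹ = x⁻¹ :=
    fun v hv h1 => exists_inverted_of_not_mem_pCore (elemAb_two_mul_self hV hv)
      fun h => h1 (mem_bot.1 (h0 ▸ mem_inf.2 ⟨hv, h⟩))
  obtain ⟨⟨a, ha⟩, ha1⟩ := ne_bot_iff_exists_ne_one.1 hV1
  replace ha1 : a ≠ 1 := fun h => ha1 (Subtype.ext h)
  obtain ⟨x, hx1, hx, hax⟩ := hn a ha ha1
  obtain ⟨b, hb, hb1, hbx⟩ := hS x a ha hx hax
  have hab : a ≠ b := fun h => hx1 (eq_one_of_inverts_of_commute hx hax (h ▸ hbx))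
  have haa := elemAb_two_mul_self hV ha
  have hbb := elemAb_two_mul_self hV hb
  have hall : ∀ w ∈ V, w = 1 ∨ w = a ∨ w = b ∨ w = a * b := by
    intro w hw
    by_contra hne
    push Not at hne
    obtain ⟨h1, h2, h3, h4'⟩ := hne
    classical
    have h5 : a * b ≠ 1 := fun h => hab (by rw [← mul_one a, ← hbb, ← mul_assoc, h, one_mul])
    have hsub : (({w, 1, a, b, a * b} : Finset G) : Set G) ⊆ (V : Set G) := by
      simp [Set.insert_subset_iff, hw, ha, hb, mul_mem]
    have h6 := Set.ncard_le_ncard hsub (Set.toFinite _)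
    rw [Set.ncard_coe_finset, Finset.card_insert_of_notMem (by simp [h1, h2, h3, h4']),
      Finset.card_insert_of_notMem (by simp [ha1.symm, hb1.symm, h5.symm]),
      Finset.card_insert_of_notMem (by simp [hab, hb1]),
      Finset.card_insert_of_notMem (by simp [ha1]), Finset.card_singleton] at h6
    have h7 : (V : Set G).ncard = Nat.card V := rfl
    omega
  obtain ⟨y, hy1, hy, hby⟩ := hn b hb hb1
  obtain ⟨c, hc, hc1, hcy⟩ := hS y b hb hy hby
  rcases hall c hc with rfl | rfl | rfl | rfl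
  · exact hc1 rfl
  · exact core hV hS hc hb hall hx hx1 hy hy1 hax hbx hby hcy
  · exact hy1 (eq_one_of_inverts_of_commute hy hby hcy)
  · refine core hV hS hc hb (fun w hw => ?_) hx hx1 hy hy1 ?_ hbx hby hcy
    · rw [mul_assoc, hbb, mul_one]
      have := hall w hw
      tauto
    · calc a * b * x * (a * b)⁻¹ = a * (b * x * b⁻¹) * a⁻¹ := by group
        _ = _ := by rw [hbx, mul_inv_cancel_right, hax]

end Cfsg.Agent.S3011
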