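import Mathlib
import Cfsg.Statements.S3012
import Cfsg.Agent.LocalEven.Sidki

set_option autoImplicit false
open Cfsg

namespace Cfsg.Agent.S3012

open Cfsg.Agent.LocalEven

/-- Let G be a finite group, V a nontrivial elementary abelian 2-subgroup of G satisfying the Sidki pair condition (every odd-order element inverted by an element of V commutes with a nontrivial element of V), and K a normal subgroup of G with V ∩ K = 1. Then the image of V in G/K satisfies the Sidki pair condition in G/K. -/
theorem result {G : Type*} [Group G] [Finite G] (V K : Subgroup G) [K.Normal] (hV : Cfsg.IsElementaryAbelian 2 V) (hV1 : V ≠ ⊥) (hS : Cfsg.IsSidkiPair V) (hVK : V ⊓ K = ⊥) : Cfsg.IsSidkiPair (V.map (QuotientGroup.mk' K)) := by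
  exact sidki_map _ (QuotientGroup.mk'_surjective K) hV hS (by rwa [QuotientGroup.ker_mk'])

end Cfsg.Agent.S3012
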