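import Mathlib
import Cfsg.Statements.S3014
import Cfsg.Agent.LocalEven.ExtCl

set_option autoImplicit false
open Cfsg

namespace Cfsg.Agent.S3014

open Cfsg.Agent.LocalEven

open Subgroup

/-- Let G be a finite group and H ≤ M ≤ G subgroups such that for every g ∈ G the subgroup generated by H and g H g⁻¹ meets M exactly in H. If H is a maximal subgroup of M and M is a maximal subgroup of G, then the normal closure of H in G meets M exactly in H. -/
theorem result {G : Type*} [Group G] [Finite G] (H M : Subgroup G) (hHM : H ≤ M) (hcl : ∀ g : G, (H ⊔ H.map (MulAut.conj g).toMonoidHom) ⊓ M = H) (hmaxH : IsCoatom (H.subgroupOf M)) (hmaxM : IsCoatom M) : Subgroup.normalClosure (H : Set G) ⊓ M = H := by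
  have hH : ∀ K, H < K → K ≤ M → K = M := fun K h1 h2 => by
    have := hmaxH.2 (K.subgroupOf M) (lt_of_le_of_ne (comap_mono h1.le) fun h0 => h1.ne (by
      rw [← map_subgroupOf_eq_of_le hHM, h0, map_subgroupOf_eq_of_le h2]))
    exact le_antisymm h2 (subgroupOf_eq_top.1 this)
  rcases exists_normal_of_closed hHM hcl hH hmaxM with ⟨h, -⟩ | ⟨N, hN, h1, -⟩
  · rw [normalClosure_eq_self, inf_eq_left.2 hHM]
  · exact le_antisymm (le_trans (inf_le_inf_right M (normalClosure_le_normal (h1.ge.trans inf_le_left)))
      h1.le) (le_inf le_normalClosure hHM)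

end Cfsg.Agent.S3014
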