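import Mathlib
import Cfsg.Statements.S3015
import Cfsg.Agent.LocalEven.ExtCl

set_option autoImplicit false
open Cfsg

namespace Cfsg.Agent.S3015

open Cfsg.Agent.LocalEven

open Subgroup

/-- Let G be a finite non-abelian simple group, M a maximal subgroup of G and H a normal subgroup of M of prime index in M. Then G is generated by H together with one of its conjugates. -/
theorem result {G : Type*} [Group G] [Finite G] [IsSimpleGroup G] (hG : ¬ IsMulCommutative G) (M H : Subgroup G) (hmaxM : IsCoatom M) (hHM : H ≤ M) (hHn : (H.subgroupOf M).Normal) (hidx : (H.relIndex M).Prime) : ∃ g : G, H ⊔ H.map (MulAut.conj g).toMonoidHom = ⊤ := by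
  by_contra hne
  push Not at hne
  replace hne : ∀ g, H ⊔ cj g H ≠ ⊤ := hne
  haveI : Fact (H.relIndex M).Prime := ⟨hidx⟩
  have hn : M ≤ normalizer (H : Set G) := le_normalizer_of_normal_subgroupOf hHM
  have hlt : H ≠ M := fun h => hidx.one_lt.ne' (by rw [h, relIndex_self])
  have hbot : ∀ N : Subgroup G, N.Normal → N ≤ M → N = ⊥ := fun N hN hle =>
    (hN.eq_bot_or_eq_top).resolve_right fun h => hmaxM.1 (top_le_iff.1 (h ▸ hle))
  have hNM : normalizer (M : Set G) ≤ M := by
    by_contra h
    have := hbot M (normalizer_eq_top_iff.1 (hmaxM.2 _ (lt_of_le_of_ne le_normalizer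
      fun h0 => h h0.ge))) le_rfl
    exact hlt (le_antisymm hHM (this ▸ bot_le))
  have hH : ∀ K, H < K → K ≤ M → K = M := fun K h1 h2 =>
    (Core.eq_or_eq_of_relIndex_prime hidx h1.le h2).resolve_left h1.ne'
  have hcl : ∀ g : G, (H ⊔ cj g H) ⊓ M = H := by
    intro g
    by_contra h0
    have h1 := hH _ (lt_of_le_of_ne (le_inf le_sup_left hHM) (Ne.symm h0)) inf_le_right
    have h2 : H ⊔ cj g H = M := by
      by_contra h2
      exact hne g (hmaxM.2 _ (lt_of_le_of_ne (h1.ge.trans inf_le_left) (Ne.symm h2)))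
    have h3 : cj g H ≤ M := le_sup_right.trans h2.le
    have hg : g ∉ M := fun hg => hlt (by rw [← h2, cj_eq_of_mem_normalizer (hn hg), sup_idem])
    set q := H.relIndex M with hq
    have h4 : pResOf q H = pResOf q M := pResOf_eq_of_le (pResOf_le_of_pow_mem fun x hx =>
      ⟨1, by
        have := pow_index_mem (H := H.subgroupOf M) ⟨x, hx⟩
        rw [pow_one]; exact this⟩) hHM
    have h5 : g ∈ normalizer (pResOf q M : Set G) := mem_normalizer_of_cj_le (by
      rw [← h4, cj_pResOf, h4]; exact pResOf_mono h3)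
    have h6 := hbot (pResOf q M) (normalizer_eq_top_iff.1 (hmaxM.2 _ (lt_of_le_of_ne
      (le_normalizer_pResOf M) fun h6 => hg (h6 ▸ h5)))) (pResOf_le M)
    have h7 := isPGroup_of_pResOf_eq_bot h6
    have h8 : (cj g H).relIndex M = q := by
      have := card_mul_relIndex h3
      rw [← card_mul_relIndex hHM, card_cj] at this
      exact Nat.eq_of_mul_eq_mul_left Nat.card_pos this
    have h9 := Core.le_normalizer_of_relIndex_prime h7.isNilpotent h3 (h8 ▸ hidx)
    have h10 : cj g M ≤ normalizer (cj g H : Set G) := by rw [← cj_normalizer]; exact cj_mono g hn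
    have h11 := hbot (cj g H) (normalizer_eq_top_iff.1 (hmaxM.2 _ (lt_of_le_of_ne h9 fun h11 =>
      hg (hNM (mem_normalizer_of_cj_le (h11 ▸ h10)))))) h3
    exact hlt (by rw [← h2, h11, sup_bot_eq])
  rcases exists_normal_of_closed hHM hcl hH hmaxM with ⟨h, g, hg, h1⟩ | ⟨N, hN, h1, h2⟩
  · refine hg (hNM (cj_eq_self_iff.1 (eq_of_le_of_card_le ?_ (card_cj g M).le).symm))
    have h2 := hbot H h hHM
    exact (hH _ (lt_of_le_of_ne (h2 ▸ bot_le) fun h0 => h1 h0.ge) inf_le_left).ge.trans inf_le_right
  · rcases hN.eq_bot_or_eq_top with rfl | rfl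
    · exact hmaxM.1 (by simpa using h2)
    · exact hlt (by simpa using h1.symm)

end Cfsg.Agent.S3015
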