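import Mathlib
import Cfsg.Statements.S3020
import Cfsg.Agent.LocalEven.ExtCl

set_option autoImplicit false
open Cfsg

namespace Cfsg.Agent.S3020

open Cfsg.Agent.LocalEven

open Subgroup

/-- Let G be a finite group, p a prime and H an abelian p-subgroup of G that is extremely closed (for every g, the subgroup generated by H and g H g⁻¹ meets N_G(H) exactly in H). Then for every g ∈ G, the subgroup T generated by H and g H g⁻¹ is the product of H with O_{p'}(T), and H meets O_{p'}(T) trivially; that is, O_{p'}(T) is a normal p-complement of H in T. -/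
theorem result {G : Type*} [Group G] [Finite G] {p : ℕ} [Fact p.Prime] (H : Subgroup G) (hHp : IsPGroup p H) (hHab : IsMulCommutative H) (hcl : Cfsg.IsExtremelyClosed H) (g : G) (T : Subgroup G) (hT : T = H ⊔ H.map (MulAut.conj g).toMonoidHom) : H ⊔ (Cfsg.pPrimeCore p ↥T).map T.subtype = T ∧ H ⊓ (Cfsg.pPrimeCore p ↥T).map T.subtype = ⊥ := by
  have hS : IsSylowIn p H T := hT ▸ isSylowIn_of_extClosed hHp hcl g
  have h1 := coprime_pResOf_of_burnside hS (by
    rw [hT, hcl g]; exact le_centralizer_iff_isMulCommutative.2 hHab)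
  have h2 : pResOf p T ≤ (pPrimeCore p T).map T.subtype :=
    map_mono (Core.le_pPrimeCore inferInstance (by rwa [card_map_subtype] at h1))
  refine ⟨le_antisymm (sup_le hS.le (map_subtype_le _))
    (hS.pResOf_sup.ge.trans (sup_le (le_sup_of_le_right h2) le_sup_left)), ?_⟩
  refine eq_bot_of_not_dvd (hHp.to_le inf_le_left) inf_le_right ?_
  rw [card_map_subtype]
  exact Core.not_dvd_card_pPrimeCore Fact.out

end Cfsg.Agent.S3020
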