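import Mathlib
import Cfsg.Statements.S3021
import Cfsg.Agent.LocalEven.ExtCl

set_option autoImplicit false
open Cfsg

namespace Cfsg.Agent.S3021

open Cfsg.Agent.LocalEven

open Subgroup

/-- Let G be a finite group, p a prime and H a p-subgroup of G that is extremely closed (for every g, the subgroup generated by H and g H g⁻¹ meets N_G(H) exactly in H). Then every p-subgroup Q of G containing H has N_G(Q) ≤ N_G(H); in particular every Sylow p-subgroup P of G containing H normalizes H, and H is strongly closed in P with respect to G. -/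
theorem result {G : Type*} [Group G] [Finite G] {p : ℕ} [Fact p.Prime] (H : Subgroup G) (hHp : IsPGroup p H) (hcl : Cfsg.IsExtremelyClosed H) : (∀ Q : Subgroup G, IsPGroup p Q → H ≤ Q → Subgroup.normalizer (Q : Set G) ≤ Subgroup.normalizer (H : Set G)) ∧ ∀ P : Sylow p G, H ≤ (P : Subgroup G) → (P : Subgroup G) ≤ Subgroup.normalizer (H : Set G) ∧ Cfsg.IsStronglyClosed H (P : Subgroup G) := by
  refine ⟨fun Q hQ hle => normalizer_le_of_extClosed hHp hcl hQ hle, fun P hP => ?_⟩
  have h := le_normalizer.trans (normalizer_le_of_extClosed hHp hcl P.2 hP)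
  exact ⟨h, hP, fun x hx g hg => (hcl g).le ⟨mem_sup_right (conj_mem_cj hx), h hg⟩⟩

end Cfsg.Agent.S3021
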