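import Mathlib
import Cfsg.Statements.S3025
import Cfsg.Agent.Comp2.PTerm
import Cfsg.Agent.PGrp.CyclicTwo
import Cfsg.Agent.FGS.SylowNum

set_option autoImplicit false
open Cfsg

namespace Cfsg.Agent.S3025

open Cfsg.Agent.Comp2

open Subgroup Cfsg.Agent.BG
open scoped commutatorElement Pointwise

/-- Let F be a finite group and H a nontrivial subgroup of F that is contained in every nontrivial subgroup of F which H normalizes. Then F has a nontrivial normal subgroup N contained in every nontrivial normal subgroup of F (a unique minimal normal subgroup), N is simple, and one of the following holds: C_F(N) = 1; or H = N has prime order p, C_F(N) is cyclic of order a power of p, and F/C_F(N) is cyclic of order dividing p − 1; or H = N has order 2, N is central in F, and F is a generalized quaternion group. -/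
theorem result {F : Type*} [Group F] [Finite F] (H : Subgroup F) (hH : H ≠ ⊥)
    (hmin : ∀ R : Subgroup F, R ≠ ⊥ → H ≤ Subgroup.normalizer (R : Set F) → H ≤ R) :
    ∃ N : Subgroup F, N.Normal ∧ N ≠ ⊥ ∧ (∀ M : Subgroup F, M.Normal → M ≠ ⊥ → N ≤ M) ∧ IsSimpleGroup ↥N ∧
      (Subgroup.centralizer (N : Set F) = ⊥ ∨
       (H = N ∧ (Nat.card N).Prime ∧ IsCyclic ↥(Subgroup.centralizer (N : Set F)) ∧
          (∃ k : ℕ, 1 ≤ k ∧ Nat.card ↥(Subgroup.centralizer (N : Set F)) = Nat.card N ^ k) ∧
          (∃ g : F, Subgroup.centralizer (N : Set F) ⊔ Subgroup.zpowers g = ⊤) ∧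
          (Subgroup.centralizer (N : Set F)).index ∣ Nat.card N - 1) ∨
       (H = N ∧ Nat.card N = 2 ∧ Subgroup.centralizer (N : Set F) = ⊤ ∧
          ∃ k : ℕ, 1 ≤ k ∧ Nonempty (F ≃* QuaternionGroup (2 ^ k)))) := by
  have hle : ∀ M : Subgroup F, M.Normal → M ≠ ⊥ → normalClosure (H : Set F) ≤ M := fun M hM h1 =>
    normalClosure_le_normal (hmin M h1 le_normalizer_of_normal)
  have hHN : H ≤ normalClosure (H : Set F) := le_normalClosure
  have hN1 := Amb.ne_bot_mono hH hHN
  have hnorm : (normalClosure (H : Set F)).Normal := normalClosure_normal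
  have hgen : ∀ M : Subgroup F, (∀ g : F, MulAut.conj g • H ≤ M) → normalClosure (H : Set F) ≤ M := by
    intro M h
    refine (closure_le _).2 fun x hx => ?_
    obtain ⟨a, ha, hc⟩ := Group.mem_conjugatesOfSet_iff.1 hx
    obtain ⟨g, rfl⟩ := isConj_iff.1 hc
    exact h g (Amb.conj_mem_conj.2 ha)
  generalize normalClosure (H : Set F) = N at hle hHN hN1 hnorm hgen
  have hs : IsSimpleGroup N := by
    haveI := (nontrivial_iff_ne_bot N).2 hN1
    refine ⟨fun M hM => ?_⟩
    by_cases h1 : M = ⊥
    · exact Or.inl h1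
    right
    have h2 : M.map N.subtype ≠ ⊥ := fun e =>
      h1 ((Subgroup.map_eq_bot_iff_of_injective _ N.subtype_injective).1 e)
    have h3 : N ≤ M.map N.subtype := hgen _ fun g => by
      rw [Amb.conj_le_iff]
      refine hmin _ (Amb.conj_ne_bot_iff.2 h2) (hHN.trans ?_)
      have := Amb.conj_le_normalizer_conj (g := g⁻¹) (Comp2.le_normalizer_map_subtype_of_normal M)
      rwa [Amb.conj_eq_of_mem_normalizer (le_normalizer_of_normal (mem_top _))] at this
    exact top_le_iff.1 fun x _ => (Comp2.mem_map_subtype_iff x.2).1 (h3 x.2)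
  refine ⟨N, hnorm, hN1, hle, hs, ?_⟩
  by_cases hC : 𝐂(N) = ⊥
  · exact Or.inl hC
  right
  have hNC : N ≤ 𝐂(N) := hle _ inferInstance hC
  haveI : IsMulCommutative N := Amb.comm_of_le_cent hNC
  have hp : (Nat.card N).Prime := by
    letI : CommGroup N := { (inferInstance : Group N) with mul_comm := mul_comm' }
    exact IsSimpleGroup.prime_card
  haveI := Fact.mk hp
  have hHe : H = N := Rank.eq_of_le_of_card_prime rfl hHN hH
  subst hHe
  have hall : ∀ R : Subgroup F, R ≤ 𝐂(H) → (Nat.card R).Prime → R = H := fun R hR hq => by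
    haveI := Fact.mk hq
    exact (Rank.eq_of_le_of_card_prime rfl (hmin R (Rank.ne_bot_of_card_prime rfl)
      (Amb.le_norm_of_le_cent (Amb.le_cent_symm hR))) hH).symm
  have hP : IsPGroup (Nat.card H) 𝐂(H) := Amb.isPGroup_of_pi (Amb.pi_iff_forall_prime_le.2
    fun q hq X hX hXq => by rw [← hXq, hall X hX (hXq ▸ hq)]; rfl)
  have hu : ∀ A B : Subgroup 𝐂(H), Nat.card A = Nat.card H → Nat.card B = Nat.card H → A = B := by
    intro A B hA hB
    apply map_injective (𝐂(H)).subtype_injective
    rw [hall _ (map_subtype_le A) (by rwa [Comp2.card_map_of_injective _ (subtype_injective _), hA]),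
      hall _ (map_subtype_le B) (by rwa [Comp2.card_map_of_injective _ (subtype_injective _), hB])]
  have hker : (MulAut.conjNormal (H := H)).ker = 𝐂(H) := by
    ext g
    rw [MonoidHom.mem_ker, Amb.mem_cent]
    constructor
    · intro h a ha
      have := congrArg (fun φ : MulAut H => (φ ⟨a, ha⟩ : F)) h
      simp only [MulAut.conjNormal_apply, MulAut.one_apply] at this
      exact (mul_inv_eq_iff_eq_mul.1 this).symm
    · intro h
      ext a
      simp only [MulAut.conjNormal_apply, MulAut.one_apply]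
      rw [← h a a.2, mul_inv_cancel_right]
  haveI := Rank.isCyclic_of_card_prime (X := H) rfl
  have hidx : (𝐂(H)).index ∣ Nat.card H - 1 := by
    rw [← hker, index_ker, ← Nat.totient_prime hp, ← IsCyclic.card_mulAut]
    exact card_subgroup_dvd_card _
  rcases PGrp.isCyclic_or_quaternion_of_unique hP hu with h | ⟨h2, m, hm, ⟨e⟩⟩
  · refine Or.inl ⟨rfl, hp, h, ?_, ?_, hidx⟩
    · obtain ⟨k, hk⟩ := hP.exists_card_eq
      refine ⟨k, Nat.one_le_iff_ne_zero.2 fun e => hC ?_, hk⟩
      rw [e, pow_zero] at hk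
      exact card_eq_one.1 hk
    · haveI := FGS.isCyclic_mulAut_of_prime hp
      obtain ⟨⟨_, g, rfl⟩, hg⟩ := IsCyclic.exists_generator (α := (MulAut.conjNormal (H := H)).range)
      refine ⟨g, top_le_iff.1 fun x _ => ?_⟩
      obtain ⟨k, hk⟩ := mem_zpowers_iff.1 (hg ⟨_, x, rfl⟩)
      have h1 : MulAut.conjNormal (H := H) (g ^ k) = MulAut.conjNormal x := by
        rw [map_zpow]; exact congrArg Subtype.val hk
      have h3 : x * (g ^ k)⁻¹ ∈ 𝐂(H) := by
        rw [← hker, MonoidHom.mem_ker, map_mul, map_inv, h1, mul_inv_cancel]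
      simpa using mul_mem_sup h3 (zpow_mem_zpowers g k)
  · have h3 : 𝐂(H) = ⊤ := by
      rw [h2] at hidx
      exact index_eq_one.1 (Nat.dvd_one.1 hidx)
    exact Or.inr ⟨rfl, h2, h3, m, hm, ⟨(topEquiv.symm.trans (MulEquiv.subgroupCongr h3.symm)).trans e⟩⟩

end Cfsg.Agent.S3025
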