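import Mathlib
import Cfsg.Statements.S3027
import Cfsg.Agent.H2.SubnormalCore

set_option autoImplicit false
open scoped Pointwise
open Cfsg

namespace Cfsg.Agent.S3027

/-- Let G be a finite group and D a normal subgroup of G such that G/D is perfect (that is, G = G′D). Then among the subnormal subgroups B of G with BD = G there is a least one, and it is normal in G. -/
theorem result {G : Type*} [Group G] [Finite G] (D : Subgroup G) [D.Normal] (hperf : ⁅(⊤ : Subgroup G), (⊤ : Subgroup G)⁆ ⊔ D = ⊤) :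
    ∃ B : Subgroup G, B.Normal ∧ B ⊔ D = ⊤ ∧ ∀ B' : Subgroup G, B'.IsSubnormal → B' ⊔ D = ⊤ → B ≤ B' := by
  set f := QuotientGroup.mk' D with hf
  have hsup : ∀ B : Subgroup G, B ⊔ D = ⊤ ↔ B.map f = ⊤ := by
    intro B
    constructor
    · intro h
      have := congrArg (Subgroup.map f) h
      rwa [Subgroup.map_sup, QuotientGroup.map_mk'_self, sup_bot_eq,
        Subgroup.map_top_of_surjective _ (QuotientGroup.mk'_surjective D)] at this
    · intro h
      have := congrArg (Subgroup.comap f) h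
      rwa [Subgroup.comap_map_eq, QuotientGroup.ker_mk', Subgroup.comap_top] at this
  have hcomm : ∀ B B' : Subgroup G, B ⊔ D = ⊤ → B' ⊔ D = ⊤ → ⁅B, B'⁆ ⊔ D = ⊤ := by
    intro B B' h1 h2
    rw [hsup] at h1 h2 hperf ⊢
    rw [Subgroup.map_commutator, h1, h2]
    rwa [Subgroup.map_commutator,
      Subgroup.map_top_of_surjective _ (QuotientGroup.mk'_surjective D)] at hperf
  have least : ∀ K : Subgroup G, K ⊔ D = ⊤ → ∃ B : Subgroup G,
      (B ≤ K ∧ K ≤ Subgroup.normalizer (B : Set G) ∧ B ⊔ D = ⊤) ∧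
      ∀ B' : Subgroup G, B' ≤ K → K ≤ Subgroup.normalizer (B' : Set G) → B' ⊔ D = ⊤ → B ≤ B' := by
    intro K hK
    obtain ⟨B, -, hB⟩ := (Set.toFinite {B : Subgroup G | B ≤ K ∧
      K ≤ Subgroup.normalizer (B : Set G) ∧ B ⊔ D = ⊤}).exists_le_minimal
      (a := K) ⟨le_rfl, Subgroup.le_normalizer, hK⟩
    refine ⟨B, hB.prop, fun B' h1 h2 h3 => ?_⟩
    obtain ⟨h4, h5, h6⟩ := hB.prop
    have h7 : ⁅B, B'⁆ ≤ B := Subgroup.le_normalizer_iff_commutator_le_left.1 (h1.trans h5)
    have h8 : ⁅B, B'⁆ ≤ B' := Subgroup.le_normalizer_iff_commutator_le_right.1 (h4.trans h2)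
    exact (hB.le_of_le ⟨h7.trans h4, Core.le_normalizer_commutator h5 h2, hcomm _ _ h6 h3⟩ h7).trans h8
  obtain ⟨B, ⟨-, hB2, hB3⟩, hB⟩ := least ⊤ (top_sup_eq D)
  refine ⟨B, Core.normal_of_le_normalizer hB2, hB3, fun B' h1 h2 => ?_⟩
  have key : ∀ K, H2.SN ⊤ K → K ⊔ D = ⊤ → ∀ B' : Subgroup G, B' ≤ K →
      K ≤ Subgroup.normalizer (B' : Set G) → B' ⊔ D = ⊤ → B ≤ B' := by
    intro K hK
    induction hK with
    | top => exact fun _ => hB
    | step A K h3 h4 _ ih =>
      intro hA B' h5 h6 h7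
      obtain ⟨C, ⟨hC1, hC2, hC3⟩, hC⟩ := least A hA
      refine (ih (top_le_iff.1 (hA ▸ sup_le_sup_right h3 D)) C (hC1.trans h3) ?_ hC3).trans
        (hC B' h5 h6 h7)
      intro k hk
      rw [H2.mem_normalizer_iff_conj_smul]
      refine (Subgroup.eq_of_le_of_card_ge ?_ (H2.card_conj_smul k C).le).symm
      refine hC _ (H2.conj_smul_le_of_mem_normalizer hC1 (h4 hk)) ?_ ?_
      · rw [H2.normalizer_conj_smul]
        have := H2.conj_smul_mono k hC2
        rwa [H2.mem_normalizer_iff_conj_smul.1 (h4 hk)] at this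
      · have := congrArg (fun X => MulAut.conj k • X) hC3
        simpa only [Subgroup.smul_sup, Subgroup.Normal.conj_smul_eq_self] using this
  exact key B' (H2.SN.top_iff.2 h1) h2 B' le_rfl Subgroup.le_normalizer h2

end Cfsg.Agent.S3027
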