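import Mathlib
import Cfsg.Statements.S3044
import Cfsg.Agent.H4J.IsoB
-- import your own Cfsg.Agent.* helpers here

set_option autoImplicit false
open Cfsg

namespace Cfsg.Agent.S3044

/-- Let G be a finite group, p a prime, S a Sylow p-subgroup of G and P a p-minimal subgroup of G containing S (S is not normal in P and lies in exactly one maximal subgroup of P). Let L be the subgroup generated by N_G(S) and all p-minimal subgroups of G containing S other than P, and suppose P is isolated: O_p(L) is not contained in O_p(P). Put Y for the normal closure of O^p(P) in G. Then G = YL; P is again isolated in the subgroup YS (the subgroup L₀ generated by N_{YS}(S) and the p-minimal subgroups of YS containing S other than P has O_p(L₀) not contained in O_p(P)); and either Y = O^p(P), or p divides |Y/O_p(Y)|, Y/O_p(Y) is generated by its components (a central product of quasisimple groups), and S permutes these components transitively by conjugation.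 -/
theorem result {G : Type*} [Group G] [Finite G] {p : ℕ} [Fact p.Prime] (S : Sylow p G) (P : Subgroup G) (hSP : (S : Subgroup G) ≤ P) (hPmin : Cfsg.IsPMinimal p ↥P)
    (L Y : Subgroup G)
    (hL : L = Subgroup.normalizer ((S : Subgroup G) : Set G) ⊔ ⨆ P' : {P' : Subgroup G // (S : Subgroup G) ≤ P' ∧ Cfsg.IsPMinimal p ↥P' ∧ P' ≠ P}, (P' : Subgroup G))
    (hiso : ¬ (Cfsg.pCore p ↥L).map L.subtype ≤ (Cfsg.pCore p ↥P).map P.subtype)
    (hY : Y = Subgroup.normalClosure (((Cfsg.pResidual p ↥P).map P.subtype : Subgroup G) : Set G)) :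
    Y ⊔ L = ⊤ ∧
    ¬ (Cfsg.pCore p ↥((Subgroup.normalizer ((S : Subgroup G) : Set G) ⊓ (Y ⊔ (S : Subgroup G))) ⊔
          ⨆ P' : {P' : Subgroup G // (S : Subgroup G) ≤ P' ∧ P' ≤ Y ⊔ (S : Subgroup G) ∧ Cfsg.IsPMinimal p ↥P' ∧ P' ≠ P}, (P' : Subgroup G))).map
        (Subgroup.subtype _) ≤ (Cfsg.pCore p ↥P).map P.subtype ∧
    ((Cfsg.pResidual p ↥P).map P.subtype = Y ∨
     ∃ _ : (Cfsg.pCore p ↥Y).Normal,
       p ∣ Nat.card (↥Y ⧸ Cfsg.pCore p ↥Y) ∧ Cfsg.layer (↥Y ⧸ Cfsg.pCore p ↥Y) = ⊤ ∧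
       ∀ K₁ K₂ : Subgroup (↥Y ⧸ Cfsg.pCore p ↥Y), Cfsg.IsComponent K₁ → Cfsg.IsComponent K₂ →
         ∃ s ∈ (S : Subgroup G), ((K₂.comap (QuotientGroup.mk' (Cfsg.pCore p ↥Y))).map Y.subtype) = (((K₁.comap (QuotientGroup.mk' (Cfsg.pCore p ↥Y))).map Y.subtype)).map (MulAut.conj s).toMonoidHom) := by
  have hS := Cfsg.Agent.LocalEven.isSylowIn_top S
  have hle : ∀ P' : Subgroup G, (S : Subgroup G) ≤ P' → IsPMinimal p P' → P' ≠ P → P' ≤ L :=
    fun P' a b c => hL ▸ le_sup_of_le_right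
        (le_iSup (fun P' : {P' : Subgroup G // (S : Subgroup G) ≤ P' ∧ Cfsg.IsPMinimal p ↥P' ∧ P' ≠ P} =>
          (P' : Subgroup G)) ⟨P', a, b, c⟩)
  have hNL : Subgroup.normalizer ((S : Subgroup G) : Set G) ≤ L := hL ▸ le_sup_left
  have h : Cfsg.Agent.H4J.IsoP p (S : Subgroup G) (Cfsg.Agent.LocalEven.pResOf p P) (pCoreOf p L) L :=
    Cfsg.Agent.H4J.isoP_of hS hSP hNL hle hiso
  haveI : Y.Normal := hY ▸ Subgroup.normalClosure_normal
  have hXY : Cfsg.Agent.LocalEven.pResOf p P ≤ Y := hY ▸ Subgroup.le_normalClosure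
  refine ⟨top_le_iff.1 (h.sup_eq_top.ge.trans (sup_le_sup_right hXY _)), fun h0 => hiso ?_, ?_⟩
  · refine le_trans (Cfsg.Agent.LocalEven.pCoreOf_le_of_le (p := p) (H := L) ?_ ?_) h0
    · exact sup_le (inf_le_left.trans hNL) (iSup_le fun P' => hle P' P'.2.1 P'.2.2.2.1 P'.2.2.2.2)
    · exact h.ES.trans (le_sup_of_le_left (le_inf Subgroup.le_normalizer le_sup_right))
  rcases h.final hS (Cfsg.Agent.LocalEven.pResOf_pResOf P) hY with
    ⟨h1, -⟩ | ⟨-, h1⟩
  · exact Or.inl h1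
  · exact Or.inr ⟨inferInstance, h1⟩

end Cfsg.Agent.S3044
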