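import Mathlib
import Cfsg.Statements.S3045
import Cfsg.Agent.H4J.IsoB
-- import your own Cfsg.Agent.* helpers here

set_option autoImplicit false
open Cfsg

namespace Cfsg.Agent.S3045

/-- Let G be a finite group, p a prime, S a Sylow p-subgroup of G and P a p-minimal subgroup of G containing S. Let L be the subgroup generated by N_G(S) and all p-minimal subgroups of G containing S other than P, and suppose O_p(L) is not contained in O_p(P). Put Y for the normal closure of O^p(P) in G. Then O^p(P) is contained in the preimage in G of F*(G/O_p(G)); and if Y is solvable, then Y = O^p(P) and Y/O_p(Y) is a t-group of nilpotency class at most 2 for some prime t ≠ p. -/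
theorem result {G : Type*} [Group G] [Finite G] {p : ℕ} [Fact p.Prime] (S : Sylow p G) (P : Subgroup G) (hSP : (S : Subgroup G) ≤ P) (hPmin : Cfsg.IsPMinimal p ↥P)
    (L Y : Subgroup G)
    (hL : L = Subgroup.normalizer ((S : Subgroup G) : Set G) ⊔ ⨆ P' : {P' : Subgroup G // (S : Subgroup G) ≤ P' ∧ Cfsg.IsPMinimal p ↥P' ∧ P' ≠ P}, (P' : Subgroup G))
    (hiso : ¬ (Cfsg.pCore p ↥L).map L.subtype ≤ (Cfsg.pCore p ↥P).map P.subtype)
    (hY : Y = Subgroup.normalClosure (((Cfsg.pResidual p ↥P).map P.subtype : Subgroup G) : Set G)) [hn : (Cfsg.pCore p G).Normal] :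
    (Cfsg.pResidual p ↥P).map P.subtype ≤ (Cfsg.generalizedFittingSubgroup (G ⧸ Cfsg.pCore p G)).comap (QuotientGroup.mk' (Cfsg.pCore p G)) ∧
    (Group.IsSolvable ↥Y → (Cfsg.pResidual p ↥P).map P.subtype = Y ∧
       ∃ _ : (Cfsg.pCore p ↥Y).Normal, ∃ t : ℕ, t.Prime ∧ t ≠ p ∧ IsPGroup t (↥Y ⧸ Cfsg.pCore p ↥Y) ∧
         ∃ _ : Group.IsNilpotent (↥Y ⧸ Cfsg.pCore p ↥Y), Group.nilpotencyClass (↥Y ⧸ Cfsg.pCore p ↥Y) ≤ 2) := by
  have h : Cfsg.Agent.H4J.IsoP p (S : Subgroup G) (Cfsg.Agent.LocalEven.pResOf p P) (pCoreOf p L) L :=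
    Cfsg.Agent.H4J.isoP_of (Cfsg.Agent.LocalEven.isSylowIn_top S) hSP (hL ▸ le_sup_left)
      (fun P' a b c => hL ▸ le_sup_of_le_right
        (le_iSup (fun P' : {P' : Subgroup G // (S : Subgroup G) ≤ P' ∧ Cfsg.IsPMinimal p ↥P' ∧ P' ≠ P} =>
          (P' : Subgroup G)) ⟨P', a, b, c⟩)) hiso
  haveI : Y.Normal := hY ▸ Subgroup.normalClosure_normal
  refine ⟨Subgroup.map_le_iff_le_comap.1 ((h.quot (Cfsg.Agent.LocalEven.isSylowIn_top S)).le_genFitting
    Cfsg.Agent.LocalEven.pCore_quotient_pCore), fun hs => ?_⟩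
  rcases h.final (Cfsg.Agent.LocalEven.isSylowIn_top S) (Cfsg.Agent.LocalEven.pResOf_pResOf P) hY with
    ⟨h1, h2⟩ | ⟨h1, -⟩
  · exact ⟨h1, inferInstance, h2⟩
  · exact (h1 hs).elim

end Cfsg.Agent.S3045
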