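import Mathlib
import Cfsg.Statements.S3048
import Cfsg.Agent.LocalEven.Sidki
import Cfsg.Agent.LocalEven.PMin

set_option autoImplicit false
universe u
open Cfsg

namespace Cfsg.Agent.S3048

open Cfsg.Agent.LocalEven

open Subgroup
open scoped commutatorElement

/-- the minimal counterexample, ambient form -/
structure Min {G : Type*} [Group G] (V : Subgroup G) : Prop where
  ea : IsElementaryAbelian 2 V
  ne : V ≠ ⊥
  sid : IsSidkiPair V
  core : pCore 2 G = ⊥
  sub : ∀ H W : Subgroup G, H ≠ ⊤ → W ≤ H → W ≤ V → W ≠ ⊥ → SidkiIn W H → W ⊓ pCoreOf 2 H ≠ ⊥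
  quo : ∀ (N : Subgroup G) [N.Normal], N ≠ ⊥ → V ⊓ N = ⊥ →
    ∃ v ∈ V, v ≠ 1 ∧ v ∈ (pCore 2 (G ⧸ N)).comap (QuotientGroup.mk' N)

namespace Min

variable {G : Type*} [Group G] [Finite G] {V : Subgroup G}

theorem cent (h : Min V) {H W N : Subgroup G} (hH : H ≠ ⊤) (h1 : W ≤ H) (h2 : W ≤ V) (h3 : W ≠ ⊥)
    (hS : SidkiIn W H) (hN : N ≤ H) (hn : H ≤ normalizer (N : Set G)) (hsn : N.IsSubnormal) :
    ∃ w ∈ W, w ≠ 1 ∧ w ∈ centralizer (N : Set G) := by
  obtain ⟨⟨w, hw⟩, hw1⟩ := ne_bot_iff_exists_ne_one.1 (h.sub H W hH h1 h2 h3 hS)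
  refine ⟨w, hw.1, fun h0 => hw1 (Subtype.ext h0), ?_⟩
  have h4 : pCoreOf 2 H ⊓ N = ⊥ := by
    rw [← pCoreOf_eq_inf_of_le_normalizer hN hn, ← le_bot_iff, ← h.core]
    exact pCoreOf_le_pCore_of_isSubnormal hsn
  refine LocalEven.commutator_eq_bot_iff.1 (eq_bot_iff.2 (h4 ▸ le_inf
    (commutator_le_left_of_le_normalizer (hN.trans (le_normalizer_pCoreOf H)))
    (commutator_le_right_of_le_normalizer ((pCoreOf_le H).trans hn)))) hw.2

theorem pgrp (h : Min V) : IsPGroup 2 V := isPGroup_of_elemAb h.ea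

theorem mem_of_odd (h : Min V) {N W : Subgroup G} (hW : W ≤ V) (hn : W ≤ normalizer (N : Set G))
    {x : G} (hx : x ∈ N ⊔ W) (ho : Odd (orderOf x)) : x ∈ N :=
  pResOf_sup_le (h.pgrp.to_le hW) hn (mem_pResOf hx (Nat.coprime_two_right.2 ho))

theorem eq_one (h : Min V) {v : G} (hv : v ∈ V)
    (hc : v ∈ centralizer (generalizedFittingSubgroup G : Set G)) : v = 1 :=
  mem_bot.1 (eq_bot_of_le_centralizer_genFitting h.core (h.pgrp.to_le (zpowers_le.2 hv))
    (zpowers_le.2 hc) ▸ mem_zpowers v)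

theorem key (h : Min V) {N₁ N₂ : Subgroup G} [hN₁ : N₁.Normal] [hN₂ : N₂.Normal]
    (hc : N₁ ≤ centralizer (N₂ : Set G)) (hF : generalizedFittingSubgroup G ≤ N₁ ⊔ N₂)
    (h2 : N₂ ⊔ V ≠ ⊤) : N₁ ⊔ V = ⊤ := by
  by_contra h1
  have hn1 := le_top.trans (normalizer_eq_top N₁).ge (a := ⊤)
  obtain ⟨a, ha, ha1, ha2⟩ := h.cent h1 le_sup_right le_rfl h.ne (sidkiIn_of_pair h.sid _)
    le_sup_left (le_top.trans hn1) hN₁.isSubnormal
  set A := V ⊓ centralizer (N₁ : Set G) with hA
  have hA0 : A ≠ ⊥ := fun h0 => ha1 (mem_bot.1 (h0 ▸ mem_inf.2 ⟨ha, ha2⟩))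
  have hS : SidkiIn A (N₂ ⊔ A) := by
    intro x hx u hu ho hi
    by_cases hx1 : x = 1
    · exact ⟨a, ⟨ha, ha2⟩, ha1, by rw [hx1, mul_one, one_mul]⟩
    have hx2 : x ∈ N₂ := h.mem_of_odd inf_le_left (le_top.trans (normalizer_eq_top N₂).ge) hx ho
    obtain ⟨h3, h4⟩ := sidkiIn_centralizer h.ea h.sid hu.1 ho hi
    obtain ⟨w, hw, hw1, hw2⟩ := h.cent (N := N₁)
      (H := centralizer ({u} : Set G) ⊓ centralizer ({x} : Set G)) (fun h0 => hx1 (eq_one_of_inverts_of_commute ho hi
      (mem_centralizer_singleton.1 (h0.ge (mem_top x)).1))) inf_le_left inf_le_right h3 h4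
      (le_inf (fun n hn => mem_centralizer_singleton.2 (hu.2 n hn).symm)
        fun n hn => mem_centralizer_singleton.2 (hc hn x hx2)) (le_top.trans hn1) hN₁.isSubnormal
    exact ⟨w, ⟨hw.2, hw2⟩, hw1, (mem_centralizer_singleton.1 hw.1.2).symm⟩
  obtain ⟨w, hw, hw1, hw2⟩ := h.cent (fun h0 => h2 (eq_top_iff.2 (h0.ge.trans
    (sup_le_sup_left inf_le_left _)))) le_sup_right inf_le_left hA0 hS le_sup_left
    (le_top.trans (normalizer_eq_top N₂).ge) hN₂.isSubnormal
  exact hw1 (h.eq_one hw.1 (centralizer_le hF (by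
    rw [centralizer_sup']; exact ⟨hw.2, hw2⟩)))

theorem sup_eq_top (h : Min V) : generalizedFittingSubgroup G ⊔ V = ⊤ := by
  refine h.key (N₂ := ⊥) (by rw [centralizer_bot']; exact le_top) le_sup_left fun h0 => h.ne ?_
  rw [bot_sup_eq] at h0
  haveI : V.Normal := h0 ▸ inferInstance
  exact le_bot_iff.1 (h.core ▸ le_pCore inferInstance h.pgrp)

theorem fitting_le (h : Min V) {N : Subgroup G} [N.Normal] (hN : N ⊔ V = ⊤) :
    fittingSubgroup G ≤ N :=
  (le_pResOf_of_coprime (hN ▸ le_top) (coprime_fitting h.core)).trans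
    (pResOf_sup_le h.pgrp (le_top.trans (normalizer_eq_top N).ge))

theorem perfect_le (h : Min V) {N K : Subgroup G} [N.Normal] (hN : N ⊔ V = ⊤) (hK : ⁅K, K⁆ = K) :
    K ≤ N :=
  (pResOf_eq_self_of_perfect (p := 2) hK).ge.trans ((pResOf_mono (hN ▸ le_top)).trans
    (pResOf_sup_le h.pgrp (le_top.trans (normalizer_eq_top N).ge)))

theorem inf_fitting (h : Min V) : V ⊓ fittingSubgroup G = ⊥ :=
  le_bot_iff.1 (h.core ▸ Core.le_pCore_of_le_fitting (h.pgrp.to_le inf_le_left) inf_le_right)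

theorem layer_ne_bot (h : Min V) : layer G ≠ ⊥ := by
  intro hE
  have hF := Comp2.genFitting_eq_fitting_iff.2 hE
  set F := fittingSubgroup G with hFdef
  have htop : F ⊔ V = ⊤ := hF ▸ h.sup_eq_top
  have hVc := elemAb_le_centralizer h.ea
  have hsplit : ∀ w ∈ V, ⁅F, zpowers w⁆ ⊔ (F ⊓ centralizer (zpowers w : Set G)) = F := fun w hw =>
    Core.commutator_sup_centralizer _ _ (le_top.trans (normalizer_eq_top F).ge)
      (Core.coprime_of_isPGroup (h.pgrp.to_le (zpowers_le.2 hw)) (coprime_fitting h.core)).symm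
      (Or.inl inferInstance)
  have step : ∀ w ∈ V, w ≠ 1 → ⁅F, zpowers w⁆ ≤ centralizer (F : Set G) → F ≤ ⁅F, zpowers w⁆ := by
    intro w hw hw1 hc
    have hVw : V ≤ normalizer (zpowers w : Set G) :=
      (hVc.trans (centralizer_le (zpowers_le.2 hw))).trans (centralizer_le_normalizer' _)
    have hVF : V ≤ normalizer (F : Set G) := le_top.trans (normalizer_eq_top F).ge
    haveI : (⁅F, zpowers w⁆).Normal := normalizer_eq_top_iff.1 (eq_top_iff.2 (htop.ge.trans
      (sup_le (left_le_normalizer_commutator _ _) (le_normalizer_commutator hVF hVw))))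
    haveI : (F ⊓ centralizer (zpowers w : Set G)).Normal := normalizer_eq_top_iff.1 (eq_top_iff.2
      (htop.ge.trans (sup_le ((hsplit w hw).ge.trans (sup_le ((hc.trans (centralizer_le
        (inf_le_left : F ⊓ centralizer (zpowers w : Set G) ≤ F))).trans
        (centralizer_le_normalizer' _)) le_normalizer))
        (le_normalizer_inf hVF (le_normalizer_centralizer hVw)))))
    refine h.fitting_le (h.key (N₂ := F ⊓ centralizer (zpowers w : Set G))
      (hc.trans (centralizer_le (inf_le_left : F ⊓ centralizer (zpowers w : Set G) ≤ F)))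
      (hF.le.trans (hsplit w hw).ge) fun h0 => hw1 (h.eq_one hw ?_))
    rw [hF]
    exact le_centralizer_iff.1 ((h.fitting_le h0).trans inf_le_right) (mem_zpowers w)
  have hF0 : F ≠ ⊥ := fun h0 => h.ne (by
    rw [h0, bot_sup_eq] at htop
    haveI : V.Normal := htop ▸ inferInstance
    exact le_bot_iff.1 (h.core ▸ le_pCore inferInstance h.pgrp))
  have hab : F ≤ centralizer (F : Set G) := by
    obtain ⟨v, hv, hv1, hv2⟩ := h.quo (F ⊓ centralizer (F : Set G))
      (Core.inf_centralizer_ne_bot_of_nilpotent Core.fitting_nilpotent le_rfl le_rfl le_normalizer hF0)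
      (le_bot_iff.1 (h.inf_fitting ▸ inf_le_inf_left V inf_le_left))
    have h1 : ⁅F, zpowers v⁆ ≤ centralizer (F : Set G) := by
      set Z := F ⊓ centralizer (F : Set G)
      have h2 : ⁅F, zpowers v⁆ ≤ F ⊓ (pCore 2 (G ⧸ Z)).comap (QuotientGroup.mk' Z) :=
        le_inf (commutator_le_left _ _) ((commutator_mono le_rfl (zpowers_le.2 hv2)).trans
          (commutator_le_right _ _))
      intro y hy
      have h3 := eq_one_of_coprime_of_mem isPGroup_pCore (h2 hy).2
        (Nat.Coprime.coprime_dvd_left ((orderOf_map_dvd _ y).trans (orderOf_dvd_natCard F (h2 hy).1))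
          (coprime_fitting h.core))
      exact ((QuotientGroup.eq_one_iff y).1 h3).2
    exact (step v hv hv1 h1).trans h1
  obtain ⟨⟨v, hv⟩, hv1⟩ := ne_bot_iff_exists_ne_one.1 h.ne
  obtain ⟨x, hx1, hx, hi⟩ := exists_inverted_of_not_mem_pCore (elemAb_two_mul_self h.ea hv)
    (fun h0 => hv1 (Subtype.ext (mem_bot.1 (h.core ▸ h0))))
  obtain ⟨w, hw, hw1, hwx⟩ := h.sid x v hv hx hi
  have hxF : x ∈ F := h.mem_of_odd le_rfl (le_top.trans (normalizer_eq_top F).ge)
    (htop ▸ mem_top x) hx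
  have h1 := Core.centralizer_inf_commutator_eq_bot (zpowers w) F
    (le_centralizer_iff_isMulCommutative.1 hab) (le_top.trans (normalizer_eq_top F).ge)
    (Core.coprime_of_isPGroup (h.pgrp.to_le (zpowers_le.2 hw)) (coprime_fitting h.core)).symm
  refine hx1 (mem_bot.1 (h1 ▸ mem_inf.2 ⟨mem_inf.2 ⟨hxF, ?_⟩,
    step w hw hw1 ((commutator_le_left _ _).trans hab) hxF⟩))
  rw [centralizer_zpowers]
  exact mem_centralizer_singleton.2 hwx

theorem closure_sup {K : Subgroup G} (h : Min V) (hK : IsComponent K) :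
    normalClosure (K : Set G) ⊔ V = ⊤ := by
  set N := normalClosure (K : Set G) with hN
  have hNE : N ≤ layer G := normalClosure_le_normal (Comp2.component_le_layer hK)
  refine h.key (N₂ := generalizedFittingSubgroup G ⊓ centralizer (N : Set G))
    (le_centralizer_iff.1 inf_le_right) (sup_le (Comp2.layer_le_iff.2 fun L hL => ?_)
      (le_sup_of_le_right (le_inf Comp2.fitting_le_genFitting
        (Comp2.fitting_le_centralizer_layer.trans (centralizer_le hNE))))) fun h0 => ?_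
  · rcases Comp2.component_le_or_commutator_eq_bot_of_normal hL N with h1 | h1
    · exact le_sup_of_le_left h1
    · exact le_sup_of_le_right (le_inf (Comp2.component_le_genFitting hL)
        (LocalEven.commutator_eq_bot_iff.1 h1))
  · exact Comp2.quasisimple_not_le_centralizer hK.2 (((h.perfect_le h0
      (Comp2.component_commutator_self hK)).trans inf_le_right).trans
      (centralizer_le (le_normalClosure : K ≤ N)))

theorem genFitting_eq {K : Subgroup G} (h : Min V) (hK : IsComponent K) :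
    generalizedFittingSubgroup G = normalClosure (K : Set G) :=
  le_antisymm (sup_le (h.perfect_le (h.closure_sup hK) Comp2.layer_commutator_self)
    (h.fitting_le (h.closure_sup hK))) (normalClosure_le_normal (Comp2.component_le_genFitting hK))

theorem fitting_eq_bot {K : Subgroup G} (h : Min V) (hK : IsComponent K) :
    fittingSubgroup G = ⊥ := by
  by_contra h0
  obtain ⟨v, hv, hv1, hv2⟩ := h.quo _ h0 h.inf_fitting
  set D := (pCore 2 (G ⧸ fittingSubgroup G)).comap (QuotientGroup.mk' (fittingSubgroup G)) with hD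
  have hs : Group.IsSolvable D := by
    haveI := Core.fitting_solvable (G := G)
    haveI := Core.pCore_nilpotent (G := G ⧸ fittingSubgroup G) 2
    refine Group.isSolvable_of_ker_le_range (inclusion (show fittingSubgroup G ≤ D from fun x hx => ?_))
      (((QuotientGroup.mk' _).comp D.subtype).codRestrict (pCore 2 (G ⧸ fittingSubgroup G))
        fun x => x.2) fun x hx => ?_
    · rw [hD, mem_comap, QuotientGroup.mk'_apply, (QuotientGroup.eq_one_iff x).2 hx]
      exact one_mem _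
    · exact ⟨⟨x, (QuotientGroup.eq_one_iff (x : G)).1 (congrArg Subtype.val hx)⟩, rfl⟩
  have h1 := Comp2.layer_commutator_eq_bot_of_isSolvable hs
    (le_top.trans (normalizer_eq_top D).ge)
  refine hv1 (h.eq_one hv (centralizer_le ?_ (le_centralizer_iff.1
    (LocalEven.commutator_eq_bot_iff.1 h1) hv2)))
  rw [h.genFitting_eq hK]
  exact normalClosure_le_normal (Comp2.component_le_layer hK)

theorem le_normalizer {K : Subgroup G} (h : Min V) (hK : IsComponent K) :
    V ≤ normalizer (K : Set G) := by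
  by_contra hne
  have hZ : K ⊓ centralizer (K : Set G) = ⊥ :=
    le_bot_iff.1 (h.fitting_eq_bot hK ▸ Comp2.component_inf_centralizer_le_fitting hK)
  have hcj : ∀ g : G, g ∉ normalizer (K : Set G) → cj g K ≤ centralizer (K : Set G) := fun g hg =>
    LocalEven.commutator_eq_bot_iff.1 (Comp2.component_commutator_eq_bot_of_ne
      (Comp2.component_conj hK g) hK fun h0 => hg (cj_eq_self_iff.1 h0))
  set W := V ⊓ normalizer (K : Set G) with hW
  have hW0 : W ≠ ⊥ := by
    intro h0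
    have hn : ∀ w ∈ V, w ≠ 1 → cj w K ≤ centralizer (K : Set G) := fun w hw hw1 =>
      hcj w fun h1 => hw1 (mem_bot.1 (h0 ▸ mem_inf.2 ⟨hw, h1⟩))
    obtain ⟨⟨v, hv⟩, hv1⟩ := ne_bot_iff_exists_ne_one.1 h.ne
    replace hv1 : v ≠ 1 := fun h1 => hv1 (Subtype.ext h1)
    have hvv := elemAb_two_mul_self h.ea hv
    obtain ⟨x, hx, ho, hx1⟩ : ∃ x ∈ K, Odd (orderOf x) ∧ x ≠ 1 := by
      by_contra h1
      push Not at h1
      have h2 : IsPGroup 2 K := isPGroup_of_forall_coprime fun x hx hc =>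
        h1 x hx (Nat.coprime_two_right.1 hc)
      exact Comp2.quasisimple_not_isNilpotent hK.2 h2.isNilpotent
    have hc : Commute x (v * x⁻¹ * v⁻¹) := hn v hv hv1 (conj_mem_cj (inv_mem hx)) x hx
    have hi : v * (x * (v * x⁻¹ * v⁻¹)) * v⁻¹ = (x * (v * x⁻¹ * v⁻¹))⁻¹ := by
      have e : v⁻¹ = v := inv_eq_of_mul_eq_one_right hvv
      calc v * (x * (v * x⁻¹ * v⁻¹)) * v⁻¹ = v * x * v * x⁻¹ * (v * v)⁻¹ := by group
        _ = _ := by simp only [hvv, mul_inv_rev, e, inv_inv, inv_one, mul_one, mul_assoc]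
    have hodd : Odd (orderOf (x * (v * x⁻¹ * v⁻¹))) :=
      odd_orderOf_mul ho (by rwa [Inv.orderOf_conj, orderOf_inv]) hc
    obtain ⟨w, hw, hw1, hw2⟩ := h.sid _ v hv hodd hi
    have hxc : x ∉ centralizer (K : Set G) := fun h1 => hx1 (mem_bot.1 (hZ ▸ mem_inf.2 ⟨hx, h1⟩))
    have hc2 : v * x⁻¹ * v⁻¹ ∈ centralizer (K : Set G) := hn v hv hv1 (conj_mem_cj (inv_mem hx))
    refine hxc ((mul_mem_cancel_right hc2).1 ?_)
    by_cases hwv : w * v = 1
    · rw [eq_one_of_inverts_of_commute hodd hi (by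
        rwa [(mul_eq_one_iff_eq_inv.1 hwv).trans (inv_eq_of_mul_eq_one_right hvv)] at hw2)]
      exact one_mem _
    · have := mul_mem (hn w hw hw1 (conj_mem_cj hx))
        (hn _ (mul_mem hw hv) hwv (conj_mem_cj (inv_mem hx)))
      convert this using 1
      rw [← mul_inv_eq_iff_eq_mul] at hw2
      rw [← hw2]; group
  have hS : SidkiIn W (K ⊔ W) := by
    intro x hx u hu ho hi
    by_cases hx1 : x = 1
    · obtain ⟨⟨a, ha⟩, ha1⟩ := ne_bot_iff_exists_ne_one.1 hW0
      exact ⟨a, ha, fun h0 => ha1 (Subtype.ext h0), by rw [hx1, mul_one, one_mul]⟩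
    have hxK : x ∈ K := h.mem_of_odd inf_le_left inf_le_right hx ho
    obtain ⟨w, hw, hw1, hw2⟩ := h.sid x u hu.1 ho hi
    refine ⟨w, ⟨hw, by_contra fun h1 => hx1 (mem_bot.1 (hZ ▸ mem_inf.2 ⟨hxK, hcj w h1 ?_⟩))⟩, hw1, hw2⟩
    rw [mem_cj, mul_assoc, ← hw2, inv_mul_cancel_left]
    exact hxK
  have hKW : K ⊔ W ≤ normalizer (K : Set G) := sup_le Subgroup.le_normalizer inf_le_right
  obtain ⟨w, hw, hw1, hw2⟩ := h.cent (fun h0 => hne (le_top.trans (h0.ge.trans hKW))) le_sup_right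
    inf_le_left hW0 hS le_sup_left hKW hK.1
  refine hw1 (h.eq_one hw.1 ?_)
  rw [h.genFitting_eq hK, normalClosure_eq_iSup_cj]
  refine le_centralizer_iff.1 (iSup_le fun g => ?_) (mem_zpowers w)
  obtain ⟨a, ha, b, hb, rfl⟩ := (mem_sup_iff_of_le_normalizer (H := V)
    (N := generalizedFittingSubgroup G) (le_top.trans (normalizer_eq_top _).ge)).1
    (by rw [sup_comm, h.sup_eq_top]; exact mem_top g)
  rw [cj_mul, cj_eq_of_mem_normalizer (Comp2.genFitting_le_normalizer_component hK hb)]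
  refine cj_le_of_mem ?_ (le_centralizer_iff.1 (zpowers_le.2 hw2))
  rw [centralizer_zpowers]
  exact mem_centralizer_singleton.2 (elemAb_comm h.ea hw.1 ha)

end Min

/-- Minimal counterexample reduction for the Sidki pair problem. Let G be a finite group and V a nontrivial elementary abelian 2-subgroup satisfying the Sidki pair condition with V ∩ O₂(G) = 1. Suppose that for every finite group H of smaller order, every nontrivial elementary abelian 2-subgroup W of H satisfying the Sidki pair condition meets O₂(H) nontrivially, and that the same holds in G for every such subgroup W of order smaller than that of V. Then the generalized Fitting subgroup F*(G) is a non-abelian simple group and G = V F*(G). -/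
theorem result {G : Type u} [Group G] [Finite G] (V : Subgroup G) (hV : Cfsg.IsElementaryAbelian 2 V) (hV1 : V ≠ ⊥) (hS : Cfsg.IsSidkiPair V) (hVO : V ⊓ Cfsg.pCore 2 G = ⊥) (hminG : ∀ (H : Type u) [Group H] [Finite H] (W : Subgroup H), Nat.card H < Nat.card G → Cfsg.IsElementaryAbelian 2 W → W ≠ ⊥ → Cfsg.IsSidkiPair W → W ⊓ Cfsg.pCore 2 H ≠ ⊥) (hminV : ∀ W : Subgroup G, Nat.card W < Nat.card V → Cfsg.IsElementaryAbelian 2 W → W ≠ ⊥ → Cfsg.IsSidkiPair W → W ⊓ Cfsg.pCore 2 G ≠ ⊥) : IsSimpleGroup ↥(Cfsg.generalizedFittingSubgroup G) ∧ ¬ IsMulCommutative ↥(Cfsg.generalizedFittingSubgroup G) ∧ V ⊔ Cfsg.generalizedFittingSubgroup G = ⊤ := by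
  have hquo : ∀ (N : Subgroup G) [N.Normal], N ≠ ⊥ → V ⊓ N = ⊥ →
      ∃ v ∈ V, v ≠ 1 ∧ v ∈ (pCore 2 (G ⧸ N)).comap (QuotientGroup.mk' N) := by
    intro N _ hN hVN
    have h1 := hminG (G ⧸ N) (V.map (QuotientGroup.mk' N)) (by
      rw [card_eq_card_quotient_mul_card_subgroup N]
      exact lt_mul_of_one_lt_right Nat.card_pos ((one_lt_card_iff_ne_bot N).2 hN))
      (elemAb_map hV _) (fun h0 => hV1 (by
        rw [Subgroup.map_eq_bot_iff, QuotientGroup.ker_mk'] at h0
        rw [← hVN, inf_eq_left.2 h0]))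
      (sidki_map _ (QuotientGroup.mk'_surjective N) hV hS (by rwa [QuotientGroup.ker_mk']))
    obtain ⟨⟨_, ⟨v, hv, rfl⟩, h2⟩, h3⟩ := ne_bot_iff_exists_ne_one.1 h1
    exact ⟨v, hv, fun h0 => h3 (Subtype.ext (by simp [h0])), h2⟩
  have hO : pCore 2 G = ⊥ := by
    by_contra h0
    obtain ⟨v, hv, hv1, hv2⟩ := hquo _ h0 hVO
    rw [comap_pCore_quotient _ isPGroup_pCore] at hv2
    exact hv1 (mem_bot.1 (hVO ▸ mem_inf.2 ⟨hv, hv2⟩))
  have h : Min V := by
    refine ⟨hV, hV1, hS, hO, fun H W hH h1 h2 h3 h4 h0 => ?_, hquo⟩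
    refine hminG H (W.subgroupOf H) (by
      rw [← H.card_mul_index]
      exact lt_mul_of_one_lt_right Nat.card_pos (one_lt_index_of_ne_top hH)) (elemAb_subgroupOf (elemAb_of_le hV h2) H)
      (fun h5 => h3 (by rw [← map_subgroupOf_eq_of_le h1, h5, Subgroup.map_bot]))
      (h4.subgroupOf h1) ?_
    rw [← pCoreOf_subgroupOf, subgroupOf, subgroupOf, ← comap_inf, h0]
    exact bot_subgroupOf H
  obtain ⟨K, hK⟩ : ∃ K : Subgroup G, IsComponent K := by
    by_contra h0
    exact h.layer_ne_bot (Comp2.layer_eq_bot_iff.2 fun K hK => h0 ⟨K, hK⟩)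
  haveI : K.Normal := normalizer_eq_top_iff.1 (eq_top_iff.2 (h.sup_eq_top.ge.trans
    (sup_le (Comp2.genFitting_le_normalizer_component hK) (h.le_normalizer hK))))
  have hF : generalizedFittingSubgroup G = K := by rw [h.genFitting_eq hK, normalClosure_eq_self]
  refine ⟨?_, ?_, by rw [sup_comm, h.sup_eq_top]⟩
  · rw [hF]
    refine Comp2.isSimpleGroup_of_quasisimple hK.2 ?_
    have := Comp2.component_inf_centralizer_le_fitting hK
    rw [h.fitting_eq_bot hK, ← center_map_subtype, le_bot_iff] at this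
    exact (Subgroup.map_eq_bot_iff_of_injective _ (subtype_injective _)).1 this
  · rw [hF]; exact Comp2.quasisimple_not_isMulCommutative hK.2

end Cfsg.Agent.S3048
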