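import Mathlib
import Cfsg.Statements.S3049
import Cfsg.Agent.Comp2.PComponent
import Cfsg.Agent.Comp2.MinNormal
import Cfsg.Agent.LocalEven.Iso
import Cfsg.Agent.Transfer.Frobenius
import Cfsg.Agent.PGrp.Critical
import Cfsg.Agent.BG.AmbCore
import Cfsg.Agent.BG.Rank

set_option autoImplicit false
open Cfsg

namespace Cfsg.Agent.S3049

open Cfsg.Agent.Comp2

open Subgroup Cfsg.Agent.BG Cfsg.Agent.LocalEven
open scoped commutatorElement Pointwise

theorem npc_of_central {H : Type*} [Group H] [Finite H] {p : ℕ} [hp : Fact p.Prime] (hp2 : p ≠ 2)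
    (hrank : PRankLE p 2 H) {x z : H} (hx : orderOf x = p) (hiso : IsIsolated x) (hz : orderOf z = p)
    (hzc : ∀ g : H, g * z = z * g) (hxz : x ∉ zpowers z) : HasNormalPComplement p H := by
  have hX : Nat.card (zpowers x) = p := by rw [Nat.card_zpowers, hx]
  have hZ : Nat.card (zpowers z) = p := by rw [Nat.card_zpowers, hz]
  obtain ⟨P, hP⟩ := (Rank.isPGroup_of_card_prime hX).exists_le_sylow
  have hzn : (zpowers z).Normal := ⟨fun a ha g => by
    obtain ⟨k, rfl⟩ := mem_zpowers_iff.1 ha
    rw [((Commute.zpow_right (hzc g) k).eq), mul_inv_cancel_right]; exact ha⟩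
  have hZP : zpowers z ≤ P := normal_le_sylow hzn (Rank.isPGroup_of_card_prime hZ) P
  have hPx := iso_le_centralizer hiso P.isPGroup' (hP (mem_zpowers x))
  have hzx : zpowers z ≤ 𝐂(zpowers x) := by
    rw [Amb.cent_zpowers]; exact hZP.trans hPx
  have hE : IsElementaryAbelian p (zpowers z ⊔ zpowers x : Subgroup H) :=
    Rank.elem_sup (Rank.elem_of_card_prime hZ) (Rank.elem_of_card_prime hX) hzx
  have hd : zpowers z ⊓ zpowers x = ⊥ := by
    rw [inf_comm]; exact Rank.inf_eq_bot_of_card_prime hX fun h => hxz (h (mem_zpowers x))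
  have hc : Nat.card (zpowers z ⊔ zpowers x : Subgroup H) = p ^ 2 := by
    have := Core.card_sup_mul_card_inf (N := zpowers z) (H := zpowers x) le_normalizer_of_normal
    rw [hd, card_bot, hX, hZ] at this
    rw [sq, ← this, mul_one]
  have hPc : (P : Subgroup H) ≤ 𝐂(zpowers z ⊔ zpowers x) := by
    rw [Amb.cent_sup, Amb.cent_zpowers, Amb.cent_zpowers]
    exact le_inf (fun g _ => Amb.mem_cent1.2 (hzc g)) hPx
  have key : ∀ v ∈ (P : Subgroup H), v ^ p = 1 → v ∈ zpowers z ⊔ zpowers x := by
    intro v hv hvp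
    have h1 : IsElementaryAbelian p (zpowers v ⊔ (zpowers z ⊔ zpowers x) : Subgroup H) :=
      Rank.elem_sup (Rank.elem_zpowers hvp) hE (((zpowers_le).2 hv).trans hPc)
    have h2 := eq_of_le_of_card_ge (le_sup_right : zpowers z ⊔ zpowers x ≤ zpowers v ⊔ _)
      (hc ▸ Rank.pRankLE_iff'.1 hrank _ h1)
    rw [h2]; exact (le_sup_left : zpowers v ≤ _) (mem_zpowers v)
  refine Transfer.hasNormalPComplement_of_forall_le_sylow' P fun Q hQ _ g hg hgo => ?_
  refine PGrp.mem_centralizer_of_fix_pow_eq_one hp2 (P.isPGroup'.to_le hQ) hg hgo fun v hv hvp => ?_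
  obtain ⟨a, ha, b, hb, rfl⟩ := mem_sup_of_le_normalizer' le_normalizer_of_normal (key v (hQ hv) hvp)
  have hga : g * a = a * g := by
    obtain ⟨k, rfl⟩ := mem_zpowers_iff.1 ha
    exact (Commute.zpow_right (hzc g) k).eq
  have h1 : g * (a * b) * g⁻¹ = a * (g * b * g⁻¹) := by rw [← mul_assoc, hga]; group
  have h2 : g * b * g⁻¹ ∈ (P : Subgroup H) := by
    have := hQ ((mem_normalizer_iff.1 hg _).1 hv)
    rw [h1] at this
    exact (mul_mem_cancel_left (hZP ha)).1 this
  rw [iso_pow_eq hiso P.isPGroup' (hP (mem_zpowers x)) hb h2] at h1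
  exact (mul_inv_eq_iff_eq_mul.1 h1).symm

/-- Let G be a finite group and p an odd prime with O_{p'}(G) = 1. Suppose that G has p-rank at most 2 (no elementary abelian subgroup of order p³) and that some element x of order p is isolated in G (no G-conjugate of x other than x commutes with x) and not central. Then the generalized Fitting subgroup F*(G) is a non-abelian simple group. Since O_{p'}(G) = 1, such an x is not central modulo O_{p'}(G): the hypotheses describe a counterexample to the Z*_p statement in p-rank at most 2. -/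
theorem result {G : Type*} [Group G] [Finite G] {p : ℕ} [Fact p.Prime] (hp : p ≠ 2) (hcore : Cfsg.pPrimeCore p G = ⊥)
    (hrank : Cfsg.PRankLE p 2 G) (x : G) (hx : orderOf x = p) (hiso : Cfsg.IsIsolated x) (hnc : x ∉ Subgroup.center G) :
    IsSimpleGroup ↥(Cfsg.generalizedFittingSubgroup G) ∧ ¬ IsMulCommutative ↥(Cfsg.generalizedFittingSubgroup G) := by
  have hX : Nat.card (zpowers x) = p := by rw [Nat.card_zpowers, hx]
  have hXp := Rank.isPGroup_of_card_prime hX
  have hF := fitting_eq_pCore_of_pPrimeCore_eq_bot p hcore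
  have hO : pCore p G ≤ 𝐂[x] :=
    iso_le_centralizer_of_normalizes hiso hXp (pCore_isPGroup p) (le_normalizer_of_normal (mem_top x))
  obtain ⟨K, hK, hKx⟩ : ∃ K : Subgroup G, IsComponent K ∧ ¬ K ≤ 𝐂[x] := by
    by_contra hcon
    push Not at hcon
    have h1 : generalizedFittingSubgroup G ≤ 𝐂[x] := sup_le (layer_le_iff.2 hcon) (hF ▸ hO)
    have h2 : x ∈ pCore p G := hF ▸ centralizer_genFitting_le_fitting (Amb.le_cent1_iff.1 h1)
    have h3 := iso_normalizer_le hiso (pCore_isPGroup p) h2
    exact hnc (mem_center_iff.2 fun g => Amb.mem_cent1.1 (h3 (le_normalizer_of_normal (mem_top g))))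
  have hdK : ∀ {L : Subgroup G}, IsComponent L → p ∣ Nat.card L := fun hL =>
    dvd_card_of_subnormal_of_pPrimeCore_eq_bot hcore hL.1 (component_ne_bot hL)
  have hxK : x ∈ 𝐍(K) := by
    by_contra hcon
    have hne : K ≠ MulAut.conj x • K := fun e => hcon (Amb.mem_normalizer_iff_conj.2 e.symm)
    have hc := component_commutator_eq_bot_of_ne hK (component_conj hK x) hne
    obtain ⟨P, hP⟩ := hXp.exists_le_sylow
    have hPx := iso_le_centralizer hiso P.isPGroup' (hP (mem_zpowers x))
    have h1 : (P : Subgroup G) ⊓ K ≤ 𝐂(K) ⊓ K := fun y hy =>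
      ⟨Amb.le_cent_iff_comm_eq_bot'.2 hc (Amb.mem_conj'.2 ⟨y, hy.2, by
        rw [← Amb.mem_cent1.1 (hPx hy.1), mul_inv_cancel_right]⟩), hy.2⟩
    have h2 := (sylow_inf_subnormal P hK.1).not_dvd_of_le h1
    haveI := quasisimple_isPerfect hK.2
    rw [inf_relIndex_right, relIndex_centralizer_self] at h2
    exact h2 (dvd_index_center_of_perfect Fact.out (hdK hK))
  have hC : ¬ p ∣ Nat.card 𝐂(K) := by
    intro hd
    obtain ⟨P, hP, hxP⟩ := exists_isSylowIn_le (H := 𝐍(K)) hXp ((zpowers_le).2 hxK)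
    have hR := hP.inf_of_le_normalizer (Amb.cent_le_norm K) (Amb.norm_le_norm_cent K)
    obtain ⟨z, hz, hzo⟩ := exists_mem_orderOf_eq_of_ne_bot hR.pgrp (hR.ne_bot hd)
    have hzx : z ∈ 𝐂[x] := iso_le_centralizer hiso hP.pgrp (hxP (mem_zpowers x)) hz.1
    have hxH : x ∈ 𝐂[z] := Amb.mem_cent1_comm.1 hzx
    have h1 := npc_of_central (H := 𝐂[z]) hp (Rank.pRankLE_subgroup hrank _) (x := ⟨x, hxH⟩)
      (z := ⟨z, Amb.mem_cent1_self z⟩) (by rw [Subgroup.orderOf_mk, hx]) (iso_subgroup hiso hxH)
      (by rw [Subgroup.orderOf_mk, hzo]) (fun g => Subtype.ext (Amb.mem_cent1.1 g.2)) (fun h => hKx (by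
        obtain ⟨k, hk⟩ := mem_zpowers_iff.1 h
        have : z ^ k = x := congrArg Subtype.val hk
        exact Amb.le_cent1_iff.2 (this ▸ (𝐂(K)).zpow_mem hz.2 k)))
    have h2 := Transfer.hasNormalPComplement_of_le (Amb.le_cent1_iff.2 hz.2) h1
    rw [Transfer.hasNormalPComplement_iff_not_dvd] at h2
    haveI := quasisimple_isPerfect hK.2
    have h3 : pResidual p K = ⊤ := by
      haveI := (Transfer.isPGroup_quotient_pResidual (G := K) (p := p)).isNilpotent
      exact top_le_iff.1 (le_of_perfect_of_isSolvable_quotient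
        (Group.IsPerfect.commutator_eq_top (G := K)) inferInstance)
    rw [h3, card_top] at h2
    exact h2 (hdK hK)
  have hO1 : fittingSubgroup G = ⊥ := by
    rw [hF]
    exact eq_bot_of_not_dvd (pCore_isPGroup p)
      (hF ▸ Amb.le_cent_iff_comm_eq_bot'.2 (component_commutator_fitting hK)) hC
  have hE : generalizedFittingSubgroup G = K := by
    rw [genFitting_eq_layer_of_fitting_eq_bot hO1]
    refine le_antisymm (layer_le_iff.2 fun L hL => ?_) (component_le_layer hK)
    by_contra hne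
    exact hC ((hdK hL).trans (card_dvd_of_le (Amb.le_cent_iff_comm_eq_bot.2
      (component_commutator_eq_bot_of_ne hL hK fun e => hne e.le))))
  rw [hE]
  refine ⟨isSimpleGroup_of_quasisimple hK.2 ?_, quasisimple_not_isMulCommutative hK.2⟩
  rw [← Subgroup.map_eq_bot_iff_of_injective _ K.subtype_injective, map_center_subtype, eq_bot_iff, ← hO1]
  exact component_inf_centralizer_le_fitting hK

end Cfsg.Agent.S3049
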