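import Mathlib
import Cfsg.Statements.S3053
import Cfsg.Agent.LocalEven.SylowIn
import Cfsg.Agent.PGrp.Comm

set_option autoImplicit false
open Cfsg

namespace Cfsg.Agent.S3053

open Cfsg.Agent.LocalEven

open Subgroup
open scoped commutatorElement

section
variable {E : Type*} [Group E] [Finite E] {p : ℕ} [hp : Fact p.Prime]

theorem center_eq (hE : IsExtraspecial p E) {z : E} (hz : z ∈ center E) (h1 : z ≠ 1) :
    center E = zpowers z ∧ z ^ p = 1 := by
  have hc := hE.2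
  have h2 : (⟨z, hz⟩ : center E) ^ p = 1 := by rw [← hc]; exact pow_card_eq_one'
  have h3 : z ^ p = 1 := congrArg Subtype.val h2
  have h4 : orderOf z = p := orderOf_eq_prime h3 h1
  refine ⟨(eq_of_le_of_card_ge (zpowers_le.2 hz) ?_).symm, h3⟩
  rw [hc, Nat.card_zpowers, h4]

theorem exists_conj (hE : IsExtraspecial p E) {z b : E} (hz : z ∈ center E) (hb : b ∉ center E) :
    ∃ u : E, u * b * u⁻¹ = b * z := by
  obtain ⟨u, hu⟩ : ∃ u, u * b ≠ b * u := by
    by_contra h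
    push Not at h
    exact hb (mem_center_iff.2 h)
  have hle : _root_.commutator E ≤ center E := hE.1.2.2.le
  have hc : ⁅u, b⁆ ∈ center E := hle (commutator_mem_commutator (mem_top u) (mem_top b))
  have h1 : ⁅u, b⁆ ≠ 1 := fun h => hu (commutatorElement_eq_one_iff_mul_comm.1 h)
  rw [(center_eq hE hc h1).1] at hz
  obtain ⟨n, rfl⟩ := hz
  refine ⟨u ^ n, ?_⟩
  rw [PGrp.conj_eq_commutator_mul, PGrp.commutator_zpow_left_of_commute
    (PGrp.commute_of_commutator_le_center hle u b u)]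
  exact ((PGrp.commute_of_commutator_le_center hle u b b).zpow_right n).eq.symm

theorem mul_pow_ex (hE : IsExtraspecial p E) (h2 : p ≠ 2) (x y : E) :
    (x * y) ^ p = x ^ p * y ^ p := by
  have hle : _root_.commutator E ≤ center E := hE.1.2.2.le
  refine PGrp.mul_pow_of_commute_of_odd (hp.out.odd_of_ne_two h2)
    (PGrp.commute_of_commutator_le_center hle _ _ _)
    (PGrp.commute_of_commutator_le_center hle _ _ _) ?_
  have hc : ⁅y, x⁆ ∈ center E := hle (commutator_mem_commutator (mem_top y) (mem_top x))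
  by_cases h1 : ⁅y, x⁆ = 1
  · rw [h1, one_pow]
  · exact (center_eq hE hc h1).2

theorem commute_iff (hE : IsExtraspecial p E) (h2 : p ≠ 2) (hcard : Nat.card E = p ^ 3)
    (hexp : Monoid.exponent E = p ^ 2) {y : E} (hy : y ∉ center E) (hyp : y ^ p = 1) (x : E) :
    x * y = y * x ↔ x ^ p = 1 := by
  let f : E →* E := MonoidHom.mk' (fun x => x ^ p) (mul_pow_ex hE h2)
  have hr : f.range ≤ center E := by
    rintro _ ⟨x, rfl⟩
    rw [← hE.1.2.1]
    exact PGrp.pow_mem_frattini hE.1.1 x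
  have h1 : Nat.card f.range ≤ p := hE.2 ▸ card_le_of_le hr
  have h3 : Nat.card f.ker * Nat.card f.range = p ^ 3 := by
    rw [← hcard, ← f.ker.card_mul_index, index_ker]
  have hpos := hp.out.pos
  have h4 : p ^ 2 ≤ Nat.card f.ker := by
    have : p ^ 2 * p ≤ Nat.card f.ker * p := by
      calc p ^ 2 * p = p ^ 3 := by ring
        _ = Nat.card f.ker * Nat.card f.range := h3.symm
        _ ≤ _ := Nat.mul_le_mul_left _ h1
    exact Nat.le_of_mul_le_mul_right this hpos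
  have hlt : ∀ H : Subgroup E, H ≠ ⊤ → Nat.card H ≤ p ^ 2 := fun H hH => by
    have hd : Nat.card H ∣ p ^ 3 := hcard ▸ H.card_subgroup_dvd_card
    obtain ⟨k, hk, hk'⟩ := (Nat.dvd_prime_pow hp.out).1 hd
    have : k ≠ 3 := by
      rintro rfl
      exact hH ((card_eq_iff_eq_top H).1 (by rw [hk', hcard]))
    rw [hk']
    exact Nat.pow_le_pow_right hpos (by omega)
  have hK : f.ker ≠ ⊤ := fun h => by
    have : Monoid.exponent E ∣ p := Monoid.exponent_dvd_of_forall_pow_eq_one fun g =>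
      (show g ∈ f.ker from h ▸ mem_top g)
    rw [hexp] at this
    have h5 := Nat.le_of_dvd hpos this
    have h6 := hp.out.one_lt
    nlinarith
  have hKc : Nat.card f.ker = p ^ 2 := le_antisymm (hlt _ hK) h4
  have hcomm : ∀ a b : f.ker, a * b = b * a := IsPGroup.commutative_of_card_eq_prime_sq hKc
  have hle : f.ker ≤ centralizer {y} := fun a ha => mem_centralizer_singleton_iff.2
    (congrArg Subtype.val (hcomm ⟨a, ha⟩ ⟨y, hyp⟩))
  have hC : centralizer {y} ≠ (⊤ : Subgroup E) := fun h => hy (mem_center_iff.2 fun g =>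
    mem_centralizer_singleton_iff.1 (show g ∈ centralizer {y} from h ▸ mem_top g))
  have heq : f.ker = centralizer {y} := eq_of_le_of_card_ge hle (hKc ▸ hlt _ hC)
  rw [← mem_centralizer_singleton_iff, ← heq]
  rfl

end

/-- Let p be an odd prime and G a finite group with a Sylow p-subgroup P that is extraspecial of order p³ and exponent p². Then the centre of P is strongly closed in P with respect to G: a G-conjugate of an element of Z(P) that lies in P already lies in Z(P). In particular a nontrivial central element of P is conjugate in G to no noncentral element of P. -/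
theorem result {G : Type*} [Group G] [Finite G]
    {p : ℕ} [Fact p.Prime] (hp : p ≠ 2) (P : Sylow p G) (hE : Cfsg.IsExtraspecial p ↥P)
    (hcard : Nat.card P = p ^ 3) (hexp : Monoid.exponent ↥P = p ^ 2) :
    Cfsg.IsStronglyClosed ((Subgroup.center ↥P).map (P : Subgroup G).subtype) (P : Subgroup G) := by
  replace hE : IsExtraspecial p ↥(P : Subgroup G) := hE
  replace hexp : Monoid.exponent ↥(P : Subgroup G) = p ^ 2 := hexp
  change IsStronglyClosed ((center ↥(P : Subgroup G)).map (P : Subgroup G).subtype) (P : Subgroup G)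
  refine ⟨map_subtype_le _, ?_⟩
  rintro _ ⟨z', hz', rfl⟩ g hy
  by_contra hn
  have hz1 : z' ≠ 1 := by
    rintro rfl
    exact hn (by simp)
  obtain ⟨hZ, hzp⟩ := center_eq hE hz' hz1
  set z : G := (z' : G) with hzdef
  change g * z * g⁻¹ ∈ (P : Subgroup G) at hy
  change g * z * g⁻¹ ∉ _ at hn
  set y := g * z * g⁻¹ with hydef
  have hzP : z ∈ (P : Subgroup G) := z'.2
  have hzc : ∀ x ∈ (P : Subgroup G), x * z = z * x := fun x hx =>
    congrArg Subtype.val (mem_center_iff.1 hz' ⟨x, hx⟩)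
  have hy' : (⟨y, hy⟩ : (P : Subgroup G)) ∉ center (P : Subgroup G) := fun h => hn ⟨_, h, rfl⟩
  have hzp' : z ^ p = 1 := congrArg Subtype.val hzp
  have hyp : y ^ p = 1 := by rw [hydef, conj_pow, hzp']; group
  have hyz : y * z = z * y := hzc y hy
  have hcen : ∀ x (hx : x ∈ (P : Subgroup G)), (⟨x, hx⟩ : (P : Subgroup G)) ∈ center (P : Subgroup G) → x ∈ zpowers z :=
    fun x hx h => by
      rw [hZ] at h
      obtain ⟨n, hn⟩ := h
      exact ⟨n, congrArg Subtype.val hn⟩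
  obtain ⟨u', hu'⟩ := exists_conj hE hz' hy'
  set u : G := (u' : G) with hudef
  have huP : u ∈ (P : Subgroup G) := u'.2
  have hu : u * y * u⁻¹ = y * z := congrArg Subtype.val hu'
  have huz : u * z * u⁻¹ = z := by rw [hzc u huP]; group
  -- the element v
  obtain ⟨v, hvy, hvz⟩ : ∃ v : G, v * y * v⁻¹ = y ∧ v * z * v⁻¹ = z * y⁻¹ := by
    have hPC : (P : Subgroup G) ≤ centralizer {z} := fun x hx =>
      mem_centralizer_singleton_iff.2 (hzc x hx)
    have hS : IsSylowIn p (cj g (P : Subgroup G)) (centralizer {y}) := by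
      have := (isSylowIn_of_sylow_le P hPC).cj g
      rwa [cj_centralizer_singleton] at this
    obtain ⟨c, hc, hcz⟩ := hS.exists_conj_mem (x := z)
      (mem_centralizer_singleton_iff.2 hyz.symm) (k := 1) (by rw [pow_one, hzp'])
    have hcy : c * y = y * c := mem_centralizer_singleton_iff.1 hc
    have hb : g⁻¹ * (c * z * c⁻¹) * g ∈ (P : Subgroup G) := mem_cj.1 hcz
    have hb' : (⟨_, hb⟩ : (P : Subgroup G)) ∉ center (P : Subgroup G) := fun h => by
      obtain ⟨n, hn'⟩ := hcen _ _ h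
      have h1 : z = y ^ n := by
        have h2 : z ^ n = g⁻¹ * (c * z * c⁻¹) * g := hn'
        have h3 : y ^ n = c * z * c⁻¹ := by rw [hydef, conj_zpow, h2]; group
        have h4 : c⁻¹ * y ^ n * c = y ^ n := by
          rw [mul_assoc, ← (Commute.zpow_right (show Commute c y from hcy) n).eq]; group
        rw [← h4, h3]; group
      have h5 : zpowers z ≤ zpowers y := zpowers_le.2 ⟨n, h1.symm⟩
      have h6 : zpowers z = zpowers y := eq_of_le_of_card_ge h5 (by
        rw [hydef, ← cj_zpowers, card_cj])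
      have h7 : y ∈ zpowers z := h6 ▸ mem_zpowers y
      obtain ⟨m, hm⟩ := h7
      apply hy'
      rw [hZ]
      exact ⟨m, Subtype.ext hm⟩
    obtain ⟨w, hw⟩ := exists_conj hE (inv_mem hz') hb'
    have hw' : (w : G) * (g⁻¹ * (c * z * c⁻¹) * g) * (w : G)⁻¹ =
      (g⁻¹ * (c * z * c⁻¹) * g) * z⁻¹ := congrArg Subtype.val hw
    have hwz : (w : G) * z * (w : G)⁻¹ = z := by rw [hzc w w.2]; group
    have hcy' : c⁻¹ * y * c = y := by rw [mul_assoc, ← hcy]; group
    refine ⟨c⁻¹ * g * w * g⁻¹ * c, ?_, ?_⟩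
    · calc c⁻¹ * g * w * g⁻¹ * c * y * (c⁻¹ * g * w * g⁻¹ * c)⁻¹
          = c⁻¹ * g * (w * (g⁻¹ * (c * y * c⁻¹) * g) * (w : G)⁻¹) * g⁻¹ * c := by group
        _ = c⁻¹ * g * (w * z * (w : G)⁻¹) * g⁻¹ * c := by
          rw [hcy, hydef]; congr 3; group
        _ = y := by rw [hwz, ← hcy', hydef]; group
    · calc c⁻¹ * g * w * g⁻¹ * c * z * (c⁻¹ * g * w * g⁻¹ * c)⁻¹
          = c⁻¹ * g * (w * (g⁻¹ * (c * z * c⁻¹) * g) * (w : G)⁻¹) * g⁻¹ * c := by group
        _ = z * (c⁻¹ * y * c)⁻¹ := by rw [hw', hydef]; group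
        _ = _ := by rw [hcy']
  have hw1 : (u * v * u) * z * (u * v * u)⁻¹ = y⁻¹ := by
    calc (u * v * u) * z * (u * v * u)⁻¹ = u * (v * (u * z * u⁻¹) * v⁻¹) * u⁻¹ := by group
      _ = u * (z * y⁻¹) * u⁻¹ := by rw [huz, hvz]
      _ = (u * z * u⁻¹) * (u * y * u⁻¹)⁻¹ := by group
      _ = y⁻¹ := by rw [huz, hu, hyz, ← hyz, mul_inv_rev]; group
  have hw2 : (u * v * u) * y * (u * v * u)⁻¹ = z := by
    calc (u * v * u) * y * (u * v * u)⁻¹ = u * (v * (u * y * u⁻¹) * v⁻¹) * u⁻¹ := by group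
      _ = u * ((v * y * v⁻¹) * (v * z * v⁻¹)) * u⁻¹ := by rw [hu]; group
      _ = u * z * u⁻¹ := by rw [hvy, hvz, ← mul_assoc y, hyz]; group
      _ = z := huz
  set t := (u * v * u) * (u * v * u) with ht
  have htz : t * z * t⁻¹ = z⁻¹ := by
    calc t * z * t⁻¹ = (u * v * u) * ((u * v * u) * z * (u * v * u)⁻¹) * (u * v * u)⁻¹ := by
          rw [ht]; group
      _ = ((u * v * u) * y * (u * v * u)⁻¹)⁻¹ := by rw [hw1]; group
      _ = _ := by rw [hw2]
  have hty : t * y * t⁻¹ = y⁻¹ := by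
    calc t * y * t⁻¹ = (u * v * u) * ((u * v * u) * y * (u * v * u)⁻¹) * (u * v * u)⁻¹ := by
          rw [ht]; group
      _ = _ := by rw [hw2, hw1]
  clear_value t
  let H : Subgroup G :=
    { carrier := {h | h * z * h⁻¹ = z ∧ ∃ n : ℤ, h * y * h⁻¹ = y * z ^ n}
      one_mem' := ⟨by group, 0, by group⟩
      mul_mem' := by
        rintro a b ⟨ha, m, hm⟩ ⟨hb, n, hn⟩
        refine ⟨?_, m + n, ?_⟩
        · calc a * b * z * (a * b)⁻¹ = a * (b * z * b⁻¹) * a⁻¹ := by group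
            _ = z := by rw [hb, ha]
        · calc a * b * y * (a * b)⁻¹ = a * (b * y * b⁻¹) * a⁻¹ := by group
            _ = (a * y * a⁻¹) * (a * z * a⁻¹) ^ n := by rw [hn, conj_zpow]; group
            _ = _ := by rw [hm, ha]; group
      inv_mem' := by
        rintro a ⟨ha, m, hm⟩
        have h1 : a⁻¹ * z * a⁻¹⁻¹ = z := by
          nth_rewrite 1 [← ha]; group
        refine ⟨h1, -m, ?_⟩
        calc a⁻¹ * y * a⁻¹⁻¹ = a⁻¹ * (y * z ^ m) * a⁻¹⁻¹ * (a⁻¹ * z * a⁻¹⁻¹) ^ (-m) := by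
              rw [conj_zpow]; group
          _ = _ := by rw [← hm, h1]; group }
  have hPH : (P : Subgroup G) ≤ H := fun x hx => by
    refine ⟨by rw [hzc x hx]; group, ?_⟩
    have hc : ⁅(⟨x, hx⟩ : (P : Subgroup G)), ⟨y, hy⟩⁆ ∈ center (P : Subgroup G) :=
      hE.1.2.2.le (commutator_mem_commutator (mem_top _) (mem_top _))
    obtain ⟨n, hn⟩ := hcen _ _ hc
    refine ⟨n, ?_⟩
    have h1 : z ^ n = ⁅x, y⁆ := hn
    rw [PGrp.conj_eq_commutator_mul, ← h1]
    exact ((show Commute y z from hyz).zpow_right n).eq.symm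
  have htH : t ∈ normalizer (H : Set G) := mem_normalizer_of_cj_le (cj_le_iff'.2 (by
    rintro a ⟨ha, m, hm⟩
    have h1 : t⁻¹ * z * t = z⁻¹ := by
      have : t⁻¹ * z * t = t⁻¹ * (t * z * t⁻¹)⁻¹ * t := by rw [htz, inv_inv]
      rw [this]; group
    have h2 : t⁻¹ * y * t = y⁻¹ := by
      have : t⁻¹ * y * t = t⁻¹ * (t * y * t⁻¹)⁻¹ * t := by rw [hty, inv_inv]
      rw [this]; group
    refine ⟨?_, m, ?_⟩
    · calc t * a * t⁻¹ * z * (t * a * t⁻¹)⁻¹ = t * (a * (t⁻¹ * z * t) * a⁻¹) * t⁻¹ := by group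
        _ = t * (a * z * a⁻¹)⁻¹ * t⁻¹ := by rw [h1]; group
        _ = (t * z * t⁻¹)⁻¹ := by rw [ha]; group
        _ = z := by rw [htz, inv_inv]
    · calc t * a * t⁻¹ * y * (t * a * t⁻¹)⁻¹ = t * (a * (t⁻¹ * y * t) * a⁻¹) * t⁻¹ := by group
        _ = t * (a * y * a⁻¹)⁻¹ * t⁻¹ := by rw [h2]; group
        _ = ((t * y * t⁻¹) * (t * z * t⁻¹) ^ m)⁻¹ := by rw [hm, conj_zpow]; group
        _ = z ^ m * y := by rw [htz, hty]; group
        _ = _ := ((show Commute y z from hyz).zpow_right m).eq.symm))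
  obtain ⟨h, ⟨hhz, m, hhy⟩, s, hs, hts⟩ := (isSylowIn_of_sylow_le P hPH).frattini htH
  have hsz : s * z * s⁻¹ = z⁻¹ := by
    have h1 : h * (s * z * s⁻¹) * h⁻¹ = h * z⁻¹ * h⁻¹ := by
      calc h * (s * z * s⁻¹) * h⁻¹ = t * z * t⁻¹ := by rw [hts]; group
        _ = (h * z * h⁻¹)⁻¹ := by rw [htz, hhz]
        _ = _ := by group
    simpa using h1
  have hsy : s * y * s⁻¹ = z ^ m * y⁻¹ := by
    have h1 : h * (s * y * s⁻¹) * h⁻¹ = h * (z ^ m * y⁻¹) * h⁻¹ := by
      calc h * (s * y * s⁻¹) * h⁻¹ = t * y * t⁻¹ := by rw [hts]; group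
        _ = (h * z * h⁻¹) ^ m * (h * y * h⁻¹)⁻¹ := by rw [hty, hhz, hhy]; group
        _ = _ := by rw [conj_zpow]; group
    simpa using h1
  have hu2P : s * u * s⁻¹ ∈ (P : Subgroup G) := conj_mem_of_mem_normalizer hs huP
  have hu2z : (s * u * s⁻¹) * z * (s * u * s⁻¹)⁻¹ = z := by rw [hzc _ hu2P]; group
  have hu2 : (s * u * s⁻¹) * y * (s * u * s⁻¹)⁻¹ = y * z := by
    have h1 : (s * u * s⁻¹) * (s * y * s⁻¹) * (s * u * s⁻¹)⁻¹ = (s * y * s⁻¹) * (s * z * s⁻¹) := by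
      calc _ = s * (u * y * u⁻¹) * s⁻¹ := by group
        _ = _ := by rw [hu]; group
    rw [hsy, hsz] at h1
    have h2 : ((s * u * s⁻¹) * z * (s * u * s⁻¹)⁻¹) ^ m *
        ((s * u * s⁻¹) * y * (s * u * s⁻¹)⁻¹)⁻¹ = z ^ m * y⁻¹ * z⁻¹ := by
      rw [← h1, conj_zpow]; group
    rw [hu2z, mul_assoc (z ^ m), mul_left_cancel_iff] at h2
    rw [← inv_inv (_ * y * _), h2, hyz]; group
  have he : (u'⁻¹ * ⟨_, hu2P⟩) * ⟨y, hy⟩ = ⟨y, hy⟩ * (u'⁻¹ * ⟨_, hu2P⟩) := Subtype.ext (by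
    show (u⁻¹ * (s * u * s⁻¹)) * y = y * (u⁻¹ * (s * u * s⁻¹))
    calc (u⁻¹ * (s * u * s⁻¹)) * y
        = u⁻¹ * ((s * u * s⁻¹) * y * (s * u * s⁻¹)⁻¹) * (s * u * s⁻¹) := by group
      _ = _ := by rw [hu2, ← hu]; group)
  have hyp' : (⟨y, hy⟩ : (P : Subgroup G)) ^ p = 1 := Subtype.ext hyp
  rw [commute_iff hE hp hcard hexp hy' hyp', mul_pow_ex hE hp, inv_pow, inv_mul_eq_one] at he
  have he' : u ^ p = (s * u * s⁻¹) ^ p := congrArg Subtype.val he
  have hup : u' ^ p ∈ center (P : Subgroup G) := by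
    rw [← hE.1.2.1]; exact PGrp.pow_mem_frattini hE.1.1 u'
  obtain ⟨n, hn'⟩ := hcen _ _ hup
  have hn2 : z ^ n = u ^ p := hn'
  rw [conj_pow, ← hn2, ← conj_zpow, hsz, inv_zpow] at he'
  have h3 : (z ^ n) ^ 2 = 1 := by rw [pow_two]; nth_rewrite 1 [he']; simp
  have h4 : (z ^ n) ^ p = 1 := by rw [← zpow_natCast, ← zpow_mul, mul_comm, zpow_mul, zpow_natCast, hzp', one_zpow]
  obtain ⟨k, hk⟩ : Odd p := (Fact.out : p.Prime).odd_of_ne_two hp
  rw [hk, pow_succ, pow_mul, h3, one_pow, one_mul] at h4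
  have h5 : u' ^ p = 1 := Subtype.ext (hn2.symm.trans h4)
  rw [← commute_iff hE hp hcard hexp hy' hyp'] at h5
  have h6 : u * y = y * u := congrArg Subtype.val h5
  rw [h6] at hu
  apply hz1
  apply Subtype.ext
  show z = 1
  simpa using hu

end Cfsg.Agent.S3053
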