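import Mathlib
import Cfsg.Statements.S3054
import Cfsg.Agent.Part.Ex1

set_option autoImplicit false
open Cfsg

namespace Cfsg.Agent.S3054


/-- Let p be an odd prime and G a finite group with a Sylow p-subgroup P that is extraspecial of order p³ and exponent p. Suppose P contains three distinct subgroups A of order p² (each is elementary abelian of rank 2) such that every automorphism of A of order p is induced by conjugation by an element of G; equivalently the automorphism group induced on A by its normalizer contains the special linear group of A. Then p ≤ 13. -/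
theorem result {G : Type*} [Group G] [Finite G]
    {p : ℕ} [Fact p.Prime] (hp : p ≠ 2) (P : Sylow p G) (hE : Cfsg.IsExtraspecial p ↥P)
    (hcard : Nat.card P = p ^ 3) (hexp : Monoid.exponent ↥P = p)
    (A : Fin 3 → Subgroup G) (hA : Function.Injective A) (hAP : ∀ i, A i ≤ (P : Subgroup G))
    (hAcard : ∀ i, Nat.card ↥(A i) = p ^ 2)
    (hSL : ∀ i, ∀ φ : MulAut ↥(A i), orderOf φ = p → ∃ g : G, ∀ a : ↥(A i), (φ a : G) = g * (a : G) * g⁻¹) :
    p ≤ 13 := by
  obtain ⟨D, hB⟩ := Part.EX.exists_model hE hcard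
  have ha : ∀ a : ↥P, a ^ p = 1 := fun a => by
    have := Monoid.pow_exponent_eq_one a
    rwa [hexp] at this
  have hP := LocalEven.isSylowIn_top P
  have h2 := (Fact.out : p.Prime).two_le
  have key : ∀ i, ∃ a : ↥P, D.χ a ≠ 0 ∧ Part.EX.Rad D a ∧
      ∀ x, x ∈ A i ↔ ∃ v, x = (Part.EX.e D a v : ↥P) := fun i => by
    have h3 : Nat.card ((A i).subgroupOf P) = p ^ 2 := by
      rw [← hAcard i]; exact Nat.card_congr (Subgroup.subgroupOfEquivOfLe (hAP i)).toEquiv
    have h4 : ((A i).subgroupOf P).index = p := by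
      have := ((A i).subgroupOf P).card_mul_index
      rw [h3, hcard, pow_succ p 2] at this
      exact Nat.eq_of_mul_eq_mul_left (by positivity) this
    have h5 : ((A i).subgroupOf P).Normal := Subgroup.normal_of_index_eq_minFac_card (by
      rw [h4, hcard, (Fact.out : p.Prime).pow_minFac (by norm_num)])
    obtain ⟨a, h6, h7⟩ : ∃ a ∈ (A i).subgroupOf P, D.χ a ≠ 0 := by
      by_contra! h
      have := Subgroup.card_le_of_le (show (A i).subgroupOf P ≤ D.Z from fun a ha => D.mem_Z.2 (h a ha))
      have h6 : p ^ 2 ≤ p := h3.ge.trans (this.trans D.card_Z.le)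
      nlinarith
    have h8 : ∀ v, Part.EX.e D a v ∈ (A i).subgroupOf P := fun v => by
      obtain ⟨x, hx⟩ := Part.EX.exists_B hB h7 v.2
      refine mul_mem (pow_mem h6 _) ?_
      rw [← hx, D.ι_B, commutatorElement_def]
      exact mul_mem (h5.conj_mem _ h6 x) (inv_mem h6)
    let f : Multiplicative (ZMod p × ZMod p) →* ↥(A i) := MonoidHom.mk'
      (fun v => ⟨(Part.EX.e D a v.toAdd : ↥P), h8 _⟩) fun v w =>
        Subtype.ext (congrArg (fun u : ↥P => (u : G)) (Part.EX.e_add (D := D) (ha a) v.toAdd w.toAdd) :)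
    have h9 : Function.Bijective f := by
      refine (Nat.bijective_iff_injective_and_card f).2 ⟨(injective_iff_map_eq_one f).2 fun v hv => ?_, ?_⟩
      · have h10 : Part.EX.e D a v.toAdd = 1 := Subtype.ext (congrArg (fun u : ↥(A i) => (u : G)) hv :)
        have h11 := congrArg D.χ h10
        rw [Part.EX.χ_e, D.χ_one, smul_eq_zero_iff_left h7] at h11
        rw [Part.EX.e, h11, ZMod.val_zero, pow_zero, one_mul, D.ι_eq_one_iff] at h10
        exact Multiplicative.toAdd.injective (Prod.ext h11 h10)
      · rw [hAcard, Nat.card_congr Multiplicative.toAdd, Nat.card_prod, Nat.card_zmod, pow_two]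
    let σ : MulAut (Multiplicative (ZMod p × ZMod p)) := AddEquiv.toMultiplicative
      { toFun := fun v => (v.1 + v.2, v.2)
        invFun := fun v => (v.1 - v.2, v.2)
        left_inv := fun v => by simp
        right_inv := fun v => by simp
        map_add' := fun v w => by ext <;> simp; ring }
    have h10 : ∀ (n : ℕ) v, (σ ^ n) (Multiplicative.ofAdd v) =
        Multiplicative.ofAdd (v.1 + n * v.2, v.2) := fun n => by
      induction n with
      | zero => simp
      | succ n ih =>
        intro v
        rw [pow_succ, MulAut.mul_apply]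
        refine (ih (v.1 + v.2, v.2)).trans ?_
        congr 2
        push_cast; ring
    have h11 : orderOf σ = p := orderOf_eq_prime
      (MulEquiv.ext fun v => (h10 p v.toAdd).trans (by simp)) fun h => by
        have := h10 1 (0, 1)
        rw [h] at this
        simp at this
    obtain ⟨g, hg⟩ := hSL i (MulAut.congr (MulEquiv.ofBijective f h9) σ)
      (by rw [MulEquiv.orderOf_eq, h11])
    have h12 : ∀ v, g * (Part.EX.e D a v : ↥P) * g⁻¹ = (Part.EX.e D a (v.1 + v.2, v.2) : ↥P) :=
      fun v => by
        have := hg (MulEquiv.ofBijective f h9 (Multiplicative.ofAdd v))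
        simp only [MulAut.congr_apply, MulEquiv.trans_apply, MulEquiv.symm_apply_apply] at this
        exact this.symm
    refine ⟨a, h7, ⟨g, ?_, ?_⟩, fun x => ⟨fun hx => ?_, ?_⟩⟩
    · simpa only [add_zero, Part.EX.e_fst] using h12 (1, 0)
    · have := h12 (0, 1)
      rw [Part.EX.e_snd, zero_add, Part.EX.e, ZMod.val_one, pow_one, D.central] at this
      exact this
    · obtain ⟨v, hv⟩ := h9.2 ⟨x, hx⟩
      exact ⟨v.toAdd, (congrArg Subtype.val hv).symm⟩
    · rintro ⟨v, rfl⟩
      exact h8 v
  choose a h0 h1 h3 using key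
  have h4 : Function.Injective fun i => Projectivization.mk (ZMod p) _ (h0 i) := fun i j h => by
    obtain ⟨c, hc⟩ := (Projectivization.mk_eq_mk_iff' _ _ _ _ _).1 h
    obtain ⟨b, hb⟩ := D.exists_of_χ_eq ((Part.EX.χ_e (a := a j) (c, 0)).trans hc)
    refine hA (LocalEven.eq_of_le_of_card_le (fun x hx => ?_) (by rw [hAcard, hAcard]))
    obtain ⟨v, rfl⟩ := (h3 i x).1 hx
    have h5 : ∀ d, ((D.ι d : ↥P) : G) ∈ A j := fun d => (h3 j _).2 ⟨(0, d), by rw [Part.EX.e_snd]⟩
    have h6 : ((a i : ↥P) : G) ∈ A j := by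
      rw [hb]
      exact mul_mem ((h3 j _).2 ⟨_, rfl⟩) (h5 b)
    exact mul_mem (pow_mem h6 _) (h5 _)
  have := Part.EX.main D hP hB ha (Set.range fun i => Projectivization.mk (ZMod p) _ (h0 i))
    (by rw [Set.ncard_range_of_injective h4]; simp) (by
      rintro _ ⟨i, rfl⟩
      exact ⟨a i, h0 i, h1 i, rfl⟩)
  omega

end Cfsg.Agent.S3054
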