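import Mathlib
import Cfsg.Statements.S3055
import Cfsg.Agent.Part.Ex1

set_option autoImplicit false
open Cfsg

namespace Cfsg.Agent.S3055


/-- Let p be an odd prime and G a finite group with a Sylow p-subgroup P that is extraspecial of order p³ and exponent p. If all nonidentity elements of P are conjugate in G, then p ≤ 7. -/
theorem result {G : Type*} [Group G] [Finite G]
    {p : ℕ} [Fact p.Prime] (hp : p ≠ 2) (P : Sylow p G) (hE : Cfsg.IsExtraspecial p ↥P)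
    (hcard : Nat.card P = p ^ 3) (hexp : Monoid.exponent ↥P = p)
    (hconj : ∀ x y : ↥P, x ≠ 1 → y ≠ 1 → ∃ g : G, g * (x : G) * g⁻¹ = (y : G)) :
    p ≤ 7 := by
  obtain ⟨D, hB⟩ := Part.EX.exists_model hE hcard
  have ha : ∀ a : ↥P, a ^ p = 1 := fun a => by
    have := Monoid.pow_exponent_eq_one a
    rwa [hexp] at this
  have hP := LocalEven.isSylowIn_top P
  have hz : D.ι 1 ≠ 1 := fun h => one_ne_zero (D.ι_eq_one_iff.1 h)
  have hc : (Set.univ : Set (Classical.P1.PL (ZMod p))).ncard = p + 1 := by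
    rw [Set.ncard_univ, Classical.P1.card_PL, Nat.card_zmod]
  have h2 := (Fact.out : p.Prime).two_le
  refine (Part.EX.main D hP hB ha Set.univ (by omega) fun x _ => ?_).resolve_right (by omega)
  induction x using Projectivization.ind with | _ v hv =>
  obtain ⟨a, rfl⟩ := D.χ_surj v
  refine ⟨a, hv, ?_, rfl⟩
  obtain ⟨g, hg⟩ := hconj (D.ι 1) a hz (fun h => hv (h ▸ D.χ_one))
  have h3 : LocalEven.cj g (P : Subgroup G) ≤ Subgroup.centralizer {(a : G)} := by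
    intro y hy
    obtain ⟨y, hy', rfl⟩ := LocalEven.mem_cj'.1 hy
    have : y * (D.ι 1 : ↥P) = (D.ι 1 : ↥P) * y := congrArg Subtype.val (D.central 1 ⟨y, hy'⟩)
    rw [Subgroup.mem_centralizer_singleton_iff, ← hg]
    calc _ = g * (y * D.ι 1) * g⁻¹ := by group
      _ = _ := by rw [this]; group
  have h4 : ((D.ι 1 : ↥P) : G) ∈ Subgroup.centralizer {(a : G)} :=
    Subgroup.mem_centralizer_singleton_iff.2 (congrArg Subtype.val (D.central 1 a)).symm
  obtain ⟨k, hk, h5⟩ := ((hP.cj_of_mem (Subgroup.mem_top g)).mono h3 le_top).exists_conj_mem h4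
    (k := 1) (by rw [pow_one]; exact congrArg Subtype.val (ha (D.ι 1)))
  rw [Subgroup.mem_centralizer_singleton_iff] at hk
  obtain ⟨y, hy, h6⟩ := LocalEven.mem_cj'.1 h5
  have h7 : k⁻¹ * g * (D.ι 1 : ↥P) * (k⁻¹ * g)⁻¹ = a := by
    calc _ = k⁻¹ * (g * (D.ι 1 : ↥P) * g⁻¹) * k := by group
      _ = _ := by rw [hg, mul_assoc, ← hk, inv_mul_cancel_left]
  have h8 : k⁻¹ * g * y * (k⁻¹ * g)⁻¹ = (D.ι 1 : ↥P) := by
    calc _ = k⁻¹ * (g * y * g⁻¹) * k := by group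
      _ = _ := by rw [h6]; group
  generalize k⁻¹ * g = c at h7 h8
  have h9 : D.χ ⟨y, hy⟩ ≠ 0 := fun h => by
    obtain ⟨b, hb⟩ := (D.χ_eq_zero _).1 h
    have h10 : D.ι 1 = a ^ b.val := Subtype.ext (by
      have h11 : y = ((D.ι 1 : ↥P) : G) ^ b.val := by
        rw [← Subgroup.coe_pow, ← D.ι_nsmul, nsmul_eq_mul, mul_one, ZMod.natCast_zmod_val, hb]
      rw [← h8, h11, ← conj_pow, h7, Subgroup.coe_pow])
    have h11 := congrArg D.χ h10
    rw [D.χ_ι, D.χ_pow, ← Nat.cast_smul_eq_nsmul (ZMod p), ZMod.natCast_zmod_val, eq_comm,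
      smul_eq_zero_iff_left hv] at h11
    rw [h11, ZMod.val_zero, pow_zero] at h10
    exact hz h10
  obtain ⟨x, hx⟩ := Part.EX.exists_B hB h9 1
  have h10 : ((D.ι 1 : ↥P) : G) = x * y * (x : G)⁻¹ * y⁻¹ :=
    hx ▸ congrArg Subtype.val (D.ι_B x ⟨y, hy⟩)
  have h11 : (x : G) * (D.ι 1 : ↥P) = (D.ι 1 : ↥P) * x := congrArg Subtype.val (D.central 1 x)
  have h12 : y * (D.ι 1 : ↥P) = (D.ι 1 : ↥P) * y := congrArg Subtype.val (D.central 1 ⟨y, hy⟩)
  refine ⟨c * x * c⁻¹, ?_, ?_⟩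
  · calc _ = c * (x * (D.ι 1 : ↥P)) * (x : G)⁻¹ * c⁻¹ := by rw [← h7]; group
      _ = _ := by rw [h11, ← h7]; group
  · calc _ = c * (x * y * (x : G)⁻¹ * y⁻¹ * y) * c⁻¹ := by rw [← h8]; group
      _ = c * y * c⁻¹ * (c * (D.ι 1 : ↥P) * c⁻¹) := by rw [← h10, ← h12]; group
      _ = _ := by rw [h7, h8]

end Cfsg.Agent.S3055
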