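import Mathlib
import Cfsg.Statements.S3057
import Cfsg.Agent.LocalEven.Spe2
import Cfsg.Agent.LocalEven.PSolv
import Cfsg.Agent.S0016

set_option autoImplicit false
open Cfsg

namespace Cfsg.Agent.S3057

open Cfsg.Agent.LocalEven

/-- Let p be a prime and G a finite p-solvable group of order divisible by p, with Sylow p-subgroup P. Then the Sylow p-subgroups of G fail to be chain-connected through nontrivial intersections (equivalently, G has a strongly p-embedded subgroup) if and only if O_p(G) = 1 and P is cyclic or, for p = 2, generalized quaternion. -/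
theorem result {G : Type*} [Group G] [Finite G]
    (p : ℕ) [Fact p.Prime] (hdiv : p ∣ Nat.card G) (hsol : Cfsg.IsPSolvable p G) (P : Sylow p G) :
    ¬ Cfsg.IsSylowChainConnected p G ↔
      Cfsg.pCore p G = ⊥ ∧ (IsCyclic ↥P ∨ (p = 2 ∧ ∃ n : ℕ, Nonempty (↥P ≃* QuaternionGroup (2 ^ n)))) := by
  rw [not_isSylowChainConnected_iff]
  have hP1 := P.ne_bot_of_dvd_card hdiv
  constructor
  · rintro ⟨H, hH⟩
    refine ⟨hH.pCore_eq_bot, ?_⟩
    have hr : ∀ A ≤ (P : Subgroup G), IsElementaryAbelian p A → Nat.card A ≤ p := by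
      intro A hA hAe
      by_contra hlt
      obtain ⟨R, hR, -⟩ := hH.exists_sylow
      obtain ⟨g, rfl⟩ := MulAction.exists_smul_eq G P R
      have h1 := hH.pPrimeCore_le (elemAb_cj hAe g) (by rw [card_cj]; omega)
        ((cj_mono g hA).trans hR)
      have h2 := hH.map_mk' _ (Core.not_dvd_card_pPrimeCore (Fact.out : p.Prime))
        (by rw [sup_eq_left.2 h1]; exact hH.ne_top)
      have : Nontrivial (G ⧸ pPrimeCore p G) := by
        by_contra hn
        rw [not_nontrivial_iff_subsingleton] at hn
        exact h2.ne_top (Subsingleton.elim _ _)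
      exact pCore_ne_bot_of_isPSolvable (isPSolvable_quotient hsol _)
        (Core.pPrimeCore_quotient_pPrimeCore p) h2.pCore_eq_bot
    obtain ⟨z, -, h2, h3⟩ := exists_unique_of_rank_one P.isPGroup' hP1 hr
    exact S0016.result p P.isPGroup' (unique_card_of_unique h2 h3)
  · rintro ⟨hO, hT⟩
    have : ∃ z ∈ (P : Subgroup G), orderOf z = p ∧
        ∀ x ∈ (P : Subgroup G), x ^ p = 1 → x ∈ Subgroup.zpowers z := by
      rcases hT with h | ⟨-, n, ⟨e⟩⟩
      · exact exists_unique_of_isCyclic P.isPGroup' hP1 h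
      · exact exists_unique_of_quaternion P.isPGroup' e
    obtain ⟨z, h1, h2, h3⟩ := this
    exact ⟨_, (spe_of_unique hO h1 h2 h3).2⟩

end Cfsg.Agent.S3057
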