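import Mathlib
import Cfsg.Statements.S3060
import Cfsg.Agent.LocalEven.DStar
import Cfsg.Agent.PLocal.WS

set_option autoImplicit false
open Cfsg

namespace Cfsg.Agent.S3060

open Cfsg.Agent.LocalEven

open Subgroup PLocal

theorem quad_of {G : Type*} [Group G] [Finite G] {p : ℕ} [Fact p.Prime] {T : Subgroup G}
    (hT : IsPGroup p T) {x : G} (hx : x ∈ T) (hq : Quad (dStarOf T) x) :
    x ∈ centralizer (dStarOf T : Set G) := by
  have hD := dStar_mem hT
  haveI := dStar_normal (G := T)
  have h1 : Quad (dStar T) ⟨x, hx⟩ := Quad.of_map (subtype_injective T) hq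
  have h2 := h1.commutator_zpowers (le_normalizer_of_normal (K := ⊤) trivial)
  rintro _ ⟨y, hy, rfl⟩
  have h3 := le_centralizer_iff_isMulCommutative.2 hD.1
  have h4 := class_two_of h3 le_rfl ((commutator_le_left _ _).trans h3)
    (LocalEven.commutator_eq_bot_iff.1 h2)
  exact congrArg Subtype.val (hD.2 _ h4 y hy)

/-- The D*-Theorem. For a finite p-group S let D*(S) be the subgroup generated by the abelian subgroups A of S such that every x ∈ S with ⟨A, x⟩ of nilpotency class at most two centralizes A. Let p be an odd prime and H a finite p-stable group with Sylow p-subgroup S. Here H is p-stable in the following sense: the largest normal p-subgroup O_p(H) contains its centralizer in H, and for every normal p-subgroup P of H, every element acting quadratically on P has image in O_p(H/C_H(P)). Then D*(S) is a normal subgroup of H. -/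
theorem result {G : Type*} [Group G] [Finite G] {p : ℕ} [Fact p.Prime] (hp : p ≠ 2)
    (hc : Subgroup.centralizer (Cfsg.pCore p G : Set G) ≤ Cfsg.pCore p G)
    (hst : ∀ (P : Subgroup G) [P.Normal], IsPGroup p P → Cfsg.IsPStableOn p P) (S : Sylow p G) :
    (Cfsg.dStarOf (S : Subgroup G)).Normal := by
  set W := dStarOf (S : Subgroup G) with hW
  haveI := dStar_normal (G := (S : Subgroup G))
  have hWe : IsElementaryAbelian 0 W := elemAb_map ⟨(dStar_mem S.2).1, fun _ _ => pow_zero _⟩ _
  have hOS : pCore p G ≤ S := Core.pCore_le_sylow S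
  have hSW : (S : Subgroup G) ≤ normalizer (W : Set G) := le_normalizer_map_subtype _
  have hWO : W ≤ pCore p G := fun w hw => mem_pCore_of_isPStableOn hc (hst _ isPGroup_pCore)
    (quad_of_abelian_normalized hWe.1 (hOS.trans hSW) hw)
  have hcj : ∀ g, W ≤ centralizer (cj g W : Set G) := by
    intro g
    rw [le_centralizer_iff]
    intro x hx
    refine quad_of S.2 (hOS (cj_le_of_mem_normalizer
      (le_normalizer_of_normal (K := ⊤) trivial) hWO hx)) (quad_of_abelian_normalized
        (isMulCommutative_cj g hWe.1) (hWO.trans ?_) hx)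
    rw [← cj_normalizer, ← cj_eq_of_normal g (pCore p G)]
    exact cj_mono g (hOS.trans hSW)
  set V := normalClosure (W : Set G) with hV
  have hWV : W ≤ V := le_normalClosure
  have hVO : V ≤ pCore p G := normalClosure_le_normal hWO
  have hVe : IsElementaryAbelian 0 V := by
    rw [hV, normalClosure_eq_iSup_cj]
    refine elemAb_iSup (fun g => (elemAb_cj hWe g).2) fun g k => ?_
    have := cj_mono g (hcj (g⁻¹ * k))
    rwa [cj_centralizer, cj_cj, mul_inv_cancel_left] at this
  have hVq : ∀ a, Quad V a → a ∈ centralizer (V : Set G) := by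
    intro a ha
    have h4 : ∀ g, a ∈ centralizer (cj g W : Set G) := by
      intro g
      obtain ⟨c, hc, s, hs, h5, h6⟩ := exists_quad_mem_sylow S ha (hst V (isPGroup_of_le_pCore hVO) a
        (ha.commutator_zpowers (le_normalizer_of_normal (K := ⊤) trivial))) g⁻¹
      rw [← cj_centralizer, ← inv_inv g, mem_cj_inv, h6]
      exact mul_mem (centralizer_le hWV hc) (quad_of S.2 hs (h5.mono hWV))
    rw [← zpowers_le, le_centralizer_iff, hV, normalClosure_eq_iSup_cj, iSup_le_iff]
    exact fun g => le_centralizer_iff.1 (zpowers_le.2 (h4 g))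
  have hVS := hVO.trans hOS
  have h1 : V.subgroupOf S ∈ dStarFamily (S : Subgroup G) := by
    refine ⟨(elemAb_subgroupOf hVe _).1, fun x hx a ha => Subtype.ext (hVq x ?_ a ha)⟩
    have h2 : Quad (V.subgroupOf S) x := (Quad.of_commutator (A := V.subgroupOf S ⊔ zpowers x)
      hx (mem_sup_right (mem_zpowers x))).mono le_sup_left
    have h3 := h2.map (S : Subgroup G).subtype
    rwa [map_subgroupOf_eq_of_le hVS] at h3
  have h2 : V ≤ W := (map_subgroupOf_eq_of_le hVS).ge.trans (map_mono (le_sSup h1))
  rw [le_antisymm hWV h2]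
  infer_instance

end Cfsg.Agent.S3060
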