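import Mathlib
import Cfsg.Statements.S3062
import Cfsg.Agent.LocalEven.DStar

set_option autoImplicit false
open Cfsg

namespace Cfsg.Agent.S3062

open Cfsg.Agent.LocalEven

open Subgroup

/-- Let S be a finite p-group, J(S) the subgroup generated by the abelian subgroups of S of largest order and Z(J(S)) its centre. Then Z(S) ≤ D*(S) ≤ Z(J(S)), and every maximal normal abelian subgroup of S contains D*(S). -/
theorem result {S : Type*} [Group S] [Finite S] {p : ℕ} [Fact p.Prime]
    (hS : IsPGroup p S) :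
    Subgroup.center S ≤ Cfsg.dStar S ∧
    Cfsg.dStar S ≤ Cfsg.thompsonSubgroupA S ⊓ Subgroup.centralizer (Cfsg.thompsonSubgroupA S : Set S) ∧
    ∀ A : Subgroup S, A.Normal → IsMulCommutative A →
      (∀ B : Subgroup S, B.Normal → IsMulCommutative B → A ≤ B → B = A) → Cfsg.dStar S ≤ A := by
  have hD := dStar_mem hS
  haveI := dStar_normal (G := S)
  haveI := hS.isNilpotent
  have key : ∀ A ∈ maxAbelianSubgroups S, A ≤ centralizer (dStar S : Set S) := by
    intro A hA
    by_contra hne
    obtain ⟨B, -, h1, h2, -⟩ := Transfer.exists_quadratic_offender (n := 0) (T := ⊤)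
      (hS.to_subgroup ⊤) ⟨le_top, ⟨hA.1, fun _ _ => pow_zero _⟩, fun B _ hB => hA.2 B hB.1⟩ le_top
      ⟨hD.1, fun _ _ => pow_zero _⟩ (le_top.trans (normalizer_eq_top _).ge) hne
    refine h2 fun x hx y hy => hD.2 x (class_two_of (C := ⁅dStar S, B⁆)
      (le_centralizer_iff_isMulCommutative.2 hD.1) (commutator_mono le_rfl (zpowers_le.2 hx))
      ((commutator_le_left _ _).trans (le_centralizer_iff_isMulCommutative.2 hD.1))
      ((LocalEven.commutator_eq_bot_iff.1 h1).trans (centralizer_le (zpowers_le.2 hx)))) y hy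
  refine ⟨le_sSup ⟨inferInstance, fun x _ a ha => (mem_center_iff.1 ha x).symm⟩, le_inf ?_
    (le_centralizer_iff.1 (sSup_le key)), fun A hA h1 h2 =>
      dStar_le_of_scn hS h1 (PGrp.centralizer_eq_of_maximal_normal h1 h2)⟩
  obtain ⟨A, hA⟩ := exists_maxAbelian (G := S)
  exact ((le_centralizer_iff.1 (key A hA)).trans (centralizer_eq_of_maxAbelian hA).le).trans
    (le_sSup hA)

end Cfsg.Agent.S3062
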