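import Mathlib
import Cfsg.Statements.S3063
import Cfsg.Agent.LocalEven.DStar

set_option autoImplicit false
open Cfsg

namespace Cfsg.Agent.S3063

open Cfsg.Agent.LocalEven

open Subgroup

/-- A weak replacement Theorem for metabelian p-groups: let S be a finite p-group whose derived subgroup is abelian and A an abelian subgroup of S of largest possible order. Then the normal closure of A in S contains an abelian subgroup B of the same order as A that is normal in S. -/
theorem result {S : Type*} [Group S] [Finite S] {p : ℕ} [Fact p.Prime]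
    (hS : IsPGroup p S) (hmeta : IsMulCommutative ↥(commutator S))
    (A : Subgroup S) (hA : A ∈ Cfsg.maxAbelianSubgroups S) :
    ∃ B ∈ Cfsg.maxAbelianSubgroups S, B.Normal ∧ B ≤ Subgroup.normalClosure (A : Set S) := by
  obtain ⟨B, ⟨hB, hle⟩, hmax⟩ := Set.exists_max_image
    {B | B ∈ maxAbelianSubgroups S ∧ B ≤ normalClosure (A : Set S)}
    (fun B => Nat.card (B ⊓ commutator S : Subgroup S)) (Set.toFinite _) ⟨A, hA, le_normalClosure⟩
  refine ⟨B, hB, normal_of_cj_le fun s => cj_le_iff'.2 fun b hb => ?_, hle⟩
  set M := closure {y | ∃ a ∈ B, y = s⁻¹⁻¹ * (a * s⁻¹ * a⁻¹)} with hM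
  have h1 : M ≤ commutator S ⊓ normalClosure (A : Set S) := by
    rw [hM, closure_le]
    rintro _ ⟨a, ha, rfl⟩
    refine mem_inf.2 ⟨?_, ?_⟩
    · have := commutator_mem_commutator (mem_top s) (mem_top a)
      rw [commutatorElement_def, ← commutator_def] at this
      convert this using 1; group
    · have := mul_mem ((normalClosure_normal (s := (A : Set S))).conj_mem a (hle ha) s)
        (inv_mem (hle ha))
      convert this using 1; group
  have h2 := thompson_lemma hB hM (isMulCommutative_of_le hmeta (h1.trans inf_le_left))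
  have h3 : B ⊓ commutator S ≤ (M ⊔ (B ⊓ centralizer (M : Set S))) ⊓ commutator S :=
    le_inf (le_sup_of_le_right (inf_le_inf_left B ((le_centralizer_iff_isMulCommutative.2 hmeta).trans
      (centralizer_le (h1.trans inf_le_left))))) inf_le_right
  have h4 := eq_of_le_of_card_le h3 (hmax _ ⟨h2, sup_le (h1.trans inf_le_right)
    (inf_le_left.trans hle)⟩)
  have h5 : M ≤ B := ((le_inf le_sup_left (h1.trans inf_le_left)).trans h4.ge).trans inf_le_left
  have := mul_mem (h5 (subset_closure ⟨b, hb, rfl⟩)) hb
  convert this using 1; group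

end Cfsg.Agent.S3063
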