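import Mathlib
import Cfsg.Statements.S3064
import Cfsg.Agent.LocalEven.Iso
import Cfsg.Agent.Char.FrobKernel

set_option autoImplicit false
open Cfsg

namespace Cfsg.Agent.S3064

open Cfsg.Agent.LocalEven

open Subgroup

theorem step {G : Type*} [Group G] [Finite G] {p : ℕ} [Fact p.Prime] {x : G} (hiso : IsIsolated x)
    (hxp : IsPGroup p (zpowers x))
    (hb : ∀ H : Subgroup G, (Nat.card H).Coprime p → x ∈ normalizer (H : Set G) →
      H ≤ centralizer ({x} : Set G))
    (hsub : ∀ H : Subgroup G, H ≠ ⊤ → x ∈ H → H ≤ centralizer ({x} : Set G)) :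
    centralizer ({x} : Set G) = ⊤ := by
  by_contra hne
  set C := centralizer ({x} : Set G) with hC
  have hxC : x ∈ C := mem_centralizer_singleton.2 rfl
  have hZ : center G ≤ C := center_le_centralizer _
  have hcm : (C.map (QuotientGroup.mk' (center G))).comap (QuotientGroup.mk' (center G)) = C := by
    rw [comap_map_eq, QuotientGroup.ker_mk', sup_eq_left.2 hZ]
  have hF : IsFrobeniusComplement (C.map (QuotientGroup.mk' (center G))) := by
    refine ⟨fun h0 => hne (eq_top_iff.2 fun g _ => ?_), fun h0 => hne (by rw [← hcm, h0, comap_top]),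
      fun g hg => eq_bot_iff.2 fun y hy => ?_⟩
    · rw [Subgroup.map_eq_bot_iff, QuotientGroup.ker_mk'] at h0
      exact mem_centralizer_singleton.2 (mem_center_iff.1 (h0 hxC) g).symm
    · obtain ⟨g, rfl⟩ := QuotientGroup.mk'_surjective _ g
      obtain ⟨y, rfl⟩ := QuotientGroup.mk'_surjective _ y
      have h1 : y ∈ C := hcm ▸ hy.1
      have h2 : g⁻¹ * y * g ∈ C := by
        rw [← hcm, mem_comap, map_mul, map_mul, map_inv]
        exact Core.mem_conj_smul_iff.1 hy.2
      rw [mem_bot, QuotientGroup.mk'_apply, QuotientGroup.eq_one_iff]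
      by_contra h3
      have h4 : centralizer ({y} : Set G) ≠ ⊤ := fun h0 => h3 (mem_center_iff.2 fun k =>
        (mem_centralizer_singleton.1 (h0 ▸ mem_top k : k ∈ centralizer ({y} : Set G))).symm)
      have h5 : g * x * g⁻¹ ∈ C := hsub _ h4 (mem_centralizer_singleton.2
        (mem_centralizer_singleton.1 h1).symm) (mem_centralizer_singleton.2 (by
          have := mem_centralizer_singleton.1 h2
          calc y * (g * x * g⁻¹) = g * (g⁻¹ * y * g * x) * g⁻¹ := by group
            _ = _ := by rw [← this]; group))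
      exact hg ⟨g, mem_centralizer_singleton_iff_conj.2 (hiso g (mem_centralizer_singleton.1 h5)), rfl⟩
  obtain ⟨N, -, hN, hc⟩ := Char.frobenius_kernel _ hF
  set K := N.comap (QuotientGroup.mk' (center G)) with hK
  have h1 : K ⊓ C ≤ center G := fun y hy => (QuotientGroup.eq_one_iff y).1
    (mem_bot.1 (hc.disjoint.eq_bot ▸ (mem_inf.2 ⟨hy.1, ⟨y, hy.2, rfl⟩⟩ :
      QuotientGroup.mk' (center G) y ∈ N ⊓ C.map (QuotientGroup.mk' (center G)))))
  have h2 : K ⊔ C = ⊤ := by
    rw [← hcm, hK, comap_sup_eq _ _ _ (QuotientGroup.mk'_surjective _), hc.sup_eq_top, comap_top]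
  obtain ⟨S, hS⟩ := hxp.exists_le_sylow
  have hT := sylow_inf_normal S K
  have h3 : (S : Subgroup G) ⊓ K ≤ center G := le_trans (le_inf inf_le_right
    (inf_le_left.trans (iso_le_centralizer hiso S.2 (hS (mem_zpowers x))))) h1
  haveI := pResOf_normal (p := p) K
  have h4 := hb _ (coprime_pResOf_of_burnside hT fun g _ y hy =>
    (mem_center_iff.1 (h3 hy) g).symm) (by rw [normalizer_eq_top]; trivial)
  exact hne (eq_top_iff.2 (h2.ge.trans (sup_le (hT.pResOf_sup.ge.trans (sup_le h4 (h3.trans hZ)))
    le_rfl)))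

/-- Let S be a Sylow p-subgroup of the finite group G and x an element of S such that (i) x is the only G-conjugate of x lying in S, and (ii) x centralizes every subgroup of order prime to p that it normalizes. Then x lies in the centre of G. -/
theorem result {G : Type*} [Group G] [Finite G] {p : ℕ} [Fact p.Prime]
    (S : Sylow p G) (x : G) (hx : x ∈ S)
    (hU : ∀ g : G, g⁻¹ * x * g ∈ S → g⁻¹ * x * g = x)
    (hb : ∀ H : Subgroup G, (Nat.card H).Coprime p → (∀ h ∈ H, x * h * x⁻¹ ∈ H) → ∀ h ∈ H, x * h = h * x) :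
    x ∈ Subgroup.center G := by
  have hiso : IsIsolated x := iso_of_sylow (isSylowIn_top S) hx fun g hg => by
    simpa using hU g⁻¹ (by rw [inv_inv]; exact hg)
  have hxp : IsPGroup p (zpowers x) := S.2.to_le (zpowers_le.2 hx)
  have key : ∀ H : Subgroup G, x ∈ H → H ≤ centralizer ({x} : Set G) := by
    intro H
    induction H using WellFoundedLT.induction with
    | ind H ih =>
    intro hxH g hg
    suffices this : centralizer ({(⟨x, hxH⟩ : H)} : Set H) = ⊤ by
      have h1 : (⟨g, hg⟩ : H) ∈ centralizer ({(⟨x, hxH⟩ : H)} : Set H) := this ▸ mem_top _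
      exact mem_centralizer_singleton.2 (congrArg Subtype.val (mem_centralizer_singleton.1 h1))
    refine step (p := p) (iso_subgroup hiso hxH) ?_ (fun K hK hn y hy => ?_)
      (fun K hK hxK y hy => ?_)
    · obtain ⟨k, hk⟩ := orderOf_of_mem_isPGroup hxp (mem_zpowers x)
      exact isPGroup_zpowers_of_orderOf (k := k) (by rw [← hk, Subgroup.orderOf_mk])
    · refine mem_centralizer_singleton.2 (Subtype.ext (hb (K.map H.subtype)
        (by rwa [card_map_subtype]) (fun h hh => ?_) y ⟨y, hy, rfl⟩))
      exact conj_mem_of_mem_normalizer (le_normalizer_map _ ⟨_, hn, rfl⟩) hh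
    · refine mem_centralizer_singleton.2 (Subtype.ext (mem_centralizer_singleton.1
        (ih (K.map H.subtype) (lt_of_le_of_ne (map_subtype_le K) fun h0 => hK ?_)
          ⟨_, hxK, rfl⟩ ⟨y, hy, rfl⟩)))
      exact eq_top_iff.2 fun z _ => mem_map_subtype.1 (h0.symm ▸ z.2)
  exact mem_center_iff.2 fun g => (mem_centralizer_singleton.1 (key ⊤ trivial (mem_top g))).symm

end Cfsg.Agent.S3064
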