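import Mathlib
import Cfsg.Statements.S3067
import Cfsg.Agent.PG.CopInv2

set_option autoImplicit false
open Cfsg

namespace Cfsg.Agent.S3067

/-- Let G be a finite non-abelian simple group, τ an involution of G, and α a nontrivial automorphism of G whose order is coprime to the order of G. Then α moves some element of the centralizer of τ: α does not fix C_G(τ) elementwise. -/
theorem result {G : Type*} [Group G] [Finite G] [IsSimpleGroup G]
    (hG : ¬ IsMulCommutative G) (τ : G) (hτ : orderOf τ = 2) (α : MulAut G) (hα : α ≠ 1)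
    (hcop : (orderOf α).Coprime (Nat.card G)) :
    ∃ c ∈ Subgroup.centralizer ({τ} : Set G), α c ≠ c := by
  by_contra! hc
  have h0 : orderOf α ≠ 1 := fun e => hα (orderOf_eq_one_iff.1 e)
  have hr := Nat.minFac_prime h0
  set r := (orderOf α).minFac with hrdef
  have hrd : r ∣ orderOf α := Nat.minFac_dvd _
  let β := α ^ (orderOf α / r)
  have hβ : orderOf β = r := orderOf_pow_orderOf_div (orderOf_pos α).ne' hrd
  have hrG : ¬ r ∣ Nat.card G := fun hd =>
    hr.one_lt.ne' (Nat.eq_one_of_dvd_coprimes hcop hrd hd)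
  have h2G : 2 ∣ Nat.card G := hτ ▸ orderOf_dvd_natCard τ
  have hβc : ∀ y : Subgroup.zpowers β, ∀ c ∈ Subgroup.centralizer ({τ} : Set G), y.1 c = c := by
    have h1 : ∀ k : ℕ, ∀ c ∈ Subgroup.centralizer ({τ} : Set G), (α ^ k) c = c := by
      intro k c hc'
      induction k with
      | zero => rfl
      | succ k ih => rw [pow_succ, MulAut.mul_apply, hc c hc', ih]
    rintro ⟨y, hy⟩ c hc'
    obtain ⟨k, rfl⟩ := mem_powers_iff_mem_zpowers.2 hy
    dsimp only [β]
    rw [← pow_mul]
    exact h1 _ c hc'
  letI : CommGroup (Subgroup.zpowers β) := IsCyclic.commGroup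
  let Γ := G ⋊[(Subgroup.zpowers β).subtype] Subgroup.zpowers β
  let b : Subgroup.zpowers β := ⟨β, Subgroup.mem_zpowers β⟩
  have cardR : Nat.card (Subgroup.zpowers β) = r := by rw [Nat.card_zpowers, hβ]
  haveI : Finite Γ := Finite.of_equiv _ SemidirectProduct.equivProd.symm
  have hb1 : b ≠ 1 := fun e => by
    have : β = 1 := congrArg Subtype.val e
    rw [this, orderOf_one] at hβ
    exact hr.one_lt.ne hβ
  have h : PG.CopInv.St r (SemidirectProduct.rightHom : Γ →* _) (SemidirectProduct.inr b) := by
    refine ⟨hr, fun e => hrG (e ▸ h2G), ?_, fun hd => hrG ?_, fun x => ?_, by simpa using hb1⟩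
    · rw [orderOf_injective _ SemidirectProduct.inr_injective, ← Subgroup.orderOf_coe, hβ]
    · rw [SemidirectProduct.card, cardR, pow_two] at hd
      exact (Nat.mul_dvd_mul_iff_right hr.pos).1 hd
    · rw [← cardR, pow_card_eq_one']
  have t : PG.CopInv.Tv (SemidirectProduct.inr b : Γ) (SemidirectProduct.inl τ) := by
    refine ⟨by rw [orderOf_injective _ SemidirectProduct.inl_injective, hτ], fun x hx => ?_⟩
    have e := congrArg SemidirectProduct.left hx.eq
    have hτc := hβc x.right τ (Subgroup.mem_centralizer_singleton_iff.2 rfl)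
    simp only [SemidirectProduct.mul_left, SemidirectProduct.left_inl, SemidirectProduct.right_inl,
      Subgroup.coe_subtype, hτc, map_one, MulAut.one_apply] at e
    have e2 := hβc b x.left (Subgroup.mem_centralizer_singleton_iff.2 e)
    refine SemidirectProduct.ext ?_ ?_
    · simpa using e2.symm
    · simp [mul_comm]
  have hm := PG.CopInv.main h t
  haveI := Comp2.pPrimeCore_characteristic (G := Γ) 2
  let N : Subgroup G := (pPrimeCore 2 Γ).comap (SemidirectProduct.inl : G →* Γ)
  rcases IsSimpleGroup.eq_bot_or_eq_top_of_normal N inferInstance with hN | hN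
  · apply hb1
    refine Subtype.ext (MulEquiv.ext fun g => ?_)
    have m : g⁻¹ * β g ∈ N := by
      have := (pPrimeCore 2 Γ).mul_mem ((inferInstance : (pPrimeCore 2 Γ).Normal).conj_mem _ hm
        (SemidirectProduct.inl g⁻¹)) ((pPrimeCore 2 Γ).inv_mem hm)
      refine Subgroup.mem_comap.2 ?_
      have e := SemidirectProduct.inl_aut (φ := (Subgroup.zpowers β).subtype) b g
      rw [map_mul, show β g = (Subgroup.zpowers β).subtype b g from rfl, e]
      convert this using 1
      simp only [map_inv, mul_assoc]
      rw [inv_inv]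
    rw [hN, Subgroup.mem_bot, inv_mul_eq_one] at m
    exact m.symm
  · have m : (SemidirectProduct.inl τ : Γ) ∈ pPrimeCore 2 Γ := hN.ge (Subgroup.mem_top τ)
    have := (Nat.coprime_two_right.1 (Comp2.pPrimeCore_coprime (G := Γ) 2)).of_dvd_nat
      (Subgroup.orderOf_dvd_natCard _ m)
    rw [t.ord] at this
    exact absurd this (by decide)

end Cfsg.Agent.S3067
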