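import Mathlib
import Cfsg.Statements.S3070
import Cfsg.Agent.Max.JA4

set_option autoImplicit false
open Cfsg

namespace Cfsg.Agent.S3070

/-- Let p ≥ 5 be a prime, S a Sylow p-subgroup of the finite group G and J(S) the subgroup generated by the abelian subgroups of S of largest order. Then G has a normal p-complement if and only if N_G(J(S))/C_G(J(S)) is a p-group (every element of N_G(J(S)) of order prime to p centralizes J(S)). -/
theorem result {G : Type*} [Group G] [Finite G] {p : ℕ} [Fact p.Prime]
    (hp : 5 ≤ p) (S : Sylow p G) :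
    Cfsg.HasNormalPComplement p G ↔
      ∀ g ∈ Subgroup.normalizer (Cfsg.thompsonSubgroupAOf (S : Subgroup G) : Set G), (orderOf g).Coprime p →
        g ∈ Subgroup.centralizer (Cfsg.thompsonSubgroupAOf (S : Subgroup G) : Set G) := by
  rw [PLocal.thompsonSubgroupAOf_eq]
  exact ⟨fun h g hg hg' => Transfer.mem_centralizer_of_hasNormalPComplement h
    (S.2.to_le (PLocal.jn_le _)) hg hg', Max.npc_of_automizer_jn0 hp G S⟩

end Cfsg.Agent.S3070
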