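import Mathlib
import Cfsg.Statements.S3072
import Cfsg.Agent.Part.AG1

set_option autoImplicit false
open Cfsg

namespace Cfsg.Agent.S3072


/-- A strong form of the Alperin–Goldschmidt fusion Theorem. Let P be a Sylow p-subgroup of the finite group G, A a subset of P containing a nonidentity element, and g an element with g⁻¹Ag ⊆ P. Then g = c·x₁⋯xₙ·y with c ∈ C_G(A), y ∈ N_G(P) and, for each i, an element xᵢ and a subgroup Hᵢ ≤ P such that: N_P(Hᵢ) is a Sylow p-subgroup of N_G(Hᵢ); C_P(Hᵢ) ≤ Hᵢ; O_{p',p}(N_G(Hᵢ)) = Hᵢ·C_G(Hᵢ); the Sylow p-subgroups of N_G(Hᵢ)/Hᵢ are not chain-connected through nontrivial intersections (the quotient has a strongly p-embedded subgroup); xᵢ lies in O^p(Xᵢ), where Xᵢ/Hᵢ is the smallest normal subgroup of N_G(Hᵢ)/Hᵢ of order divisible by p; and (x₁⋯xᵢ₋₁)⁻¹A(x₁⋯xᵢ₋₁) ⊆ Hᵢ. -/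
theorem result {G : Type*} [Group G] [Finite G] {p : ℕ} [Fact p.Prime]
    (P : Sylow p G) (A : Set G) (hA : A ⊆ (P : Set G)) (hA1 : ∃ a ∈ A, a ≠ 1)
    (g : G) (hAg : (fun a => g⁻¹ * a * g) '' A ⊆ (P : Set G)) :
    ∃ (n : ℕ) (H X : Fin n → Subgroup G) (x : Fin n → G) (c y : G),
      c ∈ Subgroup.centralizer A ∧ y ∈ Subgroup.normalizer ((P : Subgroup G) : Set G) ∧
      g = c * (List.ofFn x).prod * y ∧
      ∀ i : Fin n,
        H i ≤ (P : Subgroup G) ∧
        ¬ p ∣ ((P : Subgroup G) ⊓ Subgroup.normalizer (H i : Set G)).relIndex (Subgroup.normalizer (H i : Set G)) ∧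
        (P : Subgroup G) ⊓ Subgroup.centralizer (H i : Set G) ≤ H i ∧
        (Cfsg.pPrimePCore p ↥(Subgroup.normalizer (H i : Set G))).map (Subgroup.normalizer (H i : Set G)).subtype =
          H i ⊔ Subgroup.centralizer (H i : Set G) ∧
        ¬ Cfsg.IsSylowChainConnected p
            (↥(Subgroup.normalizer (H i : Set G)) ⧸ (H i).subgroupOf (Subgroup.normalizer (H i : Set G))) ∧
        (H i ≤ X i ∧ X i ≤ Subgroup.normalizer (H i : Set G) ∧
          ((X i).subgroupOf (Subgroup.normalizer (H i : Set G))).Normal ∧ p ∣ (H i).relIndex (X i) ∧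
          ∀ Y : Subgroup G, H i ≤ Y → Y ≤ Subgroup.normalizer (H i : Set G) →
            (Y.subgroupOf (Subgroup.normalizer (H i : Set G))).Normal → p ∣ (H i).relIndex Y → X i ≤ Y) ∧
        x i ∈ (Cfsg.pResidual p ↥(X i)).map (X i).subtype ∧
        (fun a => (((List.ofFn x).take i.val).prod)⁻¹ * a * ((List.ofFn x).take i.val).prod) '' A ⊆ (H i : Set G) := by
  obtain ⟨c, hc, y, hy, h⟩ := Cfsg.Agent.Part.AG.dec_all P (T := Subgroup.closure A)
    ((Subgroup.closure_le _).2 hA) (Cfsg.Agent.Glaub.cj_inv_closure_le hAg)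
  obtain ⟨l, h1, h2⟩ := h.exists_list
  choose j hj1 hj2 using h2
  refine ⟨l.length, fun i => (j i.1 i.2).1, fun i => Cfsg.Agent.Part.AG.XX p (j i.1 i.2).1, l.get,
    c, y, ?_, hy, ?_, fun i => ?_⟩
  · rw [Subgroup.mem_centralizer_iff]
    exact fun a ha => Subgroup.mem_centralizer_iff.1 hc a (Subgroup.subset_closure ha)
  · rw [List.ofFn_get, h1]; group
  · have hE := (j i.1 i.2).2
    obtain ⟨h3, h4, h5, h6⟩ := hE.XX_mem P.isPGroup'
    refine ⟨hE.lt.le, hE.ext.not_dvd, hE.cent, hE.opp, hE.disc P.isPGroup',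
      ⟨h3, h4, (Subgroup.normal_subgroupOf_iff_le_normalizer h4).2 h5, h6,
        fun Y a1 a2 a3 a4 => sInf_le ⟨a1, a2,
          (Subgroup.normal_subgroupOf_iff_le_normalizer a2).1 a3, a4⟩⟩, ?_, ?_⟩
    · simpa using hj2 i.1 i.2
    · rintro _ ⟨a, ha, rfl⟩
      rw [List.ofFn_get]
      refine hj1 i.1 i.2 ?_
      simpa using Cfsg.Agent.LocalEven.conj_mem_cj (g := (l.take i.1).prod⁻¹)
        (Subgroup.subset_closure (k := A) ha)

end Cfsg.Agent.S3072
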