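import Mathlib
import Cfsg.Statements.S3073
import Cfsg.Agent.LocalEven.AutFun

set_option autoImplicit false
universe u
open Cfsg

namespace Cfsg.Agent.S3073

open Cfsg.Agent.LocalEven

open Subgroup

/-- For an odd prime p, every finite p-group S has a characteristic subgroup K with C_S(K) ≤ K such that, whenever S is (isomorphic to) a Sylow p-subgroup of a finite group G, G has a normal p-complement if and only if N_G(K)/C_G(K) is a p-group, i.e. every element of N_G(K) of order prime to p centralizes K (K transported into G along the isomorphism). -/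
theorem result (p : ℕ) [Fact p.Prime] (hp : p ≠ 2)
    (S : Type u) [Group S] [Finite S] (hS : IsPGroup p S) :
    ∃ K : Subgroup S, K.Characteristic ∧ Subgroup.centralizer (K : Set S) ≤ K ∧
      ∀ (G : Type u) [Group G] [Finite G] (P : Sylow p G) (e : ↥(P : Subgroup G) ≃* S),
        Cfsg.HasNormalPComplement p G ↔
          ∀ g ∈ Subgroup.normalizer (((K.comap (e : ↥(P : Subgroup G) →* S)).map (P : Subgroup G).subtype : Subgroup G) : Set G),
            (orderOf g).Coprime p →
              g ∈ Subgroup.centralizer (((K.comap (e : ↥(P : Subgroup G) →* S)).map (P : Subgroup G).subtype : Subgroup G) : Set G) := by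
  refine ⟨kInfLower S, Transfer.characteristic_of_isCharPFunctor Glaub.charP_kInfLower hS, ?_, ?_⟩
  · have := Glaub.cent_kLo_le (S := (⊤ : Subgroup S)) (hS.to_subgroup ⊤)
    rwa [top_inf_eq, ← Glaub.kInfLower_eq] at this
  · intro G _ _ P e
    have h1 : (kInfLower S).comap (e : (P : Subgroup G) →* S) = kInfLower (P : Subgroup G) := by
      rw [← (Glaub.charP_kInfLower (p := p)).2 _ _ P.2 e]
      exact comap_map_eq_self_of_injective e.injective _
    have h2 : (kInfLower (P : Subgroup G)).map (P : Subgroup G).subtype =
      Glaub.kLo (P : Subgroup G) := Glaub.ind_kInfLower _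
    rw [h1, h2]
    exact ⟨fun h g hg hg' => Transfer.mem_centralizer_of_hasNormalPComplement h
      (P.2.to_le (Glaub.kLo_le _)) hg hg', npc_of_automizer_kLo hp G P⟩

end Cfsg.Agent.S3073
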