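import Cfsg.Statements.S3074
import Cfsg.Agent.Glaub.Qd2

set_option autoImplicit false
open Cfsg

namespace Cfsg.Agent.S3074

open Cfsg.Agent.LocalEven Cfsg.Agent.Glaub

/-- Let p be an odd prime. A Sylow p-subgroup of Qd(p), the split extension of an elementary abelian group of order p² by SL₂(p) acting naturally, is extraspecial of order p³ and exponent p. -/
theorem result (p : ℕ) [Fact p.Prime] (hp : p ≠ 2) (P : Sylow p ↥(Cfsg.qd p)) :
    Cfsg.IsExtraspecial p ↥P ∧ Nat.card P = p ^ 3 ∧ Monoid.exponent ↥P = p := by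
  revert P
  rw [show qd p = qdC (ZMod p) from rfl]
  intro P
  obtain ⟨h1, h2, h3⟩ := sylow_qd (isSylowIn_top P)
  have h4 : ∀ x : P, x ^ p = 1 := fun x => Subtype.ext (h3 hp x x.2)
  obtain ⟨h5, h6⟩ := PGrp.center_of_card_eq_cube h1 h2
  have hi := (P : Subgroup (qdC (ZMod p))).subtype_injective
  have h7 : commutator P = Subgroup.center P := by
    apply Subgroup.map_injective hi
    rw [commutator_def, Subgroup.map_commutator, center_map_subtype]
    exact (congrArg₂ _ (map_subtype_top _) (map_subtype_top _)).trans h6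
  haveI : Nontrivial P := Finite.one_lt_card_iff_nontrivial.1
    (h1 ▸ Nat.one_lt_pow three_ne_zero (Fact.out : p.Prime).one_lt)
  refine ⟨⟨⟨P.2, le_antisymm ((PGrp.frattini_le_iff P.2).2 ⟨h7.le, fun x => h4 x ▸ one_mem _⟩)
    (h7.ge.trans (PGrp.commutator_le_frattini P.2)), h7⟩, ?_⟩, h1,
    (Monoid.exponent_eq_prime_iff Fact.out).2 fun g hg => orderOf_eq_prime (h4 g) hg⟩
  rw [← center_map_subtype, card_map_subtype] at h5
  exact h5

end Cfsg.Agent.S3074
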