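import Mathlib
import Cfsg.Statements.S3075
import Cfsg.Agent.LocalEven.Conj
import Cfsg.Agent.Core.Super

set_option autoImplicit false
open Cfsg

namespace Cfsg.Agent.S3075

open Cfsg.Agent.LocalEven

open Subgroup
open scoped commutatorElement

theorem cyc_of_proper {N : Type*} [Group N] [Finite N] {p : ℕ} [Fact p.Prime] {A B : Subgroup N}
    (hA : Nat.card A = p ^ 2) (hBA : B ≤ A) (h1 : B ≠ ⊥) (h2 : B ≠ A) : IsCyclic B := by
  have hd : Nat.card B ∣ p ^ 2 := hA ▸ card_dvd_of_le hBA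
  obtain ⟨k, hk, hk'⟩ := (Nat.dvd_prime_pow Fact.out).1 hd
  have hk0 : k ≠ 0 := by
    rintro rfl
    exact h1 (card_eq_one.1 (by simpa using hk'))
  have hk2 : k ≠ 2 := by
    rintro rfl
    exact h2 (eq_of_le_of_card_ge hBA (by rw [hA, hk']))
  have : k = 1 := by omega
  subst this
  exact isCyclic_of_prime_card (p := p) (by simpa using hk')

/-- Let p be an odd prime and N a finite group with a normal elementary abelian subgroup A of order p² that is its own centralizer in N, such that N/A is isomorphic to SL₂(p) (over any field F with p elements). Then N splits over A: some subgroup U of N satisfies A ∩ U = 1 and AU = N. -/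
theorem result {N : Type*} [Group N] [Finite N] {p : ℕ} [Fact p.Prime] (hp : p ≠ 2)
    (A : Subgroup N) [A.Normal] (hAcomm : IsMulCommutative A) (hAcard : Nat.card A = p ^ 2) (hAexp : Monoid.exponent ↥A = p)
    (hAself : Subgroup.centralizer (A : Set N) = A)
    {F : Type*} [Field F] [Fintype F] (hF : Fintype.card F = p) (e : N ⧸ A ≃* Matrix.SpecialLinearGroup (Fin 2) F) :
    ∃ U : Subgroup N, A ⊓ U = ⊥ ∧ A ⊔ U = ⊤ := by
  have hpp : p.Prime := Fact.out
  obtain ⟨k, hk⟩ : Odd p := hpp.odd_of_ne_two hp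
  have hpow : ∀ a ∈ A, a ^ p = 1 := fun a ha => by
    have := Monoid.pow_exponent_eq_one (⟨a, ha⟩ : A)
    rw [hAexp] at this
    exact congrArg Subtype.val this
  have hcomm : ∀ a ∈ A, ∀ b ∈ A, a * b = b * a := fun a ha b hb =>
    congrArg Subtype.val (hAcomm.is_comm.comm (⟨a, ha⟩ : A) ⟨b, hb⟩)
  have h2F : (2 : F) ≠ 0 := by
    intro h
    have hc : (Fintype.card F : F) = 0 := FiniteField.cast_card_eq_zero F
    rw [hF, hk] at hc
    push_cast at hc
    rw [h] at hc
    simp at hc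
  set φ : N →* Matrix.SpecialLinearGroup (Fin 2) F := e.toMonoidHom.comp (QuotientGroup.mk' A)
    with hφ
  have hφs : Function.Surjective φ := e.surjective.comp (QuotientGroup.mk'_surjective A)
  have hφk : ∀ x, φ x = 1 ↔ x ∈ A := fun x => by
    show e (x : N ⧸ A) = 1 ↔ _
    rw [e.map_eq_one_iff, QuotientGroup.eq_one_iff]
  obtain ⟨n, hn⟩ := hφs (-1)
  have hn2 : n ^ 2 ∈ A := (hφk _).1 (by rw [map_pow, hn]; simp)
  set t := n ^ p with ht
  have htt : t * t = 1 := by
    rw [ht, ← pow_add, ← two_mul, pow_mul]; exact hpow _ hn2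
  have hφt : φ t = -1 := by
    rw [ht, map_pow, hn, hk, pow_succ, pow_mul]; simp
  have htA : t ∉ A := fun h => by
    have h1 := (hφk t).2 h
    rw [hφt] at h1
    have h2 := congrArg (fun M : Matrix.SpecialLinearGroup (Fin 2) F => M.1 0 0) h1
    simp at h2
    apply h2F
    linear_combination -h2
  have hti : t⁻¹ = t := inv_eq_of_mul_eq_one_right htt
  have hconj : ∀ g : N, g * t * g⁻¹ * t ∈ A := fun g => (hφk _).1 (by
    simp only [map_mul, map_inv, hφt]; simp)
  have hN : A.Normal := inferInstance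
  -- the fixed points and the inverted points
  let B : Subgroup N := A ⊓ centralizer {t}
  let D : Subgroup N :=
    { carrier := {x | x ∈ A ∧ t * x * t = x⁻¹}
      one_mem' := ⟨one_mem _, by simp [htt]⟩
      mul_mem' := fun {a b} ha hb => ⟨mul_mem ha.1 hb.1, by
        calc t * (a * b) * t = (t * a * t) * (t * b * t) := by
              rw [show (t * a * t) * (t * b * t) = t * a * (t * t) * b * t by group, htt]; group
          _ = a⁻¹ * b⁻¹ := by rw [ha.2, hb.2]
          _ = (a * b)⁻¹ := by rw [hcomm a ha.1 b hb.1, mul_inv_rev]⟩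
      inv_mem' := fun {a} ha => ⟨inv_mem ha.1, by
        have := congrArg (·⁻¹) ha.2
        simp only [mul_inv_rev, hti] at this
        rw [← this]; group⟩ }
  have key : ∀ g x : N, x ∈ A → t * (g * x * g⁻¹) * t = g * (t * x * t) * g⁻¹ := by
    intro g x hx
    have ha := hconj g⁻¹
    have h1 := hcomm _ ha _ (hN.conj_mem x hx t)
    rw [hti] at h1
    have h2 : g⁻¹ * t * g = g⁻¹ * t * g⁻¹⁻¹ * t * t := by
      rw [mul_assoc _ t t, htt]; group
    have h3 : g⁻¹ * t * g = t * (g⁻¹ * t * g⁻¹⁻¹ * t)⁻¹ := by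
      simp only [mul_inv_rev, hti, inv_inv]
      rw [← mul_assoc, htt]; group
    calc t * (g * x * g⁻¹) * t = g * ((g⁻¹ * t * g) * x * (g⁻¹ * t * g)) * g⁻¹ := by group
      _ = g * ((g⁻¹ * t * g⁻¹⁻¹ * t * t) * x * (t * (g⁻¹ * t * g⁻¹⁻¹ * t)⁻¹)) * g⁻¹ := by
          rw [← h2, ← h3]
      _ = g * ((g⁻¹ * t * g⁻¹⁻¹ * t * (t * x * t)) * (g⁻¹ * t * g⁻¹⁻¹ * t)⁻¹) * g⁻¹ := by group
      _ = g * (t * x * t) * g⁻¹ := by rw [h1]; group
  have hBmem : ∀ x, x ∈ B ↔ x ∈ A ∧ t * x * t = x := fun x => by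
    constructor
    · rintro ⟨h1, h2⟩
      refine ⟨h1, ?_⟩
      have := mem_centralizer_singleton_iff.1 h2
      rw [← this, mul_assoc, htt, mul_one]
    · rintro ⟨h1, h2⟩
      refine ⟨h1, mem_centralizer_singleton_iff.2 ?_⟩
      calc x * t = t * x * t * t := by rw [h2]
        _ = t * x := by rw [mul_assoc, htt, mul_one]
  have hBn : B.Normal := ⟨fun x hx g => by
    rw [hBmem] at hx ⊢
    exact ⟨hN.conj_mem x hx.1 g, by rw [key g x hx.1, hx.2]⟩⟩
  have hDn : D.Normal := ⟨fun x hx g => ⟨hN.conj_mem x hx.1 g, by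
    rw [key g x hx.1, hx.2]; group⟩⟩
  have hdec : ∀ x ∈ A, ∃ b ∈ B, ∃ d ∈ D, x = b * d := by
    intro x hx
    have hx' : t * x * t ∈ A := by have := hN.conj_mem x hx t; rwa [hti] at this
    have hb : x * (t * x * t) ∈ B := (hBmem _).2 ⟨mul_mem hx hx', by
      calc t * (x * (t * x * t)) * t = t * x * t * x * (t * t) := by group
        _ = _ := by rw [htt, mul_one, hcomm x hx _ hx']⟩
    have hd : x * (t * x * t)⁻¹ ∈ D := ⟨mul_mem hx (inv_mem hx'), by
      calc t * (x * (t * x * t)⁻¹) * t = t * x * t⁻¹ * x⁻¹ * (t⁻¹ * t) := by group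
        _ = t * x * t * x⁻¹ := by rw [hti, htt, mul_one]
        _ = _ := by rw [mul_inv_rev, inv_inv]⟩
    refine ⟨_, pow_mem hb (k + 1), _, pow_mem hd (k + 1), ?_⟩
    have hc : Commute (x * (t * x * t)) (x * (t * x * t)⁻¹) := hcomm _ hb.1 _ hd.1
    rw [← hc.mul_pow]
    have : x * (t * x * t) * (x * (t * x * t)⁻¹) = x ^ 2 := by
      rw [mul_assoc x, ← mul_assoc (t * x * t), ← hcomm x hx _ hx', pow_two]; group
    rw [this, ← pow_mul, show 2 * (k + 1) = p + 1 by omega, pow_succ, hpow x hx, one_mul]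
  have hBA : B ≠ A := fun h => htA (by
    rw [← hAself]
    intro a ha
    have : a ∈ B := h ▸ ha
    exact mem_centralizer_singleton_iff.1 this.2)
  have hB : B = ⊥ := by
    by_contra hB
    have hD1 : D ≠ ⊥ := fun h => hBA (le_antisymm inf_le_left fun x hx => by
      obtain ⟨b, hb, d, hd, rfl⟩ := hdec x hx
      rw [h, mem_bot] at hd
      rw [hd, mul_one]; exact hb)
    have hDA : D ≠ A := fun h => hB (eq_bot_iff.2 fun x hx => by
      have hxD : x ∈ D := h ▸ hx.1
      have h1 := ((hBmem x).1 hx).2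
      have h2 : x⁻¹ = x := hxD.2.symm.trans h1
      have h3 : x ^ 2 = 1 := by rw [pow_two]; nth_rewrite 1 [← h2]; simp
      have h4 := hpow x hx.1
      rw [hk, pow_succ, pow_mul, h3, one_pow, one_mul] at h4
      exact mem_bot.2 h4)
    have c1 := cyc_of_proper hAcard (B := B) inf_le_left hB hBA
    have c2 := cyc_of_proper hAcard (B := D) (fun x hx => hx.1) hD1 hDA
    have d1 := Core.commutator_le_centralizer_of_isCyclic B
    have d2 := Core.commutator_le_centralizer_of_isCyclic D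
    have hle : _root_.commutator N ≤ A := by
      rw [← hAself]
      intro c hc a ha
      obtain ⟨b, hb, d, hd, rfl⟩ := hdec a ha
      rw [mul_assoc, d2 hc d hd, ← mul_assoc, d1 hc b hb, mul_assoc]
    obtain ⟨u, hu⟩ := hφs ⟨!![1, 1; 0, 1], by simp [Matrix.det_fin_two]⟩
    obtain ⟨v, hv⟩ := hφs ⟨!![1, 0; 1, 1], by simp [Matrix.det_fin_two]⟩
    have h1 : φ ⁅u, v⁆ = 1 := (hφk _).2 (hle (commutator_mem_commutator (mem_top u) (mem_top v)))
    rw [map_commutatorElement, commutatorElement_eq_one_iff_mul_comm, hu, hv] at h1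
    have h2 : (!![1, 1; 0, 1] * !![1, 0; 1, 1] : Matrix (Fin 2) (Fin 2) F) 0 0 =
        (!![1, 0; 1, 1] * !![1, 1; 0, 1] : Matrix (Fin 2) (Fin 2) F) 0 0 :=
      congrArg (fun M : Matrix.SpecialLinearGroup (Fin 2) F => M.1 0 0) h1
    simp at h2
  refine ⟨centralizer {t}, hB, eq_top_iff.2 fun g _ => ?_⟩
  have ha := hconj g
  set a := g * t * g⁻¹ * t with hadef
  have hta : t * a * t = a⁻¹ := by
    rw [hadef]; simp only [mul_inv_rev, hti, inv_inv]
    calc t * (g * t * g⁻¹ * t) * t = t * g * t * g⁻¹ * (t * t) := by group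
      _ = _ := by rw [htt]; group
  have hb : a ^ (k + 1) * t * (a ^ (k + 1))⁻¹ = g * t * g⁻¹ := by
    have h1 : t * (a ^ (k + 1))⁻¹ * t = a ^ (k + 1) := by
      have : t * a * t⁻¹ = a⁻¹ := by rw [hti, hta]
      have h2 : t * a ^ (k + 1) * t⁻¹ = (a ^ (k + 1))⁻¹ := by
        rw [← conj_pow, this, inv_pow]
      rw [← h2, hti]
      calc t * (t * a ^ (k + 1) * t) * t = (t * t) * a ^ (k + 1) * (t * t) := by group
        _ = _ := by rw [htt]; group
    calc a ^ (k + 1) * t * (a ^ (k + 1))⁻¹ = a ^ (k + 1) * (t * (a ^ (k + 1))⁻¹ * t) * t := by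
          rw [mul_assoc (a ^ (k+1)) (_ * t) t, mul_assoc _ t t, htt]; group
      _ = a ^ (p + 1) * t := by rw [h1, ← pow_add, show k + 1 + (k + 1) = p + 1 by omega]
      _ = a * t := by rw [pow_succ, hpow a ha, one_mul]
      _ = _ := by rw [hadef, mul_assoc, htt, mul_one]
  have hc : (a ^ (k + 1))⁻¹ * g ∈ centralizer ({t} : Set N) := by
    rw [mem_centralizer_singleton_iff]
    calc (a ^ (k + 1))⁻¹ * g * t = (a ^ (k + 1))⁻¹ * (g * t * g⁻¹) * g := by group
      _ = _ := by rw [← hb]; group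
  have := mul_mem (mem_sup_left (pow_mem ha (k + 1))) (mem_sup_right hc :
    (a ^ (k + 1))⁻¹ * g ∈ A ⊔ centralizer ({t} : Set N))
  simpa using this

end Cfsg.Agent.S3075
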