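import Mathlib
import Cfsg.Statements.S3076
import Cfsg.Agent.LocalEven.Iso
import Cfsg.Agent.Core.PConstrained

set_option autoImplicit false
open Cfsg

namespace Cfsg.Agent.S3076

open Cfsg.Agent.LocalEven

open Subgroup

theorem le_comap_pCore_iff {L : Type*} [Group L] {p : ℕ} {C M : Subgroup L} [C.Normal]
    [hM : M.Normal] : M ≤ (pCore p (L ⧸ C)).comap (QuotientGroup.mk' C) ↔
      ∀ x ∈ M, ∃ k, x ^ p ^ k ∈ C := by
  constructor
  · intro h x hx
    obtain ⟨k, hk⟩ := isPGroup_iff_mem.1 isPGroup_pCore _ (h hx)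
    exact ⟨k, (QuotientGroup.eq_one_iff _).1 (by rw [← hk]; rfl)⟩
  · intro h
    refine map_le_iff_le_comap.1 (le_pCore (hM.map _ (QuotientGroup.mk'_surjective C))
      (isPGroup_iff_mem.2 ?_))
    rintro _ ⟨x, hx, rfl⟩
    obtain ⟨k, hk⟩ := h x hx
    exact ⟨k, by rw [← map_pow]; exact (QuotientGroup.eq_one_iff _).2 hk⟩

theorem aux {L : Type*} [Group L] [Finite L] {p : ℕ} [Fact p.Prime] {H T C : Subgroup L}
    [hH : H.Normal] [C.Normal] (hC : C = centralizer (H : Set L)) (hT : IsSylowIn p T ⊤)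
    (hHT : H ≤ T) : IsSylowIn p H ((pCore p (L ⧸ C)).comap (QuotientGroup.mk' C)) ↔
      (T ⊓ C ≤ H ∧ pPrimePCore p L = H ⊔ C) := by
  set N := (pCore p (L ⧸ C)).comap (QuotientGroup.mk' C) with hN
  have hp := hT.pgrp.to_le hHT
  have hCN : C ≤ N := le_comap_pCore_iff.2 fun x hx => ⟨0, by simpa using hx⟩
  have hHN : H ≤ N := le_comap_pCore_iff.2 fun x hx =>
    (isPGroup_iff_mem.1 hp x hx).imp fun k hk => by rw [hk]; exact one_mem _
  have hNC := le_comap_pCore_iff.1 (le_refl N)
  have hTC := hT.inf_of_le_normalizer le_top (normalizer_eq_top C).ge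
  constructor
  · intro h
    have h1 : T ⊓ C ≤ H := h.le_of_le_normalizer' (inf_le_right.trans hCN) hTC.pgrp
      (le_top.trans (normalizer_eq_top H).ge)
    have h2 : N ≤ H ⊔ C := h.pResOf_sup.ge.trans
      (sup_le (le_sup_of_le_right (pResOf_le_of_pow_mem hNC)) le_sup_left)
    have h3 : H ≤ pPrimePCore p L := (le_pCore hH hp).trans (Core.pCore_le_pPrimePCore p)
    haveI := pResOf_normal (p := p) C
    refine ⟨h1, le_antisymm (le_trans (le_comap_pCore_iff.2 fun x hx => ?_) h2) (sup_le h3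
      (hTC.pResOf_sup.ge.trans (sup_le ((Core.le_pPrimeCore inferInstance
        (coprime_pResOf_of_burnside hTC (inf_le_left.trans (hC.le.trans (centralizer_le h1))))).trans
        (Core.pPrimeCore_le_pPrimePCore p)) (h1.trans h3))))⟩
    obtain ⟨k, hk⟩ := le_comap_pCore_iff.1 (le_refl (pPrimePCore p L)) x hx
    exact ⟨k, hC ▸ centralizer_le (le_pCore hH hp) (Core.pPrimeCore_le_centralizer_pCore p hk)⟩
  · rintro ⟨h1, h2⟩
    have h3 : N ≤ (pCore p (L ⧸ pPrimePCore p L)).comap (QuotientGroup.mk' _) :=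
      le_comap_pCore_iff.2 fun x hx => (hNC x hx).imp fun k hk => h2 ▸ mem_sup_right hk
    rw [Core.pCore_quotient_pPrimePCore, MonoidHom.comap_bot, QuotientGroup.ker_mk', h2] at h3
    have h4 := hT.inf_of_le_normalizer le_top (normalizer_eq_top N).ge
    rwa [show T ⊓ N = H by
      rw [le_antisymm h3 (sup_le hHN hCN), inf_comm,
        inf_sup_of_le_normalizer (le_top.trans (normalizer_eq_top C).ge) hHT, inf_comm,
        sup_eq_left.2 h1]] at h4

/-- Let P be a Sylow p-subgroup of the finite group G and H ≤ P a subgroup with N_P(H) a Sylow p-subgroup of N_G(H). Let N be the preimage in N_G(H) of O_p(N_G(H)/C_G(H)). Then H is a Sylow p-subgroup of N if and only if C_P(H) ≤ H and O_{p',p}(N_G(H)) = H·C_G(H). -/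
theorem result {G : Type*} [Group G] [Finite G] {p : ℕ} [Fact p.Prime]
    (P : Sylow p G) (H : Subgroup G) (hHP : H ≤ (P : Subgroup G))
    (hSyl : ¬ p ∣ ((P : Subgroup G) ⊓ Subgroup.normalizer (H : Set G)).relIndex (Subgroup.normalizer (H : Set G)))
    [hC : ((Subgroup.centralizer (H : Set G)).subgroupOf (Subgroup.normalizer (H : Set G))).Normal] :
    (H ≤ ((Cfsg.pCore p (↥(Subgroup.normalizer (H : Set G)) ⧸
              (Subgroup.centralizer (H : Set G)).subgroupOf (Subgroup.normalizer (H : Set G)))).comap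
            (QuotientGroup.mk' _)).map (Subgroup.normalizer (H : Set G)).subtype ∧
      ¬ p ∣ H.relIndex (((Cfsg.pCore p (↥(Subgroup.normalizer (H : Set G)) ⧸
              (Subgroup.centralizer (H : Set G)).subgroupOf (Subgroup.normalizer (H : Set G)))).comap
            (QuotientGroup.mk' _)).map (Subgroup.normalizer (H : Set G)).subtype)) ↔
    ((P : Subgroup G) ⊓ Subgroup.centralizer (H : Set G) ≤ H ∧
      (Cfsg.pPrimePCore p ↥(Subgroup.normalizer (H : Set G))).map (Subgroup.normalizer (H : Set G)).subtype =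
        H ⊔ Subgroup.centralizer (H : Set G)) := by
  set L := normalizer (H : Set G) with hL
  have hHL : H ≤ L := le_normalizer
  have hCL : centralizer (H : Set G) ≤ L := centralizer_le_normalizer' H
  haveI : (H.subgroupOf L).Normal := normal_subgroupOf_of_le_normalizer le_rfl
  have hT := (isSylowIn_of_not_dvd inf_le_right (P.2.to_le inf_le_left) hSyl).subgroupOf le_rfl
  rw [subgroupOf_self] at hT
  have key := aux (centralizer_subgroupOf hHL).symm hT (comap_mono (le_inf hHP hHL))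
  rw [← isSylowIn_map_iff L.subtype (subtype_injective L), map_subgroupOf_eq_of_le hHL,
    isSylowIn_iff_not_dvd] at key
  rw [show (∀ A B : Prop, A ∧ B ↔ A ∧ IsPGroup p H ∧ B) from
    fun A B => ⟨fun h => ⟨h.1, P.2.to_le hHP, h.2⟩, fun h => ⟨h.1, h.2.2⟩⟩, key]
  refine and_congr ⟨fun h x hx => h (show (⟨x, hCL hx.2⟩ : L) ∈ _ from ⟨⟨hx.1, hCL hx.2⟩, hx.2⟩),
    fun h x hx => h ⟨hx.1.1, hx.2⟩⟩ ?_
  rw [← (map_injective (subtype_injective L)).eq_iff, Subgroup.map_sup, map_subgroupOf_eq_of_le hHL,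
    map_subgroupOf_eq_of_le hCL]

end Cfsg.Agent.S3076
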