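import Mathlib
import Cfsg.Statements.S3078
import Cfsg.Agent.LocalEven.Resid
import Cfsg.Agent.PLocal.ZJ
import Cfsg.Agent.Transfer.Replacement

set_option autoImplicit false
open Cfsg

namespace Cfsg.Agent.S3078

open Cfsg.Agent.LocalEven

open Subgroup PLocal

theorem phi_pow {G : Type*} [Group G] {A B : Subgroup G} {b : G} (h : ReplHyp A B b) {n : ℕ}
    (hn : Odd n) {a : G} (ha : a ∈ A) (han : a ^ n = 1) : (a * b⁻¹ * a⁻¹ * b) ^ n = 1 := by
  have e : a * b⁻¹ * a⁻¹ * b = a * (b⁻¹ * a⁻¹ * b) := by group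
  obtain ⟨h1, h2⟩ := h.comm_conj_mem ha (A.inv_mem ha)
  rw [e]
  refine PGrp.mul_pow_eq_one_of_commute_of_odd hn ?_ ?_ han ?_
  · rw [← commutatorElement_inv]
    exact Commute.inv_right (h.mul_comm' ha h1)
  · rw [← commutatorElement_inv]
    exact Commute.inv_right (h.C_comm h2 (A.inv_mem ha)).symm
  · have := conj_pow (a := b⁻¹) (b := a⁻¹) (i := n)
    rw [inv_inv] at this
    rw [this, inv_pow, han]; group

/-- A replacement Theorem for abelian subgroups of p-groups, p odd. Let G be a finite p-group with p odd, A an abelian subgroup of G, and B a subgroup of nilpotency class at most 2 with [B, B] ≤ A, such that A normalizes B but B does not normalize A. Then there is an abelian subgroup A* of G of the same order as A with A ∩ B strictly contained in A* ∩ B, A* contained in N_G(A) and in the normal closure of A, the exponent of A* dividing the exponent of A, and with the subgroup generated by the elements of order dividing p in A of order at most that of the corresponding subgroup of A* (the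 rank of A is at most the rank of A*). -/
theorem result {G : Type*} [Group G] [Finite G] {p : ℕ} [Fact p.Prime] (hp : p ≠ 2) (hG : IsPGroup p G) (A B : Subgroup G) (hA : IsMulCommutative A) (hB2 : ⁅⁅B, B⁆, B⁆ = ⊥) (hBA : ⁅B, B⁆ ≤ A) (hAB : A ≤ Subgroup.normalizer (B : Set G)) (hBnA : ¬ B ≤ Subgroup.normalizer (A : Set G)) : ∃ Astar : Subgroup G, IsMulCommutative Astar ∧ Nat.card Astar = Nat.card A ∧ A ⊓ B < Astar ⊓ B ∧ Astar ≤ Subgroup.normalizer (A : Set G) ∧ Astar ≤ Subgroup.normalClosure (A : Set G) ∧ Monoid.exponent Astar ∣ Monoid.exponent A ∧ Nat.card (Cfsg.omegaOne p A) ≤ Nat.card (Cfsg.omegaOne p Astar) := by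
  have hn : A ⊔ B ≤ normalizer (B : Set G) := sup_le hAB le_normalizer
  obtain ⟨b, hb, hbN, hbA⟩ := exists_mem_normalizer_not_mem (S := A ⊔ B)
    (N := (A ⊔ B) ⊓ normalizer (A : Set G)) (hG.to_subgroup _) le_sup_right
    inf_le_left (inf_le_left.trans hn) fun h => hBnA (h.trans inf_le_right)
  have hbA' : b ∉ normalizer (A : Set G) := fun h => hbA ⟨mem_sup_right hb, h⟩
  have h : ReplHyp A B b := replHyp_of_normalizer hA hBA hb hAB
    (le_inf le_sup_left le_normalizer) inf_le_right hbN
  have hc : IsMulCommutative (repl A b) :=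
    h.repl_comm (Or.inr fun w _ => eq_one_of_sq_of_isPGroup hp (hG.to_subgroup ⊤) (mem_top w))
  have hodd : Odd p := (Fact.out : p.Prime).odd_of_ne_two hp
  refine ⟨repl A b, hc, h.card_repl, h.not_le hbA', h.repl_le_normalizer,
    le_sup_right.trans (ReplHyp.sup_repl.le.trans (sup_le le_normalClosure
      (cj_le_of_mem_normalizer (le_normalizer_of_normal (K := ⊤) trivial) le_normalClosure))),
    Monoid.exponent_dvd_of_forall_pow_eq_one fun g => Subtype.ext ?_, ?_⟩
  · refine h.pow_eq_one hc ?_ (fun a ha => congrArg Subtype.val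
      (Monoid.pow_exponent_eq_one (⟨a, ha⟩ : A))) g.2
    obtain ⟨k, hk⟩ := IsPGroup.iff_card.1 (hG.to_subgroup A)
    exact (hodd.pow (n := k)).of_dvd_nat (hk ▸ Group.exponent_dvd_nat_card)
  · have h1 := Transfer.card_le_mul_of_forall (A := omegaOne p A) (B := omegaOne p A ⊓ cj b⁻¹ A)
      (W := omegaOne p (repl A b)) (C := omegaOne p A ⊓ cj b⁻¹ A) inf_le_left
      (fun c hc' => mem_omegaOne (h.C_mem (omegaOne_le A hc'.1) (mem_cj_inv.1 hc'.2))
        (pow_eq_one_of_mem_omegaOne hA hc'.1)) (fun a => a * b⁻¹ * a⁻¹ * b)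
      (fun a ha => mem_omegaOne (ReplHyp.phi_mem_repl (omegaOne_le A ha))
        (phi_pow h hodd (omegaOne_le A ha) (pow_eq_one_of_mem_omegaOne hA ha)))
      (fun x hx y hy hxy => mem_inf.2 ⟨mul_mem (inv_mem hx) hy, mem_cj_inv.2 (by
        have := mul_mem (mul_mem (inv_mem (omegaOne_le A hx)) (mem_cj_inv.1 hxy.2))
          (omegaOne_le A hy)
        convert this using 1; group)⟩)
    rw [mul_comm] at h1
    exact Nat.le_of_mul_le_mul_left h1 Nat.card_pos

end Cfsg.Agent.S3078
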