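import Mathlib
import Cfsg.Statements.S3082
import Cfsg.Agent.Glaub.ZJD

set_option autoImplicit false
open Cfsg

namespace Cfsg.Agent.S3082

open Cfsg.Agent.LocalEven

open Subgroup PLocal

theorem main {G : Type*} [Group G] [Finite G] {p : ℕ} [Fact p.Prime] (hp : p ≠ 2) {n : ℕ}
    (hn : n = 0 ∨ n = p) (P : Sylow p G) (D : Subgroup G)
    (hD : IsStronglyClosed D (P : Subgroup G))
    (h : HasNormalPComplement p (normalizer (zOf (jn n D) : Set G))) :
    HasNormalPComplement p G := by
  refine Transfer.thompson_reduction (fun _ _ => True) (fun _ _ _ _ _ => trivial)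
    (fun _ _ _ _ _ _ => trivial)
    (fun X _ S => ∃ E : Subgroup X, IsStronglyClosed E (S : Subgroup X) ∧
      HasNormalPComplement p (normalizer (zOf (jn n E) : Set X))) ?_ ?_ ?_ ?_ G trivial P ⟨D, hD, h⟩
  · intro X _ _ S hS hC
    refine ⟨S, ⟨le_rfl, fun _ _ _ h => h⟩, ?_⟩
    haveI : Nontrivial (S : Subgroup X) := (nontrivial_iff_ne_bot _).2 hS
    have h1 := hC (zOf (jn n ⊤)) (Transfer.characteristic_of_isCharPFunctor
      (isCharPFunctor_zOf_jn hn) S.2) (zOf_jn_ne_bot hn (S.2.to_subgroup ⊤) top_ne_bot)
    rwa [map_zOf _ (by simp), map_jn _ (subtype_injective _), map_top_subtype] at h1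
  · rintro X _ _ S H hSH ⟨E, hE, h1⟩
    refine ⟨E.subgroupOf H, Glaub.sc_subgroupOf hE H, ?_⟩
    refine Transfer.hasNormalPComplement_normalizer_of_map H.subtype (subtype_injective _) ?_
    rwa [map_zOf _ (by simp), map_jn _ (subtype_injective _),
      map_subgroupOf_eq_of_le (hE.1.trans hSH)]
  · rintro X _ _ S N _ hN ⟨E, hE, h1⟩
    refine ⟨E.map (QuotientGroup.mk' N), Glaub.sc_map hE (isSylowIn_top S)
      (QuotientGroup.mk'_surjective N), ?_⟩
    have hEp : IsPGroup p E := S.2.to_le hE.1
    rw [← Glaub.map_zj _ (by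
      rw [QuotientGroup.ker_mk']
      exact eq_bot_of_not_dvd (hEp.to_le inf_le_left) inf_le_right hN)]
    exact Transfer.hasNormalPComplement_normalizer_map_mk'
      (hEp.to_le ((zOf_le _).trans (jn_le E))) N hN h1
  · rintro X _ _ S - ⟨E, hE, h1⟩ hT
    haveI := Glaub.zjd_normal hp hn (noQuadPair_of_thompsonMin hp hT).stabP hT.centralizer_le
      (isSylowIn_top S) hE
    rw [normalizer_eq_top] at h1
    exact hT.not_npc (Transfer.hasNormalPComplement_of_mulEquiv topEquiv h1)

/-- The Glauberman–Thompson normal p-complement criterion for strongly closed subgroups, p odd. Let G be a finite group, P a Sylow p-subgroup and D a subgroup of P strongly closed in P with respect to G. If N_G(Z(J(D))) has a normal p-complement (J(D) generated by the abelian subgroups of D of largest order), or N_G(Ω₁(Z(J_e(D)))) has one (J_e(D) generated by the elementary abelian subgroups of largest order), then G has a normal p-complement. -/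
theorem result {G : Type*} [Group G] [Finite G] {p : ℕ} [Fact p.Prime] (hp : p ≠ 2) (P : Sylow p G) (D : Subgroup G) (hD : Cfsg.IsStronglyClosed D (P : Subgroup G)) (h : Cfsg.HasNormalPComplement p ↥(Subgroup.normalizer ((Cfsg.centerThompsonAOf D) : Set G)) ∨ Cfsg.HasNormalPComplement p ↥(Subgroup.normalizer ((Cfsg.omegaOne p (Cfsg.centerThompsonOf p D)) : Set G))) : Cfsg.HasNormalPComplement p G := by
  rw [centerThompsonAOf_eq, centerThompsonOf_eq] at h
  rcases h with h | h
  · exact main hp (Or.inl rfl) P D hD h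
  · exact main hp (Or.inr rfl) P D hD
      (Transfer.hasNormalPComplement_of_le PGrp.normalizer_le_normalizer_omegaOne h)

end Cfsg.Agent.S3082
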