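import Mathlib
import Cfsg.Statements.S3117
import Cfsg.Agent.Gp.Three
-- import your own Cfsg.Agent.* helpers here

set_option autoImplicit false
open Cfsg

namespace Cfsg.Agent.S3117

/-- If X is a finite 2-group containing exactly three involutions, then the automorphism group of X is solvable. -/
theorem result {X : Type*} [Group X] [Finite X] (h2 : IsPGroup 2 X) (h3 : Nat.card {x : X // orderOf x = 2} = 3) : Group.IsSolvable (MulAut X) := by
  haveI : Fact (Nat.Prime 2) := ⟨Nat.prime_two⟩
  have h3' : {x : X | orderOf x = 2}.ncard = 3 := h3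
  have e : {x : X | x * x = 1} = insert 1 {x : X | orderOf x = 2} := by
    ext x
    simp only [Set.mem_setOf_eq, Set.mem_insert_iff, orderOf_eq_prime_iff, pow_two]
    by_cases h : x = 1 <;> simp [h]
  have h4 : {x : X | x * x = 1}.ncard = 4 := by
    rw [e, Set.ncard_insert_of_notMem (by simp), h3']
  refine Gp.Three.solv_of_comm h2 (fun x y hx hy => ?_) h4.le
  by_contra hxy
  have x1 : x ≠ 1 := fun e => hxy (by simp [e])
  have y1 : y ≠ 1 := fun e => hxy (by simp [e])
  haveI : Nontrivial X := ⟨x, 1, x1⟩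
  haveI := h2.center_nontrivial
  obtain ⟨z, hz⟩ := exists_prime_orderOf_dvd_card' (G := Subgroup.center X) 2 (by
    obtain ⟨n, hn, e⟩ := (h2.to_subgroup (Subgroup.center X)).nontrivial_iff_card.mp inferInstance
    exact e ▸ dvd_pow_self 2 hn.ne')
  obtain ⟨z2, z1⟩ := orderOf_eq_prime_iff.mp ((Subgroup.orderOf_coe z).trans hz)
  rw [pow_two] at z2
  have hc := Subgroup.mem_center_iff.mp z.2
  have h5 : ({1, x, y, (z : X), x * z} : Set X) ⊆ {x : X | x * x = 1} := by
    rintro w (rfl | rfl | rfl | rfl | rfl)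
    exacts [mul_one 1, hx, hy, z2, by
      show x * z * (x * z) = 1
      rw [mul_assoc, ← mul_assoc (z : X), ← hc, mul_assoc, z2, mul_one, hx]]
  have h6 := Set.ncard_le_ncard h5 (Set.toFinite _)
  have xy : x ≠ y := fun e => hxy (by rw [e])
  have xz : x ≠ z := fun e => hxy (by rw [e, hc])
  have yz : y ≠ z := fun e => hxy (by rw [e, hc])
  have a1 : 1 ≠ x * z := fun e => xz (by rw [eq_inv_of_mul_eq_one_left e.symm, ← eq_inv_of_mul_eq_one_left z2])
  have a2 : x ≠ x * z := fun e => z1 (left_eq_mul.mp e)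
  have a3 : y ≠ x * z := fun e => hxy (by rw [e, mul_assoc, ← hc, ← mul_assoc])
  have a4 : (z : X) ≠ x * z := fun e => x1 (right_eq_mul.mp e)
  rw [Set.ncard_insert_of_notMem (by simp [x1.symm, y1.symm, z1.symm, a1]),
    Set.ncard_insert_of_notMem (by simp only [Set.mem_insert_iff, Set.mem_singleton_iff]; tauto),
    Set.ncard_insert_of_notMem (by simp only [Set.mem_insert_iff, Set.mem_singleton_iff]; tauto),
    Set.ncard_pair a4, h4] at h6
  omega

end Cfsg.Agent.S3117
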