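import Mathlib
import Cfsg.Statements.S3153
import Cfsg.Agent.S0205
import Cfsg.Agent.BG.Rank2
import Cfsg.Agent.Inv.Four
import Cfsg.Agent.Core.CoprimeGen
import Cfsg.Agent.Comp2.PComponent
import Cfsg.Agent.Comp2.GenFitting
-- import your own Cfsg.Agent.* helpers here

set_option autoImplicit false
open Cfsg

namespace Cfsg.Agent.S3153

open Subgroup Cfsg.Agent.BG.Rank Cfsg.Agent.Inv

variable {G : Type*} [Group G] [Finite G]

theorem uniq {K : Subgroup G} (hr : PRankLE 2 1 K) {a b : G} (ha : a ∈ K) (hb : b ∈ K)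
    (ha2 : orderOf a = 2) (hb2 : orderOf b = 2) (hab : Commute a b) : a = b := by
  by_contra hne
  have h4 := isKleinFour_closure ha2 hb2 hab hne
  have := card_le_of_pRankLE hr (A := closure ({a, b} : Set G))
    ((closure_le _).2 (by rintro x (rfl | rfl) <;> assumption))
    (elem_of (fun x hx y hy => (four_commute h4 hy hx).eq)
      fun x hx => by rw [pow_two]; exact four_mul_self h4 hx)
  rw [h4.card_four] at this
  norm_num at this

omit [Finite G] in
theorem dich {P N H : Subgroup G} [N.Normal] (hP : IsQuasisimple P) (hHN : H ≤ N)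
    (hH : H ≤ normalizer (P : Set G)) : P ≤ N ∨ H ≤ centralizer (P : Set G) := by
  rcases Comp2.quasisimple_commutator_eq_or_eq_bot hP hH with h | h
  · left
    rw [← h]
    exact (commutator_mono le_rfl hHN).trans (commutator_le_right _ _)
  · right
    rwa [commutator_comm, commutator_eq_bot_iff_le_centralizer] at h

/-- Let X be a finite group and P a standard subgroup of X whose centralizer has 2-rank at most 1 and whose centre has odd order. Let S be a Sylow 2-subgroup of N_X(P) and t an involution of S centralizing P. Suppose some element g of X normalizes S, does not lie in S, has its square in S, and conjugates t into P·C_X(P). Then P commutes elementwise with the largest normal odd-order subgroup O(X) of X; consequently every t-invariant 2-component of X containing P is quasisimple. -/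
theorem result {X : Type*} [Group X] [Finite X] (P : Subgroup X) (hP : Cfsg.IsStandardSubgroup P)
    (hr : Cfsg.PRankLE 2 1 ↥(Subgroup.centralizer (P : Set X))) (hZ : Odd (Nat.card ↥(Subgroup.center ↥P)))
    (S : Sylow 2 ↥(Subgroup.normalizer (P : Set X))) (t : X) (ht : orderOf t = 2) (htS : t ∈ (S : Subgroup ↥(Subgroup.normalizer (P : Set X))).map (Subgroup.normalizer (P : Set X)).subtype)
    (htP : t ∈ Subgroup.centralizer (P : Set X))
    (g : X) (hgN : ∀ s ∈ (S : Subgroup ↥(Subgroup.normalizer (P : Set X))).map (Subgroup.normalizer (P : Set X)).subtype, g * s * g⁻¹ ∈ (S : Subgroup ↥(Subgroup.normalizer (P : Set X))).map (Subgroup.normalizer (P : Set X)).subtype)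
    (hgS : g ∉ (S : Subgroup ↥(Subgroup.normalizer (P : Set X))).map (Subgroup.normalizer (P : Set X)).subtype) (hg2 : g ^ 2 ∈ (S : Subgroup ↥(Subgroup.normalizer (P : Set X))).map (Subgroup.normalizer (P : Set X)).subtype)
    (hgt : g * t * g⁻¹ ∈ P ⊔ Subgroup.centralizer (P : Set X)) :
    ⁅P, Cfsg.oddCore X⁆ = ⊥ ∧
      ∀ L : Subgroup X, Cfsg.IsPComponent 2 L → P ≤ L → (∀ l ∈ L, t * l * t⁻¹ ∈ L) → Cfsg.IsQuasisimple ↥L := by
  open Subgroup Cfsg.Agent.BG.Rank Cfsg.Agent.Inv in
  obtain ⟨hq, ⟨-, hte⟩, -, hN⟩ := hP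
  obtain ⟨T, hT⟩ : ∃ T : Subgroup X, T = (S : Subgroup ↥(Subgroup.normalizer (P : Set X))).map
    (Subgroup.normalizer (P : Set X)).subtype := ⟨_, rfl⟩
  rw [← hT] at htS hgN hgS hg2
  have hTp : IsPGroup 2 T := hT ▸ S.isPGroup'.map _
  have hTN : T ≤ normalizer (P : Set X) := hT ▸ map_subtype_le _
  have hPO : ¬ P ≤ oddCore X := Comp2.quasisimple_not_le_of_isSolvable hq
    (S0205.result (Nat.coprime_two_right.1 (Comp2.pPrimeCore_coprime 2)))
  have htight : ∀ x : X, x * t * x⁻¹ = t → x ∈ normalizer (P : Set X) := by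
    intro x hx
    by_contra hxN
    rw [hN] at hxN
    have := (hte x hxN).of_dvd_nat (orderOf_dvd_natCard (centralizer (P : Set X) ⊓
      (centralizer (P : Set X)).map (MulAut.conj x).toMonoidHom) (x := t) ⟨htP, t, htP, hx⟩)
    rw [ht] at this
    exact absurd this (by decide)
  have hgT : g ∈ normalizer (T : Set X) := mem_normalizer_fintype hgN
  have hgN' : g ∉ normalizer (P : Set X) := by
    intro hg
    have hz : IsPGroup 2 (zpowers g) := by
      obtain ⟨k, hk⟩ := hTp ⟨_, hg2⟩
      refine IsPGroup.of_card_dvd_pow (n := k + 1) ?_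
      rw [Nat.card_zpowers, orderOf_dvd_iff_pow_eq_one, pow_succ', pow_mul]
      exact congrArg Subtype.val hk
    have h2 : IsPGroup 2 ↥(T ⊔ zpowers g) := hTp.to_sup_of_normal_left' hz (zpowers_le.2 hgT)
    have h3 := S.3 (h2.comap_subtype (K := normalizer (P : Set X))) (by
      intro s hs
      exact mem_sup_left (hT ▸ ⟨s, hs, rfl⟩))
    apply hgS
    rw [hT, ← h3]
    exact ⟨⟨g, hg⟩, mem_sup_right (mem_zpowers g), rfl⟩
  have htZ : t ∈ centralizer (T : Set X) := by
    obtain ⟨Z, hZ1, hZ2, hZ3⟩ := exists_card_prime_le_center (p := 2) hTp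
      (N := T ⊓ centralizer (P : Set X))
      ⟨inf_le_left, Core.le_normalizer_inf le_normalizer (Core.le_normalizer_centralizer hTN)⟩
      (fun h => ne_one_of_two ht (mem_bot.1 (h ▸ ⟨htS, htP⟩)))
    obtain ⟨z, hz, hz1, hz2, -⟩ := exists_eq_zpowers_of_card_prime hZ3
    have := uniq hr htP (hZ1 hz).2 ht (orderOf_eq_of_pow hz2 hz1) (hZ2 hz t htS)
    exact this ▸ hZ2 hz
  obtain ⟨u, hu⟩ : ∃ u, u = g * t * g⁻¹ := ⟨_, rfl⟩
  have huT : u ∈ T := hu ▸ hgN t htS
  have hu2 : orderOf u = 2 := by
    rw [hu, ← ht]; exact (MulAut.conj g).orderOf_eq t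
  have htu : Commute u t := htZ u huT
  have hne : t ≠ u := fun h => hgN' (htight g (hu ▸ h.symm))
  have huK : u ∉ centralizer (P : Set X) := fun h => hne (uniq hr htP h ht hu2 htu.symm)
  have hgu : g * u * g⁻¹ = t := by
    have : g ^ 2 * t = t * g ^ 2 := htZ _ hg2
    calc g * u * g⁻¹ = g ^ 2 * t * (g ^ 2)⁻¹ := by rw [hu, pow_two]; group
      _ = t := by rw [this]; group
  have h1 : oddCore X ⊓ centralizer ({t} : Set X) ≤ centralizer ({u} : Set X) := by
    have hK : oddCore X ⊓ centralizer ({t} : Set X) ≤ centralizer (P : Set X) :=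
      (dich hq inf_le_left fun x hx => htight x
        (mul_inv_eq_iff_eq_mul.2 (mem_centralizer_singleton_iff.1 hx.2))).resolve_left hPO
    rw [← hu] at hgt
    obtain ⟨a, ha, k, hk, e⟩ := (Core.mem_sup_of_le_normalizer' (Core.le_normalizer_centralizer
      (le_normalizer (H := P)))).1 hgt
    have hak : Commute a k := hk a ha
    obtain ⟨m, hm⟩ := hZ
    have hsq : a ^ 2 * k ^ 2 = 1 := by rw [← hak.mul_pow, ← e, ← hu2, pow_orderOf_eq_one]
    have ha2 : (a ^ 2) ^ (2 * m + 1) = 1 := by
      have hc : (⟨a ^ 2, P.pow_mem ha 2⟩ : P) ∈ center P := by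
        rw [mem_center_iff]
        intro y
        have : a ^ 2 ∈ centralizer (P : Set X) := by
          rw [eq_inv_of_mul_eq_one_left hsq]
          exact inv_mem (pow_mem hk 2)
        exact Subtype.ext (this y y.2)
      have := pow_card_eq_one_of_mem hc
      rw [hm] at this
      exact congrArg Subtype.val this
    have hk2 : k ^ (2 * m + 1) * k ^ (2 * m + 1) = 1 := by
      have : (a ^ 2 * k ^ 2) ^ (2 * m + 1) = 1 := by rw [hsq, one_pow]
      rw [(hak.pow_pow 2 2).mul_pow, ha2, one_mul] at this
      rw [← this, pow_two, (Commute.refl k).mul_pow]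
    have hum : u = a ^ (2 * m + 1) * k ^ (2 * m + 1) := by
      rw [← hak.mul_pow, ← e, pow_succ, pow_mul, ← hu2, pow_orderOf_eq_one, one_pow, one_mul]
    have htk : Commute t k := by
      have : k = a⁻¹ * u := by rw [e]; group
      rw [this]
      exact (Commute.inv_right (show Commute a t from htP a ha).symm).mul_right htu.symm
    intro x hx
    rw [mem_centralizer_singleton_iff]
    have c1 : Commute x (a ^ (2 * m + 1)) := (show Commute _ x from hK hx _ (P.pow_mem ha _)).symm
    have c2 : Commute x (k ^ (2 * m + 1)) := by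
      by_cases h : k ^ (2 * m + 1) = 1
      · rw [h]; exact Commute.one_right x
      · rw [← uniq hr htP (pow_mem hk _) ht (two_of_mul_self h hk2) (htk.pow_right _)]
        exact mem_centralizer_singleton_iff.1 hx.2
    rw [hum]
    exact c1.mul_right c2
  have h2 : oddCore X ⊓ centralizer ({u} : Set X) ≤ centralizer ({t} : Set X) := by
    rintro x ⟨hx, hxu⟩
    have e1 : x * u = u * x := mem_centralizer_singleton_iff.1 hxu
    have := h1 (x := g⁻¹ * x * g) ⟨Subgroup.Normal.conj_mem' inferInstance x hx g,
      mem_centralizer_singleton_iff.2 (by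
        calc g⁻¹ * x * g * t = g⁻¹ * (x * u) * g := by rw [hu]; group
          _ = t * (g⁻¹ * x * g) := by rw [e1, hu]; group)⟩
    have e2 := mem_centralizer_singleton_iff.1 this
    rw [mem_centralizer_singleton_iff, ← hgu]
    calc x * (g * u * g⁻¹) = g * (g⁻¹ * x * g * u) * g⁻¹ := by group
      _ = g * u * g⁻¹ * x := by rw [e2]; group
  have h4 := isKleinFour_closure ht hu2 htu.symm hne
  have hO : oddCore X ≤ centralizer ({t * u} : Set X) := by
    have he : IsElementaryAbelian 2 (closure ({t, u} : Set X)) :=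
      elem_of (fun x hx y hy => (four_commute h4 hy hx).eq)
        fun x hx => by rw [pow_two]; exact four_mul_self h4 hx
    refine Core.le_of_centralizers he.1 (not_isCyclic_of_elem (k := 0) le_rfl he h4.card_four)
      le_normalizer_of_normal ?_ fun a ha ha1 x hx => ?_
    · rw [h4.card_four]
      exact Nat.Coprime.pow_left 2 (Comp2.pPrimeCore_coprime 2).symm
    · have key : x ∈ centralizer ({t} : Set X) → x ∈ centralizer ({u} : Set X) →
          x ∈ centralizer ({t * u} : Set X) := fun a b =>
        mem_centralizer_singleton_iff.2 (Commute.mul_right (mem_centralizer_singleton_iff.1 a)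
          (mem_centralizer_singleton_iff.1 b))
      rcases (mem_closure_commute_iff (mul_self_of_two ht) (mul_self_of_two hu2) htu.symm).1 ha with
        rfl | rfl | rfl | rfl
      · exact absurd rfl ha1
      · exact key hx.2 (h1 hx)
      · exact key (h2 hx) hx.2
      · exact hx.2
  have hPD : P ≤ centralizer (oddCore X : Set X) := by
    refine (dich (H := zpowers (t * u)) hq (zpowers_le.2 fun x hx => ?_)
      (zpowers_le.2 (hTN (T.mul_mem htS huT)))).resolve_right fun h => huK ?_
    · exact mem_centralizer_singleton_iff.1 (hO hx)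
    · exact (mul_mem_cancel_left htP).1 (h (mem_zpowers _))
  refine ⟨commutator_eq_bot_iff_le_centralizer.2 hPD, fun L hL hPL _ => ?_⟩
  rcases Comp2.pComponent_le_or_commutator_le_of_subnormal hL
    (H := centralizer (oddCore X : Set X)) (Subgroup.Normal.isSubnormal inferInstance) with h | h
  · exact ((Comp2.pComponent_component_iff hL).2 (commutator_eq_bot_iff_le_centralizer.2 h)).2
  · refine absurd (le_trans ?_ h) hPO
    conv_lhs => rw [← Comp2.quasisimple_commutator_self hq]
    exact commutator_mono hPL hPD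

end Cfsg.Agent.S3153
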