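import Cfsg.Statements.S3154
import Cfsg.Agent.Mix26.L34b
-- import your own Cfsg.Agent.* helpers here

set_option autoImplicit false
open Cfsg

namespace Cfsg.Agent.S3154

open Cfsg.Agent.Mix26


/-- Let X be a finite quasisimple group whose centre is an elementary abelian 2-group and whose central quotient is isomorphic to the projective special linear group of dimension 3 over the field with 4 elements. Let T be a Sylow 2-subgroup of X and H ≠ K subgroups of T containing the centre Z(X) whose images in X/Z(X) are elementary abelian of order 16 (the two such subgroups of a Sylow 2-subgroup of the quotient). Then H and K are elementary abelian, H ∩ K is the centre of the subgroup they generate, and each of N_X(H), N_X(K) is a split extension of H, respectively K, by the projective special linear group of dimension 2 over the field with 4 elements (there is a complement isomorphic to that group). -/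
theorem result {X : Type*} [Group X] [Finite X] (hq : Cfsg.IsQuasisimple X) (hZ : Cfsg.IsElementaryAbelian 2 (Subgroup.center X))
    {F : Type*} [Field F] [Fintype F] (hF : Fintype.card F = 4) (hXL : Nonempty ((X ⧸ Subgroup.center X) ≃* Matrix.ProjectiveSpecialLinearGroup (Fin 3) F))
    (T : Sylow 2 X) (H K : Subgroup X) (hHK : H ≠ K) (hHT : H ≤ T) (hKT : K ≤ T) (hZH : Subgroup.center X ≤ H) (hZK : Subgroup.center X ≤ K)
    (hH : Cfsg.IsElementaryAbelian 2 (H.map (QuotientGroup.mk' (Subgroup.center X))) ∧ Nat.card ↥(H.map (QuotientGroup.mk' (Subgroup.center X))) = 16)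
    (hK : Cfsg.IsElementaryAbelian 2 (K.map (QuotientGroup.mk' (Subgroup.center X))) ∧ Nat.card ↥(K.map (QuotientGroup.mk' (Subgroup.center X))) = 16) :
    Cfsg.IsElementaryAbelian 2 H ∧ Cfsg.IsElementaryAbelian 2 K ∧
      H ⊓ K = (Subgroup.center ↥(H ⊔ K)).map (H ⊔ K).subtype ∧
      (∃ C : Subgroup X, C ≤ Subgroup.normalizer (H : Set X) ∧ C ⊓ H = ⊥ ∧ H ⊔ C = Subgroup.normalizer (H : Set X) ∧
        Nonempty (↥C ≃* Matrix.ProjectiveSpecialLinearGroup (Fin 2) F)) ∧
      (∃ C : Subgroup X, C ≤ Subgroup.normalizer (K : Set X) ∧ C ⊓ K = ⊥ ∧ K ⊔ C = Subgroup.normalizer (K : Set X) ∧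
        Nonempty (↥C ≃* Matrix.ProjectiveSpecialLinearGroup (Fin 2) F)) := by
  haveI : Fact (Nat.Prime 2) := ⟨Nat.prime_two⟩
  obtain ⟨e⟩ := hXL
  obtain ⟨S, hS⟩ := L34.syl hF
  let π0 := e.toMonoidHom.comp (QuotientGroup.mk' (Subgroup.center X))
  have hs0 : Function.Surjective π0 := e.surjective.comp (QuotientGroup.mk'_surjective _)
  obtain ⟨g, hg⟩ := MulAction.exists_smul_eq (Matrix.ProjectiveSpecialLinearGroup (Fin 3) F) (T.mapSurjective hs0) S
  let e' := e.trans (MulAut.conj g)
  let π := e'.toMonoidHom.comp (QuotientGroup.mk' (Subgroup.center X))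
  have hs : Function.Surjective π := e'.surjective.comp (QuotientGroup.mk'_surjective _)
  have hk : π.ker = Subgroup.center X := by
    ext x
    exact (map_eq_one_iff e' e'.injective).trans (QuotientGroup.eq_one_iff x)
  have hT : (T : Subgroup X).map π = L34.AA F ⊔ L34.BB F := by
    rw [← hS, ← hg]
    exact (Subgroup.map_map (T : Subgroup X) (MulAut.conj g).toMonoidHom π0).symm
  have key : ∀ H : Subgroup X, H ≤ T →
      (Cfsg.IsElementaryAbelian 2 (H.map (QuotientGroup.mk' (Subgroup.center X))) ∧
        Nat.card ↥(H.map (QuotientGroup.mk' (Subgroup.center X))) = 16) →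
      H.map π = L34.AA F ∨ H.map π = L34.BB F := by
    intro H h1 h2
    refine L34.e16 hF (hT ▸ Subgroup.map_mono h1) ?_ ?_
    · rintro _ ⟨x, hx, rfl⟩
      exact (map_pow e' _ 2).symm.trans (by rw [h2.1.2 _ ⟨x, hx, rfl⟩, map_one])
    · rw [← h2.2, ← Subgroup.map_map, Subgroup.card_map_of_injective e'.injective]
  have ne : H.map π ≠ K.map π := fun h => hHK (by
    have := congrArg (Subgroup.comap π) h
    rwa [Subgroup.comap_map_eq, Subgroup.comap_map_eq, hk, sup_eq_left.2 hZH, sup_eq_left.2 hZK] at this)
  rcases key H hHT hH with a | a <;> rcases key K hKT hK with b | b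
  · exact absurd (a.trans b.symm) ne
  · exact L34.main hF hZ π hs hk hZH a hZK b T hT
  · obtain ⟨h1, h2, h3, h4, h5⟩ := L34.main hF hZ π hs hk hZK b hZH a T hT
    refine ⟨h2, h1, ?_, h5, h4⟩
    rw [inf_comm, sup_comm, h3]
  · exact absurd (a.trans b.symm) ne

end Cfsg.Agent.S3154
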