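import Mathlib
import Cfsg.Statements.S3157
import Cfsg.Agent.H23.T64
-- import your own Cfsg.Agent.* helpers here

set_option autoImplicit false
open Cfsg

namespace Cfsg.Agent.S3157

/-- Let T be a non-abelian group of order 64 admitting automorphisms ρ of order 3 and x of order 2 with x ρ x⁻¹ = ρ⁻¹ (so they generate a symmetric group of degree 3), where ρ fixes only the identity. Then T is isomorphic to a Sylow 2-subgroup of the projective special linear group of dimension 3 over the field with 4 elements, and the subgroup of fixed points of x is dihedral of order 8 or quaternion of order 8. -/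
theorem result {T : Type*} [Group T] [Finite T] (hT : Nat.card T = 64) (hna : ¬ IsMulCommutative T) (ρ x : MulAut T) (hρ : orderOf ρ = 3) (hx : orderOf x = 2)
    (hxr : x * ρ * x⁻¹ = ρ⁻¹) (hfp : ∀ y : T, ρ y = y → y = 1) (C : Subgroup T) (hC : ∀ y : T, y ∈ C ↔ x y = y) :
    (∃ (F : Type) (_ : Field F) (_ : Fintype F), Fintype.card F = 4 ∧
        ∃ S : Sylow 2 (Matrix.ProjectiveSpecialLinearGroup (Fin 3) F), Nonempty (T ≃* ↥(S : Subgroup (Matrix.ProjectiveSpecialLinearGroup (Fin 3) F)))) ∧
      (Nonempty (↥C ≃* DihedralGroup 4) ∨ Nonempty (↥C ≃* QuaternionGroup 2)) := by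

  have hx2 : ∀ g, x (x g) = g := fun g => by
    have := pow_orderOf_eq_one x
    rw [hx, sq] at this
    exact DFunLike.congr_fun this g
  have h3 : ρ ^ 3 = 1 := by rw [← hρ, pow_orderOf_eq_one]
  obtain ⟨⟨F, _, _, h1, h2⟩, h8, hn⟩ := H23.T64.main hT hna hρ ⟨h3, hfp⟩ hx2
    (fun g => by rw [← hxr]; simp) C hC
  exact ⟨⟨F, inferInstance, inferInstance, h1, default, h2 default⟩, H23.T64.eight h8 hn⟩

end Cfsg.Agent.S3157
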