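import Mathlib
import Cfsg.Statements.S3161
import Cfsg.Agent.H23.Chain
-- import your own Cfsg.Agent.* helpers here

set_option autoImplicit false
open Cfsg

namespace Cfsg.Agent.S3161

/-- Let Q be a non-abelian finite 2-group admitting commuting automorphisms α of order 2 and ρ of order 2^n − 1, where n ≥ 2, such that the fixed points of α form an elementary abelian subgroup of order 2^n on whose nonidentity elements the group generated by ρ acts transitively. Then Q is isomorphic to a Sylow 2-subgroup of the projective special unitary group of dimension 3 with parameter 2^n (realised over the field with 4^n elements) or of the projective special linear group of dimension 3 over the field with 2^n elements. -/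
theorem result {Q : Type*} [Group Q] [Finite Q] (hQ : IsPGroup 2 Q) (hna : ¬ IsMulCommutative Q) (n : ℕ) (hn : 2 ≤ n)
    (α ρ : MulAut Q) (hα : orderOf α = 2) (hρ : orderOf ρ = 2 ^ n - 1) (hc : Commute α ρ)
    (C : Subgroup Q) (hC : ∀ x : Q, x ∈ C ↔ α x = x) (hCE : Cfsg.IsElementaryAbelian 2 C ∧ Nat.card ↥C = 2 ^ n)
    (htr : ∀ x y : Q, x ∈ C → y ∈ C → x ≠ 1 → y ≠ 1 → ∃ k : ℕ, (ρ ^ k) x = y) :
    (∃ (F : Type) (_ : Field F) (_ : Fintype F), Fintype.card F = 4 ^ n ∧
        ∃ S : Sylow 2 (Cfsg.PSU 3 F (2 ^ n)), Nonempty (Q ≃* ↥(S : Subgroup (Cfsg.PSU 3 F (2 ^ n))))) ∨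
      (∃ (F : Type) (_ : Field F) (_ : Fintype F), Fintype.card F = 2 ^ n ∧
        ∃ S : Sylow 2 (Matrix.ProjectiveSpecialLinearGroup (Fin 3) F), Nonempty (Q ≃* ↥(S : Subgroup (Matrix.ProjectiveSpecialLinearGroup (Fin 3) F)))) := by

  have hα2 : ∀ g, α (α g) = g := fun g => by
    have := pow_orderOf_eq_one α
    rw [hα, sq] at this
    exact DFunLike.congr_fun this g
  have ho : Odd (orderOf ρ) := by
    rw [hρ]
    exact RankOne.odd_two_pow_sub_one (by omega)
  rcases H23.Chain.gen hQ hn α ρ hα2 ho hc C hC (fun a ha => by rw [← sq]; exact hCE.1.2 a ha) hCE.2 htr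
    with ⟨m, -, h, -⟩ | ⟨-, h⟩ | ⟨E, _, _, h1, h⟩ | ⟨E, _, _, h1, h⟩
  · exact absurd ⟨⟨h⟩⟩ hna
  · exact absurd ⟨⟨H23.Chain.comm_of_sq h⟩⟩ hna
  · exact Or.inl ⟨E, inferInstance, inferInstance, h1, default, h default⟩
  · exact Or.inr ⟨E, inferInstance, inferInstance, h1, default, h default⟩

end Cfsg.Agent.S3161
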