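import Mathlib
import Cfsg.Statements.S3162
import Cfsg.Agent.Gl23.HA
import Cfsg.Agent.Classical.Congr

set_option autoImplicit false
open Cfsg

namespace Cfsg.Agent.S3162


/-- Let S be a Sylow 2-subgroup of the special unitary group of dimension 3 with parameter q = 2^n (n ≥ 2; realised over the field with q² elements). Then the largest normal 2-subgroup of the automorphism group of S is elementary abelian of order 2^(2n²), and the automorphism group has order 2^(2n²) · 2n(q² − 1). -/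
theorem result {S : Type*} [Group S] [Finite S] (n : ℕ) (hn : 2 ≤ n) {F : Type*} [Field F] [Fintype F] (hF : Fintype.card F = 4 ^ n)
    (P : Sylow 2 ↥(Cfsg.SU 3 F (2 ^ n))) (hS : Nonempty (S ≃* ↥(P : Subgroup ↥(Cfsg.SU 3 F (2 ^ n))))) :
    Cfsg.IsElementaryAbelian 2 (Cfsg.pCore 2 (MulAut S)) ∧ Nat.card ↥(Cfsg.pCore 2 (MulAut S)) = 2 ^ (2 * n ^ 2) ∧
      Nat.card (MulAut S) = 2 ^ (2 * n ^ 2) * (2 * n * ((2 ^ n) ^ 2 - 1)) := by
  have : Fact (Nat.Prime 2) := ⟨Nat.prime_two⟩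
  have hF' : Nat.card F = (2 ^ n) ^ 2 := by
    rw [Nat.card_eq_fintype_card, hF, ← pow_mul, mul_comm, pow_mul]; norm_num
  have : CharP F 2 := Classical.Congr.charP_of_card (k := n * 2) (by rw [hF', pow_mul])
  obtain ⟨e0⟩ := hS
  obtain ⟨e1⟩ := Herm.sylow_SU_three hF' (p := 2) (k := n) rfl P
  let E := MulAut.congr (e0.trans e1)
  have hc : pCore 2 (MulAut S) = (Gl23.HA.pi (Herm.inv_frob hF')).ker.comap E.toMonoidHom := by
    refine le_antisymm (sSup_le ?_) (le_sSup ⟨inferInstance, ?_⟩)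
    · rintro N ⟨hN, hp⟩
      rw [← Subgroup.map_le_iff_le_comap, ← Gl23.HA.pCore_eq]
      exact le_sSup ⟨hN.map _ E.surjective, hp.map _⟩
    · exact IsPGroup.comap_of_injective (fun x => ⟨1, Subtype.ext (by
        simpa using Gl23.HA.ker_elem.2 x.1 x.2)⟩) _ E.injective
  rw [hc]
  refine ⟨⟨⟨⟨fun x y => Subtype.ext (E.injective ?_)⟩⟩, fun x hx => E.injective ?_⟩, ?_, ?_⟩
  · have := congrArg Subtype.val (Gl23.HA.ker_elem.1.is_comm.comm ⟨E x.1, x.2⟩ ⟨E y.1, y.2⟩)
    rw [Subgroup.coe_mul, Subgroup.coe_mul, map_mul, map_mul]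
    exact this
  · rw [map_pow, map_one]; exact Gl23.HA.ker_elem.2 _ hx
  · rw [← Gl23.HA.card_hom (Herm.inv_frob hF') hF', ← Gl23.HA.card_ker (h := Herm.inv_frob hF')]
    exact Nat.card_congr (E.toEquiv.subtypeEquiv fun _ => Iff.rfl)
  · rw [Nat.card_congr E.toEquiv, Gl23.HA.card_aut, Gl23.HA.card_hom (Herm.inv_frob hF') hF',
      Gl23.HA.card_ringEquiv hF', Nat.card_units, hF']

end Cfsg.Agent.S3162
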