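import Cfsg.Statements.S3175
import Cfsg.Agent.Mix26.Ru5
-- import your own Cfsg.Agent.* helpers here

set_option autoImplicit false
open Cfsg

namespace Cfsg.Agent.S3175

open Cfsg.Agent.Mix26


/-- Let G be a finite group whose Sylow 2-subgroup T has order at least 2^14 and whose upper central series has fourth term of order 16; let W be the centralizer in T of the third term, and suppose the Frattini subgroup of W has order at most 8 and lies in every subgroup of W of index at most 16. Then the normalizer of T in G has a normal 2-complement, and W is weakly closed in T with respect to G. -/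
theorem result {G : Type*} [Group G] [Finite G]
    (T : Sylow 2 G) (ha : 2 ^ 14 ≤ Nat.card ↥(T : Subgroup G))
    (hb : Nat.card ↥(Subgroup.upperCentralSeries ↥(T : Subgroup G) 4) = 16)
    (W : Subgroup ↥(T : Subgroup G))
    (hW : W = Subgroup.centralizer ((Subgroup.upperCentralSeries ↥(T : Subgroup G) 3 : Subgroup ↥(T : Subgroup G)) : Set ↥(T : Subgroup G)))
    (hc : Nat.card ↥(frattini ↥W) ≤ 8)
    (hd : ∀ U : Subgroup ↥W, U.index ≤ 16 → frattini ↥W ≤ U) :
    Cfsg.HasNormalPComplement 2 ↥(Subgroup.normalizer ((T : Subgroup G) : Set G)) ∧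
      Cfsg.IsWeaklyClosed (W.map (T : Subgroup G).subtype) (T : Subgroup G) := by
  haveI : Fact (Nat.Prime 2) := ⟨Nat.prime_two⟩
  have h : RuH W := ⟨T.isPGroup', ha, hb, hW, hc, hd⟩
  refine ⟨?_, Subgroup.map_subtype_le W, fun g hg => ?_⟩
  · set N := Subgroup.normalizer ((T : Subgroup G) : Set G)
    let P : Sylow 2 N := T.subtype Subgroup.le_normalizer
    haveI : (P : Subgroup N).Normal := Subgroup.normal_in_normalizer
    obtain ⟨K, hK⟩ := Subgroup.exists_left_complement'_of_coprime P.card_coprime_index
    refine ⟨P, K, ⟨fun k hk g => ?_⟩, hK⟩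
    have hodd : Odd (Nat.card K) := by
      rw [← hK.index_eq_card, ← Nat.not_even_iff_odd, even_iff_two_dvd]
      exact P.not_dvd_index
    have h1 : PGrp.actHom (R := (T : Subgroup G)) (A := N) le_rfl k = 1 :=
      h.aut_odd hodd (by
        rw [← map_pow, show k ^ Nat.card K = 1 from
          congrArg Subtype.val (pow_card_eq_one' (x := (⟨k, hk⟩ : K))), map_one])
    rw [PGrp.actHom_eq_one_iff] at h1
    obtain ⟨⟨a, b⟩, rfl⟩ := hK.2 g
    have h2 : (b : N) * k = k * b := Subtype.ext (h1 _ b.2)
    have : (a : N) * b * k * ((a : N) * b)⁻¹ = a * k * (a : N)⁻¹ := by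
      rw [mul_assoc (a : N), h2]; group
    simp only
    rw [this]
    exact K.mul_mem (K.mul_mem a.2 hk) (K.inv_mem a.2)
  · set W' := (W.map (T : Subgroup G).subtype).map (MulAut.conj g).toMonoidHom
    have e : W ≃* W'.subgroupOf T :=
      ((W.equivMapOfInjective _ (T : Subgroup G).subtype_injective).trans
        (Subgroup.equivMapOfInjective _ _ (MulAut.conj g).injective)).trans
        (Subgroup.subgroupOfEquivOfLe hg).symm
    rw [← h.weak e, Subgroup.subgroupOf_map_subtype, inf_eq_left.2 hg]

end Cfsg.Agent.S3175
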