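import Mathlib
import Cfsg.Statements.S3178
import Cfsg.Agent.Inv.Fus
import Cfsg.Agent.Inv.Wr
import Cfsg.Agent.PGrp.Basic

set_option autoImplicit false
open Cfsg

namespace Cfsg.Agent.S3178

/-- Groups with a modular Sylow 2-subgroup have a normal 2-complement. Let S, of order 2^(n+1) with n ≥ 3, be a Sylow 2-subgroup of a finite group G, and suppose S contains an element a of order 2^n and an involution b with b a b⁻¹ = a^(2^(n-1) + 1); so S is the non-abelian 2-group with a cyclic subgroup of index 2 that is neither dihedral, semidihedral nor generalized quaternion. Then G has a normal 2-complement. -/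
theorem result {G : Type*} [Group G] [Finite G]
    (S : Sylow 2 G) (n : ℕ) (hn : 3 ≤ n) (hS : Nat.card ↥(S : Subgroup G) = 2 ^ (n + 1))
    (a b : G) (ha : a ∈ (S : Subgroup G)) (hb : b ∈ (S : Subgroup G))
    (hao : orderOf a = 2 ^ n) (hbo : orderOf b = 2) (hrel : b * a * b⁻¹ = a ^ (2 ^ (n - 1) + 1)) :
    Cfsg.HasNormalPComplement 2 G := by
  have : Fact (Nat.Prime 2) := ⟨Nat.prime_two⟩
  obtain ⟨m, rfl⟩ : ∃ m, n = m + 3 := ⟨n - 3, by omega⟩
  rw [show m + 3 - 1 = m + 2 from rfl, pow_succ a] at hrel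
  set z := a ^ 2 ^ (m + 2) with hz
  have hz2 : orderOf z = 2 := Inv.orderOf_pow_two_pow (k := 1) hao
  have hzz := Inv.mul_self_of_two hz2
  have hbb := Inv.mul_self_of_two hbo
  have hza : Commute z a := (Commute.refl a).pow_left _
  have hzA : z ∈ Subgroup.zpowers a := Subgroup.npow_mem_zpowers a _
  have hbA : b ∉ Subgroup.zpowers a := fun h => Inv.ne_one_of_two hz2 (by
    rw [Inv.commute_iff_conj.1 (Inv.commute_of_mem_zpowers (Commute.refl a) h)] at hrel
    exact mul_eq_right.1 hrel.symm)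
  have hk : ∀ k : ℤ, b * a ^ k * b⁻¹ = z ^ k * a ^ k := fun k => by
    rw [← conj_zpow, hrel, hza.mul_zpow]
  have hze : ∀ k : ℤ, Even k → z ^ k = 1 := by
    rintro _ ⟨j, rfl⟩
    rw [← two_mul, zpow_mul, zpow_two, hzz, one_zpow]
  have hzb : Commute b z := Inv.commute_iff_conj.2 (by
    have := hk (2 ^ (m + 2) : ℕ)
    rwa [hze _ (by push_cast; exact (Int.even_pow' (by omega)).2 even_two), one_mul,
      zpow_natCast] at this)
  have hmem : ∀ s ∈ (S : Subgroup G), ∃ k : ℤ, s = a ^ k ∨ s = a ^ k * b := by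
    have h1 := LocalEven.card_mul_relIndex (Subgroup.zpowers_le.2 ha)
    rw [Nat.card_zpowers, hao, hS, pow_succ 2 (m + 3)] at h1
    rw [← PGrp.sup_zpowers_eq_of_relIndex_prime Nat.prime_two (mul_left_cancel₀ (by positivity) h1)
      (Subgroup.zpowers_le.2 ha) hb hbA, ← Inv.closure_pair_eq_sup]
    exact fun s hs => (Inv.mem_closure_pair_iff (hrel ▸ mul_mem hzA (Subgroup.mem_zpowers a))
      (hbb ▸ one_mem _)).1 hs
  have hsq : ∀ k : ℤ, a ^ k * b * (a ^ k * b) = z ^ k * (a ^ k * a ^ k) := fun k => by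
    calc _ = a ^ k * (b * a ^ k * b⁻¹) * (b * b) := by group
      _ = _ := by rw [hk, hbb, mul_one, ← mul_assoc, ← (hza.zpow_zpow k k).eq, mul_assoc]
  have hN : ∀ k : ℤ, (a ^ k) ^ 2 ^ (m + 2) = z ^ k ∧ (a ^ k * b) ^ 2 ^ (m + 2) = z ^ k := fun k => by
    have h1 : (a ^ k) ^ 2 ^ (m + 2) = z ^ k := by
      rw [hz, ← zpow_natCast, ← zpow_natCast, ← zpow_mul, ← zpow_mul, mul_comm]
    refine ⟨h1, ?_⟩
    rw [pow_succ' 2, pow_mul, pow_two, hsq, ((hza.zpow_zpow k k).mul_right
      (hza.zpow_zpow k k)).mul_pow, ← pow_two, ← pow_mul, ← pow_succ', h1, ← zpow_natCast,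
      ← zpow_mul, hze _ (by push_cast; exact ((Int.even_pow' (by omega)).2 even_two).mul_left _),
      one_mul]
  have hev : ∀ k : ℤ, z ^ k = 1 → Commute (a ^ k) b := fun k h =>
    (Inv.commute_iff_conj.2 (by rw [hk, h, one_mul])).symm
  -- the subgroup of elements of small order
  have hA : ∀ s ∈ (S : Subgroup G), s ^ 2 ^ (m + 2) = 1 ↔ Commute s b := fun s hs => by
    have h1 : ∀ k : ℤ, Commute (a ^ k) b → z ^ k = 1 := fun k h =>
      mul_eq_right.1 ((hk k).symm.trans (Inv.commute_iff_conj.1 h.symm))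
    obtain ⟨k, rfl | rfl⟩ := hmem s hs
    · rw [(hN k).1]; exact ⟨hev k, h1 k⟩
    · rw [(hN k).2]
      exact ⟨fun h => (hev k h).mul_left (Commute.refl b),
        fun h => h1 k (by simpa using h.mul_left (Commute.refl b).inv_left)⟩
  have hcomm : ∀ s ∈ (S : Subgroup G), ∀ t ∈ (S : Subgroup G), Commute s b → Commute t b →
      Commute s t := fun s hs t ht h1 h2 => by
    have h3 : ∀ k : ℤ, Commute (a ^ k * b) b → Commute (a ^ k) b := fun k h => by
      simpa using h.mul_left (Commute.refl b).inv_left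
    obtain ⟨i, rfl | rfl⟩ := hmem s hs <;> obtain ⟨j, rfl | rfl⟩ := hmem t ht
    · exact (Commute.refl a).zpow_zpow i j
    · exact ((Commute.refl a).zpow_zpow i j).mul_right h1
    · exact ((Commute.refl a).zpow_zpow i j).mul_left h2.symm
    · exact (((Commute.refl a).zpow_zpow i j).mul_left (h3 j h2).symm).mul_right h1
  have hsqA : ∀ s ∈ (S : Subgroup G), s * s ∈ Subgroup.zpowers a := fun s hs => by
    obtain ⟨k, rfl | rfl⟩ := hmem s hs
    · exact mul_mem (Subgroup.zpow_mem_zpowers a k) (Subgroup.zpow_mem_zpowers a k)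
    · rw [hsq]
      exact mul_mem (zpow_mem hzA k)
        (mul_mem (Subgroup.zpow_mem_zpowers a k) (Subgroup.zpow_mem_zpowers a k))
  have hone : ∀ s ∈ Subgroup.zpowers a, s * s = 1 → s = 1 ∨ s = z := fun s hs h => by
    by_cases h1 : s = 1
    exacts [.inl h1, .inr (Inv.eq_of_two_of_mem_zpowers hs hzA (Inv.two_of_mul_self h1 h) hz2)]
  have hinv : ∀ s ∈ (S : Subgroup G), s * s = 1 → s = 1 ∨ s = z ∨ s = b ∨ s = z * b :=
    fun s hs h => by
      have h1 : Commute s b := (hA s hs).1 (by rw [pow_succ' 2, pow_mul, pow_two, h, one_pow])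
      obtain ⟨k, rfl | rfl⟩ := hmem s hs
      · exact (hone _ (Subgroup.zpow_mem_zpowers a k) h).imp_right .inl
      · have h2 : Commute (a ^ k) b := by simpa using h1.mul_left (Commute.refl b).inv_left
        rw [h2.symm.mul_mul_mul_comm, hbb, mul_one] at h
        rcases hone _ (Subgroup.zpow_mem_zpowers a k) h with h3 | h3 <;> simp [h3]
  refine Inv.npc_of_no_essential S fun B hB hC g hg hodd => ?_
  replace hodd := Nat.coprime_two_right.1 hodd
  have hgB := fun x hx => LocalEven.conj_mem_of_mem_normalizer hg (x := x) hx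
  have hw : a ^ 2 ^ (m + 1) ∈ B := hC ⟨pow_mem ha _, fun s hs => by
    have h1 : Commute (a ^ 2 ^ (m + 1)) b := by
      have := hev (2 ^ (m + 1) : ℕ) (hze _ (by
        push_cast; exact (Int.even_pow' (by omega)).2 even_two))
      rwa [zpow_natCast] at this
    have h2 : ∀ k : ℤ, Commute (a ^ k) (a ^ 2 ^ (m + 1)) := fun k =>
      ((Commute.refl a).pow_right _).zpow_left k
    obtain ⟨k, rfl | rfl⟩ := hmem s (hB hs)
    exacts [h2 k, (h2 k).mul_left h1.symm]⟩
  have hww : a ^ 2 ^ (m + 1) * a ^ 2 ^ (m + 1) = z := Inv.MC.ww a (m + 1)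
  have hgz : g * z * g⁻¹ = z := Inv.eq_of_two_of_mem_zpowers (by
    have := hsqA _ (hB (hgB _ hw))
    rwa [conj_mul, hww] at this) hzA (Inv.two_conj hz2 g) hz2
  have hfix : ∀ s ∈ B, s * s = 1 → g * s * g⁻¹ = s := fun s hs h => by
    have hT := Inv.isKleinFour_closure hz2 hbo hzb.symm (fun h => hbA (h ▸ hzA))
    have hm := fun x => Inv.mem_closure_commute_iff hzz hbb hzb.symm (x := x)
    by_cases hbB : b ∈ B
    · refine Inv.four_fix_of_odd hT (LocalEven.mem_normalizer_of_cj_le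
        (LocalEven.cj_le_iff'.2 fun x hx => ?_)) hodd (by simp [hm]) (Inv.ne_one_of_two hz2) hgz
        ((hm s).2 (hinv s (hB hs) h))
      have hxB : x ∈ B := (Subgroup.closure_le B).2 (by
        rw [Set.pair_subset_iff]; exact ⟨hww ▸ mul_mem hw hw, hbB⟩) hx
      exact (hm _).2 (hinv _ (hB (hgB x hxB)) (by rw [conj_mul, Inv.four_mul_self hT hx]; simp))
    · rcases hinv s (hB hs) h with rfl | rfl | rfl | rfl
      · simp
      · exact hgz
      · exact absurd hs hbB
      · exact absurd (by simpa using B.mul_mem (B.inv_mem (hww ▸ B.mul_mem hw hw : z ∈ B)) hs) hbB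
  have hP : IsPGroup 2 (B ⊓ Subgroup.centralizer ({b} : Set G) : Subgroup G) :=
    S.2.to_le (inf_le_left.trans hB)
  have hiff : ∀ s ∈ B, Commute (g * s * g⁻¹) b ↔ Commute s b := fun s hs => by
    rw [← hA _ (hB hs), ← hA _ (hB (hgB s hs)), conj_pow, conj_eq_one_iff]
  have h1 : ∀ s ∈ B ⊓ Subgroup.centralizer ({b} : Set G), g * s * g⁻¹ = s := fun s hs =>
    Inv.conj_eq_of_odd_of_fix_invol hP (fun s hs t ht => hcomm s (hB hs.1) t (hB ht.1)
      (Inv.mem_centralizer_single.1 hs.2) (Inv.mem_centralizer_single.1 ht.2))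
      (fun s hs => ⟨hgB s hs.1, Inv.mem_centralizer_single.2
        ((hiff s hs.1).2 (Inv.mem_centralizer_single.1 hs.2))⟩) hodd
      (fun s hs => hfix s hs.1) hs
  intro s (hs : s ∈ B)
  refine (Inv.commute_iff_conj.2 ?_).symm.eq
  by_cases h2 : Commute s b
  · exact h1 s ⟨hs, Inv.mem_centralizer_single.2 h2⟩
  · refine Inv.conj_eq_of_odd_of_coset hP hodd h1 ⟨B.mul_mem (hgB s hs) (B.inv_mem hs),
      Inv.mem_centralizer_single.2 ?_⟩
    have h3 : ∀ u ∈ (S : Subgroup G), ¬ Commute u b → u * b * u⁻¹ = z * b := fun u hu h => by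
      rcases hinv _ (mul_mem (mul_mem hu hb) (inv_mem hu)) (by rw [conj_mul, hbb]; simp) with
        h4 | h4 | h4 | h4
      · exact absurd (conj_eq_one_iff.1 h4) (Inv.ne_one_of_two hbo)
      · refine absurd ?_ hbA
        have : b = u⁻¹ * z * u := by rw [← h4]; group
        obtain ⟨k, rfl | rfl⟩ := hmem u hu
        · rw [this]
          exact mul_mem (mul_mem (inv_mem (Subgroup.zpow_mem_zpowers a k)) hzA)
            (Subgroup.zpow_mem_zpowers a k)
        · rwa [this, ((hza.zpow_right k).mul_right hzb.symm).symm.inv_left.eq, inv_mul_cancel_right]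
      · exact absurd (Inv.commute_iff_conj.2 h4) h
      · exact h4
    rw [Inv.commute_iff_conj]
    have h4 := h3 _ (hB (inv_mem hs)) fun h => h2 (by simpa using h.inv_left)
    have h5 := h3 _ (hB (hgB s hs)) fun h => h2 ((hiff s hs).1 h)
    have h6 : Commute (g * s * g⁻¹) z := by
      obtain ⟨k, h | h⟩ := hmem _ (hB (hgB s hs)) <;> rw [h]
      exacts [(hza.zpow_right k).symm, ((hza.zpow_right k).mul_right hzb.symm).symm]
    generalize g * s * g⁻¹ = u at h5 h6
    calc u * s⁻¹ * b * (u * s⁻¹)⁻¹ = u * (s⁻¹ * b * s⁻¹⁻¹) * u⁻¹ := by group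
      _ = u * z * u⁻¹ * (u * b * u⁻¹) := by rw [h4]; group
      _ = b := by rw [h5, Inv.commute_iff_conj.1 h6, ← mul_assoc, hzz, one_mul]

end Cfsg.Agent.S3178
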