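import Mathlib
import Cfsg.Statements.S3180
import Cfsg.Agent.LocalEven.SylowIn

set_option autoImplicit false
open Cfsg

namespace Cfsg.Agent.S3180

/-- Let P be a Sylow p-subgroup of a finite group J and P₁ a subgroup of P that is weakly closed in P with respect to J. If J acts on a set and two points, each fixed by every element of P₁, lie in one J-orbit, then they lie in one orbit of the normalizer of P₁ in J. -/
theorem result {J : Type*} [Group J] [Finite J]
    {p : ℕ} [Fact p.Prime] (P : Sylow p J) (P₁ : Subgroup J) (hW : Cfsg.IsWeaklyClosed P₁ (P : Subgroup J))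
    {Ω : Type*} [MulAction J Ω] (x y : Ω) (hx : ∀ g ∈ P₁, g • x = x) (hy : ∀ g ∈ P₁, g • y = y)
    (hc : ∃ g : J, g • x = y) :
    ∃ g ∈ Subgroup.normalizer (P₁ : Set J), g • x = y := by
  obtain ⟨g, rfl⟩ := hc
  have hP : IsPGroup p P₁ := P.2.to_le hW.1
  obtain ⟨T, hT, hle⟩ := LocalEven.exists_isSylowIn_le hP
    (show P₁ ≤ MulAction.stabilizer J (g • x) from hy)
  obtain ⟨h, hh, h1⟩ := hT.exists_cj_le (LocalEven.isPGroup_cj g hP) fun a ha => by
    obtain ⟨b, hb, rfl⟩ := LocalEven.mem_cj'.1 ha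
    simp [MulAction.mem_stabilizer_iff, mul_smul, hx b hb]
  obtain ⟨k, -, h2⟩ := (LocalEven.isSylowIn_top P).exists_cj_le hT.2 le_top
  have h3 : LocalEven.cj k P₁ = P₁ := hW.2 k ((LocalEven.cj_mono k hle).trans h2)
  have h4 : LocalEven.cj (k * (h * g)) P₁ = P₁ := hW.2 _ (by
    show LocalEven.cj _ _ ≤ _
    rw [LocalEven.cj_mul, LocalEven.cj_mul]
    exact (LocalEven.cj_mono k h1).trans h2)
  refine ⟨h * g, LocalEven.cj_eq_self_iff.1 ?_, by rw [mul_smul]; exact hh⟩
  rw [LocalEven.cj_mul] at h4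
  exact LocalEven.cj_inj.1 (h4.trans h3.symm)

end Cfsg.Agent.S3180
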