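import Mathlib
import Cfsg.Statements.S3183
import Cfsg.Agent.LocalEven.SylowIn
import Cfsg.Agent.Inv.Isolated

set_option autoImplicit false
open Cfsg

namespace Cfsg.Agent.S3183

theorem mem_cm {G : Type*} [Group G] {S : Subgroup G} {x : G} :
    x ∈ (Subgroup.center S).map S.subtype ↔ x ∈ S ∧ ∀ s ∈ S, s * x = x * s :=
  ⟨by rintro ⟨y, hy, rfl⟩; exact ⟨y.2, fun s hs =>
      congrArg Subtype.val (Subgroup.mem_center_iff.1 hy ⟨s, hs⟩)⟩,
    fun h => ⟨⟨x, h.1⟩, Subgroup.mem_center_iff.2 fun s => Subtype.ext (h.2 s s.2), rfl⟩⟩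

/-- Let G be a finite group in which the intersection of any two distinct Sylow 2-subgroups is contained in the centre of some Sylow 2-subgroup, and let S be a Sylow 2-subgroup. Then for every x in S the centralizer of x in S is a Sylow 2-subgroup of the centralizer of x in G (no 2-subgroup centralizing x is larger), and for every other Sylow 2-subgroup T the intersection S ∩ T lies in both the centre of S and the centre of T. -/
theorem result {G : Type*} [Group G] [Finite G]
    (hCI : ∀ S T : Sylow 2 G, S ≠ T → ∃ U : Sylow 2 G,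
      (S : Subgroup G) ⊓ (T : Subgroup G) ≤ (Subgroup.center ↥(U : Subgroup G)).map (U : Subgroup G).subtype)
    (S : Sylow 2 G) :
    (∀ x ∈ (S : Subgroup G), ∀ P : Subgroup G, IsPGroup 2 ↥P → P ≤ Subgroup.centralizer ({x} : Set G) →
        Nat.card ↥P ≤ Nat.card ↥((S : Subgroup G) ⊓ Subgroup.centralizer ({x} : Set G))) ∧
    (∀ T : Sylow 2 G, T ≠ S →
        (S : Subgroup G) ⊓ (T : Subgroup G) ≤
          (Subgroup.center ↥(S : Subgroup G)).map (S : Subgroup G).subtype ⊓
            (Subgroup.center ↥(T : Subgroup G)).map (T : Subgroup G).subtype) := by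
  have : Fact (Nat.Prime 2) := ⟨Nat.prime_two⟩
  have key : ∀ S T : Sylow 2 G, S ≠ T → ∀ x ∈ (S : Subgroup G), x ∈ (T : Subgroup G) →
      (S : Subgroup G) ≤ Subgroup.centralizer ({x} : Set G) := by
    intro S T hST x hxS hxT
    by_contra hcon
    set A := (S : Subgroup G) ⊓ Subgroup.centralizer ({x} : Set G) with hA
    have hlt : A < S := lt_of_le_of_ne inf_le_left fun h => hcon (inf_eq_left.1 h)
    obtain ⟨U, hU⟩ := hCI S T hST
    have hUx : (U : Subgroup G) ≤ Subgroup.centralizer ({x} : Set G) := fun u hu =>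
      Inv.mem_centralizer_single.2 ((mem_cm.1 (hU ⟨hxS, hxT⟩)).2 u hu)
    obtain ⟨P, hP, hAP⟩ := LocalEven.exists_isSylowIn_le (S.2.to_le (inf_le_left : A ≤ S))
      (inf_le_right : A ≤ _)
    obtain ⟨R, rfl⟩ := (hP.of_sylow_le le_top (LocalEven.isSylowIn_top U) hUx).exists_sylow_top
    obtain ⟨V, hV⟩ := hCI S R fun h => hcon (h ▸ hP.1)
    have hVA : (V : Subgroup G) ≤ Subgroup.centralizer (A : Set G) := fun v hv a ha =>
      ((mem_cm.1 (hV ⟨ha.1, hAP ha⟩)).2 v hv).symm
    obtain ⟨n, hn, hnA, hn'⟩ := LocalEven.exists_mem_normalizer_of_lt S.2 hlt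
    obtain ⟨k, hk⟩ := S.2 ⟨n, hn⟩
    obtain ⟨h, hh, h1⟩ := (LocalEven.isSylowIn_of_sylow_le V
      (hVA.trans (Subgroup.centralizer_le_normalizer _))).exists_conj_mem hnA
      (congrArg Subtype.val hk)
    have h2 := LocalEven.inv_conj_mem_of_mem_normalizer
      (LocalEven.normalizer_le_normalizer_centralizer A hh) (hVA h1)
    simp only [mul_assoc, inv_mul_cancel, mul_one, inv_mul_cancel_left] at h2
    exact hn' ⟨hn, Inv.mem_centralizer_single.2
      (h2 x ⟨hxS, Inv.mem_centralizer_single.2 rfl⟩).symm⟩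
  refine ⟨fun x hx P hP hPx => ?_, fun T hT x hx => ⟨mem_cm.2 ⟨hx.1, fun s hs =>
    Inv.mem_centralizer_single.1 (key S T hT.symm x hx.1 hx.2 hs)⟩, mem_cm.2 ⟨hx.2, fun s hs =>
    Inv.mem_centralizer_single.1 (key T S hT x hx.2 hx.1 hs)⟩⟩⟩
  by_cases h : (S : Subgroup G) ≤ Subgroup.centralizer ({x} : Set G)
  · rw [inf_eq_left.2 h]
    exact (LocalEven.isSylowIn_top S).card_le le_top hP
  · obtain ⟨T, hT⟩ := (Inv.isPGroup_sup_of_commute hP (S.2.to_le (Subgroup.zpowers_le.2 hx))
      fun a ha b hb => (Inv.commute_of_mem_zpowers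
        (Inv.mem_centralizer_single.1 (hPx ha)).symm hb).symm).exists_le_sylow
    obtain rfl : S = T := by
      by_contra h1
      exact h (key S T h1 x hx (hT (Subgroup.mem_sup_right (Subgroup.mem_zpowers x))))
    exact Subgroup.card_le_of_le (le_inf (le_sup_left.trans hT) hPx)

end Cfsg.Agent.S3183
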