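import Mathlib
import Cfsg.Statements.S3184
import Cfsg.Agent.Inv.ZStar
import Cfsg.Agent.Transfer.SylowConj
-- import your own Cfsg.Agent.* helpers here

set_option autoImplicit false
open Cfsg

namespace Cfsg.Agent.S3184

open Subgroup Cfsg.Agent.Inv Cfsg.Agent.Transfer

/-- Let G be a finite group in which the intersection of any two distinct Sylow 2-subgroups is contained in the centre of some Sylow 2-subgroup, and let S be a Sylow 2-subgroup. If C is a nontrivial cyclic characteristic subgroup of S, then the involution of C is central modulo the largest normal subgroup of odd order of G: each of its conjugates has the same image in G/O(G). -/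
theorem result {G : Type*} [Group G] [Finite G]
    (hCI : ∀ S T : Sylow 2 G, S ≠ T → ∃ U : Sylow 2 G,
      (S : Subgroup G) ⊓ (T : Subgroup G) ≤ (Subgroup.center ↥(U : Subgroup G)).map (U : Subgroup G).subtype)
    (S : Sylow 2 G) (C : Subgroup ↥(S : Subgroup G)) (hC : C ≠ ⊥) (hCc : IsCyclic ↥C) (hCh : C.Characteristic)
    (c : ↥(S : Subgroup G)) (hc : c ∈ C) (hc2 : orderOf c = 2) :
    ∀ g : G, (QuotientGroup.mk (s := Cfsg.oddCore G) (g * (c : G) * g⁻¹)) =
      QuotientGroup.mk (s := Cfsg.oddCore G) (c : G) := by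
  have hc2' : orderOf (c : G) = 2 := by rwa [Subgroup.orderOf_coe]
  have A : ∀ n ∈ normalizer ((S : Subgroup G) : Set G), n * (c : G) * n⁻¹ = c := by
    intro n hn
    let φ : MulAut (S : Subgroup G) := (S : Subgroup G).normalizerMonoidHom ⟨n, hn⟩
    have h1 : φ c ∈ C := by
      have := (characteristic_iff_map_eq.1 hCh) φ
      rw [← this]; exact ⟨c, hc, rfl⟩
    obtain ⟨w, hw⟩ := hCc.exists_generator
    have h2 := eq_of_two_of_mem_zpowers (hw ⟨φ c, h1⟩) (hw ⟨c, hc⟩)
      (by rw [← Subgroup.orderOf_coe]; simpa using hc2) (by rw [← Subgroup.orderOf_coe]; exact hc2)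
    exact congrArg (fun x : C => ((x : (S : Subgroup G)) : G)) h2
  have B : ∀ x : G, ((x • S : Sylow 2 G) : Subgroup G) ≤ centralizer ({x * c * x⁻¹} : Set G) := by
    intro x s hs
    rw [mem_smul_sylow_iff] at hs
    have := A _ (le_normalizer hs)
    rw [mem_centralizer_singleton_iff]
    calc s * (x * c * x⁻¹) = x * (x⁻¹ * s * x * c * (x⁻¹ * s * x)⁻¹) * x⁻¹ * s := by group
      _ = x * c * x⁻¹ * s := by rw [this]
  have D : ∀ (x : G) (U : Sylow 2 G), (U : Subgroup G) ≤ centralizer ({x * c * x⁻¹} : Set G) →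
      ∃ h : G, h • S = U ∧ h * c * h⁻¹ = x * c * x⁻¹ := by
    intro x U hU
    obtain ⟨k, hk, e⟩ := exists_smul_sylow_eq_of_le (B x) hU
    refine ⟨k * x, by rw [mul_smul, e], ?_⟩
    rw [mem_centralizer_singleton_iff] at hk
    calc k * x * c * (k * x)⁻¹ = k * (x * c * x⁻¹) * k⁻¹ := by group
      _ = x * c * x⁻¹ := by rw [hk]; group
  have E : ∀ (x y : G) (U : Sylow 2 G), (U : Subgroup G) ≤ centralizer ({x * c * x⁻¹} : Set G) →
      (U : Subgroup G) ≤ centralizer ({y * c * y⁻¹} : Set G) → x * c * x⁻¹ = y * c * y⁻¹ := by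
    intro x y U h1 h2
    obtain ⟨h, e1, e2⟩ := D x U h1
    obtain ⟨k, e3, e4⟩ := D y U h2
    have : k⁻¹ * h ∈ normalizer ((S : Subgroup G) : Set G) := by
      refine Sylow.smul_eq_iff_mem_normalizer.1 ?_
      rw [mul_smul, e1, ← e3, inv_smul_smul]
    have h5 := A _ this
    rw [← e2, ← e4]
    conv_rhs => rw [← h5]
    group
  have F : ∀ (x : G) (P : Subgroup G), IsPGroup 2 P → P ≤ centralizer ({x * c * x⁻¹} : Set G) →
      ∃ U : Sylow 2 G, P ≤ U ∧ (U : Subgroup G) ≤ centralizer ({x * c * x⁻¹} : Set G) := by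
    intro x P hP hle
    obtain ⟨h, hh, e⟩ := exists_conj_mem_sylow_of_le (B x) hP hle
    refine ⟨h⁻¹ • x • S, fun a ha => ?_, fun s hs => ?_⟩
    · rw [mem_smul_sylow_iff, inv_inv]; exact e a ha
    · rw [mem_smul_sylow_iff, inv_inv] at hs
      have := mul_mem (mul_mem (inv_mem hh) (B x hs)) hh
      simpa [mul_assoc] using this
  have hiso : IsIsolatedInvolution (c : G) := by
    refine ⟨hc2', fun g hg => ?_⟩
    have hP := isPGroup_closure_pair_of_commute (mul_self_of_two hc2')
      (mul_self_of_two (two_conj hc2' g)) hg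
    have e1 : (1 : G) * c * 1⁻¹ = c := by group
    obtain ⟨U, h1, h2⟩ := F 1 _ hP (by
      rw [e1, sup_le_iff, zpowers_le, zpowers_le, mem_centralizer_singleton_iff,
        mem_centralizer_singleton_iff]
      exact ⟨rfl, hg.eq.symm⟩)
    obtain ⟨V, h3, h4⟩ := F g _ hP (by
      rw [sup_le_iff, zpowers_le, zpowers_le, mem_centralizer_singleton_iff,
        mem_centralizer_singleton_iff]
      exact ⟨hg.eq, rfl⟩)
    by_cases hUV : U = V
    · subst hUV
      rw [E g 1 U h4 h2, e1]
    · obtain ⟨W, hW⟩ := hCI U V hUV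
      have key : ∀ a ∈ zpowers (c : G) ⊔ zpowers (g * c * g⁻¹),
          (W : Subgroup G) ≤ centralizer ({a} : Set G) := by
        intro a ha w hw
        obtain ⟨a', ha', rfl⟩ := hW ⟨h1 ha, h3 ha⟩
        rw [mem_centralizer_singleton_iff]
        exact congrArg Subtype.val (mem_center_iff.1 ha' ⟨w, hw⟩)
      rw [E g 1 W (key _ (mem_sup_right (mem_zpowers _)))
        (by rw [e1]; exact key _ (mem_sup_left (mem_zpowers _))), e1]
  intro g
  rw [eq_comm, QuotientGroup.eq]
  have := zstar hiso g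
  rwa [inv_eq_of_two hc2', mul_assoc, mul_assoc, ← mul_assoc g, ← inv_eq_of_two hc2',
    inv_eq_of_two hc2', show (c : G) * (g * c * g⁻¹) = (c : G)⁻¹ * (g * c * g⁻¹) by
      rw [inv_eq_of_two hc2']] at this

end Cfsg.Agent.S3184
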