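import Mathlib
import Cfsg.Statements.S3190
import Cfsg.Agent.Core.Coprime2
import Cfsg.Agent.Transfer.Abelian
import Cfsg.Agent.Inv.Four
import Cfsg.Agent.PGrp.Basic
import Cfsg.Agent.LocalEven.Resid

set_option autoImplicit false
open Cfsg

namespace Cfsg.Agent.S3190

/-- Let p be an odd prime and, inside a finite group, let P be a p-subgroup normalized by a Klein four-group T. Let R be a subgroup of P, normal in P and normalized by T, such that P is the product of R with the centralizer of T in P. If T centralizes the centre of P, then T centralizes the centre of R. -/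
theorem result {X : Type*} [Group X] [Finite X]
    {p : ℕ} (hp : p.Prime) (hodd : Odd p) (P T R : Subgroup X) (hP : IsPGroup p ↥P) (hT : IsKleinFour ↥T)
    (hTP : T ≤ Subgroup.normalizer (P : Set X)) (hRP : R ≤ P) (hRn : (R.subgroupOf P).Normal)
    (hTR : T ≤ Subgroup.normalizer (R : Set X)) (hfac : R ⊔ (P ⊓ Subgroup.centralizer (T : Set X)) = P)
    (hZ : T ≤ Subgroup.centralizer (((Subgroup.center ↥P).map P.subtype : Subgroup X) : Set X)) :
    T ≤ Subgroup.centralizer (((Subgroup.center ↥R).map R.subtype : Subgroup X) : Set X) := by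
  have : Fact p.Prime := ⟨hp⟩
  rw [Transfer.map_subtype_center] at hZ ⊢
  set Z := R ⊓ Subgroup.centralizer (R : Set X) with hZdef
  have hPR : P ≤ Subgroup.normalizer (R : Set X) := (Subgroup.normal_subgroupOf_iff_le_normalizer hRP).1 hRn
  have hn : ∀ {L : Subgroup X}, L ≤ Subgroup.normalizer (R : Set X) → L ≤ Subgroup.normalizer (Z : Set X) :=
    fun h => LocalEven.le_normalizer_inf h (LocalEven.le_normalizer_centralizer h)
  have hZP : Z ≤ P := inf_le_left.trans hRP
  have hcop : (Nat.card T).Coprime (Nat.card Z) := by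
    obtain ⟨k, hk⟩ := (hP.to_le hZP).exists_card_eq
    rw [Inv.four_card hT, hk]
    exact Nat.Coprime.pow 2 k (Nat.coprime_two_left.2 hodd)
  rw [Core.le_centralizer_iff_commutator_eq_bot]
  by_contra hne
  have hle : ⁅Z, T⁆ ≤ Z := Core.commutator_le_of_le_normalizer (hn hTR)
  have h1 : P ≤ Subgroup.normalizer ((⁅Z, T⁆ : Subgroup X) : Set X) := by
    rw [← hfac]
    refine sup_le ((Subgroup.le_centralizer_iff.1 (hle.trans inf_le_right)).trans
      (Subgroup.centralizer_le_normalizer _)) (LocalEven.le_normalizer_commutator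
      (inf_le_left.trans (hn hPR)) (inf_le_right.trans (Subgroup.centralizer_le_normalizer _)))
  refine Core.inf_centralizer_ne_bot_of_isPGroup (hP.to_le (hle.trans hZP)) hP h1 hne
    (eq_bot_iff.2 ?_)
  rw [← Core.centralizer_inf_commutator_eq_bot T Z (PGrp.isMulCommutative_iff_forall.2
    fun a ha b hb => hb.2 a ha.1) (hn hTR) hcop]
  exact le_inf (le_inf (inf_le_left.trans hle) ((inf_le_inf_right _ (hle.trans hZP)).trans
    (Subgroup.le_centralizer_iff.1 hZ))) inf_le_left

end Cfsg.Agent.S3190
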