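import Mathlib
import Cfsg.Statements.S3195
import Cfsg.Agent.S0200
import Cfsg.Agent.Inv.Four
import Cfsg.Agent.Core.Cores

set_option autoImplicit false
open Cfsg

namespace Cfsg.Agent.S3195

/-- Let A be a Klein four-subgroup of a finite group G. If every G-conjugate of every involution of A commutes with some involution of A (its centralizer meets A nontrivially), then A meets the largest normal 2-subgroup O₂(G) nontrivially. -/
theorem result {G : Type*} [Group G] [Finite G]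
    (A : Subgroup G) (hA : IsKleinFour ↥A)
    (h : ∀ a ∈ A, a ≠ 1 → ∀ g : G, A ⊓ Subgroup.centralizer ({g * a * g⁻¹} : Set G) ≠ ⊥) :
    A ⊓ Cfsg.pCore 2 G ≠ ⊥ := by
  intro hbot
  have key : ∀ a ∈ A, a ≠ 1 → ∀ x : G, Odd (orderOf x) → a * x * a⁻¹ = x⁻¹ →
      ∃ b ∈ A, b ≠ 1 ∧ Commute b x := fun a ha ha1 x hx hax => by
    obtain ⟨g, hg⟩ := isConj_iff.1 (Inv.isConj_mul_of_odd_inverts hax hx)
    obtain ⟨⟨b, hb, hb'⟩, hb1⟩ := Subgroup.ne_bot_iff_exists_ne_one.1 (h a ha ha1 g)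
    refine ⟨b, hb, fun h => hb1 (Subtype.ext h), ?_⟩
    rw [hg] at hb'
    simpa using (Inv.mem_centralizer_single.1 hb').mul_right (Inv.four_commute hA hb ha).inv_right
  have ex : ∀ a ∈ A, a ≠ 1 → ∃ x : G, x ≠ 1 ∧ Odd (orderOf x) ∧ a * x * a⁻¹ = x⁻¹ :=
    fun a ha ha1 => S0200.result a (Inv.four_two hA ha ha1) fun N hN hP haN => ha1
      (Subgroup.mem_bot.1 (hbot ▸ Subgroup.mem_inf.2 ⟨ha, Core.le_pCore hN hP haN⟩))
  have no : ∀ {a x : G}, x ≠ 1 → Odd (orderOf x) → a * x * a⁻¹ = x⁻¹ → ¬ Commute a x :=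
    fun h1 h2 h3 h4 => h1 (Inv.eq_one_of_odd_of_mul_self h2 (by
      rw [Inv.commute_iff_conj.1 h4] at h3; exact mul_eq_one_iff_eq_inv.2 h3))
  obtain ⟨a, ha, -, -, ha1, -⟩ := Inv.four_exists_pair hA
  obtain ⟨x, hx1, hx, hax⟩ := ex a ha ha1
  obtain ⟨b, hb, hb1, hbx⟩ := key a ha ha1 x hx hax
  obtain ⟨y, hy1, hy, hby⟩ := ex b hb hb1
  obtain ⟨a', ha', ha1', hay⟩ := key b hb hb1 y hy hby
  replace hax : a' * x * a'⁻¹ = x⁻¹ := by
    rcases Inv.four_cases hA ha hb ha1 hb1 (fun h => no hx1 hx hax (h ▸ hbx)) ha' with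
      rfl | rfl | rfl | rfl
    · exact absurd rfl ha1'
    · exact hax
    · exact absurd hay (no hy1 hy hby)
    · calc _ = a * (b * x * b⁻¹) * a⁻¹ := by group
        _ = _ := by rw [Inv.commute_iff_conj.1 hbx, hax]
  clear ha ha1
  clear a
  have hab : a' ≠ b := fun h => no hx1 hx hax (h ▸ hbx)
  have hc := Inv.four_commute hA ha' hb
  have hc1 : a' * b ≠ 1 := fun h => hab (mul_right_cancel (h.trans (Inv.four_mul_self hA hb).symm))
  have e1 := Inv.commute_iff_conj.1 hbx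
  have e2 := Inv.commute_iff_conj.1 hay
  have hxy : Commute x y := by
    obtain ⟨k, hk, hk'⟩ := Inv.exists_conj_mul_of_odd hby hy
    obtain ⟨g, hg⟩ := isConj_iff.1 (Inv.isConj_mul_of_odd_inverts hax hx)
    have hka : Commute k a' := (Inv.commute_of_mem_zpowers hay.symm hk)
    obtain ⟨⟨d, hd, hd'⟩, hd1⟩ := Subgroup.ne_bot_iff_exists_ne_one.1 (h a' ha' ha1' (k⁻¹ * g))
    have h1 : Commute (k * d * k⁻¹) (x * a') := by
      have := (Inv.mem_centralizer_single.1 hd').eq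
      rw [← hg]
      calc _ = k * (d * (k⁻¹ * g * a' * (k⁻¹ * g)⁻¹)) * k⁻¹ := by group
        _ = _ := by rw [this]; group
    rcases Inv.four_cases hA ha' hb ha1' hb1 hab hd with rfl | rfl | rfl | rfl
    · exact absurd rfl hd1
    · rw [Inv.commute_iff_conj.1 hka] at h1
      exact absurd (by simpa using h1.mul_right (Commute.refl d).inv_right) (no hx1 hx hax)
    · rw [hk'] at h1
      have h2 : Commute y (x * a') := by
        simpa using h1.mul_left (hbx.mul_right hc.symm).inv_left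
      simpa using (h2.mul_right hay.symm.inv_right).symm
    · rw [← conj_mul, hk', Inv.commute_iff_conj.1 hka] at h1
      refine absurd (Inv.eq_one_of_odd_of_mul_self hx (Inv.mul_self_of_odd_inverts (g := y) ?_ hy)) hx1
      have h2 := Inv.commute_iff_conj.1 h1
      have h3 : a' * (y * (b * a' * b⁻¹) * y⁻¹) * a'⁻¹ = a' := by
        rw [Inv.commute_iff_conj.1 hc.symm, Inv.commute_iff_conj.1 hay.symm]; group
      have h4 : a' * (y * x * y⁻¹) * a'⁻¹ = x := by
        refine mul_right_cancel (b := a') ?_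
        calc _ = a' * (y * (b * x * b⁻¹) * y⁻¹) * a'⁻¹ *
            (a' * (y * (b * a' * b⁻¹) * y⁻¹) * a'⁻¹) := by rw [h3, e1]
          _ = _ := by rw [← h2]; group
      rw [← hax]
      nth_rewrite 2 [← h4]
      have := Inv.four_mul_self hA ha'
      calc _ = a' * a' * (y * x * y⁻¹) * (a' * a')⁻¹ := by rw [this]; group
        _ = _ := by group
  have hodd : Odd (orderOf (x * y)) :=
    (hx.mul hy).of_dvd_nat hxy.orderOf_mul_dvd_mul_orderOf
  have hinv : a' * b * (x * y) * (a' * b)⁻¹ = (x * y)⁻¹ := by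
    calc _ = a' * (b * x * b⁻¹) * a'⁻¹ * (a' * (b * y * b⁻¹) * a'⁻¹) := by group
      _ = _ := by rw [e1, hax, hby, Inv.commute_iff_conj.1 hay.inv_right, hxy.eq, mul_inv_rev]
  obtain ⟨d, hd, hd1, hdxy⟩ := key _ (mul_mem ha' hb) hc1 _ hodd hinv
  rcases Inv.four_cases hA ha' hb ha1' hb1 hab hd with rfl | rfl | rfl | rfl
  · exact hd1 rfl
  · exact no hx1 hx hax (by simpa using hdxy.mul_right hay.inv_right)
  · exact no hy1 hy hby (by simpa using hbx.inv_right.mul_right hdxy)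
  · by_cases h0 : x * y = 1
    · exact no hy1 hy hby (eq_inv_of_mul_eq_one_right h0 ▸ hbx.inv_right)
    · exact no h0 hodd hinv hdxy

end Cfsg.Agent.S3195
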