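import Mathlib
import Cfsg.Statements.S3200
import Cfsg.Agent.H2.KW
import Cfsg.Agent.Core.Hall
import Cfsg.Agent.Core.PSolvable
import Cfsg.Agent.PGrp.Basic

set_option autoImplicit false
open Cfsg

namespace Cfsg.Agent.S3200

theorem compl {K : Type*} [Group K] [Finite K] {D : Subgroup K} (h : IsPiHall {2}ᶜ D)
    (P : Sylow 2 K) : Subgroup.IsComplement' (P : Subgroup K) D := by
  have : Fact (Nat.Prime 2) := ⟨Nat.prime_two⟩
  have h1 : ¬ 2 ∣ Nat.card D := fun h1 => h.1 2 Nat.prime_two h1 rfl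
  obtain ⟨k, hk⟩ := P.2.exists_card_eq
  obtain ⟨m, hm⟩ := Core.eq_pow_of_pi_singleton (p := 2) D.index_ne_zero_of_finite
    fun q hq h2 => by by_contra h3; exact h.2 q hq h3 h2
  refine Subgroup.isComplement'_of_coprime ?_
    (hk ▸ ((Nat.Prime.coprime_iff_not_dvd Nat.prime_two).2 h1).pow_left k)
  rw [P.card_eq_multiplicity, ← D.card_mul_index, hm, Nat.factorization_mul Nat.card_pos.ne'
    (by positivity), Finsupp.add_apply, Nat.factorization_eq_zero_of_not_dvd h1,
    Nat.prime_two.factorization_pow, mul_comm]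
  simp

/-- Let H be a finite group in which a Sylow 2-subgroup has an abelian complement (an abelian subgroup meeting it trivially whose product with it is all of H). Then H is solvable, and every subgroup and every quotient group of H again has a Sylow 2-subgroup with an abelian complement. -/
theorem result {H : Type*} [Group H] [Finite H]
    (S : Sylow 2 H) (C : Subgroup H) (hC : IsMulCommutative ↥C) (hSC : Subgroup.IsComplement' (S : Subgroup H) C) :
    Group.IsSolvable H ∧
    (∀ L : Subgroup H, ∃ (P : Sylow 2 ↥L) (D : Subgroup ↥L), IsMulCommutative ↥D ∧ Subgroup.IsComplement' (P : Subgroup ↥L) D) ∧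
    (∀ (N : Subgroup H) [N.Normal], ∃ (P : Sylow 2 (H ⧸ N)) (D : Subgroup (H ⧸ N)),
      IsMulCommutative ↥D ∧ Subgroup.IsComplement' (P : Subgroup (H ⧸ N)) D) := by
  have : Fact (Nat.Prime 2) := ⟨Nat.prime_two⟩
  have hs : Group.IsSolvable H := H2.kegel_wielandt_top H S C S.2.isNilpotent
    (@CommGroup.isNilpotent C {(inferInstance : Group C) with mul_comm := hC.is_comm.comm})
    ⟨le_top, le_top, fun g _ => by
      obtain ⟨⟨a, b⟩, h⟩ := hSC.2 g
      exact ⟨a, a.2, b, b.2, h.symm⟩⟩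
  have hH : IsPiHall {2}ᶜ C := by
    constructor
    · rintro p hp h rfl
      exact S.not_dvd_index (hSC.symm.index_eq_card ▸ h)
    · intro p hp hp2 h
      obtain ⟨k, hk⟩ := S.2.exists_card_eq
      rw [hSC.index_eq_card, hk] at h
      exact hp2 ((Nat.prime_dvd_prime_iff_eq hp Nat.prime_two).1 (hp.dvd_of_dvd_pow h))
  refine ⟨hs, fun L => ?_, fun N _ => ?_⟩
  · obtain ⟨D, hD⟩ := Core.exists_isPiHall (G := L) {2}ᶜ
    obtain ⟨P⟩ : Nonempty (Sylow 2 L) := inferInstance
    obtain ⟨g, hg⟩ := Core.IsPiHall.exists_conj_le hH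
      (Core.IsPiSubgroup.map (Core.IsPiHall.isPiSubgroup hD) L.subtype)
    refine ⟨P, D, PGrp.isMulCommutative_iff_forall.2 fun a ha b hb => Subtype.ext ?_, compl hD P⟩
    have := PGrp.isMulCommutative_iff_forall.1 hC _ (Core.conj_smul_le_iff.1 hg a ⟨a, ha, rfl⟩)
      _ (Core.conj_smul_le_iff.1 hg b ⟨b, hb, rfl⟩)
    simpa using this
  · obtain ⟨P⟩ : Nonempty (Sylow 2 (H ⧸ N)) := inferInstance
    refine ⟨P, _, PGrp.isMulCommutative_iff_forall.2 ?_,
      compl (Core.IsPiHall.map hH (QuotientGroup.mk'_surjective N)) P⟩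
    rintro _ ⟨a, ha, rfl⟩ _ ⟨b, hb, rfl⟩
    rw [← map_mul, PGrp.isMulCommutative_iff_forall.1 hC a ha b hb, map_mul]

end Cfsg.Agent.S3200
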