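import Mathlib
import Cfsg.Statements.S3208
import Cfsg.Agent.LocalEven.SylowIn
import Cfsg.Agent.Inv.WeakElem

set_option autoImplicit false
open Cfsg

namespace Cfsg.Agent.S3208

/-- Let j be an involution of a finite group G, H a subgroup of G, and T a Sylow 2-subgroup of H ∩ C_G(j) containing j such that ⟨j⟩ is a characteristic subgroup of T. Then T is a Sylow 2-subgroup of H. -/
theorem result {G : Type*} [Group G] [Finite G]
    (j : G) (hj : orderOf j = 2) (H T : Subgroup G) (hT : T ≤ H ⊓ Subgroup.centralizer ({j} : Set G)) (h2 : IsPGroup 2 ↥T)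
    (hSyl : ¬ 2 ∣ T.relIndex (H ⊓ Subgroup.centralizer ({j} : Set G))) (hjT : j ∈ T)
    (hchar : ((Subgroup.zpowers j).subgroupOf T).Characteristic) :
    ¬ 2 ∣ T.relIndex H := by
  have : Fact (Nat.Prime 2) := ⟨Nat.prime_two⟩
  refine LocalEven.IsSylowIn.not_dvd (LocalEven.IsSylowIn.of_normalizer
    ((LocalEven.isSylowIn_of_not_dvd hT h2 hSyl).mono
    (le_inf (hT.trans inf_le_left) Subgroup.le_normalizer) (inf_le_inf_left _ fun g hg => ?_)))
  have h1 := LocalEven.normalizer_le_normalizer_map_subtype _ (hH := hchar) hg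
  rw [Subgroup.subgroupOf_map_subtype, inf_eq_left.2 (Subgroup.zpowers_le.2 hjT)] at h1
  exact Inv.mem_centralizer_single.2 (Inv.commute_iff_conj.2 (Inv.eq_of_two_of_mem_zpowers
    (LocalEven.conj_mem_of_mem_normalizer h1 (Subgroup.mem_zpowers j)) (Subgroup.mem_zpowers j)
    (Inv.two_conj hj g) hj))

end Cfsg.Agent.S3208
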