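import Mathlib
import Cfsg.Statements.S3211
import Cfsg.Agent.FGS.Cyc2
import Cfsg.Agent.Classical.SL2Basic
import Cfsg.Agent.Inv.ZStar
import Cfsg.Agent.Comp2.GenFitting

set_option autoImplicit false
open Cfsg

namespace Cfsg.Agent.S3211

open Subgroup Cfsg.Agent.FGS Cfsg.Agent.Classical.SL2Basic
open scoped MatrixGroups

theorem exists_anti {F : Type*} [Field F] [Fintype F] (h2 : (2 : F) ≠ 0) {y : SL(2, F)}
    (hy : y * y = -1) : ∃ w : SL(2, F), w * y = -(y * w) := by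
  have h1 : y 1 1 = - y 0 0 := by
    have := (mul_self_eq_neg_one_iff h2).1 hy
    simp only [tr] at this; linear_combination this
  have h3 := det_eq y
  rw [h1] at h3
  have key : ∀ (P Q R : F) (h : P * -P - Q * R = 1), 2 * y 0 0 * P + y 0 1 * R + y 1 0 * Q = 0 →
      ∃ w : SL(2, F), w * y = -(y * w) := fun P Q R h e => ⟨mkSL P Q R (-P) h, by
    refine sl2_ext ?_ ?_ ?_ ?_ <;>
      simp only [Matrix.SpecialLinearGroup.coe_neg, Matrix.neg_apply, mul_apply, mkSL_coe, h1,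
        Matrix.of_apply, Matrix.cons_val', Matrix.cons_val_zero, Matrix.cons_val_one,
        Matrix.cons_val_fin_one]
    · linear_combination e
    · ring
    · ring
    · linear_combination e⟩
  by_cases hc : y 1 0 = 0
  · have ha : y 0 0 ≠ 0 := fun e => by simp [e, hc] at h3
    exact key (-y 0 1 / (2 * y 0 0)) (-1 - (-y 0 1 / (2 * y 0 0)) ^ 2) 1 (by ring) (by
      rw [hc]; field_simp; ring)
  · obtain ⟨p, hp⟩ := CharP.exists F
    haveI : NeZero p := ⟨CharP.char_ne_zero_of_finite F p⟩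
    obtain ⟨a, b, hab⟩ := CharP.sq_add_sq F p (-1)
    push_cast at hab
    exact key (a + y 0 0 * b) ((b - 2 * y 0 0 * a - y 0 0 ^ 2 * b) / y 1 0) (y 1 0 * b) (by
      field_simp; linear_combination -hab) (by field_simp; linear_combination (-b : F) * h3)

theorem sq_of_anti {F : Type*} [Field F] (h2 : (2 : F) ≠ 0) {y w : SL(2, F)}
    (h : w * y = -(y * w)) : w * w = -1 := by
  rw [mul_self_eq_neg_one_iff h2]
  have h1 : w = -(y * w * y⁻¹) := by rw [← neg_mul, ← h]; group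
  have h3 := congrArg tr h1
  rw [tr_neg, tr_conj] at h3
  exact (mul_eq_zero.1 (show 2 * tr w = 0 by linear_combination h3)).resolve_left h2

section

variable {G : Type*} [Group G] {F₁ : Type*} [Field F₁] [Fintype F₁] {F₂ : Type*} [Field F₂]
  [Fintype F₂]

structure St (j : G) (f₁ : SL(2, F₁) →* G) (f₂ : SL(2, F₂) →* G) : Prop where
  i1 : Function.Injective f₁
  i2 : Function.Injective f₂
  j1 : f₁ (-1) = j
  j2 : f₂ (-1) = j
  comm : ∀ a b, f₁ a * f₂ b = f₂ b * f₁ a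
  meet : ∀ a b, f₁ a * f₂ b = 1 → a = 1 ∨ a = -1
  gen : ∀ s, s * j = j * s → s * s = 1 → ∃ a b, s = f₁ a * f₂ b

variable {j u : G} {f₁ g₁ : SL(2, F₁) →* G} {f₂ g₂ : SL(2, F₂) →* G}

theorem St.map (h : St j f₁ f₂) (e : G ≃* G) :
    St (e j) (e.toMonoidHom.comp f₁) (e.toMonoidHom.comp f₂) where
  i1 := e.injective.comp h.i1
  i2 := e.injective.comp h.i2
  j1 := congrArg e h.j1
  j2 := congrArg e h.j2
  comm a b := by simpa using congrArg e (h.comm a b)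
  meet a b e1 := h.meet a b (e.injective (by simpa using e1))
  gen s h1 h2 := by
    obtain ⟨s, rfl⟩ := e.surjective s
    obtain ⟨a, b, rfl⟩ := h.gen s (e.injective (by simpa using h1)) (e.injective (by simpa using h2))
    exact ⟨a, b, by simp⟩

theorem St.mul (h : St j f₁ f₂) (a b c d) :
    f₁ a * f₂ b * (f₁ c * f₂ d) = f₁ (a * c) * f₂ (b * d) := by
  rw [map_mul, map_mul, mul_assoc, ← mul_assoc (f₂ b), ← h.comm]; group

theorem St.jj (h : St j f₁ f₂) : j * j = 1 := by rw [← h.j1, ← map_mul]; simp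

theorem St.dec (h : St j f₁ f₂) (h1 : (2 : F₁) ≠ 0) (h2 : (2 : F₂) ≠ 0) {s : G} (hc : s * j = j * s)
    (hs : s * s = 1) (hs1 : s ≠ 1) (hsj : s ≠ j) :
    ∃ a b, s = f₁ a * f₂ b ∧ a * a = -1 ∧ b * b = -1 := by
  obtain ⟨a, b, rfl⟩ := h.gen s hc hs
  rw [h.mul] at hs
  rcases h.meet _ _ hs with e | e
  · rw [e, map_one, one_mul] at hs
    rcases eq_of_mul_self_eq_one h1 e with rfl | rfl <;>
      rcases eq_of_mul_self_eq_one h2 (h.i2 (hs.trans (map_one _).symm)) with rfl | rfl <;>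
      simp [h.j1, h.j2, h.jj] at hs1 hsj
  · refine ⟨a, b, rfl, e, h.i2 ?_⟩
    rw [e, h.j1] at hs
    rw [h.j2, eq_inv_of_mul_eq_one_right hs, inv_eq_of_mul_eq_one_right h.jj]

theorem St.step (h : St j f₁ f₂) (h' : St u g₁ g₂) (h1 : (2 : F₁) ≠ 0) (h2 : (2 : F₂) ≠ 0)
    {x₁ y₁ : SL(2, F₁)} {x₂ y₂ : SL(2, F₂)} (hu : u = f₁ x₁ * f₂ x₂) (hx : x₁ * x₁ = -1)
    (hj : j = g₁ y₁ * g₂ y₂) (hy₁ : y₁ * y₁ = -1) (hy₂ : y₂ * y₂ = -1) {m : ℕ}
    (hm : ∃ c, c ^ 2 ^ m = y₁) : ∃ a, a ^ 2 ^ (m + 1) = x₁ := by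
  obtain ⟨c, hc⟩ := hm
  obtain ⟨w₁, hw₁⟩ := exists_anti h1 hy₁
  obtain ⟨w₂, hw₂⟩ := exists_anti h2 hy₂
  have hcy : c * y₁ = y₁ * c := hc ▸ (Commute.self_pow c _).eq
  have key : ∀ w : SL(2, F₁), w * y₁ = -(y₁ * w) → ∃ a b, g₁ w * g₂ w₂ = f₁ a * f₂ b :=
    fun w hw => h.gen _ (by
      rw [hj, h'.mul, h'.mul, hw, hw₂, ← mul_neg_one (y₁ * w), ← mul_neg_one (y₂ * w₂), ← h'.mul,
        h'.j1, h'.j2, h'.jj, mul_one]) (by rw [h'.mul, sq_of_anti h1 hw, sq_of_anti h2 hw₂, h'.j1, h'.j2, h'.jj])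
  obtain ⟨a, b, e⟩ := key w₁ hw₁
  obtain ⟨a', b', e'⟩ := key (c * w₁) (by rw [mul_assoc, hw₁, mul_neg, ← mul_assoc, hcy, mul_assoc])
  have e1 : g₁ c = f₁ (a' * a⁻¹) * f₂ (b' * b⁻¹) := by
    rw [← h.mul, ← e', map_inv, map_inv, ← mul_inv_rev, ← h.comm, ← e, map_mul]; group
  have e2 : f₁ ((a' * a⁻¹) ^ 2 ^ (m + 1) * x₁⁻¹) * f₂ ((b' * b⁻¹) ^ 2 ^ (m + 1) * x₂⁻¹) = 1 := by
    rw [← h.mul, map_pow, map_pow, ← Commute.mul_pow (h.comm _ _), ← e1, ← map_pow, pow_succ, pow_mul,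
      hc, pow_two, hy₁, h'.j1, hu, h.mul]; simp
  rcases h.meet _ _ e2 with e3 | e3
  · exact ⟨_, mul_inv_eq_one.1 e3⟩
  · refine ⟨(a' * a⁻¹)⁻¹, ?_⟩
    rw [inv_pow, mul_inv_eq_iff_eq_mul.1 e3, inv_eq_iff_mul_eq_one, mul_assoc, hx]; simp

end

/-- Let G be a finite group with subgroups L₁ ≅ SL₂(q₁) and L₂ ≅ SL₂(q₂), q₁ and q₂ odd prime powers, which commute elementwise and meet in ⟨j⟩ for an involution j, and suppose L₁L₂ has index 2 in C_G(j). If some n ∈ C_G(j) with n² = j interchanges L₁ and L₂ under conjugation (so that C_G(j) = L₁L₂⟨n⟩), then G = C_G(j)O(G). -/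
theorem result {G : Type*} [Group G] [Finite G]
    {F₁ : Type*} [Field F₁] [Fintype F₁] {F₂ : Type*} [Field F₂] [Fintype F₂]
    (hF₁ : Odd (Fintype.card F₁)) (hF₂ : Odd (Fintype.card F₂)) (L₁ L₂ : Subgroup G)
    (e₁ : ↥L₁ ≃* Matrix.SpecialLinearGroup (Fin 2) F₁) (e₂ : ↥L₂ ≃* Matrix.SpecialLinearGroup (Fin 2) F₂)
    (hc : ∀ x ∈ L₁, ∀ y ∈ L₂, x * y = y * x) (j : G) (hj : orderOf j = 2) (hm : L₁ ⊓ L₂ = Subgroup.zpowers j)
    (hle : L₁ ⊔ L₂ ≤ Subgroup.centralizer ({j} : Set G)) (hi : (L₁ ⊔ L₂).relIndex (Subgroup.centralizer ({j} : Set G)) = 2) (n : G) (hn : n ∈ Subgroup.centralizer ({j} : Set G))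
    (hn2 : n ^ 2 = j) (hswap : L₁.map (MulAut.conj n).toMonoidHom = L₂) :
    Subgroup.centralizer ({j} : Set G) ⊔ Cfsg.oddCore G = ⊤ := by
  classical
  have h1 := two_ne_zero_of_odd hF₁
  have h2 := two_ne_zero_of_odd hF₂
  have hjj := mul_self_of_two hj
  have hj1 := ne_one_of_two hj
  have hz : ∀ x ∈ zpowers j, x = 1 ∨ x = j := fun x hx => by
    obtain ⟨k, hk, rfl⟩ := Finset.mem_image.1 (mem_zpowers_iff_mem_range_orderOf.1 hx)
    rw [hj, Finset.mem_range] at hk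
    interval_cases k <;> simp
  have hjm : j ∈ L₁ ⊓ L₂ := hm ▸ mem_zpowers j
  have j1 : e₁ ⟨j, hjm.1⟩ = -1 := (eq_of_mul_self_eq_one h1 (by
    rw [← map_mul, ← map_one e₁]; exact congrArg e₁ (Subtype.ext hjj))).resolve_left fun e =>
      hj1 (congrArg Subtype.val (e₁.map_eq_one_iff.1 e))
  have j2 : e₂ ⟨j, hjm.2⟩ = -1 := (eq_of_mul_self_eq_one h2 (by
    rw [← map_mul, ← map_one e₂]; exact congrArg e₂ (Subtype.ext hjj))).resolve_left fun e =>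
      hj1 (congrArg Subtype.val (e₂.map_eq_one_iff.1 e))
  have hdec : ∀ s ∈ L₁ ⊔ L₂, ∃ a ∈ L₁, ∃ b ∈ L₂, a * b = s := fun s hs =>
    Comp2.mem_sup_of_commutator_eq_bot (Comp2.commutator_eq_bot_iff_forall.2 hc) hs
  have hnj : n * j = j * n := mem_centralizer_singleton_iff.1 hn
  have s1 : ∀ a ∈ L₁, n * a * n⁻¹ ∈ L₂ := fun a ha => hswap ▸ ⟨a, ha, rfl⟩
  have s2 : ∀ b ∈ L₂, n * b * n⁻¹ ∈ L₁ := by
    rw [← hswap]
    rintro _ ⟨a, ha, rfl⟩
    have : n * (n * a * n⁻¹) * n⁻¹ = j * a * j⁻¹ := by rw [← hn2, pow_two]; group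
    exact this ▸ mul_mem (mul_mem hjm.1 ha) (inv_mem hjm.1)
  have hnY : n ∉ L₁ ⊔ L₂ := fun h => by
    obtain ⟨a, ha, b, hb, rfl⟩ := hdec n h
    have h3 : ∀ x ∈ L₁, x = 1 ∨ x = j := fun x hx => hz x (hm ▸ ⟨hx, by
      have := s1 _ (mul_mem (mul_mem (inv_mem ha) hx) ha)
      rwa [mul_assoc a b, ← hc _ (mul_mem (mul_mem (inv_mem ha) hx) ha) b hb,
        show a * (a⁻¹ * x * a * b) * (a * b)⁻¹ = x by group] at this⟩)
    rcases h3 _ (e₁.symm (upper 1)).2 with e | e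
    · have : upper (1 : F₁) = 1 := e₁.symm.map_eq_one_iff.1 (Subtype.ext e)
      simpa [upper] using congrArg (fun g : SL(2, F₁) => g 0 1) this
    · have : upper (1 : F₁) = -1 := j1 ▸ e₁.symm_apply_eq.1 (Subtype.ext e)
      simpa [upper] using congrArg (fun g : SL(2, F₁) => g 0 1) this
  have hS : St j (L₁.subtype.comp e₁.symm.toMonoidHom) (L₂.subtype.comp e₂.symm.toMonoidHom) := by
    refine ⟨L₁.subtype_injective.comp e₁.symm.injective, L₂.subtype_injective.comp e₂.symm.injective,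
      by simp [← j1], by simp [← j2], fun a b => hc _ (e₁.symm a).2 _ (e₂.symm b).2,
      fun a b e => ?_, fun s hs hss => ?_⟩
    · rcases hz (e₁.symm a) (hm ▸ ⟨(e₁.symm a).2,
        (show (e₁.symm a : G) = (e₂.symm b : G)⁻¹ from
          eq_inv_of_mul_eq_one_left e) ▸ L₂.inv_mem (e₂.symm b).2⟩) with e | e
      · exact Or.inl (e₁.symm.map_eq_one_iff.1 (Subtype.ext e))
      · exact Or.inr (j1 ▸ e₁.symm_apply_eq.1 (Subtype.ext e))
    by_cases hY : s ∈ L₁ ⊔ L₂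
    · obtain ⟨a, ha, b, hb, rfl⟩ := hdec s hY
      exact ⟨e₁ ⟨a, ha⟩, e₂ ⟨b, hb⟩, by simp⟩
    exfalso
    have h3 := (mul_mem_iff_of_index_two hi (a := ⟨s, mem_centralizer_singleton_iff.2 hs⟩)
      (b := ⟨n, hn⟩⁻¹)).2 (iff_of_false hY fun h => hnY (by simpa [mem_subgroupOf] using inv_mem h))
    obtain ⟨a, ha, b, hb, e⟩ := hdec _ h3
    obtain rfl : s = a * b * n := (mul_inv_eq_iff_eq_mul.1 e.symm)
    have h4 : a * (n * b * n⁻¹) * (b * (n * a * n⁻¹) * j) = 1 := by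
      rw [← hss, ← hn2, mul_assoc b, mul_assoc a, ← mul_assoc _ b, hc _ (s2 b hb) b hb, mul_assoc b,
        ← mul_assoc (n * b * n⁻¹), hc _ (s2 b hb) _ (s1 a ha), pow_two]; group
    have h5 : a * (n * b * n⁻¹) ∈ zpowers j := hm ▸ ⟨mul_mem ha (s2 b hb),
      eq_inv_of_mul_eq_one_left h4 ▸ L₂.inv_mem (mul_mem (mul_mem hb (s1 a ha)) hjm.2)⟩
    have h6 : n * a * n⁻¹ * b = n * (a * (n * b * n⁻¹)) * n⁻¹ := by
      have : b = j * b * j⁻¹ := by rw [hc j hjm.1 b hb]; group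
      conv_lhs => rw [this, ← hn2, pow_two]
      group
    rcases hz _ h5 with e | e <;> rw [e] at h4 h6
    · rw [mul_one, mul_inv_cancel] at h6
      rw [one_mul, eq_inv_of_mul_eq_one_left h6, mul_inv_cancel, one_mul] at h4
      exact hj1 h4
    · rw [hnj, mul_inv_cancel_right] at h6
      rw [eq_mul_inv_of_mul_eq h6, ← mul_assoc b, ← hc j hjm.1 b hb, mul_inv_cancel_right, hjj,
        mul_one] at h4
      exact hj1 h4
  have hiso : IsIsolatedInvolution j := ⟨hj, fun g hg => by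
    by_contra hne
    have hS' := hS.map (MulAut.conj g)
    have ho : orderOf (MulAut.conj g j) = 2 := ((MulAut.conj g).orderOf_eq _).trans hj
    obtain ⟨x₁, x₂, hu, hx₁, hx₂⟩ := hS.dec h1 h2 hg.eq.symm (mul_self_of_two ho)
      (ne_one_of_two ho) hne
    obtain ⟨y₁, y₂, hv, hy₁, hy₂⟩ := hS'.dec h1 h2 hg.eq hjj hj1 (Ne.symm hne)
    have key : ∀ m : ℕ, (∃ c, c ^ 2 ^ m = x₁) ∧ ∃ c, c ^ 2 ^ m = y₁ := fun m => by
      induction m with
      | zero => exact ⟨⟨x₁, by simp⟩, y₁, by simp⟩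
      | succ m ih => exact ⟨hS.step hS' h1 h2 hu hx₁ hv hy₁ hy₂ ih.2,
          hS'.step hS h1 h2 hv hy₁ hu hx₁ hx₂ ih.1⟩
    obtain ⟨k, r, hr, e⟩ := Nat.exists_eq_two_pow_mul_odd (Nat.card_pos (α := SL(2, F₁))).ne'
    obtain ⟨c, rfl⟩ := (key k).1
    have h3 : (-1 : SL(2, F₁)) ^ r = 1 := by
      rw [← hx₁, ← pow_two, ← pow_mul, mul_comm, pow_mul, ← pow_mul c, ← e, pow_card_eq_one',
        one_pow]
    exact neg_one_ne_one h1 (hr.neg_one_pow.symm.trans h3)⟩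
  refine eq_top_iff.2 fun g _ => ?_
  obtain ⟨o, ho, c, hc, rfl⟩ := Inv.zstar_factor hiso g
  exact mul_mem (mem_sup_right ho) (mem_sup_left (mem_centralizer_singleton_iff.2 hc.eq))

end Cfsg.Agent.S3211
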