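import Mathlib
import Cfsg.Statements.S3213
-- import your own Cfsg.Agent.* helpers here

set_option autoImplicit false
open Cfsg

namespace Cfsg.Agent.S3213

open Matrix in
theorem key : ∀ a b c d : ZMod 5, a*d - b*c = 1 → !![a,b;c,d]*!![a,b;c,d]*!![a,b;c,d] = 1 → !![a,b;c,d] ≠ 1 → ∃ t : ZMod 5,
  (fun h : Matrix (Fin 2) (Fin 2) (ZMod 5) => h*h*(h*h)*h = 1 ∧ h ≠ 1) ((fun w : Matrix (Fin 2) (Fin 2) (ZMod 5) => w*w) (!![a,b;c,d] * (!![1,t;0,1] * !![a,b;c,d] * !![1,-t;0,1]))) := by
  decide +kernel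

theorem key2 (x : Matrix.SpecialLinearGroup (Fin 2) (ZMod 5)) (hx : x ^ 3 = 1) (h1 : x ≠ 1) :
    ∃ g : Matrix.SpecialLinearGroup (Fin 2) (ZMod 5),
      ((x * (g * x * g⁻¹)) ^ 2) ^ 5 = 1 ∧ (x * (g * x * g⁻¹)) ^ 2 ≠ 1 := by
  have he : x.1 = !![x.1 0 0, x.1 0 1; x.1 1 0, x.1 1 1] := Matrix.eta_fin_two _
  have hd : x.1 0 0 * x.1 1 1 - x.1 0 1 * x.1 1 0 = 1 := by
    have := x.2
    rwa [Matrix.det_fin_two] at this
  have h3 : x.1 * x.1 * x.1 = 1 := by
    have := congrArg Subtype.val hx
    simpa [pow_succ] using this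
  have h1' : x.1 ≠ 1 := fun h => h1 (Subtype.ext h)
  obtain ⟨t, ht⟩ := key _ _ _ _ hd (he ▸ h3) (he ▸ h1')
  rw [← he] at ht
  let g : Matrix.SpecialLinearGroup (Fin 2) (ZMod 5) := ⟨!![1,t;0,1], by simp [Matrix.det_fin_two]⟩
  let g' : Matrix.SpecialLinearGroup (Fin 2) (ZMod 5) := ⟨!![1,-t;0,1], by simp [Matrix.det_fin_two]⟩
  have hg : g⁻¹ = g' := by
    apply inv_eq_of_mul_eq_one_right
    apply Subtype.ext
    show (!![1,t;0,1] * !![1,-t;0,1] : Matrix (Fin 2) (Fin 2) (ZMod 5)) = 1
    ext i j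
    fin_cases i <;> fin_cases j <;> simp [Matrix.mul_apply, Fin.sum_univ_two]
  refine ⟨g, ?_, ?_⟩
  · apply Subtype.ext
    rw [hg]
    have e : ∀ h : Matrix.SpecialLinearGroup (Fin 2) (ZMod 5), h ^ 5 = h * h * (h * h) * h := fun h => by
      simp [pow_succ, mul_assoc]
    rw [e, sq]
    exact ht.1
  · intro h
    apply ht.2
    rw [hg, sq] at h
    exact congrArg Subtype.val h

theorem fr_le {F V : Type*} [Field F] [AddCommGroup V] [Module F V] [FiniteDimensional F V]
    (N : V →ₗ[F] V) (W : Submodule F V) :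
    Module.finrank F W ≤ Module.finrank F (W.map N) + Module.finrank F (LinearMap.ker N) := by
  have h := LinearMap.finrank_range_add_finrank_ker (N.domRestrict W)
  rw [LinearMap.range_domRestrict] at h
  have h2 : Module.finrank F (LinearMap.ker (N.domRestrict W)) ≤ Module.finrank F (LinearMap.ker N) := by
    rw [← Submodule.finrank_map_subtype_eq W]
    apply Submodule.finrank_mono
    rintro _ ⟨y, hy, rfl⟩
    exact hy
  omega

theorem lin {F V : Type*} [Field F] [AddCommGroup V] [Module F V] [FiniteDimensional F V]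
    (h4 : Module.finrank F V = 4) (B : LinearMap.BilinForm F V) (hB : B.Nondegenerate)
    (halt : ∀ v, B v v = 0) (A : V →ₗ[F] V) (hA : ∀ v w, B (A v) (A w) = B v w)
    (h3 : ∀ v, (A - LinearMap.id : V →ₗ[F] V) ((A - LinearMap.id : V →ₗ[F] V) ((A - LinearMap.id : V →ₗ[F] V) v)) = 0)
    (hk : Module.finrank F (LinearMap.ker (A - LinearMap.id : V →ₗ[F] V)) ≤ 2) :
    Module.finrank F (LinearMap.ker (A - LinearMap.id : V →ₗ[F] V)) = 2 ∧
      ∀ v w, A v = v → A w = w → B v w = 0 := by
  set N : V →ₗ[F] V := A - LinearMap.id with hN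
  have hNa : ∀ v, N v = A v - v := fun v => rfl
  have horth : ∀ u w, N w = 0 → B (N u) w = 0 := by
    intro u w hw
    have : A w = w := by rw [hNa] at hw; exact sub_eq_zero.1 hw
    rw [hNa, map_sub, LinearMap.sub_apply]
    have h := hA u w
    rw [this] at h
    rw [h, sub_self]
  have hr := LinearMap.finrank_range_add_finrank_ker N
  have h1 := fr_le N (LinearMap.range N)
  have h2 : Module.finrank F ((LinearMap.range N).map N) ≤ Module.finrank F (LinearMap.ker N) := by
    apply Submodule.finrank_mono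
    rintro _ ⟨_, ⟨v, rfl⟩, rfl⟩
    exact h3 v
  have hk2 : Module.finrank F (LinearMap.ker N) = 2 := by omega
  have hr2 : Module.finrank F (LinearMap.range N) = 2 := by omega
  refine ⟨hk2, ?_⟩
  have hko : LinearMap.ker N = B.orthogonal (LinearMap.range N) := by
    apply Submodule.eq_of_le_of_finrank_eq
    · intro w hw
      rintro _ ⟨u, rfl⟩
      exact horth u w hw
    · rw [LinearMap.BilinForm.finrank_orthogonal hB]; omega
  have hN2 : ∀ v, N (N v) = 0 := by
    intro v
    by_contra hv
    have hli : LinearIndependent F ![N v, N (N v)] := by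
      rw [LinearIndependent.pair_iff]
      intro s t hst
      have h := congrArg N hst
      rw [map_add, map_smul, map_smul, h3, smul_zero, add_zero, map_zero] at h
      have hs : s = 0 := (smul_eq_zero.1 h).resolve_right hv
      rw [hs, zero_smul, zero_add] at hst
      exact ⟨hs, (smul_eq_zero.1 hst).resolve_right hv⟩
    have hsp : Submodule.span F (Set.range ![N v, N (N v)]) = LinearMap.range N := by
      apply Submodule.eq_of_le_of_finrank_eq
      · rw [Submodule.span_le]
        rintro _ ⟨i, rfl⟩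
        fin_cases i
        · exact ⟨v, rfl⟩
        · exact ⟨N v, rfl⟩
      · rw [finrank_span_eq_card hli, hr2]; simp
    apply hv
    have : N v ∈ B.orthogonal (LinearMap.range N) := by
      intro u hu
      rw [← hsp, Matrix.range_cons, Matrix.range_cons, Matrix.range_empty, Set.union_empty,
        Set.singleton_union, Submodule.mem_span_pair] at hu
      obtain ⟨a, b, rfl⟩ := hu
      show B (a • N v + b • N (N v)) (N v) = 0
      have e1 : B (N v) (N (N v)) = 0 := horth v _ (h3 v)
      have e2 : B (N (N v)) (N v) = 0 := by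
        have := halt (N v + N (N v))
        simp only [map_add, LinearMap.add_apply, halt, e1] at this
        simpa using this
      simp [map_add, map_smul, halt, e2]
    rw [← hko] at this
    exact this
  have hik : LinearMap.range N = LinearMap.ker N := by
    apply Submodule.eq_of_le_of_finrank_eq
    · rintro _ ⟨v, rfl⟩; exact hN2 v
    · omega
  intro v w hv hw
  have hv' : v ∈ LinearMap.ker N := by
    show N v = 0
    rw [hNa, hv, sub_self]
  rw [← hik] at hv'
  obtain ⟨u, rfl⟩ := hv'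
  exact horth u w (by rw [hNa, hw, sub_self])

theorem main {F : Type*} [Field F] [Fintype F] (hF : Fintype.card F = 3)
    {G : Type*} [Group G]
    (φ : G →* ↥(Matrix.symplecticGroup (Fin 2) F)) (hφ : Function.Injective φ)
    (x g : G) (hx : x ^ 3 = 1) (h5 : ((x * (g * x * g⁻¹)) ^ 2) ^ 5 = 1) (h1 : (x * (g * x * g⁻¹)) ^ 2 ≠ 1) :
    Module.finrank F ↥(LinearMap.ker (Matrix.toLin' ((φ x : Matrix (Fin 2 ⊕ Fin 2) (Fin 2 ⊕ Fin 2) F)) - LinearMap.id)) = 2 ∧
      ∀ v w : Fin 2 ⊕ Fin 2 → F, (φ x : Matrix (Fin 2 ⊕ Fin 2) (Fin 2 ⊕ Fin 2) F).mulVec v = v →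
        (φ x : Matrix (Fin 2 ⊕ Fin 2) (Fin 2 ⊕ Fin 2) F).mulVec w = w →
          dotProduct v ((Matrix.J (Fin 2) F).mulVec w) = 0 := by
  classical
  let L : G → ((Fin 2 ⊕ Fin 2 → F) →ₗ[F] (Fin 2 ⊕ Fin 2 → F)) := fun a =>
    Matrix.toLin' ((φ a : Matrix (Fin 2 ⊕ Fin 2) (Fin 2 ⊕ Fin 2) F))
  have hmul : ∀ a b v, L (a * b) v = L a (L b v) := by
    intro a b v
    simp [L, Matrix.mulVec_mulVec]
  have hone : ∀ v, L 1 v = v := by
    intro v; simp [L]
  have h4 : Module.finrank F (Fin 2 ⊕ Fin 2 → F) = 4 := by simp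
  have hchar : (3 : F) = 0 := by
    have := FiniteField.cast_card_eq_zero F
    rw [hF] at this
    exact_mod_cast this
  let Kr : G → Submodule F (Fin 2 ⊕ Fin 2 → F) := fun a => LinearMap.ker (L a - LinearMap.id)
  have hKr : ∀ a v, v ∈ Kr a ↔ L a v = v := fun a v => by
    show L a v - v = 0 ↔ _
    exact sub_eq_zero
  have hk : Module.finrank F (Kr x) ≤ 2 := by
    by_contra hk
    have hinj : Function.Injective (L g) := fun v w h => by
      have := congrArg (L g⁻¹) h
      rwa [← hmul, ← hmul, inv_mul_cancel, hone, hone] at this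
    have hc : Module.finrank F (Kr x) ≤ Module.finrank F (Kr (g * x * g⁻¹)) := by
      rw [(Submodule.equivMapOfInjective (L g) hinj (Kr x)).finrank_eq]
      apply Submodule.finrank_mono
      rintro _ ⟨v, hv, rfl⟩
      rw [hKr, ← hmul, inv_mul_cancel_right, hmul, (hKr _ _).1 hv]
    set h := (x * (g * x * g⁻¹)) ^ 2 with hh
    have hle : Kr x ⊓ Kr (g * x * g⁻¹) ≤ Kr h := by
      intro v hv
      have a1 := (hKr _ _).1 hv.1
      have a2 := (hKr _ _).1 hv.2
      have a3 : L (x * (g * x * g⁻¹)) v = v := by rw [hmul x, a2, a1]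
      rw [hKr, hh, sq, hmul, a3, a3]
    have s1 := Submodule.finrank_sup_add_finrank_inf_eq (Kr x) (Kr (g * x * g⁻¹))
    have s2 := Submodule.finrank_le (Kr x ⊔ Kr (g * x * g⁻¹))
    have s3 := Submodule.finrank_mono hle
    have s4 := Submodule.finrank_le (Kr h)
    let f : Function.End (Fin 2 ⊕ Fin 2 → F) := fun v => L h v
    have hf : ∀ n : ℕ, ∀ v, (f ^ n) v = L (h ^ n) v := by
      intro n
      induction n with
      | zero => intro v; rw [pow_zero, pow_zero, hone]; rfl
      | succ n ih => intro v; rw [pow_succ, pow_succ, hmul, ← ih]; rfl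
    haveI : Fact (Nat.Prime 5) := ⟨by norm_num⟩
    have hf5 : f ^ 5 ^ 1 = 1 := by
      funext v
      rw [pow_one, hf, h5, hone]; rfl
    have hm := Equiv.Perm.card_fixedPoints_modEq hf5
    have c1 : Fintype.card (Fin 2 ⊕ Fin 2 → F) = 81 := by simp [hF]
    have c2 : Fintype.card (Function.fixedPoints f) = 3 ^ Module.finrank F (Kr h) := by
      have := Module.natCard_eq_pow_finrank (K := F) (V := Kr h)
      rw [Nat.card_eq_fintype_card (α := F), hF] at this
      rw [← this, ← Nat.card_eq_fintype_card]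
      exact Nat.card_congr (Equiv.subtypeEquivRight fun v => (hKr h v).symm)
    rw [c1, c2] at hm
    have hk4 : Module.finrank F (Kr h) = 4 := by
      have : Module.finrank F (Kr h) = 2 ∨ Module.finrank F (Kr h) = 3 ∨ Module.finrank F (Kr h) = 4 := by
        omega
      rcases this with e | e | e
      · rw [e] at hm; exact absurd hm (by decide)
      · rw [e] at hm; exact absurd hm (by decide)
      · exact e
    have htop : Kr h = ⊤ := Submodule.eq_top_of_finrank_eq (by rw [hk4, h4])
    apply h1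
    apply hφ
    rw [map_one]
    apply Subtype.ext
    apply Matrix.toLin'.injective
    apply LinearMap.ext
    intro v
    have := (hKr h v).1 (htop ▸ Submodule.mem_top)
    simpa [L] using this
  have hJ : (Matrix.J (Fin 2) F).Nondegenerate := by
    apply Matrix.nondegenerate_of_det_ne_zero
    exact (Matrix.isUnit_det_J (Fin 2) F).ne_zero
  have := lin h4 (Matrix.toBilin' (Matrix.J (Fin 2) F)) hJ.toBilin' ?_ (L x) ?_ ?_ hk
  · refine ⟨this.1, fun v w hv hw => ?_⟩
    have h := this.2 v w hv hw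
    rwa [Matrix.toBilin'_apply'] at h
  · intro v
    rw [Matrix.toBilin'_apply']
    simp [Matrix.J, dotProduct, Matrix.mulVec, Fintype.sum_sum_type, Fin.sum_univ_two, Matrix.one_apply]
    ring
  · intro v w
    rw [Matrix.toBilin'_apply', Matrix.toBilin'_apply']
    have hs := SymplecticGroup.mem_iff'.1 (φ x).2
    show dotProduct ((φ x).1.mulVec v) ((Matrix.J (Fin 2) F).mulVec ((φ x).1.mulVec w)) = _
    rw [Matrix.mulVec_mulVec, ← Matrix.vecMul_transpose, ← Matrix.dotProduct_mulVec,
      Matrix.mulVec_mulVec, ← Matrix.mul_assoc, hs]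
  · intro v
    have e : L x (L x (L x v)) = v := by
      rw [← hmul, ← hmul, ← pow_three' x, hx, hone]
    simp only [LinearMap.sub_apply, LinearMap.id_apply, map_sub, e]
    have : v - L x (L x v) - (L x (L x v) - L x v) - (L x (L x v) - L x v - (L x v - v))
        = (3 : F) • (L x v - L x (L x v)) := by
      module
    rw [this, hchar, zero_smul]

/-- Let F be the field with 3 elements and K the field with 5 elements. For every injective homomorphism φ from SL₂(K) into the symplectic group Sp₄(F) (4 × 4 matrices g with g J gᵀ = J for the standard alternating matrix J) and every element x of order 3 of SL₂(K), the vectors of F⁴ fixed by φ(x) form a 2-dimensional subspace that is totally isotropic for the alternating form defined by J. -/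
theorem result {F : Type*} [Field F] [Fintype F] (hF : Fintype.card F = 3)
    {K : Type*} [Field K] [Fintype K] (hK : Fintype.card K = 5)
    (φ : Matrix.SpecialLinearGroup (Fin 2) K →* ↥(Matrix.symplecticGroup (Fin 2) F)) (hφ : Function.Injective φ)
    (x : Matrix.SpecialLinearGroup (Fin 2) K) (hx : orderOf x = 3) :
    Module.finrank F ↥(LinearMap.ker (Matrix.toLin' ((φ x : Matrix (Fin 2 ⊕ Fin 2) (Fin 2 ⊕ Fin 2) F)) - LinearMap.id)) = 2 ∧
      ∀ v w : Fin 2 ⊕ Fin 2 → F, (φ x : Matrix (Fin 2 ⊕ Fin 2) (Fin 2 ⊕ Fin 2) F).mulVec v = v →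
        (φ x : Matrix (Fin 2 ⊕ Fin 2) (Fin 2 ⊕ Fin 2) F).mulVec w = w →
          dotProduct v ((Matrix.J (Fin 2) F).mulVec w) = 0 := by
  haveI : Fact (Nat.Prime 5) := ⟨by norm_num⟩
  let e : ZMod 5 ≃+* K := ZMod.ringEquivOfPrime K (by norm_num) hK
  let α : Matrix.SpecialLinearGroup (Fin 2) (ZMod 5) →* Matrix.SpecialLinearGroup (Fin 2) K :=
    Matrix.SpecialLinearGroup.map e.toRingHom
  let β : Matrix.SpecialLinearGroup (Fin 2) K →* Matrix.SpecialLinearGroup (Fin 2) (ZMod 5) :=
    Matrix.SpecialLinearGroup.map e.symm.toRingHom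
  have hαβ : ∀ y, α (β y) = y := by
    intro y; apply Subtype.ext; ext i j; simp [α, β]
  have hβα : ∀ y, β (α y) = y := by
    intro y; apply Subtype.ext; ext i j; simp [α, β]
  have hx3 : x ^ 3 = 1 := hx ▸ pow_orderOf_eq_one x
  have hx1 : x ≠ 1 := by rintro rfl; simp at hx
  obtain ⟨g, h5, h1⟩ := key2 (β x) (by rw [← map_pow, hx3, map_one])
    (fun h => hx1 (by rw [← hαβ x, h, map_one]))
  apply main hF φ hφ x (α g) hx3
  · have := congrArg α h5
    simpa [hαβ] using this
  · intro h
    apply h1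
    have := congrArg β h
    simpa [hβα] using this

end Cfsg.Agent.S3213
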