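import Mathlib
import Cfsg.Statements.S3215
import Cfsg.Agent.BG.T1_16
import Cfsg.Agent.BG.T3_9
import Cfsg.Agent.BG.Rank2
import Cfsg.Agent.BG.AmbHall2
import Cfsg.Agent.BG.AmbPi
import Cfsg.Agent.Comp2.Balance
import Cfsg.Agent.Comp2.GenFitting
import Cfsg.Agent.PGrp.PStruct
import Cfsg.Agent.CIT.Basic

set_option autoImplicit false
open Cfsg

namespace Cfsg.Agent.S3215

open Cfsg.Agent.BG Cfsg.Agent.BG.Amb Cfsg.Agent.CIT

theorem not_two {G : Type*} [Group G] [Finite G] {X : Subgroup G} (hX : Odd (Nat.card X)) {x : G}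
    (hx : x ∈ X) (h1 : x ≠ 1) : ¬ Two x := fun h =>
  h1 (h.eq_one_of_odd (hX.of_dvd_nat (Subgroup.orderOf_dvd_natCard X hx)))

theorem aux {K : Type*} [Group K] [Finite K] (hs : Group.IsSolvable K) (hO : pCore 2 K = ⊥)
    (h : IsCIT K) (hc : ∀ p : ℕ, p.Prime → p ≠ 2 → ∀ P : Subgroup K, IsPGroup p P → IsCyclic P)
    {X : Subgroup K} (hX : IsPiHallOf {2}ᶜ X ⊤) : X.Normal ∧ ∃ a : K, X ⊔ Subgroup.zpowers a = ⊤ := by
  set F := fittingSubgroup K
  haveI : F.Normal := Core.fitting_normal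
  haveI : Group.IsNilpotent F := Core.fitting_nilpotent
  have h2 : ∀ P : Subgroup K, IsPGroup 2 P → P ≤ F → P = ⊥ := fun P hP hle =>
    le_bot_iff.1 (hO ▸ Core.le_pCore_of_le_fitting hP hle)
  have hFo : ¬ 2 ∣ Nat.card F := by
    intro hd
    obtain ⟨P, hP⟩ := exists_sylow 2 F
    exact sylow_ne_bot hP hd (h2 P (sylow_isPGroup hP) (hall_le hP))
  have hFodd : Odd (Nat.card F) := Nat.odd_iff.2 (Nat.two_dvd_ne_zero.1 hFo)
  haveI : IsZGroup F := ⟨fun p hp P => by
    haveI := Fact.mk hp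
    have hP := P.isPGroup'.map F.subtype
    have e := (P : Subgroup F).equivMapOfInjective F.subtype F.subtype_injective
    have : IsCyclic ((P : Subgroup F).map F.subtype) := by
      by_cases hp2 : p = 2
      · subst hp2
        rw [h2 _ hP (Subgroup.map_subtype_le _)]; infer_instance
      · exact hc p hp hp2 _ hP
    exact isCyclic_of_surjective e.symm e.symm.surjective⟩
  have hFc : IsCyclic F := inferInstance
  have hFn : (⊤ : Subgroup K) ≤ 𝐍(F) := (Subgroup.normalizer_eq_top F).ge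
  have hd : ⁅(⊤ : Subgroup K), ⊤⁆ ≤ F :=
    (der_le_cent_of_cyclic hFc hFn).trans Core.centralizer_fitting_le
  have hFX : F ≤ X := normal_le_hall hX le_top (le_top.trans hFn)
    ((pi_compl_singleton Nat.prime_two).2 hFo)
  refine ⟨Subgroup.normalizer_eq_top_iff.1 (top_le_iff.1 (le_norm_of_der_le (hd.trans hFX) le_top)), ?_⟩
  obtain ⟨T, hT⟩ := exists_sylow 2 (⊤ : Subgroup K)
  have hT2 := sylow_isPGroup hT
  have hTc : IsMulCommutative T := der_eq_bot_iff.1
    (h2 _ (hT2.to_le (der_le T)) ((der_mono le_top).trans hd))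
  have hcy : IsCyclic T := by
    by_cases hF : F = ⊥
    · have h3 : 𝐂(F) ≤ F := Core.centralizer_fitting_le
      rw [hF, cent_bot] at h3
      rw [le_bot_iff.1 (le_top.trans h3 : T ≤ ⊥)]; infer_instance
    by_contra hn
    refine hF (le_bot_iff.1 (coprime_abelian_gen_cent1 hTc hn (le_top.trans hFn) ?_ ?_))
    · obtain ⟨k, hk⟩ := IsPGroup.iff_card.1 hT2
      rw [hk]
      exact Nat.Coprime.pow_right _ (Nat.coprime_two_right.2 hFodd)
    · intro a ha h1 x hx
      by_contra hx1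
      exact h1 (h.fpf (not_two hFodd hx.1 hx1) (two_of_mem hT2 ha) (mem_cent1.1 hx.2))
  obtain ⟨a, ha⟩ := cyclic_iff_exists.1 hcy
  exact ⟨a, by rw [ha, sup_comm]; exact hall_sup_hall hT hX⟩

/-- Let H be a finite solvable group with no nontrivial normal subgroup of odd order in which the centralizer of every involution has a normal 2-complement. Let X be a Hall 2'-subgroup of H (odd order, index a power of 2) and Y = O₂(H). Then no non-identity element of X commutes with a non-identity element of Y (so for X ≠ 1 the group XY is a Frobenius group with kernel Y), every Sylow subgroup of X is cyclic, XY is normal in H, and H/XY is a cyclic 2-group. -/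
theorem result {H : Type*} [Group H] [Finite H] (hsol : Group.IsSolvable H)
    (hO : Cfsg.oddCore H = ⊥)
    (hI : ∀ t : H, orderOf t = 2 → Cfsg.HasNormalPComplement 2 ↥(Subgroup.centralizer ({t} : Set H)))
    (X : Subgroup H) (hXodd : Odd (Nat.card X)) (hXidx : ∃ k : ℕ, X.index = 2 ^ k) :
    (∀ x ∈ X, x ≠ 1 → ∀ y ∈ Cfsg.pCore 2 H, y ≠ 1 → x * y ≠ y * x) ∧
      (∀ (p : ℕ) [Fact p.Prime] (P : Sylow p ↥X), IsCyclic ↥(P : Subgroup ↥X)) ∧
      (X ⊔ Cfsg.pCore 2 H).Normal ∧
      ∀ hN : (X ⊔ Cfsg.pCore 2 H).Normal, IsCyclic (H ⧸ (X ⊔ Cfsg.pCore 2 H)) ∧ IsPGroup 2 (H ⧸ (X ⊔ Cfsg.pCore 2 H)) := by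
  set Y := Cfsg.pCore 2 H
  haveI : Y.Normal := inferInstance
  have hY2 : IsPGroup 2 Y := Core.pCore_isPGroup 2
  have hCY : 𝐂(Y) ≤ Y := Comp2.centralizer_pCore_le_of_isSolvable 2 hsol hO
  have key : ∀ t x : H, orderOf t = 2 → Odd (orderOf x) → x * t = t * x → x = 1 := by
    intro t x ht hx hc
    have h1 : x ∈ centralizerPPrimeCore 2 t := by
      refine ⟨⟨x, mem_cent1.2 hc⟩, PGrp.le_pPrimeCore_of_hasNormalPComplement (hI t ht)
        (L := Subgroup.zpowers _) ?_ (Subgroup.mem_zpowers _), rfl⟩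
      rw [Nat.card_zpowers, ← Subgroup.orderOf_coe]
      exact Nat.coprime_two_right.2 hx
    exact (two_of_mem hY2 (hCY (Comp2.centralizerPPrimeCore_le_centralizer_pCore
      (k := 1) (by simpa using ht) h1))).eq_one_of_odd hx
  have hcit : IsCIT H := isCIT_iff.2 fun t x h1 h2 hc => by
    obtain ⟨k, m, hm, e⟩ := Nat.exists_eq_two_pow_mul_odd (orderOf_pos x).ne'
    refine ⟨k, key t _ (orderOf_two_of h1 h2) ?_ ?_⟩
    · refine hm.of_dvd_nat (orderOf_dvd_of_pow_eq_one ?_)
      rw [← pow_mul, ← e, pow_orderOf_eq_one]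
    · exact (Commute.pow_left hc _).eq
  have hcy : ∀ p : ℕ, p.Prime → p ≠ 2 → ∀ P : Subgroup H, IsPGroup p P → IsCyclic P := by
    intro p hp hp2 P hP
    haveI := Fact.mk hp
    by_cases hY : Y = ⊥
    · rw [hY, cent_bot] at hCY
      rw [le_bot_iff.1 (le_top.trans hCY : P ≤ ⊥)]; infer_instance
    refine odd_regular_pgroup_cyclic hp hp2 hP hY (le_top.trans (Subgroup.normalizer_eq_top Y).ge)
      fun x hx h1 => le_bot_iff.1 fun y hy => ?_
    obtain ⟨k, hk⟩ := IsPGroup.iff_card.1 hP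
    exact hcit.fpf (not_two (hk ▸ (hp.odd_of_ne_two hp2).pow) hx h1) (two_of_mem hY2 hy.1)
      (mem_cent1.1 hy.2).symm
  obtain ⟨k, hk⟩ := hXidx
  let f := QuotientGroup.mk' Y
  have hf : Function.Surjective f := QuotientGroup.mk'_surjective Y
  obtain ⟨hn, a, ha⟩ := aux (K := H ⧸ Y) inferInstance (Core.pCore_quotient_pCore 2)
    (hcit.quot Y hY2) (fun p hp hp2 P hP => by
      haveI := Fact.mk hp
      obtain ⟨S, -, h1, rfl⟩ := Rank.exists_isPGroup_map_eq f (H := ⊤)
        (by rw [Subgroup.map_top_of_surjective f hf]; exact le_top) hP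
      haveI := hcy p hp hp2 S h1
      exact isCyclic_of_surjective _ (f.subgroupMap_surjective S))
    (X := X.map f) ⟨le_top, fun p hp hd h2 => by
      rw [Set.mem_singleton_iff] at h2
      subst h2
      exact (Nat.not_even_iff_odd.2 hXodd)
        (even_iff_two_dvd.2 (hd.trans (Subgroup.card_map_dvd _ _))), fun p hp h2 hd => by
      rw [Subgroup.relIndex_top_right] at hd
      have := hd.trans (X.index_map_dvd hf)
      rw [hk] at this
      exact h2 ((Nat.prime_dvd_prime_iff_eq hp Nat.prime_two).1 (hp.dvd_of_dvd_pow this))⟩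
  have e : (X.map f).comap f = X ⊔ Y := by
    rw [Subgroup.comap_map_eq, QuotientGroup.ker_mk']
  refine ⟨fun x hx h1 y hy h2 hc => h2 (hcit.fpf (not_two hXodd hx h1) (two_of_mem hY2 hy) hc),
    fun p _ P => ?_, e ▸ hn.comap f, fun hN => ⟨?_, ?_⟩⟩
  · have hP := P.isPGroup'.map X.subtype
    have e := (P : Subgroup X).equivMapOfInjective X.subtype X.subtype_injective
    by_cases hp2 : p = 2
    · subst hp2
      have : (P : Subgroup X) = ⊥ := by
        obtain ⟨n, hn⟩ := IsPGroup.iff_card.1 P.isPGroup'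
        have h3 := hXodd.of_dvd_nat (Subgroup.card_subgroup_dvd_card (P : Subgroup X))
        rw [hn] at h3
        rcases n with _ | n
        · exact Subgroup.eq_bot_of_card_eq _ (by simpa using hn)
        · exact absurd h3 (by simp [Nat.not_odd_iff_even, pow_succ])
      rw [this]; infer_instance
    · haveI := hcy p Fact.out hp2 _ hP
      exact isCyclic_of_surjective e.symm e.symm.surjective
  · obtain ⟨b, rfl⟩ := hf a
    refine ⟨⟨QuotientGroup.mk b, fun x => ?_⟩⟩
    obtain ⟨x, rfl⟩ := QuotientGroup.mk_surjective x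
    have hx : f x ∈ Subgroup.zpowers (f b) ⊔ X.map f := by rw [sup_comm, ha]; trivial
    obtain ⟨_, ⟨k, rfl⟩, c, hc, e2⟩ := (Core.mem_sup_of_le_normalizer'
      (le_top.trans (Subgroup.normalizer_eq_top _).ge)).1 hx
    refine ⟨k, ?_⟩
    dsimp only at e2 ⊢
    rw [← QuotientGroup.mk_zpow, QuotientGroup.eq, ← e, Subgroup.mem_comap, map_mul, map_inv,
      map_zpow, e2]
    simpa using hc
  · obtain ⟨n, -, hn⟩ := (Nat.dvd_prime_pow Nat.prime_two).1
      (hk ▸ Subgroup.index_dvd_of_le (le_sup_left : X ≤ X ⊔ Y))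
    exact IsPGroup.of_card hn

end Cfsg.Agent.S3215
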