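import Cfsg.Statements.S3264
import Mathlib
import Cfsg.Agent.H3x.Fl2

set_option autoImplicit false
open Cfsg

namespace Cfsg.Agent.S3264


/-- Let G be a non-abelian finite simple group and X a conjugacy class of involutions of G. Form the graph on X in which two distinct involutions are joined when their product has odd order. Then this graph is connected. (By the Baer–Suzuki Theorem the graph has at least one edge; connectedness is the stronger statement.) -/
theorem result {G : Type*} [Group G] [Finite G] [IsSimpleGroup G]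
    (hG : ¬ IsMulCommutative G) (t : G) (ht : orderOf t = 2) :
    (SimpleGraph.fromRel fun x y : {x : G // IsConj t x} => Odd (orderOf (x.1 * y.1))).Connected := by
  set Γ := (SimpleGraph.fromRel fun x y : {x : G // IsConj t x} => Odd (orderOf (x.1 * y.1)))
    with hΓ
  have htt : t * t = 1 := by rw [← sq, ← ht, pow_orderOf_eq_one]
  have ht1 : t ≠ 1 := by rintro rfl; simp at ht
  have hti : t⁻¹ = t := inv_eq_of_mul_eq_one_right htt
  let cj : G → {x : G // IsConj t x} → {x : G // IsConj t x} := fun g x =>
    ⟨g * x.1 * g⁻¹, x.2.trans (isConj_iff.2 ⟨g, rfl⟩)⟩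
  have hord : ∀ (g a b : G), orderOf (g * a * g⁻¹ * (g * b * g⁻¹)) = orderOf (a * b) := by
    intro g a b
    have : g * a * g⁻¹ * (g * b * g⁻¹) = MulAut.conj g (a * b) := by
      simp [mul_assoc]
    rw [this, MulEquiv.orderOf_eq]
  have hadj : ∀ g x y, Γ.Adj x y → Γ.Adj (cj g x) (cj g y) := by
    intro g x y h
    rw [hΓ, SimpleGraph.fromRel_adj] at h ⊢
    refine ⟨fun e => h.1 (Subtype.ext ?_), ?_⟩
    · have := congrArg Subtype.val e
      simpa [cj] using this
    · simpa only [cj, hord] using h.2
  have hreach : ∀ g x y, Γ.Reachable x y → Γ.Reachable (cj g x) (cj g y) := fun g x y h =>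
    h.map (⟨cj g, fun h => hadj g _ _ h⟩ : Γ →g Γ)
  have hmul : ∀ g h x, cj g (cj h x) = cj (g * h) x := fun g h x =>
    Subtype.ext (by simp [cj, mul_assoc])
  let t0 : {x : G // IsConj t x} := ⟨t, IsConj.refl t⟩
  have hone : ∀ x, cj 1 x = x := fun x => Subtype.ext (by simp [cj])
  let L : Subgroup G :=
    { carrier := {g | Γ.Reachable t0 (cj g t0)}
      one_mem' := by
        show Γ.Reachable t0 (cj 1 t0)
        rw [hone]
      mul_mem' := fun {a b} ha hb => by
        show Γ.Reachable t0 (cj (a * b) t0)
        rw [← hmul]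
        exact SimpleGraph.Reachable.trans ha (hreach a _ _ hb)
      inv_mem' := fun {a} ha => by
        show Γ.Reachable t0 (cj a⁻¹ t0)
        have := hreach a⁻¹ _ _ ha
        rw [hmul, inv_mul_cancel, hone] at this
        exact this.symm }
  have hL : L = ⊤ := by
    refine H3x.Fl.gen_odd htt (fun X hX h => ?_) L ?_ ?_
    · refine (hX.eq_bot_or_eq_top).resolve_left fun e => ht1 ?_
      rw [e] at h; exact h
    · show Γ.Reachable t0 (cj t t0)
      have : cj t t0 = t0 := Subtype.ext (by simp [cj, t0])
      rw [this]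
    · intro x h1 h2
      show Γ.Reachable t0 (cj x t0)
      by_cases e : t0 = cj x t0
      · rw [← e]
      · refine SimpleGraph.Adj.reachable ?_
        rw [hΓ, SimpleGraph.fromRel_adj]
        refine ⟨e, Or.inl ?_⟩
        show Odd (orderOf (t * (x * t * x⁻¹)))
        have : t * (x * t * x⁻¹) = (x ^ 2)⁻¹ := by
          rw [← mul_assoc, ← mul_assoc, h2, sq, mul_inv_rev]
        rw [this, orderOf_inv]
        exact h1.of_dvd_nat (orderOf_pow_dvd 2)
  have hall : ∀ x, Γ.Reachable t0 x := by
    intro x
    obtain ⟨g, hg⟩ := isConj_iff.1 x.2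
    have : g ∈ L := hL ▸ Subgroup.mem_top g
    have e : cj g t0 = x := Subtype.ext hg
    rw [← e]; exact this
  haveI : Nonempty {x : G // IsConj t x} := ⟨t0⟩
  exact ⟨fun x y => (hall x).symm.trans (hall y)⟩

end Cfsg.Agent.S3264
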