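import Cfsg.Statements.S3266
import Cfsg.Agent.Mix26.InvGraph
-- import your own Cfsg.Agent.* helpers here

set_option autoImplicit false
open Cfsg

namespace Cfsg.Agent.S3266

open Cfsg.Agent.Mix26


/-- Let F be a finite field with at least 4 elements and let X be a conjugacy class of involutions of PSL(2, F). The graph on X joining two distinct involutions whose product has odd order is connected and has diameter exactly 2. -/
theorem result {F : Type*} [Field F] [Fintype F] (hF : 4 ≤ Fintype.card F)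
    (t : Matrix.ProjectiveSpecialLinearGroup (Fin 2) F) (ht : orderOf t = 2) :
    (SimpleGraph.fromRel fun x y : {x : Matrix.ProjectiveSpecialLinearGroup (Fin 2) F // IsConj t x} =>
        Odd (orderOf (x.1 * y.1))).Connected ∧
      (SimpleGraph.fromRel fun x y : {x : Matrix.ProjectiveSpecialLinearGroup (Fin 2) F // IsConj t x} =>
        Odd (orderOf (x.1 * y.1))).diam = 2 := by
  have t2 : t * t = 1 := by have := pow_orderOf_eq_one t; rwa [ht, sq] at this
  have t1 : t ≠ 1 := by rintro rfl; simp at ht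
  have mid : ∀ x y : Matrix.ProjectiveSpecialLinearGroup (Fin 2) F, x * x = 1 → y * y = 1 → x ≠ 1 →
      y ≠ 1 → ∃ z, z * z = 1 ∧ Odd (orderOf (x * z)) ∧ Odd (orderOf (z * y)) := fun x y a b c d => by
    obtain ⟨X, rfl⟩ := QuotientGroup.mk_surjective x
    obtain ⟨Y, rfl⟩ := QuotientGroup.mk_surjective y
    exact psl2_mid hF (tr_of_sq a c) (tr_of_sq b d) c d
  have cj : ∀ x, x * x = 1 → x ≠ 1 → IsConj t x := fun x a b => by
    obtain ⟨z, z1, z2, z3⟩ := mid t x t2 a t1 b
    exact (conj_of_odd t2 z1 z2).trans (conj_of_odd z1 a z3)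
  have sq : ∀ x, IsConj t x → x * x = 1 ∧ x ≠ 1 := fun x hx => by
    refine ⟨?_, fun e => t1 (isConj_one_left.1 (e ▸ hx))⟩
    obtain ⟨c, rfl⟩ := isConj_iff.1 hx
    rw [conj_mul, t2]; simp
  refine inv_graph t t2 (fun x y a b => mid x y (sq x a).1 (sq y b).1 (sq x a).2 (sq y b).2) ?_
  obtain ⟨X, Y, a, b, c, d, e⟩ := psl2_even hF
  exact ⟨_, _, cj _ (pr_sq a) c, cj _ (pr_sq b) d, e⟩

end Cfsg.Agent.S3266
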