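import Mathlib
import Cfsg.Statements.S3269
import Cfsg.Agent.Inv.ZStar
import Cfsg.Agent.Block.Quat
-- import your own Cfsg.Agent.* helpers here

set_option autoImplicit false
open Cfsg

namespace Cfsg.Agent.S3269

open Subgroup Cfsg.Agent.Inv Cfsg.Agent.Block Cfsg.Agent.LocalEven

variable {G : Type*} [Group G]

theorem decomp {Q R S : Subgroup G} (h : IsInternalDirectProduct Q R S) {s : G} (hs : s ∈ S) :
    ∃ q ∈ Q, ∃ r ∈ R, s = q * r := by
  obtain ⟨-, -, hc, -, rfl⟩ := h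
  rw [sup_eq_closure] at hs
  induction hs using closure_induction with
  | mem x hx =>
    rcases hx with hx | hx
    · exact ⟨x, hx, 1, one_mem _, (mul_one x).symm⟩
    · exact ⟨1, one_mem _, x, hx, (one_mul x).symm⟩
  | one => exact ⟨1, one_mem _, 1, one_mem _, (mul_one 1).symm⟩
  | mul x y _ _ hx hy =>
    obtain ⟨q, hq, r, hr, rfl⟩ := hx
    obtain ⟨q', hq', r', hr', rfl⟩ := hy
    refine ⟨q * q', mul_mem hq hq', r * r', mul_mem hr hr', ?_⟩
    calc q * r * (q' * r') = q * (r * q') * r' := by group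
      _ = q * q' * (r * r') := by rw [← hc q' hq' r hr]; group
  | inv x _ hx =>
    obtain ⟨q, hq, r, hr, rfl⟩ := hx
    exact ⟨q⁻¹, inv_mem hq, r⁻¹, inv_mem hr, by
      rw [hc _ (inv_mem hq) _ (inv_mem hr), mul_inv_rev]⟩

theorem conj_mem_right {Q R S : Subgroup G} (h : IsInternalDirectProduct Q R S) {s x : G}
    (hs : s ∈ S) (hx : x ∈ R) : s * x * s⁻¹ ∈ R := by
  obtain ⟨q, hq, r, hr, rfl⟩ := decomp h hs
  have h1 : r * x * r⁻¹ ∈ R := mul_mem (mul_mem hr hx) (inv_mem hr)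
  have : q * r * x * (q * r)⁻¹ = r * x * r⁻¹ := by
    calc q * r * x * (q * r)⁻¹ = q * (r * x * r⁻¹) * q⁻¹ := by group
      _ = _ := by rw [h.2.2.1 q hq _ h1]; group
  rwa [this]

theorem idp_symm {Q R S : Subgroup G} (h : IsInternalDirectProduct Q R S) :
    IsInternalDirectProduct R Q S :=
  ⟨h.2.1, h.1, fun a ha b hb => (h.2.2.1 b hb a ha).symm, by rw [inf_comm, h.2.2.2.1],
    by rw [sup_comm, h.2.2.2.2]⟩

theorem idp_cj {Q R S : Subgroup G} (h : IsInternalDirectProduct Q R S) {n : G}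
    (hn : n ∈ normalizer (S : Set G)) : IsInternalDirectProduct (cj n Q) (cj n R) S := by
  refine ⟨cj_le_of_mem_normalizer hn h.1, cj_le_of_mem_normalizer hn h.2.1, ?_, ?_, ?_⟩
  · intro a ha b hb
    obtain ⟨a, ha', rfl⟩ := mem_cj'.1 ha
    obtain ⟨b, hb', rfl⟩ := mem_cj'.1 hb
    calc n * a * n⁻¹ * (n * b * n⁻¹) = n * (a * b) * n⁻¹ := by group
      _ = _ := by rw [h.2.2.1 a ha' b hb']; group
  · rw [← cj_inf, h.2.2.2.1, cj_bot]
  · rw [← cj_sup, h.2.2.2.2, cj_eq_of_mem_normalizer hn]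

theorem key [Finite G] {Q R Q' R' S : Subgroup G} (hS : IsPGroup 2 S)
    (h : IsInternalDirectProduct Q R S)
    (h' : IsInternalDirectProduct Q' R' S) {m : ℕ} {a b a' b' : G} (hq : QData Q m a b)
    (hq' : QData Q' m a' b') (hm : m ≠ 0) (he : Even m) : a' ^ m = a ^ m ∨ a' ^ m ∈ R := by
  by_cases hz : a' ^ m ∈ R
  · exact Or.inr hz
  left
  have h1 : Q' ⊓ R = ⊥ := by
    by_contra hne
    obtain ⟨x, hx, h2⟩ := exists_mem_orderOf_eq_of_ne_bot (hS.to_le (inf_le_left.trans h'.1)) hne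
    exact hz (hq'.eq_z_of_two hm hx.1 h2 ▸ hx.2)
  have h2 : ∀ x ∈ Q', ∀ r ∈ R, x * r = r * x := by
    intro x hx r hr
    have : x * r * x⁻¹ * r⁻¹ ∈ Q' ⊓ R := by
      refine mem_inf.2 ⟨?_, mul_mem (conj_mem_right h (h'.1 hx) hr) (inv_mem hr)⟩
      have := mul_mem hx (conj_mem_right (idp_symm h') (h.2.1 hr) (inv_mem hx))
      simpa [mul_assoc] using this
    rw [h1, mem_bot] at this
    calc x * r = x * r * x⁻¹ * r⁻¹ * (r * x) := by group
      _ = r * x := by rw [this, one_mul]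
  obtain ⟨q, hq1, r, hr, e⟩ := decomp h (h'.1 hq'.a_mem)
  obtain ⟨q', hq2, r', hr', e'⟩ := decomp h (h'.1 hq'.b_mem)
  have h3 : Commute r r' := by
    have h4 : Commute a' r' := h2 _ hq'.a_mem _ hr'
    have h5 : Commute q r' := h.2.2.1 _ hq1 _ hr'
    have : r = q⁻¹ * a' := by rw [e]; group
    rw [this]; exact h5.inv_left.mul_left h4
  have h6 : a' ^ 2 = q * q' * q⁻¹ * q'⁻¹ := by
    have c1 : Commute r q := (h.2.2.1 _ hq1 _ hr).symm
    have c2 : Commute r q' := (h.2.2.1 _ hq2 _ hr).symm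
    have c3 : Commute r' q := (h.2.2.1 _ hq1 _ hr').symm
    have c4 : Commute r' q' := (h.2.2.1 _ hq2 _ hr').symm
    have c5 : Commute r b' := e' ▸ c2.mul_right h3
    calc a' ^ 2 = a' * (b' * a' * b'⁻¹)⁻¹ := by rw [hq'.conj, inv_inv, sq]
      _ = q * (r * b' * r⁻¹) * q⁻¹ * b'⁻¹ := by rw [e]; group
      _ = q * q' * (r' * q⁻¹ * r'⁻¹) * q'⁻¹ := by rw [c5.eq, e']; group
      _ = _ := by rw [c3.inv_right.eq]; group
  obtain ⟨k, hk⟩ := he
  refine hq.eq_z_of_two hm ?_ (hq'.z_order hm)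
  rw [hk, ← two_mul, pow_mul, h6]
  exact pow_mem (mul_mem (mul_mem (mul_mem hq1 hq2) (inv_mem hq1)) (inv_mem hq2)) _

theorem noncommProd_congr' {s t : Multiset G} (h : s = t) (c c') :
    s.noncommProd c = t.noncommProd c' := by
  subst h; rfl

/-- Let G be a finite group whose Sylow 2-subgroup S is an internal direct product Q × R with Q generalized quaternion (of order at least 8) and R a subgroup all of whose involutions are central in R. Then G is not simple. In particular no finite simple group has a Sylow 2-subgroup that is a direct product of one or more generalized quaternion groups. -/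
theorem result {G : Type*} [Group G] [Finite G]
    (S : Sylow 2 G) (Q R : Subgroup G) (hQR : Cfsg.IsInternalDirectProduct Q R (S : Subgroup G))
    (n : ℕ) (hn : 1 ≤ n) (eQ : ↥Q ≃* QuaternionGroup (2 ^ n))
    (hR : ∀ r ∈ R, orderOf r = 2 → ∀ s ∈ R, r * s = s * r) :
    ¬ IsSimpleGroup G := by
  classical
  intro hsimp
  have hm : 2 ^ n ≠ 0 := by positivity
  have he : Even (2 ^ n) := (Nat.even_pow.2 ⟨even_two, by omega⟩)
  have hm1 : 1 < 2 ^ n := Nat.one_lt_two_pow (by omega)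
  obtain ⟨a, b, hq⟩ := exists_qData hm eQ
  let Z : Set G := {z | ∃ Q' R' a' b', IsInternalDirectProduct Q' R' (S : Subgroup G) ∧
    QData Q' (2 ^ n) a' b' ∧ z = a' ^ 2 ^ n}
  let T : Finset G := (Set.toFinite Z).toFinset
  have hT : ∀ z, z ∈ T ↔ z ∈ Z := fun z => Set.Finite.mem_toFinset _
  have hcen : ∀ z ∈ Z, z ∈ (S : Subgroup G) ∧ z * z = 1 ∧ ∀ s ∈ (S : Subgroup G), Commute s z := by
    rintro _ ⟨Q', R', a', b', h1, h2, rfl⟩
    refine ⟨h1.1 h2.z_mem, h2.z_mul_z, fun s hs => ?_⟩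
    obtain ⟨q, hq1, r, hr, rfl⟩ := decomp h1 hs
    exact (h2.commute_z hq1).mul_left (h1.2.2.1 _ h2.z_mem _ hr).symm
  have comm : {x | x ∈ T.1}.Pairwise Commute := fun x hx y hy _ =>
    (hcen y ((hT y).1 hy)).2.2 x (hcen x ((hT x).1 hx)).1
  let w := T.1.noncommProd comm
  have hw : w ∈ (S : Subgroup G) ∧ w * w = 1 ∧ ∀ s ∈ (S : Subgroup G), Commute s w := by
    refine Multiset.noncommProd_induction T.1 comm
      (fun z => z ∈ (S : Subgroup G) ∧ z * z = 1 ∧ ∀ s ∈ (S : Subgroup G), Commute s z) ?_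
      ⟨one_mem _, one_mul 1, fun s _ => Commute.one_right s⟩ fun x hx => hcen x ((hT x).1 hx)
    intro x y hx hy
    refine ⟨mul_mem hx.1 hy.1, ?_, fun s hs => (hx.2.2 s hs).mul_right (hy.2.2 s hs)⟩
    calc x * y * (x * y) = x * (y * x) * y := by group
      _ = (x * x) * (y * y) := by rw [(hx.2.2 y hy.1).eq]; group
      _ = 1 := by rw [hx.2.1, hy.2.1, one_mul]
  have hz : a ^ 2 ^ n ∈ T := (hT _).2 ⟨Q, R, a, b, hQR, hq, rfl⟩
  have hw1 : w ≠ 1 := by
    intro h1
    have e : T.1 = a ^ 2 ^ n ::ₘ (T.erase (a ^ 2 ^ n)).1 := by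
      rw [Finset.erase_val, Multiset.cons_erase hz]
    have h2 : w = _ := noncommProd_congr' e comm (e ▸ comm)
    rw [Multiset.noncommProd_cons, h1, eq_comm, mul_eq_one_iff_eq_inv] at h2
    have h3 : a ^ 2 ^ n ∈ Q ⊓ R := by
      refine mem_inf.2 ⟨hq.z_mem, ?_⟩
      rw [h2]
      refine inv_mem (multiset_noncommProd_mem _ _ _ fun x hx => ?_)
      obtain ⟨hne, hx⟩ := Finset.mem_erase.1 hx
      obtain ⟨Q', R', a', b', h4, h5, rfl⟩ := (hT x).1 hx
      exact (key S.2 hQR h4 hq h5 hm he).resolve_left hne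
    rw [hQR.2.2.2.1, mem_bot] at h3
    exact hq.z_ne_one hm h3
  have hN : ∀ g ∈ normalizer ((S : Subgroup G) : Set G), g * w * g⁻¹ = w := by
    intro g hg
    have h1 : ∀ g ∈ normalizer ((S : Subgroup G) : Set G), ∀ z ∈ T, g * z * g⁻¹ ∈ T := by
      intro g hg z hz
      obtain ⟨Q', R', a', b', h4, h5, rfl⟩ := (hT z).1 hz
      refine (hT _).2 ⟨cj g Q', cj g R', g * a' * g⁻¹, g * b' * g⁻¹, idp_cj h4 hg,
        h5.map (MulAut.conj g).toMonoidHom fun x _ hx => by simpa using hx, ?_⟩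
      rw [conj_pow]
    have h2 := Multiset.map_noncommProd T.1 comm (MulAut.conj g).toMonoidHom
    refine h2.trans (noncommProd_congr' ?_ _ _)
    have h3 : T.map (MulAut.conj g).toEquiv.toEmbedding = T := by
      ext x
      rw [Finset.mem_map]
      constructor
      · rintro ⟨z, hz, rfl⟩; exact h1 g hg z hz
      · intro hx
        exact ⟨g⁻¹ * x * g⁻¹⁻¹, h1 _ (inv_mem hg) x hx, by simp [mul_assoc]⟩
    exact congrArg Finset.val h3
  have hw2 : orderOf w = 2 := two_of_mul_self hw1 hw.2.1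
  have hiso : IsIsolatedInvolution w := by
    refine isolated_of_sylow S hw2 fun g hg => ?_
    have h1 : g⁻¹⁻¹ * w * g⁻¹ ∈ centralizer ((S : Subgroup G) : Set G) := by
      rw [inv_inv]
      obtain ⟨q, hq1, r, hr, e⟩ := decomp hQR hg
      have h2 := mul_self_of_two (two_conj hw2 g)
      have h3 : q * q = (r * r)⁻¹ := by
        rw [e] at h2
        rw [eq_inv_iff_mul_eq_one, ← h2]
        calc q * q * (r * r) = q * (q * r) * r := by group
          _ = q * (r * q) * r := by rw [hQR.2.2.1 q hq1 r hr]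
          _ = _ := by group
      have h4 : q * q ∈ Q ⊓ R := mem_inf.2 ⟨mul_mem hq1 hq1, h3 ▸ inv_mem (mul_mem hr hr)⟩
      rw [hQR.2.2.2.1, mem_bot] at h4
      have h5 : r * r = 1 := by rw [h4, eq_comm, inv_eq_one] at h3; exact h3
      intro s hs
      obtain ⟨q', hq2, r', hr', rfl⟩ := decomp hQR hs
      rw [e]
      have c1 : Commute q' q := by
        rcases hq.eq_of_mul_self hm hq1 h4 with rfl | rfl
        · exact Commute.one_right _
        · exact hq.commute_z hq2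
      have c2 : Commute r' r := by
        by_cases h6 : r = 1
        · rw [h6]; exact Commute.one_right _
        · exact (hR r hr (two_of_mul_self h6 h5) r' hr').symm
      have c3 : Commute q' r := hQR.2.2.1 _ hq2 _ hr
      have c4 : Commute r' q := (hQR.2.2.1 _ hq1 _ hr').symm
      exact ((c1.mul_right c3).mul_left (c4.mul_right c2)).eq
    obtain ⟨k, hk, e⟩ := S.conj_eq_normalizer_conj_of_mem_centralizer w g⁻¹
      (fun s hs => (hw.2.2 s hs).eq) h1
    rw [inv_inv] at e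
    rw [e]
    simpa using hN k⁻¹ (inv_mem hk)
  have hO : oddCore G = ⊥ := by
    refine (IsSimpleGroup.eq_bot_or_eq_top_of_normal _ inferInstance).resolve_right fun h => ?_
    exact odd_card_iff.1 odd_card_oddCore w (h ▸ mem_top w) hw2
  have hc : center G = ⊤ := by
    refine (IsSimpleGroup.eq_bot_or_eq_top_of_normal _ inferInstance).resolve_left fun h => hw1 ?_
    rw [← mem_bot, ← h, mem_center_iff]
    exact fun g => (zstar_commute hO hiso g).symm.eq
  exact hq.not_commute_a hm1 hq.b_mem hq.notMem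
    (mem_center_iff.1 (hc ▸ mem_top a : a ∈ center G) b)


end Cfsg.Agent.S3269
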