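import Mathlib
import Cfsg.Statements.S3276
import Cfsg.Agent.Inv.WeakElem

set_option autoImplicit false
open Cfsg

namespace Cfsg.Agent.S3276

/-- Let x and y be commuting, non-conjugate involutions of a finite group G, and suppose that for every involution u commuting with x, each conjugate of y that commutes with u also commutes with y. Then the normal closure of y is a proper, normal, elementary abelian 2-subgroup of G; and if y is the only involution of that normal closure commuting with x, it has order at most 4. -/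
theorem result {G : Type*} [Group G] [Finite G] (x y : G) (hx : orderOf x = 2) (hy : orderOf y = 2)
    (hxy : Commute x y) (hnc : ¬ IsConj x y)
    (hstar : ∀ u : G, orderOf u = 2 → Commute u x → ∀ g : G, Commute (g * y * g⁻¹) u → Commute (g * y * g⁻¹) y) :
    Subgroup.normalClosure ({y} : Set G) ≠ ⊤ ∧ Cfsg.IsElementaryAbelian 2 (Subgroup.normalClosure ({y} : Set G)) ∧
      ((∀ u ∈ Subgroup.normalClosure ({y} : Set G), orderOf u = 2 → Commute u x → u = y) →
        Nat.card ↥(Subgroup.normalClosure ({y} : Set G)) ≤ 4) := by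
  classical
  have hxx := Inv.mul_self_of_two hx
  have hyy := Inv.mul_self_of_two hy
  have h1 : ∀ g : G, Commute (g * y * g⁻¹) y := fun g => by
    rcases Inv.isConj_or_exists_central hxx (Inv.mul_self_of_two (Inv.two_conj hy g)) with
      ⟨d, -, hd⟩ | ⟨z, -, hz, h1, h2⟩
    · exact absurd ((Inv.isConj_conj d x).trans (hd ▸ (Inv.isConj_conj g y).symm)) hnc
    · exact hstar z hz h1 g h2.symm
  have hmem : ∀ a ∈ Group.conjugatesOfSet ({y} : Set G), ∃ g : G, g * y * g⁻¹ = a := fun a ha => by
    obtain ⟨b, hb, h⟩ := Group.mem_conjugatesOfSet_iff.1 ha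
    obtain rfl : b = y := hb
    exact isConj_iff.1 h
  have h2 : ∀ a ∈ Group.conjugatesOfSet ({y} : Set G), ∀ b ∈ Group.conjugatesOfSet ({y} : Set G),
      a * b = b * a := fun a ha b hb => by
    obtain ⟨g, rfl⟩ := hmem a ha
    obtain ⟨k, rfl⟩ := hmem b hb
    have := h1 (k⁻¹ * g)
    calc _ = k * (k⁻¹ * g * y * (k⁻¹ * g)⁻¹ * y) * k⁻¹ := by group
      _ = _ := by rw [this.eq]; group
  have hc : ∀ a ∈ Subgroup.normalClosure ({y} : Set G), ∀ b ∈ Subgroup.normalClosure ({y} : Set G),
      a * b = b * a := fun a ha b hb =>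
    congrArg Subtype.val ((Subgroup.isMulCommutative_closure h2).is_comm.comm ⟨a, ha⟩ ⟨b, hb⟩)
  have hsq : ∀ a ∈ Subgroup.normalClosure ({y} : Set G), a * a = 1 := fun a ha => by
    induction ha using Subgroup.closure_induction with
    | mem a ha =>
      obtain ⟨g, rfl⟩ := hmem a ha
      exact Inv.mul_self_of_two (Inv.two_conj hy g)
    | one => simp
    | mul a b ha hb h3 h4 =>
      calc a * b * (a * b) = a * (b * a) * b := by group
        _ = a * a * (b * b) := by rw [hc b hb a ha]; group
        _ = 1 := by rw [h3, h4, one_mul]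
    | inv a ha h3 => rw [← mul_inv_rev, h3, inv_one]
  refine ⟨fun htop => ?_, ⟨Subgroup.isMulCommutative_closure h2, fun a ha => by
    rw [pow_two, hsq a ha]⟩, fun h => ?_⟩
  · have h3 : Subgroup.normalClosure ({y} : Set G) ≤ Subgroup.zpowers y := by
      refine (Subgroup.closure_le _).2 fun a ha => ?_
      obtain ⟨g, rfl⟩ := hmem a ha
      rw [Inv.commute_iff_conj.1 (hc g (htop ▸ trivial) y (htop ▸ trivial))]
      exact Subgroup.mem_zpowers y
    have h4 : x ∈ Subgroup.zpowers y := h3 (htop ▸ trivial)
    exact hnc (by rw [Inv.eq_of_two_of_mem_zpowers h4 (Subgroup.mem_zpowers y) hx hy])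
  · set N := Subgroup.normalClosure ({y} : Set G) with hN
    have hfix : ∀ a ∈ N, x * a * x⁻¹ = a → a = 1 ∨ a = y := fun a ha h1 => by
      by_cases h0 : a = 1
      exacts [.inl h0, .inr (h a ha (Inv.two_of_mul_self h0 (hsq a ha))
        (Inv.commute_iff_conj.2 h1).symm)]
    have hn : ∀ a ∈ N, x * a * x⁻¹ ∈ N := fun a ha => Subgroup.normalClosure_normal.conj_mem a ha x
    have hv : ∀ a ∈ N, x * a * x⁻¹ = a ∨ x * a * x⁻¹ = a * y := fun a ha => by
      have := hfix (a * (x * a * x⁻¹)) (mul_mem ha (hn a ha)) (by
        rw [hc a ha _ (hn a ha)]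
        calc _ = x * x * a * (x * x)⁻¹ * (x * a * x⁻¹) := by group
          _ = _ := by rw [hxx, ← hc a ha _ (hn a ha)]; group)
      refine this.imp (fun h => ?_) fun h => ?_
      · exact mul_left_cancel (a := a) (h.trans (hsq a ha).symm)
      · rw [← h, ← mul_assoc, hsq a ha, one_mul]
    by_cases hex : ∃ a ∈ N, x * a * x⁻¹ = a * y
    · obtain ⟨a, ha, hay⟩ := hex
      have : (N : Set G) ⊆ (({1, y, a, a * y} : Finset G) : Set G) := fun b hb => by
        simp only [Finset.coe_insert, Finset.coe_singleton, Set.mem_insert_iff, Set.mem_singleton_iff]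
        rcases hv b hb with h3 | h3
        · rcases hfix b hb h3 with h4 | h4 <;> simp [h4]
        · have hyN : y ∈ N := Subgroup.subset_normalClosure rfl
          have := hfix (a * b) (mul_mem ha hb) (by
            calc _ = x * a * x⁻¹ * (x * b * x⁻¹) := by group
              _ = a * (y * b) * y := by rw [hay, h3]; group
              _ = a * b := by rw [hc y hyN b hb, mul_assoc, mul_assoc, hyy, mul_one])
          rcases this with h4 | h4
          · exact .inr (.inr (.inl (mul_left_cancel (a := a) (h4.trans (hsq a ha).symm))))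
          · exact .inr (.inr (.inr (by rw [← h4, ← mul_assoc, hsq a ha, one_mul])))
      calc Nat.card N = (N : Set G).ncard := rfl
        _ ≤ _ := Set.ncard_le_ncard this
        _ ≤ 4 := by rw [Set.ncard_coe_finset]; exact Finset.card_le_four
    · have : (N : Set G) ⊆ (({1, y} : Finset G) : Set G) := fun b hb => by
        simpa using hfix b hb ((hv b hb).resolve_right fun h => hex ⟨b, hb, h⟩)
      calc Nat.card N = (N : Set G).ncard := rfl
        _ ≤ _ := Set.ncard_le_ncard this
        _ ≤ 4 := by rw [Set.ncard_coe_finset]; exact Finset.card_le_two.trans (by norm_num)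

end Cfsg.Agent.S3276
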