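import Mathlib
import Cfsg.Statements.S3279
import Cfsg.Agent.Inv.ZStar
import Cfsg.Agent.S3276

set_option autoImplicit false
open Cfsg

namespace Cfsg.Agent.S3279

theorem three {G : Type*} [Group G] [Finite G] {x : G} (hx : orderOf x = 2)
    (h3 : Nat.card {u : ↥(Subgroup.centralizer ({x} : Set G)) // orderOf u = 2} ≤ 3)
    {c a b : G} (hc : IsConj x c) (ha : orderOf a = 2) (hb : orderOf b = 2) (hac : Commute a c)
    (hbc : Commute b c) (hne : a ≠ c) : b = c ∨ b = a ∨ b = c * a := by
  classical
  obtain ⟨g, rfl⟩ := isConj_iff.1 hc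
  by_contra hcon
  push Not at hcon
  obtain ⟨h1, h2, h4⟩ := hcon
  set c := g * x * g⁻¹ with hcg
  have hc2 : orderOf c = 2 := Inv.two_conj hx g
  have hca : orderOf (c * a) = 2 := Inv.two_of_mul_self (fun h => hne (by
      rw [← Inv.inv_eq_of_two hc2]; exact eq_inv_of_mul_eq_one_right h))
    (by rw [hac.mul_mul_mul_comm, Inv.mul_self_of_two hc2, Inv.mul_self_of_two ha, one_mul])
  let f : (({c, a, b, c * a} : Finset G) : Set G) →
      {u : ↥(Subgroup.centralizer ({x} : Set G)) // orderOf u = 2} := fun u =>
    have hu : orderOf (u : G) = 2 ∧ Commute (u : G) c := by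
      obtain ⟨u, hu⟩ := u
      simp only [Finset.coe_insert, Finset.coe_singleton, Set.mem_insert_iff,
        Set.mem_singleton_iff] at hu
      rcases hu with rfl | rfl | rfl | rfl
      exacts [⟨hc2, Commute.refl _⟩, ⟨ha, hac⟩, ⟨hb, hbc⟩, ⟨hca, (Commute.refl c).mul_left hac⟩]
    ⟨⟨g⁻¹ * u * g, Inv.mem_centralizer_single.2 (by
      have := hu.2.eq
      generalize (u : G) = v at this ⊢
      calc g⁻¹ * v * g * x = g⁻¹ * (v * c) * g := by rw [hcg]; group
        _ = _ := by rw [this, hcg]; group)⟩, by
      rw [← Subgroup.orderOf_coe]; exact (Inv.orderOf_conj' g u).trans hu.1⟩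
  have hf : Function.Injective f := fun u v h => Subtype.ext (by simpa [f] using h)
  have := (Nat.card_le_card_of_injective f hf).trans h3
  rw [Nat.card_coe_set_eq, Set.ncard_coe_finset, Finset.card_insert_of_notMem,
    Finset.card_insert_of_notMem, Finset.card_pair h4] at this
  · omega
  · simpa using ⟨h2.symm, Inv.ne_one_of_two hc2⟩
  · simpa using ⟨hne.symm, h1.symm, Inv.ne_one_of_two ha⟩

/-- Let G be a finite simple group and x an involution of G whose centralizer contains at most three involutions. Then C_G(x) contains a Sylow 2-subgroup of G, and all involutions of G are conjugate. -/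
theorem result {G : Type*} [Group G] [Finite G] [IsSimpleGroup G] (x : G) (hx : orderOf x = 2)
    (h3 : Nat.card {u : ↥(Subgroup.centralizer ({x} : Set G)) // orderOf u = 2} ≤ 3) :
    (∃ S : Sylow 2 G, (S : Subgroup G) ≤ Subgroup.centralizer ({x} : Set G)) ∧
      ∀ u v : G, orderOf u = 2 → orderOf v = 2 → IsConj u v := by
  have : Fact (Nat.Prime 2) := ⟨Nat.prime_two⟩
  have key : ∀ u : G, orderOf u = 2 → IsConj x u := by
    intro u hu
    by_cases hiso : IsIsolatedInvolution x
    · have hO : oddCore G = ⊥ := (IsSimpleGroup.eq_bot_or_eq_top_of_normal _ inferInstance).resolve_right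
        fun h => by
          have := Inv.odd_card_oddCore (G := G)
          rw [h, Subgroup.card_top, ← Nat.not_even_iff_odd] at this
          exact this (Inv.even_card_of_two hx)
      have hn : (Subgroup.zpowers x).Normal := ⟨fun a ha g => by
        rwa [Inv.commute_iff_conj.1 (Inv.commute_of_mem_zpowers (Inv.zstar_commute hO hiso g) ha).symm]⟩
      have := (IsSimpleGroup.eq_bot_or_eq_top_of_normal _ hn).resolve_left
        (by simpa using Inv.ne_one_of_two hx)
      rw [Inv.eq_of_two_of_mem_zpowers (this ▸ trivial) (Subgroup.mem_zpowers x) hu hx]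
    · simp only [IsIsolatedInvolution, hx, true_and, not_forall] at hiso
      obtain ⟨g, hxy, hne⟩ := hiso
      have hc := Inv.isConj_conj g x
      have hy := Inv.two_conj hx g
      generalize g * x * g⁻¹ = y at hxy hne hc hy
      have hxx := Inv.mul_self_of_two hx
      have hyy := Inv.mul_self_of_two hy
      have hz : orderOf (x * y) = 2 := Inv.two_of_mul_self (fun h => hne (by
        rw [← Inv.inv_eq_of_two hx]; exact eq_inv_of_mul_eq_one_right h))
        (by rw [hxy.symm.mul_mul_mul_comm, hxx, hyy, one_mul])
      have hzx : Commute (x * y) x := (Commute.refl x).mul_left hxy.symm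
      have hzy : Commute (x * y) y := hxy.mul_left (Commute.refl y)
      have Ix : ∀ b, orderOf b = 2 → Commute b x → b = x ∨ b = y ∨ b = x * y := fun b hb h =>
        three hx h3 (IsConj.refl x) hy hb hxy.symm h hne
      have Iy : ∀ b, orderOf b = 2 → Commute b y → b = x ∨ b = y ∨ b = x * y := fun b hb h => by
        have := three hx h3 hc hx hb hxy h (Ne.symm hne)
        rw [← hxy.eq] at this
        tauto
      by_cases hxz : IsConj x (x * y)
      · have Iz : ∀ b, orderOf b = 2 → Commute b (x * y) → b = x ∨ b = y ∨ b = x * y :=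
          fun b hb h => by
            have := three hx h3 hxz hx hb hzx.symm h (by simpa using Inv.ne_one_of_two hy)
            rw [hzx.eq, ← mul_assoc, hxx, one_mul] at this
            tauto
        rcases Inv.isConj_or_exists_central hxx (Inv.mul_self_of_two hu) with
          ⟨d, -, hd⟩ | ⟨w, -, hw, h1, h2⟩
        · exact hd ▸ Inv.isConj_conj d x
        · have : u = x ∨ u = y ∨ u = x * y := by
            rcases Ix w hw h1 with rfl | rfl | rfl
            exacts [Ix u hu h2.symm, Iy u hu h2.symm, Iz u hu h2.symm]
          rcases this with rfl | rfl | rfl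
          exacts [IsConj.refl _, hc, hxz]
      · have h1 := (S3276.result x (x * y) hx hz hzx.symm hxz fun w hw h1 k h2 => by
          have hk := Inv.two_conj hz k
          have h4 : ∀ b, b = x ∨ b = y ∨ b = x * y → Commute b (x * y) := by
            rintro b (rfl | rfl | rfl)
            exacts [hzx.symm, hzy.symm, Commute.refl _]
          rcases Ix w hw h1 with rfl | rfl | rfl
          exacts [h4 _ (Ix _ hk h2), h4 _ (Iy _ hk h2), h2]).1
        have h2 := (IsSimpleGroup.eq_bot_or_eq_top_of_normal _
          Subgroup.normalClosure_normal).resolve_right h1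
        have : x * y ∈ Subgroup.normalClosure ({x * y} : Set G) := Subgroup.subset_normalClosure rfl
        rw [h2] at this
        exact absurd this (Inv.ne_one_of_two hz)
  refine ⟨?_, fun u v hu hv => (key u hu).symm.trans (key v hv)⟩
  obtain ⟨S⟩ : Nonempty (Sylow 2 G) := inferInstance
  obtain ⟨g, hg⟩ := Inv.exists_conj_mem_sylow S (Inv.mul_self_of_two hx)
  obtain ⟨c, -, hc, hc2⟩ := LocalEven.exists_mem_inf_centralizer S.2 S.2 Subgroup.le_normalizer
    (fun h => Inv.ne_one_of_two (Inv.two_conj hx g) (Subgroup.mem_bot.1 (h ▸ (hg : _ ∈ (S : Subgroup G)))))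
  obtain ⟨k, rfl⟩ := isConj_iff.1 (key c hc2).symm
  refine ⟨k • S, ?_⟩
  rw [LocalEven.sylow_smul_coe, ← LocalEven.cj_centralizer_singleton]
  exact LocalEven.cj_mono k fun s hs => Inv.mem_centralizer_single.2 (hc s hs)

end Cfsg.Agent.S3279
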