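import Mathlib
import Cfsg.Statements.S3301
import Cfsg.Agent.Isaacs.Sm3
-- import your own Cfsg.Agent.* helpers here

set_option autoImplicit false
open Cfsg

namespace Cfsg.Agent.S3301

/-- Let G be a finite group with no nontrivial 2-group quotient (O^2(G) = G), z an involution of G with H = C_G(z), and suppose E = O_2(H) is extraspecial with C_G(E) ≤ E. Then the Sylow 2-subgroups of H/[H, H] are elementary abelian: every element of 2-power order of the abelianization of H has order at most 2. -/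
theorem result {G : Type*} [Group G] [Finite G] (hres : Cfsg.pResidual 2 G = ⊤) (z : G) (hz : orderOf z = 2)
    (E : Subgroup G) (hE : E = (Cfsg.pCore 2 ↥(Subgroup.centralizer ({z} : Set G))).map (Subgroup.centralizer ({z} : Set G)).subtype)
    (hext : Cfsg.IsExtraspecial 2 ↥E) (hcent : Subgroup.centralizer (E : Set G) ≤ E) :
    ∀ q : Abelianization ↥(Subgroup.centralizer ({z} : Set G)), (∃ k : ℕ, orderOf q = 2 ^ k) → q ^ 2 = 1 := by
  classical
  haveI : Fact (Nat.Prime 2) := ⟨Nat.prime_two⟩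
  subst hE
  have hL : Fischer.LS (Sm.EE z) z := by simpa using Fischer.ls_of_core hz hext hcent 1
  set H := Subgroup.centralizer ({z} : Set G) with hH
  let ψ : G → Abelianization H := fun c => if h : c ∈ H then Abelianization.of (⟨c, h⟩ : H) ^ 2 else 1
  have hm : ∀ {c : G}, Commute c z → c ∈ H := fun h => Inv.mem_centralizer_single.2 h
  have hψ : Sm.Mul' z ψ := fun a b ha hb => by
    simp only [ψ, dif_pos (hm ha), dif_pos (hm hb), dif_pos (hm (ha.mul_left hb))]
    rw [← mul_pow, ← map_mul]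
    rfl
  have key := @Sm.triv G _ _ _ z ψ _ hres hL hψ (fun g t p hy ht hp hpy htp => by
    have hr : t * p * t⁻¹ * p⁻¹ ∈ Sm.EE (g * z * g⁻¹) := by
      have := Subgroup.mul_mem _ ht ((Sm.ls_cj hL g).norm p hpy _ (Subgroup.inv_mem _ ht))
      simpa [mul_assoc] using this
    have hrz := htp.mul_left hp.inv_left
    have h1 := Sm.core hL (isConj_iff.2 ⟨g, rfl⟩) hy.symm hr hrz
    have h2 := hψ _ _ hrz hp
    rw [inv_mul_cancel_right] at h2
    rw [h2, mul_eq_right]
    simp only [ψ, dif_pos (hm hrz)]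
    rw [← map_pow, ← MonoidHom.mem_ker, Abelianization.ker_of]
    rw [Sm.DD, ← Subgroup.map_subtype_commutator] at h1
    obtain ⟨c, hc, ec⟩ := h1
    have e : (⟨t * p * t⁻¹ * p⁻¹, hm hrz⟩ : H) ^ 2 = c := Subtype.ext (by simpa [sq] using ec.symm)
    exact e ▸ hc)
  rintro q ⟨k, hk⟩
  have hq : IsPGroup 2 (Subgroup.zpowers q) := IsPGroup.of_card (by rw [Nat.card_zpowers, hk])
  obtain ⟨R, hR⟩ := hq.exists_le_sylow
  obtain ⟨P, rfl⟩ := Sylow.mapSurjective_surjective
    (f := (Abelianization.of : H →* Abelianization H)) (QuotientGroup.mk'_surjective _) 2 R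
  obtain ⟨c, hc, rfl⟩ := hR (Subgroup.mem_zpowers q)
  have := key (P.2.map H.subtype) (by
    rintro _ ⟨x, -, rfl⟩
    exact Inv.mem_centralizer_single.1 x.2) c ⟨c, hc, rfl⟩
  simpa [ψ] using this

end Cfsg.Agent.S3301
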