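import Mathlib
import Cfsg.Statements.S3305
import Cfsg.Agent.LocalEven.SylowIn

set_option autoImplicit false
open Cfsg

namespace Cfsg.Agent.S3305

/-- If any two distinct Sylow 2-subgroups of the finite group G intersect in a cyclic group, then the same holds in every quotient group G/H, H a normal subgroup of G. -/
theorem result {G : Type*} [Group G] [Finite G]
    (hC : ∀ S T : Sylow 2 G, S ≠ T → IsCyclic ↥((S : Subgroup G) ⊓ (T : Subgroup G))) (H : Subgroup G) [H.Normal] :
    ∀ S T : Sylow 2 (G ⧸ H), S ≠ T → IsCyclic ↥((S : Subgroup (G ⧸ H)) ⊓ (T : Subgroup (G ⧸ H))) := by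
  have : Fact (Nat.Prime 2) := ⟨Nat.prime_two⟩
  intro S T hST
  set f := QuotientGroup.mk' H
  have hf : Function.Surjective f := QuotientGroup.mk'_surjective H
  obtain ⟨P, hP⟩ := LocalEven.exists_isSylowIn 2 (((S : Subgroup (G ⧸ H)) ⊓ T).comap f)
  have h1 := hP.map f
  rw [Subgroup.map_comap_eq_self_of_surjective hf] at h1
  have key : ∀ R : Sylow 2 (G ⧸ H), (S : Subgroup (G ⧸ H)) ⊓ T ≤ R →
      ∃ U : Sylow 2 G, P ≤ U ∧ (U : Subgroup G).map f = R := fun R hR => by
    obtain ⟨V, hV, h2⟩ := LocalEven.exists_isSylowIn_le hP.2 (hP.1.trans (Subgroup.comap_mono hR))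
    obtain ⟨U, hU⟩ := hV.2.exists_le_sylow
    have h3 := hV.map f
    rw [Subgroup.map_comap_eq_self_of_surjective hf] at h3
    exact ⟨U, h2.trans hU, R.3 (U.2.map f) (h3.eq_of_isPGroup R.2 ▸ Subgroup.map_mono hU)⟩
  obtain ⟨U, hU, hU'⟩ := key S inf_le_left
  obtain ⟨V, hV, hV'⟩ := key T inf_le_right
  have h2 := hC U V fun h => hST (Sylow.ext (by rw [← hU', h, hV']))
  have h3 : IsCyclic P := Subgroup.isCyclic_of_le (le_inf hU hV)
  rw [← h1.eq_of_isPGroup (S.2.to_le inf_le_left)]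
  exact isCyclic_of_surjective _ (f.subgroupMap_surjective P)

end Cfsg.Agent.S3305
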