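import Mathlib
import Cfsg.Statements.S3303
import Cfsg.Agent.S3305
import Cfsg.Agent.Inv.Quo
import Cfsg.Agent.Core.Fitting

set_option autoImplicit false
open Cfsg

namespace Cfsg.Agent.S3303

theorem aux {G : Type*} [Group G] [Finite G] (hsol : Group.IsSolvable G) (hO : pPrimeCore 2 G = ⊥)
    (h : IsCyclic (pCore 2 G)) : IsPGroup 2 G := by
  have : Fact (Nat.Prime 2) := ⟨Nat.prime_two⟩
  have hC := Core.centralizer_pCore_le (G := G) 2 hO
  obtain ⟨w, hw⟩ := (Subgroup.isCyclic_iff_exists_zpowers_eq_top _).1 h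
  refine Inv.isPGroup_of_odd_eq_one fun g hg =>
    Inv.eq_one_of_odd_of_mem_two_group (Core.pCore_isPGroup 2) (hC fun a ha => ?_) hg
  refine (Inv.commute_of_mem_zpowers (Inv.commute_iff_conj.2 (Inv.conj_eq_of_odd_of_zpowers
    (w := w) (hw ▸ Core.pCore_isPGroup 2) ?_ hg)).symm (hw ▸ ha))
  rw [hw]
  exact Subgroup.Normal.conj_mem inferInstance _ (hw ▸ Subgroup.mem_zpowers w) g

/-- Let G be a finite solvable group in which the intersection of any two distinct Sylow 2-subgroups is cyclic. Then G/O(G) has a normal Sylow 2-subgroup, where O(G) is the largest normal subgroup of odd order. -/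
theorem result {G : Type*} [Group G] [Finite G] (hs : Group.IsSolvable G)
    (hC : ∀ S T : Sylow 2 G, S ≠ T → IsCyclic ↥((S : Subgroup G) ⊓ (T : Subgroup G))) :
    ∃ P : Sylow 2 (G ⧸ Cfsg.oddCore G), (P : Subgroup (G ⧸ Cfsg.oddCore G)).Normal := by
  have : Fact (Nat.Prime 2) := ⟨Nat.prime_two⟩
  obtain ⟨P⟩ : Nonempty (Sylow 2 (G ⧸ oddCore G)) := inferInstance
  refine ⟨P, ?_⟩
  by_cases h : ∃ T, P ≠ T
  · obtain ⟨T, hT⟩ := h
    have h1 := S3305.result hC _ P T hT
    have h2 := aux inferInstance (Core.pPrimeCore_quotient_pPrimeCore 2)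
      (Subgroup.isCyclic_of_le (le_inf (Core.pCore_le_sylow P) (Core.pCore_le_sylow T)))
    rw [← P.3 (h2.to_subgroup ⊤) le_top]
    infer_instance
  · push Not at h
    have : Subsingleton (Sylow 2 (G ⧸ oddCore G)) := ⟨fun a b => (h a).symm.trans (h b)⟩
    exact P.normal_of_subsingleton

end Cfsg.Agent.S3303
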