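import Mathlib
import Cfsg.Statements.S3304
import Cfsg.Agent.Inv.GL23
import Cfsg.Agent.BG.Rank2
import Cfsg.Agent.BG.Rank3
import Cfsg.Agent.BG.AmbHall
import Cfsg.Agent.Comp2.GenFitting

set_option autoImplicit false
open Cfsg

namespace Cfsg.Agent.S3304

open Cfsg.Agent.BG Cfsg.Agent.BG.Amb Cfsg.Agent.BG.Rank

/-- Let G be a finite solvable group in which the intersection of any two distinct Sylow 2-subgroups has 2-rank at most 1 (contains no Klein four-group). Write Q = G/O(G), O(G) the largest normal subgroup of odd order. Then Q has a normal Sylow 2-subgroup; or Q is isomorphic to GL(2,3); or Q has order 48, centre of order 2 with central quotient isomorphic to the symmetric group of degree 4, and generalized quaternion Sylow 2-subgroups of order 16 (the binary octahedral group). The last two are the two representation groups of the symmetric group of degree 4. -/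
theorem result {G : Type*} [Group G] [Finite G] (hs : Group.IsSolvable G)
    (hI : ∀ S T : Sylow 2 G, S ≠ T → Cfsg.PRankLE 2 1 ↥((S : Subgroup G) ⊓ (T : Subgroup G))) :
    (∃ P : Sylow 2 (G ⧸ Cfsg.oddCore G), (P : Subgroup (G ⧸ Cfsg.oddCore G)).Normal) ∨
    Nonempty ((G ⧸ Cfsg.oddCore G) ≃* GL (Fin 2) (ZMod 3)) ∨
    (Nat.card (G ⧸ Cfsg.oddCore G) = 48 ∧ Nat.card ↥(Subgroup.center (G ⧸ Cfsg.oddCore G)) = 2 ∧
      Nonempty ((G ⧸ Cfsg.oddCore G) ⧸ Subgroup.center (G ⧸ Cfsg.oddCore G) ≃* Equiv.Perm (Fin 4)) ∧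
      ∀ P : Sylow 2 (G ⧸ Cfsg.oddCore G), Nonempty (↥(P : Subgroup (G ⧸ Cfsg.oddCore G)) ≃* QuaternionGroup 4)) := by
  set O := Cfsg.oddCore G
  by_cases hn : ∃ P : Sylow 2 (G ⧸ O), (P : Subgroup (G ⧸ O)).Normal
  · exact Or.inl hn
  let f := QuotientGroup.mk' O
  have hf : Function.Surjective f := QuotientGroup.mk'_surjective O
  have hQ : IsPGroup 2 (pCore 2 (G ⧸ O)) := Core.pCore_isPGroup 2
  obtain ⟨V, -, hV, eV⟩ := exists_isPGroup_map_eq f (H := ⊤)
    (by rw [Subgroup.map_top_of_surjective f hf]; exact le_top) hQ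
  have lift : ∀ S : Sylow 2 (G ⧸ O), ∃ T : Sylow 2 G, V ≤ T ∧ T.mapSurjective hf = S := by
    intro S
    obtain ⟨T, hT, hVT⟩ := exists_sylow_ge hV (M := (S : Subgroup (G ⧸ O)).comap f)
      (Subgroup.map_le_iff_le_comap.1 (eV ▸ hQ.le_sylow_of_normal S))
    have h1 : IsSylowOf 2 T ⊤ := hall_of_index hT le_top fun p hp hd h2 => by
      rw [Set.mem_singleton_iff] at h2
      subst h2
      rw [Subgroup.relIndex_top_right, Subgroup.index_comap_of_surjective _ hf] at hd
      exact S.not_dvd_index hd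
    obtain ⟨T, rfl⟩ := exists_sylow_of_isSylowOf_top h1
    refine ⟨T, hVT, Sylow.ext ((T.mapSurjective hf).is_maximal' S.isPGroup' ?_).symm⟩
    exact Subgroup.map_le_iff_le_comap.2 (hall_le hT)
  obtain ⟨S⟩ : Nonempty (Sylow 2 (G ⧸ O)) := inferInstance
  obtain ⟨g, hg⟩ : ∃ g : G ⧸ O, g • S ≠ S := by
    by_contra h
    push Not at h
    exact hn ⟨S, Subgroup.normalizer_eq_top_iff.1
      (eq_top_iff.2 fun g _ => Sylow.smul_eq_iff_mem_normalizer.1 (h g))⟩
  obtain ⟨T₁, h1, e1⟩ := lift S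
  obtain ⟨T₂, h2, e2⟩ := lift (g • S)
  have hr := pRankLE_mono (hI T₁ T₂ fun e => hg (by rw [← e2, ← e, e1])) (le_inf h1 h2)
  have hr2 : PRankLE 2 1 (pCore 2 (G ⧸ O)) := by
    rw [← eV]
    refine (pRankLE_map_iff_of_not_dvd f fun h => ?_).2 hr
    rw [QuotientGroup.ker_mk'] at h
    have := h.trans (Subgroup.card_dvd_of_le inf_le_right)
    exact absurd (Nat.Coprime.eq_one_of_dvd (Core.pPrimeCore_coprime 2).symm this) (by norm_num)
  refine Inv.GL23.main (Comp2.centralizer_pCore_le_of_isSolvable 2 inferInstance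
    (Core.pPrimeCore_quotient_pPrimeCore 2)) fun x hx y hy ox oy => ?_
  have hne : pCore 2 (G ⧸ O) ≠ ⊥ := fun h => by
    rw [h, Subgroup.mem_bot] at hx
    simp [hx] at ox
  obtain ⟨X, hX, hXc, hX2⟩ := exists_card_prime_le_center hQ ⟨le_rfl, Subgroup.le_normalizer⟩ hne
  have key : ∀ x ∈ pCore 2 (G ⧸ O), orderOf x = 2 → Subgroup.zpowers x = X := by
    intro x hx ox
    by_contra h
    exact not_pRankLE_of_pnElem (pnElem_two_sup (by rw [Nat.card_zpowers, ox]) hX2
      (Subgroup.zpowers_le.2 hx) hX (hXc.trans (cent_anti (Subgroup.zpowers_le.2 hx))) h) hr2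
  have h3 : y ∈ Subgroup.zpowers x := by rw [key x hx ox, ← key y hy oy]; exact Subgroup.mem_zpowers y
  classical
  rw [mem_zpowers_iff_mem_range_orderOf, ox] at h3
  simp only [Finset.mem_image, Finset.mem_range] at h3
  obtain ⟨k, hk, rfl⟩ := h3
  interval_cases k
  · simp at oy
  · simp

end Cfsg.Agent.S3304
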