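import Mathlib
import Cfsg.Statements.S3315
import Cfsg.Agent.Gl23.HA
import Cfsg.Agent.Classical.Congr

set_option autoImplicit false
open Cfsg

namespace Cfsg.Agent.S3315


/-- Let S be a Sylow 2-subgroup of SU₃(2ⁿ), n ≥ 2 (realised over the field with 4ⁿ elements). If a finite 2-group R contains a subgroup S' of index 2 isomorphic to S, then the centre of S' is contained in the centre of R. -/
theorem result {R : Type*} [Group R] [Finite R]
    (hR : IsPGroup 2 R) (n : ℕ) (hn : 2 ≤ n) {F : Type*} [Field F] [Fintype F] (hF : Fintype.card F = 4 ^ n)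
    (P : Sylow 2 ↥(Cfsg.SU 3 F (2 ^ n))) (S' : Subgroup R) (hS : Nonempty (↥S' ≃* ↥(P : Subgroup ↥(Cfsg.SU 3 F (2 ^ n)))))
    (hidx : S'.index = 2) :
    (Subgroup.center ↥S').map S'.subtype ≤ Subgroup.center R := by
  have : Fact (Nat.Prime 2) := ⟨Nat.prime_two⟩
  have hF' : Nat.card F = (2 ^ n) ^ 2 := by
    rw [Nat.card_eq_fintype_card, hF, ← pow_mul, mul_comm, pow_mul]; norm_num
  have : CharP F 2 := Classical.Congr.charP_of_card (k := n * 2) (by rw [hF', pow_mul])
  obtain ⟨e0⟩ := hS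
  obtain ⟨e1⟩ := Herm.sylow_SU_three hF' (p := 2) (k := n) rfl P
  let e := e0.trans e1
  have : S'.Normal := Subgroup.normal_of_index_eq_two hidx
  rintro _ ⟨z, hz, rfl⟩
  rw [Subgroup.mem_center_iff]
  intro r
  let φ := MulAut.congr e (MulAut.conjNormal r)
  have h1 : φ (e z) = e z := by
    refine Gl23.HA.fix_of_sq φ (fun a => ?_) ((Herm.Heis.mem_center_iff _).1 ((Orth.mem_center_equiv e z).2 hz))
    obtain ⟨x, rfl⟩ := Herm.Heis.exists_a (Herm.inv_frob hF') a
    obtain ⟨x, rfl⟩ := e.surjective x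
    rw [← Gl23.HA.al_a, ← Gl23.HA.al_a]
    have h2 : φ (φ (e x)) = e (⟨r * r, Subgroup.mul_self_mem_of_index_two hidx r⟩ * x *
        (⟨r * r, Subgroup.mul_self_mem_of_index_two hidx r⟩ : S')⁻¹) := by
      simp only [φ, MulAut.congr_apply, MulEquiv.trans_apply, MulEquiv.symm_apply_apply]
      congr 1
      apply Subtype.ext
      simp [mul_assoc]
    rw [h2]; simp
  simp only [φ, MulAut.congr_apply, MulEquiv.trans_apply, MulEquiv.symm_apply_apply] at h1
  have h3 := congrArg Subtype.val (e.injective h1)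
  rw [MulAut.conjNormal_apply] at h3
  exact mul_inv_eq_iff_eq_mul.1 h3

end Cfsg.Agent.S3315
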