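import Mathlib
import Cfsg.Statements.S3349
import Cfsg.Agent.PGrp.Special
-- import your own Cfsg.Agent.* helpers here

set_option autoImplicit false
open Cfsg

namespace Cfsg.Agent.S3349

/-- Let Q be a finite extraspecial p-group and α an automorphism of Q fixing every element of some maximal abelian subgroup of Q. Then the order of α is a power of p. -/
theorem result {Q : Type*} [Group Q] [Finite Q]
    (p : ℕ) [Fact p.Prime] (hQ : Cfsg.IsExtraspecial p Q) (α : MulAut Q)
    (A : Subgroup Q) (hA : IsMulCommutative A) (hmax : ∀ B : Subgroup Q, A ≤ B → IsMulCommutative B → B = A)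
    (hfix : ∀ a ∈ A, α a = a) :
    ∃ k : ℕ, orderOf α = p ^ k := by
  obtain ⟨⟨h1, h2, h3⟩, -⟩ := hQ
  have hC : Subgroup.centralizer (A : Set Q) ≤ A := fun x hx => by
    rw [← hmax _ le_sup_left (PGrp.isMulCommutative_sup_zpowers hA hx)]
    exact Subgroup.mem_sup_right (Subgroup.mem_zpowers x)
  have hN : A.Normal := by
    refine PGrp.normal_of_commutator_le (N := Subgroup.center Q)
      ((Subgroup.center_le_centralizer _).trans hC) ?_
    rw [← h3]
    exact Subgroup.commutator_mono le_top le_rfl
  have hP : IsPGroup p (Subgroup.zpowers α) := by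
    refine PGrp.isPGroup_of_forall_coprime Fact.out fun a ha hc => ?_
    refine PGrp.aut_eq_one_of_centralizer_le h1 hC hc fun x hx => ?_
    obtain ⟨k, rfl⟩ := Subgroup.mem_zpowers_iff.mp ha
    exact MulAction.mem_fixedBy_zpow (show x ∈ MulAction.fixedBy Q α from hfix x hx) k
  obtain ⟨k, hk⟩ := hP.exists_card_eq
  exact ⟨k, by rw [← hk, Nat.card_zpowers]⟩

end Cfsg.Agent.S3349
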