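import Mathlib
import Cfsg.Statements.S3356
import Cfsg.Agent.Perm.Half
import Cfsg.Agent.Perm.Regular

set_option autoImplicit false
open Cfsg

namespace Cfsg.Agent.S3356

open MulAction
open scoped Pointwise

/-- Let G be a finite 3/2-transitive permutation group: G acts faithfully and transitively on a finite set, the point stabilizers are non-trivial, and for each point a all orbits of G_a on the remaining points have the same size. Suppose G has a regular normal subgroup N and G is not a Frobenius group (some two-point stabilizer is non-trivial). Then N is an elementary abelian p-group for some prime p, and every non-trivial normal subgroup of G contains N (so N is the unique minimal normal subgroup). -/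
theorem result {G Ω : Type*} [Group G] [Finite G]
    [MulAction G Ω] [FaithfulSMul G Ω] [Finite Ω] (htrans : MulAction.IsPretransitive G Ω)
    (hne : ∀ a : Ω, MulAction.stabilizer G a ≠ ⊥)
    (hhalf : ∀ a b c : Ω, b ≠ a → c ≠ a →
      Nat.card (MulAction.orbit (MulAction.stabilizer G a) b) = Nat.card (MulAction.orbit (MulAction.stabilizer G a) c))
    (N : Subgroup G) [hN : N.Normal] (hNt : MulAction.IsPretransitive N Ω) (hNr : ∀ a : Ω, MulAction.stabilizer N a = ⊥)
    (hnotF : ∃ a b : Ω, a ≠ b ∧ MulAction.stabilizer G a ⊓ MulAction.stabilizer G b ≠ ⊥) :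
    (∃ p : ℕ, p.Prime ∧ IsMulCommutative N ∧ ∀ x ∈ N, x ^ p = 1) ∧
    (∀ M : Subgroup G, M.Normal → M ≠ ⊥ → N ≤ M) := by
  obtain ⟨a, b, hab, hst⟩ := hnotF
  haveI : IsPreprimitive G Ω := by_contra fun h => hst (Perm.half_trans_primitive hhalf h hab)
  have hinj : ∀ {n m : G}, n ∈ N → m ∈ N → n • a = m • a → n = m := fun hn hm h => Perm.reg_inj hNr hn hm h
  have hne1 : ∀ n ∈ N, n ≠ 1 → n • a ≠ a := fun n hn h1 e => h1 (hinj hn N.one_mem (by rwa [one_smul]))
  have hfix : ∀ h : G, h • a = a → ∀ n ∈ N, (h • n • a = n • a ↔ h * n = n * h) := fun h hh n hn => by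
    rw [← mul_inv_eq_iff_eq_mul]
    refine ⟨fun e => hinj (hN.conj_mem n hn h) hn ?_, fun e => ?_⟩
    · rw [mul_smul, mul_smul, inv_smul_eq_iff.mpr hh.symm, e]
    · nth_rewrite 2 [← e]
      rw [mul_smul, mul_smul, inv_smul_eq_iff.mpr hh.symm]
  have hclass : ∀ x ∈ N, x ≠ 1 → ∀ h : G, h • a = a → h * x = x * h → ∀ u ∈ N,
      h * (u * x * u⁻¹) = u * x * u⁻¹ * h := by
    intro x hx hx1 h hh hhx u hu
    let C : Set Ω := {y | ∃ v ∈ N, y = (v * x * v⁻¹) • a}
    have hC : ∀ k : G, k • a = a → ∀ y ∈ C, k • y = y → k • C = C := by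
      rintro k hk _ ⟨v, hv, rfl⟩ e
      rw [hfix k hk _ (hN.conj_mem x hx v)] at e
      refine Set.eq_of_subset_of_ncard_le ?_ (by rw [Set.ncard_smul_set])
      rintro _ ⟨_, ⟨w, hw, rfl⟩, rfl⟩
      refine ⟨k * (w * v⁻¹) * k⁻¹ * v, N.mul_mem (hN.conj_mem _ (N.mul_mem hw (N.inv_mem hv)) k) hv, ?_⟩
      have e' : k⁻¹ * (v * x * v⁻¹) * k = v * x * v⁻¹ := by rw [mul_assoc, ← e, inv_mul_cancel_left]
      rw [show k * (w * v⁻¹) * k⁻¹ * v * x * (k * (w * v⁻¹) * k⁻¹ * v)⁻¹ =
        k * (w * v⁻¹) * (k⁻¹ * (v * x * v⁻¹) * k) * (v * w⁻¹) * k⁻¹ by group, e',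
        show k * (w * v⁻¹) * (v * x * v⁻¹) * (v * w⁻¹) * k⁻¹ = k * (w * x * w⁻¹) * k⁻¹ by group]
      simp only [mul_smul, inv_smul_eq_iff.mpr hk.symm]
    have hCa : ∀ y ∈ C, y ≠ a := by
      rintro _ ⟨v, hv, rfl⟩
      exact hne1 _ (hN.conj_mem x hx v) (by simpa using hx1)
    rw [← hfix h hh _ (hN.conj_mem x hx u)]
    refine Perm.fix_of_block_coprime (stabilizer G a) C hC
      (fun y hy => hhalf a y b (hCa y hy) hab.symm) ?_ hh
      (hC h hh (x • a) ⟨1, N.one_mem, by simp⟩ ((hfix h hh x hx).mpr hhx)) ⟨u, hu, rfl⟩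
    have d1 : (orbit (stabilizer G a) b).ncard ∣ Nat.card Ω - 1 := Perm.ncard_compl_singleton a ▸
      Perm.dvd_ncard_of_forall_orbit (stabilizer G a) {a}ᶜ (Set.toFinite _)
        (fun g hg x hx h => hx (MulAction.injective g (h.trans (Eq.symm hg))))
        fun x hx => dvd_of_eq (hhalf a b x hab.symm hx)
    have d2 : C.ncard ∣ Nat.card Ω := by
      rw [← Perm.card_eq_of_regular N hNt hNr a]
      have : C = (fun n : N => n.1 • a) '' {y | IsConj (⟨x, hx⟩ : N) y} := by
        ext y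
        constructor
        · rintro ⟨v, hv, rfl⟩
          exact ⟨_, isConj_iff.mpr ⟨⟨v, hv⟩, rfl⟩, rfl⟩
        · rintro ⟨_, hy, rfl⟩
          obtain ⟨v, rfl⟩ := isConj_iff.mp hy
          exact ⟨v, v.2, rfl⟩
      rw [this, Set.ncard_image_of_injective _ fun n m e => Subtype.ext (hinj n.2 m.2 e)]
      exact Dvd.intro _ (Perm.ncard_conj_mul_card_centralizer _)
    haveI : Nonempty Ω := ⟨a⟩
    exact Nat.Coprime.coprime_dvd_left d1 (Nat.Coprime.coprime_dvd_right d2
      ((Nat.coprime_self_sub_left Nat.card_pos).mpr (Nat.coprime_one_left _)))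
  obtain ⟨⟨h, hha, hhb⟩, hh1⟩ := Subgroup.ne_bot_iff_exists_ne_one.mp hst
  obtain ⟨⟨x, hx⟩, rfl⟩ := exists_smul_eq N a b
  have hx1 : x ≠ 1 := by rintro rfl; exact hab (one_smul G a).symm
  have hN0 : N ≠ ⊥ := fun e => hx1 (by rwa [e] at hx)
  have hmin : ∀ M : Subgroup G, M.Normal → M ≤ N → M = ⊥ ∨ M = N := fun M hM hle => by
    refine or_iff_not_imp_left.mpr fun h0 => le_antisymm hle fun n hn => ?_
    obtain ⟨m, hm⟩ := (Perm.transitive_of_normal (α := Ω) M h0).exists_smul_eq a (n • a)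
    exact hinj (hle m.2) hn hm ▸ m.2
  have hcomm : IsMulCommutative N := by
    let A : G → Subgroup G := fun y => stabilizer G a ⊓ stabilizer G (y • a)
    have hA : ∀ y ∈ N, ∀ k, k ∈ A y ↔ k • a = a ∧ k * y = y * k := fun y hy k =>
      and_congr_right fun hk => hfix k hk y hy
    have hAle : ∀ y ∈ N, ∀ z ∈ N, y ≠ 1 → z ≠ 1 → A y ≤ A z → A z ≤ A y := fun y hy z hz hy1 hz1 h =>
      le_inf inf_le_left (Perm.inf_stabilizer_le_of_le (hhalf a _ _ (hne1 y hy hy1) (hne1 z hz hz1))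
        (h.trans inf_le_right))
    let P : N → Subgroup N := fun y =>
      { carrier := {n | A y ≤ A n}
        one_mem' := fun k hk => (hA _ N.one_mem k).mpr ⟨hk.1, by simp⟩
        mul_mem' := fun {n m} hn hm k hk => (hA _ (n * m).2 k).mpr ⟨hk.1, by
          rw [Subgroup.coe_mul, ← mul_assoc, ((hA _ n.2 k).mp (hn hk)).2, mul_assoc,
            ((hA _ m.2 k).mp (hm hk)).2, mul_assoc]⟩
        inv_mem' := fun {n} hn k hk => (hA _ n⁻¹.2 k).mpr ⟨hk.1,
          (show Commute k n.1 from ((hA _ n.2 k).mp (hn hk)).2).inv_right⟩ }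
    have hP : ∀ y, (P y).Normal := fun y => ⟨fun n hn u k hk => by
      by_cases hn1 : n.1 = 1
      · exact (hA _ (u * n * u⁻¹).2 k).mpr ⟨hk.1, by simp [hn1]⟩
      · exact (hA _ (u * n * u⁻¹).2 k).mpr ⟨hk.1,
          hclass n n.2 hn1 k hk.1 ((hA _ n.2 k).mp (hn hk)).2 u u.2⟩⟩
    have hc : ∀ y z : N, y ≠ 1 → z ∉ P y → Commute y z := fun y z hy hz => by
      have hz1 : z ≠ 1 := by rintro rfl; exact hz (one_mem _)
      refine Subgroup.commute_of_normal_of_disjoint (P y) (P z) (hP y) (hP z) ?_ y z (fun _ h => h) (fun _ h => h)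
      rw [Subgroup.disjoint_def]
      intro n h1 h2
      by_contra hn
      exact hz (h1.trans (hAle z z.2 n n.2 (fun e => hz1 (Subtype.ext e)) (fun e => hn (Subtype.ext e)) h2))
    refine ⟨⟨fun y z => ?_⟩⟩
    by_cases hy : y = 1
    · simp [hy]
    by_cases hz : z ∈ P y
    swap
    · exact hc y z hy hz
    obtain ⟨w, hw⟩ : ∃ w, w ∉ P y := by
      by_contra hall
      push Not at hall
      have := hAle y y.2 x hx (fun e => hy (Subtype.ext e)) hx1 (hall ⟨x, hx⟩) ⟨hha, hhb⟩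
      refine hh1 (Subtype.ext (Perm.eq_one_of_commute_transitive hha fun c => ?_))
      obtain ⟨u, hu⟩ := exists_smul_eq N a c
      exact ⟨u, hu, ((hA _ u.2 h).mp (hall u this)).2⟩
    have := (hc y (z * w) hy fun e => hw (by simpa using mul_mem (inv_mem hz) e)).mul_right
      (hc y w hy hw).inv_right
    simpa using this.eq
  refine ⟨?_, fun M hM hM0 => ?_⟩
  · obtain ⟨p, hp, h⟩ := Perm.exists_prime_pow_eq_one_of_minimal_normal N hN0 hmin hcomm
    exact ⟨p, hp, hcomm, h⟩
  · rcases hmin (M ⊓ N) inferInstance inf_le_right with h | h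
    · refine absurd (eq_bot_iff.mpr fun m hm => ?_) hM0
      rw [← h]
      exact ⟨hm, Perm.mem_of_commute_of_transitive hNt hNt
        (fun x hx y hy => Core.comm_of_isMulCommutative hcomm hx hy) fun n hn =>
        Subgroup.commute_of_normal_of_disjoint M N hM hN (disjoint_iff.mpr h) m n hm hn⟩
    · exact inf_eq_right.mp h

end Cfsg.Agent.S3356
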