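import Mathlib
import Cfsg.Statements.S3358
import Cfsg.Agent.Perm.FC7

set_option autoImplicit false
open Cfsg

namespace Cfsg.Agent.S3358

open Subgroup in
theorem pres {G : Type*} [Group G] [Finite G] {x y : G} {r : ℕ} (hr : x⁻¹ * y * x = y ^ r)
    (hc : IsComplement' (zpowers y) (zpowers x)) :
    Nonempty (G ≃* PresentedGroup
      ({FreeGroup.of (0 : Fin 2) ^ orderOf x, FreeGroup.of (1 : Fin 2) ^ orderOf y,
        (FreeGroup.of (0 : Fin 2))⁻¹ * FreeGroup.of 1 * FreeGroup.of 0 *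
          (FreeGroup.of (1 : Fin 2) ^ r)⁻¹} : Set (FreeGroup (Fin 2)))) := by
  set R : Set (FreeGroup (Fin 2)) := {FreeGroup.of (0 : Fin 2) ^ orderOf x,
    FreeGroup.of (1 : Fin 2) ^ orderOf y, (FreeGroup.of (0 : Fin 2))⁻¹ * FreeGroup.of 1 *
      FreeGroup.of 0 * (FreeGroup.of (1 : Fin 2) ^ r)⁻¹} with hR
  let φ : PresentedGroup R →* G := PresentedGroup.toGroup (f := ![x, y]) (by
    rintro w (rfl | rfl | rfl) <;> simp [hr])
  have hx : φ (.of 0) = x := PresentedGroup.toGroup.of _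
  have hy : φ (.of 1) = y := PresentedGroup.toGroup.of _
  have h1 : (PresentedGroup.of 0 : PresentedGroup R) ^ orderOf x = 1 :=
    PresentedGroup.one_of_mem (rels := R) (Or.inl rfl)
  have h2 : (PresentedGroup.of 1 : PresentedGroup R) ^ orderOf y = 1 :=
    PresentedGroup.one_of_mem (rels := R) (Or.inr (Or.inl rfl))
  have h3 : (PresentedGroup.of 0 : PresentedGroup R)⁻¹ * .of 1 * .of 0 = .of 1 ^ r :=
    mul_inv_eq_one.1 (PresentedGroup.one_of_mem (rels := R) (Or.inr (Or.inr rfl)))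
  have : Finite (zpowers (PresentedGroup.of 1 : PresentedGroup R)) :=
    finite_zpowers.2 (isOfFinOrder_iff_pow_eq_one.2 ⟨_, orderOf_pos y, h2⟩)
  have hn : (zpowers (PresentedGroup.of 1 : PresentedGroup R)).Normal :=
    normalizer_eq_top_iff.1 (eq_top_iff.2 fun w _ => PresentedGroup.generated_by R _ (fun j => by
      fin_cases j
      · refine inv_mem_iff.1 (mem_normalizer_fintype ?_)
        rintro _ ⟨i, rfl⟩
        rw [← conj_zpow, inv_inv]
        exact zpow_mem (h3 ▸ pow_mem (mem_zpowers _) r) i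
      · exact le_normalizer (mem_zpowers _)) w)
  refine ⟨(MulEquiv.ofBijective φ ⟨(injective_iff_map_eq_one φ).2 fun w hw => ?_,
    fun g => ?_⟩).symm⟩
  · obtain ⟨_, ⟨j, rfl⟩, _, ⟨i, rfl⟩, rfl⟩ := mem_sup_of_normal_left.1
      (PresentedGroup.generated_by R (zpowers (.of 1) ⊔ zpowers (.of 0)) (fun j => by
        fin_cases j
        · exact mem_sup_right (mem_zpowers _)
        · exact mem_sup_left (mem_zpowers _)) w)
    rw [map_mul, map_zpow, map_zpow, hx, hy] at hw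
    have h4 : y ^ j = 1 := disjoint_def.1 hc.disjoint ⟨j, rfl⟩
      (eq_inv_of_mul_eq_one_left hw ▸ inv_mem ⟨i, rfl⟩)
    rw [h4, one_mul] at hw
    obtain ⟨a, rfl⟩ := orderOf_dvd_iff_zpow_eq_one.2 h4
    obtain ⟨b, rfl⟩ := orderOf_dvd_iff_zpow_eq_one.2 hw
    simp only [zpow_mul, zpow_natCast, h1, h2, one_zpow, mul_one]
  · obtain ⟨⟨⟨_, j, rfl⟩, ⟨_, i, rfl⟩⟩, rfl⟩ := hc.2 g
    exact ⟨.of 1 ^ j * .of 0 ^ i, by rw [map_mul, map_zpow, map_zpow, hx, hy]⟩

open Subgroup in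
theorem zpres {G : Type*} [Group G] [Finite G] [IsZGroup G] (h : Perm.IsFC G) :
    ∃ n m r : ℕ, 0 < n ∧ 0 < m ∧ Nat.Coprime (r - 1) m ∧ Nat.Coprime n m ∧ 1 ≤ r ∧
      r ^ (n / ∏ p ∈ n.primeFactors, p) % m = 1 % m ∧
      Nonempty (G ≃* PresentedGroup
        ({FreeGroup.of (0 : Fin 2) ^ n, FreeGroup.of (1 : Fin 2) ^ m,
          (FreeGroup.of (0 : Fin 2))⁻¹ * FreeGroup.of 1 * FreeGroup.of 0 *
            (FreeGroup.of (1 : Fin 2) ^ r)⁻¹} : Set (FreeGroup (Fin 2)))) := by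
  obtain ⟨H, hH⟩ := exists_right_complement'_of_coprime (IsZGroup.coprime_commutator_index G)
  have h1 : Abelianization G ≃* H := hH.symm.QuotientMulEquiv
  obtain ⟨x, rfl⟩ := H.isCyclic_iff_exists_zpowers_eq_top.1 (isCyclic_of_surjective _ h1.surjective)
  obtain ⟨y, hy⟩ := (commutator G).isCyclic_iff_exists_zpowers_eq_top.1
    (IsZGroup.isCyclic_commutator G)
  have hc := IsZGroup.coprime_commutator_index G
  rw [hH.symm.index_eq_card] at hc
  have hn : (zpowers y).Normal := hy ▸ inferInstance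
  rw [← hy] at hH hc
  rw [Nat.card_zpowers, Nat.card_zpowers] at hc
  obtain ⟨r, hr⟩ := mem_powers_iff_mem_zpowers.2 (hn.conj_mem' y (mem_zpowers y) x)
  have hr' : x⁻¹ * y * x = y ^ (r + orderOf y) := by rw [pow_add, pow_orderOf_eq_one, mul_one, ← hr]
  have h0 : 1 ≤ r + orderOf y := by have := orderOf_pos y; omega
  generalize r + orderOf y = s at hr' h0
  refine ⟨_, _, s, orderOf_pos x, orderOf_pos y, Nat.coprime_of_dvd fun p hp h2 h3 => ?_, hc.symm,
    h0, ?_, pres hr' hH⟩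
  · have hN : (zpowers (y ^ p)).Normal := ⟨fun _ ⟨i, hi⟩ g => by
      obtain ⟨j, hj⟩ := hn.conj_mem y (mem_zpowers y) g
      refine ⟨j * i, ?_⟩
      simp only at hi hj ⊢
      rw [← hi, ← conj_zpow, ← conj_pow, ← hj, ← zpow_natCast, ← zpow_natCast, ← zpow_mul,
        ← zpow_mul, ← zpow_mul]
      ring_nf⟩
    have h4 : Commute (y : G ⧸ zpowers (y ^ p)) x := by
      obtain ⟨k, hk⟩ := h2
      refine QuotientGroup.eq.2 ?_
      rw [show (y * x)⁻¹ * (x * y) = (x⁻¹ * y * x)⁻¹ * y by group, hr',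
        show s = p * k + 1 by omega, pow_succ', mul_inv_rev, inv_mul_cancel_right, pow_mul]
      exact inv_mem (pow_mem (mem_zpowers _) k)
    have h5 : commutator G ≤ zpowers (y ^ p) :=
      Normal.quotient_commutative_iff_commutator_le.1 ⟨⟨fun a b => by
        obtain ⟨a, rfl⟩ := QuotientGroup.mk_surjective a
        obtain ⟨b, rfl⟩ := QuotientGroup.mk_surjective b
        obtain ⟨⟨⟨_, j, rfl⟩, ⟨_, i, rfl⟩⟩, rfl⟩ := hH.2 a
        obtain ⟨⟨⟨_, j', rfl⟩, ⟨_, i', rfl⟩⟩, rfl⟩ := hH.2 b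
        simp only [QuotientGroup.mk_mul, QuotientGroup.mk_zpow]
        exact (((Commute.zpow_zpow_self _ _ _).mul_right (h4.zpow_zpow _ _)).mul_left
          ((h4.symm.zpow_zpow _ _).mul_right (Commute.zpow_zpow_self _ _ _))).eq⟩⟩
    have h6 := mem_zpowers_pow_iff.1 (h5 (hy.le (mem_zpowers y)))
    exact hp.one_lt.ne' (Nat.Coprime.eq_one_of_dvd h6 h3)
  · set d := ∏ p ∈ (orderOf x).primeFactors, p
    have hd : d ∣ orderOf x := Nat.prod_primeFactors_dvd _
    have h2 : zpowers (x ^ (orderOf x / d)) ⊓ centralizer {y} = zpowers (x ^ (orderOf x / d)) := by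
      refine eq_of_le_of_card_ge inf_le_left (Nat.le_of_dvd Nat.card_pos ?_)
      rw [Nat.card_zpowers, orderOf_pow_orderOf_div (orderOf_pos x).ne' hd]
      refine Finset.prod_primes_dvd _ (fun p hp => (Nat.prime_of_mem_primeFactors hp).prime)
        fun p hp => ?_
      have h3 := orderOf_pow_orderOf_div (orderOf_pos x).ne' (Nat.dvd_of_mem_primeFactors hp)
      rw [← h3]
      refine orderOf_dvd_natCard _ ⟨?_, mem_centralizer_singleton_iff.2 ?_⟩
      · obtain ⟨k, hk⟩ := Nat.div_dvd_div_left hd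
          (show p ∣ d from Finset.dvd_prod_of_mem (fun p => p) hp)
        rw [hk, pow_mul]
        exact pow_mem (mem_zpowers _) k
      · exact commute_of_normal_of_disjoint _ _
          (h.normal_zpowers (h3.symm ▸ Nat.prime_of_mem_primeFactors hp)) hn
          (hH.disjoint.symm.mono_left (zpowers_le.2 (pow_mem (mem_zpowers x) _))) _ _
          (mem_zpowers _) (mem_zpowers _)
    have h3 := mem_centralizer_singleton_iff.1 (h2.ge (mem_zpowers _)).2
    have h4 : ∀ k : ℕ, (x ^ k)⁻¹ * y * x ^ k = y ^ s ^ k := fun k => by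
      induction k with
      | zero => simp
      | succ k ih =>
        have h6 : (x⁻¹ * y * x) ^ s ^ k = x⁻¹ * y ^ s ^ k * x := by
          simpa using conj_pow (a := x⁻¹) (b := y) (i := s ^ k)
        rw [pow_succ' s, pow_mul, ← hr', h6, ← ih, pow_succ]
        group
    have h5 := h4 (orderOf x / d)
    rw [mul_assoc, ← h3, inv_mul_cancel_left] at h5
    exact pow_eq_pow_iff_modEq.1 (h5.symm.trans (pow_one y).symm)

/-- Structure of solvable Frobenius complements. Let G be a finite solvable group that occurs as a Frobenius complement. Then G has a normal subgroup G₀ such that G/G₀ is isomorphic to a subgroup of Sym(4) (G₀ is the kernel of a homomorphism to Sym(4)), all Sylow subgroups of G₀ are cyclic, and G₀ has a presentation ⟨x, y | x^n = 1, y^m = 1, x⁻¹ y x = y^r⟩ with n, m ≥ 1, gcd(r − 1, m) = gcd(n, m) = 1 and r^(n/n′) ≡ 1 (mod m), where n′ is the product of the distinct primes dividing n. -/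
theorem result {G : Type*} [Group G] [Finite G] (hsol : Group.IsSolvable G)
    (hFC : ∃ (L : Type) (_ : Group L) (_ : Finite L) (H : Subgroup L), Cfsg.IsFrobeniusComplement H ∧ Nonempty (G ≃* H)) :
    ∃ G₀ : Subgroup G, G₀.Normal ∧
      (∃ f : G →* Equiv.Perm (Fin 4), f.ker = G₀) ∧
      (∀ (p : ℕ) [Fact p.Prime] (P : Sylow p G₀), IsCyclic P) ∧
      ∃ n m r : ℕ, 0 < n ∧ 0 < m ∧ Nat.Coprime (r - 1) m ∧ Nat.Coprime n m ∧ 1 ≤ r ∧
        r ^ (n / ∏ p ∈ n.primeFactors, p) % m = 1 % m ∧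
        Nonempty (G₀ ≃* PresentedGroup
          ({FreeGroup.of (0 : Fin 2) ^ n, FreeGroup.of (1 : Fin 2) ^ m,
            (FreeGroup.of (0 : Fin 2))⁻¹ * FreeGroup.of 1 * FreeGroup.of 0 * (FreeGroup.of (1 : Fin 2) ^ r)⁻¹} :
            Set (FreeGroup (Fin 2)))) := by
  have h := Perm.isFC_of_exists_frob hFC
  suffices ∃ f : G →* Equiv.Perm (Fin 4), IsZGroup f.ker by
    obtain ⟨f, hf⟩ := this
    exact ⟨f.ker, inferInstance, ⟨f, rfl⟩, fun p _ P => inferInstance, zpres (h.subgroup _)⟩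
  rcases h.solvable_cases with hZ | ⟨f, -, hf⟩ | ⟨z, f, hf⟩
  · exact ⟨1, inferInstance⟩
  · obtain ⟨g, hg⟩ := Classical.SmallRecog.exists_injective_perm (⊥ : Subgroup (DihedralGroup 2))
      (n := 4) (by rw [Subgroup.index_bot, DihedralGroup.nat_card]) (by norm_num)
      (eq_bot_iff.2 (Subgroup.normalCore_le _))
    exact ⟨g.comp f, by rwa [← MonoidHom.comap_ker, (MonoidHom.ker_eq_bot_iff g).2 hg]⟩
  · exact ⟨f, hf.zgrp⟩

end Cfsg.Agent.S3358
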