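import Mathlib
import Cfsg.Statements.S3359
import Cfsg.Agent.Perm.FC7

set_option autoImplicit false
open Cfsg

namespace Cfsg.Agent.S3359


/-- Structure of non-solvable Frobenius complements. Let G be a finite non-solvable group that occurs as a Frobenius complement. Then G has a normal subgroup G₀ of index 1 or 2 which is the direct product of a subgroup isomorphic to SL(2,5) and a subgroup M of order prime to 30 all of whose Sylow subgroups are cyclic. -/
theorem result {G : Type*} [Group G] [Finite G] (hns : ¬ Group.IsSolvable G)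
    (hFC : ∃ (L : Type) (_ : Group L) (_ : Finite L) (H : Subgroup L), Cfsg.IsFrobeniusComplement H ∧ Nonempty (G ≃* H)) :
    ∃ G₀ : Subgroup G, G₀.Normal ∧ (G₀.index = 1 ∨ G₀.index = 2) ∧
      ∃ S M : Subgroup G, S ⊔ M = G₀ ∧ S ⊓ M = ⊥ ∧ (∀ s ∈ S, ∀ x ∈ M, s * x = x * s) ∧
        Nonempty (S ≃* Matrix.SpecialLinearGroup (Fin 2) (ZMod 5)) ∧
        (∀ (p : ℕ) [Fact p.Prime] (P : Sylow p M), IsCyclic P) ∧ (Nat.card M).Coprime 30 := by
  obtain ⟨L, z, f, h⟩ := (Perm.isFC_of_exists_frob hFC).exists_nsData hns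
  have hO : oddCore G ≤ f.ker := h.ker ▸ le_sup_right
  refine ⟨(alternatingGroup (Fin 5)).comap f, inferInstance, ?_, L, oddCore G, ?_, ?_,
    fun s hs x hx => h.cent.le (hO hx) s hs, h.iso, fun p _ P => ?_, h.cop⟩
  · rw [Subgroup.index_comap, ← Nat.dvd_prime Nat.prime_two, ← alternatingGroup.index_eq_two
      (α := Fin 5)]
    exact Subgroup.relIndex_dvd_index_of_normal _ _
  · rw [← h.map, Subgroup.comap_map_eq, h.ker, ← sup_assoc,
      sup_eq_left.2 (Subgroup.zpowers_le.2 h.mem)]
  · refine eq_bot_iff.2 fun x hx => ?_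
    rcases (Perm.mem_zpowers_two h.two).1 (h.inf.le ⟨hx.1, hO hx.2⟩) with e | e
    · exact e
    · have := Inv.odd_oddCore.of_dvd_nat (Subgroup.orderOf_dvd_natCard _ hx.2)
      rw [e, h.two] at this
      exact absurd this (by decide)
  · have := h.zgrp
    have : IsZGroup (oddCore G) := IsZGroup.of_injective (Subgroup.inclusion_injective hO)
    infer_instance

end Cfsg.Agent.S3359
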