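import Mathlib
import Cfsg.Statements.S3361
import Cfsg.Agent.Perm.NF3

set_option autoImplicit false
open Cfsg

namespace Cfsg.Agent.S3361

open Subgroup in
theorem index_two {G : Type*} [Group G] {f : G →* Equiv.Perm (Fin 4)} (h : f.range = ⊤) :
    ∃ N : Subgroup G, N.Normal ∧ N.index = 2 :=
  ⟨(alternatingGroup (Fin 4)).comap f, inferInstance, by
    rw [index_comap_of_surjective _ (MonoidHom.range_eq_top.1 h), alternatingGroup.index_eq_two]⟩

/-- Let q be a prime and V a non-trivial finite vector space over the field with q elements, and let G be a finite solvable group acting faithfully and linearly on V and regularly on the non-zero vectors (transitively, with only the identity fixing a non-zero vector). Then either V can be identified with the additive group of a finite field F so that every element of G acts as x ↦ a·σ(x) (a ∈ F, σ a field automorphism), or V has 5^2, 7^2, 11^2 or 23^2 elements. Moreover, if q ≠ 2 then G has a normal subgroup of index 2, except that when V has 25 elements G may be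 isomorphic to SL(2,3) and when V has 121 elements G may be isomorphic to SL(2,3) × C₅. -/
theorem result
    (q : ℕ) [Fact q.Prime] {V : Type*} [AddCommGroup V] [Module (ZMod q) V] [Finite V] [Nontrivial V]
    {G : Type*} [Group G] [Finite G] (hsol : Group.IsSolvable G)
    (ρ : G →* (V ≃ₗ[ZMod q] V)) (hρ : Function.Injective ρ)
    (htrans : ∀ v w : V, v ≠ 0 → w ≠ 0 → ∃ g : G, ρ g v = w)
    (hreg : ∀ v : V, v ≠ 0 → ∀ g : G, ρ g v = v → g = 1) :
    ((∃ (F : Type) (_ : Field F) (_ : Fintype F) (e : V ≃+ F),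
        ∀ g : G, ∃ (a : F) (σ : F ≃+* F), ∀ v : V, e (ρ g v) = a * σ (e v)) ∨
      Nat.card V ∈ ({25, 49, 121, 529} : Set ℕ)) ∧
    (q ≠ 2 → (∃ N : Subgroup G, N.Normal ∧ N.index = 2) ∨
      (Nat.card V = 25 ∧ Nonempty (G ≃* Matrix.SpecialLinearGroup (Fin 2) (ZMod 3))) ∨
      (Nat.card V = 121 ∧ Nonempty (G ≃* Matrix.SpecialLinearGroup (Fin 2) (ZMod 3) × Multiplicative (ZMod 5)))) := by
  letI : DistribMulAction G V := DistribMulAction.compHom V ρ
  have : FaithfulSMul G V := ⟨fun h => hρ (LinearEquiv.ext h)⟩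
  have hr : Perm.RegV G V := ⟨htrans, fun g v hv => hreg v hv g⟩
  obtain ⟨A, hA⟩ := Perm.exists_maxAb (G := G)
  have := hA.normal
  obtain ⟨F, _, _, _, σ, hF⟩ := Perm.exists_fData hr.trans' A hA.comm
  by_cases hd : Module.finrank F V = 1
  · obtain ⟨e, he⟩ := hF.semilinear hd
    refine ⟨Or.inl ⟨F, _, inferInstance, e, fun g => (he g).imp fun a ha => ⟨σ g, ha⟩⟩,
      fun hq => Or.inl ?_⟩
    rcases hr.isFC.solvable_cases with hZ | ⟨f, hf, -⟩ | ⟨z, f, hf⟩
    · have : Fact (Nat.Prime 2) := ⟨Nat.prime_two⟩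
      have h2 : 2 ∣ Nat.card G := by
        have h1 := hr.card
        rw [Module.natCard_eq_pow_finrank (K := ZMod q) (V := V), Nat.card_zmod] at h1
        have h3 : Odd (Nat.card G + 1) := h1 ▸ ((Fact.out : q.Prime).odd_of_ne_two hq).pow
        exact even_iff_two_dvd.1 (Nat.odd_add_one.1 h3 |> Nat.not_odd_iff_even.1)
      obtain ⟨t, ht⟩ := exists_prime_orderOf_dvd_card' 2 h2
      obtain ⟨P⟩ : Nonempty (Sylow 2 G) := inferInstance
      obtain ⟨N, hN⟩ := Perm.exists_index_two_of_complement ⟨P, _, inferInstance,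
        IsCyclic.isComplement' ((Nat.minFac_eq_two_iff _).mpr h2) inferInstance⟩ ht
      exact ⟨N, N.normal_of_index_eq_two hN, hN⟩
    · have h1 : (Subgroup.zpowers (DihedralGroup.r 1 : DihedralGroup 2)).index = 2 := by
        have := (Subgroup.zpowers (DihedralGroup.r 1 : DihedralGroup 2)).card_mul_index
        rw [Nat.card_zpowers, DihedralGroup.orderOf_r_one, DihedralGroup.nat_card] at this
        omega
      have h2 := (Subgroup.index_comap_of_surjective _ hf).trans h1
      exact ⟨_, Subgroup.normal_of_index_eq_two h2, h2⟩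
    · have := hF.isCyclic
      have h1 : commutator G ≤ f.ker := (Perm.commutator_le_cent A).trans ((hA.le_of_comm
        (fun a ha b hb => hF.comm_of_finrank_one hd ha hb) le_rfl).trans
        (Perm.le_ker_of_zgroup Perm.perm_four_test f hf.le A))
      obtain ⟨x, e1⟩ := hf.le Perm.a4x.2
      obtain ⟨y, e2⟩ := hf.le Perm.a4y.2
      have h2 : f _ = 1 := h1 (Subgroup.commutator_mem_commutator (Subgroup.mem_top x)
        (Subgroup.mem_top y))
      rw [map_commutatorElement, e1, e2] at h2
      exact absurd h2 (by decide)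
  · obtain ⟨-, -, h1, h2, h3, ⟨z, f, hf, h4, h5⟩ | ⟨L, z, f, hf, -⟩⟩ :=
      hr.cases hA hF (ZModModule.char_nsmul_eq_zero q) hd
    swap
    · exact absurd hsol hf.not_solvable
    have h6 : q = 5 ∨ q = 7 ∨ q = 11 ∨ q = 23 := by
      have := Nat.le_of_dvd (by norm_num) h5
      have h4 : q < 24 := by omega
      interval_cases q <;> simp_all
    rw [← hr.card, h1]
    refine ⟨Or.inr (by rcases h6 with rfl | rfl | rfl | rfl <;> simp), fun _ => ?_⟩
    rcases Perm.alt_or_top hf.le with h7 | h7
    swap
    · exact Or.inl (index_two h7)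
    have h8 := Perm.card_eq_range_mul f
    rw [hf.ker, Perm.card_zpowers_sup hf.two, h7, Perm.card_a4] at h8
    have h9 := Nat.odd_iff.1 (Inv.odd_oddCore (G := G))
    have hO : oddCore G ≤ Subgroup.center G := fun x hx => Subgroup.mem_center_iff.2 fun g =>
      ((h3.ge (Subgroup.mem_top g)) x (h4.le (hf.ker.ge (Subgroup.mem_sup_right hx)))).symm
    have he := hf.equiv_prod (fun t ht => hr.isFC.invol_unique hf.two ht) h7 hO
    rcases h6 with rfl | rfl | rfl | rfl
    · obtain ⟨e⟩ := he (by omega)
      exact Or.inr (Or.inl ⟨rfl, Perm.equiv_of_prod_unique e (by omega)⟩)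
    · omega
    · obtain ⟨e⟩ := he (by omega)
      obtain ⟨e'⟩ := Perm.equiv_zmod_of_prime (G := oddCore G) (p := 5) (by omega)
      exact Or.inr (Or.inr ⟨rfl, ⟨e.trans ((MulEquiv.refl _).prodCongr e')⟩⟩)
    · omega

end Cfsg.Agent.S3361
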