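import Mathlib
import Cfsg.Statements.S3366
import Cfsg.Agent.Spc.He3d
import Cfsg.Agent.Core.Cores
-- import your own Cfsg.Agent.* helpers here

set_option autoImplicit false
open Cfsg

namespace Cfsg.Agent.S3366

/-- Let X be a finite group with O₃(X) extraspecial of order 27 and exponent 3, X/O₃(X) isomorphic to SL(2,3), O₂(X) = 1, and a Sylow 3-subgroup of X containing an elementary abelian subgroup of order 27. Then X is isomorphic to the centralizer in PSp(4,3) of a 3-central element of order 3 (an element of order 3 in the centre of a Sylow 3-subgroup). -/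
theorem result {X : Type*} [Group X] [Finite X]
    (hR : Cfsg.IsExtraspecial 3 (Cfsg.pCore 3 X)) (hRcard : Nat.card (Cfsg.pCore 3 X) = 27)
    (hRexp : ∀ r ∈ Cfsg.pCore 3 X, r ^ 3 = 1)
    (e : X ⧸ Cfsg.pCore 3 X ≃* Matrix.SpecialLinearGroup (Fin 2) (ZMod 3))
    (hO2 : Cfsg.pCore 2 X = ⊥)
    (hE : ∃ E : Subgroup X, IsMulCommutative E ∧ (∀ a ∈ E, a ^ 3 = 1) ∧ Nat.card E = 27)
    (F : Type*) [Field F] [Fintype F] (hF : Fintype.card F = 3) :
    ∃ (c : Cfsg.PSp 2 F) (S : Sylow 3 (Cfsg.PSp 2 F)), orderOf c = 3 ∧ c ∈ (S : Subgroup (Cfsg.PSp 2 F)) ∧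
      c ∈ Subgroup.centralizer ((S : Subgroup (Cfsg.PSp 2 F)) : Set (Cfsg.PSp 2 F)) ∧
      Nonempty (X ≃* Subgroup.centralizer ({c} : Set (Cfsg.PSp 2 F))) := by
  haveI : (Cfsg.pCore 3 X).Normal := inferInstance
  let π : X →* Spc.He3.S := e.toMonoidHom.comp (QuotientGroup.mk' _)
  have hs : Function.Surjective π := e.surjective.comp QuotientGroup.mk_surjective
  have hk : ∀ x, π x = 1 ↔ x ∈ Cfsg.pCore 3 X := fun x => by
    show e (QuotientGroup.mk x) = 1 ↔ _
    rw [map_eq_one_iff _ e.injective, QuotientGroup.eq_one_iff]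
  obtain ⟨E, hE1, hE2, hE3⟩ := hE
  obtain ⟨φ⟩ := Spc.He3.abs_iso π hs hk hRcard hRexp hR.2 hR.1.2.2 (fun z hz hc => by
    have hn : (Subgroup.zpowers z).Normal := ⟨by
      rintro _ ⟨k, rfl⟩ g
      refine ⟨k, ?_⟩
      show z ^ k = g * z ^ k * g⁻¹
      rw [((show Commute g z from hc g).zpow_right k).eq, mul_inv_cancel_right]⟩
    have hp : IsPGroup 2 (Subgroup.zpowers z) := by
      rintro ⟨_, k, rfl⟩
      refine ⟨1, Subtype.ext ?_⟩
      show (z ^ k) ^ 2 ^ 1 = 1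
      rw [pow_one, ← zpow_natCast, ← zpow_mul, mul_comm, zpow_mul, zpow_natCast, hz, one_zpow]
    have := Core.le_pCore hn hp (Subgroup.mem_zpowers z)
    rwa [hO2, Subgroup.mem_bot] at this) E
    (fun a ha b hb => congrArg Subtype.val (hE1.is_comm.comm (⟨a, ha⟩ : E) ⟨b, hb⟩)) hE2 hE3
  obtain ⟨c, hc, ⟨ψ⟩⟩ := Spc.He3.psp_side F hF
  have hX : Nat.card X = 648 := by
    have h1 := π.ker.card_mul_index
    rw [Subgroup.index_ker, MonoidHom.range_eq_top.2 hs, Subgroup.card_top, Spc.He3.s_card,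
      show π.ker = _ from Subgroup.ext hk, hRcard] at h1
    omega
  haveI : Finite (Matrix.symplecticGroup (Fin 2) F) := Subtype.finite
  obtain ⟨P, h1, h2⟩ := Spc.He3.sylow_aux (Spc.He3.card_PSp F hF) hc
    ((Nat.card_congr (φ.symm.trans ψ).toEquiv).symm.trans hX)
  exact ⟨c, P, hc, h1, h2, ⟨φ.symm.trans ψ⟩⟩

end Cfsg.Agent.S3366
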