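import Mathlib
import Cfsg.Statements.S3391
import Cfsg.Agent.RankOne.SzLie
import Cfsg.Agent.RankOne.SzSub
-- import your own Cfsg.Agent.* helpers here

set_option autoImplicit false
open Cfsg

namespace Cfsg.Agent.S3391

/-- Let q = 2^{2m+1} ≥ 8 and let G be isomorphic to the Suzuki group Sz(q). If G acts faithfully and transitively on a finite set Ω with fixity 2 (every non-identity element fixes at most two points, and some fixes exactly two), then either |Ω| = q² + 1 and the action is 2-transitive, or |Ω| = q²(q² + 1) and the point stabilizers have order q − 1. -/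
theorem result {G : Type*} [Group G] [Finite G] (F : Type) [Field F] [Fintype F] (m : ℕ) (hm : 1 ≤ m) (hF : Fintype.card F = 2 ^ (2 * m + 1))
    (e : G ≃* ↥(Cfsg.Lie.Sz F (2 ^ (m + 1)))) {Ω : Type*} [Fintype Ω] [MulAction G Ω] [FaithfulSMul G Ω] (htr : MulAction.IsPretransitive G Ω)
    (hfix : ∀ g : G, g ≠ 1 → Nat.card (MulAction.fixedBy Ω g) ≤ 2) (hex : ∃ g : G, g ≠ 1 ∧ Nat.card (MulAction.fixedBy Ω g) = 2) :
    (Fintype.card Ω = Fintype.card F ^ 2 + 1 ∧ MulAction.IsMultiplyPretransitive G Ω 2) ∨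
    (Fintype.card Ω = Fintype.card F ^ 2 * (Fintype.card F ^ 2 + 1) ∧ ∀ α : Ω, Nat.card (MulAction.stabilizer G α) = Fintype.card F - 1) := by
  obtain ⟨_, ⟨Z⟩⟩ := RankOne.Sz.exists_model_of_equiv_lie hF hm e
  have key : ∀ (α : Ω) (X N : Subgroup G), X ≠ ⊥ → X ≤ MulAction.stabilizer G α →
      (∀ n ∈ N, ∀ x ∈ X, n⁻¹ * x * n ∈ X) → (MulAction.stabilizer G α).relIndex N ≤ 2 := by
    intro α X N hX hXα hN
    obtain ⟨⟨x, hx⟩, hx1⟩ := Subgroup.ne_bot_iff_exists_ne_one.mp hX
    refine le_trans ?_ (hfix x fun h => hx1 (Subtype.ext h))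
    change (MulAction.stabilizer N α).index ≤ _
    rw [MulAction.index_stabilizer, ← Nat.card_coe_set_eq]
    apply Nat.card_mono (Set.toFinite _)
    rintro _ ⟨n, rfl⟩
    have := hXα (hN n n.2 x hx)
    rw [MulAction.mem_stabilizer_iff, mul_smul, mul_smul, inv_smul_eq_iff] at this
    exact this
  have hle : ∀ H N : Subgroup G, H.relIndex N ≤ 2 → Odd (Nat.card N) → N ≤ H := by
    intro H N h1 h2
    rw [← Subgroup.relIndex_eq_one]
    have h3 : H.relIndex N ≠ 0 := Subgroup.FiniteIndex.index_ne_zero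
    have h4 := h2.of_dvd_nat (Subgroup.relIndex_dvd_card H N)
    rcases h4 with ⟨k, hk⟩
    omega
  have h8 := Z.eight_le_q
  have hcard : ∀ α : Ω, Fintype.card Ω * Nat.card (MulAction.stabilizer G α) = Nat.card G := by
    intro α
    rw [← Nat.card_eq_fintype_card, ← MulAction.index_stabilizer_of_transitive G α, Subgroup.index_mul_card]
  obtain ⟨g, hg1, hg2⟩ := hex
  obtain ⟨⟨α, hα⟩⟩ : Nonempty (MulAction.fixedBy Ω g) := (Nat.card_ne_zero.mp (by omega)).1
  have hgH : g ∈ MulAction.stabilizer G α := hα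
  set H := MulAction.stabilizer G α with hH
  by_cases hev : Even (Nat.card H)
  · left
    obtain ⟨s, hs, hs1, hs2⟩ := RankOne.exists_involution_mem hev
    obtain ⟨c, hc⟩ := RankOne.Setup.exists_fix Z.setup hs2
    obtain ⟨Y, rfl⟩ := Z.exists_model_one c
    obtain ⟨b, rfl⟩ := Y.exists_S_zero_of_involution hc hs2
    have h1 : H.relIndex Y.Q ≤ 2 := by
      apply key α (Subgroup.zpowers (Y.S 0 b)) _ (by simpa using hs1) (Subgroup.zpowers_le.mpr hs)
      intro n hn x hx
      obtain ⟨u, v, rfl⟩ := (Y.mem_Q n).mp hn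
      have : Y.S u v ∈ Subgroup.centralizer {Y.S 0 b} :=
        Subgroup.mem_centralizer_singleton_iff.mpr (Y.S_zero_comm _ _ _).symm
      obtain ⟨k, rfl⟩ := hx
      have h2 : Commute (Y.S 0 b) (Y.S u v) := Y.S_zero_comm _ _ _
      rw [mul_assoc, (h2.zpow_left k).eq, inv_mul_cancel_left]
      exact ⟨k, rfl⟩
    have h2 : ∀ x ∈ Y.Q, x * x ∈ H := by
      intro x hx
      have h3 : H.relIndex Y.Q ≠ 0 := Subgroup.FiniteIndex.index_ne_zero
      by_cases h4 : H.relIndex Y.Q = 1
      · exact Subgroup.relIndex_eq_one.mp h4 (Y.Q.mul_mem hx hx)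
      · exact Subgroup.mul_self_mem_of_index_two (H := H.subgroupOf Y.Q) (by
          change H.relIndex Y.Q = 2; omega) ⟨x, hx⟩
    have h3 : ∀ b, Y.S 0 b ∈ H := by
      intro b
      obtain ⟨u, rfl⟩ := Y.exists_mul_θ b
      have := h2 _ (Y.S_mem u 0)
      rwa [Y.S_sq, mul_comm] at this
    let X : Subgroup G :=
      { carrier := {g | ∃ b, g = Y.S 0 b}
        mul_mem' := by rintro _ _ ⟨b, rfl⟩ ⟨c, rfl⟩; exact ⟨_, Y.S_zero_mul _ _⟩
        one_mem' := ⟨0, Y.S_zero.symm⟩
        inv_mem' := by rintro _ ⟨b, rfl⟩; exact ⟨b, RankOne.inv_eq_of_mul_self (Y.S_zero_mul_self b)⟩ }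
    have h4 : Y.D ≤ H := by
      apply hle _ _ _ (Y.card_D ▸ Y.odd_q_sub_one)
      apply key α X _ (Subgroup.ne_bot_iff_exists_ne_one.mpr ⟨⟨_, b, rfl⟩, fun h => hs1 (congrArg Subtype.val h)⟩)
        (by rintro _ ⟨b, rfl⟩; exact h3 b)
      rintro n hn _ ⟨b, rfl⟩
      obtain ⟨κ, h, -⟩ := Y.B_conj_S_zero (g := n⁻¹) (Y.D.inv_mem hn).1 b
      rw [inv_inv] at h
      exact ⟨_, h⟩
    have h5 : Y.Q ≤ H := by
      by_cases h : ∃ x y, x ≠ 0 ∧ Y.S x y ∈ H
      · obtain ⟨x, y, hx, h⟩ := h
        exact Y.Q_le_of_D_le h4 hx h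
      · exfalso
        push Not at h
        have h6 : H.subgroupOf Y.Q ≤ Subgroup.center Y.Q := by
          rintro ⟨x, hx⟩ hxH
          obtain ⟨u, v, rfl⟩ := (Y.mem_Q x).mp hx
          have : u = 0 := by by_contra hu; exact h u v hu hxH
          subst this
          exact (Y.mem_center_Q_iff _).mpr ⟨v, rfl⟩
        have h7 := Subgroup.card_le_of_le h6
        have h9 := (H.subgroupOf Y.Q).card_mul_index
        rw [Y.card_center_Q] at h7
        rw [Y.card_Q] at h9
        have : Fintype.card F ^ 2 ≤ Fintype.card F * 2 := h9 ▸ Nat.mul_le_mul h7 h1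
        nlinarith
    have h6 : H = Y.B := by
      by_cases h : H ≤ Y.B
      · apply le_antisymm h
        intro x hx
        obtain ⟨u, v, κ, rfl⟩ := Y.exists_S_mul_M hx
        exact H.mul_mem (h5 (Y.S_mem _ _)) (h4 (Y.M_mem _))
      · exfalso
        have h7 := Y.top_of_Q_le h5 h
        apply hg1
        apply eq_of_smul_eq_smul (α := Ω)
        intro β
        obtain ⟨k, rfl⟩ := htr.exists_smul_eq α β
        have : k⁻¹ * g * k ∈ H := h7 ▸ Subgroup.mem_top _
        rw [MulAction.mem_stabilizer_iff, mul_smul, mul_smul, inv_smul_eq_iff] at this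
        rw [this, one_smul]
    constructor
    · rw [← Nat.card_eq_fintype_card, ← MulAction.index_stabilizer_of_transitive G α, ← hH, h6, Y.index_B]
    · have hiff : ∀ x y : G, x • α = y • α ↔ x • Y.a = y • Y.a := by
        intro x y
        rw [← inv_smul_eq_iff, ← mul_smul, ← inv_smul_eq_iff (g := y), ← mul_smul]
        change y⁻¹ * x ∈ H ↔ y⁻¹ * x ∈ Y.B
        rw [h6]
      rw [MulAction.is_two_pretransitive_iff]
      intro β γ β' γ' h1 h2
      obtain ⟨x, rfl⟩ := htr.exists_smul_eq α β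
      obtain ⟨y, rfl⟩ := htr.exists_smul_eq α γ
      obtain ⟨x', rfl⟩ := htr.exists_smul_eq α β'
      obtain ⟨y', rfl⟩ := htr.exists_smul_eq α γ'
      obtain ⟨k, hk1, hk2⟩ := RankOne.two_trans Y.setup.two_transitive ((hiff _ _).not.mp h1)
        ((hiff _ _).not.mp h2)
      exact ⟨k, by rw [← mul_smul, hiff, mul_smul, hk1], by rw [← mul_smul, hiff, mul_smul, hk2]⟩
  · right
    rw [Nat.not_even_iff_odd] at hev
    have h1 : ∀ h ∈ H, h ≠ 1 → ∃ Y : RankOne.Sz.Model G (Cfsg.suzukiOvoid F m) F m, h ∈ Y.D ∧ Y.D ≤ H := by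
      intro h hh h1
      have h2 : (MulAction.stabilizer G α).relIndex (Subgroup.centralizer {h}) ≤ 2 := by
        apply key α (Subgroup.zpowers h) _ (by simpa using h1) (Subgroup.zpowers_le.mpr hh)
        rintro n hn _ ⟨k, rfl⟩
        have h2 : Commute n h := Subgroup.mem_centralizer_singleton_iff.mp hn
        rw [mul_assoc, ← (h2.zpow_right k).eq, inv_mul_cancel_left]
        exact ⟨k, rfl⟩
      rcases Z.centralizer_cases h1 with ⟨Y, h3, -⟩ | ⟨Y, κ, -, rfl, h3⟩ | h3
      · exact absurd (RankOne.Sz.Model.one_of_coprime (a := 2 ^ 2)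
          (Nat.Coprime.pow_left 2 (Nat.coprime_two_left.mpr hev))
          (Y.pow_four_of_mem_Q h3) (RankOne.pow_card_eq_one_of_mem hh)) h1
      · exact ⟨Y, Y.M_mem κ, hle _ _ (h3 ▸ h2) (Y.card_D ▸ Y.odd_q_sub_one)⟩
      · exfalso
        have h4 : Odd (Nat.card (Subgroup.centralizer {h})) := by
          apply Z.odd_q_sq_add_one.of_dvd_nat
          rw [← Z.kp_mul_km']
          rcases Z.card_torus h3 with h | h <;> rw [h]
          · exact dvd_mul_right _ _
          · exact dvd_mul_left _ _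
        have h5 := hle _ _ h2 h4
        have h6 := key α (Subgroup.centralizer {h}) (Subgroup.normalizer (Subgroup.centralizer {h} : Set G))
          (Subgroup.ne_bot_iff_exists_ne_one.mpr ⟨⟨h, Subgroup.mem_centralizer_singleton_iff.mpr rfl⟩,
            fun h => h1 (congrArg Subtype.val h)⟩) h5
          (fun n hn x hx => by
            simpa using (Subgroup.mem_normalizer_iff.mp (Subgroup.inv_mem _ hn) x).mp hx)
        set N := Subgroup.normalizer (Subgroup.centralizer {h} : Set G)
        have h7 := (H.subgroupOf N).card_mul_index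
        rw [Z.card_normalizer_torus h3] at h7
        have h9 : Odd (Nat.card (H.subgroupOf N)) := by
          apply hev.of_dvd_nat
          rw [← Subgroup.card_map_of_injective (f := N.subtype) N.subtype_injective,
            Subgroup.subgroupOf_map_subtype]
          exact Subgroup.card_dvd_of_le inf_le_left
        have h10 : 2 ^ 2 ∣ H.relIndex N :=
          (Nat.Coprime.pow_left 2 (Nat.coprime_two_left.mpr h9)).dvd_of_dvd_mul_left
            (by change _ ∣ _ * (H.subgroupOf N).index; rw [h7]; exact dvd_mul_right _ _)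
        have h11 : H.relIndex N ≠ 0 := Subgroup.FiniteIndex.index_ne_zero
        have := (Nat.le_of_dvd (Nat.pos_of_ne_zero h11) h10).trans h6
        omega
    have h2 : Nat.card H = Fintype.card F - 1 := by
      obtain ⟨Y, -, hY⟩ := h1 g hgH hg1
      apply Nat.dvd_antisymm _ (Y.card_D ▸ Subgroup.card_dvd_of_le hY)
      have h3 : Nat.Coprime (Nat.card H) (Fintype.card F ^ 2 * (Fintype.card F ^ 2 + 1)) := by
        apply Nat.coprime_of_dvd
        intro p hp hp1 hp2
        have := Fact.mk hp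
        obtain ⟨y, hy⟩ := exists_prime_orderOf_dvd_card' p hp1
        rw [← Subgroup.orderOf_coe] at hy
        obtain ⟨X, hX, -⟩ := h1 y y.2 (by intro h; rw [h, orderOf_one] at hy; exact hp.one_lt.ne hy)
        have h4 : p ∣ Fintype.card F - 1 := hy ▸ X.card_D ▸ Subgroup.orderOf_dvd_natCard _ hX
        exact hp.one_lt.ne' (Nat.eq_one_of_dvd_coprimes (Nat.Coprime.mul_left Z.coprime_q
          (Nat.Coprime.coprime_dvd_right (dvd_mul_left _ _) Z.coprime_B)) hp2 h4)
      apply h3.dvd_of_dvd_mul_left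
      rw [← Z.card_G]
      exact Subgroup.card_subgroup_dvd_card H
    have h3 : Fintype.card Ω = Fintype.card F ^ 2 * (Fintype.card F ^ 2 + 1) := by
      have := hcard α
      rw [← hH, h2, Z.card_G] at this
      exact Nat.eq_of_mul_eq_mul_right (by omega) this
    refine ⟨h3, fun β => ?_⟩
    have := hcard β
    rw [h3, Z.card_G] at this
    exact Nat.eq_of_mul_eq_mul_left (by positivity) this

end Cfsg.Agent.S3391
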