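import Mathlib
import Cfsg.Statements.S3410
import Cfsg.Agent.PG.ONan
import Cfsg.Agent.Comp2.GenFitting
import Cfsg.Agent.Comp2.Quasisimple

set_option autoImplicit false
open Cfsg

namespace Cfsg.Agent.S3410

/-- Let a finite group G act faithfully and 2-transitively on a finite set X, and let N be an abelian normal subgroup of the stabilizer of a point x which is not semiregular on the remaining points (some non-identity element of N fixes a second point). Then the generalized Fitting subgroup of G is isomorphic to PSL_n(F) for some n ≥ 3 and some finite field F. -/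
theorem result {G X : Type*} [Group G] [Finite G] [Fintype X]
    [MulAction G X] [FaithfulSMul G X] (h2 : MulAction.IsMultiplyPretransitive G X 2) (x : X)
    (N : Subgroup G) (hNle : N ≤ MulAction.stabilizer G x)
    (hNnormal : ∀ g ∈ MulAction.stabilizer G x, ∀ n ∈ N, g * n * g⁻¹ ∈ N) (hNab : IsMulCommutative N)
    (hnsr : ∃ n ∈ N, n ≠ 1 ∧ ∃ y : X, y ≠ x ∧ n • y = y) :
    ∃ (F : Type) (_ : Field F) (_ : Fintype F) (n : ℕ), 3 ≤ n ∧
      Nonempty (↥(Cfsg.generalizedFittingSubgroup G) ≃* Matrix.ProjectiveSpecialLinearGroup (Fin n) F) := by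
  obtain ⟨F, _, _, n, h3, -, K, hK, hC, ⟨e⟩⟩ := PG.onan h2 x N hNle hNnormal
    (fun a ha b hb => congrArg Subtype.val (hNab.is_comm.comm (⟨a, ha⟩ : N) ⟨b, hb⟩)) hnsr
  haveI : IsSimpleGroup (Matrix.ProjectiveSpecialLinearGroup (Fin n) F) :=
    Classical.SLBasic.isSimpleGroup_PSL (by simpa using h3)
  haveI : IsSimpleGroup K := e.isSimpleGroup
  have hn : ¬ IsMulCommutative K := by
    intro hc
    obtain ⟨a, ha⟩ := exists_ne (1 : K)
    have : (a : G) ∈ Subgroup.centralizer (K : Set G) := fun b hb =>
      congrArg Subtype.val (hc.is_comm.comm (⟨b, hb⟩ : K) a)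
    rw [hC, Subgroup.mem_bot] at this
    exact ha (Subtype.ext this)
  have hc : IsComponent K := ⟨hK.isSubnormal, Comp2.quasisimple_of_isSimpleGroup hn⟩
  have h1 := Comp2.genFitting_le_sup_centralizer hc
  rw [hC, inf_bot_eq, sup_bot_eq] at h1
  have h4 : generalizedFittingSubgroup G = K :=
    le_antisymm h1 ((le_sSup hc : K ≤ layer G).trans Comp2.layer_le_genFitting)
  exact ⟨F, inferInstance, inferInstance, n, h3, ⟨(MulEquiv.subgroupCongr h4).trans e⟩⟩

end Cfsg.Agent.S3410
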