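import Mathlib
import Cfsg.Statements.S3420
import Cfsg.Agent.FGS.Sect
import Cfsg.Agent.Perm.PrimeDegree

set_option autoImplicit false
open Cfsg

namespace Cfsg.Agent.S3420

/-- Let n ≥ 11 and let G be a finite group with the same order and the same set of element orders as the alternating group of degree n. Then G has normal subgroups N < H such that H/N is a non-abelian simple group whose order is divisible by every prime p with n/2 < p ≤ n. -/
theorem result {G : Type*} [Group G] [Finite G] (n : ℕ) (hn : 11 ≤ n)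
    (hcard : Nat.card G = Nat.card ↥(alternatingGroup (Fin n)))
    (hspec : Set.range (orderOf : G → ℕ) = Set.range (orderOf : ↥(alternatingGroup (Fin n)) → ℕ)) :
    ∃ (N H : Subgroup G) (_ : N.Normal), H.Normal ∧ N < H ∧
      IsSimpleGroup (↥H ⧸ N.subgroupOf H) ∧ ¬ IsMulCommutative (↥H ⧸ N.subgroupOf H) ∧
      ∀ p : ℕ, p.Prime → n < 2 * p → p ≤ n → p ∣ Nat.card (↥H ⧸ N.subgroupOf H) := by
  obtain ⟨a, b, ha, hb, h1, h2, h3⟩ := FGS.two_primes_half hn
  have h4 : ∀ p : ℕ, p.Prime → n < 2 * p → ¬ p ^ 2 ∣ Nat.card G := fun p hp h e =>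
    Perm.not_sq_dvd_factorial hp h (e.trans (FGS.card_alt_dvd hcard))
  obtain ⟨N, H, a1, a2, a3, a4, a5, a6⟩ := FGS.exists_simple_section (G := G) (fun p => p.Prime ∧ n < 2 * p ∧ p ≤ n)
    (fun p hp => ⟨hp.1, FGS.dvd_card_alt (by omega) hcard hp.1 (by omega) hp.2.2⟩)
    (fun p q hp hq hpq => ⟨fun i hi h5 h6 => by
      obtain rfl : i = 1 := by
        by_contra e
        exact h4 p hp.1 hp.2.1 ((pow_dvd_pow p (by omega)).trans h5)
      obtain ⟨k, hk⟩ := (Nat.modEq_iff_dvd' (by rw [pow_one]; omega)).mp h6.symm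
      rw [pow_one] at hk
      have := hp.1.eq_two_or_odd
      have := hq.1.eq_two_or_odd
      rcases k with _ | _ | k
      · omega
      · omega
      · have : q * 2 ≤ q * (k + 1 + 1) := Nat.mul_le_mul_left _ (by omega)
        omega, FGS.not_orderOf_alt hspec hp.1 hq.1 hpq (by omega)⟩)
    (a := a) (b := b) ⟨ha, h1, by omega⟩ ⟨hb, by omega, h3⟩ h2.ne (h4 a ha h1)
  exact ⟨N, H, a1, a2, a3, a4, a5, fun p b1 b2 b3 => a6 p ⟨b1, b2, b3⟩⟩

end Cfsg.Agent.S3420
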