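import Mathlib
import Cfsg.Statements.S3419
import Cfsg.Agent.S3420

set_option autoImplicit false
open Cfsg

namespace Cfsg.Agent.S3419

theorem aux {G : Type*} [Group G] [Finite G] [Group.IsSolvable G] {N H : Subgroup G} [N.Normal]
    (h1 : IsSimpleGroup (H ⧸ N.subgroupOf H)) (h2 : ¬ IsMulCommutative (H ⧸ N.subgroupOf H)) : False :=
  Perm.not_solvable_of_not_comm h2 inferInstance

/-- Let n ≥ 5 and let G be a finite group with the same order and the same set of element orders as the alternating group of degree n. Then G is not solvable. -/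
theorem result {G : Type*} [Group G] [Finite G] (n : ℕ) (hn : 5 ≤ n)
    (hcard : Nat.card G = Nat.card ↥(alternatingGroup (Fin n)))
    (hspec : Set.range (orderOf : G → ℕ) = Set.range (orderOf : ↥(alternatingGroup (Fin n)) → ℕ)) :
    ¬ Group.IsSolvable G := by
  intro hs
  by_cases h : 11 ≤ n
  · obtain ⟨N, H, _, -, -, a4, a5, -⟩ := S3420.result n h hcard hspec
    exact aux a4 a5
  have h0 := FGS.card_alt_dvd hcard
  have key : ∀ a b : ℕ, a.Prime → b.Prime → 2 < a → a < b → b ≤ n → n < a + b → ¬ a ^ 3 ∣ n.factorial →
      ¬ b ^ 2 ∣ n.factorial → ¬ a ≡ 1 [MOD b] → ¬ a ^ 2 ≡ 1 [MOD b] → ¬ b ≡ 1 [MOD a] → False := fun a b ha hb h1 h2 h3 h4 h5 h6 h7 h8 h9 => by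
    obtain ⟨N, H, _, -, -, a4, a5, -⟩ := FGS.exists_simple_section (G := G) (fun p => p = a ∨ p = b)
      (by rintro p (rfl | rfl) <;> exact ⟨‹_›, FGS.dvd_card_alt (by omega) hcard ‹_› (by omega) (by omega)⟩)
      (by
        rintro p q (rfl | rfl) (rfl | rfl) hpq <;> refine ⟨fun i hi b1 => ?_, FGS.not_orderOf_alt hspec ‹_› ‹_› hpq (by omega)⟩
        · exact (hpq rfl).elim
        · have : i < 3 := by
            by_contra e
            exact h5 (((pow_dvd_pow p (by omega)).trans b1).trans h0)
          interval_cases i
          · rwa [pow_one]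
          · exact h8
        · have : i < 2 := by
            by_contra e
            exact h6 (((pow_dvd_pow p (by omega)).trans b1).trans h0)
          interval_cases i
          rwa [pow_one]
        · exact (hpq rfl).elim)
      (a := b) (b := a) (Or.inr rfl) (Or.inl rfl) h2.ne' fun e => h6 (e.trans h0)
    exact aux a4 a5
  by_cases h1 : n ≤ 6
  · refine key 3 5 (by norm_num) (by norm_num) (by omega) (by omega) hn (by omega) ?_ ?_ (by decide) (by decide) (by decide) <;>
      interval_cases n <;> decide
  · refine key 5 7 (by norm_num) (by norm_num) (by omega) (by omega) (by omega) (by omega) ?_ ?_ (by decide) (by decide) (by decide) <;>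
      (push Not at h h1; interval_cases n <;> decide)

end Cfsg.Agent.S3419
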