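import Mathlib
import Cfsg.Statements.S3504

set_option autoImplicit false
open Cfsg

namespace Cfsg.Agent.S3504

open Equiv Equiv.Perm

theorem ct {n r : ℕ} (hr : r.Prime) (g : Perm (Fin n)) (h : orderOf g = r) (h2 : ∀ x, g x ≠ x) :
    r ∣ n ∧ g.cycleType = Multiset.replicate (n / r) r := by
  haveI := Fact.mk hr
  have h1 := cycleType_of_pow_prime_eq_one (σ := g) (p := r) (h ▸ pow_orderOf_eq_one g)
  have h3 := g.sum_cycleType
  rw [Finset.eq_univ_iff_forall.2 fun x => mem_support.2 (h2 x), h1] at h3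
  simp only [Multiset.sum_replicate, smul_eq_mul, Finset.card_univ, Fintype.card_fin] at h3
  refine ⟨Dvd.intro_left _ h3, ?_⟩
  rw [h1, Nat.div_eq_of_eq_mul_left hr.pos h3.symm]

theorem ex {n r : ℕ} (hn : 0 < n) (hr : r.Prime) (h : r ∣ n) :
    ∃ g : Perm (Fin n), orderOf g = r ∧ ∀ x, g x ≠ x := by
  obtain ⟨k, rfl⟩ := h
  obtain ⟨g, hg⟩ := (exists_with_cycleType_iff (Fin (r * k)) (m := Multiset.replicate k r)).2
    ⟨by simp [mul_comm], fun a ha => by rw [Multiset.eq_of_mem_replicate ha]; exact hr.two_le⟩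
  refine ⟨g, ?_, fun x => mem_support.1 ?_⟩
  · obtain ⟨k, rfl⟩ : ∃ j, k = j + 1 := ⟨k - 1, by have := Nat.pos_of_mul_pos_left hn; omega⟩
    rw [← lcm_cycleType, hg]
    refine Nat.dvd_antisymm (Multiset.lcm_dvd.2 fun a ha => by rw [Multiset.eq_of_mem_replicate ha])
      (Multiset.dvd_lcm (by simp))
  · rw [Finset.eq_univ_of_card g.support (by rw [← sum_cycleType, hg]; simp [mul_comm])]; simp


/-- For n ≥ 5, the fixed-point-free permutations of prime order in the symmetric group of degree n form a single conjugacy class if and only if n is a prime power. -/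
theorem result (n : ℕ) (hn : 5 ≤ n) :
    Nat.card {c : ConjClasses (Equiv.Perm (Fin n)) // ∃ g : Equiv.Perm (Fin n), ConjClasses.mk g = c ∧ (orderOf g).Prime ∧ ∀ i : Fin n, g i ≠ i} = 1 ↔ IsPrimePow n := by
  rw [Nat.card_eq_one_iff_exists, isPrimePow_iff_unique_prime_dvd]
  constructor
  · rintro ⟨⟨c, g, rfl, hg, hg2⟩, h⟩
    refine ⟨_, ⟨hg, (ct hg g rfl hg2).1⟩, fun r ⟨hr, hrn⟩ => ?_⟩
    obtain ⟨g', h1, h2⟩ := ex (by omega) hr hrn
    have := ConjClasses.mk_eq_mk_iff_isConj.1 (congrArg Subtype.val (h ⟨_, g', rfl, h1 ▸ hr, h2⟩))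
    obtain ⟨u, rfl⟩ := isConj_iff.1 this
    rw [← h1]; exact ((MulAut.conj u).orderOf_eq g').symm
  · rintro ⟨r, ⟨hr, hrn⟩, h⟩
    obtain ⟨g, h1, h2⟩ := ex (by omega) hr hrn
    refine ⟨⟨_, g, rfl, h1 ▸ hr, h2⟩, ?_⟩
    rintro ⟨_, g', rfl, h3, h4⟩
    have h5 := h _ ⟨h3, (ct h3 g' rfl h4).1⟩
    exact Subtype.ext (ConjClasses.mk_eq_mk_iff_isConj.2 (isConj_iff_cycleType_eq.2
      ((ct hr g' h5 h4).2.trans (ct hr g h1 h2).2.symm)))

end Cfsg.Agent.S3504
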