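import Mathlib
import Cfsg.Statements.S3508

set_option autoImplicit false
open Cfsg

namespace Cfsg.Agent.S3508

open Subgroup MulAction Polynomial
open scoped IsMulCommutative

theorem lin {p : ℕ} [Fact p.Prime] {V : Type*} [AddCommGroup V] [Module (ZMod p) V] [Finite V]
    (φ : Module.End (ZMod p) V) (r j : ℕ) (h : φ ^ p ^ r = 1) (hj : Module.finrank (ZMod p) V < p ^ j) :
    φ ^ p ^ j = 1 ∧ ∑ i ∈ Finset.range (p ^ j), φ ^ i = 0 := by
  have e1 : ∀ r, φ ^ p ^ r - 1 = (φ - 1) ^ p ^ r := fun r => by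
    simpa using congrArg (aeval φ) (sub_pow_char_pow (X : (ZMod p)[X]) 1 r (p := p)).symm
  have h1 : (φ - 1) ^ Module.finrank (ZMod p) V = 0 := by
    have := (φ - 1).aeval_self_charpoly
    rwa [IsNilpotent.charpoly_eq_X_pow_finrank ⟨p ^ r, by rw [← e1, h, sub_self]⟩, aeval_X_pow] at this
  refine ⟨sub_eq_zero.1 (by rw [e1, pow_eq_zero_of_le hj.le h1]), ?_⟩
  have e2 : ∑ i ∈ Finset.range (p ^ j), (X : (ZMod p)[X]) ^ i = (X - 1) ^ (p ^ j - 1) := by
    refine mul_right_cancel₀ (X_sub_C_ne_zero 1) ?_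
    rw [C_1, geom_sum_mul, ← pow_succ, Nat.sub_add_cancel (by omega), sub_pow_char_pow, one_pow]
  have := congrArg (aeval φ) e2
  simp only [map_sum, map_pow, aeval_X, map_sub, map_one] at this
  rw [this, pow_eq_zero_of_le (by omega) h1]


/-- Let a finite group G act faithfully on a set Ω with p ^ m points (p prime) and have an elementary abelian normal p-subgroup N acting regularly on Ω (so G is a group of affine transformations of an m-dimensional space over the field with p elements). If G contains an element of order p ^ r with r ≥ 1, then p ^ (r − 1) ≤ m. In particular an element of order p ^ m forces m ≤ 2, and m ≤ 1 when p is odd. -/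
theorem result {G : Type*} [Group G] [Finite G] {Ω : Type*} [Fintype Ω] [MulAction G Ω] [FaithfulSMul G Ω] (p m : ℕ) (hp : p.Prime) (hcard : Fintype.card Ω = p ^ m)
    (N : Subgroup G) [N.Normal] (hNc : IsMulCommutative N) (hNp : ∀ n ∈ N, n ^ p = 1)
    (hNtr : MulAction.IsPretransitive N Ω) (hNreg : ∀ ω : Ω, MulAction.stabilizer N ω = ⊥)
    (g : G) (r : ℕ) (hr : 1 ≤ r) (hg : orderOf g = p ^ r) :
    p ^ (r - 1) ≤ m ∧ (r = m → m ≤ 2 ∧ (2 < p → m ≤ 1)) := by
  haveI := Fact.mk hp
  have main : p ^ (r - 1) ≤ m := by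
    by_contra hc
    push Not at hc
    obtain ⟨ω⟩ : Nonempty Ω := Fintype.card_pos_iff.1 (hcard ▸ pow_pos hp.pos m)
    obtain ⟨inst⟩ : Nonempty (Module (ZMod p) (Additive N)) := ⟨AddCommGroup.zmodModule fun x =>
      congrArg Additive.ofMul (show x.toMul ^ p = 1 from Subtype.ext (hNp _ x.toMul.2))⟩
    have hN : Nat.card N = p ^ m := by
      rw [← index_bot, ← hNreg ω, index_stabilizer_of_transitive, Nat.card_eq_fintype_card, hcard]
    have hd : Module.finrank (ZMod p) (Additive N) = m := by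
      have := Module.natCard_eq_pow_finrank (K := ZMod p) (V := Additive N)
      rw [Nat.card_zmod, show Nat.card (Additive N) = p ^ m from hN] at this
      exact (Nat.pow_right_injective hp.two_le this).symm
    let φ : Module.End (ZMod p) (Additive N) :=
      (MonoidHom.toAdditive (MulAut.conjNormal g : MulAut N).toMonoidHom).toZModLinearMap p
    have hφ : ∀ (k : ℕ) (x : Additive N), (((φ ^ k) x).toMul : G) = g ^ k * x.toMul * (g ^ k)⁻¹ := fun k x => by
      induction k with
      | zero => simp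
      | succ k ih =>
        rw [pow_succ', Module.End.mul_apply]
        show g * (((φ ^ k) x).toMul : G) * g⁻¹ = _
        rw [ih]; group
    obtain ⟨h1, h2⟩ := lin φ r (r - 1) (LinearMap.ext fun x => Additive.toMul.injective (Subtype.ext (by
      rw [hφ, ← hg, pow_orderOf_eq_one]; simp))) (hd ▸ hc)
    obtain ⟨b, hb⟩ := exists_smul_eq N ω (g • ω)
    have h3 : ∀ k : ℕ, g ^ k • ω = (((∑ i ∈ Finset.range k, φ ^ i) (Additive.ofMul b)).toMul : G) • ω := fun k => by
      induction k with
      | zero => simp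
      | succ k ih =>
        rw [geom_sum_succ, pow_succ', mul_smul, ih, LinearMap.add_apply, toMul_add, Module.End.mul_apply,
          Subgroup.coe_mul, mul_smul]
        show _ = (g * _ * g⁻¹) • (b • ω)
        rw [hb, mul_smul, mul_smul, inv_smul_smul]
    have h4 : g ^ p ^ (r - 1) = 1 := eq_of_smul_eq_smul (α := Ω) fun x => by
      obtain ⟨n, rfl⟩ := exists_smul_eq N ω x
      have h5 := hφ (p ^ (r - 1)) (Additive.ofMul n)
      rw [h1] at h5
      have h6 := h3 (p ^ (r - 1))
      rw [h2] at h6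
      have h7 : g ^ p ^ (r - 1) * n = n * g ^ p ^ (r - 1) := mul_inv_eq_iff_eq_mul.1 h5.symm
      rw [one_smul, Subgroup.smul_def, smul_smul, h7, mul_smul, h6]; simp
    have := orderOf_dvd_of_pow_eq_one h4
    rw [hg, Nat.pow_dvd_pow_iff_le_right hp.one_lt] at this
    omega
  refine ⟨main, fun e => ?_⟩
  subst e
  obtain ⟨k, rfl⟩ : ∃ k, r = k + 1 := ⟨r - 1, by omega⟩
  simp only [Nat.add_sub_cancel] at main
  have h2 : ∀ k : ℕ, k + 1 + 1 + 1 < 2 ^ (k + 2) := fun k => by
    induction k with
    | zero => norm_num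
    | succ k ih => rw [pow_succ]; omega
  have h3 : ∀ k : ℕ, k + 1 + 1 < 3 ^ (k + 1) := fun k => by
    induction k with
    | zero => norm_num
    | succ k ih => rw [pow_succ]; omega
  refine ⟨?_, fun h => ?_⟩
  · by_contra hc
    obtain ⟨j, rfl⟩ : ∃ j, k = j + 2 := ⟨k - 2, by omega⟩
    have := (h2 j).trans_le (Nat.pow_le_pow_left hp.two_le _)
    omega
  · by_contra hc
    obtain ⟨j, rfl⟩ : ∃ j, k = j + 1 := ⟨k - 1, by omega⟩
    have := (h3 j).trans_le (Nat.pow_le_pow_left (show 3 ≤ p from h) _)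
    omega

end Cfsg.Agent.S3508
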