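import Mathlib
import Cfsg.Statements.S3511

set_option autoImplicit false
open Cfsg

namespace Cfsg.Agent.S3511


/-- Let a finite group G act faithfully on a set Ω. If every element of G of square-free order has a regular cycle (an orbit of the cyclic group it generates with trivial stabilizer), then every element of G has a regular cycle. -/
theorem result {G : Type*} [Group G] [Finite G] {Ω : Type*} [MulAction G Ω] [FaithfulSMul G Ω]
    (h : ∀ g : G, Squarefree (orderOf g) → ∃ ω : Ω, MulAction.stabilizer (Subgroup.zpowers g) ω = ⊥) (g : G) :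
    ∃ ω : Ω, MulAction.stabilizer (Subgroup.zpowers g) ω = ⊥ := by
  have hpos := orderOf_pos g
  obtain ⟨m, hm⟩ := UniqueFactorizationMonoid.radical_dvd_self (a := orderOf g)
  have hm0 : m ≠ 0 := by rintro rfl; omega
  obtain ⟨ω, hω⟩ := h (g ^ m) (by
    rw [orderOf_pow_of_dvd hm0 (hm ▸ Dvd.intro_left _ rfl)]
    nth_rewrite 1 [hm]
    rw [Nat.mul_div_cancel _ (Nat.pos_of_ne_zero hm0)]
    exact UniqueFactorizationMonoid.squarefree_radical)
  refine ⟨ω, by_contra fun hne => ?_⟩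
  obtain ⟨p, hp, hd⟩ := Nat.exists_prime_and_dvd ((Subgroup.one_lt_card_iff_ne_bot _).mpr hne).ne'
  haveI := Fact.mk hp
  obtain ⟨x, hx⟩ := exists_prime_orderOf_dvd_card' p hd
  obtain ⟨⟨⟨_, k, rfl⟩, hk⟩, rfl⟩ : ∃ y, y = x := ⟨x, rfl⟩
  rw [← Subgroup.orderOf_coe, ← Subgroup.orderOf_coe] at hx
  change orderOf (g ^ k) = p at hx
  have h1 : (orderOf g : ℤ) ∣ k * p := by
    rw [orderOf_dvd_iff_zpow_eq_one, zpow_mul, zpow_natCast, ← hx, pow_orderOf_eq_one]
  have h2 : p ∣ UniqueFactorizationMonoid.radical (orderOf g) :=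
    (UniqueFactorizationMonoid.dvd_radical_iff_of_irreducible hp.prime.irreducible hpos.ne').mpr
      (hx ▸ orderOf_dvd_of_mem_zpowers ⟨k, rfl⟩)
  obtain ⟨r, hr⟩ := h2
  rw [hm, hr] at h1
  push_cast at h1
  rw [mul_assoc, mul_comm k] at h1
  obtain ⟨j, hj⟩ := (Dvd.intro_left _ rfl : (m : ℤ) ∣ r * m).trans
    (Int.dvd_of_mul_dvd_mul_left (by exact_mod_cast hp.ne_zero) h1)
  have : (⟨g ^ k, j, by simp [hj, zpow_mul]⟩ : Subgroup.zpowers (g ^ m)) ∈
      MulAction.stabilizer (Subgroup.zpowers (g ^ m)) ω := hk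
  rw [hω, Subgroup.mem_bot] at this
  rw [show g ^ k = 1 from congrArg Subtype.val this, orderOf_one] at hx
  exact hp.one_lt.ne hx

end Cfsg.Agent.S3511
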