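import Mathlib
import Cfsg.Statements.S3514

set_option autoImplicit false
open Cfsg

namespace Cfsg.Agent.S3514

open Subgroup MulAction

theorem card_eq {p : ℕ} [Fact p.Prime] {V : Type*} [AddCommGroup V] [Module (ZMod p) V]
    (H : Subgroup (V ≃ₗ[ZMod p] V)) (v : V) :
    Nat.card {u : V | ∃ h ∈ H, h v = u} = (stabilizer (V ≃ₗ[ZMod p] V) v).relIndex H := by
  rw [relIndex, show (stabilizer (V ≃ₗ[ZMod p] V) v).subgroupOf H = stabilizer H v from rfl, index_stabilizer,
    Nat.card_coe_set_eq]
  congr 1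
  ext u
  exact ⟨fun ⟨h, hh, e⟩ => ⟨⟨h, hh⟩, e⟩, fun ⟨h, e⟩ => ⟨h.1, h.2, e⟩⟩


/-- Let p be a prime, V a finite vector space over the field with p elements, and H a group of linear transformations of V all of whose orbits on V have size coprime to p. (i) Every normal subgroup K of H has all its orbits on V of size coprime to p. (ii) If N is a group of linear transformations of V of order coprime to p that is normalized by H, then the group generated by N and H has all its orbits on V of size coprime to p. -/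
theorem result (p : ℕ) [Fact p.Prime] {V : Type*} [AddCommGroup V] [Module (ZMod p) V] [Finite V]
    (H : Subgroup (V ≃ₗ[ZMod p] V)) (hH : ∀ v : V, ¬ p ∣ Nat.card {u : V | ∃ h ∈ H, h v = u}) :
    (∀ K : Subgroup (V ≃ₗ[ZMod p] V), K ≤ H → H ≤ Subgroup.normalizer (K : Set (V ≃ₗ[ZMod p] V)) →
        ∀ v : V, ¬ p ∣ Nat.card {u : V | ∃ k ∈ K, k v = u}) ∧
    (∀ N : Subgroup (V ≃ₗ[ZMod p] V), ¬ p ∣ Nat.card N → H ≤ Subgroup.normalizer (N : Set (V ≃ₗ[ZMod p] V)) →
        ∀ v : V, ¬ p ∣ Nat.card {u : V | ∃ x ∈ N ⊔ H, x v = u}) := by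
  have hp : p.Prime := Fact.out
  haveI : Finite (V ≃ₗ[ZMod p] V) := Finite.of_injective (fun f => (f : V → V)) DFunLike.coe_injective
  simp only [card_eq] at hH ⊢
  refine ⟨fun K hKH hn v h => hH v (h.trans ?_), fun N hN hn v h => ?_⟩
  · haveI : (K.subgroupOf H).Normal := (normal_subgroupOf_iff_le_normalizer hKH).2 hn
    set S := (stabilizer (V ≃ₗ[ZMod p] V) v).subgroupOf H
    rw [← relIndex_subgroupOf hKH]
    show S.relIndex (K.subgroupOf H) ∣ S.index
    have h1 := relIndex_mul_relIndex (S ⊓ K.subgroupOf H) S (S ⊔ K.subgroupOf H) inf_le_left le_sup_left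
    have h2 := relIndex_mul_relIndex (S ⊓ K.subgroupOf H) (K.subgroupOf H) (S ⊔ K.subgroupOf H) inf_le_right
      le_sup_right
    rw [inf_relIndex_left] at h1
    rw [inf_relIndex_right, relIndex_sup_right, mul_comm, ← h1] at h2
    rw [Nat.eq_of_mul_eq_mul_left (Nat.pos_of_ne_zero index_ne_zero_of_finite) h2]
    exact relIndex_dvd_index_of_le le_sup_left
  · set S := stabilizer (V ≃ₗ[ZMod p] V) v
    have h1 := relIndex_mul_relIndex (S ⊓ H) H (N ⊔ H) inf_le_right le_sup_right
    have h2 : S.relIndex (N ⊔ H) ∣ (S ⊓ H).relIndex (N ⊔ H) := relIndex_dvd_of_le_left _ inf_le_left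
    rw [← h1, inf_relIndex_right] at h2
    rcases (Nat.Prime.dvd_mul hp).1 (h.trans h2) with k | k
    · exact hH v k
    · haveI : (N.subgroupOf (N ⊔ H)).Normal := (normal_subgroupOf_iff_le_normalizer le_sup_left).2
        (sup_le le_normalizer hn)
      have h3 := relIndex_mul_relIndex (N ⊓ H) H (N ⊔ H) inf_le_right le_sup_right
      have h4 := relIndex_mul_relIndex (N ⊓ H) N (N ⊔ H) inf_le_left le_sup_left
      have h5 : N.relIndex (N ⊔ H) = N.relIndex H := by
        have := relIndex_sup_left (H.subgroupOf (N ⊔ H)) (N.subgroupOf (N ⊔ H))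
        rw [← subgroupOf_sup le_sup_left le_sup_right, subgroupOf_self, relIndex_top_right,
          relIndex_subgroupOf le_sup_right] at this
        exact this
      rw [h5, ← h3, inf_relIndex_right, inf_relIndex_left, mul_comm] at h4
      rw [← Nat.eq_of_mul_eq_mul_left (Nat.pos_of_ne_zero index_ne_zero_of_finite) h4] at k
      exact hN (k.trans (relIndex_dvd_card _ _))

end Cfsg.Agent.S3514
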