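import Mathlib
import Cfsg.Statements.S3516

set_option autoImplicit false
open Cfsg

namespace Cfsg.Agent.S3516

theorem aff {p : ℕ} [Fact p.Prime] (hp : p ≠ 2) {d : ℕ} (G : Subgroup (Equiv.Perm (Fin d → ZMod p)))
    (haff : (G : Set (Equiv.Perm (Fin d → ZMod p))) ⊆ {τ : Equiv.Perm (Fin d → ZMod p) | ∃ (A : (Fin d → ZMod p) ≃ₗ[ZMod p] (Fin d → ZMod p)) (b : Fin d → ZMod p), ∀ x, τ x = A x + b})
    (σ : Equiv.Perm (Fin d → ZMod p)) (h : ∀ t : Fin 3 → (Fin d → ZMod p), ∃ g ∈ G, ∀ i, σ (t i) = g (t i)) :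
    ∃ (A : (Fin d → ZMod p) ≃ₗ[ZMod p] (Fin d → ZMod p)) (b : Fin d → ZMod p), ∀ x, σ x = A x + b := by
  have key : ∀ x y (c : ZMod p), σ (x + c • (y - x)) = σ x + c • (σ y - σ x) := fun x y c => by
    obtain ⟨g, hg, h1⟩ := h ![x, y, x + c • (y - x)]
    obtain ⟨A, b, h2⟩ := haff hg
    have e0 : σ x = g x := h1 0
    have e1 : σ y = g y := h1 1
    have e2 : σ (x + c • (y - x)) = g (x + c • (y - x)) := h1 2
    rw [e0, e1, e2, h2, h2, h2]; simp only [map_add, map_smul, map_sub]; module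
  have h2 : (2 : ZMod p) ≠ 0 := fun e => hp ((Nat.prime_dvd_prime_iff_eq Fact.out Nat.prime_two).1
    ((ZMod.natCast_eq_zero_iff 2 p).1 (by exact_mod_cast e)))
  have hs : ∀ (c : ZMod p) y, σ (c • y) - σ 0 = c • (σ y - σ 0) := fun c y => by
    have := key 0 y c
    rw [zero_add, sub_zero] at this
    rw [this]; abel
  let L : (Fin d → ZMod p) →ₗ[ZMod p] (Fin d → ZMod p) :=
    { toFun := fun x => σ x - σ 0
      map_add' := fun x y => by
        have h3 := key x y 2⁻¹
        have h4 := hs 2⁻¹ (x + y)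
        have h5 : x + (2⁻¹ : ZMod p) • (y - x) = (2⁻¹ : ZMod p) • (x + y) := by
          ext i; simp only [Pi.add_apply, Pi.smul_apply, Pi.sub_apply, smul_eq_mul]; field_simp; ring
        rw [← h5, h3] at h4
        ext i
        have := congrFun h4 i
        simp only [Pi.add_apply, Pi.smul_apply, Pi.sub_apply, smul_eq_mul] at this ⊢
        field_simp at this
        linear_combination -this
      map_smul' := hs }
  have hL : Function.Injective L := fun x y e => σ.injective (sub_left_injective e)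
  exact ⟨LinearEquiv.ofInjectiveEndo L hL, σ 0, fun x => by simp [L]⟩


/-- Let p be an odd prime, d ≥ 3, and G a group of affine permutations x ↦ Ax + b of V = F_p^d containing all translations and all maps x ↦ Ax with A of determinant 1. Then the 3-closure of G is the full affine group: a permutation σ of V agrees on every triple of points with some element of G if and only if σ is an affine map. -/
theorem result (p : ℕ) [Fact p.Prime] (hp : p ≠ 2) (d : ℕ) (hd : 3 ≤ d) (G : Subgroup (Equiv.Perm (Fin d → ZMod p)))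
    (haff : (G : Set (Equiv.Perm (Fin d → ZMod p))) ⊆ {τ : Equiv.Perm (Fin d → ZMod p) | ∃ (A : (Fin d → ZMod p) ≃ₗ[ZMod p] (Fin d → ZMod p)) (b : Fin d → ZMod p), ∀ x, τ x = A x + b})
    (htrans : ∀ b : Fin d → ZMod p, ∃ g ∈ G, ∀ x, g x = x + b)
    (hsl : ∀ A : (Fin d → ZMod p) ≃ₗ[ZMod p] (Fin d → ZMod p), LinearMap.det (A : (Fin d → ZMod p) →ₗ[ZMod p] (Fin d → ZMod p)) = 1 → ∃ g ∈ G, ∀ x, g x = A x)
    (σ : Equiv.Perm (Fin d → ZMod p)) :
    (∀ t : Fin 3 → (Fin d → ZMod p), ∃ g ∈ G, ∀ i, σ (t i) = g (t i)) ↔ σ ∈ {τ : Equiv.Perm (Fin d → ZMod p) | ∃ (A : (Fin d → ZMod p) ≃ₗ[ZMod p] (Fin d → ZMod p)) (b : Fin d → ZMod p), ∀ x, τ x = A x + b} := by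
  refine ⟨aff hp G haff σ, fun ⟨A, b, hA⟩ t => ?_⟩
  obtain ⟨f, hf0, hf⟩ := Submodule.exists_le_ker_of_lt_top (Submodule.span (ZMod p) {t 1 - t 0, t 2 - t 0}) (by
    refine Submodule.lt_top_of_finrank_lt_finrank (lt_of_le_of_lt (finrank_span_le_card _) ?_)
    simp only [Set.toFinset_insert, Set.toFinset_singleton, Module.finrank_fintype_fun_eq_card, Fintype.card_fin]
    exact lt_of_le_of_lt Finset.card_le_two (by omega))
  obtain ⟨v, hv⟩ := LinearMap.surjective hf0 ((LinearMap.det (A : (Fin d → ZMod p) →ₗ[ZMod p] _))⁻¹ - 1)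
  have hd0 : LinearMap.det (A : (Fin d → ZMod p) →ₗ[ZMod p] (Fin d → ZMod p)) ≠ 0 := A.isUnit_det'.ne_zero
  have h1 : LinearMap.det ((A : (Fin d → ZMod p) →ₗ[ZMod p] (Fin d → ZMod p)) ∘ₗ LinearMap.transvection f v) = 1 := by
    rw [LinearMap.det_comp, LinearMap.transvection.det, hv, add_sub_cancel, mul_inv_cancel₀ hd0]
  let B := LinearMap.equivOfDetNeZero _ (h1 ▸ one_ne_zero)
  obtain ⟨g, hg, h2⟩ := hsl B h1
  obtain ⟨g', hg', h3⟩ := htrans (A (t 0) + b - B (t 0))
  refine ⟨g' * g, mul_mem hg' hg, fun i => ?_⟩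
  have h4 : B (t i - t 0) = A (t i - t 0) := by
    have : f (t i - t 0) = 0 := by
      fin_cases i
      · simp
      · exact hf (Submodule.subset_span (by simp))
      · exact hf (Submodule.subset_span (by simp))
    show A (LinearMap.transvection f v (t i - t 0)) = _
    rw [LinearMap.transvection.apply, this, zero_smul, add_zero]
  rw [map_sub, map_sub] at h4
  rw [Equiv.Perm.mul_apply, h3, h2, hA]
  linear_combination -h4

end Cfsg.Agent.S3516
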