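import Mathlib
import Cfsg.Statements.S3515
import Cfsg.Agent.S3516

set_option autoImplicit false
open Cfsg

namespace Cfsg.Agent.S3515

theorem two : ∀ x : Fin 2 → ZMod 2, x ≠ ![1, 1] → x = 0 ∨ x = ![1, 0] ∨ x = ![0, 1] := by decide


/-- Every primitive affine permutation group of degree p² is 3-closed. Let p be a prime and G a group of permutations of the plane V = F_p² consisting of affine maps x ↦ Ax + b, containing all translations, and acting primitively on V. Then any permutation σ of V that agrees on every triple of points with some element of G (σ preserves every G-orbit on ordered triples) already lies in G. -/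
theorem result (p : ℕ) [Fact p.Prime] (G : Subgroup (Equiv.Perm (Fin 2 → ZMod p)))
    (haff : (G : Set (Equiv.Perm (Fin 2 → ZMod p))) ⊆ {τ : Equiv.Perm (Fin 2 → ZMod p) | ∃ (A : (Fin 2 → ZMod p) ≃ₗ[ZMod p] (Fin 2 → ZMod p)) (b : Fin 2 → ZMod p), ∀ x, τ x = A x + b})
    (htrans : ∀ b : Fin 2 → ZMod p, ∃ g ∈ G, ∀ x, g x = x + b) (hprim : MulAction.IsPreprimitive G (Fin 2 → ZMod p))
    (σ : Equiv.Perm (Fin 2 → ZMod p)) (hσ : (∀ t : Fin 3 → (Fin 2 → ZMod p), ∃ g ∈ G, ∀ i, σ (t i) = g (t i))) : σ ∈ G := by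
  obtain ⟨g, hg, h⟩ := hσ ![0, ![1, 0], ![0, 1]]
  have e0 : σ 0 = g 0 := h 0
  have e1 : σ ![1, 0] = g ![1, 0] := h 1
  have e2 : σ ![0, 1] = g ![0, 1] := h 2
  suffices σ = g from this ▸ hg
  by_cases hp : p = 2
  · subst hp
    have key : ∀ x : Fin 2 → ZMod 2, x ≠ ![1, 1] → σ x = g x := fun x hx => by
      have : x = 0 ∨ x = ![1, 0] ∨ x = ![0, 1] :=         two x hx
      rcases this with rfl | rfl | rfl <;> assumption
    ext1 x
    by_cases hx : x = ![1, 1]
    · obtain ⟨y, hy⟩ := g.surjective (σ x)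
      by_cases h1 : y = ![1, 1]
      · rw [← hy, h1, hx]
      · rw [← key y h1] at hy
        exact absurd ((σ.injective hy).trans hx) h1
    · exact key x hx
  obtain ⟨A, b, hA⟩ := Cfsg.Agent.S3516.aff hp G haff σ hσ
  obtain ⟨B, c, hB⟩ := haff hg
  rw [hA, hB] at e0 e1 e2
  simp only [map_zero, zero_add] at e0
  subst e0
  ext1 x
  have hx : x = x 0 • ![1, 0] + x 1 • ![0, 1] := by ext i; fin_cases i <;> simp
  rw [hA, hB, hx, map_add, map_add, map_smul, map_smul, map_smul, map_smul, add_right_cancel e1, add_right_cancel e2]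

end Cfsg.Agent.S3515
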