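import Mathlib
import Cfsg.Statements.S3517
import Cfsg.Agent.Perm.LinExt

set_option autoImplicit false
open Cfsg

namespace Cfsg.Agent.S3517

theorem aux {V : Type*} [AddCommGroup V] [Module (ZMod 2) V] [FiniteDimensional (ZMod 2) V]
    (x y x' y' : V) (h1 : x = 0 ↔ x' = 0) (h2 : y = 0 ↔ y' = 0) (h3 : x = y ↔ x' = y') :
    ∃ A : V ≃ₗ[ZMod 2] V, A x = x' ∧ A y = y' := by
  have one : ∀ u u' : V, (u = 0 ↔ u' = 0) → ∃ A : V ≃ₗ[ZMod 2] V, A u = u' := fun u u' h => by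
    by_cases hu : u = 0
    · exact ⟨LinearEquiv.refl _ _, by rw [hu, h.mp hu]; rfl⟩
    obtain ⟨A, hA⟩ := Perm.exists_linearEquiv_of_linearIndependent (K := ZMod 2) (x := fun _ : Unit => u)
      (y := fun _ => u') (linearIndependent_unique_iff.mpr hu)
      (linearIndependent_unique_iff.mpr (mt h.mpr hu))
    exact ⟨A, hA ()⟩
  have ind : ∀ u v : V, u ≠ 0 → v ≠ 0 → u ≠ v → LinearIndependent (ZMod 2) ![u, v] := fun u v hu hv huv => by
    rw [LinearIndependent.pair_iff' hu]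
    intro a
    rcases (by decide : ∀ a : ZMod 2, a = 0 ∨ a = 1) a with rfl | rfl
    · simpa using hv.symm
    · simpa using huv
  by_cases hx : x = 0
  · obtain ⟨A, hA⟩ := one y y' h2
    exact ⟨A, by rw [hx, h1.mp hx, map_zero], hA⟩
  by_cases hy : y = 0
  · obtain ⟨A, hA⟩ := one x x' h1
    exact ⟨A, hA, by rw [hy, h2.mp hy, map_zero]⟩
  by_cases hxy : x = y
  · obtain ⟨A, hA⟩ := one x x' h1
    exact ⟨A, hA, by rw [← hxy, ← h3.mp hxy, hA]⟩
  obtain ⟨A, hA⟩ := Perm.exists_linearEquiv_of_linearIndependent (ind x y hx hy hxy)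
    (ind x' y' (mt h1.mpr hx) (mt h2.mpr hy) (mt h3.mpr hxy))
  exact ⟨A, hA 0, hA 1⟩

/-- For d ≥ 3, the 3-closure of the affine group AGL_d(2) acting on F_2^d is the full symmetric group: every permutation of F_2^d agrees on every ordered triple of points with some affine map (AGL_d(2) is 3-transitive). -/
theorem result (d : ℕ) (hd : 3 ≤ d) (σ : Equiv.Perm (Fin d → ZMod 2)) (t : Fin 3 → (Fin d → ZMod 2)) :
    ∃ (A : (Fin d → ZMod 2) ≃ₗ[ZMod 2] (Fin d → ZMod 2)) (b : Fin d → ZMod 2), ∀ i, σ (t i) = A (t i) + b := by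
  obtain ⟨A, h1, h2⟩ := aux (t 1 - t 0) (t 2 - t 0) (σ (t 1) - σ (t 0)) (σ (t 2) - σ (t 0))
    (by simp [sub_eq_zero]) (by simp [sub_eq_zero]) (by simp)
  rw [map_sub] at h1 h2
  refine ⟨A, σ (t 0) - A (t 0), fun i => ?_⟩
  fin_cases i
  · simp
  · change σ (t 1) = A (t 1) + _
    rw [← sub_add_cancel (σ (t 1)) (σ (t 0)), ← h1]; abel
  · change σ (t 2) = A (t 2) + _
    rw [← sub_add_cancel (σ (t 2)) (σ (t 0)), ← h2]; abel

end Cfsg.Agent.S3517
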