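import Mathlib
import Cfsg.Statements.S3518
import Cfsg.Agent.Perm.Burnside

set_option autoImplicit false
open Cfsg

namespace Cfsg.Agent.S3518

open MulAction

theorem aff_ext {F : Type*} [Field F] {g h : Equiv.Perm F} (hg : ∃ a b : F, ∀ x, g x = a * x + b)
    (hh : ∃ a b : F, ∀ x, h x = a * x + b) (h0 : g 0 = h 0) (h1 : g 1 = h 1) : g = h := by
  obtain ⟨a, b, hg⟩ := hg
  obtain ⟨c, d, hh⟩ := hh
  simp only [hg, hh, mul_zero, zero_add, mul_one] at h0 h1
  subst h0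
  ext x
  rw [hg, hh, add_right_cancel h1]

theorem aff_of_mem {F : Type*} [Field F] {g : Equiv.Perm F} (hg : g ∈ Cfsg.affineGroup F) :
    ∃ a b : F, ∀ x, g x = a * x + b := by
  obtain ⟨a, b, h⟩ := hg
  exact ⟨a, b, h⟩

/-- Closures of subgroups of the one-dimensional affine group. Let p be a prime and G a group of permutations of F_p lying in the affine group AGL₁(p) = {x ↦ ax + b, a ≠ 0} and containing all translations. (1) If G is a proper subgroup of AGL₁(p), then G is 2-closed: a permutation of F_p agreeing on every ordered pair of points with some element of G lies in G. (2) Every permutation of F_p agrees on every ordered pair with some element of AGL₁(p) (the 2-closure of AGL₁(p) is the symmetric group). (3) AGL₁(p) is 3-closed: a permutation agreeing on every ordered triple with some affine map is affine. -/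
theorem result (p : ℕ) [Fact p.Prime] (G : Subgroup (Equiv.Perm (ZMod p))) (hG : G ≤ Cfsg.affineGroup (ZMod p))
    (htrans : ∀ b : ZMod p, ∃ g ∈ G, ∀ x, g x = x + b) :
    (G ≠ Cfsg.affineGroup (ZMod p) → ∀ σ : Equiv.Perm (ZMod p), (∀ t : Fin 2 → ZMod p, ∃ g ∈ G, ∀ i, σ (t i) = g (t i)) → σ ∈ G) ∧
    (∀ σ : Equiv.Perm (ZMod p), (∀ t : Fin 2 → ZMod p, ∃ g ∈ Cfsg.affineGroup (ZMod p), ∀ i, σ (t i) = g (t i))) ∧
    (∀ σ : Equiv.Perm (ZMod p), (∀ t : Fin 3 → ZMod p, ∃ g ∈ Cfsg.affineGroup (ZMod p), ∀ i, σ (t i) = g (t i)) → σ ∈ Cfsg.affineGroup (ZMod p)) := by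
  refine ⟨fun hne σ hσ => ?_, fun σ t => ?_, fun σ hσ => ?_⟩
  · let K : Subgroup (Equiv.Perm (ZMod p)) :=
      { carrier := {σ | ∀ t : Fin 2 → ZMod p, ∃ g ∈ G, ∀ i, σ (t i) = g (t i)}
        one_mem' := fun t => ⟨1, G.one_mem, fun _ => rfl⟩
        mul_mem' := fun {σ τ} hσ hτ t => by
          obtain ⟨g, hg, e⟩ := hτ t
          obtain ⟨h, hh, e'⟩ := hσ fun i => τ (t i)
          exact ⟨h * g, G.mul_mem hh hg, fun i => by rw [Equiv.Perm.mul_apply, e', e]; rfl⟩
        inv_mem' := fun {σ} hσ t => by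
          obtain ⟨g, hg, e⟩ := hσ fun i => σ⁻¹ (t i)
          exact ⟨g⁻¹, G.inv_mem hg, fun i => by rw [Equiv.Perm.eq_inv_iff_eq, ← e]; simp⟩ }
    obtain ⟨τ, hτ, e⟩ := htrans 1
    rcases Perm.affine_or_two_trans (G := K) (e := Equiv.refl _)
      (τ := ⟨τ, fun t => ⟨τ, hτ, fun _ => rfl⟩⟩) e with h | h
    · obtain ⟨g, hg, e⟩ := hσ ![0, 1]
      rwa [aff_ext (g := σ) (h ⟨σ, hσ⟩) (aff_of_mem (hG hg)) (e 0) (e 1)]
    · refine absurd (le_antisymm hG fun u hu => ?_) hne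
      obtain ⟨k, h0, h1⟩ := Perm.two_trans h (zero_ne_one) (u.injective.ne zero_ne_one)
      obtain ⟨g, hg, e⟩ := k.2 ![0, 1]
      rwa [aff_ext (aff_of_mem hu) (aff_of_mem (hG hg)) (h0.symm.trans (e 0)) (h1.symm.trans (e 1))]
  · by_cases h : t 0 = t 1
    · refine ⟨Equiv.addRight (σ (t 0) - t 0), ⟨1, σ (t 0) - t 0, fun x => by simp⟩, fun i => ?_⟩
      fin_cases i <;> simp [h]
    · have h1 : t 1 - t 0 ≠ 0 := sub_ne_zero.mpr (Ne.symm h)
      have h2 : (σ (t 1) - σ (t 0)) / (t 1 - t 0) ≠ 0 :=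
        div_ne_zero (sub_ne_zero.mpr (σ.injective.ne (Ne.symm h))) h1
      refine ⟨(Equiv.mulLeft₀ _ h2).trans (Equiv.addRight (σ (t 0) - (σ (t 1) - σ (t 0)) / (t 1 - t 0) * t 0)),
        ⟨Units.mk0 _ h2, _, fun x => rfl⟩, fun i => ?_⟩
      fin_cases i
      · simp
      · simp only [Fin.mk_one, Equiv.trans_apply, Equiv.mulLeft₀_apply, Equiv.coe_addRight]
        field_simp
        ring
  · obtain ⟨g, hg, e⟩ := hσ ![0, 1, 0]
    have : σ = g := by
      ext1 x
      obtain ⟨g', hg', e'⟩ := hσ ![0, 1, x]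
      rw [aff_ext (aff_of_mem hg) (aff_of_mem hg') ((e 0).symm.trans (e' 0)) ((e 1).symm.trans (e' 1))]
      exact e' 2
    rwa [this]

end Cfsg.Agent.S3518
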