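import Mathlib
import Cfsg.Statements.S3524

set_option autoImplicit false
open Cfsg

namespace Cfsg.Agent.S3524


/-- A permutation group with a base is closed at one level above the base size. Let G be a group of permutations of a set Ω and suppose some k points α₁, …, α_k are fixed simultaneously only by the identity of G (a base of size k). Then G is (k+1)-closed: a permutation of Ω that agrees on every (k+1)-tuple of points with some element of G belongs to G. -/
theorem result {Ω : Type*} (G : Subgroup (Equiv.Perm Ω)) (k : ℕ) (α : Fin k → Ω)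
    (hbase : ∀ g ∈ G, (∀ i, g (α i) = α i) → g = 1) (σ : Equiv.Perm Ω)
    (hσ : ∀ t : Fin (k + 1) → Ω, ∃ g ∈ G, ∀ i, σ (t i) = g (t i)) : σ ∈ G := by
  by_cases hΩ : Nonempty Ω
  · obtain ⟨a⟩ := hΩ
    obtain ⟨g, hg, h⟩ := hσ (Fin.cons a α)
    have : σ = g := by
      ext x
      obtain ⟨g', hg', h'⟩ := hσ (Fin.cons x α)
      have e : g'⁻¹ * g = 1 := hbase _ (G.mul_mem (G.inv_mem hg') hg) fun i => by
        have h1 := h i.succ
        have h2 := h' i.succ
        simp only [Fin.cons_succ] at h1 h2
        rw [Equiv.Perm.mul_apply, ← h1, h2]; simp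
      rw [← inv_mul_eq_one.mp e]
      exact h' 0
    exact this ▸ hg
  · have : σ = 1 := Equiv.ext fun x => absurd ⟨x⟩ hΩ
    exact this ▸ G.one_mem

end Cfsg.Agent.S3524
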