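import Cfsg.Statements.S3575
import Cfsg.Agent.Mix26.UniPart
-- import your own Cfsg.Agent.* helpers here

set_option autoImplicit false
open Cfsg

namespace Cfsg.Agent.S3575

open Cfsg.Agent.Mix26


/-- Let a, b ≥ 2 and consider the symmetric group of degree a·b acting on the partitions of an (a·b)-set into b parts of size a (encoded as maps onto a b-element set all of whose fibres have a elements; a permutation fixes such a partition when it permutes the fibres). Let r be a prime dividing the number (ab)!/((a!)^b·b!) of such partitions, and let ℓ and k be the remainders of a and b modulo r. Then every permutation of order r fixes some such partition if and only if r ≤ a and one of the following holds: ℓ = 0; or k = 0 and ℓ = 1; or ℓ and k are non-zero, k·ℓ < r, and either b < r or (k + r)·ℓ ≤ k·a + r. -/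
theorem result (a b : ℕ) (ha : 2 ≤ a) (hb : 2 ≤ b) (r : ℕ) (hr : r.Prime)
    (hrd : r ∣ (a * b).factorial / (a.factorial ^ b * b.factorial)) :
    (∀ σ : Equiv.Perm (Fin (a * b)), orderOf σ = r →
        ∃ f : Fin (a * b) → Fin b, (∀ j : Fin b, Nat.card {x : Fin (a * b) // f x = j} = a) ∧
          ∃ π : Equiv.Perm (Fin b), ∀ x : Fin (a * b), f (σ x) = π (f x)) ↔
      (r ≤ a ∧ (a % r = 0 ∨ (b % r = 0 ∧ a % r = 1) ∨
        (a % r ≠ 0 ∧ b % r ≠ 0 ∧ (b % r) * (a % r) < r ∧ (b < r ∨ (b % r + r) * (a % r) ≤ (b % r) * a + r)))) := by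
  have hab : r ≤ a * b := by
    rw [← hr.dvd_factorial]
    have h := Nat.uniformBell_mul_eq b (n := a) (by omega)
    rw [mul_comm a b, ← Nat.uniformBell_eq_div b (by omega)] at hrd
    rw [mul_comm a b, ← h, mul_assoc]
    exact Dvd.dvd.mul_right hrd _
  haveI := Fact.mk hr
  have h1 : (∀ σ : Equiv.Perm (Fin (a * b)), orderOf σ = r →
        ∃ f : Fin (a * b) → Fin b, (∀ j : Fin b, Nat.card {x : Fin (a * b) // f x = j} = a) ∧
          ∃ π : Equiv.Perm (Fin b), ∀ x : Fin (a * b), f (σ x) = π (f x)) ↔
      (∀ m, 1 ≤ m → m * r ≤ a * b → ∃ j, j * r ≤ b ∧ a * j ≤ m ∧ m ≤ a * j + (b - j * r) * (a / r)) := by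
    constructor
    · intro H m hm hmr
      obtain ⟨σ, h, hs⟩ := up_exists (α := Fin (a * b)) hr m (by simpa using hmr)
      refine (up_iff hr (by omega) σ h m hs).1 (H σ (orderOf_eq_prime h ?_))
      rintro rfl
      simp only [Equiv.Perm.support_one, Finset.card_empty] at hs
      have := Nat.mul_pos hm hr.pos
      omega
    · intro H σ hσ
      have h : σ ^ r = 1 := hσ ▸ pow_orderOf_eq_one σ
      obtain ⟨m, hm⟩ := up_supp_dvd hr h
      rw [mul_comm r m] at hm
      refine (up_iff hr (by omega) σ h m hm).2 (H m ?_ ?_)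
      · by_contra hc
        obtain rfl : m = 0 := by omega
        rw [zero_mul, Finset.card_eq_zero, Equiv.Perm.support_eq_empty_iff] at hm
        rw [hm, orderOf_one] at hσ
        exact hr.one_lt.ne hσ
      · rw [← hm]; simpa using Finset.card_le_univ σ.support
  rw [h1, up_arith hr.pos hab]
  have ea := Nat.div_add_mod a r
  have eb := Nat.div_add_mod b r
  have hl : a % r < r := Nat.mod_lt _ hr.pos
  have hk : b % r < r := Nat.mod_lt _ hr.pos
  have hv : b / r = 0 ↔ b < r := by rw [Nat.div_eq_zero_iff]; have := hr.pos; omega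
  rw [hv]
  have hr0 := hr.pos
  generalize a / r = u at *
  generalize a % r = l at *
  generalize b / r = v at *
  generalize b % r = k at *
  have key : l ≤ u * k + 1 ↔ (k + r) * l ≤ k * a + r := by
    rw [← ea]
    constructor
    · intro h; nlinarith
    · intro h
      by_contra hc
      have : r * (u * k + 2) ≤ r * l := Nat.mul_le_mul_left _ (by omega)
      nlinarith
  constructor
  · rintro ⟨h2, h3⟩
    have hu : u ≠ 0 := by
      rintro rfl
      have hv0 : v = 0 := by
        rcases h3 with h3 | h3
        · exact hv.2 h3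
        · omega
      subst hv0
      have : l = a := by omega
      have : k = b := by omega
      subst l k
      nlinarith
    refine ⟨by nlinarith [Nat.pos_of_ne_zero hu], ?_⟩
    by_cases hl0 : l = 0
    · exact Or.inl hl0
    by_cases hk0 : k = 0
    · subst hk0
      refine Or.inr (Or.inl ⟨rfl, ?_⟩)
      rcases h3 with h3 | h3
      · have := hv.2 h3; subst this; omega
      · omega
    exact Or.inr (Or.inr ⟨hl0, hk0, h2, h3.imp id key.1⟩)
  · rintro ⟨h2, h3 | ⟨h3, h4⟩ | ⟨_, _, h3, h4⟩⟩
    · subst h3; exact ⟨by omega, Or.inr (by omega)⟩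
    · subst h3 h4; exact ⟨by omega, Or.inr (by omega)⟩
    · exact ⟨h3, h4.imp id key.2⟩

end Cfsg.Agent.S3575
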