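import Mathlib
import Cfsg.Statements.S3627
import Cfsg.Agent.Spc.SCJ1
import Cfsg.Agent.Spec.Sym
import Cfsg.Agent.Spec.Pow
import Cfsg.Agent.S0144
-- import your own Cfsg.Agent.* helpers here

set_option autoImplicit false
open Cfsg

namespace Cfsg.Agent.S3627

theorem sD : Spec.spec (DihedralGroup 5) = {m | m ∈ [1, 2, 5]} :=
  Spec.spec_eq_of [2, 5] (by decide) (by
    simp only [List.forall_mem_cons]
    exact ⟨⟨_, DihedralGroup.orderOf_sr 0⟩, ⟨_, DihedralGroup.orderOf_r_one⟩, by simp⟩) (fun n => by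
    simp only [List.mem_cons, List.not_mem_nil, or_false, exists_eq_or_imp, exists_eq_left, Set.mem_setOf_eq,
      Nat.dvd_prime Nat.prime_two, Nat.dvd_prime Nat.prime_five]
    tauto)

theorem sS : Spec.spec (Equiv.Perm (Fin 3)) = {m | m ∈ [1, 2, 3]} :=
  Spec.spec_perm_eq _ [[2], [3]] (by decide +kernel) (by decide +kernel) (by decide +kernel)

theorem sH : Spec.spec (Equiv.Perm (Fin 3) × DihedralGroup 5) = {m | m ∈ [1, 2, 3, 5, 6, 10, 15]} :=
  Spec.spec_prod_eq _ sS sD (by decide +kernel) (by decide +kernel)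

theorem s2 : Spec.spec (Spor.J1 × Spor.J1) = {m | m ∈ [1, 2, 3, 5, 6, 7, 10, 11, 14, 15, 19, 21, 22, 30, 33, 35, 38, 42, 55, 57, 66, 70, 77, 95, 105, 110, 114, 133, 165, 190, 209, 285]} :=
  Spec.spec_prod_eq _ Spc.SC.J1.spec_J1 Spc.SC.J1.spec_J1 (by decide +kernel) (by decide +kernel)

theorem s3 : Spec.spec (Spor.J1 × Spor.J1 × Spor.J1) = {m | m ∈ [1, 2, 3, 5, 6, 7, 10, 11, 14, 15, 19, 21, 22, 30, 33, 35, 38, 42, 55, 57, 66, 70, 77, 95, 105, 110, 114, 133, 154, 165, 190, 209, 210, 231, 266, 285, 330, 385, 399, 418, 462, 570, 627, 665, 770, 798, 1045, 1155, 1254, 1330, 1463, 1995, 2090, 3135]} :=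
  Spec.spec_prod_eq _ Spc.SC.J1.spec_J1 s2 (by decide +kernel) (by decide +kernel)

theorem s4 : Spec.spec (Spor.J1 × Spor.J1 × Spor.J1 × Spor.J1) = {m | m ∈ [1, 2, 3, 5, 6, 7, 10, 11, 14, 15, 19, 21, 22, 30, 33, 35, 38, 42, 55, 57, 66, 70, 77, 95, 105, 110, 114, 133, 154, 165, 190, 209, 210, 231, 266, 285, 330, 385, 399, 418, 462, 570, 627, 665, 770, 798, 1045, 1155, 1254, 1330, 1463, 1995, 2090, 2310, 2926, 3135, 3990, 4389, 6270, 7315, 8778, 14630, 21945]} :=
  Spec.spec_prod_eq _ Spc.SC.J1.spec_J1 s3 (by decide +kernel) (by decide +kernel)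

theorem s5 : Spec.spec ((Spor.J1 × Spor.J1 × Spor.J1) × Equiv.Perm (Fin 3) × DihedralGroup 5) = {m | m ∈ [1, 2, 3, 5, 6, 7, 10, 11, 14, 15, 19, 21, 22, 30, 33, 35, 38, 42, 55, 57, 66, 70, 77, 95, 105, 110, 114, 133, 154, 165, 190, 209, 210, 231, 266, 285, 330, 385, 399, 418, 462, 570, 627, 665, 770, 798, 1045, 1155, 1254, 1330, 1463, 1995, 2090, 2310, 2926, 3135, 3990, 4389, 6270, 7315, 8778, 14630, 21945]} :=
  Spec.spec_prod_eq _ s3 sH (by decide +kernel) (by decide +kernel)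

theorem solv : Group.IsSolvable (Equiv.Perm (Fin 3) × DihedralGroup 5) := by
  have h1 : Group.IsSolvable (Equiv.Perm (Fin 3)) :=
    S0144.result 2 3 1 1 Nat.prime_two Nat.prime_three (by simp [Fintype.card_perm, Nat.factorial])
  have h2 : Group.IsSolvable (DihedralGroup 5) :=
    S0144.result 2 5 1 1 Nat.prime_two Nat.prime_five (by rw [DihedralGroup.nat_card]; norm_num)
  infer_instance

/-- Let J be the first Janko group. Then there are finite groups of arbitrarily large order with exactly the same set of element orders as J × J × J × J. -/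
theorem result (N : ℕ) : ∃ (H : Type) (_ : Group H) (_ : Fintype H), N < Fintype.card H ∧
      Set.range (orderOf : H → ℕ) = Set.range (orderOf : ↥Cfsg.Spor.J1 × ↥Cfsg.Spor.J1 × ↥Cfsg.Spor.J1 × ↥Cfsg.Spor.J1 → ℕ) := by
  have := Comp.J1.cardJ.1
  have := solv
  obtain ⟨H, _, _, h1, h2⟩ := Spec.unb_prod (G := Spor.J1 × Spor.J1 × Spor.J1)
    (⊤ : Subgroup (Equiv.Perm (Fin 3) × DihedralGroup 5)) top_ne_bot inferInstance N
  exact ⟨H, _, _, h1, (h2.trans s5).trans s4.symm⟩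

end Cfsg.Agent.S3627
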