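import Mathlib
import Cfsg.Statements.S3633
import Cfsg.Agent.S1475
import Cfsg.Agent.FGS.Super
import Cfsg.Agent.Core.Hall
-- import your own Cfsg.Agent.* helpers here

set_option autoImplicit false
open Cfsg

namespace Cfsg.Agent.S3633

open Subgroup in
theorem nsolv {G : Type*} [Group G] [Finite G] {p q r : ℕ} (hp : p.Prime) (hq : q.Prime) (hr : r.Prime)
    (hpq : p ≠ q) (hpr : p ≠ r) (hqr : q ≠ r) (h1 : p ∣ Nat.card G) (h2 : q ∣ Nat.card G)
    (h3 : r ∣ Nat.card G) (h4 : ∀ g : G, orderOf g ≠ p * q) (h5 : ∀ g : G, orderOf g ≠ p * r)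
    (h6 : ∀ g : G, orderOf g ≠ q * r) : ¬ Group.IsSolvable G := fun _ => by
  obtain ⟨H, hH⟩ := Core.exists_isPiHall (G := G) {p, q, r}
  have hd : ∀ s : ℕ, s.Prime → s ∈ ({p, q, r} : Set ℕ) → s ∣ Nat.card G → s ∣ Nat.card H :=
    fun s hs h7 h8 => by
      rw [← card_mul_index H] at h8
      exact ((Nat.Prime.dvd_mul hs).1 h8).resolve_right (hH.2 s hs h7)
  have hno : ∀ (g : G) (a b : ℕ), a.Prime → b.Prime → a ≠ b → a ∣ orderOf g → b ∣ orderOf g →
      ∃ g : G, orderOf g = a * b := fun g a b ha hb hab h7 h8 =>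
    ⟨_, orderOf_pow_orderOf_div (orderOf_pos g).ne'
      (((Nat.coprime_primes ha hb).2 hab).mul_dvd_of_dvd_of_dvd h7 h8)⟩
  have hE : ∀ g : H, IsPrimePow (orderOf g) ∨ g = 1 := fun g => or_iff_not_imp_right.2 fun hg => by
    have h7 : orderOf g ≠ 1 := fun h => hg (orderOf_eq_one_iff.1 h)
    refine isPrimePow_iff_unique_prime_dvd.2 ⟨_, ⟨Nat.minFac_prime h7, Nat.minFac_dvd _⟩,
      fun s hs => ?_⟩
    by_contra h8
    have h9 : ∀ a : ℕ, a.Prime → a ∣ orderOf g → a = p ∨ a = q ∨ a = r := fun a ha h9 =>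
      hH.1 a ha (h9.trans (orderOf_dvd_natCard g))
    obtain ⟨y, hy⟩ := hno g s _ hs.1 (Nat.minFac_prime h7) h8 (by rw [orderOf_coe]; exact hs.2)
      (by rw [orderOf_coe]; exact Nat.minFac_dvd _)
    have h10 := h4 y
    have h11 := h5 y
    have h12 := h6 y
    rw [hy] at h10 h11 h12
    rcases h9 s hs.1 hs.2 with h13 | h13 | h13 <;>
      rcases h9 _ (Nat.minFac_prime h7) (Nat.minFac_dvd _) with h14 | h14 | h14 <;>
      simp_all [mul_comm]
  refine absurd (S1475.result hE) (not_le.2 (Nat.lt_of_succ_le ?_))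
  rw [show Nat.succ 2 = ({p, q, r} : Finset ℕ).card from
    (Finset.card_eq_three.2 ⟨p, q, r, hpq, hpr, hqr, rfl⟩).symm]
  refine Finset.card_le_card fun s hs => ?_
  rw [Nat.mem_primeFactors_of_ne_zero Nat.card_pos.ne']
  simp only [Finset.mem_insert, Finset.mem_singleton] at hs
  rcases hs with rfl | rfl | rfl
  · exact ⟨hp, hd _ hp (by simp) h1⟩
  · exact ⟨hq, hd _ hq (by simp) h2⟩
  · exact ⟨hr, hd _ hr (by simp) h3⟩

/-- Let G be a finite group and ρ a set of at least three prime divisors of the order of G that are pairwise non-adjacent in the prime graph (no element of order rs for distinct r, s ∈ ρ). Then at most one prime of ρ divides the order of any given solvable normal subgroup of G; in particular G is not solvable. -/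
theorem result {G : Type*} [Group G] [Finite G] (ρ : Finset ℕ) (hρ : 3 ≤ ρ.card) (hc : ((∀ r ∈ ρ, r.Prime ∧ r ∣ Nat.card G) ∧ (∀ r ∈ ρ, ∀ s ∈ ρ, r ≠ s → ¬ ∃ x : G, orderOf x = r * s)))
    (K : Subgroup G) [K.Normal] (hK : Group.IsSolvable ↥K) :
    (∀ r ∈ ρ, ∀ s ∈ ρ, r ∣ Nat.card ↥K → s ∣ Nat.card ↥K → r = s) ∧ ¬ Group.IsSolvable G := by
  obtain ⟨h1, h2⟩ := hc
  constructor
  · intro r hr s hs hrK hsK
    by_contra hrs
    obtain ⟨t, ht, ht'⟩ : ∃ t ∈ ρ, t ∉ ({r, s} : Finset ℕ) :=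
      Finset.exists_mem_notMem_of_card_lt_card (lt_of_le_of_lt Finset.card_le_two hρ)
    simp only [Finset.mem_insert, Finset.mem_singleton, not_or] at ht'
    have := Fact.mk (h1 t ht).1
    obtain ⟨x, hx⟩ := exists_prime_orderOf_dvd_card' t (h1 t ht).2
    have hz : Group.IsSolvable (Subgroup.zpowers x) := by
      open scoped IsMulCommutative in infer_instance
    have key : ∀ a ∈ ρ, ∀ b ∈ ρ, a ≠ b → ∀ g : (K ⊔ Subgroup.zpowers x : Subgroup G),
        orderOf g ≠ a * b := fun a ha b hb hab g e =>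
      h2 a ha b hb hab ⟨g, by rw [Subgroup.orderOf_coe, e]⟩
    exact nsolv (h1 r hr).1 (h1 s hs).1 (h1 t ht).1 hrs (Ne.symm ht'.1) (Ne.symm ht'.2)
      (hrK.trans (Subgroup.card_dvd_of_le le_sup_left))
      (hsK.trans (Subgroup.card_dvd_of_le le_sup_left))
      (by rw [← hx, ← Nat.card_zpowers]; exact Subgroup.card_dvd_of_le le_sup_right)
      (key r hr s hs hrs) (key r hr t ht (Ne.symm ht'.1)) (key s hs t ht (Ne.symm ht'.2))
      (FGS.solvable_sup_of_normal hK hz)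
  · obtain ⟨r, s, t, hr, hs, ht, hrs, hrt, hst⟩ := Finset.two_lt_card_iff.1 hρ
    exact nsolv (h1 r hr).1 (h1 s hs).1 (h1 t ht).1 hrs hrt hst (h1 r hr).2 (h1 s hs).2 (h1 t ht).2
      (fun g e => h2 r hr s hs hrs ⟨g, e⟩) (fun g e => h2 r hr t ht hrt ⟨g, e⟩)
      (fun g e => h2 s hs t ht hst ⟨g, e⟩)

end Cfsg.Agent.S3633
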