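import Mathlib
import Cfsg.Statements.S3639
import Cfsg.Agent.RankOne.SzLie
import Cfsg.Agent.RankOne.SzSub
-- import your own Cfsg.Agent.* helpers here

set_option autoImplicit false
open Cfsg

namespace Cfsg.Agent.S3639

open RankOne RankOne.Sz in
theorem aux {G Ω F : Type*} [Group G] [MulAction G Ω] [Field F] [Fintype F] {m : ℕ} (Z : Model G Ω F m)
    (N : ℕ) : ∃ (H : Type) (_ : Group H) (_ : Fintype H), N < Fintype.card H ∧
      ((∀ r : ℕ, r.Prime → (r ∣ Nat.card G ↔ r ∣ Nat.card H)) ∧
      (∀ r s : ℕ, r.Prime → s.Prime → r ≠ s → ((∃ x : G, orderOf x = r * s) ↔ (∃ y : H, orderOf y = r * s)))) := by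
  have := Z.finite
  have := Z.charP
  let V := Multiplicative (Matrix (Fin 4) (Fin N) F)
  let φ : G →* MulAut V :=
    { toFun := fun g =>
        { toFun := fun A => Multiplicative.ofAdd (Z.ρ g * A.toAdd)
          invFun := fun A => Multiplicative.ofAdd (Z.ρ g⁻¹ * A.toAdd)
          left_inv := fun A => by simp [← Matrix.mul_assoc, ← map_mul]
          right_inv := fun A => by simp [← Matrix.mul_assoc, ← map_mul]
          map_mul' := fun A B => by simp [V, Matrix.mul_add] }
      map_one' := by ext A; simp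
      map_mul' := fun g h => by ext A; simp [Matrix.mul_assoc] }
  have hV : Nat.card V = Fintype.card F ^ (N * 4) := by
    change Nat.card (Fin 4 → Fin N → F) = _
    simp [← pow_mul]
  have hV2 : ∀ v : V, v * v = 1 := by
    intro v
    change v.toAdd + v.toAdd = 0
    ext i j
    simp only [Matrix.add_apply, Matrix.zero_apply]
    grind
  have hcard : Nat.card (V ⋊[φ] G) = Fintype.card F ^ (N * 4) * Nat.card G := by
    rw [SemidirectProduct.card, hV]
  have hfin : Finite (V ⋊[φ] G) := Nat.finite_of_card_ne_zero (by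
    rw [hcard]; exact mul_ne_zero (by positivity) Nat.card_pos.ne')
  have hsq : ∀ y : V ⋊[φ] G, y.right = 1 → y * y = 1 := by
    rintro ⟨v, g⟩ rfl
    ext <;> simp [hV2]
  have hodd : ∀ y : V ⋊[φ] G, Odd (orderOf y) → orderOf y.right = orderOf y := by
    intro y hy
    apply Nat.dvd_antisymm (orderOf_map_dvd SemidirectProduct.rightHom y)
    have h1 := hsq (y ^ orderOf y.right) (by
      change SemidirectProduct.rightHom (y ^ orderOf y.right) = 1
      rw [map_pow]; exact pow_orderOf_eq_one _)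
    rw [← sq, ← pow_mul, ← orderOf_dvd_iff_pow_eq_one] at h1
    exact (Nat.coprime_two_right.mpr hy).dvd_of_dvd_mul_right h1
  have hno : ∀ s : ℕ, s.Prime → s ≠ 2 → ∀ y : V ⋊[φ] G, orderOf y ≠ 2 * s := by
    intro s hs hs2 y hy
    have h1 : orderOf (y ^ 2) = s := by
      rw [orderOf_pow_of_dvd two_ne_zero (hy ▸ dvd_mul_right _ _), hy]; simp
    have h2 : orderOf (y ^ s) = 2 := by
      rw [orderOf_pow_of_dvd hs.ne_zero (hy ▸ dvd_mul_left _ _), hy, Nat.mul_div_cancel _ hs.pos]
    have hc : y ^ s * y ^ 2 = y ^ 2 * y ^ s := by rw [← pow_add, ← pow_add, add_comm]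
    generalize y ^ 2 = z at h1 hc
    generalize y ^ s = w at h2 hc
    have h3 := hodd z (h1 ▸ hs.odd_of_ne_two hs2)
    rw [h1] at h3
    have hz4 : z.right ^ 4 ≠ 1 := by
      intro h
      have : s ∣ 2 ^ 2 := h3 ▸ orderOf_dvd_of_pow_eq_one h
      exact hs2 ((Nat.prime_dvd_prime_iff_eq hs Nat.prime_two).mp (hs.dvd_of_dvd_pow this))
    have hw2 : w * w = 1 := by rw [← sq, ← h2, pow_orderOf_eq_one]
    have hw : w.right = 1 := by
      by_contra h
      have e1 : w.right * w.right = 1 := congrArg SemidirectProduct.right hw2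
      have e2 : w.right * z.right = z.right * w.right := congrArg SemidirectProduct.right hc
      obtain ⟨c, hc⟩ := Setup.exists_fix Z.setup e1
      obtain ⟨Y, rfl⟩ := Z.exists_model_one c
      exact hz4 (Y.pow_four_of_mem_Q (Y.mem_Q_of_comm (Setup.mem_Q_of_mul_self Y.setup hc e1) h e2.symm))
    have e3 := congrArg SemidirectProduct.left hc
    rw [SemidirectProduct.mul_left, SemidirectProduct.mul_left, hw, map_one, MulAut.one_apply,
      mul_comm, mul_right_inj] at e3
    have e4 : Z.ρ z.right * w.left.toAdd = w.left.toAdd := (congrArg Multiplicative.toAdd e3).symm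
    have e5 : w.left.toAdd = 0 := by
      ext i j
      by_contra h
      apply hz4
      apply Z.pow_four_of_fix_vec (v := fun k => w.left.toAdd k j) (fun h' => h (congrFun h' i))
      funext k
      exact congrFun (congrFun e4 k) j
    have : w = 1 := SemidirectProduct.ext e5 hw
    rw [this, orderOf_one] at h2
    omega
  have h8 := Z.eight_le_q
  refine ⟨Shrink.{0} (V ⋊[φ] G), inferInstance, Fintype.ofFinite _, ?_, ?_, ?_⟩
  · rw [← @Nat.card_eq_fintype_card _ (Fintype.ofFinite _), Nat.card_congr (equivShrink _).symm, hcard]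
    calc N ≤ N * 4 := by omega
      _ < Fintype.card F ^ (N * 4) := Nat.lt_pow_self (by omega)
      _ ≤ _ := Nat.le_mul_of_pos_right _ Nat.card_pos
  · intro r hr
    rw [Nat.card_congr (equivShrink _).symm, hcard]
    refine ⟨fun h => h.mul_left _, fun h => ?_⟩
    rcases (Nat.Prime.dvd_mul hr).mp h with h | h
    · rw [Z.card_G]
      exact (((hr.dvd_of_dvd_pow h).trans (dvd_pow_self _ two_ne_zero)).mul_right _).mul_right _
    · exact h
  · intro r s hr hs hrs
    constructor
    · rintro ⟨x, hx⟩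
      refine ⟨Shrink.mulEquiv.symm (SemidirectProduct.inr x : V ⋊[φ] G), ?_⟩
      rw [MulEquiv.orderOf_eq, orderOf_injective _ SemidirectProduct.inr_injective, hx]
    · rintro ⟨y, hy⟩
      rw [← Shrink.mulEquiv.orderOf_eq] at hy
      by_cases h1 : r = 2
      · subst h1; exact absurd hy (hno s hs hrs.symm _)
      by_cases h2 : s = 2
      · subst h2; exact absurd (hy.trans (mul_comm _ _)) (hno r hr hrs _)
      exact ⟨_, (hodd _ (hy ▸ (hr.odd_of_ne_two h1).mul (hs.odd_of_ne_two h2))).trans hy⟩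


/-- Let S be the Suzuki group over the field with q = 2^(2m+1) ≥ 8 elements. Then there are finite groups of arbitrarily large order with the same prime graph as S. -/
theorem result {F : Type*} [Field F] [Fintype F] {m : ℕ} (hm : 1 ≤ m) (hF : Fintype.card F = 2 ^ (2 * m + 1)) (N : ℕ) :
    ∃ (H : Type) (_ : Group H) (_ : Fintype H), N < Fintype.card H ∧ ((∀ r : ℕ, r.Prime → (r ∣ Nat.card ↥(Cfsg.Lie.Sz F (2 ^ (m + 1))) ↔ r ∣ Nat.card H)) ∧
      (∀ r s : ℕ, r.Prime → s.Prime → r ≠ s → ((∃ x : ↥(Cfsg.Lie.Sz F (2 ^ (m + 1))), orderOf x = r * s) ↔ (∃ y : H, orderOf y = r * s)))) := by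
  obtain ⟨_, ⟨Z⟩⟩ := RankOne.Sz.exists_model_lie hF hm
  exact aux Z N

end Cfsg.Agent.S3639
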