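import Mathlib
import Cfsg.Statements.S3670
import Cfsg.Agent.LeU.Agl
import Cfsg.Agent.LeU.U33.Irr
import Cfsg.Agent.LeU.U33.Iso

set_option autoImplicit false
open Cfsg

namespace Cfsg.Agent.S3670


/-- The character degree graph of a finite group has as vertices the primes dividing some irreducible complex character degree, two distinct primes being joined when their product divides some irreducible character degree; two groups have the same character degree graph when they have the same vertices and the same joined pairs. Let F be the field with 9 elements and L = PSU(3,3) realised over F (order 6048). There is a finite solvable group of order 6048 with the same character degree graph as L; so L is not determined by its order together with its character degree graph. -/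
theorem result {F : Type*} [Field F] [Fintype F] (hF : Fintype.card F = 9) :
    ∃ (H : Type) (_ : Group H) (_ : Fintype H), Group.IsSolvable H ∧ Nat.card H = 6048 ∧ Cfsg.degreePrimes H = Cfsg.degreePrimes (Cfsg.PSU 3 F 3) ∧ Cfsg.degreeGraph H = Cfsg.degreeGraph (Cfsg.PSU 3 F 3) := by
  obtain ⟨e⟩ := LeU.U33.exists_iso F hF
  have hf : Finite LeU.U33.G := LeU.U33.card.1
  have hf' : Finite (Cfsg.PSU 3 F 3) := Finite.of_equiv _ e.toEquiv
  have hc : Nat.card (Cfsg.PSU 3 F 3) = 6048 := by
    rw [← Nat.card_congr e.toEquiv]; exact LeU.U33.card.2.1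
  have hfull : LeU.Agl.Full (Cfsg.PSU 3 F 3) := by
    obtain ⟨a, ha, a1⟩ := LeU.U33.irr6
    obtain ⟨b, hb, b1⟩ := LeU.U33.irr14
    obtain ⟨c, hc, c1⟩ := LeU.U33.irr21
    exact ⟨⟨6, LeU.Agl.mem_degs (Char.isIrr_comp_equiv e.symm ha) (by simpa using a1), dvd_rfl⟩,
      ⟨14, LeU.Agl.mem_degs (Char.isIrr_comp_equiv e.symm hb) (by simpa using b1), dvd_rfl⟩,
      ⟨21, LeU.Agl.mem_degs (Char.isIrr_comp_equiv e.symm hc) (by simpa using c1), dvd_rfl⟩⟩
  have hH : Finite LeU.Agl.HH := Nat.finite_of_card_ne_zero (by rw [LeU.Agl.card_HH]; norm_num)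
  exact ⟨LeU.Agl.HH, inferInstance, Fintype.ofFinite _, LeU.Agl.solv_HH, LeU.Agl.card_HH,
    LeU.Agl.same LeU.Agl.card_HH LeU.Agl.full_HH hc hfull⟩

end Cfsg.Agent.S3670
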