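import Mathlib
import Cfsg.Statements.S3682
import Cfsg.Agent.Perm.TW

set_option autoImplicit false
open Cfsg

namespace Cfsg.Agent.S3682


/-- Wielandt's bound toward the Sims conjecture. Let a finite group G act faithfully and primitively on a set Ω, let a and b be points, and suppose the orbit of b under the stabilizer of a has length d ≥ 2. Then there are a prime p and a normal p-subgroup P of the stabilizer of a, all of whose elements fix b, such that the index of P in the stabilizer of a divides d! · ((d - 1)!)^d. -/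
theorem result {G Ω : Type*} [Group G] [Finite G] [MulAction G Ω] [FaithfulSMul G Ω] [Finite Ω]
    (hprim : MulAction.IsPreprimitive G Ω) (a b : Ω) (d : ℕ) (hd : Nat.card (MulAction.orbit (MulAction.stabilizer G a) b) = d) (h2 : 2 ≤ d) :
    ∃ p : ℕ, p.Prime ∧ ∃ P : Subgroup (MulAction.stabilizer G a), P.Normal ∧ IsPGroup p P ∧ (∀ g : P, ((g : MulAction.stabilizer G a) : G) • b = b) ∧
      P.index ∣ Nat.factorial d * (Nat.factorial (d - 1)) ^ d := by
  obtain ⟨h, h1⟩ := Perm.pp_stabilizer hd h2
  by_cases h3 : Perm.rc2 (MulAction.stabilizer G a) (MulAction.stabilizer G b) = ⊥ ∨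
      Perm.rc2 (MulAction.stabilizer G b) (MulAction.stabilizer G a) = ⊥
  · refine ⟨2, Nat.prime_two, ⊥, inferInstance, IsPGroup.of_bot, fun g => ?_, ?_⟩
    · rw [Subgroup.mem_bot.1 g.2]; exact one_smul ..
    · rw [Subgroup.index_bot]; exact h.card_dvd h1 h3
  · obtain ⟨p, hp, -, h4⟩ := h.tw (not_or.1 h3).1 (not_or.1 h3).2
    exact ⟨p, hp, _, Subgroup.normal_subgroupOf_of_le_normalizer (Perm.le_normalizer_rc2 _ _),
      LocalEven.isPGroup_subgroupOf h4, fun g => (Perm.rc2_le _ _ g.2).2, h.relIndex_rc2 h1⟩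

end Cfsg.Agent.S3682
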