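import Mathlib
import Cfsg.Statements.S3687
import Cfsg.Agent.H4J.KnB
-- import your own Cfsg.Agent.* helpers here

set_option autoImplicit false
open Cfsg

namespace Cfsg.Agent.S3687

open Subgroup MulAction Cfsg.Agent.H4J Cfsg.Agent.LocalEven Equiv in
theorem kr_ker {G Q : Type*} [Group G] [Group Q] {H : Subgroup G} (φ : H →* Q) :
    Kr H (φ.ker.map H.subtype) φ :=
  ⟨map_subtype_le _, fun _ => ⟨fun e => mem_map_of_mem _ e, fun ⟨_, hy, e⟩ => Subtype.ext e ▸ hy⟩⟩

open MulAction in
theorem card_orbit {G Ω : Type*} [Group G] [MulAction G Ω] (a b : Ω) :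
    Nat.card (orbit (stabilizer G a) b) =
      (stabilizer G a ⊓ stabilizer G b).relIndex (stabilizer G a) := by
  rw [Subgroup.inf_relIndex_left, Nat.card_coe_set_eq, ← index_stabilizer]
  rfl

open MulAction in
theorem stab_iff {G Ω : Type*} [Group G] [MulAction G Ω] (a b : Ω) (h : stabilizer G a) :
    toPermHom (stabilizer G a) (orbit (stabilizer G a) b) h ⟨b, mem_orbit_self b⟩ =
      ⟨b, mem_orbit_self b⟩ ↔ (h : G) ∈ stabilizer G b :=
  Subtype.ext_iff

/-- Let a finite group G act faithfully and primitively on a set Ω, let a and b be points such that the orbit Δ of b under the stabilizer H of a has d ≥ 6 elements, and suppose that the permutation group induced by H on Δ contains the alternating group of Δ (the image of H in the symmetric group of Δ has index at most 2) while H does not act faithfully on Δ. Then either H induces exactly the alternating group of Δ and H is isomorphic to the direct product of the alternating groups of degrees d and d - 1; or H induces the full symmetric group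 of Δ and H is isomorphic to one of: the direct product of the symmetric groups of degrees d and d - 1, the direct product of the symmetric group of degree d with the alternating group of degree d - 1, or the subgroup of the direct product of the symmetric groups of degrees d and d - 1 consisting of the pairs of permutations with equal signs. -/
theorem result {G Ω : Type*} [Group G] [Finite G] [MulAction G Ω] [FaithfulSMul G Ω] [Finite Ω]
    (hprim : MulAction.IsPreprimitive G Ω) (a b : Ω) (d : ℕ) (hd : Nat.card (MulAction.orbit (MulAction.stabilizer G a) b) = d) (h6 : 6 ≤ d)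
    (halt : (MulAction.toPermHom (MulAction.stabilizer G a) (MulAction.orbit (MulAction.stabilizer G a) b)).range.index ≤ 2)
    (hunf : ¬ Function.Injective (MulAction.toPermHom (MulAction.stabilizer G a) (MulAction.orbit (MulAction.stabilizer G a) b))) :
    ((MulAction.toPermHom (MulAction.stabilizer G a) (MulAction.orbit (MulAction.stabilizer G a) b)).range.index = 2 ∧
      Nonempty (MulAction.stabilizer G a ≃* alternatingGroup (Fin d) × alternatingGroup (Fin (d - 1)))) ∨
    ((MulAction.toPermHom (MulAction.stabilizer G a) (MulAction.orbit (MulAction.stabilizer G a) b)).range = ⊤ ∧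
      (Nonempty (MulAction.stabilizer G a ≃* Equiv.Perm (Fin d) × Equiv.Perm (Fin (d - 1))) ∨
       Nonempty (MulAction.stabilizer G a ≃* Equiv.Perm (Fin d) × alternatingGroup (Fin (d - 1))) ∨
       Nonempty (MulAction.stabilizer G a ≃* ((Equiv.Perm.sign.comp (MonoidHom.fst (Equiv.Perm (Fin d)) (Equiv.Perm (Fin (d - 1))))) *
         (Equiv.Perm.sign.comp (MonoidHom.snd (Equiv.Perm (Fin d)) (Equiv.Perm (Fin (d - 1)))))).ker))) := by
  classical
  obtain ⟨hpp, hi⟩ := Perm.pp_stabilizer hd (by omega)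
  set H := MulAction.stabilizer G a with hH
  set H' := MulAction.stabilizer G b with hH'
  set φ := MulAction.toPermHom H (MulAction.orbit H b) with hφ
  let ψ := MulAction.toPermHom H' (MulAction.orbit H' a)
  letI : Fintype (MulAction.orbit H b) := Fintype.ofFinite _
  letI : Fintype (MulAction.orbit H' a) := Fintype.ofFinite _
  have hd' : Nat.card (MulAction.orbit H' a) = d := (card_orbit b a).trans (hpp.relIndex_eq.trans hi)
  have hl : H4J.Pt H (H ⊓ H') (φ.ker.map H.subtype) φ ⟨b, MulAction.mem_orbit_self b⟩ :=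
    ⟨⟨kr_ker φ, by omega, Equiv.Perm.alternatingGroup_le_of_index_le_two halt⟩, by omega, inf_le_left,
      fun h => (stab_iff a b h).trans ⟨fun e => ⟨h.2, e⟩, fun e => e.2⟩⟩
  have hst : ∀ h : H', ψ h ⟨a, MulAction.mem_orbit_self a⟩ = ⟨a, MulAction.mem_orbit_self a⟩ ↔
      (h : G) ∈ H ⊓ H' := fun h => (stab_iff b a h).trans ⟨fun e => ⟨e, h.2⟩, fun e => e.1⟩
  have hr : H4J.Pt H' (H ⊓ H') (ψ.ker.map H'.subtype) ψ ⟨a, MulAction.mem_orbit_self a⟩ := by
    refine ⟨⟨kr_ker ψ, by omega, Equiv.Perm.alternatingGroup_le_of_index_le_two ?_⟩, by omega,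
      inf_le_right, hst⟩
    obtain ⟨g, hg⟩ := hpp.conj
    have hg' : H = LocalEven.cj g⁻¹ H' := LocalEven.cj_eq_iff.1 hg
    have h1 := hl.toLc.step1 (B := H ⊓ H') (A₂ := LocalEven.cj g⁻¹ (ψ.ker.map H'.subtype)) (k := g⁻¹)
      inf_le_left hl.relIndex_lt (hg'.ge.trans' (LocalEven.cj_mono _ inf_le_right))
      (LocalEven.cj_mono _ (by
        rintro _ ⟨x, hx, rfl⟩
        exact (hst x).1 (by rw [MonoidHom.mem_ker.1 hx]; rfl)))
      (by rw [← LocalEven.cj_normalizer]; exact hg'.le.trans (LocalEven.cj_mono _ (kr_ker ψ).norm))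
    have h2 : (LocalEven.cj g⁻¹ (ψ.ker.map H'.subtype)).relIndex H = Nat.card ψ.range := by
      rw [← H4J.Kr.im_self, (kr_ker ψ).card_im le_rfl, ← LocalEven.relIndex_cj g⁻¹ _ H', ← hg']
    have h3 := ψ.range.index_mul_card
    have h4 := H4J.two_mul_alt hl.five
    rw [Nat.card_perm, hd', ← hd, ← h4] at h3
    rw [h2] at h1
    have h5 : 0 < Nat.card ψ.range := Nat.card_pos
    by_contra h6
    have : 3 * Nat.card ψ.range ≤ ψ.range.index * Nat.card ψ.range :=
      Nat.mul_le_mul_right _ (by omega)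
    omega
  have hk : H4J.Kn H H' (H ⊓ H') _ _ φ _ ψ _ := ⟨hpp, hl, hr, hd.trans hd'.symm⟩
  obtain ⟨χ, c1, c2, c3, c4⟩ := hk.exists_chi fun e => hunf ((MonoidHom.ker_eq_bot_iff φ).1
    ((Subgroup.map_eq_bot_iff_of_injective _ H.subtype_injective).1 e))
  let e₁ : MulAction.orbit H b ≃ Fin d := Finite.equivFinOfCardEq hd
  let e₂ : {y : MulAction.orbit H' a // y ≠ ⟨a, MulAction.mem_orbit_self a⟩} ≃ Fin (d - 1) :=
    Finite.equivFinOfCardEq (hr.card_res.trans (by rw [hd']))
  have s1 : ∀ x, Equiv.Perm.sign ((e₁.permCongrHom.toMonoidHom.comp φ) x) = Equiv.Perm.sign (φ x) :=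
    fun x => Equiv.Perm.sign_permCongr e₁ _
  have s2 : ∀ x, Equiv.Perm.sign ((e₂.permCongrHom.toMonoidHom.comp χ) x) = Equiv.Perm.sign (χ x) :=
    fun x => Equiv.Perm.sign_permCongr e₂ _
  obtain ⟨k1, k2⟩ := H4J.classify (e₁.permCongrHom.toMonoidHom.comp φ)
    (e₂.permCongrHom.toMonoidHom.comp χ)
    (fun x h1 h2 => c1 x (e₁.permCongrHom.map_eq_one_iff.1 h1) (e₂.permCongrHom.map_eq_one_iff.1 h2))
    (fun σ hσ => by
      obtain ⟨x, h1, h2⟩ := c2 (e₁.permCongrHom.symm σ) (by
        rw [Equiv.Perm.mem_alternatingGroup, ← Equiv.Perm.sign_permCongr e₁]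
        exact (congrArg _ (e₁.permCongrHom.apply_symm_apply σ)).trans hσ)
      exact ⟨x, (congrArg e₁.permCongrHom h1).trans (e₁.permCongrHom.apply_symm_apply σ),
        (congrArg e₂.permCongrHom h2).trans (map_one _)⟩)
    (fun σ hσ => by
      obtain ⟨x, h1, h2⟩ := c3 (e₂.permCongrHom.symm σ) (by
        rw [Equiv.Perm.mem_alternatingGroup, ← Equiv.Perm.sign_permCongr e₂]
        exact (congrArg _ (e₂.permCongrHom.apply_symm_apply σ)).trans hσ)
      exact ⟨x, (congrArg e₁.permCongrHom h1).trans (map_one _),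
        (congrArg e₂.permCongrHom h2).trans (e₂.permCongrHom.apply_symm_apply σ)⟩)
  have h0 : φ.range.index ≠ 0 := Subgroup.index_ne_zero_of_finite
  rcases (by omega : φ.range.index = 2 ∨ φ.range.index = 1) with h2 | h2
  · have h3 := Equiv.Perm.eq_alternatingGroup_of_index_eq_two h2
    refine Or.inl ⟨h2, k1 (fun x => (s1 x).trans (Equiv.Perm.mem_alternatingGroup.1 ?_))
      fun x => (s2 x).trans (c4 h3 x)⟩
    rw [← h3]
    exact ⟨x, rfl⟩
  · have h3 := Subgroup.index_eq_one.1 h2
    refine Or.inr ⟨h3, k2 ?_⟩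
    haveI : Nontrivial (MulAction.orbit H b) := Finite.one_lt_card_iff_nontrivial.1 (by omega)
    obtain ⟨σ, hσ⟩ := Equiv.Perm.sign_surjective (MulAction.orbit H b) (-1)
    obtain ⟨x, rfl⟩ := h3.ge (Subgroup.mem_top σ)
    exact ⟨x, (s1 x).trans hσ⟩

end Cfsg.Agent.S3687
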