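import Mathlib
import Cfsg.Statements.S3693
import Cfsg.Agent.Perm.TW

set_option autoImplicit false
open Cfsg

namespace Cfsg.Agent.S3693

open Subgroup LocalEven Perm in
theorem aux {G : Type*} [Group G] [Finite G] {H K : Subgroup G} (h : PP H K) {p : ℕ} [Fact p.Prime]
    (h1 : pCoreOf p (H ⊓ K) ≤ rc H (H ⊓ K)) : pCoreOf p (H ⊓ K) = ⊥ := by_contra fun h2 => by
  have h3 : pCoreOf p (H ⊓ K) = pCoreOf p (rc H (H ⊓ K)) := le_antisymm
    (le_pCoreOf h1 ((rc_le _ _).trans (le_normalizer_pCoreOf _)) (isPGroup_pCoreOf _))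
    (pCoreOf_le_of_le_normalizer (rc_le _ _) (inf_le_left.trans (le_normalizer_rc _ _)))
  have h4 : H ≤ normalizer (pCoreOf p (H ⊓ K) : Set G) :=
    h3 ▸ (le_normalizer_rc _ _).trans (normalizer_le_normalizer_pCoreOf _)
  have h5 := le_pCoreOf ((pCoreOf_le _).trans inf_le_left) h4 (isPGroup_pCoreOf _)
  have h6 := ((pCoreOf_le (p := p) (H ⊓ K)).trans inf_le_right).trans
    (le_normalizer_pCoreOf (p := p) K)
  have h7 := isPGroup_sup (isPGroup_pCoreOf _) (isPGroup_pCoreOf K) h6
  refine h.symm.core_ne_bot.mt (not_not.2 ?_) (h.core_ne_bot fun h8 => h2 (eq_bot_iff.2 (h8 ▸ h5)))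
  refine by_contra fun h8 => h.core_ne_bot h8 (h.symm.bot_of_le (le_trans (by_contra fun h9 => ?_) h5))
  refine (lt_inf_normalizer h7 (left_lt_sup.2 h9)).not_ge
    ((inf_le_inf_left _ (h.nH _ h2 ((pCoreOf_le _).trans inf_le_left) h4)).trans ?_)
  rw [inf_sup_of_le_normalizer h6 ((pCoreOf_le _).trans inf_le_left)]
  exact sup_le le_rfl ((le_inf inf_le_left (le_inf inf_le_right
    (inf_le_left.trans (pCoreOf_le K)))).trans (pCoreOf_inf_le inf_le_right))


/-- Let a finite group G act faithfully and primitively on a set Ω, let a and b be points such that the orbit Δ of b under the stabilizer H of a has length d ≥ 2, and consider the permutation group induced on Δ by the elements of H fixing b. If that induced group has trivial Fitting subgroup (no non-trivial nilpotent normal subgroup), then the two-point stabilizer of a and b has trivial Fitting subgroup and the order of H divides d! · ((d - 1)!)^d. -/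
theorem result {G Ω : Type*} [Group G] [Finite G] [MulAction G Ω] [FaithfulSMul G Ω] [Finite Ω]
    (hprim : MulAction.IsPreprimitive G Ω) (a b : Ω) (d : ℕ) (hd : Nat.card (MulAction.orbit (MulAction.stabilizer G a) b) = d) (h2 : 2 ≤ d)
    (hF : Cfsg.fittingSubgroup ↥(((MulAction.stabilizer G b).subgroupOf (MulAction.stabilizer G a)).map (MulAction.toPermHom (MulAction.stabilizer G a) (MulAction.orbit (MulAction.stabilizer G a) b))) = ⊥) :
    Cfsg.fittingSubgroup ↥(MulAction.stabilizer G a ⊓ MulAction.stabilizer G b) = ⊥ ∧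
      Nat.card (MulAction.stabilizer G a) ∣ Nat.factorial d * (Nat.factorial (d - 1)) ^ d := by
  obtain ⟨h, h1⟩ := Perm.pp_stabilizer hd h2
  have h3 : ∀ p : ℕ, p.Prime →
      pCoreOf p (MulAction.stabilizer G a ⊓ MulAction.stabilizer G b) = ⊥ := fun p hp => by
    have := Fact.mk hp
    refine aux h fun x hx => Perm.mem_rc.2 fun g hg => ?_
    have hx' := LocalEven.pCoreOf_le _ hx
    have h4 := LocalEven.map_pCoreOf_le (p := p) (MulAction.toPermHom (MulAction.stabilizer G a)
      (MulAction.orbit (MulAction.stabilizer G a) b))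
      ((MulAction.stabilizer G b).subgroupOf (MulAction.stabilizer G a))
    replace h4 := h4.trans (LocalEven.pCoreOf_eq_bot_iff.2
      (eq_bot_iff.2 ((Core.pCore_le_fitting p).trans hF.le))).le
    rw [← Subgroup.inf_subgroupOf_left, LocalEven.pCoreOf_subgroupOf_eq inf_le_left] at h4
    have h5 := congrArg (fun σ => (σ ⟨g • b, ⟨g, hg⟩, rfl⟩ : Ω))
      (Subgroup.mem_bot.1 (h4 ⟨⟨x, hx'.1⟩, hx, rfl⟩))
    refine Subgroup.mem_inf.2 ⟨mul_mem (mul_mem (inv_mem hg) (Subgroup.mem_inf.1 hx').1) hg, ?_⟩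
    rw [MulAction.mem_stabilizer_iff, mul_smul, mul_smul, inv_smul_eq_iff]
    exact h5
  refine ⟨?_, h.card_dvd h1 (by_contra fun h4 => ?_)⟩
  · rw [Core.fitting_eq_iSup_pCore, iSup_eq_bot]
    exact fun p => LocalEven.pCoreOf_eq_bot_iff.1 (h3 p p.2)
  · obtain ⟨p, hp, -, h5⟩ := h.tw (not_or.1 h4).1 (not_or.1 h4).2
    exact (not_or.1 h4).1 (eq_bot_iff.2 (h3 p hp ▸ LocalEven.le_pCoreOf (Perm.rc2_le _ _)
      (inf_le_left.trans (Perm.le_normalizer_rc2 _ _)) h5))

end Cfsg.Agent.S3693
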