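import Mathlib
import Cfsg.Statements.S3696

set_option autoImplicit false
open Cfsg

namespace Cfsg.Agent.S3696

open Subgroup MulAction
open scoped IsMulCommutative

theorem amgm (a c t j : ℕ) (h : a * j ^ j ≤ t ^ j) : a * c * (j + 1) ^ (j + 1) ≤ (c + t) ^ (j + 1) := by
  rcases Nat.eq_zero_or_pos j with rfl | hj
  · simp at h ⊢; nlinarith
  rcases Nat.eq_zero_or_pos t with rfl | ht
  · have : a = 0 := by simpa [hj.ne'] using h
    simp [this]
  have hj' : (0 : ℝ) < j := by exact_mod_cast hj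
  have ht' : (0 : ℝ) < t := by exact_mod_cast ht
  have h1 := one_add_mul_le_pow (a := (j * (c + t) / ((j + 1) * t) - 1 : ℝ))
    (by have : (0 : ℝ) ≤ j * (c + t) / ((j + 1) * t) := by positivity
        linarith) (j + 1)
  have h2 : (1 : ℝ) + ((j + 1 : ℕ) : ℝ) * (j * (c + t) / ((j + 1) * t) - 1) = j * c / t := by
    push_cast; field_simp; ring
  rw [h2, add_sub_cancel, div_pow, div_le_div_iff₀ ht' (by positivity), mul_pow, mul_pow] at h1
  have h3 : (a : ℝ) * j ^ j ≤ t ^ j := by exact_mod_cast h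
  have h4 : (a : ℝ) * c * (j + 1) ^ (j + 1) ≤ (c + t) ^ (j + 1) := by
    refine le_of_mul_le_mul_left ?_ (show (0 : ℝ) < j ^ (j + 1) * t by positivity)
    calc _ = (a * j ^ j) * (j * c * (j + 1) ^ (j + 1) * t : ℝ) := by ring
      _ ≤ t ^ j * (j * c * (j + 1) ^ (j + 1) * t : ℝ) := by gcongr
      _ = j * c * ((j + 1) ^ (j + 1) * t ^ (j + 1)) := by ring
      _ ≤ _ := h1.trans_eq (by ring)
  exact_mod_cast h4

theorem main {G Ω : Type*} [CommGroup G] [Finite G] [Finite Ω] [MulAction G Ω] {p : ℕ} (hp : p.Prime) (k : ℕ) :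
    ∀ (A : Subgroup G) (S : Set Ω), IsPGroup p A → (∀ a ∈ A, ∀ x ∈ S, a • x ∈ S) →
      (∀ a ∈ A, (∀ x ∈ S, a • x = x) → a = 1) → Nat.card ↥(A ⊓ (powMonoidHom p).ker) = p ^ k →
      Nat.card A * k ^ k ≤ S.ncard ^ k := by
  haveI := Fact.mk hp
  induction k with
  | zero =>
    intro A S hA _ _ h
    by_contra hc
    obtain ⟨x, hx⟩ := exists_prime_orderOf_dvd_card' p (hA.card_eq_or_dvd.resolve_left fun e => by simp [e] at hc)
    have : x.1 ∈ A ⊓ (powMonoidHom p).ker := ⟨x.2, by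
      rw [← hx]; exact congrArg Subtype.val (pow_orderOf_eq_one x)⟩
    rw [card_eq_one.1 h, mem_bot] at this
    rw [show x = 1 from Subtype.ext this, orderOf_one] at hx
    exact hp.ne_one hx.symm
  | succ k ih =>
    intro A S hA hinv hf h
    obtain ⟨⟨z, hzA, hz⟩, hz1⟩ := ne_bot_iff_exists_ne_one.1 ((one_lt_card_iff_ne_bot _).1
      (h ▸ Nat.one_lt_pow k.succ_ne_zero hp.one_lt))
    obtain ⟨x, hxS, hx⟩ : ∃ x ∈ S, z • x ≠ x := by
      by_contra hc
      push Not at hc
      exact hz1 (Subtype.ext (hf z hzA hc))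
    obtain ⟨χ, hχ⟩ := CommGroup.exists_apply_ne_one_of_hasEnoughRootsOfUnity (G ⧸ stabilizer G x) ℂ (a := z)
      (fun e => hx ((QuotientGroup.eq_one_iff z).1 e))
    set ψ := χ.comp (QuotientGroup.mk' _)
    set K := A ⊓ ψ.ker with hK
    have hst : stabilizer G x ≤ ψ.ker := fun g hg => by
      show χ (g : G ⧸ stabilizer G x) = 1
      rw [(QuotientGroup.eq_one_iff g).2 hg, map_one]
    have h1 : Nat.card ↥(K ⊓ (powMonoidHom p).ker) = p ^ k := by
      set E := A ⊓ (powMonoidHom p : G →* G).ker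
      have h2 := (ψ.ker.subgroupOf E).card_mul_index
      have h3 : (ψ.ker.subgroupOf E).index = p := by
        have h4 : (ψ.comp E.subtype).range ≤ rootsOfUnity p ℂ := by
          rintro _ ⟨y, rfl⟩
          show ψ y ^ p = 1
          rw [← map_pow, show y.1 ^ p = 1 from y.2.2, map_one]
        have h5 := (card_le_of_le h4).trans (card_rootsOfUnity ℂ p)
        rw [← index_ker] at h5
        change (ψ.ker.subgroupOf E).index ≤ p at h5
        have h6 := ((hA.to_le (inf_le_left : E ≤ A)).index (ψ.ker.subgroupOf E))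
        obtain ⟨_ | j, hj⟩ := h6
        · exact absurd (show (⟨z, hzA, hz⟩ : E) ∈ ψ.ker.subgroupOf E from index_eq_one.1 hj ▸ mem_top _) hχ
        · exact le_antisymm h5 (Nat.le_of_dvd (hj ▸ pow_pos hp.pos _) (hj ▸ dvd_pow_self p j.succ_ne_zero))
      rw [h3, h, pow_succ, ← inf_subgroupOf_right, Nat.card_congr (subgroupOfEquivOfLe inf_le_right).toEquiv] at h2
      rw [show K ⊓ (powMonoidHom p).ker = ψ.ker ⊓ E by rw [hK, inf_comm A, inf_assoc]]
      exact Nat.eq_of_mul_eq_mul_right hp.pos h2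
    have hKA : K ≤ A := inf_le_left
    have hO : orbit A x ⊆ S := by rintro _ ⟨a, rfl⟩; exact hinv a a.2 x hxS
    have hO2 : orbit K x ⊆ orbit A x := by rintro _ ⟨a, rfl⟩; exact ⟨⟨a, hKA a.2⟩, rfl⟩
    have hc1 : Nat.card K * K.relIndex A = Nat.card A := by
      rw [← Nat.card_congr (subgroupOfEquivOfLe hKA).toEquiv]; exact card_mul_index _
    have hc2 : (orbit K x).ncard * K.relIndex A = (orbit A x).ncard := by
      rw [← index_stabilizer, ← index_stabilizer]
      have := relIndex_mul_relIndex (stabilizer G x ⊓ A) K A (le_inf inf_le_right (inf_le_left.trans hst)) hKA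
      rw [inf_relIndex_right, ← inf_relIndex_right _ K, inf_assoc, inf_eq_right.2 hKA, inf_relIndex_right] at this
      exact this
    have hc3 : 2 ≤ K.relIndex A := by
      have h2 : K.relIndex A ≠ 1 := fun e => hχ (relIndex_eq_one.1 e hzA).2
      have h3 : K.relIndex A ≠ 0 := index_ne_zero_of_finite
      omega
    have fix : ∀ a ∈ A, a • x = x → ∀ y ∈ orbit A x, a • y = y := by
      rintro a - ha _ ⟨b, rfl⟩
      show a • (b.1 • x) = b.1 • x
      rw [smul_comm, ha]
    have hinvO : ∀ a ∈ K, ∀ y ∈ S \ orbit A x, a • y ∈ S \ orbit A x := fun a ha y hy =>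
      ⟨hinv a (hKA ha) y hy.1, fun h => hy.2 (by
        simpa [Subgroup.smul_def] using mapsTo_smul_orbit (⟨a, hKA ha⟩ : A)⁻¹ x h)⟩
    have hd := Set.ncard_diff_add_ncard_of_subset hO
    rw [← hc1]
    by_cases h2 : (orbit K x).ncard = 1
    · refine (amgm _ _ _ _ (ih K (S \ orbit A x) (hA.to_le hKA) hinvO (fun a ha h3 => hf a (hKA ha) fun y hy => ?_)
        h1)).trans (Nat.pow_le_pow_left (by rw [h2] at hc2; omega) _)
      by_cases h4 : y ∈ orbit A x
      · obtain ⟨w, hw⟩ := Set.ncard_eq_one.1 h2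
        exact fix a (hKA ha) (((hw ▸ mem_orbit x (⟨a, ha⟩ : K) : _ ∈ ({w} : Set Ω)).trans
          (hw ▸ mem_orbit_self x : x ∈ ({w} : Set Ω)).symm)) y h4
      · exact h3 y ⟨hy, h4⟩
    · refine (amgm _ _ _ _ (ih K (S \ orbit A x ∪ orbit K x) (hA.to_le hKA) (fun a ha y hy => ?_)
        (fun a ha h3 => hf a (hKA ha) fun y hy => ?_) h1)).trans (Nat.pow_le_pow_left ?_ _)
      · exact hy.imp (hinvO a ha y) fun h => mapsTo_smul_orbit (⟨a, ha⟩ : K) x h
      · by_cases h4 : y ∈ orbit A x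
        · exact fix a (hKA ha) (h3 x (Or.inr (mem_orbit_self x))) y h4
        · exact h3 y (Or.inl ⟨hy, h4⟩)
      · have h3 := Set.ncard_union_le (S \ orbit A x) (orbit K x)
        have h4 : 0 < (orbit K x).ncard := (Set.ncard_pos (Set.toFinite _)).2 ⟨x, mem_orbit_self x⟩
        have h5 : 2 ≤ (orbit K x).ncard := by omega
        nlinarith


/-- Let p be a prime, Ω a finite set with n ≥ p elements, and A an abelian p-subgroup of the symmetric group on Ω whose elements of order dividing p number p^k (so k is the rank of A). Then |A| · k^k ≤ n^k, that is, |A| ≤ (n/k)^k. -/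
theorem result {Ω : Type*} [Fintype Ω] [DecidableEq Ω]
    (p : ℕ) (hp : p.Prime) (hn : p ≤ Fintype.card Ω) (A : Subgroup (Equiv.Perm Ω)) (hA : IsPGroup p A) (hab : IsMulCommutative A)
    (k : ℕ) (hk : Nat.card {x : A // x ^ p = 1} = p ^ k) :
    Nat.card A * k ^ k ≤ Fintype.card Ω ^ k := by
  have := main (G := A) (Ω := Ω) hp k ⊤ Set.univ (hA.to_subgroup _) (fun _ _ _ _ => trivial)
    (fun a _ h => Subtype.ext (Equiv.ext fun x => h x trivial)) (by rw [top_inf_eq]; exact hk)
  simpa using this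

end Cfsg.Agent.S3696
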