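import Mathlib
import Cfsg.Statements.S3702
import Cfsg.Agent.Inv.A9N5
import Cfsg.Agent.Comp2.Cores

set_option autoImplicit false
open Cfsg

namespace Cfsg.Agent.S3702

open Subgroup Equiv Cfsg.Agent.A9N

def gx : Perm (Fin 9) := Equiv.swap (0 : Fin 9) 1 * Equiv.swap 1 2
def gy : Perm (Fin 9) := Equiv.swap (3 : Fin 9) 4 * Equiv.swap 4 5
def gz : Perm (Fin 9) := Equiv.swap (6 : Fin 9) 7 * Equiv.swap 7 8
def g2 : Perm (Fin 9) := Equiv.swap (0 : Fin 9) 3 * Equiv.swap 3 6 * (Equiv.swap (1 : Fin 9) 4 * Equiv.swap 4 7) * (Equiv.swap (2 : Fin 9) 5 * Equiv.swap 5 8)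
def g3 : Perm (Fin 9) := Equiv.swap (0 : Fin 9) 1 * Equiv.swap 3 4
def g5 : Perm (Fin 9) := Equiv.swap (3 : Fin 9) 4 * Equiv.swap 6 7
def g4 : Perm (Fin 9) := Equiv.swap (0 : Fin 9) 3 * Equiv.swap 1 4 * Equiv.swap 2 5 * Equiv.swap 6 7

def t (a : V) : Perm (Fin 9) := gx ^ a.1.1 * gy ^ a.2.1.1 * gz ^ a.2.2.1
def q (m : Fin 24) : Perm (Fin 9) :=
  g3 ^ (m.1 % 2) * g5 ^ (m.1 / 2 % 2) * g2 ^ (m.1 / 4 % 3) * g4 ^ (m.1 / 12)
def e (x : M) : Perm (Fin 9) := t x.1 * q x.2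

theorem t_add : ∀ a b, t (a + b) = t a * t b := by decide +kernel
theorem q_mul : ∀ m n, q (mul m n) = q m * q n := by decide +kernel
theorem q_t : ∀ m a, q m * t a = t (act m a) * q m := by decide +kernel
theorem e_one : ∀ x, e x = 1 → x = (0, 0) := by decide +kernel
theorem mul_inv : ∀ m, ∃ n, mul n m = 0 := by decide +kernel
theorem mul_can : ∀ n m m', mul n m = mul n m' → m = m' := by decide +kernel
theorem gens : e (0, 0) = 1 ∧ gx = e ((1, 0, 0), 0) ∧ g2 = e (0, 4) ∧ g3 = e (0, 1) ∧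
    g4 = e (0, 12) ∧ gy = g2 * gx * g2⁻¹ ∧ gz = g2 * gy * g2⁻¹ ∧ g5 = g2 * g3 * g2⁻¹ := by
  decide +kernel
theorem two : ∀ m ≠ 0, ∃ n, ∀ m', mul m' n = mul n m →
    mul m m' ≠ 0 ∧ mul (mul m m') (mul m m') = 0 := by decide +kernel

theorem e_mul (x y : M) : e (mm x y) = e x * e y := by
  rw [e, e, e, mm, t_add, q_mul, mul_assoc, mul_assoc, ← mul_assoc (q x.2), q_t, mul_assoc]

theorem e_inj : Function.Injective e := by
  rintro ⟨a, m⟩ ⟨b, k⟩ h
  obtain ⟨n, hn⟩ := mul_inv m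
  have h1 : mm (-act n a, n) (a, m) = (0, 0) := by simp [mm, hn]
  have h2 := e_one (mm (-act n a, n) (b, k)) (by rw [e_mul, ← h, ← e_mul, h1, gens.1])
  rw [← h1] at h2
  simp only [mm, Prod.mk.injEq, add_right_inj] at h2
  rw [act_inj _ _ _ h2.1, mul_can _ _ _ h2.2]

theorem mem_e {x : Perm (Fin 9)} (hx : x ∈ Subgroup.closure ({gx, g2, g3, g4} : Set _)) :
    ∃ p, e p = x := by
  rw [← mem_toSubmonoid, Subgroup.closure_toSubmonoid_of_finite] at hx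
  induction hx using Submonoid.closure_induction_left with
  | one => exact ⟨_, gens.1⟩
  | mul_left s hs y _ ih =>
    obtain ⟨p, rfl⟩ := ih
    obtain ⟨-, h1, h2, h3, h4, -⟩ := gens
    rcases hs with rfl | rfl | rfl | rfl
    · exact ⟨mm ((1, 0, 0), 0) p, by rw [e_mul, ← h1]⟩
    · exact ⟨mm (0, 4) p, by rw [e_mul, ← h2]⟩
    · exact ⟨mm (0, 1) p, by rw [e_mul, ← h3]⟩
    · exact ⟨mm (0, 12) p, by rw [e_mul, ← h4]⟩

theorem e_mem (p : M) : e p ∈ Subgroup.closure ({gx, g2, g3, g4} : Set _) := by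
  obtain ⟨-, -, -, -, -, h1, h2, h3⟩ := gens
  have m1 : gx ∈ Subgroup.closure ({gx, g2, g3, g4} : Set _) := subset_closure (by simp)
  have m2 : g2 ∈ Subgroup.closure ({gx, g2, g3, g4} : Set _) := subset_closure (by simp)
  have m3 : g3 ∈ Subgroup.closure ({gx, g2, g3, g4} : Set _) := subset_closure (by simp)
  have m4 : g4 ∈ Subgroup.closure ({gx, g2, g3, g4} : Set _) := subset_closure (by simp)
  have m5 := h1 ▸ mul_mem (mul_mem m2 m1) (inv_mem m2)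
  have m6 := h2 ▸ mul_mem (mul_mem m2 m5) (inv_mem m2)
  have m7 := h3 ▸ mul_mem (mul_mem m2 m3) (inv_mem m2)
  exact mul_mem (mul_mem (mul_mem (pow_mem m1 _) (pow_mem m5 _)) (pow_mem m6 _))
    (mul_mem (mul_mem (mul_mem (pow_mem m3 _) (pow_mem m7 _)) (pow_mem m2 _)) (pow_mem m4 _))

theorem core {G : Type*} [Group G] [Finite G] {H : Subgroup G} {E : M → G}
    (inj : Function.Injective E) (hm : ∀ x y, E (mm x y) = E x * E y)
    (mem : ∀ g, g ∈ H ↔ ∃ x, E x = g) (g : G) :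
    g ∈ (Cfsg.pCore 3 H).map H.subtype ↔ ∃ a, E (a, 0) = g := by
  let f : Multiplicative V →* G :=
    MonoidHom.mk' (fun a => E (a.toAdd, 0)) fun a b => by rw [← hm, mm_J]; rfl
  have hf : ∀ g, g ∈ f.range ↔ ∃ a, E (a, 0) = g := fun g => Iff.rfl
  have hp : IsPGroup 3 f.range :=
    (IsPGroup.of_card (n := 3) (by simp)).of_surjective _ f.rangeRestrict_surjective
  refine ⟨fun hg => ?_, fun hg => Comp2.le_pCore_map_subtype (N := f.range) (fun x hx => ?_)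
    (fun x hx => mem_normalizer_fintype fun y hy => ?_) hp ((hf g).2 hg)⟩
  · obtain ⟨⟨a, m⟩, rfl⟩ := (mem g).1 (map_subtype_le _ hg)
    by_cases h0 : m = 0
    · exact ⟨a, by rw [h0]⟩
    exfalso
    obtain ⟨n, hn⟩ := two m h0
    have hc : E (0, n) * E (a, m) * (E (0, n))⁻¹ ∈ (Cfsg.pCore 3 H).map H.subtype := by
      obtain ⟨x, hx, e⟩ := hg
      exact ⟨_, (inferInstance : (Cfsg.pCore 3 H).Normal).conj_mem x hx
        ⟨E (0, n), (mem _).2 ⟨_, rfl⟩⟩, by rw [← e]; rfl⟩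
    obtain ⟨z, hz⟩ := (mem _).1 (map_subtype_le _ hc)
    have e1 : mm z (0, n) = mm (0, n) (a, m) := inj (by rw [hm, hm, hz, inv_mul_cancel_right])
    obtain ⟨h1, h2⟩ := hn z.2 (congrArg Prod.snd e1)
    have h3 := mul_mem hg (hz ▸ hc)
    rw [← hm] at h3
    obtain ⟨k, hk⟩ := ((Comp2.pCore_isPGroup 3).map H.subtype) ⟨_, h3⟩
    have hk' : E (mm (a, m) z) ^ 3 ^ k = 1 := congrArg Subtype.val hk
    obtain ⟨l, hl⟩ : Odd (3 ^ k) := Odd.pow (by decide)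
    have h4 : E (mm (a, m) z) ^ 2 ∈ f.range := (hf _).2 ⟨(mm (mm (a, m) z) (mm (a, m) z)).1, by
      rw [sq, ← hm]; exact congrArg E (Prod.ext rfl h2.symm)⟩
    have h5 := pow_mem h4 (l + 1)
    rw [← pow_mul, show 2 * (l + 1) = 3 ^ k + 1 by omega, pow_succ, hk', one_mul] at h5
    obtain ⟨c, hc⟩ := (hf _).1 h5
    exact h1 (congrArg Prod.snd (inj hc)).symm
  · obtain ⟨a, rfl⟩ := (hf x).1 hx
    exact (mem _).2 ⟨_, rfl⟩
  · obtain ⟨⟨b, m⟩, rfl⟩ := (mem x).1 hx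
    obtain ⟨a, rfl⟩ := (hf y).1 hy
    refine (hf _).2 ⟨act m a, eq_mul_inv_of_mul_eq ?_⟩
    rw [← hm, ← hm]
    simp [mm, act_zero, (mul_zero' _).1, (mul_zero' _).2, add_comm]

/-- Let K ≤ Sym(9) be generated by (1 2 3), (1 4 7)(2 5 8)(3 6 9), (1 2)(4 5) and (1 4)(2 5)(3 6)(7 8) (the normalizer in Alt(9) of the elementary abelian group generated by (1 2 3), (4 5 6), (7 8 9)). Let G be a finite group with a subgroup H ≅ K and J = O₃(H). If C_G(j) ≤ H for every j ≠ 1 in J and J is strongly closed in H with respect to G (a G-conjugate of an element of J lying in H lies in J), then G = H. -/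
theorem result {G : Type*} [Group G] [Finite G] (H : Subgroup G)
    (hH : Nonempty (↥H ≃* ↥(Subgroup.closure ({Equiv.swap (0 : Fin 9) 1 * Equiv.swap 1 2,
        Equiv.swap (0 : Fin 9) 3 * Equiv.swap 3 6 * (Equiv.swap (1 : Fin 9) 4 * Equiv.swap 4 7) * (Equiv.swap (2 : Fin 9) 5 * Equiv.swap 5 8),
        Equiv.swap (0 : Fin 9) 1 * Equiv.swap 3 4, Equiv.swap (0 : Fin 9) 3 * Equiv.swap 1 4 * Equiv.swap 2 5 * Equiv.swap 6 7} : Set (Equiv.Perm (Fin 9))))))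
    (J : Subgroup G) (hJ : J = (Cfsg.pCore 3 ↥H).map H.subtype)
    (hC : ∀ j ∈ J, j ≠ 1 → Subgroup.centralizer ({j} : Set G) ≤ H) (hsc : Cfsg.IsStronglyClosed J H) : H = ⊤ := by
  obtain ⟨ψ⟩ := hH
  let E : M → G := fun x => ψ.symm ⟨e x, e_mem x⟩
  have inj : Function.Injective E := fun a b h =>
    e_inj (congrArg Subtype.val (ψ.symm.injective (Subtype.ext h)))
  have hm : ∀ x y, E (mm x y) = E x * E y := fun x y => by
    simp only [E, e_mul, ← Subgroup.coe_mul, ← map_mul]; rfl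
  have mem : ∀ g, g ∈ H ↔ ∃ x, E x = g := fun g => ⟨fun hg => by
    obtain ⟨p, hp⟩ := mem_e (ψ ⟨g, hg⟩).2
    exact ⟨p, by simp only [E, hp]; simp⟩, by rintro ⟨x, rfl⟩; exact Subtype.property _⟩
  have hc := core inj hm mem
  rw [← hJ] at hc
  have h1 : E (0, 0) = 1 := by simp only [E, gens.1]; exact congrArg Subtype.val (map_one ψ.symm)
  refine Md.top (E := E) ⟨inj, hm, mem, fun a ha => hC _ ((hc _).2 ⟨a, rfl⟩) fun e => ha ?_,
    fun a g hg => ?_⟩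
  · exact congrArg Prod.fst (inj (e.trans h1.symm))
  · obtain ⟨b, hb⟩ := (hc _).1 (hsc.2 _ ((hc _).2 ⟨a, rfl⟩) g hg)
    exact ⟨b, hb.symm⟩

end Cfsg.Agent.S3702
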