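import Mathlib
import Cfsg.Statements.S3703
import Cfsg.Agent.BG.FrobAmb
import Cfsg.Agent.Core.CoprimeGen
-- import your own Cfsg.Agent.* helpers here

set_option autoImplicit false
open Cfsg

namespace Cfsg.Agent.S3703

open Subgroup Cfsg.Agent.BG
open scoped Pointwise

theorem wiel {A V : Type*} [Group A] [CommGroup V] (α : A →* Monoid.End V) (K : Subgroup A)
    [Finite K] {c : A} (hc : c ∈ normalizer (K : Set A)) {m : ℕ}
    (hfree : ∀ i < m, ∀ x ∈ K, c ^ (i + 1) * x = x * c ^ (i + 1) → x = 1)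
    (hN : ∀ v, ∏ i ∈ Finset.range (m + 1), α (c ^ i) v = 1) (v : V) {k : A} (hk : k ∈ K) :
    α k (v ^ Nat.card K) = v ^ Nat.card K := by
  classical
  have := Fintype.ofFinite K
  have h1 : ∏ x : K, ∏ i ∈ Finset.range (m + 1), α (x * c ^ i * (x : A)⁻¹) v = 1 := by
    refine Finset.prod_eq_one fun x _ => ?_
    simp only [map_mul, Monoid.End.coe_mul, Function.comp_apply]
    rw [← map_prod, hN, map_one]
  rw [Finset.prod_comm, Finset.prod_range_succ'] at h1
  have h2 : ∏ i ∈ Finset.range m, ∏ x : K, α (x * c ^ (i + 1) * (x : A)⁻¹) v =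
      ∏ i ∈ Finset.range m, ∏ x : K, α x (α (c ^ (i + 1)) v) := by
    refine Finset.prod_congr rfl fun i hi => ?_
    refine Fintype.prod_bijective _ (RepFrob.comm_bijective (pow_mem hc (i + 1))
      (hfree i (Finset.mem_range.1 hi))) _ _ fun x => ?_
    have : ∀ a b : A, α a (α b v) = α (a * b) v := fun a b => by rw [map_mul]; rfl
    rw [this]
    congr 2
    group
  have h3 : ∏ i ∈ Finset.range m, α (c ^ (i + 1)) v = v⁻¹ := by
    have := hN v
    rw [Finset.prod_range_succ', pow_zero, map_one] at this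
    exact eq_inv_of_mul_eq_one_left this
  rw [h2, Finset.prod_comm] at h1
  simp only [← map_prod, h3, pow_zero, mul_one, mul_inv_cancel, map_one, Monoid.End.coe_one, id,
    Finset.prod_const, Finset.card_univ, map_inv, Finset.prod_inv_distrib] at h1
  rw [Nat.card_eq_fintype_card, ← inv_mul_eq_one.1 h1, map_prod]
  refine Fintype.prod_bijective (fun e => (⟨k, hk⟩ : K) * e) (Group.mulLeft_bijective _) _ _
    fun e => ?_
  rw [Subgroup.coe_mul, map_mul]
  rfl

theorem norm_eq {G : Type*} [Group G] (W : Subgroup G) (c : normalizer (W : Set G)) (w : W) (j : ℕ) :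
    ∃ h : ((w : G) * c) ^ j * ((c : G) ^ j)⁻¹ ∈ W, Abelianization.of ⟨_, h⟩ =
      ∏ i ∈ Finset.range j, Core.conjAb W (c ^ i) (Abelianization.of w) := by
  induction j with
  | zero => exact ⟨by simp, by
      rw [Finset.prod_range_zero, ← map_one Abelianization.of]; congr 1; ext; simp⟩
  | succ j ih =>
    obtain ⟨h, e⟩ := ih
    have e1 : ((w : G) * c) ^ (j + 1) * ((c : G) ^ (j + 1))⁻¹ =
        ((⟨_, h⟩ * W.normalizerMonoidHom (c ^ j) w : W) : G) := by
      show _ = _ * ((c : G) ^ j * w * ((c : G) ^ j)⁻¹)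
      rw [pow_succ, pow_succ]; group
    refine ⟨e1 ▸ Subtype.prop _, ?_⟩
    rw [Finset.prod_range_succ, ← e, Core.conjAb_of, ← map_mul]
    congr 1
    exact Subtype.ext e1

theorem core {G : Type*} [Group G] [Finite G] {p : ℕ} [Fact p.Prime] {P K : Subgroup G}
    (hP : IsPGroup p P) (hK : K ≤ normalizer (P : Set G)) (hs : Group.IsSolvable K)
    (hcop : (Nat.card K).Coprime (Nat.card P)) {c : G} (hcP : c ∈ normalizer (P : Set G))
    (hcK : c ∈ normalizer (K : Set G)) {m : ℕ}
    (hfree : ∀ i < m, ∀ x ∈ K, c ^ (i + 1) * x = x * c ^ (i + 1) → x = 1)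
    (hN : ∀ w ∈ P, (w * c) ^ (m + 1) = 1) : K ≤ centralizer (P : Set G) := by
  rw [Core.le_centralizer_iff_commutator_eq_bot]
  by_contra h0
  have hW := Core.commutator_commutator_eq K P hK hcop (Or.inl hs)
  have hWP : ⁅P, K⁆ ≤ P := Core.commutator_le_of_le_normalizer hK
  have hKW : K ≤ normalizer ((⁅P, K⁆ : Subgroup G) : Set G) :=
    Core.le_normalizer_commutator hK le_normalizer
  have hcW : c ∈ normalizer ((⁅P, K⁆ : Subgroup G) : Set G) :=
    Core.le_normalizer_commutator (zpowers_le.2 hcP) (zpowers_le.2 hcK) (mem_zpowers c)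
  generalize ⁅P, K⁆ = W at h0 hW hWP hKW hcW
  have hlt := Core.commutator_lt_of_isPGroup (hP.to_le hWP) (hP.to_le hWP) le_normalizer h0
  refine hlt.not_ge (hW.ge.trans (commutator_le.2 fun w hw k hk => ?_))
  have hc1 : c ^ (m + 1) = 1 := by simpa using hN 1 (one_mem _)
  have h1 := wiel (Core.conjAb W) (K.subgroupOf _) (c := ⟨c, hcW⟩)
    (Core.subgroupOf_le_normalizer_subgroupOf (zpowers_le.2 hcK) _ (mem_zpowers c)) (m := m)
    (fun i hi x hx e => Subtype.ext (hfree i hi x hx (congrArg Subtype.val e))) (fun v => by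
      obtain ⟨u, rfl⟩ : ∃ u : W, Abelianization.of u = v := QuotientGroup.mk_surjective _
      obtain ⟨h, e⟩ := norm_eq W ⟨c, hcW⟩ u (m + 1)
      rw [← e, ← map_one Abelianization.of]
      congr 1
      exact Subtype.ext (by simp [hN u (hWP u.2), hc1]))
    (Abelianization.of ⟨w⁻¹, inv_mem hw⟩) (k := ⟨k, hKW hk⟩) hk
  rw [map_pow, Core.card_subgroupOf_of_le hKW] at h1
  have hc2 : (Nat.card (Abelianization W)).Coprime (Nat.card K) :=
    (hcop.symm.coprime_dvd_left (card_dvd_of_le hWP)).coprime_dvd_left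
      (card_dvd_of_surjective Abelianization.of QuotientGroup.mk_surjective)
  have h2 := hc2.pow_left_bijective.injective h1
  rw [Core.conjAb_of] at h2
  have h3 : (⟨w, hw⟩ : W) * W.normalizerMonoidHom ⟨k, hKW hk⟩ ⟨w⁻¹, inv_mem hw⟩ ∈
      _root_.commutator W := by
    rw [← Abelianization.ker_of, MonoidHom.mem_ker, map_mul, h2, ← map_mul]
    rw [show (⟨w, hw⟩ : W) * ⟨w⁻¹, inv_mem hw⟩ = 1 from Subtype.ext (mul_inv_cancel w), map_one]
  have h4 := mem_map_of_mem W.subtype h3
  rw [Subgroup.map_subtype_commutator] at h4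
  convert h4 using 1
  show _ = w * (k * w⁻¹ * k⁻¹)
  rw [commutatorElement_def]; group

/-- Let N be a normal subgroup of the finite group G such that G/N is a Frobenius group with kernel F and cyclic complement H, where the order of F is coprime to that of N and F is not contained in the image of C_G(N) in G/N. Then G has an element of order p·#H for some prime p dividing the order of N. (A standard tool in recognising groups by their element orders.) -/
theorem result {G : Type*} [Group G] [Finite G] (N : Subgroup G) [N.Normal]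
    (Fb Hb : Subgroup (G ⧸ N)) [Fb.Normal] (hHb : Cfsg.IsFrobeniusComplement Hb) (hker : Cfsg.frobeniusKernel Hb = (Fb : Set (G ⧸ N)))
    (hcyc : IsCyclic Hb) (hcop : (Nat.card Fb).Coprime (Nat.card N))
    (hnot : ¬ Fb ≤ (Subgroup.centralizer (N : Set G)).map (QuotientGroup.mk' N)) :
    ∃ p : ℕ, p.Prime ∧ p ∣ Nat.card N ∧ ∃ g : G, orderOf g = p * Nat.card Hb := by
  by_contra hcon
  push Not at hcon
  have hsr := H2.Frob.semiregular_of_coe_eq hHb hker.symm
  have hnil := Transfer.nilpotent_of_semiregular (K := Fb) (by rw [normalizer_eq_top]; exact le_top)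
    hHb.1 hsr
  have hsurj := QuotientGroup.mk'_surjective N
  have hNL : N ≤ Fb.comap (QuotientGroup.mk' N) := fun x hx => by
    rw [mem_comap, QuotientGroup.mk'_apply, (QuotientGroup.eq_one_iff x).2 hx]; exact one_mem _
  have hri : N.relIndex (Fb.comap (QuotientGroup.mk' N)) = Nat.card Fb := by
    have := relIndex_ker (Fb.comap (QuotientGroup.mk' N)) (QuotientGroup.mk' N)
    rwa [QuotientGroup.ker_mk', map_comap_eq_self_of_surjective hsurj] at this
  obtain ⟨K, hKL, hdis, hsup, hcard⟩ := Core.exists_complement_in N _ hNL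
    (by rw [normalizer_eq_top]; exact le_top) (hri ▸ hcop.symm)
  rw [hri] at hcard
  have hmap : K.map (QuotientGroup.mk' N) = Fb := by
    rw [← map_comap_eq_self_of_surjective hsurj Fb, ← hsup, Subgroup.map_sup,
      (map_eq_bot_iff N).2 (by simp), bot_sup_eq]
  have hinj : ∀ x ∈ K, QuotientGroup.mk' N x = 1 → x = 1 := fun x hx h =>
    disjoint_def.1 hdis ((QuotientGroup.eq_one_iff x).1 h) hx
  have hs : Group.IsSolvable K := by
    refine Group.isSolvable_of_isSolvable_injective
      (f := ((QuotientGroup.mk' N).comp K.subtype).codRestrict Fb fun x => hKL x.2) ?_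
    rw [injective_iff_map_eq_one]
    exact fun x hx => Subtype.ext (hinj x x.2 (congrArg Subtype.val hx))
  have hKN : K ≤ normalizer (N : Set G) := by rw [normalizer_eq_top]; exact le_top
  have hcop' : (Nat.card K).Coprime (Nat.card N) := hcard ▸ hcop
  have h1 : ¬ K ≤ centralizer (N : Set G) := fun h => hnot (hmap ▸ map_mono h)
  obtain ⟨p, hp, hpN, hP⟩ : ∃ p : ℕ, p.Prime ∧ p ∣ Nat.card N ∧
      ∀ P, Core.IsSylowOf p P N → ¬ K ≤ centralizer (P : Set G) := by
    by_contra h
    push Not at h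
    exact h1 (Amb.le_cent_of_forall_sylow fun p hp hd => haveI := Fact.mk hp
      (h p hp hd).imp fun _ h => ⟨Amb.isSylowOf_iff.2 h.1, h.2⟩)
  have := Fact.mk hp
  obtain ⟨P, hPs, hKP⟩ := Core.exists_invariant_isSylowOf K N hKN hcop' (Or.inl hs) p
  obtain ⟨⟨cb, hcb⟩, hco⟩ := IsCyclic.exists_ofOrder_eq_natCard (α := Hb)
  rw [← orderOf_coe] at hco
  obtain ⟨c0, rfl⟩ := hsurj cb
  change orderOf (QuotientGroup.mk' N c0) = _ at hco
  obtain ⟨n, hn, hle⟩ := Core.exists_conj_le_of_le_sup N (MulAut.conj c0 • K) K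
    (by rw [normalizer_eq_top]; exact le_top) hKN (by rwa [Core.card_conj_smul])
    (Or.inl (by rw [Core.conj_smul_eq_map]; exact Core.solvable_map hs _)) (by
      rw [hsup, Core.conj_smul_le_iff]
      exact fun h hh => (inferInstance : (Fb.comap (QuotientGroup.mk' N)).Normal).conj_mem h (hKL hh) c0)
  rw [← mul_smul, ← map_mul] at hle
  have hc1 : n * c0 ∈ normalizer (K : Set G) := Core.conj_smul_eq_iff_mem_normalizer.1
    (eq_of_le_of_card_ge hle (Core.card_conj_smul _ _).ge)
  obtain ⟨z, hz, hzP⟩ := Core.IsSylowOf.exists_centralizer_conj_eq K N hKN hcop' (Or.inl hs)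
    (hPs.conj_of_mem_normalizer (g := n * c0) (by rw [normalizer_eq_top]; trivial)) hPs (by
      intro k hk
      rw [← Core.conj_smul_eq_iff_mem_normalizer, ← mul_smul, ← map_mul,
        show k * (n * c0) = (n * c0) * ((n * c0)⁻¹ * k * (n * c0)) by group, map_mul, mul_smul,
        Core.conj_smul_eq_iff_mem_normalizer.2 (hKP ?_)]
      simpa using (mem_normalizer_iff.1 (inv_mem hc1) k).1 hk) hKP
  rw [← mul_smul, ← map_mul, Core.conj_smul_eq_iff_mem_normalizer] at hzP
  have hc2 : z * (n * c0) ∈ normalizer (K : Set G) :=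
    mul_mem (centralizer_le_normalizer _ hz.2) hc1
  have hπ : ∀ w ∈ N, QuotientGroup.mk' N w = 1 := fun w hw => (QuotientGroup.eq_one_iff w).2 hw
  have hπc : QuotientGroup.mk' N (z * (n * c0)) = QuotientGroup.mk' N c0 := by
    rw [map_mul, map_mul, hπ z hz.1, hπ n hn, one_mul, one_mul]
  generalize z * (n * c0) = c at hzP hc2 hπc
  obtain ⟨m, hm⟩ : ∃ m, Nat.card Hb = m + 1 := ⟨_, (Nat.succ_pred Nat.card_pos.ne').symm⟩
  refine hP P hPs (core hPs.2.1 hKP hs (hcop'.coprime_dvd_right (card_dvd_of_le hPs.1)) hzP hc2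
    (m := m) (fun i hi x hx e => hinj x hx ?_) fun w hw => ?_)
  · have h2 := hsr _ (pow_mem hcb (i + 1)) (pow_ne_one_of_lt_orderOf (by omega)
      (by rw [hco, hm]; omega))
    rw [← mem_bot, ← h2]
    refine ⟨hKL hx, mem_centralizer_singleton_iff.2 ?_⟩
    rw [← hπc, ← map_pow, ← map_mul, ← map_mul, e]
  · by_contra hne
    have h2 : QuotientGroup.mk' N (w * c) = QuotientGroup.mk' N c0 := by
      rw [map_mul, hπ w (hPs.1 hw), one_mul, hπc]
    have h3 : m + 1 ∣ orderOf (w * c) := by
      rw [← hm, ← hco, ← h2]; exact orderOf_map_dvd _ _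
    have h4 : (w * c) ^ (m + 1) ∈ N := by
      rw [← QuotientGroup.eq_one_iff, ← QuotientGroup.mk'_apply, map_pow, h2, ← hm, ← hco,
        pow_orderOf_eq_one]
    obtain ⟨k, hk⟩ := h3
    have h5 : orderOf ((w * c) ^ (m + 1)) = k := by
      rw [orderOf_pow_of_dvd (by omega) ⟨k, hk⟩, hk, Nat.mul_div_cancel_left _ (by omega)]
    have h6 : k ≠ 1 := fun e => hne (orderOf_eq_one_iff.1 (h5.trans e))
    refine hcon k.minFac (Nat.minFac_prime h6) ((Nat.minFac_dvd k).trans
      (h5 ▸ N.orderOf_dvd_natCard h4)) _ (orderOf_pow_orderOf_div (x := w * c)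
        (orderOf_pos _).ne' ?_)
    rw [hk, hm, mul_comm]
    exact Nat.mul_dvd_mul_left _ (Nat.minFac_dvd k)

end Cfsg.Agent.S3703
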