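import Mathlib
import Cfsg.Statements.S3708
import Cfsg.Agent.Phan.Fix

set_option autoImplicit false
open Cfsg

namespace Cfsg.Agent.S3708

/-- Phan's recognition of unitary groups. Let F be a finite field with q² elements, q > 4, and n ≥ 2. Let G be a group generated by subgroups U_0, …, U_{n−1}, each isomorphic to the special unitary group SU(2, q²) (determinant-one isometries of the standard Hermitian form in two variables over F), and let D_i ≤ U_i be cyclic subgroups of order q + 1. Suppose that U_i and U_j commute elementwise whenever the indices differ by at least 2, that the subgroup generated by U_i and U_{i+1} is isomorphic to SU(3, q²) for each i, and that D_i and D_j commute elementwise for all i, j. Then G is a homomorphic image of SU(n+1, q²). (Generation of G by the U_i is part of the hypothesis; G is not assumed finite.) -/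
theorem result {G : Type*} [Group G] (n : ℕ) (hn : 2 ≤ n)
    (F : Type*) [Field F] [Fintype F] (q : ℕ) (hq : 4 < q) (hF : Fintype.card F = q ^ 2)
    (U : Fin n → Subgroup G) (e : ∀ i, ↥(Cfsg.SU 2 F q) ≃* ↥(U i)) (hgen : ⨆ i, U i = ⊤)
    (D : Fin n → Subgroup G) (hD : ∀ i, D i ≤ U i ∧ IsCyclic ↥(D i) ∧ Nat.card ↥(D i) = q + 1)
    (h1 : ∀ i j : Fin n, (i : ℕ) + 2 ≤ j → ∀ x ∈ U i, ∀ y ∈ U j, x * y = y * x)
    (h2 : ∀ i j : Fin n, (i : ℕ) + 1 = j → Nonempty (↥(U i ⊔ U j) ≃* ↥(Cfsg.SU 3 F q)))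
    (h3 : ∀ i j : Fin n, i ≠ j → ∀ x ∈ D i, ∀ y ∈ D j, x * y = y * x) :
    ∃ f : ↥(Cfsg.SU (n + 1) F q) →* G, Function.Surjective f := by
  have hF' := Herm.natCard_of_card hF
  have h4 : ((q + 1 : ℕ) : F) ≠ 0 := by
    have : ((q ^ 2 : ℕ) : F) = 0 := hF ▸ FiniteField.cast_card_eq_zero F
    simp [show (q : F) = 0 by simpa using this]
  have h5 : ∀ i, ∃ d ∈ D i, d ^ (q + 1) = 1 ∧ d ≠ 1 := fun i => by
    obtain ⟨-, -, h⟩ := hD i
    have : Finite (D i) := Nat.finite_of_card_ne_zero (by omega)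
    have := Finite.one_lt_card_iff_nontrivial.1 (show 1 < Nat.card (D i) by omega)
    obtain ⟨d, hd⟩ := exists_ne (1 : D i)
    exact ⟨d, d.2, h ▸ congrArg Subtype.val (pow_card_eq_one' (x := d)),
      fun e => hd (Subtype.ext e)⟩
  choose d a1 a2 a3 using h5
  refine Phan.phan hF' (by omega) hn h1 (fun i j h => ?_) hgen
  obtain ⟨Θ⟩ := h2 i j h
  exact Phan.std_of_comm (Herm.inv_frob hF') ((Phan.toSU hF' 2).trans (e i))
    ((Phan.toSU hF' 2).trans (e j)) (Θ.trans (Phan.toSU hF' 3).symm) ((hD i).1 (a1 i))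
    ((hD j).1 (a1 j)) h4 (a2 i) (a3 i) (a2 j) (a3 j)
    (h3 i j (by rintro rfl; omega) _ (a1 i) _ (a1 j))

end Cfsg.Agent.S3708
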