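import Mathlib
import Cfsg.Statements.S3710
import Cfsg.Agent.Phan.Std3M

set_option autoImplicit false
open Cfsg

namespace Cfsg.Agent.S3710

/-- Recognition of unitary groups over the field with 9 elements from a weak Phan system. Let F be a field with 9 elements and n ≥ 4. Let G be a group with subgroups U_0, …, U_{n−1}, each isomorphic to SU(2, 9), and, for consecutive indices, subgroups V_{i,i+1} in which U_i and U_{i+1} form a standard pair (via an isomorphism from SU(3, 9) or PSU(3, 9) carrying the block-diagonal subgroups, or their images, onto U_i and U_{i+1}); suppose U_i and U_j commute elementwise whenever the indices differ by at least 2, that G is generated by the U_i and the V_{i,i+1}, and moreover that for each i the subgroup generated by V_{i,i+1} and V_{i+1,i+2} is a homomorphic image of SU(4, 9). Then G is a homomorphic image of SU(n+1, 9). (G is not assumed finite.) -/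
theorem result {G : Type*} [Group G] (n : ℕ) (hn : 4 ≤ n)
    (F : Type*) [Field F] [Fintype F] (hF : Fintype.card F = 9)
    (U : Fin n → Subgroup G) (e : ∀ i, ↥(Cfsg.SU 2 F 3) ≃* ↥(U i))
    (V : Fin n → Fin n → Subgroup G)
    (h1 : ∀ i j : Fin n, (i : ℕ) + 2 ≤ j → ∀ x ∈ U i, ∀ y ∈ U j, x * y = y * x)
    (h2 : ∀ i j : Fin n, (i : ℕ) + 1 = j → Cfsg.IsStandardUnitaryPair (V i j) (U i) (U j) F 3)
    (hgen : (⨆ i, U i) ⊔ (⨆ (i : Fin n) (j : Fin n) (_ : (i : ℕ) + 1 = j), V i j) = ⊤)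
    (h4 : ∀ i j k : Fin n, (i : ℕ) + 1 = j → (j : ℕ) + 1 = k →
      ∃ g : ↥(Cfsg.SU 4 F 3) →* ↥(V i j ⊔ V j k), Function.Surjective g) :
    ∃ f : ↥(Cfsg.SU (n + 1) F 3) →* G, Function.Surjective f := by
  have hF' : Nat.card F = 3 ^ 2 := Herm.natCard_of_card hF
  have hσ := Herm.inv_frob hF'
  have k1 : ∀ i j : Fin n, (i : ℕ) + 1 = j → V i j ≤ U i ⊔ U j := fun i j h => by
    obtain ⟨θ, h3, h4⟩ := Phan.std_of_pair hF' (h2 i j h)
    rw [← h4, MonoidHom.range_eq_map, Subgroup.map_le_iff_le_comap, top_le_iff]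
    refine Phan.gen' hσ hF' (by decide) ?_ ?_ <;> rintro _ ⟨s, rfl⟩
    exacts [Subgroup.mem_sup_left (h3.left.le ⟨s, rfl⟩), Subgroup.mem_sup_right (h3.right.le ⟨s, rfl⟩)]
  have k2 : ∀ i j k : Fin n, (j : ℕ) + 1 = k → ((i : ℕ) + 2 ≤ j ∨ (k : ℕ) + 2 ≤ i) →
      ∀ x ∈ U i, ∀ y ∈ V j k, x * y = y * x := fun i j k a1 a2 x hx y hy => by
    have : U j ⊔ U k ≤ Subgroup.centralizer (U i) := by
      refine sup_le (fun y hy x hx => ?_) fun y hy x hx => ?_ <;> rcases a2 with a2 | a2
      exacts [h1 _ _ a2 _ hx _ hy, (h1 _ _ (by omega) _ hy _ hx).symm, h1 _ _ (by omega) _ hx _ hy,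
        (h1 _ _ a2 _ hy _ hx).symm]
    exact this (k1 _ _ a1 hy) x hx
  refine Phan.phan4 hF' (by omega) h1 hgen (fun i j k a1 a2 => ?_) k2
    fun i j k l a1 a2 a3 x hx y hy => ?_
  · obtain ⟨θ, b1, b2⟩ := Phan.std_of_pair hF' (h2 i j a1)
    obtain ⟨θ', b3, b4⟩ := Phan.std_of_pair hF' (h2 j k a2)
    obtain ⟨g, hg⟩ := h4 i j k a1 a2
    have hr : (((V i j ⊔ V j k).subtype.comp g).comp (Phan.toSU hF' 4).toMonoidHom).range =
        V i j ⊔ V j k := by
      rw [Phan.range_comp_eq _ (Phan.toSU hF' 4).surjective, Phan.range_comp_eq _ hg,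
        Subgroup.range_subtype]
    simpa only [b2, b4] using Phan.std3 hσ hF' b1 b3 (h1 _ _ (by omega))
      (b2.le.trans (le_sup_left.trans hr.ge)) (b4.le.trans (le_sup_right.trans hr.ge))
  · have : U i ⊔ U j ≤ Subgroup.centralizer (V k l) :=
      sup_le (fun x hx y hy => (k2 _ _ _ a2 (.inl (by omega)) x hx y hy).symm)
        fun x hx y hy => (k2 _ _ _ a2 (.inl a3) x hx y hy).symm
    exact (this (k1 _ _ a1 hx) y hy).symm

end Cfsg.Agent.S3710
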