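import Mathlib
import Cfsg.Statements.S3713
import Cfsg.Agent.Pres.SA5
-- import your own Cfsg.Agent.* helpers here

set_option autoImplicit false
open Cfsg

namespace Cfsg.Agent.S3713

open Cfsg.Agent.Pres.SA Cfsg.Agent.Classical.SpWitt Cfsg.Agent.Classical.SpMat Subgroup

/-- A presentation of the symplectic group as the universal completion of an amalgam of small subgroups. Let F be a field with more than two elements, n ≥ 2, and Sp the group of 2n × 2n matrices over F preserving the standard alternating form, acting on column vectors; write e_k, f_k for the standard basis vectors of the two halves (a hyperbolic basis). For each k let S_k be the subgroup of Sp fixing e_l and f_l for all l ≠ k (a copy of SL(2, F) on the plane of e_k, f_k), and for each i with i + 1 < n let M_i be the subgroup fixing every e_l and fixing f_l for all l other than i, i+1 (an abelian group isomorphic to the additive group of F³).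 Then Sp is the universal completion of the amalgam formed by the S_k, the M_i and the subgroups generated by two of them: for every group H and homomorphisms σ_k : S_k → H, μ_i : M_i → H such that for each pair of these subgroups some homomorphism on the subgroup they generate restricts to the given ones, there is exactly one homomorphism Sp → H restricting to every σ_k and μ_i. -/
theorem result
    (F : Type*) [Field F] (hF : ∃ a : F, a ≠ 0 ∧ a ≠ 1) (n : ℕ) (hn : 2 ≤ n)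
    (S M : Fin n → Subgroup ↥(Matrix.symplecticGroup (Fin n) F))
    (hS : ∀ j : Fin n, S j = Subgroup.closure {A : ↥(Matrix.symplecticGroup (Fin n) F) | ∀ k : Fin n, k ≠ j →
      ((A : ↥(Matrix.symplecticGroup (Fin n) F)) : Matrix (Fin n ⊕ Fin n) (Fin n ⊕ Fin n) F).mulVec (Pi.single (Sum.inl k) (1 : F)) = (Pi.single (Sum.inl k) (1 : F)) ∧ ((A : ↥(Matrix.symplecticGroup (Fin n) F)) : Matrix (Fin n ⊕ Fin n) (Fin n ⊕ Fin n) F).mulVec (Pi.single (Sum.inr k) (1 : F)) = (Pi.single (Sum.inr k) (1 : F))})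
    (hM : ∀ i : Fin n, (i : ℕ) + 1 < n → M i = Subgroup.closure {A : ↥(Matrix.symplecticGroup (Fin n) F) |
      (∀ k : Fin n, ((A : ↥(Matrix.symplecticGroup (Fin n) F)) : Matrix (Fin n ⊕ Fin n) (Fin n ⊕ Fin n) F).mulVec (Pi.single (Sum.inl k) (1 : F)) = (Pi.single (Sum.inl k) (1 : F))) ∧
        ∀ k : Fin n, (k : ℕ) ≠ i → (k : ℕ) ≠ (i : ℕ) + 1 → ((A : ↥(Matrix.symplecticGroup (Fin n) F)) : Matrix (Fin n ⊕ Fin n) (Fin n ⊕ Fin n) F).mulVec (Pi.single (Sum.inr k) (1 : F)) = (Pi.single (Sum.inr k) (1 : F))})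
    {H : Type*} [Group H] (σ : ∀ j : Fin n, ↥(S j) →* H) (μ : ∀ i : Fin n, ↥(M i) →* H)
    (hSS : ∀ j l : Fin n, j ≠ l → ∃ Ψ : ↥(S j ⊔ S l) →* H,
      (∀ (g : ↥(Matrix.symplecticGroup (Fin n) F)) (hg : g ∈ S j), Ψ ⟨g, Subgroup.mem_sup_left hg⟩ = σ j ⟨g, hg⟩) ∧
        (∀ (g : ↥(Matrix.symplecticGroup (Fin n) F)) (hg : g ∈ S l), Ψ ⟨g, Subgroup.mem_sup_right hg⟩ = σ l ⟨g, hg⟩))
    (hMM : ∀ i i' : Fin n, i ≠ i' → (i : ℕ) + 1 < n → (i' : ℕ) + 1 < n → ∃ Ψ : ↥(M i ⊔ M i') →* H,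
      (∀ (g : ↥(Matrix.symplecticGroup (Fin n) F)) (hg : g ∈ M i), Ψ ⟨g, Subgroup.mem_sup_left hg⟩ = μ i ⟨g, hg⟩) ∧
        (∀ (g : ↥(Matrix.symplecticGroup (Fin n) F)) (hg : g ∈ M i'), Ψ ⟨g, Subgroup.mem_sup_right hg⟩ = μ i' ⟨g, hg⟩))
    (hMS : ∀ i j : Fin n, (i : ℕ) + 1 < n → ∃ Ψ : ↥(M i ⊔ S j) →* H,
      (∀ (g : ↥(Matrix.symplecticGroup (Fin n) F)) (hg : g ∈ M i), Ψ ⟨g, Subgroup.mem_sup_left hg⟩ = μ i ⟨g, hg⟩) ∧
        (∀ (g : ↥(Matrix.symplecticGroup (Fin n) F)) (hg : g ∈ S j), Ψ ⟨g, Subgroup.mem_sup_right hg⟩ = σ j ⟨g, hg⟩)) :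
    ∃! Φ : ↥(Matrix.symplecticGroup (Fin n) F) →* H,
      (∀ (j : Fin n) (g : ↥(Matrix.symplecticGroup (Fin n) F)) (hg : g ∈ S j), Φ g = σ j ⟨g, hg⟩) ∧
        (∀ (i : Fin n), (i : ℕ) + 1 < n → ∀ (g : ↥(Matrix.symplecticGroup (Fin n) F)) (hg : g ∈ M i), Φ g = μ i ⟨g, hg⟩) := by
  obtain ⟨n, rfl⟩ := Nat.exists_eq_add_of_le' hn
  let e := (spEquiv (Fin (n + 2)) F).symm
  have he : ∀ g x, (e g).1.mulVec x = g.1 x := spEquiv_symm_mulVec
  have b0 : ∀ k : Fin (n + 2), (Pi.single (Sum.inl k) 1 : Fin (n + 2) ⊕ Fin (n + 2) → F) = emb k ![1, 0] :=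
    fun k => (emb_bv (Sum.inl k)).symm
  have b1 : ∀ k : Fin (n + 2), (Pi.single (Sum.inr k) 1 : Fin (n + 2) ⊕ Fin (n + 2) → F) = emb k ![0, 1] :=
    fun k => (emb_bv (Sum.inr k)).symm
  simp only [b0, b1] at hS hM
  have s1 : ∀ j, (s0 j).range ≤ (S j).comap e.toMonoidHom := by
    rintro j _ ⟨g, rfl⟩
    rw [hS]
    exact subset_closure fun k hk => ⟨(he ..).trans (s0_emb' hk.symm ..), (he ..).trans (s0_emb' hk.symm ..)⟩
  have s2 : ∀ j, S j ≤ (s0 j).range.map e.toMonoidHom := fun j => by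
    rw [hS, closure_le]
    intro A hA
    obtain ⟨g, rfl⟩ := e.surjective A
    exact ⟨g, mem_s0 (fun k hk => (he ..).symm.trans (hA k hk).1) fun k hk => (he ..).symm.trans (hA k hk).2, rfl⟩
  have ne : ∀ {i j : Fin (n + 2)}, j.1 = i + 1 → i ≠ j := fun e => Fin.ne_of_val_ne (by omega)
  have m1 : ∀ i j : Fin (n + 2), j.1 = i + 1 → M0 F i j ≤ (M i).comap e.toMonoidHom := fun i j h g hg => by
    rw [hM i (by omega)]
    exact subset_closure ⟨fun k => (he ..).trans ((M0_le (ne h) hg).1 k), fun k h1 h2 =>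
      (he ..).trans ((M0_le (ne h) hg).2 k (Fin.ne_of_val_ne h1) (Fin.ne_of_val_ne (h ▸ h2)))⟩
  have m2 : ∀ i j : Fin (n + 2), j.1 = i + 1 → M i ≤ (M0 F i j).map e.toMonoidHom := fun i j h => by
    rw [hM i (by omega), closure_le]
    intro A hA
    obtain ⟨g, rfl⟩ := e.surjective A
    exact ⟨g, mem_M0 (ne h) (fun k => (he ..).symm.trans (hA.1 k)) fun k h1 h2 =>
      (he ..).symm.trans (hA.2 k (Fin.val_ne_of_ne h1) (h ▸ Fin.val_ne_of_ne h2)), rfl⟩
  obtain ⟨Φ, h1, h2⟩ := amalg hF (σ := fun j x => ex1 (σ j) (e.toMonoidHom x)) (μ := fun j x => ex1 (μ j) (e.toMonoidHom x))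
    (fun i => ph_ex1 _ (s1 i) _) (fun i j h => am_ex1 _ (s1 i) (s1 j) (hSS i j h))
    (fun i j k l h h1 h2 => am_ex1 _ (m1 i j h1) (m1 k l h2) (hMM i k h (by omega) (by omega)))
    fun i j k h => am_ex1 _ (m1 i j h) (s1 k) (hMS i k (by omega))
  refine existsUnique_of_exists_of_unique ⟨Φ.comp e.symm.toMonoidHom, fun j g hg => ?_, fun i hi g hg => ?_⟩
    fun Φ1 Φ2 h3 h4 => MonoidHom.ext fun A => ?_
  · obtain ⟨_, ⟨k, rfl⟩, rfl⟩ := s2 j hg
    exact (congrArg Φ (e.symm_apply_apply _)).trans ((h1 j k).trans (ex1_eq _ _))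
  · obtain ⟨k, hk, rfl⟩ := m2 i ⟨_, hi⟩ rfl hg
    exact (congrArg Φ (e.symm_apply_apply _)).trans ((h2 i _ rfl k hk).trans (ex1_eq _ _))
  · obtain ⟨g, rfl⟩ := e.surjective A
    exact gen_path (K := (Φ1.eqLocus Φ2).comap e.toMonoidHom)
      (fun i g => (h3.1 i _ (s1 i ⟨g, rfl⟩)).trans (h4.1 i _ _).symm)
      (fun i j h g hg => (h3.2 i (by omega) _ (m1 i j h hg)).trans (h4.2 i (by omega) _ _).symm) g

end Cfsg.Agent.S3713
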