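import Mathlib
import Cfsg.Statements.S3732
import Cfsg.Agent.PG.OW

set_option autoImplicit false
open Cfsg

namespace Cfsg.Agent.S3732

theorem rank_sup {F V : Type*} [Field F] [AddCommGroup V] [Module F V] [FiniteDimensional F V]
    {a b : Projectivization F V} (h : a ≠ b) :
    Module.finrank F ↥(a.submodule ⊔ b.submodule) = 2 := by
  have h1 := Submodule.finrank_sup_add_finrank_inf_eq a.submodule b.submodule
  rw [a.finrank_submodule, b.finrank_submodule] at h1
  have h2 : Module.finrank F ↥(a.submodule ⊓ b.submodule) = 0 := by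
    by_contra h3
    have h4 : a.submodule ⊓ b.submodule = a.submodule :=
      Submodule.eq_of_le_of_finrank_le inf_le_left (by rw [a.finrank_submodule]; omega)
    have h5 : a.submodule ⊓ b.submodule = b.submodule :=
      Submodule.eq_of_le_of_finrank_le inf_le_right (by rw [b.finrank_submodule]; omega)
    exact h (Projectivization.submodule_injective (h4.symm.trans h5))
  omega

/-- The Ostrom–Wagner Theorem. Let Π be a finite projective plane (points P, lines L) whose collineation group is 2-transitive on points: for any two ordered pairs of distinct points there is a permutation of the points, together with a compatible permutation of the lines preserving incidence, carrying the first pair to the second. Then Π is Desarguesian: there is a finite field F and a bijection from P onto the points of the projective plane over F (the 1-dimensional subspaces of F³) under which the lines of Π correspond exactly to the 2-dimensional subspaces of F³. -/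
theorem result
    {P L : Type*} [Membership P L] [Fintype P] [Fintype L] [Configuration.ProjectivePlane P L]
    (h2t : ∀ p₁ p₂ q₁ q₂ : P, p₁ ≠ p₂ → q₁ ≠ q₂ →
      ∃ (σ : Equiv.Perm P) (τ : Equiv.Perm L), (∀ (p : P) (l : L), σ p ∈ τ l ↔ p ∈ l) ∧ σ p₁ = q₁ ∧ σ p₂ = q₂) :
    ∃ (F : Type) (_ : Field F) (_ : Fintype F) (φ : P ≃ Projectivization F (Fin 3 → F)),
      (∀ l : L, ∃ W : Submodule F (Fin 3 → F), Module.finrank F W = 2 ∧
          ∀ p : P, p ∈ l ↔ (φ p).submodule ≤ W) ∧
      (∀ W : Submodule F (Fin 3 → F), Module.finrank F W = 2 →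
          ∃ l : L, ∀ p : P, p ∈ l ↔ (φ p).submodule ≤ W) := by
  have Z := PG.pl_of_config (P := P) (L := L)
  haveI := Z.aut_faithP
  obtain ⟨F, _, _, m, φ, h3, h⟩ := Z.coord (G := PG.Aut fun (p : P) (l : L) => p ∈ l) (PG.Aut.hI _)
    (MulAction.is_two_pretransitive_iff.2 fun {a b c d} hab hcd => by
      obtain ⟨σ, τ, h1, h2, h3⟩ := h2t a b c d hab hcd
      exact ⟨(⟨(σ, τ), h1⟩ : PG.Aut fun (p : P) (l : L) => p ∈ l), h2, h3⟩)
  obtain rfl : m = 3 := by
    by_contra hm
    obtain ⟨k, rfl⟩ : ∃ k, m = k + 4 := ⟨m - 4, by omega⟩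
    have h0 : ∀ i : Fin (k + 4), (Pi.single i 1 : Fin (k + 4) → F) ≠ 0 := fun i e => by
      simpa using congrFun e i
    let x : Fin (k + 4) → P := fun i => φ.symm (Projectivization.mk F _ (h0 i))
    have h1 : ∀ i j t : Fin (k + 4), t ≠ i → t ≠ j → ∀ v ∈ (φ (x i)).submodule ⊔ (φ (x j)).submodule,
        v t = 0 := by
      intro i j t hi hj v hv
      simp only [x, Equiv.apply_symm_apply, Projectivization.submodule_mk] at hv
      obtain ⟨_, h1, _, h2, rfl⟩ := Submodule.mem_sup.1 hv
      obtain ⟨a, rfl⟩ := Submodule.mem_span_singleton.1 h1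
      obtain ⟨b, rfl⟩ := Submodule.mem_span_singleton.1 h2
      simp [hi, hj]
    have h2 : ∀ i j : Fin (k + 4), i ≠ j → x i ≠ x j := by
      intro i j hij e
      have := h1 j j i hij hij (Pi.single i 1) (Submodule.mem_sup_left (by
        rw [← e]
        simp only [x, Equiv.apply_symm_apply, Projectivization.submodule_mk]
        exact Submodule.mem_span_singleton_self _))
      simp at this
    have e1 : (⟨0, by omega⟩ : Fin (k + 4)) ≠ ⟨1, by omega⟩ := by simp [Fin.ext_iff]
    have e2 : (⟨2, by omega⟩ : Fin (k + 4)) ≠ ⟨3, by omega⟩ := by simp [Fin.ext_iff]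
    obtain ⟨l, h4, h5⟩ := Z.join (h2 _ _ e1)
    obtain ⟨l', h6, h7⟩ := Z.join (h2 _ _ e2)
    obtain ⟨c, h8, h9⟩ : ∃ c : P, c ∈ l ∧ c ∈ l' := by
      by_cases e : l = l'
      · exact ⟨_, h4, e ▸ h4⟩
      · exact Z.meet e
    have h10 : (φ c).rep ∈ (φ c).submodule := by
      rw [Projectivization.submodule_eq]; exact Submodule.mem_span_singleton_self _
    have h11 := (h _ _ c l (h2 _ _ e1) h4 h5).1 h8 h10
    have h12 := (h _ _ c l' (h2 _ _ e2) h6 h7).1 h9 h10
    refine (φ c).rep_nonzero (funext fun t => ?_)
    by_cases ht : t.1 < 2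
    · exact h1 _ _ t (by rintro rfl; simp at ht) (by rintro rfl; simp at ht) _ h12
    · exact h1 _ _ t (by rintro rfl; simp at ht) (by rintro rfl; simp at ht) _ h11
  refine ⟨F, inferInstance, inferInstance, φ, fun l => ?_, fun W hW => ?_⟩
  · obtain ⟨A⟩ := Z.ne
    obtain ⟨a, ha, -⟩ := Z.third l A A
    obtain ⟨b, hb, hab, -⟩ := Z.third l a a
    exact ⟨_, rank_sup (φ.injective.ne hab), fun p => h b a p l hab hb ha⟩
  · obtain ⟨v, hv, hv0⟩ := W.exists_mem_ne_zero_of_ne_bot (by rintro rfl; simp at hW)
    obtain ⟨w, hw, hw0⟩ : ∃ w ∈ W, w ∉ Submodule.span F {v} := by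
      by_contra hn
      push Not at hn
      have := Submodule.finrank_mono (show W ≤ Submodule.span F {v} from hn)
      rw [finrank_span_singleton hv0] at this
      omega
    have hw1 : w ≠ 0 := fun e => hw0 (e ▸ Submodule.zero_mem _)
    have h1 : Projectivization.mk F v hv0 ≠ Projectivization.mk F w hw1 := fun e => hw0 (by
      rw [← Projectivization.submodule_mk v hv0, e, Projectivization.submodule_mk]
      exact Submodule.mem_span_singleton_self _)
    have h2 := φ.symm.injective.ne h1
    obtain ⟨l, h4, h5⟩ := Z.join h2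
    refine ⟨l, fun p => ?_⟩
    have h6 : (Projectivization.mk F v hv0).submodule ⊔ (Projectivization.mk F w hw1).submodule
        = W := by
      refine Submodule.eq_of_le_of_finrank_le ?_ (by rw [rank_sup h1, hW])
      rw [Projectivization.submodule_mk, Projectivization.submodule_mk, sup_le_iff,
        Submodule.span_singleton_le_iff_mem, Submodule.span_singleton_le_iff_mem]
      exact ⟨hv, hw⟩
    rw [h _ _ p l h2 h4 h5, Equiv.apply_symm_apply, Equiv.apply_symm_apply, h6]

end Cfsg.Agent.S3732
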