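import Mathlib
import Cfsg.Statements.S3776
import Cfsg.Agent.Spc.HgC
import Cfsg.Agent.Spc.HgD
import Cfsg.Agent.S3360
import Cfsg.Agent.PGrp.Frattini
-- import your own Cfsg.Agent.* helpers here

set_option autoImplicit false
open Cfsg

namespace Cfsg.Agent.S3776

open Cfsg.Agent.RankOne Cfsg.Agent.SpcHg
open scoped commutatorElement

open scoped IsMulCommutative in
theorem exists_hg {P : Type*} [Group P] [Finite P] (h2 : IsPGroup 2 P)
    (hxy : ∃ x y : P, x ≠ y ∧ x ≠ 1 ∧ x * x = 1 ∧ y ≠ 1 ∧ y * y = 1) (K : Subgroup (MulAut P))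
    (hsol : Group.IsSolvable K)
    (hreg : ∀ x y : P, x ≠ 1 → x * x = 1 → y ≠ 1 → y * y = 1 → ∃ k ∈ K, k x = y) :
    ∃ (F : Type) (_ : Field F) (_ : Fintype F) (_ : CharP F 2), Nonempty (Hg P F K) := by
  classical
  have := Fact.mk Nat.prime_two
  obtain ⟨x, y, hxy, hx1, hx2, hy1, hy2⟩ := hxy
  have hcen : ∀ g : P, g * g = 1 → g ∈ Subgroup.center P := by
    have : Nontrivial P := ⟨_, _, hxy⟩
    have h := IsPGroup.center_nontrivial h2
    obtain ⟨z, hz⟩ := exists_prime_orderOf_dvd_card' (G := Subgroup.center P) 2 (by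
      obtain ⟨k, hk⟩ := IsPGroup.iff_card.mp (h2.to_subgroup (Subgroup.center P))
      rw [hk]
      exact dvd_pow_self 2 (by rintro rfl; exact (Finite.one_lt_card (α := Subgroup.center P)).ne' hk))
    intro g hg
    by_cases hg1 : g = 1
    · rw [hg1]; exact Subgroup.one_mem _
    obtain ⟨k, -, hk⟩ := hreg z g (fun e => by rw [show z = 1 from Subtype.ext e] at hz; simp at hz) (by
      have := pow_orderOf_eq_one z
      rw [hz, sq] at this
      exact congrArg Subtype.val this) hg1 hg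
    rw [← hk, Subgroup.mem_center_iff]
    intro w
    obtain ⟨w, rfl⟩ := (k : MulAut P).surjective w
    rw [← map_mul, Subgroup.mem_center_iff.mp z.2, map_mul]
  let Z : Subgroup P :=
    { carrier := {g | g * g = 1}
      mul_mem' := fun {a b} ha hb => by
        change a * b * (a * b) = 1
        rw [mul_assoc, ← mul_assoc b, ← Subgroup.mem_center_iff.mp (hcen b hb) a, mul_assoc, hb, mul_one, ha]
      one_mem' := mul_one 1
      inv_mem' := fun {a} ha => by
        change a⁻¹ * a⁻¹ = 1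
        rw [← mul_inv_rev, ha, inv_one] }
  have : IsMulCommutative Z := ⟨⟨fun a b => Subtype.ext (Subgroup.mem_center_iff.mp (hcen b b.2) a)⟩⟩
  let r : MulAut P → Additive Z →+ Additive Z := fun k => AddMonoidHom.mk'
    (fun v => Additive.ofMul ⟨k (Additive.toMul v : Z), by
      change _ * _ = 1
      rw [← map_mul, show ((Additive.toMul v : Z) : P) * _ = 1 from (Additive.toMul v).2, map_one]⟩)
    fun v w => congrArg Additive.ofMul (Subtype.ext (map_mul k _ _))
  have hext : ∀ v w : Additive Z, ((Additive.toMul v : Z) : P) = (Additive.toMul w : Z) → v = w :=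
    fun v w e => Additive.toMul.injective (Subtype.ext e)
  have hadd : ∀ v : Additive Z, v + v = 0 := fun v => hext _ _ (Additive.toMul v).2
  letI : Module (ZMod 2) (Additive Z) := AddCommGroup.zmodModule (n := 2) fun v => by rw [two_nsmul, hadd]
  let ρ₀ : K →* (Additive Z ≃ₗ[ZMod 2] Additive Z) := MonoidHom.mk' (fun k =>
    { (r k).toZModLinearMap 2 with
      invFun := r k⁻¹
      left_inv := fun v => hext _ _ (MulAut.inv_apply_self P (k : MulAut P) _)
      right_inv := fun v => hext _ _ (MulAut.apply_inv_self P (k : MulAut P) _) }) fun a b => rfl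
  have htr : ∀ v w : Additive Z, v ≠ 0 → w ≠ 0 → ∃ k : K, ρ₀ k v = w := fun v w hv hw => by
    obtain ⟨k, hk, hk'⟩ := hreg _ _ (fun e => hv (hext v 0 e)) (Additive.toMul v).2 (fun e => hw (hext w 0 e))
      (Additive.toMul w).2
    exact ⟨⟨k, hk⟩, hext _ _ hk'⟩
  let v₀ : Additive Z := Additive.ofMul ⟨x, hx2⟩
  have hv₀ : v₀ ≠ 0 := fun e => hx1 (congrArg (fun v => ((Additive.toMul v : Z) : P)) e)
  have : Nontrivial (Additive Z) := ⟨_, _, hv₀⟩
  have : Finite (MulAut P) := DFunLike.finite _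
  have : Finite ρ₀.range := Finite.of_surjective _ ρ₀.rangeRestrict_surjective
  obtain ⟨n, hn⟩ := IsPGroup.iff_card.mp (h2.to_subgroup Z)
  have hn' : Nat.card (Additive Z) = 2 ^ n := hn
  rcases S3360.result 2 (V := Additive Z) (G := ρ₀.range)
    (Group.isSolvable_of_surjective ρ₀.rangeRestrict_surjective) ρ₀.range.subtype ρ₀.range.subtype_injective
    (fun v w hv hw => by
      obtain ⟨k, hk⟩ := htr v w hv hw
      exact ⟨⟨_, k, rfl⟩, hk⟩) with ⟨F, _, _, e, he⟩ | hc
  swap
  · exfalso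
    have h1 : Even (Nat.card (Additive Z)) := by
      rw [hn']
      exact (Nat.even_pow' (by rintro rfl; exact (Finite.one_lt_card (α := Additive Z)).ne' hn')).mpr even_two
    simp only [Set.mem_insert_iff, Set.mem_singleton_iff] at hc
    rcases hc with h | h | h | h | h | h <;> rw [h] at h1 <;> exact absurd h1 (by decide)
  have hchar : CharP F 2 := CharTwo.of_one_ne_zero_of_two_eq_zero one_ne_zero (by
    rw [← one_add_one_eq_two, ← e.apply_symm_apply 1, ← map_add, hadd, map_zero])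
  have hF : Fintype.card F = 2 ^ n := by rw [← Nat.card_eq_fintype_card, ← Nat.card_congr e.toEquiv, hn']
  let ρ : K → F ≃+ F := fun k => e.symm.trans ((ρ₀ k).toAddEquiv.trans e)
  have hρ0 : ∀ k v, ρ k (e v) = e (ρ₀ k v) := fun k v => congrArg (fun v => e (ρ₀ k v)) (e.symm_apply_apply v)
  have hρ : ∀ k, ∃ (a : F) (φ : F ≃+* F), ∀ x, ρ k x = a * φ x := fun k => by
    obtain ⟨a, φ, h⟩ := he ⟨_, k, rfl⟩
    refine ⟨a, φ, fun x => ?_⟩
    obtain ⟨v, rfl⟩ := e.surjective x
    rw [hρ0]
    exact h v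
  have htr' : ∀ x ≠ 0, ∀ y ≠ 0, ∃ k, ρ k x = y := fun x hx y hy => by
    obtain ⟨v, rfl⟩ := e.surjective x
    obtain ⟨w, rfl⟩ := e.surjective y
    obtain ⟨k, hk⟩ := htr v w (fun h => hx (by rw [h, map_zero])) (fun h => hy (by rw [h, map_zero]))
    exact ⟨k, by rw [hρ0, hk]⟩
  obtain ⟨d, κ, g₀, k1, k2, k3, k4⟩ := exists_kappa ρ hF (fun g h x => by
    obtain ⟨v, rfl⟩ := e.surjective x
    rw [hρ0, hρ0, hρ0, map_mul]
    rfl) hρ htr'
  refine ⟨F, inferInstance, inferInstance, hchar, ⟨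
    { K := K.subtype
      ρ := ρ
      ι := fun x => (Additive.toMul (e.symm x) : Z)
      ι_add := fun x y => by rw [map_add]; rfl
      ι_inj := fun x y h => e.symm.injective (hext _ _ h)
      K_ι := fun κ x => ?_
      of_sq := fun g hg => ⟨e (Additive.ofMul ⟨g, hg⟩), by simp⟩
      two := h2
      card := ?_
      trans := htr'
      alt := fun B h0 h => alt_zero (fun σ τ => w3 hF k1 k2 k3) B h0 fun x y => by simpa only [k4] using h g₀ x y
      inj := inj_of_irr ρ hF hρ k2 k4 fun τ σ₁ σ₂ => w4 hF k1 k2 k3 }⟩⟩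
  · obtain ⟨v, rfl⟩ := e.surjective x
    rw [hρ0, e.symm_apply_apply, e.symm_apply_apply]
    rfl
  · rw [Fintype.two_lt_card_iff]
    refine ⟨e 0, e v₀, e (Additive.ofMul ⟨y, hy2⟩), e.injective.ne hv₀.symm, e.injective.ne fun h => hy1 ?_,
      e.injective.ne fun h => hxy ?_⟩
    · exact (congrArg (fun v => ((Additive.toMul v : Z) : P)) h).symm
    · exact congrArg (fun v => ((Additive.toMul v : Z) : P)) h

/-- Let G be a finite non-abelian 2-group with more than one involution admitting a solvable group of automorphisms that permutes its involutions transitively. Then the derived subgroup, the Frattini subgroup and the centre of G coincide and consist exactly of the elements x with x² = 1. -/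
theorem result {G : Type*} [Group G] [Finite G] (hG : IsPGroup 2 G) (hna : ¬ IsMulCommutative G) (htwo : ∃ x y : G, x ≠ y ∧ x ≠ 1 ∧ x ^ 2 = 1 ∧ y ≠ 1 ∧ y ^ 2 = 1) (hY : ∃ Y : Subgroup (MulAut G), Group.IsSolvable Y ∧ ∀ x y : G, x ≠ 1 → x ^ 2 = 1 → y ≠ 1 → y ^ 2 = 1 → ∃ a ∈ Y, a x = y) : commutator G = frattini G ∧ frattini G = Subgroup.center G ∧ ∀ x : G, x ∈ Subgroup.center G ↔ x ^ 2 = 1 := by
  have := Fact.mk Nat.prime_two
  simp only [sq] at htwo hY ⊢
  obtain ⟨Y, hY1, hY2⟩ := hY
  obtain ⟨F, _, _, _, ⟨H⟩⟩ := exists_hg hG htwo Y hY1 hY2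
  have hn : ¬ ∀ u v : G, Commute u v := fun h => hna ⟨⟨fun a b => (h a b).eq⟩⟩
  have hsq := H.sq_mem_Z hn
  have hc : commutator G ≤ H.Z := by
    refine Subgroup.commutator_le.mpr fun u _ v _ => ?_
    have := hsq (u * v)
    rw [mul_sq_eq, commutatorElement_eq_one_iff_mul_comm.mpr
      (Subgroup.mem_center_iff.mp (H.Z_le_center (hsq u)) v), mul_one] at this
    exact (H.Z.mul_mem_cancel_right (hsq u)).mp ((H.Z.mul_mem_cancel_right (hsq v)).mp this)
  have hf : frattini G ≤ H.Z :=
    PGrp.frattini_le_of_commutator_le_of_pow_mem Nat.prime_two hc fun g => by rw [sq]; exact hsq g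
  have hz : H.Z ≤ commutator G := by
    push Not at hn
    obtain ⟨u, v, h⟩ := hn
    refine Hg.Inv.Z_le (H := H) (fun κ g hg => ?_) (Subgroup.commutator_mem_commutator (Subgroup.mem_top u)
      (Subgroup.mem_top v)) fun e => h (commutatorElement_eq_one_iff_commute.mp e)
    exact (Subgroup.characteristic_iff_le_comap.mp inferInstance (H.K κ)) hg
  have hcf := PGrp.commutator_le_frattini hG
  rw [H.center_eq hn]
  exact ⟨le_antisymm hcf (hf.trans hz), le_antisymm hf (hz.trans hcf), fun x => Iff.rfl⟩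

end Cfsg.Agent.S3776
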