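import Mathlib
import Cfsg.Statements.S3784
-- import your own Cfsg.Agent.* helpers here

set_option autoImplicit false
open Cfsg

namespace Cfsg.Agent.S3784

/-- Let p, q be primes and a, b positive integers with p^a = q^b + 1. Then either p = 2, b = 1, a is prime and q = 2^a − 1; or q = 2, a = 1, b is a power of 2 and p = 2^b + 1; or p^a = 9 and q^b = 8. -/
theorem result (p q a b : ℕ) (hp : p.Prime) (hq : q.Prime) (ha : 1 ≤ a) (hb : 1 ≤ b) (h : p ^ a = q ^ b + 1) : (p = 2 ∧ b = 1 ∧ a.Prime ∧ q + 1 = 2 ^ a) ∨ (q = 2 ∧ a = 1 ∧ (∃ m : ℕ, b = 2 ^ m) ∧ p = 2 ^ b + 1) ∨ (p ^ a = 9 ∧ q ^ b = 8) := by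

  have odd_geom : ∀ (x : ℤ) (n : ℕ), Odd x → Odd n → Odd (∑ i ∈ Finset.range n, x ^ i) := by
    intro x n hx hn
    have key : ∀ m : ℕ, (Odd (∑ i ∈ Finset.range m, x ^ i) ↔ Odd m) := by
      intro m
      induction m with
      | zero => simp
      | succ m ih =>
        rw [Finset.sum_range_succ, Int.odd_add', Nat.odd_add_one, ← ih, Int.not_odd_iff_even]
        simp [hx.pow]
    exact (key n).2 hn
  have unit : ∀ (s t : ℤ) (n : ℕ), Odd s → s * t = 2 ^ n → s = 1 ∨ s = -1 := by
    intro s t n hs h
    rw [← Int.isUnit_iff]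
    have h1 : IsCoprime s (2 ^ n) := (Int.isCoprime_two_right.2 hs).pow_right
    exact h1.isUnit_of_dvd' dvd_rfl ⟨t, h.symm⟩
  rcases hp.eq_two_or_odd' with rfl | hpo
  · left
    have hqo : Odd q := by
      have h1 : Odd (q ^ b) := by
        rw [← Nat.not_even_iff_odd, ← Nat.even_add_one, ← h]
        exact (Nat.even_pow' (by omega)).2 even_two
      exact (Nat.odd_pow_iff (by omega)).1 h1
    have hq2 := hq.two_le
    have hb1 : b = 1 := by
      rcases Nat.even_or_odd b with ⟨c, rfl⟩ | hbo
      · exfalso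
        obtain ⟨t, ht⟩ : Odd (q ^ c) := hqo.pow
        obtain ⟨a, rfl⟩ := Nat.exists_eq_add_of_le' ha
        rw [pow_add q, ht, pow_succ] at h
        rcases a with _ | a
        · have : 2 ≤ q ^ c := hq2.trans (Nat.le_self_pow (by omega) q)
          nlinarith
        · rw [pow_succ] at h
          have : (2 * t + 1) * (2 * t + 1) + 1 = 4 * (t * t + t) + 2 := by ring
          omega
      · have h1 := geom_sum_mul (-(q : ℤ)) b
        rw [hbo.neg_pow] at h1
        have h2 : (q : ℤ) ^ b + 1 = 2 ^ a := by exact_mod_cast h.symm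
        have h3 := unit _ (q + 1) a (odd_geom (-(q : ℤ)) b (Odd.neg (by exact_mod_cast hqo)) hbo)
          (by linear_combination -h1 + h2)
        have h4 : (0 : ℤ) < (q : ℤ) ^ b := by positivity
        rcases h3 with h3 | h3
        · rw [h3] at h1
          have h5 : q ^ b = q ^ 1 := by
            rw [pow_one]; exact_mod_cast (by linarith : (q : ℤ) ^ b = q)
          exact Nat.pow_right_injective hq2 h5
        · rw [h3] at h1
          have : (0 : ℤ) ≤ q := by positivity
          linarith
    subst hb1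
    rw [pow_one] at h
    refine ⟨rfl, rfl, (Nat.prime_of_pow_sub_one_prime (a := 2) ?_ ?_).2, h.symm⟩
    · rintro rfl
      omega
    · rwa [h, Nat.add_sub_cancel]
  · right
    have hq2 : q = 2 := by
      by_contra h2
      have h3 : Odd (p ^ a) := hpo.pow
      rw [h] at h3
      exact (Nat.not_even_iff_odd.2 h3) (hq.odd_of_ne_two h2).pow.add_one
    subst hq2
    have hp2 := hp.two_le
    rcases Nat.even_or_odd a with ⟨c, rfl⟩ | hao
    · right
      obtain ⟨t, ht⟩ : Odd (p ^ c) := hpo.pow
      have h0 : 2 ≤ p ^ c := hp2.trans (Nat.le_self_pow (by omega) p)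
      rw [pow_add, ht] at h ⊢
      have h1 : (t : ℤ) * (4 * (t + 1)) = 2 ^ b := by
        have : ((2 * t + 1) * (2 * t + 1) : ℤ) = 2 ^ b + 1 := by exact_mod_cast h
        linear_combination this
      have h2 : t = 1 := by
        rcases Int.even_or_odd (t : ℤ) with h2 | h2
        · have := unit (t + 1) (4 * t) b h2.add_one (by linear_combination h1)
          omega
        · have := unit _ _ b h2 h1
          omega
      subst h2
      omega
    · left
      have h1 := geom_sum_mul (p : ℤ) a
      have h2 : (p : ℤ) ^ a = 2 ^ b + 1 := by exact_mod_cast h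
      have h3 := unit _ (p - 1) b (odd_geom p a (by exact_mod_cast hpo) hao)
        (by linear_combination h1 + h2)
      have h4 : (0 : ℤ) < 2 ^ b := by positivity
      have h6 : (2 : ℤ) ≤ p := by exact_mod_cast hp2
      rcases h3 with h3 | h3
      · rw [h3] at h1
        have h5 : p ^ a = p ^ 1 := by
          rw [pow_one]; exact_mod_cast (by linarith : (p : ℤ) ^ a = p)
        obtain rfl := Nat.pow_right_injective hp2 h5
        rw [pow_one] at h
        exact ⟨rfl, rfl, Nat.pow_of_pow_add_prime one_lt_two (by omega) (h ▸ hp), h⟩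
      · rw [h3] at h1
        linarith

end Cfsg.Agent.S3784
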