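import Mathlib
import Cfsg.Statements.S3802
import Cfsg.Agent.H2.SubnormalFam

set_option autoImplicit false
open Cfsg

namespace Cfsg.Agent.S3802

/-- Let G be a finite group, M a maximal subgroup of G and N a subnormal subgroup of G contained in M. Then N is contained in every conjugate of M, that is, N lies in the core of M in G. -/
theorem result {G : Type*} [Group G] [Finite G] (M N : Subgroup G) (hM : IsCoatom M) (hN : N.IsSubnormal) (hNM : N ≤ M) :
    N ≤ Subgroup.normalCore M := by
  obtain ⟨J, h1, h2, h3, h4⟩ := H2.exists_normal_or_normalizer_ne M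
  have h5 : Subgroup.normalizer (J : Set G) = ⊤ := by
    rcases eq_or_lt_of_le h2 with h | h
    · exact absurd (h4 h.symm) hM.1
    · exact hM.2 _ h
  have := Subgroup.normalizer_eq_top_iff.1 h5
  exact (h3 N hN hNM).trans (Subgroup.normal_le_normalCore.2 h1)

end Cfsg.Agent.S3802
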