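import Mathlib
import Cfsg.Statements.S3803
import Cfsg.Agent.BG.Rank2
import Cfsg.Agent.Transfer.OmegaFus
import Cfsg.Agent.Inv.WeakElem
import Cfsg.Agent.PGrp.Aut
import Cfsg.Agent.PGrp.Frattini
-- import your own Cfsg.Agent.* helpers here

set_option autoImplicit false
open Cfsg

namespace Cfsg.Agent.S3803

open Subgroup Cfsg.Agent.BG.Rank

variable {G : Type*} [Group G] [Finite G]

theorem key {Z M₀ : Subgroup G} (hZ : IsPGroup 2 Z) {a : G} (ha : Odd (orderOf a))
    (h : ∀ M : Subgroup G, M ≤ Z → Nat.card M * 2 = Nat.card Z → a ∈ normalizer (M : Set G))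
    (h0 : M₀ ≤ Z) (hc : Nat.card M₀ * 2 = Nat.card Z) {x : G} (hx : x ∈ M₀) : x * a = a * x := by
  have hM : ∀ M : Subgroup Z, IsCoatom M → Nat.card (M.map Z.subtype) * 2 = Nat.card Z :=
    fun M hM => by rw [card_subtype, ← PGrp.index_eq_of_isCoatom hZ hM, card_mul_index]
  by_cases haZ : a ∈ normalizer (Z : Set G)
  · refine (PGrp.actHom_eq_one_iff le_rfl (a := ⟨a, haZ⟩)).1 (PGrp.aut_eq_one_of_frattini hZ
      ((Nat.coprime_two_right.2 ha).coprime_dvd_left (PGrp.orderOf_actHom_dvd _ _))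
      fun y => PGrp.mem_frattini_iff.2 fun M hM' => ?_) x (h0 hx)
    rw [mul_mem_iff_of_index_two (PGrp.index_eq_of_isCoatom hZ hM'), inv_mem_iff,
      ← mem_map_iff_mem Z.subtype_injective (x := y), ← mem_map_iff_mem Z.subtype_injective]
    exact mem_normalizer_iff.1 (h _ (map_subtype_le _) (hM M hM')) y
  · have hidx : (M₀.subgroupOf Z).index = 2 := by
      have := Core.card_mul_relIndex h0
      rw [← hc] at this
      exact Nat.eq_of_mul_eq_mul_left Nat.card_pos this
    have hco := PGrp.isCoatom_of_index_prime Nat.prime_two hidx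
    obtain ⟨y, -, hy⟩ := SetLike.exists_of_lt hco.1.lt_top
    have hyZ : zpowers y = ⊤ := by
      by_contra hne
      obtain ⟨M, hM', hle⟩ := PGrp.exists_coatom_ge hne
      have : M₀.subgroupOf Z ⊔ M = ⊤ :=
        hco.2 _ (left_lt_sup.2 fun h' => hy (h' (hle (mem_zpowers y))))
      apply haZ
      have e : Z = M₀ ⊔ M.map Z.subtype := by
        rw [← map_subgroupOf_eq_of_le h0, ← Subgroup.map_sup, this, ← MonoidHom.range_eq_map,
          range_subtype]
      have := Core.le_normalizer_sup (zpowers_le.2 (h _ h0 hc))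
        (zpowers_le.2 (h _ (map_subtype_le _) (hM M hM'))) (mem_zpowers a)
      rwa [← e] at this
    have hcyc : IsCyclic Z := ⟨⟨y, fun g => (hyZ ▸ mem_top g : g ∈ zpowers y)⟩⟩
    have := normalizer_le_of_isCyclic (isCyclic_of_le h0) (zpowers_le.2 hx) (h _ h0 hc)
    exact (mul_inv_eq_iff_eq_mul.1 (Inv.conj_eq_of_odd_of_zpowers (hZ.to_le (zpowers_le.2 (h0 hx)))
      ((mem_normalizer_iff.1 this x).1 (mem_zpowers x)) ha)).symm

/-- Let P be a 2-subgroup and A a subgroup of odd order of a finite group, with A normalizing P. Let D ≤ P with 1 < |D| < |P|. If every subgroup of P of order |D|, and also every subgroup of P of order 4 in case |D| = 2, is normalized by A, then A centralizes P. -/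
theorem result {X : Type*} [Group X] [Finite X] (P A D : Subgroup X) (hP : IsPGroup 2 P) (hA : Odd (Nat.card A))
    (hAP : A ≤ Subgroup.normalizer (P : Set X)) (hDP : D ≤ P) (hD1 : 1 < Nat.card D) (hD2 : Nat.card D < Nat.card P)
    (hinv : ∀ E : Subgroup X, E ≤ P → (Nat.card E = Nat.card D ∨ (Nat.card D = 2 ∧ Nat.card E = 4)) → A ≤ Subgroup.normalizer (E : Set X)) :
    A ≤ Subgroup.centralizer (P : Set X) := by
  open Subgroup Cfsg.Agent.BG.Rank in
  intro a ha
  have ho : Odd (orderOf a) := hA.of_dvd_nat (orderOf_dvd_natCard A ha)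
  refine Transfer.mem_centralizer_of_fix_small hP (hAP ha) (Nat.coprime_two_right.2 ho)
    fun x hx h => ?_
  have h4 : x ^ 2 ^ 2 = 1 := by
    rcases h with h | ⟨-, h⟩
    · rw [pow_two 2, pow_mul, h, one_pow]
    · exact h
  obtain ⟨i, hi, hxi⟩ := (Nat.dvd_prime_pow Nat.prime_two).1 (orderOf_dvd_of_pow_eq_one h4)
  rw [← Nat.card_zpowers] at hxi
  obtain ⟨k, hk⟩ := IsPGroup.iff_card.1 (hP.to_le hDP)
  obtain ⟨m, hm⟩ := IsPGroup.iff_card.1 hP
  rw [hk, hm] at hD2
  have hkm := (Nat.pow_lt_pow_iff_right one_lt_two).1 hD2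
  by_cases hik : i ≤ k
  · obtain ⟨M, h1, h2, h3⟩ := exists_between_card_pow (zpowers_le.2 hx) hxi hik
      (hm ▸ pow_dvd_pow 2 hkm.le)
    obtain ⟨Z, h4, h5, h6⟩ := exists_between_card_pow h2 h3 k.le_succ (hm ▸ pow_dvd_pow 2 hkm)
    refine key (hP.to_le h5) ho (fun N hN hc => hinv N (hN.trans h5) (Or.inl ?_) ha) h4
      (by rw [h3, h6, pow_succ]) (h1 (mem_zpowers x))
    rw [h6, pow_succ] at hc
    omega
  · have hk0 : k ≠ 0 := by rintro rfl; omega
    obtain rfl : k = 1 := by omega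
    obtain rfl : i = 2 := by omega
    have := hinv _ (zpowers_le.2 hx) (Or.inr ⟨hk, hxi⟩) ha
    exact (mul_inv_eq_iff_eq_mul.1 (Inv.conj_eq_of_odd_of_zpowers (hP.to_le (zpowers_le.2 hx))
      ((mem_normalizer_iff.1 this x).1 (mem_zpowers x)) ho)).symm

end Cfsg.Agent.S3803
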