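import Mathlib
import Cfsg.Statements.S3815
import Cfsg.Agent.FGS.Basic2
import Cfsg.Agent.FGS.Super
import Cfsg.Agent.Core.Cores

set_option autoImplicit false
open Cfsg

namespace Cfsg.Agent.S3815

open Subgroup

/-- Let G be a finite group, p a prime and d ∈ G an element of order prime to p. If dg has order prime to p for every element g ∈ G of order prime to p, then d ∈ O_{p'}(G). -/
theorem result {G : Type*} [Group G] [Finite G] {p : ℕ} [Fact p.Prime]
    (d : G) (hd : (orderOf d).Coprime p)
    (h : ∀ g : G, (orderOf g).Coprime p → (orderOf (d * g)).Coprime p) :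
    d ∈ Cfsg.pPrimeCore p G := by
  let N : Subgroup G :=
    { carrier := {x | ∀ g : G, (orderOf g).Coprime p → (orderOf (x * g)).Coprime p}
      one_mem' := fun g hg => by rwa [one_mul]
      mul_mem' := fun {a b} ha hb g hg => by rw [mul_assoc]; exact ha _ (hb g hg)
      inv_mem' := fun {a} ha => by
        have key : ∀ n : ℕ, ∀ g : G, (orderOf g).Coprime p → (orderOf (a ^ n * g)).Coprime p := by
          intro n
          induction n with
          | zero => intro g hg; rwa [pow_zero, one_mul]
          | succ n ih => intro g hg; rw [pow_succ', mul_assoc]; exact ha _ (ih g hg)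
        obtain ⟨n, hn⟩ := mem_powers_iff_mem_zpowers.mpr (inv_mem (mem_zpowers a))
        exact hn ▸ key n }
  have hN : N.Normal := ⟨fun x hx g y hy => by
    have := hx (g⁻¹ * y * g⁻¹⁻¹) (by rwa [FGS.orderOf_conj])
    rw [← FGS.orderOf_conj g] at this
    convert this using 2
    group⟩
  refine le_sSup (s := {N : Subgroup G | N.Normal ∧ (Nat.card N).Coprime p}) ⟨hN, ?_⟩ (show d ∈ N from h)
  refine ((Nat.Prime.coprime_iff_not_dvd Fact.out).mpr fun hp => ?_).symm
  obtain ⟨x, hx, hxo⟩ := FGS.exists_prime_orderOf_mem Fact.out hp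
  have := hx 1 (by simp)
  rw [mul_one, hxo, Nat.coprime_self] at this
  exact (Fact.out : p.Prime).one_lt.ne' this

end Cfsg.Agent.S3815
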