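import Mathlib
import Cfsg.Statements.S3818
import Cfsg.Agent.Flav.B

set_option autoImplicit false
open Cfsg

namespace Cfsg.Agent.S3818

/-- Let G be a finite solvable group and P a subgroup of G of prime order p > 3 whose conjugates generate G. Let V be a faithful irreducible representation of G over a field of positive characteristic, finite-dimensional. Then the subspace of V fixed by P has dimension less than half the dimension of V. -/
theorem result {G : Type*} [Group G] [Finite G] [Group.IsSolvable G]
    {p : ℕ} [Fact p.Prime] (hp : 3 < p) (P : Subgroup G) (hP : Nat.card P = p) (hgen : Subgroup.normalClosure (P : Set G) = ⊤)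
    {k : Type*} [Field k] (ℓ : ℕ) [Fact ℓ.Prime] [CharP k ℓ]
    {V : Type*} [AddCommGroup V] [Module k V] [FiniteDimensional k V]
    (ρ : Representation k G V) [ρ.IsIrreducible] (hfaith : Function.Injective ρ) :
    2 * Module.finrank k ↥(⨅ g : ↥P, LinearMap.ker (ρ (g : G) - LinearMap.id)) < Module.finrank k V := by
  have hpp : p.Prime := Fact.out
  haveI : IsCyclic P := isCyclic_of_prime_card hP
  obtain ⟨x, rfl⟩ := BG.Amb.cyclic_iff_exists.1 this
  haveI : Nontrivial V := by
    by_contra h
    rw [not_nontrivial_iff_subsingleton] at h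
    exact bot_ne_top (α := Subrepresentation ρ)
      (Subrepresentation.toSubmodule_injective (Subsingleton.elim _ _))
  have e : (⨅ g : Subgroup.zpowers x, LinearMap.ker (ρ (g : G) - LinearMap.id)) =
      BG.RepGlue.fixSub ρ (Subgroup.zpowers x) := by
    ext v
    simp only [Submodule.mem_iInf, LinearMap.mem_ker, LinearMap.sub_apply, LinearMap.id_apply,
      sub_eq_zero, BG.RepGlue.mem_fixSub]
    exact ⟨fun h g hg => h ⟨g, hg⟩, fun h g => h g g.2⟩
  rw [e]
  refine Flav.main (ℓ := ℓ) inferInstance hpp ?_ (by rw [← Nat.card_zpowers, hP])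
    (fun N hN hx => top_le_iff.1 (hgen.ge.trans
      (Subgroup.normalClosure_le_normal (Subgroup.zpowers_le.2 hx)))) fun N hN h0 => ?_
  · rcases (show p = 4 ∨ 5 ≤ p by omega) with rfl | h
    · exact absurd hpp (by norm_num)
    · exact h
  · rcases eq_bot_or_eq_top (⟨BG.RepGlue.fixSub ρ N, fun g v hv => BG.RepFrob.apply_mem_fixSub ρ
      (Subgroup.le_normalizer_of_normal (Subgroup.mem_top g)) hv⟩ : Subrepresentation ρ) with h | h
    · exact congrArg Subrepresentation.toSubmodule h
    · refine absurd (eq_bot_iff.2 fun g hg => hfaith ?_) h0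
      rw [map_one]
      exact BG.RepGlue.fixSub_eq_top_iff.1 (congrArg Subrepresentation.toSubmodule h) g hg

end Cfsg.Agent.S3818
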