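import Mathlib
import Cfsg.Statements.S3821
import Cfsg.Agent.BG.AmbConj
import Cfsg.Agent.Core.SylowOf

set_option autoImplicit false
open Cfsg

namespace Cfsg.Agent.S3821

open Subgroup BG.Amb
open scoped Pointwise

/-- Let A be a normal subgroup of the finite group G and H a subgroup of A. Then H is pronormal in G (H and gHg⁻¹ conjugate inside ⟨H, gHg⁻¹⟩ for every g ∈ G) if and only if H is pronormal in A and G = A · N_G(H). -/
theorem result {G : Type*} [Group G] [Finite G] (A H : Subgroup G) [A.Normal] (hHA : H ≤ A) :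
    Cfsg.IsPronormal H ↔ (Cfsg.IsPronormal (H.subgroupOf A) ∧ A ⊔ Subgroup.normalizer (H : Set G) = ⊤) := by
  have hm : (H.subgroupOf A).map A.subtype = H := map_subgroupOf_eq_of_le hHA
  have key : ∀ a : A, (H.subgroupOf A ⊔ MulAut.conj a • H.subgroupOf A).map A.subtype =
      H ⊔ MulAut.conj (a : G) • H := fun a => by
    rw [Subgroup.map_sup, Core.map_subtype_conj_smul, hm]
  constructor
  · intro h
    refine ⟨fun a => ?_, eq_top_iff.mpr fun g _ => ?_⟩
    · obtain ⟨x, hx, e⟩ := h a
      change x ∈ H ⊔ MulAut.conj (a : G) • H at hx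
      rw [← key] at hx
      obtain ⟨x, hx, rfl⟩ := hx
      refine ⟨x, hx, map_injective A.subtype_injective ?_⟩
      change (MulAut.conj a • H.subgroupOf A).map _ = (MulAut.conj x • H.subgroupOf A).map _
      rw [Core.map_subtype_conj_smul, Core.map_subtype_conj_smul, hm]
      exact e
    · obtain ⟨x, hx, e⟩ := h g
      change MulAut.conj g • H = MulAut.conj x • H at e
      have hxA : x ∈ A := sup_le hHA (conj_le_of_mem_normalizer (le_normalizer_of_normal (mem_top g)) hHA) hx
      rw [← mul_inv_cancel_left x g]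
      refine mul_mem_sup hxA ?_
      rw [mem_normalizer_iff_conj, ← conj_conj, e, conj_inv_conj]
  · rintro ⟨h1, h2⟩ g
    obtain ⟨a, ha, n, hn, rfl⟩ := (Core.mem_sup_of_le_normalizer le_normalizer_of_normal).mp
      (h2 ▸ mem_top g)
    obtain ⟨x, hx, e⟩ := h1 ⟨a, ha⟩
    have e1 : MulAut.conj (a * n) • H = MulAut.conj a • H := by
      rw [← conj_conj, conj_eq_of_mem_normalizer hn]
    change ∃ x ∈ H ⊔ MulAut.conj (a * n) • H, MulAut.conj (a * n) • H = MulAut.conj x • H
    rw [e1]
    refine ⟨x, key ⟨a, ha⟩ ▸ ⟨x, hx, rfl⟩, ?_⟩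
    have := congrArg (Subgroup.map A.subtype) e
    change (MulAut.conj (⟨a, ha⟩ : A) • H.subgroupOf A).map _ = (MulAut.conj x • H.subgroupOf A).map _ at this
    rwa [Core.map_subtype_conj_smul, Core.map_subtype_conj_smul, hm] at this

end Cfsg.Agent.S3821
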