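import Mathlib
import Cfsg.Statements.S3822
import Cfsg.Agent.Flav.C

set_option autoImplicit false
open Cfsg

namespace Cfsg.Agent.S3822

/-- Let G be a finite group and P a subgroup of prime order p > 3. Consider the solvable subgroups A of G of the form A = ⟨P, aPa⁻¹⟩ for some a ∈ A, and let A be maximal under inclusion among them. Then for every nilpotent subgroup V of G normalized by A, the subgroup F(A)V generated by the Fitting subgroup of A and V is nilpotent. -/
theorem result {G : Type*} [Group G] [Finite G]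
    {p : ℕ} [Fact p.Prime] (hp : 3 < p) (P : Subgroup G) (hP : Nat.card P = p) (A : Subgroup G)
    (hA : Group.IsSolvable ↥A ∧ ∃ a ∈ A, A = P ⊔ P.map (MulAut.conj a).toMonoidHom)
    (hmax : ∀ B : Subgroup G, A ≤ B → Group.IsSolvable ↥B → (∃ b ∈ B, B = P ⊔ P.map (MulAut.conj b).toMonoidHom) → B = A)
    (V : Subgroup G) (hV : Group.IsNilpotent ↥V) (hAV : A ≤ Subgroup.normalizer (V : Set G)) :
    Group.IsNilpotent ↥((Cfsg.fittingSubgroup ↥A).map A.subtype ⊔ V) := by
  have hpp : p.Prime := Fact.out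
  haveI : IsCyclic P := isCyclic_of_prime_card hP
  obtain ⟨x, rfl⟩ := BG.Amb.cyclic_iff_exists.1 this
  obtain ⟨hs, a, ha, hA⟩ := hA
  rw [MonoidHom.map_zpowers] at hA
  refine Flav.nil_sup hpp ?_ (by rw [← hP, Nat.card_zpowers, pow_orderOf_eq_one]) hs ha hA
    (fun b h1 h2 h3 => hmax _ h1 h2 ⟨b, h3, by rw [MonoidHom.map_zpowers]; rfl⟩) hV hAV
  rcases (show p = 4 ∨ 5 ≤ p by omega) with rfl | h
  · exact absurd hpp (by norm_num)
  · exact h

end Cfsg.Agent.S3822
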