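import Mathlib
import Cfsg.Statements.S3825
-- import your own Cfsg.Agent.* helpers here

set_option autoImplicit false
open Cfsg

namespace Cfsg.Agent.S3825

/-- Let U be a subgroup of a finite group H and w an involution of H normalizing U and commuting with exactly two elements of U, the identity and y. If V is a non-cyclic elementary abelian 2-subgroup of U containing y which is normal in U and invariant under w, then V is a Sylow 2-subgroup of U, V has order 4, and U/V is abelian. -/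
theorem result {H : Type*} [Group H] [Finite H] (U : Subgroup H) (w : H) (hw : orderOf w = 2)
    (hwU : w ∈ Subgroup.normalizer (U : Set H)) (y : H) (hy : y ≠ 1) (hyU : y ∈ U)
    (hfix : ∀ u ∈ U, w * u * w⁻¹ = u ↔ (u = 1 ∨ u = y))
    (V : Subgroup H) (hVU : V ≤ U) (hVn : (V.subgroupOf U).Normal) (hVw : ∀ v ∈ V, w * v * w⁻¹ ∈ V)
    (hVe : Cfsg.IsElementaryAbelian 2 V) (hVc : ¬ IsCyclic ↥V) (hyV : y ∈ V) :
    ¬ 2 ∣ V.relIndex U ∧ Nat.card ↥V = 4 ∧ ⁅U, U⁆ ≤ V := by
  have hw2 : w * w = 1 := by rw [← pow_two, ← hw, pow_orderOf_eq_one]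
  have hww : ∀ u : H, w * (w * u * w⁻¹) * w⁻¹ = u := fun u => by
    calc _ = (w * w) * u * (w * w)⁻¹ := by group
      _ = u := by rw [hw2]; simp
  have hc : ∀ a ∈ V, ∀ b ∈ V, a * b = b * a := fun a ha b hb =>
    congrArg Subtype.val (hVe.1.is_comm.comm (⟨a, ha⟩ : V) ⟨b, hb⟩)
  have h2 : ∀ a ∈ V, a⁻¹ = a := fun a ha => by
    rw [inv_eq_iff_mul_eq_one, ← pow_two]; exact hVe.2 a ha
  have key : ∀ u ∈ U, u⁻¹ * (w * u * w⁻¹) ∈ V → u⁻¹ * (w * u * w⁻¹) = 1 ∨ u⁻¹ * (w * u * w⁻¹) = y :=
    fun u hu h => (hfix _ (hVU h)).1 (by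
      rw [← h2 _ h, ← h2 _ (hVw _ (V.inv_mem h))]
      calc _ = (w * u * w⁻¹)⁻¹ * (w * (w * u * w⁻¹) * w⁻¹) := by group
        _ = _ := by rw [hww]; group)
  obtain ⟨v, hv, hv1, hvy⟩ : ∃ v ∈ V, v ≠ 1 ∧ v ≠ y := by
    by_contra hn
    push Not at hn
    refine hVc ⟨⟨y, hyV⟩, fun x => ?_⟩
    by_cases h : (x : H) = 1
    · exact ⟨0, Subtype.ext (by simp [h])⟩
    · exact ⟨1, Subtype.ext (by simp [hn x x.2 h])⟩
  have hv' : ∀ x ∈ V, x ≠ 1 → x ≠ y → x⁻¹ * (w * x * w⁻¹) = y := fun x hx h1 h2 =>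
    (key x (hVU hx) (V.mul_mem (V.inv_mem hx) (hVw x hx))).resolve_left fun e =>
      ((hfix x (hVU hx)).1 (inv_mul_eq_one.1 e).symm).elim h1 h2
  have main : ∀ u ∈ U, u⁻¹ * (w * u * w⁻¹) ∈ V → u = 1 ∨ u = y ∨ u = v ∨ u = y * v :=
    fun u hu h => by
      rcases key u hu h with e | e
      · rcases (hfix u hu).1 (inv_mul_eq_one.1 e).symm with e | e
        · exact Or.inl e
        · exact Or.inr (Or.inl e)
      · have : w * (u * v) * w⁻¹ = u * v := by
          calc _ = u * (u⁻¹ * (w * u * w⁻¹)) * v * (v⁻¹ * (w * v * w⁻¹)) := by group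
            _ = u * v := by
              rw [e, hv' v hv hv1 hvy, mul_assoc u, hc y hyV v hv, mul_assoc, mul_assoc,
                ← pow_two, hVe.2 y hyV, mul_one]
        rcases (hfix _ (U.mul_mem hu (hVU hv))).1 this with e | e
        · exact Or.inr (Or.inr (Or.inl (by rw [← h2 v hv]; exact eq_inv_of_mul_eq_one_left e)))
        · exact Or.inr (Or.inr (Or.inr (by rw [← h2 v hv, ← e]; group)))
  have mainV : ∀ u ∈ U, u⁻¹ * (w * u * w⁻¹) ∈ V → u ∈ V := fun u hu h => by
    rcases main u hu h with rfl | rfl | rfl | rfl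
    exacts [V.one_mem, hyV, hv, V.mul_mem hyV hv]
  let c : U →* U :=
    { toFun := fun x => ⟨w * x * w⁻¹, (Subgroup.mem_normalizer_iff.1 hwU x).1 x.2⟩
      map_one' := Subtype.ext (by simp)
      map_mul' := fun x y => Subtype.ext (by simp [mul_assoc]) }
  let φ : U ⧸ V.subgroupOf U →* U ⧸ V.subgroupOf U :=
    QuotientGroup.map _ _ c fun x hx => hVw _ hx
  have hφ : MonoidHom.FixedPointFree φ := fun q hq => by
    induction q using QuotientGroup.induction_on with | H u => ?_
    have h' : (QuotientGroup.mk u : U ⧸ V.subgroupOf U) = QuotientGroup.mk (c u) := hq.symm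
    rw [QuotientGroup.eq] at h'
    exact (QuotientGroup.eq_one_iff _).2 (mainV u u.2 h')
  have hi : Function.Involutive φ := fun q => by
    induction q using QuotientGroup.induction_on with | H u => ?_
    exact congrArg QuotientGroup.mk (Subtype.ext (hww u) : c (c u) = u)
  refine ⟨fun h => ?_, ?_, Subgroup.commutator_le.2 fun a ha b hb => ?_⟩
  · exact (Nat.not_even_iff_odd.2 (hφ.odd_card_of_involutive hi)) (even_iff_two_dvd.2 h)
  · classical
    have : (V : Set H) = ↑({1, y, v, y * v} : Finset H) := by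
      ext x
      simp only [SetLike.mem_coe, Finset.coe_insert, Finset.coe_singleton, Set.mem_insert_iff,
        Set.mem_singleton_iff]
      refine ⟨fun hx => main x (hVU hx) (V.mul_mem (V.inv_mem hx) (hVw x hx)), ?_⟩
      rintro (rfl | rfl | rfl | rfl)
      exacts [V.one_mem, hyV, hv, V.mul_mem hyV hv]
    have h3 : y * v ≠ 1 := fun e => hvy (by rw [← h2 y hyV]; exact eq_inv_of_mul_eq_one_right e)
    rw [show Nat.card V = (V : Set H).ncard from Nat.card_coe_set_eq _, this, Set.ncard_coe_finset,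
      Finset.card_insert_of_notMem (by simp [hy.symm, hv1.symm, h3.symm]),
      Finset.card_insert_of_notMem (by simp [hvy.symm, hv1]),
      Finset.card_insert_of_notMem (by simp [hy]), Finset.card_singleton]
  · have := (hφ.commute_all_of_involutive hi (QuotientGroup.mk (⟨b, hb⟩⁻¹ : U))
      (QuotientGroup.mk (⟨a, ha⟩⁻¹ : U))).eq
    rw [← QuotientGroup.mk_mul, ← QuotientGroup.mk_mul, QuotientGroup.eq,
      Subgroup.mem_subgroupOf] at this
    simpa [commutatorElement_def, mul_assoc] using this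

end Cfsg.Agent.S3825
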