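import Cfsg.Statements.S3836
import Cfsg.Agent.Glaub.KMain

set_option autoImplicit false
open Cfsg

namespace Cfsg.Agent.S3836

open Cfsg.Agent.LocalEven Cfsg.Agent.Glaub

/-- Let G be a finite group that is p-stable in the normalizer form: for every p-subgroup Q and every x ∈ N_G(Q) with [Q, x, x] = 1, the image of x in N_G(Q)/C_G(Q) lies in O_p(N_G(Q)/C_G(Q)). Then every subgroup of G is p-stable in the same sense. -/
theorem result {G : Type*} [Group G] [Finite G] {p : ℕ} [Fact p.Prime] (hst : Cfsg.IsNormalizerPStable p G) (H : Subgroup G) : Cfsg.IsNormalizerPStable p ↥H := by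
  rw [stable_iff] at hst ⊢
  intro P hP g hg hq
  have hi := H.subtype_injective
  obtain ⟨D, h1, h2, h3, h4⟩ := hst _ (hP.map H.subtype) g (map_mem_norm H.subtype hg) (by
    have := congrArg (Subgroup.map H.subtype) hq
    rwa [Subgroup.map_commutator, Subgroup.map_commutator, MonoidHom.map_zpowers,
      Subgroup.map_bot] at this)
  refine ⟨D.comap H.subtype, fun x hx => mem_norm_of_map hi (h1 hx), fun x hx =>
    Subgroup.le_normalizer_comap _ (h2 (map_mem_norm H.subtype hx)), h3,
    pResOf_le_iff.2 fun x hx hc => mem_cent_of_map hi (h4 (mem_pResOf hx ?_))⟩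
  rwa [orderOf_injective _ hi]

end Cfsg.Agent.S3836
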