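import Mathlib
import Cfsg.Statements.S3838
import Cfsg.Agent.FGS.Basic2
import Cfsg.Agent.Transfer.Yoshida

set_option autoImplicit false
open Cfsg

namespace Cfsg.Agent.S3838

open Subgroup Cfsg.Agent.FGS
open scoped commutatorElement

theorem conj_eq {G : Type*} [Group G] [Finite G] {p : ℕ} [Fact p.Prime] (P : Sylow p G)
    (hN : Cfsg.HasNormalPComplement p ↥(Subgroup.normalizer ((P : Subgroup G) : Set G)))
    {g : G} (hg : g ∈ Subgroup.normalizer ((P : Subgroup G) : Set G)) :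
    ∃ x ∈ (P : Subgroup G), ∀ y ∈ (P : Subgroup G), g * y * g⁻¹ = x * y * x⁻¹ := by
  obtain ⟨k, hk, x, hx, hkx⟩ := Transfer.exists_mul_eq_of_sylow (P.subtype le_normalizer) ⟨g, hg⟩
  have hk' := (Transfer.mem_pResidual_iff_coprime hN).mp hk
  have hc := Transfer.mem_centralizer_of_hasNormalPComplement hN (P.subtype le_normalizer).isPGroup'
    (g := k) (by
      have : ((P.subtype le_normalizer : Sylow p _) : Subgroup ↥(Subgroup.normalizer ((P : Subgroup G) : Set G))).Normal := by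
        rw [Sylow.coe_subtype]; exact normal_in_normalizer
      exact (normalizer_eq_top _).ge (mem_top k)) hk'
  refine ⟨x, hx, fun y hy => ?_⟩
  have h1 : (x : G) * y * (x : G)⁻¹ ∈ (P : Subgroup G) := mul_mem (mul_mem hx hy) (inv_mem hx)
  have h2 := congrArg Subtype.val (mem_centralizer_iff.mp hc ⟨_, le_normalizer h1⟩ h1)
  have h3 : g = k * x := (congrArg Subtype.val hkx).symm
  simp only [coe_mul] at h2
  rw [h3]
  calc (k : G) * x * y * ((k : G) * x)⁻¹ = k * (x * y * (x : G)⁻¹) * (k : G)⁻¹ := by group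
    _ = x * y * (x : G)⁻¹ := by rw [← h2]; group

theorem aux {G : Type*} [Group G] [Finite G] {p : ℕ} [Fact p.Prime] (P : Sylow p G)
    (hN : ∀ g ∈ Subgroup.normalizer ((P : Subgroup G) : Set G),
      ∃ x ∈ (P : Subgroup G), ∀ y ∈ (P : Subgroup G), g * y * g⁻¹ = x * y * x⁻¹)
    (Q : Subgroup G) [Q.Normal] (h1 : ∀ x ∈ (P : Subgroup G), ∀ y ∈ (P : Subgroup G), ⁅x, y⁆ ∈ Q)
    (h2 : Q ≤ (frattini ↥(P : Subgroup G)).map (P : Subgroup G).subtype) :
    Cfsg.HasNormalPComplement p G := by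
  have hQP : Q ≤ P := h2.trans (map_subtype_le _)
  have hs := QuotientGroup.mk'_surjective Q
  have hq : Cfsg.HasNormalPComplement p (G ⧸ Q) := by
    refine Transfer.hasNormalPComplement_of_normalizer_le_centralizer (P.mapSurjective hs) ?_
    intro g hg
    obtain ⟨g, rfl⟩ := hs g
    have hg' : g ∈ Subgroup.normalizer ((P : Subgroup G) : Set G) := by
      have e : (P : Subgroup G) = ((P : Subgroup G).map (QuotientGroup.mk' Q)).comap (QuotientGroup.mk' Q) := by
        rw [comap_map_eq, QuotientGroup.ker_mk', sup_eq_left.mpr hQP]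
      rw [e]
      exact le_normalizer_comap _ hg
    obtain ⟨x, hx, h⟩ := hN g hg'
    rw [mem_centralizer_iff]
    rintro _ ⟨y, hy, rfl⟩
    have h3 : QuotientGroup.mk' Q ⁅x, y⁆ = 1 := (QuotientGroup.eq_one_iff _).mpr (h1 x hx y hy)
    have h4 : g * y = ⁅x, y⁆ * (y * g) := by
      rw [commutatorElement_def, ← h y hy]; group
    rw [← map_mul, ← map_mul, h4, map_mul _ ⁅x, y⁆, h3, one_mul]
  refine Transfer.hasNormalPComplement_of_le_frattini P (le_trans ?_ h2)
  rw [Transfer.hasNormalPComplement_iff_inf_eq_bot (P.mapSurjective hs)] at hq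
  intro x hx
  have : QuotientGroup.mk' Q x ∈ ((P.mapSurjective hs : Sylow p _) : Subgroup (G ⧸ Q)) ⊓ pResidual p (G ⧸ Q) :=
    ⟨⟨x, hx.1, rfl⟩, Transfer.map_pResidual_le _ ⟨x, hx.2, rfl⟩⟩
  rw [hq] at this
  exact (QuotientGroup.eq_one_iff _).mp this

/-- Let G be a finite group with Sylow p-subgroup P such that N_G(P) has a normal p-complement. Then N_G(Q) has a normal p-complement for every subgroup Q with [P, P] ≤ Q ≤ Φ(P). -/
theorem result {G : Type*} [Group G] [Finite G] {p : ℕ} [Fact p.Prime] (P : Sylow p G) (hN : Cfsg.HasNormalPComplement p ↥(Subgroup.normalizer ((P : Subgroup G) : Set G))) (Q : Subgroup G) (h1 : (commutator ↥(P : Subgroup G)).map (P : Subgroup G).subtype ≤ Q) (h2 : Q ≤ (frattini ↥(P : Subgroup G)).map (P : Subgroup G).subtype) : Cfsg.HasNormalPComplement p ↥(Subgroup.normalizer (Q : Set G)) := by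
  have hQP : Q ≤ P := h2.trans (map_subtype_le _)
  have h1' : ∀ x ∈ (P : Subgroup G), ∀ y ∈ (P : Subgroup G), ⁅x, y⁆ ∈ Q := fun x hx y hy =>
    h1 ⟨⁅(⟨x, hx⟩ : (P : Subgroup G)), ⟨y, hy⟩⁆, commutator_mem_commutator (mem_top _) (mem_top _), rfl⟩
  have hPN : (P : Subgroup G) ≤ Subgroup.normalizer (Q : Set G) := by
    intro x hx
    refine mem_normalizer_fintype fun y hy => ?_
    have : x * y * x⁻¹ = ⁅x, y⁆ * y := by rw [commutatorElement_def]; group
    rw [this]
    exact mul_mem (h1' x hx y (hQP hy)) hy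
  haveI : (Q.subgroupOf (Subgroup.normalizer (Q : Set G))).Normal := normal_in_normalizer
  refine aux (P.subtype hPN) ?_ (Q.subgroupOf _) (fun x hx y hy => h1' x hx y hy) ?_
  · intro g hg
    have hg' : (g : G) ∈ Subgroup.normalizer ((P : Subgroup G) : Set G) := by
      refine mem_normalizer_fintype fun y hy => ?_
      exact (mem_normalizer_iff.mp hg ⟨y, hPN hy⟩).mp hy
    obtain ⟨x, hx, h⟩ := conj_eq P hN hg'
    exact ⟨⟨x, hPN hx⟩, hx, fun y hy => Subtype.ext (h y hy)⟩
  · intro x hx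
    obtain ⟨y, hy, hyx⟩ := h2 hx
    let e := (subgroupOfEquivOfLe hPN).symm
    have := frattini_le_comap_frattini_of_surjective (φ := e.toMonoidHom) e.surjective hy
    exact ⟨e y, this, Subtype.ext hyx⟩

end Cfsg.Agent.S3838
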