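import Cfsg.Statements.S3839
import Cfsg.Agent.Glaub.Alperin
import Cfsg.Agent.S0071
import Cfsg.Agent.Core.Coprime

set_option autoImplicit false
open Cfsg

namespace Cfsg.Agent.S3839

open Cfsg.Agent.LocalEven Cfsg.Agent.Glaub

open Subgroup

variable {G : Type*} [Group G] [Finite G] {p : ℕ} [hp : Fact p.Prime]

def Cp (p : ℕ) (Q A : Subgroup G) : Prop := ∀ g ∈ A, Nat.Coprime (orderOf g) p → g ∈ 𝐂⟮Q⟯

theorem cp_iff {Q A : Subgroup G} (hA : A ≤ 𝐍⟮Q⟯) :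
    Cp p Q A ↔ IsPGroup p ((A.subgroupOf 𝐍⟮Q⟯).map Q.normalizerMonoidHom) := by
  have hk : ∀ x : 𝐍⟮Q⟯, Q.normalizerMonoidHom x = 1 ↔ (x : G) ∈ 𝐂⟮Q⟯ := fun x => by
    rw [← MonoidHom.mem_ker, normalizerMonoidHom_ker, mem_subgroupOf]
  rw [isPGroup_iff_mem]
  constructor
  · rintro h _ ⟨x, hx, rfl⟩
    refine ⟨(orderOf (x : G)).factorization p, ?_⟩
    rw [← map_pow, hk]
    refine h _ (A.pow_mem hx _) ?_
    have h0 : orderOf (x : G) ≠ 0 := (orderOf_pos _).ne'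
    rw [coe_pow, orderOf_pow' _ (pow_ne_zero _ hp.out.ne_zero),
      Nat.gcd_eq_right (Nat.ordProj_dvd _ _)]
    exact (Nat.coprime_ordCompl hp.out h0).symm
  · intro h g hg hc
    obtain ⟨k, hk'⟩ := h _ ⟨⟨g, hA hg⟩, hg, rfl⟩
    have h1 : Q.normalizerMonoidHom ⟨g, hA hg⟩ ^ orderOf g = 1 := by
      rw [← map_pow]
      have : (⟨g, hA hg⟩ : 𝐍⟮Q⟯) ^ orderOf g = 1 := Subtype.ext (pow_orderOf_eq_one g)
      rw [this, map_one]
    exact (hk ⟨g, hA hg⟩).1 ((pow_eq_one_iff_of_coprime (hc.pow_right k)).1 ⟨h1, hk'⟩)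

theorem cp_sup {Q A B : Subgroup G} (hA : A ≤ 𝐍⟮Q⟯) (hB : B ≤ 𝐍⟮Q⟯) (hn : A ≤ 𝐍⟮B⟯)
    (h1 : Cp p Q A) (h2 : Cp p Q B) : Cp p Q (A ⊔ B) := by
  rw [cp_iff (sup_le hA hB), subgroupOf_sup hA hB, Subgroup.map_sup]
  refine isPGroup_sup ((cp_iff hA).1 h1) ((cp_iff hB).1 h2) (le_normalizer_of_cj_le ?_)
  rintro _ ⟨a, ha, rfl⟩
  rw [cj_le_iff']
  rintro _ ⟨b, hb, rfl⟩
  refine ⟨a * b * a⁻¹, (conj_mem_of_mem_normalizer (hn ha) hb : (a : G) * b * (a : G)⁻¹ ∈ B), by simp⟩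

theorem cp_of_isPGroup {Q A : Subgroup G} (h : IsPGroup p A) : Cp p Q A := by
  intro g hg hc
  obtain ⟨k, hk⟩ := isPGroup_iff_mem.1 h g hg
  rw [(pow_eq_one_iff_of_coprime (hc.pow_right k)).1 ⟨pow_orderOf_eq_one g, hk⟩]
  exact one_mem _

def stab (Q U : Subgroup G) (hU : 𝐍⟮Q⟯ ≤ 𝐍⟮U⟯) : Subgroup G where
  carrier := {h | h ∈ 𝐍⟮Q⟯ ∧ h ∈ 𝐂⟮U⟯ ∧ ∀ x ∈ Q, h * x * h⁻¹ * x⁻¹ ∈ U}
  one_mem' := ⟨one_mem _, one_mem _, fun x _ => by simp⟩
  mul_mem' := by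
    rintro a b ⟨a1, a2, a3⟩ ⟨b1, b2, b3⟩
    refine ⟨mul_mem a1 b1, mul_mem a2 b2, fun x hx => ?_⟩
    have := U.mul_mem (conj_mem_of_mem_normalizer (hU a1) (b3 x hx)) (a3 x hx)
    convert this using 1; group
  inv_mem' := by
    rintro a ⟨a1, a2, a3⟩
    refine ⟨inv_mem a1, inv_mem a2, fun x hx => ?_⟩
    have := U.inv_mem (inv_conj_mem_of_mem_normalizer (hU a1) (a3 x hx))
    convert this using 1; group

/-- A Frobenius normal p-complement criterion relative to a strongly closed subgroup. Let G be a finite group, S a Sylow p-subgroup and D a subgroup of S strongly closed in S with respect to G. Then G has a normal p-complement if and only if N_G(U) has a normal p-complement for every subgroup U of D with C_D(U) ≤ U. -/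
theorem result {G : Type*} [Group G] [Finite G] {p : ℕ} [Fact p.Prime] (S : Sylow p G) (D : Subgroup G) (hD : Cfsg.IsStronglyClosed D (S : Subgroup G)) : Cfsg.HasNormalPComplement p G ↔ ∀ U : Subgroup G, U ≤ D → D ⊓ Subgroup.centralizer (U : Set G) ≤ U → Cfsg.HasNormalPComplement p ↥(Subgroup.normalizer (U : Set G)) := by
  refine ⟨fun h U _ _ => Transfer.hasNormalPComplement_subgroup h _, fun h => ?_⟩
  refine ⟨S, (S0071.result S).2 ?_⟩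
  have hS := isSylowIn_top S
  have hSD : (S : Subgroup G) ≤ 𝐍⟮D⟯ := le_normalizer_of_cj_le fun g hg => cj_le_iff'.2 fun x hx =>
    hD.2 x hx g (mul_mem (mul_mem hg (hD.1 hx)) (inv_mem hg))
  refine down_sub (Φ := fun Q => Q ≤ (S : Subgroup G) → Cp p Q 𝐍⟮Q⟯) id fun Q₀ ih₀ hQ₀ => ?_
  obtain ⟨y, -, hQ, hext, -⟩ := exists_ext' hS hQ₀
  suffices hh : Cp p (cj y Q₀) 𝐍⟮cj y Q₀⟯ by
    intro g hg hc
    have := hh _ (conj_mem_norm (g := y) hg) (by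
      rwa [show y * g * y⁻¹ = MulAut.conj y g from rfl, MulEquiv.orderOf_eq])
    have := inv_conj_mem_cent this
    simpa [mul_assoc] using this
  have ih : ∀ R : Subgroup G, Nat.card (cj y Q₀) < Nat.card R → R ≤ (S : Subgroup G) → Cp p R 𝐍⟮R⟯ := by
    intro R hR; rw [card_cj] at hR; exact ih₀ R hR
  generalize cj y Q₀ = Q at *
  have hQp : IsPGroup p Q := S.2.to_le hQ
  set U := Q ⊓ D with hUd
  have hU : 𝐍⟮Q⟯ ≤ 𝐍⟮U⟯ := le_normalizer_of_cj_le fun g hg => cj_le_iff'.2 fun x hx =>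
    ⟨conj_mem_of_mem_normalizer hg hx.1, hD.2 x hx.2 g (hQ (conj_mem_of_mem_normalizer hg hx.1))⟩
  set Y := stab Q U hU with hYd
  have hYN : Y ≤ 𝐍⟮Q⟯ := fun x hx => hx.1
  have hNY : 𝐍⟮Q⟯ ≤ 𝐍⟮Y⟯ := le_normalizer_of_cj_le fun g hg => cj_le_iff'.2 fun x hx => by
    refine ⟨mul_mem (mul_mem hg hx.1) (inv_mem hg),
      conj_mem_of_mem_normalizer (le_normalizer_centralizer hU hg) hx.2.1, fun z hz => ?_⟩
    have := conj_mem_of_mem_normalizer (hU hg) (hx.2.2 _ (inv_conj_mem_of_mem_normalizer hg hz))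
    convert this using 1; group
  have hYc : Cp p Q Y := by
    intro g hg hc
    have := Core.le_centralizer_of_commutator_le_of_centralizes (zpowers g) Q U (by
      obtain ⟨k, hk⟩ := (IsPGroup.iff_card (p := p)).1 (hQp.to_le (inf_le_left : U ≤ Q))
      rw [hk, Nat.card_zpowers]; exact hc.pow_right k) (zpowers_le.2 hg.2.1) (by
      rw [commutator_comm, commutator_le]
      intro a ha x hx
      exact ((zpowers_le (H := Y)).2 hg ha).2.2 x hx)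
    exact this (mem_zpowers g)
  have hW : Cp p Q (Q ⊔ Y) := cp_sup le_normalizer hYN (le_normalizer.trans hNY)
    (cp_of_isPGroup hQp) hYc
  have hWN : Q ⊔ Y ≤ 𝐍⟮Q⟯ := sup_le le_normalizer hYN
  have hNW : 𝐍⟮Q⟯ ≤ 𝐍⟮(Q ⊔ Y : Subgroup G)⟯ := le_normalizer_sup le_rfl hNY
  have hT : IsSylowIn p ((S : Subgroup G) ⊓ 𝐍⟮Q⟯) 𝐍⟮Q⟯ := by
    have : IsSylowIn p ((S : Subgroup G) ⊓ 𝐍⟮Q⟯) (⊤ ⊓ 𝐍⟮Q⟯) := hext
    rwa [top_inf_eq] at this
  have hR := hT.inf_of_le_normalizer hWN hNW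
  set R := (S : Subgroup G) ⊓ 𝐍⟮Q⟯ ⊓ (Q ⊔ Y) with hRd
  have hQR : Q ≤ R := le_inf (le_inf hQ le_normalizer) le_sup_left
  rcases hQR.lt_or_eq with hlt | heq
  · have h1 := ih R (card_lt_of_lt hlt) (inf_le_left.trans inf_le_left)
    rw [← hR.frattini_sup hWN hNW, sup_comm]
    refine cp_sup inf_le_left hWN (inf_le_left.trans hNW) (fun g hg hc => ?_) hW
    exact cent_anti hQR (h1 g hg.2 hc)
  · have hX : D ⊓ 𝐂⟮U⟯ ≤ U := by
      have hXp : IsPGroup p (D ⊓ 𝐂⟮U⟯ : Subgroup G) := S.2.to_le (inf_le_left.trans hD.1)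
      have hQX : Q ≤ 𝐍⟮(D ⊓ 𝐂⟮U⟯ : Subgroup G)⟯ :=
        le_normalizer_inf (hQ.trans hSD) (le_normalizer_centralizer (le_normalizer.trans hU))
      suffices hh : D ⊓ 𝐂⟮U⟯ ≤ Q from le_inf hh inf_le_left
      by_contra hn
      have hlt : Q < Q ⊔ (D ⊓ 𝐂⟮U⟯) := left_lt_sup.2 hn
      obtain ⟨x, hx, hxn, hxQ⟩ := exists_mem_normalizer_of_lt (isPGroup_sup hQp hXp hQX) hlt
      obtain ⟨a, ha, b, hb, rfl⟩ := (mem_sup_iff_of_le_normalizer hQX).1 hx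
      have hbn : b ∈ 𝐍⟮Q⟯ := (mul_mem_cancel_left (le_normalizer ha)).1 hxn
      have hbY : b ∈ Y := ⟨hbn, hb.2, fun x hx => mem_inf.2
        ⟨Q.mul_mem (conj_mem_of_mem_normalizer hbn hx) (Q.inv_mem hx), by
        have := D.mul_mem hb.1 (conj_mem_of_mem_normalizer (hSD (hQ hx)) (D.inv_mem hb.1))
        convert this using 1; group⟩⟩
      have : b ∈ R := ⟨⟨hD.1 hb.1, hbn⟩, mem_sup_right hbY⟩
      exact hxQ (mul_mem ha (heq ▸ this))
    have hn := h U inf_le_right hX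
    intro g hg hc
    have := Transfer.mem_centralizer_of_hasNormalPComplement hn (Q := Q.subgroupOf 𝐍⟮U⟯)
      (isPGroup_subgroupOf hQp) (g := ⟨g, hU hg⟩) (mem_normalizer_of_cj_le (cj_le_iff'.2 fun x hx =>
        (conj_mem_of_mem_normalizer hg hx : g * (x : G) * g⁻¹ ∈ Q))) (by rwa [← orderOf_coe])
    rw [mem_centralizer_iff] at this ⊢
    intro x hx
    exact congrArg Subtype.val (this ⟨x, hU (le_normalizer hx)⟩ hx)

end Cfsg.Agent.S3839
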