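import Mathlib
import Cfsg.Statements.S3857
import Cfsg.Agent.FGS.GK

set_option autoImplicit false
open Cfsg

namespace Cfsg.Agent.S3857

open Subgroup FGS

theorem main {G : Type*} [Group G] [Finite G] [Group.IsSolvable G] {π : Set ℕ} (h : Dis π G) (h0 : piCore π G ≠ ⊥)
    {b : ℕ} (hb : b.Prime) (hbπ : b ∉ π) (hd : b ∣ Nat.card G) :
    (∃ C : Subgroup G, Cfsg.IsFrobeniusComplement C) ∨
    (∃ (H K : Subgroup G) (_ : H.Normal), K.Normal ∧ H < K ∧
      (∃ C : Subgroup ↥K, Cfsg.IsFrobeniusComplement C ∧ Cfsg.frobeniusKernel C = (H.subgroupOf K : Set ↥K)) ∧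
      (∃ C : Subgroup (G ⧸ H), Cfsg.IsFrobeniusComplement C ∧
        Cfsg.frobeniusKernel C = (K.map (QuotientGroup.mk' H) : Set (G ⧸ H)))) := by
  have h1 : piCore π G ≠ ⊤ := fun e => hbπ (Core.piCore_eq_top_iff.mp e b hb hd)
  obtain ⟨-, h2⟩ := h.hall_quot h0
  by_cases h3 : piCore πᶜ (G ⧸ piCore π G) = ⊤
  · obtain ⟨C, hC, -⟩ := h.frob ⟨Core.piCore_isPiSubgroup π, fun p hp hπ e =>
      Core.piCore_eq_top_iff.mp h3 p hp e hπ⟩ h0 h1
    exact Or.inl ⟨C, hC⟩
  have : Nontrivial (G ⧸ piCore π G) := QuotientGroup.nontrivial_iff.mpr h1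
  have h4 := (piCore_ne_or (G := G ⧸ piCore π G) π).resolve_left (not_not.mpr (Core.piCore_quotient_piCore π))
  set K := (piCore πᶜ (G ⧸ piCore π G)).comap (QuotientGroup.mk' _) with hK
  have h5 : K.map (QuotientGroup.mk' _) = piCore πᶜ (G ⧸ piCore π G) :=
    map_comap_eq_self_of_surjective (QuotientGroup.mk'_surjective _) _
  have h6 : piCore π G ≤ K := (QuotientGroup.ker_mk' _).ge.trans (ker_le_comap _ _)
  have h7 : ¬ K ≤ piCore π G := fun e => h4 (by
    rw [← h5, Subgroup.map_eq_bot_iff, QuotientGroup.ker_mk']; exact e)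
  refine Or.inr ⟨piCore π G, K, inferInstance, inferInstance, lt_of_le_not_ge h6 h7, ?_, ?_⟩
  · refine (h.sub K).frob ⟨fun p hp e => Core.piCore_isPiSubgroup π p hp
      (by rwa [Nat.card_congr (subgroupOfEquivOfLe h6).toEquiv] at e), fun p hp hπ e => h2.1 p hp ?_ hπ⟩
      (fun e => h0 (by rw [subgroupOf_eq_bot] at e; exact e.eq_bot_of_le h6)) (fun e => h7 (subgroupOf_eq_top.mp e))
    rw [← h5, ← relIndex_ker, QuotientGroup.ker_mk']
    exact e
  · rw [h5]
    exact (h.quot _).compl.frob h2 h4 h3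

/-- A finite solvable group whose prime graph (prime divisors of the order, two distinct primes joined when there is an element of order their product) is disconnected is a Frobenius group or a 2-Frobenius group (it has normal subgroups H < K with K a Frobenius group with kernel H and G/H a Frobenius group with kernel K/H). -/
theorem result {G : Type*} [Group G] [Finite G] (hsol : Group.IsSolvable G)
    (hdisc : (∃ A : Set ℕ, (∃ a ∈ A, a.Prime ∧ a ∣ Nat.card G) ∧ (∃ b ∉ A, b.Prime ∧ b ∣ Nat.card G) ∧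
      ∀ a ∈ A, ∀ b ∉ A, a.Prime → b.Prime → a ∣ Nat.card G → b ∣ Nat.card G → ¬ ∃ g : G, orderOf g = a * b)) :
    (∃ C : Subgroup G, Cfsg.IsFrobeniusComplement C) ∨
    (∃ (H K : Subgroup G) (_ : H.Normal), K.Normal ∧ H < K ∧
      (∃ C : Subgroup ↥K, Cfsg.IsFrobeniusComplement C ∧ Cfsg.frobeniusKernel C = (H.subgroupOf K : Set ↥K)) ∧
      (∃ C : Subgroup (G ⧸ H), Cfsg.IsFrobeniusComplement C ∧ Cfsg.frobeniusKernel C = (K.map (QuotientGroup.mk' H) : Set (G ⧸ H)))) := by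
  obtain ⟨A, ⟨a, ha1, ha2, ha3⟩, ⟨b, hb1, hb2, hb3⟩, h⟩ := hdisc
  have h1 := dis_of h
  have : Nontrivial G := Finite.one_lt_card_iff_nontrivial.mp (ha2.one_lt.trans_le (Nat.le_of_dvd Nat.card_pos ha3))
  rcases piCore_ne_or (G := G) A with h0 | h0
  · exact main h1 h0 hb2 hb1 hb3
  · exact main h1.compl h0 ha2 (not_not.mpr ha1) ha3

end Cfsg.Agent.S3857
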