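import Mathlib
import Cfsg.Statements.S3859
import Cfsg.Agent.Core.SylowOf
import Cfsg.Agent.PGrp.Basic
-- import your own Cfsg.Agent.* helpers here

set_option autoImplicit false
open Cfsg

namespace Cfsg.Agent.S3859

theorem normalizer_ne_top {G : Type*} [Group G] [Finite G] (T : Subgroup G) [T.Normal]
    (hT : IsSimpleGroup T) (hna : ¬ IsMulCommutative T) {r : ℕ} [Fact r.Prime] {R : Subgroup G}
    (hR : IsPGroup r R) (hR0 : R ⊓ T ≠ ⊥) :
    Subgroup.normalizer ((R ⊓ T : Subgroup G) : Set G) ≠ ⊤ := fun h => by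
  haveI := Subgroup.normalizer_eq_top_iff.1 h
  rcases (inferInstance : ((R ⊓ T).subgroupOf T).Normal).eq_bot_or_eq_top with e | e
  · exact hR0 (by
      rw [Subgroup.subgroupOf_eq_bot, disjoint_iff, inf_assoc, inf_idem] at e; exact e)
  · have hp : IsPGroup r T := hR.to_le ((Subgroup.subgroupOf_eq_top.1 e).trans inf_le_left)
    haveI := hp.isNilpotent
    exact hna (IsSimpleGroup.comm_iff_isSolvable.2 inferInstance |> fun h => ⟨⟨h⟩⟩)

/-- Let G be a finite group with a normal non-abelian simple subgroup T whose centralizer is trivial (G almost simple with socle T), r a prime and R a Sylow r-subgroup of G meeting T nontrivially. If R lies in exactly one maximal subgroup of G, then G/T is an r-group. -/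
theorem result {G : Type*} [Group G] [Finite G] (T : Subgroup G) [T.Normal] (hT : IsSimpleGroup T) (hna : ¬ IsMulCommutative T)
    (hC : Subgroup.centralizer (T : Set G) = ⊥) {r : ℕ} [Fact r.Prime] (R : Sylow r G) (hR0 : (R : Subgroup G) ⊓ T ≠ ⊥)
    (huniq : ∃! M : Subgroup G, IsCoatom M ∧ (R : Subgroup G) ≤ M) : IsPGroup r (G ⧸ T) := by
  obtain ⟨M, ⟨hM, -⟩, hu⟩ := huniq
  have hle : ∀ H : Subgroup G, (R : Subgroup G) ≤ H → H ≠ ⊤ → H ≤ M := fun H h1 h2 => by
    obtain ⟨M', hM', h3⟩ := PGrp.exists_coatom_ge h2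
    rw [← hu M' ⟨hM', h1.trans h3⟩]; exact h3
  have h1 : (R : Subgroup G) ⊔ T = ⊤ := by
    by_contra h
    have h2 := hle _ (Core.le_normalizer_inf Subgroup.le_normalizer
      (by rw [Subgroup.normalizer_eq_top]; exact le_top)) (normalizer_ne_top T hT hna R.2 hR0)
    have h3 := (Core.isSylowOf_sylow_inf_normal R T).frattini_top
    exact hM.1 (eq_top_iff.2 (h3 ▸ sup_le (le_sup_right.trans (hle _ le_sup_left h)) h2))
  have h2 := R.2.map (QuotientGroup.mk' T)
  have h3 : (R : Subgroup G).map (QuotientGroup.mk' T) = ⊤ := by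
    have := congrArg (Subgroup.map (QuotientGroup.mk' T)) h1
    rwa [Subgroup.map_sup, (Subgroup.map_eq_bot_iff _).2 (QuotientGroup.ker_mk' T).ge, sup_bot_eq,
      Subgroup.map_top_of_surjective _ (QuotientGroup.mk'_surjective T)] at this
  rw [h3] at h2
  exact h2.of_equiv Subgroup.topEquiv

end Cfsg.Agent.S3859
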