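import Mathlib
import Cfsg.Statements.S3858
import Cfsg.Agent.S3859
import Cfsg.Agent.Core.Coprime
import Cfsg.Agent.FGS.Basic
import Cfsg.Agent.BG.AmbConj
-- import your own Cfsg.Agent.* helpers here

set_option autoImplicit false
open Cfsg

namespace Cfsg.Agent.S3858

open scoped Pointwise

/-- Let G be a finite group with a normal non-abelian simple subgroup T whose centralizer is trivial (G almost simple with socle T), r a prime and R a Sylow r-subgroup of G meeting T nontrivially. Then R lies in exactly one maximal subgroup of G if and only if G has exactly one conjugacy class of maximal subgroups whose index is prime to r. -/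
theorem result {G : Type*} [Group G] [Finite G] (T : Subgroup G) [T.Normal] (hT : IsSimpleGroup T) (hna : ¬ IsMulCommutative T)
    (hC : Subgroup.centralizer (T : Set G) = ⊥) {r : ℕ} [Fact r.Prime] (R : Sylow r G) (hR0 : (R : Subgroup G) ⊓ T ≠ ⊥) :
    (∃! M : Subgroup G, IsCoatom M ∧ (R : Subgroup G) ≤ M) ↔
      ((∃ M : Subgroup G, IsCoatom M ∧ ¬ r ∣ M.index) ∧
        ∀ M₁ M₂ : Subgroup G, IsCoatom M₁ → ¬ r ∣ M₁.index → IsCoatom M₂ → ¬ r ∣ M₂.index → ∃ g : G, M₂ = M₁.map (MulAut.conj g).toMonoidHom) := by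
  have hN : Subgroup.normalizer ((R : Subgroup G) : Set G) ≠ ⊤ := fun h =>
    S3859.normalizer_ne_top T hT hna R.2 hR0 (eq_top_iff.2 (Core.le_normalizer_inf h.ge
      (by rw [Subgroup.normalizer_eq_top])))
  have ex : ∀ M : Subgroup G, ¬ r ∣ M.index → ∃ g : G, (R : Subgroup G) ≤ MulAut.conj g • M :=
    fun M h => by
      obtain ⟨P, hP⟩ := FGS.exists_sylow_le_of_not_dvd_index h
      obtain ⟨g, hg⟩ := MulAction.exists_smul_eq G P R
      refine ⟨g, ?_⟩
      rw [← hg, Sylow.coe_subgroup_smul]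
      exact Subgroup.pointwise_smul_le_pointwise_smul_iff.2 hP
  constructor
  · rintro ⟨M, ⟨hM, hRM⟩, hu⟩
    refine ⟨⟨M, hM, FGS.not_dvd_index_of_sylow_le R hRM⟩, fun M₁ M₂ h1 h1' h2 h2' => ?_⟩
    obtain ⟨g₁, e₁⟩ := ex M₁ h1'
    obtain ⟨g₂, e₂⟩ := ex M₂ h2'
    have e := (hu _ ⟨BG.Amb.isCoatom_conj h1, e₁⟩).trans (hu _ ⟨BG.Amb.isCoatom_conj h2, e₂⟩).symm
    refine ⟨g₂⁻¹ * g₁, ?_⟩
    rw [← Core.conj_smul_eq_map, map_mul, mul_smul, e, map_inv, inv_smul_smul]
  · rintro ⟨-, h⟩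
    obtain ⟨M, hM, hle⟩ := PGrp.exists_coatom_ge hN
    have hRM : (R : Subgroup G) ≤ M := Subgroup.le_normalizer.trans hle
    refine ⟨M, ⟨hM, hRM⟩, fun M' ⟨hM', hRM'⟩ => ?_⟩
    obtain ⟨g, hg⟩ := h M M' hM (FGS.not_dvd_index_of_sylow_le R hRM) hM'
      (FGS.not_dvd_index_of_sylow_le R hRM')
    rw [← Core.conj_smul_eq_map] at hg
    have h1 := (Core.isSylowOf_sylow_of_le R hRM).conj g
    rw [← hg] at h1
    obtain ⟨k, hk, e⟩ := (Core.isSylowOf_sylow_of_le R hRM').exists_conj_eq h1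
    have h2 : g⁻¹ * k ∈ M := hle (Core.conj_smul_eq_iff_mem_normalizer.1 (by
      rw [map_mul, mul_smul, e, map_inv, inv_smul_smul]))
    have h3 : g⁻¹ * k * g ∈ M := Core.mem_conj_smul_iff.1 (hg ▸ hk)
    have h4 : g ∈ M := by simpa [mul_assoc] using M.mul_mem (M.inv_mem h2) h3
    rw [hg]
    exact Core.conj_smul_eq_iff_mem_normalizer.2 (Subgroup.le_normalizer h4)

end Cfsg.Agent.S3858
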