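import Mathlib
import Cfsg.Statements.S3864
import Cfsg.Agent.Transfer.Residual
import Cfsg.Agent.Inv.DihFus
-- import your own Cfsg.Agent.* helpers here

set_option autoImplicit false
open Cfsg

namespace Cfsg.Agent.S3864

open Cfsg.Agent.Transfer

open Subgroup Inv in
theorem two_cases {G : Type*} [Group G] [Finite G] {S : Sylow 2 G} {x y : G} {n : ℕ}
    (h : Dih (S : Subgroup G) x y n) {a : G} (ha : orderOf a = 2) :
    IsConj (x ^ 2 ^ n) a ∨ IsConj y a ∨ IsConj (x * y) a := by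
  obtain ⟨g, hg⟩ := exists_conj_mem_sylow_of_pow S (k := 1) ha
  have hc := (isConj_conj g a).symm
  by_cases h1 : g * a * g⁻¹ ∈ zpowers x
  · exact Or.inl (h.eq_z h1 (two_conj ha g) ▸ hc)
  rcases h.conj_y_or_xy hg h1 with ⟨-, s, -, hs⟩ | ⟨-, s, -, hs⟩
  · exact Or.inr (Or.inl ((isConj_conj s y).trans (hs ▸ hc)))
  · exact Or.inr (Or.inr ((isConj_conj s _).trans (hs ▸ hc)))

open Subgroup Inv in
theorem fuse {G : Type*} [Group G] {S : Subgroup G} {x y : G} {n : ℕ}
    (h : Dih S x y (n + 1)) (hO : ¬ OddC (closure ({x ^ 2 ^ (n + 1), y} : Set G))) :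
    IsConj (x ^ 2 ^ (n + 1)) y ∧ closure ({x * x, y} : Set G) ≤ pResidual 2 G := by
  simp only [OddC, not_forall] at hO
  obtain ⟨k, hk, hodd, hkC⟩ := hO
  obtain ⟨j, hj⟩ := four_trans_of_odd (h.four h.yy) hk hodd hkC (subset_closure (by simp))
    (ne_one_of_two h.z_two) (b := y) (subset_closure (by simp)) h.y_ne_one
  refine ⟨hj ▸ isConj_conj _ _, h.max_le_pResidual (g := k ^ j) (a := x ^ 2 ^ (n + 1))
    (odd_orderOf_of_mem_zpowers hodd (pow_mem (mem_zpowers k) j)) (MC.z_memX x _)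
    (hj ▸ h.y_mem) (hj ▸ h.ny) (MC.w_mem_sq x n) (by rw [hj, mul_inv_cancel]; exact one_mem _)⟩

open Subgroup Inv in
theorem mixed {G : Type*} [Group G] [Finite G] {S : Sylow 2 G} {x y : G} {n : ℕ}
    (h : Dih (S : Subgroup G) x y (n + 1))
    (h1 : OddC (closure ({x ^ 2 ^ (n + 1), y} : Set G)))
    (h2 : ¬ OddC (closure ({x ^ 2 ^ (n + 1), x * y} : Set G)))
    (hc : ∀ a : G, orderOf a = 2 → IsConj (x ^ 2 ^ (n + 1)) a ∨ IsConj y a ∨ IsConj (x * y) a) :
    Nat.card {C : ConjClasses G // ∃ g : G, orderOf g = 2 ∧ ConjClasses.mk g = C} = 2 ∧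
      (∃ N : Subgroup G, N.Normal ∧ N.index = 2) ∧ ∀ N : Subgroup G, N.Normal → N.index ≠ 4 := by
  have : Fact (Nat.Prime 2) := ⟨Nat.prime_two⟩
  obtain ⟨h3, h4⟩ := fuse h.change_xy h2
  have h0 : (x * y) * (x * y) ∈ zpowers (x * x) := h.change_xy.yy ▸ one_mem _
  have h5 : (S : Subgroup G) ⊓ pResidual 2 G = closure ({x * x, x * y} : Set G) :=
    le_antisymm (h.inf_pResidual_le h1) (le_inf h.change_xy.max_le h4)
  have h6 : (pResidual 2 G).index = 2 := by
    rw [index_pResidual S, h5, h.change_xy.relIndex_max h0]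
  refine ⟨card_classes_eq_two h.z_two h.y_two (fun hzy => ?_) fun t ht => ?_,
    ⟨_, inferInstance, h6⟩, fun N hN h7 => ?_⟩
  · obtain ⟨g, hg⟩ := isConj_iff.1 hzy
    have h8 : y ∈ pResidual 2 G := hg ▸ (inferInstance : (pResidual 2 G).Normal).conj_mem _
      (h4 (MC.sq_le_max x _ (MC.w_mem_sq x n))) g
    have h9 : y ∈ closure ({x * x, x * y} : Set G) := h5 ▸ ⟨h.y_mem, h8⟩
    refine h.change_xy.x_not_mem_max h0 ?_
    simpa using mul_mem (MC.y_mem_max x (x * y)) (inv_mem h9)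
  · rcases hc t ht with h7 | h7 | h7
    · exact Or.inl h7
    · exact Or.inr h7
    · exact Or.inl (h3.trans h7)
  · have := index_dvd_of_le (pResidual_le_of_index_eq_pow (p := 2) (k := 2) h7)
    rw [h6, h7] at this
    omega

/-- Let G be a finite group whose Sylow 2-subgroups are dihedral of order 2 ^ n with n ≥ 3, and count the conjugacy classes of involutions of G. Then exactly one of the following holds: there is one class of involutions and no normal subgroup of index 2; there are two classes of involutions, a normal subgroup of index 2 and none of index 4; there are three classes of involutions and G has a normal 2-complement. -/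
theorem result {G : Type*} [Group G] [Finite G] (P : Sylow 2 G) (n : ℕ) (hn : 3 ≤ n) (hdih : Nonempty (↥(P : Subgroup G) ≃* DihedralGroup (2 ^ (n - 1)))) : (Nat.card {C : ConjClasses G // ∃ g : G, ConjClasses.mk g = C ∧ orderOf g = 2} = 1 ∧ ∀ N : Subgroup G, N.Normal → N.index ≠ 2) ∨ (Nat.card {C : ConjClasses G // ∃ g : G, ConjClasses.mk g = C ∧ orderOf g = 2} = 2 ∧ (∃ N : Subgroup G, N.Normal ∧ N.index = 2) ∧ ∀ N : Subgroup G, N.Normal → N.index ≠ 4) ∨ (Nat.card {C : ConjClasses G // ∃ g : G, ConjClasses.mk g = C ∧ orderOf g = 2} = 3 ∧ Cfsg.HasNormalPComplement 2 G) := by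
  have : Fact (Nat.Prime 2) := ⟨Nat.prime_two⟩
  obtain ⟨e⟩ := hdih
  have h2 : 2 ≤ 2 ^ (n - 1) := by
    calc 2 = 2 ^ 1 := rfl
      _ ≤ 2 ^ (n - 1) := Nat.pow_le_pow_right (by norm_num) (by omega)
  obtain ⟨x, y, m, h⟩ := Inv.exists_dih P.2 h2 e
  have hm : m + 2 = n := by
    have h1 := h.card
    rw [Nat.card_congr e.toEquiv, DihedralGroup.nat_card, ← pow_succ'] at h1
    have := Nat.pow_right_injective le_rfl h1
    omega
  obtain ⟨m, rfl⟩ : ∃ k, m = k + 1 := ⟨m - 1, by omega⟩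
  simp only [and_comm (b := orderOf _ = 2)]
  have h0 : (x * y) * (x * y) ∈ Subgroup.zpowers (x * x) := h.change_xy.yy ▸ one_mem _
  have h0' : y * y ∈ Subgroup.zpowers (x * x) := h.yy ▸ one_mem _
  by_cases h1 : Inv.OddC (Subgroup.closure ({x ^ 2 ^ (m + 1), y} : Set G)) <;>
    by_cases h2 : Inv.OddC (Subgroup.closure ({x ^ 2 ^ (m + 1), x * y} : Set G))
  · have hT : ∀ T : Subgroup G, T ≤ P → IsKleinFour T → Inv.OddC T := fun T h3 h4 => by
      rcases h.four_cases h4 h3 with ⟨s, -, rfl⟩ | ⟨-, s, -, rfl⟩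
      · exact (Inv.oddC_cj s).2 h1
      · exact (Inv.oddC_cj s).2 h2
    have hE := h.no_essential hT fun Q h3 e => (h.no_q8 h3 e).elim
    have hc : ∀ a ∈ (P : Subgroup G), ∀ b ∈ (P : Subgroup G), IsConj a b →
        ∃ s ∈ (P : Subgroup G), s * a * s⁻¹ = b := fun a ha b hb hab => by
      obtain ⟨g, rfl⟩ := isConj_iff.1 hab
      exact Inv.control_of_no_essential P hE ha hb
    refine Or.inr (Or.inr ⟨Inv.card_classes_eq_three h.z_two h.y_two h.change_xy.y_two
      (fun h3 => ?_) (fun h3 => ?_) (fun h3 => ?_) fun t ht => two_cases h ht,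
      Inv.npc_of_no_essential P hE⟩)
    · obtain ⟨s, hs, e⟩ := hc _ h.z_mem _ h.y_mem h3
      exact h.z_ne (e ▸ (Inv.commute_iff_conj.1 (h.commute_z hs)).symm)
    · obtain ⟨s, hs, e⟩ := hc _ h.z_mem _ h.change_xy.y_mem h3
      exact h.change_xy.z_ne (e ▸ (Inv.commute_iff_conj.1 (h.commute_z hs)).symm)
    · obtain ⟨s, hs, e⟩ := hc _ h.y_mem _ h.change_xy.y_mem h3
      exact h.xy_not_mem_max h0' (e ▸ (Inv.conj_mem_iff_of_relIndex_two (h.relIndex_max h0') hs
        h.y_mem).2 (Inv.MC.y_mem_max x y))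
  · exact Or.inr (Or.inl (mixed h h1 h2 fun t ht => two_cases h ht))
  · have h3 : x * (x * y) ∈ (P : Subgroup G) := mul_mem h.x_mem h.change_xy.y_mem
    obtain ⟨s, hs, e⟩ := h.exists_conj (Subgroup.mem_zpowers (x * x))
    refine Or.inr (Or.inl (mixed h.change_xy h2 (fun h4 => h1 ?_) fun t ht => ?_))
    · rw [← Inv.oddC_cj s, Inv.cj_closure_pair, e,
        Inv.commute_iff_conj.1 (h.commute_z (h.le hs)), mul_assoc]
      exact h4
    · rcases two_cases h ht with h4 | h4 | h4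
      · exact Or.inl h4
      · refine Or.inr (Or.inr (IsConj.trans ?_ h4))
        rw [← mul_assoc, ← e]
        exact (Inv.isConj_conj s y).symm
      · exact Or.inr (Or.inl h4)
  · obtain ⟨h3, h4⟩ := fuse h h1
    obtain ⟨h5, h6⟩ := fuse h.change_xy h2
    refine Or.inl ⟨Inv.card_classes_eq_one h.z_two fun t ht => ?_, fun N _ =>
      Inv.no_index_two_of_pResidual (Inv.pResidual_eq_top_of_le P (h.le_of_mem ?_ ?_)) N⟩
    · rcases two_cases h ht with h7 | h7 | h7
      · exact h7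
      · exact h3.trans h7
      · exact h5.trans h7
    · simpa using mul_mem (h6 (Inv.MC.y_mem_max x _)) (inv_mem (h4 (Inv.MC.y_mem_max x _)))
    · exact h4 (Inv.MC.y_mem_max x _)

end Cfsg.Agent.S3864
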