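import Mathlib
import Cfsg.Statements.S3865
import Cfsg.Agent.Gp.MX3
-- import your own Cfsg.Agent.* helpers here

set_option autoImplicit false
open Cfsg

namespace Cfsg.Agent.S3865

/-- Let G be a finite group whose Sylow p-subgroup P has order p ^ n with n ≥ 2 and nilpotency class n - 1 (maximal class), whose largest normal subgroup of order prime to p is trivial, and which has no proper normal subgroup of index prime to p. Then either some x ∈ P has a centralizer in G whose order has p-part p ^ 2, or G is quasisimple with centre of order at most p. -/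
theorem result {G : Type*} [Group G] [Finite G] (p : ℕ) [Fact p.Prime] (P : Sylow p G) (n : ℕ) (hP : Nat.card P = p ^ n) (hn : 2 ≤ n) (hmax : Group.nilpotencyClass ↥(P : Subgroup G) = n - 1) (hcore : Cfsg.pPrimeCore p G = ⊥) (hres : ∀ N : Subgroup G, N.Normal → (N.index).Coprime p → N = ⊤) : (∃ x ∈ (P : Subgroup G), (Nat.card (Subgroup.centralizer ({x} : Set G))).factorization p = 2) ∨ (Cfsg.IsQuasisimple G ∧ Nat.card (Subgroup.center G) ≤ p) := by
  by_cases h1 : ∃ x ∈ (P : Subgroup G),
      (Nat.card (Subgroup.centralizer ({x} : Set G))).factorization p = 2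
  · exact Or.inl h1
  right
  push Not at h1
  have hp : p.Prime := Fact.out
  rcases hn.eq_or_lt with rfl | h3
  · exfalso
    haveI := P.2.isNilpotent
    have hc : IsMulCommutative (P : Subgroup G) :=
      Group.IsNilpotent.nilpotencyClass_le_one_iff.mp hmax.le
    apply h1 1 (one_mem _)
    have e : Subgroup.centralizer ({1} : Set G) = ⊤ := eq_top_iff.2 fun g _ =>
      Subgroup.mem_centralizer_singleton_iff.2 (by simp)
    rw [e, Subgroup.card_top]
    have := P.card_eq_multiplicity
    exact (Nat.pow_right_injective hp.two_le (hP.symm.trans this)).symm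
  have hM : Cfsg.Agent.Inv.Rg.MCl p (P : Subgroup G) n :=
    Cfsg.Agent.Inv.Rg.MCl.of_cls hP h3 hmax
  refine Cfsg.Agent.Gp.MX.main (n := n) (fun S => ?_) (fun S x hx => ?_) hcore hres
  · have e := Sylow.equiv P S
    refine Cfsg.Agent.Inv.Rg.MCl.of_cls ((Nat.card_congr e.toEquiv).symm.trans hP) h3 ?_
    haveI := P.2.isNilpotent
    haveI := S.2.isNilpotent
    rw [← hmax]
    exact le_antisymm (Group.nilpotencyClass_le_of_surjective e.toMonoidHom e.surjective)
      (Group.nilpotencyClass_le_of_surjective e.symm.toMonoidHom e.symm.surjective)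
  · obtain ⟨g, rfl⟩ := MulAction.exists_smul_eq G P S
    rw [Sylow.coe_subgroup_smul, Subgroup.mem_pointwise_smul_iff_inv_smul_mem] at hx
    have hx' : g⁻¹ * x * g ∈ (P : Subgroup G) := by simpa using hx
    have e := Cfsg.Agent.Gp.MX.card_conj ⊤ g x
    rw [top_inf_eq, Cfsg.Agent.Core.conj_smul_eq_iff_mem_normalizer.2
      (by rw [Subgroup.normalizer_eq_top]; exact Subgroup.mem_top g), top_inf_eq] at e
    rw [e]
    exact h1 _ hx'

end Cfsg.Agent.S3865
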