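import Mathlib
import Cfsg.Statements.S3866
import Cfsg.Agent.BG.AmbCent
import Cfsg.Agent.FGS.Class2

set_option autoImplicit false
open Cfsg

namespace Cfsg.Agent.S3866

open Subgroup

/-- Let A be a commutative normal subgroup of the finite group G with G generated by A and an element x. Then a ↦ x a x⁻¹ a⁻¹ is a surjective homomorphism from A onto the commutator subgroup of G whose kernel is the centralizer of x in A; in particular the commutator subgroup has order equal to the index in A of that centralizer. -/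
theorem result {G : Type*} [Group G] [Finite G] (A : Subgroup G) [A.Normal] (hA : IsMulCommutative A) (x : G) (hgen : A ⊔ Subgroup.zpowers x = ⊤) : (∀ a ∈ A, x * a * x⁻¹ * a⁻¹ ∈ commutator G) ∧ (∀ c ∈ commutator G, ∃ a ∈ A, x * a * x⁻¹ * a⁻¹ = c) ∧ (∀ a ∈ A, ∀ b ∈ A, x * (a * b) * x⁻¹ * (a * b)⁻¹ = (x * a * x⁻¹ * a⁻¹) * (x * b * x⁻¹ * b⁻¹)) ∧ Nat.card (commutator G) * Nat.card ↥(A ⊓ Subgroup.centralizer ({x} : Set G)) = Nat.card A := by
  have hc := FGS.isMulCommutative_iff_forall.mp hA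
  have hn : ∀ g, ∀ a ∈ A, g * a * g⁻¹ ∈ A := fun g a ha => Normal.conj_mem inferInstance a ha g
  have h1 : ∀ a ∈ A, x * a * x⁻¹ * a⁻¹ ∈ commutator G := fun a _ =>
    commutator_mem_commutator (mem_top x) (mem_top a)
  have h3 : ∀ a ∈ A, ∀ b ∈ A, x * (a * b) * x⁻¹ * (a * b)⁻¹ =
      (x * a * x⁻¹ * a⁻¹) * (x * b * x⁻¹ * b⁻¹) := fun a ha b hb => by
    rw [mul_assoc (x * a * x⁻¹), hc _ (inv_mem ha) _ (mul_mem (hn x b hb) (inv_mem hb))]
    group
  let f : A →* G := MonoidHom.mk' (fun a => x * a * x⁻¹ * (a : G)⁻¹) fun a b => h3 a a.2 b b.2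
  have hfA : f.range ≤ A := by
    rintro _ ⟨a, rfl⟩
    exact mul_mem (hn x a a.2) (inv_mem a.2)
  have hfn : f.range.Normal := by
    refine Core.normal_of_le_normalizer (hgen ▸ sup_le (BG.Amb.le_norm_of_le_cent
      (BG.Amb.le_cent_of_comm hA le_rfl hfA)) (zpowers_le.mpr (mem_normalizer_fintype ?_)))
    rintro _ ⟨a, rfl⟩
    refine ⟨⟨_, hn x a a.2⟩, ?_⟩
    change x * (x * a * x⁻¹) * x⁻¹ * (x * a * x⁻¹)⁻¹ = x * (x * a * x⁻¹ * (a : G)⁻¹) * x⁻¹
    group
  have h2 : f.range = commutator G := by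
    refine le_antisymm (by rintro _ ⟨a, rfl⟩; exact h1 a a.2) ?_
    rw [commutator_def, ← hgen]
    refine BG.Amb.der_sup_le le_normalizer_of_normal (by rw [BG.Amb.der_eq_bot_iff.mpr hA]; exact bot_le)
      ?_ (by rw [BG.Amb.der_eq_bot_iff.mpr inferInstance]; exact bot_le)
    rw [commutator_comm, commutator_le]
    intro y hy a ha
    exact ((zpowers_le (H := FGS.centMod A f.range)).mpr ⟨le_normalizer_of_normal (mem_top x),
      fun a ha => ⟨⟨a, ha⟩, rfl⟩⟩ hy).2 a ha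
  refine ⟨h1, fun c hc => ?_, h3, ?_⟩
  · obtain ⟨a, ha⟩ := h2.ge hc
    exact ⟨a, a.2, ha⟩
  · have : f.ker = (centralizer ({x} : Set G)).subgroupOf A := by
      ext a
      rw [MonoidHom.mem_ker, mem_subgroupOf, mem_centralizer_singleton_iff]
      change x * a * x⁻¹ * (a : G)⁻¹ = 1 ↔ _
      rw [mul_inv_eq_one, mul_inv_eq_iff_eq_mul, eq_comm]
    rw [← h2, ← index_ker, mul_comm, inf_comm, ← Core.card_subgroupOf, ← this, card_mul_index]

end Cfsg.Agent.S3866
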