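import Mathlib
import Cfsg.Statements.S3867
import Cfsg.Agent.FGS.SylowNum

set_option autoImplicit false
open Cfsg

namespace Cfsg.Agent.S3867

open Subgroup

/-- Let M and N be nontrivial normal subgroups of the finite group G with M ⊓ N trivial, and let p be a prime. Writing n(X) for the number of Sylow p-subgroups of a group X, one has n(G) · n(G/MN) = n(G/M) · n(G/N). -/
theorem result {G : Type*} [Group G] [Finite G] (p : ℕ) [Fact p.Prime] (M N : Subgroup G) [M.Normal] [N.Normal] (hM : M ≠ ⊥) (hN : N ≠ ⊥) (hMN : M ⊓ N = ⊥) : Nat.card (Sylow p G) * Nat.card (Sylow p (G ⧸ (M ⊔ N))) = Nat.card (Sylow p (G ⧸ M)) * Nat.card (Sylow p (G ⧸ N)) := by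
  obtain ⟨P⟩ : Nonempty (Sylow p G) := inferInstance
  set A := normalizer ((P : Subgroup G) : Set G) with hA
  have h1 : ((P : Subgroup G) ⊔ M) ⊓ ((P : Subgroup G) ⊔ N) = P := by
    rw [FGS.sup_inf_of_le_normalizer le_normalizer_of_normal le_sup_left]
    refine P.is_maximal' (IsPGroup.to_sup_of_normal_right' P.isPGroup' ?_
      (Core.le_normalizer_inf le_normalizer_of_normal (le_sup_left.trans le_normalizer))) le_sup_left
    intro ⟨x, hxM, hx⟩
    have h2 : QuotientGroup.mk' N x ∈ (P : Subgroup G).map (QuotientGroup.mk' N) := by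
      rw [← mem_comap, comap_map_eq, QuotientGroup.ker_mk']; exact hx
    obtain ⟨k, hk⟩ := (P.isPGroup'.map (QuotientGroup.mk' N)) ⟨_, h2⟩
    refine ⟨k, Subtype.ext ?_⟩
    have h3 : x ^ p ^ k ∈ N := by
      rw [← QuotientGroup.eq_one_iff]
      exact congrArg Subtype.val hk
    have : x ^ p ^ k ∈ M ⊓ N := ⟨M.pow_mem hxM _, h3⟩
    rw [hMN] at this
    exact this
  have h2 : (A ⊔ M) ⊓ (A ⊔ N) = A := by
    refine le_antisymm ?_ (le_inf le_sup_left le_sup_left)
    rw [hA, ← FGS.normalizer_sup_normal_sylow, ← FGS.normalizer_sup_normal_sylow]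
    conv_rhs => rw [← h1]
    exact inf_normalizer_le_normalizer_inf
  rw [FGS.card_sylow_eq P, FGS.card_sylow_quotient P, FGS.card_sylow_quotient P,
    FGS.card_sylow_quotient P, ← hA, ← relIndex_mul_index (le_sup_left : A ≤ A ⊔ N),
    ← relIndex_mul_index (sup_le_sup_left le_sup_left A : A ⊔ M ≤ A ⊔ (M ⊔ N)), ← sup_assoc,
    FGS.relIndex_sup_normal (A ⊔ M) N,
    ← FGS.relIndex_sup_of_le (P := A) (L := N) le_normalizer_of_normal (le_sup_left : A ≤ A ⊔ M),
    ← inf_relIndex_right (A ⊔ M), h2]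
  ring

end Cfsg.Agent.S3867
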