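import Mathlib
import Cfsg.Statements.S3878
import Cfsg.Agent.H23.HallAll
-- import your own Cfsg.Agent.* helpers here

set_option autoImplicit false
open Cfsg

namespace Cfsg.Agent.S3878

/-- For a set of primes π the following are equivalent: every finite group has a Hall π-subgroup; in every finite group the maximal π-subgroups are pairwise conjugate; π contains at most one prime or contains every prime. -/
theorem result (π : Set ℕ) :
    ((∀ (G : Type) [Group G] [Finite G], Cfsg.IsEPiGroup π G) ↔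
      ((∀ p q : ℕ, p.Prime → q.Prime → p ∈ π → q ∈ π → p = q) ∨ ∀ p : ℕ, p.Prime → p ∈ π)) ∧
    ((∀ (G : Type) [Group G] [Finite G], Cfsg.IsDPiGroup π G) ↔
      ((∀ p q : ℕ, p.Prime → q.Prime → p ∈ π → q ∈ π → p = q) ∨ ∀ p : ℕ, p.Prime → p ∈ π)) := by

  exact ⟨⟨H23.HallAll.of_E, fun h G _ _ => H23.HallAll.E_of_D (H23.HallAll.D_of h)⟩,
    ⟨fun h => H23.HallAll.of_E fun G _ _ => H23.HallAll.E_of_D (h G),
      fun h G _ _ => H23.HallAll.D_of h⟩⟩

end Cfsg.Agent.S3878
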