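import Mathlib
import Cfsg.Statements.S3881
import Cfsg.Agent.PGrp.MetaOdd2
-- import your own Cfsg.Agent.* helpers here

set_option autoImplicit false
open Cfsg

namespace Cfsg.Agent.S3881

/-- Let p be an odd prime and G a finite metacyclic p-group (G has a cyclic normal subgroup with cyclic quotient). Suppose G is non-abelian with |G'| = p^n. Then for 1 ≤ i ≤ n the number of elements of G whose conjugacy class has exactly p^i elements is |Z(G)| · (p^(2i) − p^(2i−2)). -/
theorem result {G : Type*} [Group G] [Finite G] {p : ℕ} [Fact p.Prime] (hp : p ≠ 2) (hG : IsPGroup p G) (hmc : Cfsg.IsMetacyclic G) (n : ℕ) (hn : n ≠ 0) (hGn : Nat.card ↥(commutator G) = p ^ n) (i : ℕ) (hi : 1 ≤ i) (hin : i ≤ n) :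
    Nat.card {g : G // (Subgroup.centralizer ({g} : Set G)).index = p ^ i} =
      Nat.card ↥(Subgroup.center G) * (p ^ (2 * i) - p ^ (2 * i - 2)) := by
  have hpp : p.Prime := Fact.out
  obtain ⟨m, ⟨D⟩⟩ := PGrp.exists_MC hp hG hmc
  obtain rfl : m = n := Nat.pow_right_injective hpp.two_le (D.card_commutator.symm.trans hGn)
  have h1 : m - i ≤ m := Nat.sub_le _ _
  have h2 : m - i + 1 ≤ m := by omega
  have e : {g : G | (Subgroup.centralizer ({g} : Set G)).index = p ^ i} =
      (D.pre (PGrp.Ms p m (m - i)) : Set G) \ D.pre (PGrp.Ms p m (m - i + 1)) := by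
    ext g
    simp only [Set.mem_setOf_eq, Set.mem_diff, SetLike.mem_coe, PGrp.MC.mem_pre,
      ← D.index_centralizer_le_iff g h1, ← D.index_centralizer_le_iff g h2]
    obtain ⟨k, hk⟩ := hG.index (Subgroup.centralizer ({g} : Set G))
    rw [hk, Nat.pow_le_pow_iff_right hpp.one_lt, Nat.pow_le_pow_iff_right hpp.one_lt,
      (Nat.pow_right_injective hpp.two_le).eq_iff]
    omega
  have hsub : (D.pre (PGrp.Ms p m (m - i + 1)) : Set G) ⊆ D.pre (PGrp.Ms p m (m - i)) := by
    intro g hg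
    obtain ⟨y, hy⟩ := PGrp.mem_Ms.1 hg
    exact PGrp.mem_Ms.2 ⟨p • y, by rw [hy, smul_smul, pow_succ]⟩
  have c := Set.ncard_diff hsub
  rw [← e, ← Nat.card_coe_set_eq, ← Nat.card_coe_set_eq, ← Nat.card_coe_set_eq] at c
  have c1 := D.card_pre (PGrp.Ms p m (m - i))
  have c2 := D.card_pre (PGrp.Ms p m (m - i + 1))
  rw [PGrp.card_Ms h1, show m - (m - i) = i by omega] at c1
  rw [PGrp.card_Ms h2, show 2 * (m - (m - i + 1)) = 2 * i - 2 by omega] at c2
  rw [Nat.mul_sub, ← c1, ← c2]
  exact c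

end Cfsg.Agent.S3881
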