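import Mathlib
import Cfsg.Statements.S3883
import Cfsg.Agent.PGrp.MetaOdd2
-- import your own Cfsg.Agent.* helpers here

set_option autoImplicit false
open Cfsg

namespace Cfsg.Agent.S3883

/-- Let p be an odd prime and G a finite metacyclic p-group (G has a cyclic normal subgroup with cyclic quotient). Suppose G is non-abelian. Then an element g of G lies outside the Frattini subgroup if and only if its centralizer C_G(g) is abelian. -/
theorem result {G : Type*} [Group G] [Finite G] {p : ℕ} [Fact p.Prime] (hp : p ≠ 2) (hG : IsPGroup p G) (hmc : Cfsg.IsMetacyclic G) (hna : ¬ IsMulCommutative G) (g : G) :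
    g ∉ frattini G ↔ IsMulCommutative ↥(Subgroup.centralizer ({g} : Set G)) := by
  have hpp : p.Prime := Fact.out
  obtain ⟨n, ⟨D⟩⟩ := PGrp.exists_MC hp hG hmc
  have hn : 1 ≤ n := by
    by_contra h
    have e := D.card_commutator
    rw [show n = 0 by omega, pow_zero, Subgroup.card_eq_one] at e
    exact hna (isMulCommutative_iff.2 fun x y => by
      rw [← commutatorElement_eq_one_iff_mul_comm, ← Subgroup.mem_bot, ← e]
      exact PGrp.commutatorElement_mem_commutator x y)
  have e : frattini G = D.pre (PGrp.Ms p n 1) := by
    apply le_antisymm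
    · refine (PGrp.frattini_le_iff hG).2 ⟨?_, fun x => ?_⟩
      · let f : G →* Multiplicative ((ZMod (p ^ n) × ZMod (p ^ n)) ⧸ PGrp.Ms p n 1) :=
          MonoidHom.mk' (fun g => Multiplicative.ofAdd (QuotientAddGroup.mk (D.θ g))) fun g h => by
            rw [← ofAdd_add, ← QuotientAddGroup.mk_add, D.mul]
            congr 1
            rw [QuotientAddGroup.eq]
            obtain ⟨w, hw⟩ := D.dvd g
            refine PGrp.mem_Ms.2 ⟨(-w) • D.θ h, ?_⟩
            rw [show D.u g = 1 + p * w by linear_combination hw, pow_one, ← natCast_zsmul]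
            module
        intro x hx
        have := Abelianization.commutator_subset_ker f hx
        exact (QuotientAddGroup.eq_zero_iff _).1 this
      · rw [← D.mho_eq hp hn]
        exact Subgroup.subset_closure ⟨x, by rw [pow_one]⟩
    · rw [← D.mho_eq hp hn, Subgroup.closure_le]
      rintro _ ⟨y, rfl⟩
      rw [pow_one]
      exact PGrp.pow_mem_frattini hG y
  rw [e, D.mem_pre, ← D.index_centralizer_le_iff g hn, PGrp.meta_abelian_iff hp hG hmc]
  obtain ⟨k, hk⟩ := hG.index (Subgroup.centralizer ({g} : Set G))
  have h1 := Subgroup.card_mul_index (Subgroup.centralizer ({g} : Set G))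
  rw [← Subgroup.card_mul_index (commutator G), D.card_commutator, hk] at h1
  rw [hk, Nat.pow_le_pow_iff_right hpp.one_lt]
  have hpos : 0 < (commutator G).index := Nat.pos_of_ne_zero Subgroup.FiniteIndex.index_ne_zero
  constructor
  · intro h
    have : p ^ n ≤ p ^ k := Nat.pow_le_pow_right hpp.pos (by omega)
    have h0 : 0 < p ^ n := pow_pos hpp.pos n
    nlinarith
  · intro h h'
    have : p ^ k < p ^ n := Nat.pow_lt_pow_right hpp.one_lt (by omega)
    have h0 : 0 < p ^ k := pow_pos hpp.pos k
    nlinarith

end Cfsg.Agent.S3883
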