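import Mathlib
import Cfsg.Statements.S3884
import Cfsg.Agent.PGrp.MetaOdd2
-- import your own Cfsg.Agent.* helpers here

set_option autoImplicit false
open Cfsg

namespace Cfsg.Agent.S3884

theorem aux {G : Type*} [Group G] [Finite G] {A : Subgroup G} {x : G} {N : ℕ} (h1 : x ^ N = 1)
    (h2 : ∀ m : ℕ, x ^ m ∈ A → N ∣ m) :
    Nat.card (Subgroup.zpowers x) = N ∧ Subgroup.zpowers x ⊓ A = ⊥ := by
  refine ⟨?_, ?_⟩
  · rw [Nat.card_zpowers]
    exact Nat.dvd_antisymm (orderOf_dvd_of_pow_eq_one h1)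
      (h2 _ (by rw [pow_orderOf_eq_one]; exact A.one_mem))
  · rw [eq_bot_iff]
    rintro y ⟨hy, hA⟩
    obtain ⟨m, rfl⟩ := mem_powers_iff_mem_zpowers.2 hy
    obtain ⟨k, rfl⟩ := h2 m hA
    show x ^ (N * k) ∈ (⊥ : Subgroup G)
    rw [pow_mul, h1, one_pow]
    exact Subgroup.one_mem _

/-- Let p be an odd prime and G a finite metacyclic p-group (G has a cyclic normal subgroup with cyclic quotient). Then G is the product of two cyclic subgroups with trivial intersection: there are cyclic subgroups A and B with A ∩ B = 1 and |A| · |B| = |G|. -/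
theorem result {G : Type*} [Group G] [Finite G] {p : ℕ} [Fact p.Prime] (hp : p ≠ 2) (hG : IsPGroup p G) (hmc : Cfsg.IsMetacyclic G) : ∃ A B : Subgroup G, IsCyclic ↥A ∧ IsCyclic ↥B ∧ A ⊓ B = ⊥ ∧ Nat.card ↥A * Nat.card ↥B = Nat.card G := by
  have hpp : p.Prime := Fact.out
  have ho := hpp.odd_of_ne_two hp
  obtain ⟨a, b, ρ, h⟩ := PGrp.exists_MG hG hmc
  have hn : (Subgroup.zpowers a).Normal := ⟨fun x hx g => by
    obtain ⟨i, j, rfl⟩ := h.gen g
    obtain ⟨k, rfl⟩ := Subgroup.mem_zpowers_iff.1 hx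
    rw [mul_assoc (a ^ i), h.conj_pow]
    have : a ^ i * (a ^ (ρ ^ j * k) * b ^ j) * (a ^ i * b ^ j)⁻¹ = a ^ (ρ ^ j * k) := by group
    rw [this]
    exact Subgroup.zpow_mem_zpowers _ _⟩
  obtain ⟨α, hα⟩ := IsPGroup.iff_orderOf.1 hG a
  obtain ⟨β, hβ⟩ := hG.index (Subgroup.zpowers a)
  have hord : orderOf (QuotientGroup.mk b : G ⧸ Subgroup.zpowers a) = p ^ β := by
    rw [← hβ, ← Nat.card_zpowers, Subgroup.index_eq_card, ← Subgroup.card_top (G := G ⧸ _)]
    refine congrArg (fun H : Subgroup (G ⧸ Subgroup.zpowers a) => Nat.card H) ?_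
    rw [eq_top_iff]
    intro q _
    induction q using QuotientGroup.induction_on with | H g => ?_
    obtain ⟨i, j, rfl⟩ := h.gen g
    rw [QuotientGroup.mk_mul, (QuotientGroup.eq_one_iff _).2 (Subgroup.zpow_mem_zpowers a i),
      one_mul, QuotientGroup.mk_pow]
    exact Subgroup.pow_mem _ (Subgroup.mem_zpowers _) _
  have hb : ∀ m : ℕ, b ^ m ∈ Subgroup.zpowers a ↔ p ^ β ∣ m := fun m => by
    rw [← hord, orderOf_dvd_iff_pow_eq_one, ← QuotientGroup.mk_pow, QuotientGroup.eq_one_iff]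
  have hcard : Nat.card G = p ^ α * p ^ β := by
    rw [← Subgroup.card_mul_index (Subgroup.zpowers a), Nat.card_zpowers, hα, hβ]
  obtain ⟨t, ht⟩ := Subgroup.mem_zpowers_iff.1 ((hb _).2 dvd_rfl)
  obtain ⟨γ, hγ, hd⟩ := (Nat.dvd_prime_pow hpp).1 (Int.gcd_dvd_natAbs_right t (p ^ α : ℕ))
  have hbez := Int.gcd_eq_gcd_ab t (p ^ α : ℕ)
  obtain ⟨t', ht'⟩ := Int.gcd_dvd_left t (p ^ α : ℕ)
  rw [hd] at hbez ht'
  have ha1 : a ^ ((p ^ α : ℕ) : ℤ) = 1 := by rw [zpow_natCast, ← hα, pow_orderOf_eq_one]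
  rcases le_total β γ with hle | hle
  · obtain ⟨z, hz⟩ := PGrp.gs_prime_pow ho β h.dvd
    obtain ⟨U, V, e⟩ := IsCoprime.pow_left (m := α) (PGrp.isCoprime_of_dvd_sub_one (p := p)
      (ρ := 1 + (ρ - 1) * z) (by simpa using h.dvd.mul_right z))
    obtain ⟨δ, rfl⟩ := Nat.exists_eq_add_of_le hle
    obtain ⟨h1, h2⟩ := aux (A := Subgroup.zpowers a) (x := a ^ (-(p ^ δ * t' * V)) * b ^ 1)
      (N := p ^ β) (by
        rw [h.pow_eq, pow_one, one_mul, ← ht, ← zpow_add, hz, ht']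
        have : -((p : ℤ) ^ δ * t' * V) * (p ^ β * (1 + (ρ - 1) * z)) + (p ^ (β + δ) : ℕ) * t' =
            (p ^ α : ℕ) * (U * p ^ (β + δ) * t') := by
          push_cast
          linear_combination (-(p : ℤ) ^ (β + δ) * t') * e
        rw [this, zpow_mul, ha1, one_zpow]) (fun m hm => by
        rw [h.pow_eq, one_mul, Subgroup.mul_mem_cancel_left _ (Subgroup.zpow_mem_zpowers _ _)] at hm
        exact (hb m).1 hm)
    exact ⟨_, _, inferInstance, inferInstance, h2, by rw [h1, Nat.card_zpowers, hα, hcard, mul_comm]⟩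
  · obtain ⟨δ, rfl⟩ := Nat.exists_eq_add_of_le hle
    have hdB : a ^ ((p ^ γ : ℕ) : ℤ) = (b ^ p ^ (γ + δ)) ^ Int.gcdA t (p ^ α : ℕ) := by
      rw [hbez, zpow_add, zpow_mul, zpow_mul, ha1, one_zpow, mul_one, ht]
    have hinf : Subgroup.zpowers a ⊓ Subgroup.zpowers b = Subgroup.zpowers (a ^ p ^ γ) := by
      apply le_antisymm
      · rintro y ⟨hy, hy'⟩
        obtain ⟨m, rfl⟩ := mem_powers_iff_mem_zpowers.2 hy'
        obtain ⟨k, rfl⟩ := (hb m).1 hy
        show b ^ (_ * k) ∈ _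
        rw [pow_mul, ← ht, ht', zpow_mul, zpow_natCast]
        exact Subgroup.pow_mem _ (Subgroup.zpow_mem_zpowers _ _) _
      · rw [Subgroup.zpowers_le]
        refine ⟨Subgroup.pow_mem _ (Subgroup.mem_zpowers a) _, ?_⟩
        rw [← zpow_natCast, hdB]
        exact Subgroup.zpow_mem _ (Subgroup.pow_mem _ (Subgroup.mem_zpowers b) _) _
    obtain ⟨j, hj⟩ := mem_powers_iff_mem_zpowers.2 (Subgroup.zpow_mem _
      (Subgroup.pow_mem _ (Subgroup.mem_zpowers b) (p ^ δ)) (-Int.gcdA t (p ^ α : ℕ)))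
    have hcomm : a ^ (((p ^ γ : ℕ) : ℤ) * (ρ ^ j - 1)) = 1 := by
      have e := h.conj_pow j (p ^ γ : ℕ)
      have c : Commute (b ^ j) (a ^ ((p ^ γ : ℕ) : ℤ)) := by
        rw [hdB]; exact ((Commute.refl b).pow_pow _ _).zpow_right _
      rw [c.eq] at e
      rw [mul_sub, mul_one, zpow_sub, mul_comm, ← mul_right_cancel e, mul_inv_cancel]
    have hρ := PGrp.dvd_pow_sub_one h.dvd j
    obtain ⟨z, hz⟩ := PGrp.gs_prime_pow ho γ hρ
    obtain ⟨h1, h2⟩ := aux (A := Subgroup.zpowers b) (x := a ^ (1 : ℤ) * b ^ j)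
      (N := p ^ γ) (by
        have e : b ^ (j * p ^ γ) = (a ^ ((p ^ γ : ℕ) : ℤ))⁻¹ := by
          rw [pow_mul, show b ^ j = _ from hj, hdB, ← zpow_neg, ← zpow_natCast, ← zpow_natCast,
            ← zpow_natCast, ← zpow_mul, ← zpow_mul, ← zpow_mul]
          congr 1
          push_cast
          ring
        rw [h.pow_eq, one_mul, hz, e, mul_add, mul_one, zpow_add, ← mul_assoc, zpow_mul,
          ← Nat.cast_pow, hcomm, one_zpow, mul_one, mul_inv_cancel]) (fun m hm => by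
        rw [h.pow_eq, one_mul, Subgroup.mul_mem_cancel_right _
          (Subgroup.pow_mem _ (Subgroup.mem_zpowers b) _)] at hm
        obtain ⟨k, hk⟩ := Subgroup.mem_zpowers_iff.1
          (hinf.le ⟨Subgroup.zpow_mem_zpowers _ _, hm⟩)
        rw [← zpow_natCast, ← zpow_mul, zpow_eq_zpow_iff_modEq, hα] at hk
        refine (PGrp.pow_dvd_gs_iff hpp ho hρ γ m).1 ?_
        have h3 : ((p : ℤ) ^ γ) ∣ ((p ^ α : ℕ) : ℤ) := by exact_mod_cast pow_dvd_pow p hγ
        have h4 := (h3.trans hk.dvd).add (dvd_mul_right ((p : ℤ) ^ γ) k)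
        simpa using h4)
    refine ⟨_, _, inferInstance, inferInstance, h2, ?_⟩
    have hsup : Subgroup.zpowers b ⊔ Subgroup.zpowers a = ⊤ := by
      rw [eq_top_iff]
      intro g _
      obtain ⟨i, j, rfl⟩ := h.gen g
      exact Subgroup.mul_mem _ (Subgroup.mem_sup_right (Subgroup.zpow_mem_zpowers _ _))
        (Subgroup.mem_sup_left (Subgroup.pow_mem _ (Subgroup.mem_zpowers b) _))
    rw [h1, ← PGrp.card_inf_mul_relIndex (Subgroup.zpowers a), hinf,
      ← Subgroup.relIndex_sup_right, hsup, Subgroup.relIndex_top_right, hβ, Nat.card_zpowers,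
      orderOf_pow' _ (pow_ne_zero γ hpp.ne_zero), hα, Nat.gcd_eq_right (pow_dvd_pow p hγ), hcard,
      ← mul_assoc, Nat.mul_div_cancel' (pow_dvd_pow p hγ)]

end Cfsg.Agent.S3884
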