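import Mathlib
import Cfsg.Statements.S3885
import Cfsg.Agent.PGrp.MetaOdd2
-- import your own Cfsg.Agent.* helpers here

set_option autoImplicit false
open Cfsg

namespace Cfsg.Agent.S3885

/-- Let p be an odd prime and G a finite metacyclic p-group (G has a cyclic normal subgroup with cyclic quotient). Then every abelian subgroup K of G containing the center of G is the center of its own centralizer: K = Z(C_G(K)). -/
theorem result {G : Type*} [Group G] [Finite G] {p : ℕ} [Fact p.Prime] (hp : p ≠ 2) (hG : IsPGroup p G) (hmc : Cfsg.IsMetacyclic G) (K : Subgroup G) (hK : IsMulCommutative ↥K) (hZ : Subgroup.center G ≤ K) :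
    K = Subgroup.centralizer (K : Set G) ⊓ Subgroup.centralizer (Subgroup.centralizer (K : Set G) : Set G) := by
  obtain ⟨n, ⟨D⟩⟩ := PGrp.exists_MC hp hG hmc
  have h1 : K ≤ Subgroup.centralizer (K : Set G) := Subgroup.le_centralizer_iff_isMulCommutative.2 hK
  have h2 : K ≤ Subgroup.centralizer (Subgroup.centralizer (K : Set G) : Set G) :=
    Subgroup.le_centralizer_iff.1 le_rfl
  have e1 := D.card_mul_centralizer hp hZ
  have e2 := D.card_mul_centralizer hp (hZ.trans h1)
  rw [← e1, mul_comm] at e2
  have e3 := PGrp.eq_of_le_of_card_le h2 (Nat.eq_of_mul_eq_mul_right Nat.card_pos e2).le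
  rw [← e3]
  exact (inf_eq_right.2 h1).symm

end Cfsg.Agent.S3885
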