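import Mathlib
import Cfsg.Statements.S3886
import Cfsg.Agent.PGrp.MetaOdd2
-- import your own Cfsg.Agent.* helpers here

set_option autoImplicit false
open Cfsg

namespace Cfsg.Agent.S3886

/-- Let p be an odd prime and G a finite metacyclic p-group (G has a cyclic normal subgroup with cyclic quotient). Then the largest value of |R| · |Z(R)| over subgroups R of G is |G : G'|², and the subgroups attaining it (the centrally large subgroups) are exactly the non-abelian subgroups together with the maximal abelian subgroups of G. -/
theorem result {G : Type*} [Group G] [Finite G] {p : ℕ} [Fact p.Prime] (hp : p ≠ 2) (hG : IsPGroup p G) (hmc : Cfsg.IsMetacyclic G) : Cfsg.maxCentralProduct G = (commutator G).index ^ 2 ∧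
    ∀ R : Subgroup G, Cfsg.IsCentrallyLarge R ↔ (¬ IsMulCommutative ↥R ∨ Maximal (fun K : Subgroup G => IsMulCommutative ↥K) R) := by
  have hna : ∀ R : Subgroup G, ¬ IsMulCommutative R →
      Nat.card R * Nat.card (Subgroup.center R) = (commutator G).index ^ 2 := fun R hR => by
    have e1 := PGrp.meta_card_nonabelian hp hG hmc (mt PGrp.isMulCommutative_iff_commutator.2 hR)
    have e2 := PGrp.meta_index_center hp (hG.to_subgroup R)
      (PGrp.isMetacyclic_of_injective hmc R.subtype R.subtype_injective)
    rw [← Core.card_map_subtype, Core.map_commutator_subtype] at e2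
    have e3 := Subgroup.card_mul_index (Subgroup.center R)
    rw [e2] at e3
    have hpos : 0 < Nat.card (⁅R, R⁆ : Subgroup G) := Nat.card_pos
    refine Nat.eq_of_mul_eq_mul_right (pow_pos hpos 2) ?_
    rw [mul_assoc, e3, ← mul_pow, ← e1, pow_two]
  have hab : ∀ R : Subgroup G, IsMulCommutative R →
      Nat.card R * Nat.card (Subgroup.center R) = Nat.card R ^ 2 := fun R hR => by
    rw [Subgroup.center_eq_top, Subgroup.card_top, pow_two]
  have hmax : Cfsg.maxCentralProduct G = (commutator G).index ^ 2 := by
    refine IsGreatest.csSup_eq ⟨?_, ?_⟩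
    · obtain ⟨K, -, hK⟩ := (Set.toFinite {K : Subgroup G | IsMulCommutative K}).exists_le_maximal
        (show ⊥ ∈ {K : Subgroup G | IsMulCommutative K} from
          PGrp.isMulCommutative_iff_commutator.2 (Subgroup.commutator_bot_left _))
      exact ⟨K, by rw [hab K hK.1, PGrp.meta_card_maximal hp hG hmc hK]⟩
    · rintro _ ⟨R, rfl⟩
      by_cases hR : IsMulCommutative R
      · rw [hab R hR]
        exact Nat.pow_le_pow_left ((PGrp.meta_abelian_iff hp hG hmc R).1 hR) 2
      · exact (hna R hR).le
  refine ⟨hmax, fun R => ?_⟩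
  rw [Cfsg.IsCentrallyLarge, hmax]
  by_cases hR : IsMulCommutative R
  · rw [hab R hR, PGrp.meta_maximal_iff hp hG hmc, (Nat.pow_left_injective two_ne_zero).eq_iff]
    simp [hR]
  · simp [hna R hR, hR]

end Cfsg.Agent.S3886
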