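import Mathlib
import Cfsg.Statements.S3887
import Cfsg.Agent.PGrp.MetaOdd2
-- import your own Cfsg.Agent.* helpers here

set_option autoImplicit false
open Cfsg

namespace Cfsg.Agent.S3887

/-- Let p be an odd prime and G a finite metacyclic p-group (G has a cyclic normal subgroup with cyclic quotient). Then a subgroup R of G maximizes |R| · |C_G(R)| over all subgroups of G if and only if R contains the center of G. -/
theorem result {G : Type*} [Group G] [Finite G] {p : ℕ} [Fact p.Prime] (hp : p ≠ 2) (hG : IsPGroup p G) (hmc : Cfsg.IsMetacyclic G) (R : Subgroup G) : Cfsg.IsCentralizerLarge R ↔ Subgroup.center G ≤ R := by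
  obtain ⟨n, ⟨D⟩⟩ := PGrp.exists_MC hp hG hmc
  have key : ∀ R : Subgroup G, Nat.card (R ⊔ Subgroup.center G : Subgroup G) *
      Nat.card (Subgroup.centralizer (R : Set G)) = Nat.card G * Nat.card (Subgroup.center G) :=
    fun R => by
      rw [← D.card_mul_centralizer hp (R := R ⊔ Subgroup.center G) le_sup_right,
        PGrp.centralizer_sup, Subgroup.centralizer_eq_top_iff_subset.2 subset_rfl, inf_top_eq]
  have hmax : Cfsg.maxCentralizerProduct G = Nat.card G * Nat.card (Subgroup.center G) := by
    refine IsGreatest.csSup_eq ⟨⟨⊤, D.card_mul_centralizer hp le_top⟩, ?_⟩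
    rintro _ ⟨R, rfl⟩
    rw [← key R]
    exact Nat.mul_le_mul_right _ (Subgroup.card_le_of_le le_sup_left)
  rw [Cfsg.IsCentralizerLarge, hmax]
  refine ⟨fun h => ?_, D.card_mul_centralizer hp⟩
  rw [← key R] at h
  have := PGrp.eq_of_le_of_card_le (le_sup_left : R ≤ R ⊔ Subgroup.center G)
    (Nat.eq_of_mul_eq_mul_right Nat.card_pos h).ge
  rw [this]; exact le_sup_right

end Cfsg.Agent.S3887
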