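import Mathlib
import Cfsg.Statements.S3888
import Cfsg.Agent.Inv.Rk3

set_option autoImplicit false
open Cfsg

namespace Cfsg.Agent.S3888

open Subgroup PGrp Inv.Rk BG
open scoped commutatorElement

theorem gen {G : Type*} [Group G] {p m : ℕ} [hp : Fact p.Prime] {w c : G} (hw : orderOf w = p ^ (m + 1))
    (h1 : c ∈ zpowers w) (h2 : c ^ p = 1) (h3 : c ≠ 1) : ∃ k : ℕ, ¬ p ∣ k ∧ c = (w ^ p ^ m) ^ k := by
  have h4 := orderOf_pow_pow_eq_prime hp.out hw
  obtain ⟨k, hk⟩ := ((isOfFinOrder_iff_pow_eq_one.2 ⟨p, hp.out.pos, orderOf_dvd_iff_pow_eq_one.1 h4.dvd⟩).mem_powers_iff_mem_zpowers).2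
    (mem_zpowers_pow_of_pow_eq_one hp.out hw h1 h2)
  exact ⟨k, fun h => h3 (hk.symm.trans (orderOf_dvd_iff_pow_eq_one.1 (h4.dvd.trans h))), hk.symm⟩

theorem ord {G : Type*} [Group G] [Finite G] {p n a : ℕ} [hp : Fact p.Prime] {T : Subgroup G} {w c : G}
    (hT : Nat.card T = p ^ (a + 1)) (he : ∀ x ∈ T, x ^ p = 1) (hw : w ∈ 𝐍(T))
    (h : Nat.card ↥(T ⊔ zpowers w) = p ^ (a + n)) (h1 : c ∈ T) (h2 : c ∈ zpowers w) (h3 : c ≠ 1) :
    orderOf w = p ^ n := by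
  have h5 := card_sup_mul_card_inf (N := T) (H := zpowers w) (zpowers_le.mpr hw)
  have h6 : Nat.card ↥(T ⊓ zpowers w) = p := by
    refine le_antisymm (card_le_of_isCyclic_of_pow hp.out.ne_zero
      (isCyclic_of_le inferInstance inf_le_right) fun g hg => he g hg.1) ?_
    have := card_le_of_le (zpowers_le.2 (mem_inf.2 ⟨h1, h2⟩))
    rwa [Nat.card_zpowers, Rank.orderOf_eq_of_pow (he c h1) h3] at this
  rw [h, h6, hT, Nat.card_zpowers, ← pow_succ, add_right_comm, pow_add] at h5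
  exact (Nat.eq_of_mul_eq_mul_left (pow_pos hp.out.pos _) h5).symm

theorem fam2 {G : Type*} [Group G] [Finite G] {p n : ℕ} [hp : Fact p.Prime] (hp2 : p ≠ 2) (hG : Nat.card G = p ^ (n + 3))
    (hr : PRankLE p 2 (⊤ : Subgroup G)) {E : Subgroup G} (hE : Nat.card E = p ^ 3) (he : ∀ x ∈ E, x ^ p = 1)
    (h : E ⊔ (⊤ ⊓ 𝐂(E)) = ⊤) : ∃ x y z : G, Subgroup.closure ({x, y, z} : Set G) = ⊤ ∧ x ^ p = 1 ∧ y ^ p = 1 ∧
      z ^ p ^ (n + 1) = 1 ∧ x * z = z * x ∧ y * z = z * y ∧ x⁻¹ * y * x = y * z ^ p ^ n := by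
  have hP : IsPGroup p G := .of_card hG
  have hna := not_comm hr le_top hE he
  obtain ⟨h1, h2⟩ := center_of_card_eq_cube hE hna
  obtain ⟨z, hz⟩ := exists_zpowers_eq_of_isCyclic (cyclic_cent hp2 (hP.to_subgroup _) hr le_top hE he)
  rw [← hz] at h
  rw [top_inf_eq] at hz
  have hzC : z ∈ 𝐂(E) := hz.le (mem_zpowers z)
  obtain ⟨a, ha, b, hb, hab⟩ : ∃ a ∈ E, ∃ b ∈ E, a * b ≠ b * a := by
    by_contra hc
    push Not at hc
    exact hna (isMulCommutative_iff_forall.2 hc)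
  have h3 := h2.le (commutator_mem_commutator ha hb)
  have h4 : ⁅a, b⁆ ≠ 1 := fun e => hab (commutatorElement_eq_one_iff_mul_comm.1 e)
  have ho := ord (n := n + 1) hE he (Amb.cent_le_norm E hzC) (by rw [h, card_top, hG]; congr 1; omega) h3.1
    (hz.ge h3.2) h4
  obtain ⟨k, k1, k2⟩ := gen ho (hz.ge h3.2) (he _ h3.1) h4
  obtain ⟨j, -, hj⟩ := Nat.exists_mul_mod_eq_one_of_coprime (hp.out.coprime_iff_not_dvd.2 k1).symm hp.out.one_lt
  have h5 : ⁅a, b ^ j⁆ = z ^ p ^ n := by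
    rw [commutator_pow_right_of_commute (h3.2 b hb), k2, ← pow_mul, ← pow_mod_orderOf,
      orderOf_pow_pow_eq_prime hp.out ho, hj, pow_one]
  have hb' := pow_mem hb j
  generalize b ^ j = c at h5 hb'
  refine ⟨c⁻¹, a⁻¹, z, ?_, he _ (inv_mem hb'), he _ (inv_mem ha), ho ▸ pow_orderOf_eq_one z, hzC _ (inv_mem hb'),
    hzC _ (inv_mem ha), by rw [← h5, commutatorElement_def]; group⟩
  have h6 : closure {a, c} = E := by
    refine (lt_or_eq_of_le ((closure_le E).2 (Set.insert_subset ha (Set.singleton_subset_iff.2 hb')))).resolve_left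
      fun e => ?_
    have e1 := isMulCommutative_iff_forall.1 (isMulCommutative_of_card_le_sq (hP.to_subgroup _)
      (card_le_of_lt_of_card_eq_pow hE e)) a (subset_closure (by simp)) c (subset_closure (by simp))
    rw [commutatorElement_eq_one_iff_mul_comm.2 e1] at h5
    have := orderOf_pow_pow_eq_prime hp.out ho
    rw [← h5, orderOf_one] at this
    exact hp.out.one_lt.ne this
  rw [eq_top_iff, ← h, ← h6]
  refine sup_le ((closure_le _).2 ?_) (zpowers_le.2 (subset_closure (by simp)))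
  rintro _ (rfl | rfl) <;> exact (inv_mem_iff.1 (subset_closure (by simp)))

theorem fam3 {G : Type*} [Group G] [Finite G] {p n : ℕ} [hp : Fact p.Prime] (hp2 : p ≠ 2) (hG : Nat.card G = p ^ (n + 3))
    (hr : PRankLE p 2 (⊤ : Subgroup G)) {E : Subgroup G} [E.Normal] (hE : Nat.card E = p ^ 3) (he : ∀ x ∈ E, x ^ p = 1)
    (h : E ⊔ (⊤ ⊓ 𝐂(E)) ≠ ⊤) : ∃ (s : ℕ) (x y z : G), (s = 1 ∨ ¬ IsSquare (s : ZMod p)) ∧
      Subgroup.closure ({x, y, z} : Set G) = ⊤ ∧ x ^ p = 1 ∧ y ^ p = 1 ∧ z ^ p ^ (n + 1) = 1 ∧ y * z = z * y ∧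
      x⁻¹ * y * x = y * z ^ (s * p ^ n) ∧ x⁻¹ * z * x = y * z := by
  have hP : IsPGroup p G := .of_card hG
  obtain ⟨h1, h2⟩ := center_of_card_eq_cube hE (not_comm hr le_top hE he)
  obtain ⟨t1, t2, t3, t4, t5, x, w, m, x1, x2, x3, w1, w2, w3, -⟩ :=
    struct hp2 (hP.to_subgroup _) hr le_top le_normalizer_of_normal hE he h
  have hc : ∀ s ∈ E, ⁅w, s⁆ ∈ ⁅E, (⊤ : Subgroup G)⁆ := fun s hs =>
    commutator_symm_mem (commutator_mem_commutator hs (mem_top w))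
  have hn : (⁅E, (⊤ : Subgroup G)⁆).Normal := inferInstance
  generalize ⁅E, (⊤ : Subgroup G)⁆ = T at *
  rw [top_inf_eq] at t4 t5 w1
  have hw : w ∈ 𝐂(T) := w1.le (mem_sup_right (mem_zpowers w))
  have hZ : ∀ u ∈ T, ∀ s ∈ E, ⁅u, s⁆ ∈ E ⊓ 𝐂(E) := fun u hu s hs => h2.le (commutator_mem_commutator (t2 hu) hs)
  have h3 := hZ _ (hc x x1) x x1
  have h4 : ⁅⁅w, x⁆, x⁆ ∈ zpowers w := w2 ▸ pow_mem (mem_zpowers w) _
  have ho := ord (n := n + 1) t1 (fun a ha => he a (t2 ha)) (le_normalizer_of_normal (mem_top w)) (by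
    have := (𝐂(T)).card_mul_index
    rw [← relIndex_top_right, t4, hG, pow_succ] at this
    rw [w1, Nat.eq_of_mul_eq_mul_right hp.out.pos this]
    congr 1
    omega) (t3 h3) h4 w3
  have ho' := orderOf_pow_pow_eq_prime hp.out ho
  obtain ⟨k, k1, k2⟩ := gen ho h4 (he _ h3.1) w3
  obtain ⟨s, i, s1, s2⟩ : ∃ s i : ℕ, (s = 1 ∨ ¬ IsSquare (s : ZMod p)) ∧ k * (i * i * 1) ≡ s [MOD p] := by
    by_cases hk : IsSquare (k : ZMod p)
    · obtain ⟨r, hr⟩ := hk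
      have : r ≠ 0 := by
        rintro rfl
        exact k1 ((ZMod.natCast_eq_zero_iff k p).1 (by simpa using hr))
      refine ⟨1, r⁻¹.val, .inl rfl, (ZMod.natCast_eq_natCast_iff _ _ _).1 ?_⟩
      push_cast
      rw [hr, ZMod.natCast_zmod_val]
      field_simp
    · exact ⟨k, 1, .inr hk, by simp [Nat.ModEq]⟩
  have h5 := blackburn_calc x1 t2 t3 (Amb.comm_le_cent (isElementaryAbelian_of_card_eq_sq t1
    fun a ha => he a (t2 ha)).1) inf_le_right hZ hw hc (one_mem T) (one_mem T) i 1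
  rw [one_mul, one_mul, pow_one, k2, ← pow_mul, (pow_eq_pow_iff_modEq (x := w ^ p ^ n)).2 (ho'.symm ▸ s2)] at h5
  have h6 : (w ^ p ^ n) ^ s ≠ 1 := fun e => by
    have := orderOf_dvd_iff_pow_eq_one.2 e
    rw [ho'] at this
    rcases s1 with rfl | s1
    · exact hp.out.one_lt.ne' (Nat.dvd_one.1 this)
    · exact s1 (by rw [(ZMod.natCast_eq_zero_iff s p).2 this]; exact IsSquare.zero)
  have hu := pow_mem x1 i
  generalize x ^ i = u at h5 hu
  have h7 := hc u hu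
  refine ⟨s, u⁻¹, ⁅w, u⁆⁻¹, w, s1, ?_, he _ (inv_mem hu), he _ (inv_mem (t2 h7)), ho ▸ pow_orderOf_eq_one w,
    hw _ (inv_mem h7), by rw [mul_comm s, pow_mul, ← h5, commutatorElement_def ⁅w, u⁆]; group,
    by rw [commutatorElement_def]; group⟩
  have rel : ∀ {X Y : Subgroup G}, X ≤ Y → Nat.card Y = Nat.card X * p → X.relIndex Y = p := fun h1 h2 =>
    Nat.eq_of_mul_eq_mul_left Nat.card_pos ((card_eq_card_mul_relIndex h1).symm.trans h2)
  have e1 := sup_zpowers_eq_of_relIndex_prime hp.out (rel t3 (by rw [t1, h1, pow_two])) t3 h7 fun e =>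
    h6 (h5 ▸ commutatorElement_eq_one_iff_mul_comm.2 (e.2 u hu).symm)
  have e2 := sup_zpowers_eq_of_relIndex_prime hp.out (rel t2 (by rw [t1, hE, ← pow_succ])) t2 hu fun e =>
    h6 (by rw [← h5, commutatorElement_eq_one_iff_mul_comm.2 (hw u e).symm, commutatorElement_one_left])
  have e3 : zpowers ⁅⁅w, x⁆, x⁆ = E ⊓ 𝐂(E) := eq_of_le_of_card_le (zpowers_le.2 h3) (by
    rw [h1, Nat.card_zpowers, Rank.orderOf_eq_of_pow (he _ h3.1) w3])
  have e4 : zpowers w ≤ closure {u⁻¹, ⁅w, u⁆⁻¹, w} := zpowers_le.2 (subset_closure (by simp))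
  have e5 : T ≤ closure {u⁻¹, ⁅w, u⁆⁻¹, w} := by
    rw [← e1, ← e3]
    exact sup_le ((zpowers_le.2 h4).trans e4) (zpowers_le.2 (inv_mem_iff.1 (subset_closure (by simp))))
  rw [eq_top_iff, ← t5, ← w1, ← e2]
  exact sup_le (sup_le e5 e4) (sup_le e5 (zpowers_le.2 (inv_mem_iff.1 (subset_closure (by simp)))))

/-- The classification of the p-groups of rank at most two for odd p. Let p be an odd prime and G a group of order p^n with no elementary abelian subgroup of order p³. Then one of the following holds: G is metacyclic; n ≥ 3 and G is generated by elements x, y, z with x^p = y^p = z^(p^(n−2)) = 1, z commuting with x and y, and x⁻¹yx = y z^(p^(n−3)); n ≥ 4 and G is generated by elements x, y, z with x^p = y^p = z^(p^(n−2)) = 1, yz = zy, x⁻¹yx = y z^(s p^(n−3)) and x⁻¹zx = yz, where s = 1 or s is a quadratic non-residue modulo p; or p = 3 and G has maximal class (nilpotency class n − 1). -/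
theorem result {G : Type*} [Group G] [Finite G] {p : ℕ} [Fact p.Prime] (hp : p ≠ 2) (n : ℕ) (hG : Nat.card G = p ^ n)
    (hrk : Cfsg.PRankLE p 2 G) :
    Cfsg.IsMetacyclic G ∨
    (3 ≤ n ∧ ∃ x y z : G, Subgroup.closure ({x, y, z} : Set G) = ⊤ ∧ x ^ p = 1 ∧ y ^ p = 1 ∧ z ^ p ^ (n - 2) = 1 ∧
        x * z = z * x ∧ y * z = z * y ∧ x⁻¹ * y * x = y * z ^ p ^ (n - 3)) ∨
    (4 ≤ n ∧ ∃ (s : ℕ) (x y z : G), (s = 1 ∨ ¬ IsSquare (s : ZMod p)) ∧ Subgroup.closure ({x, y, z} : Set G) = ⊤ ∧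
        x ^ p = 1 ∧ y ^ p = 1 ∧ z ^ p ^ (n - 2) = 1 ∧ y * z = z * y ∧ x⁻¹ * y * x = y * z ^ (s * p ^ (n - 3)) ∧
        x⁻¹ * z * x = y * z) ∨
    (p = 3 ∧ 2 ≤ n ∧ (⊤ : Subgroup G).lowerCentralSeries (n - 2) ≠ ⊥) := by
  have hP : IsPGroup p G := .of_card hG
  have hr := (Rank.pRankLE_congr topEquiv).2 hrk
  by_cases h : NoE p G
  · by_cases h3 : p = 3
    · exact (h.meta_or_mcl hp hG).imp_right fun hm => .inr (.inr ⟨h3, by have := hm.three; omega, hm.ne⟩)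
    have h4 : 3 < p := by have := (Fact.out : p.Prime).two_le; omega
    have := omegaOne_normal (p := p) (⊤ : Subgroup G)
    exact .inl (isMetacyclic_of_card_omegaOne_le h4 hP (h.card_le hP _ fun x =>
      pow_eq_one_of_mem_omegaOne_of_pRankLE_two h4 (hP.to_subgroup _) hr))
  unfold NoE at h
  push Not at h
  obtain ⟨E, e1, e2, e3⟩ := h
  have h3 := card_le_card_group E
  rw [e2, hG, Nat.pow_le_pow_iff_right (Fact.out : p.Prime).one_lt] at h3
  obtain ⟨n, rfl⟩ := Nat.exists_eq_add_of_le' h3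
  by_cases h : E ⊔ (⊤ ⊓ 𝐂(E)) = ⊤
  · exact .inr (.inl ⟨h3, fam2 hp hG hr e2 e3 h⟩)
  · refine .inr (.inr (.inl ⟨?_, fam3 hp hG hr e2 e3 h⟩))
    by_contra hn
    obtain rfl : n = 0 := by omega
    exact h (eq_top_iff.2 ((eq_top_of_card_eq E (e2.trans hG.symm)).ge.trans le_sup_left))

end Cfsg.Agent.S3888
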