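import Mathlib
import Cfsg.Statements.S3901
import Cfsg.Agent.S0033
import Cfsg.Agent.S0205
import Cfsg.Agent.S0144

set_option autoImplicit false
open Cfsg

namespace Cfsg.Agent.S3901

open Subgroup

section
variable {G : Type*} [Group G] [Finite G]

theorem pg {p : ℕ} [hp : Fact p.Prime] {U : Subgroup G}
    (h : ∀ y ∈ U, (orderOf y).Prime → orderOf y = p) : IsPGroup p U := fun g => by
  have e := Nat.eq_prime_pow_of_unique_prime_dvd (n := orderOf (g : G)) (p := p) (orderOf_pos _).ne'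
    fun {d} hd o => by
      have a := orderOf_pow_orderOf_div (orderOf_pos (g : G)).ne' o
      exact a ▸ h _ (pow_mem g.2 _) (a.symm ▸ hd)
  exact ⟨_, Subtype.ext (by rw [coe_pow, ← e]; exact pow_orderOf_eq_one _)⟩

theorem uniq {n p r : ℕ} (h : IsPrimePow n) (hp : p.Prime) (hr : r.Prime) (a : p ∣ n) (b : r ∣ n) : p = r :=
  (isPrimePow_iff_unique_prime_dvd.mp h).unique ⟨hp, a⟩ ⟨hr, b⟩

theorem cen {N : Subgroup G} (h : ∀ x : G, x ∉ N → IsPrimePow (orderOf x)) {x : G} (hx : (orderOf x).Prime)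
    (hN : ∀ y ∈ N, orderOf y ≠ orderOf x) {y : G} (hy : y ∈ N) (c : Commute x y) : y = 1 := by
  by_contra o
  obtain ⟨r, hr, d⟩ := Nat.exists_prime_and_dvd (mt orderOf_eq_one_iff.mp o)
  have nd : ¬ orderOf x ∣ orderOf y := fun d =>
    hN _ (pow_mem hy _) (orderOf_pow_orderOf_div (orderOf_pos y).ne' d)
  have e := c.orderOf_mul_eq_mul_orderOf_of_coprime ((Nat.Prime.coprime_iff_not_dvd hx).mpr nd)
  have a := h (x * y) fun i => hN x ((mul_mem_cancel_right hy).mp i) rfl
  rw [e] at a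
  exact nd (uniq a hx hr (dvd_mul_right _ _) (d.mul_left _) ▸ d)

theorem fpf {N : Subgroup G} [N.Normal] (h : ∀ x : G, x ∉ N → IsPrimePow (orderOf x)) {x : G}
    (hx : (orderOf x).Prime) (hN : ∀ y ∈ N, orderOf y ≠ orderOf x) :
    MonoidHom.FixedPointFree (MulAut.conjNormal x : MulAut N) := fun y e => by
  have a : x * y * x⁻¹ = y := congrArg Subtype.val e
  exact Subtype.ext (cen h hx hN y.2 (mul_inv_eq_iff_eq_mul.mp a))

end

universe u

theorem main (n : ℕ) : ∀ (G : Type u) [Group G] [Finite G] (N : Subgroup G) [N.Normal], Nat.card G = n →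
    (∀ x : G, x ∉ N → IsPrimePow (orderOf x)) → ¬ Group.IsSolvable (G ⧸ N) →
    ∀ y ∈ N, (orderOf y).Prime → orderOf y = 2 := by
  induction n using Nat.strong_induction_on with
  | _ n ih =>
  intro G _ _ N _ hn h ns y hy hq
  by_contra h2
  have y1 : y ≠ 1 := fun e => hq.one_lt.ne' (orderOf_eq_one_iff.mpr e)
  have quo : ∀ (L : Subgroup G) [L.Normal] (r : ℕ) [Fact r.Prime], L ≤ N → IsPGroup r L → r ≠ orderOf y →
      L = ⊥ := fun L _ r hr l1 l2 l3 => by
    by_contra l0
    have lt : Nat.card (G ⧸ L) < n := by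
      rw [← hn, card_eq_card_quotient_mul_card_subgroup L]
      exact lt_mul_of_one_lt_right Nat.card_pos ((one_lt_card_iff_ne_bot L).mpr l0)
    have oy : orderOf (y : G ⧸ L) = orderOf y := by
      have := Fact.mk hq
      refine orderOf_eq_prime (by rw [← QuotientGroup.mk_pow, pow_orderOf_eq_one]; rfl) fun e => ?_
      obtain ⟨k, ek⟩ := IsPGroup.iff_orderOf.mp l2 ⟨y, (QuotientGroup.eq_one_iff y).mp e⟩
      rw [Subgroup.orderOf_mk] at ek
      exact l3 ((Nat.prime_dvd_prime_iff_eq hq hr.out).mp (hq.dvd_of_dvd_pow ek.dvd)).symm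
    refine h2 (oy ▸ ih _ lt (G ⧸ L) (N.map (QuotientGroup.mk' L)) rfl (fun x hx => ?_) (fun s => ns ?_) _
      (mem_map_of_mem _ hy) (oy.symm ▸ hq))
    · obtain ⟨x, rfl⟩ := QuotientGroup.mk'_surjective L x
      have a := h x fun i => hx (mem_map_of_mem _ i)
      have d := orderOf_map_dvd (QuotientGroup.mk' L) x
      obtain ⟨r, hr, dr⟩ := Nat.exists_prime_and_dvd
        (mt orderOf_eq_one_iff.mp fun e : QuotientGroup.mk' L x = 1 => hx (e ▸ one_mem _))
      exact isPrimePow_iff_unique_prime_dvd.mpr ⟨r, ⟨hr, dr⟩, fun s hs => uniq a hs.1 hr (hs.2.trans d) (dr.trans d)⟩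
    · exact solvable_of_surjective (f := (QuotientGroup.quotientQuotientEquivQuotient L N l1).toMonoidHom)
        (QuotientGroup.quotientQuotientEquivQuotient L N l1).surjective
  have ne : ∀ (r : ℕ) [Fact r.Prime] (P : Sylow r N), (P.map N.subtype : Subgroup G) = ⊥ →
      ∀ z ∈ N, orderOf z ≠ r := fun r _ P e z hz o =>
    P.ne_bot_of_dvd_card (o ▸ N.orderOf_dvd_natCard hz) ((map_eq_bot_iff_of_injective _ N.subtype_injective).mp e)
  have pq : ∀ z ∈ N, (orderOf z).Prime → orderOf z = 2 ∨ orderOf z = orderOf y := fun z hz hr => by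
    by_contra! o
    have := Fact.mk hr
    obtain ⟨P⟩ : Nonempty (Sylow (orderOf z) N) := inferInstance
    have pP : IsPGroup (orderOf z) (P.map N.subtype : Subgroup G) := P.isPGroup'.map _
    have b : (P.map N.subtype : Subgroup G) ≠ ⊥ := fun e => ne _ P e z hz rfl
    set K := normalizer ((P.map N.subtype : Subgroup G) : Set G) with hK
    by_cases k : K = ⊤
    · have := normalizer_eq_top_iff.mp k
      exact b (quo _ (orderOf z) (map_subtype_le _) pP o.2)
    have lt : Nat.card K < n := hn ▸ lt_of_le_of_ne (card_le_card_group K) fun e => k (eq_top_of_card_eq K e)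
    obtain ⟨w, hw⟩ := exists_prime_orderOf_dvd_card' (G := (P.map N.subtype : Subgroup G)) (orderOf z) (by
      obtain ⟨j, e⟩ := IsPGroup.iff_card.mp pP
      rw [e]
      exact dvd_pow_self _ fun j0 => b (card_eq_one.mp (by rw [e, j0, pow_zero])))
    have wK : (w : G) ∈ K := le_normalizer w.2
    have ow : orderOf (⟨w, wK⟩ : K) = orderOf z := by rw [Subgroup.orderOf_mk, Subgroup.orderOf_coe, hw]
    refine o.1 (ow ▸ ih _ lt K (N.subgroupOf K) rfl (fun x hx => ?_) (fun s => ns ?_) _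
      (mem_subgroupOf.mpr (map_subtype_le _ w.2)) (ow.symm ▸ hr))
    · rw [← Subgroup.orderOf_coe]; exact h x hx
    · refine solvable_of_surjective (f := QuotientGroup.map (N.subgroupOf K) N K.subtype le_rfl) fun g => ?_
      obtain ⟨g, rfl⟩ := QuotientGroup.mk_surjective g
      have a0 : g ∈ K ⊔ N := by rw [hK, P.normalizer_sup_eq_top]; trivial
      obtain ⟨a, ha, c, hc, rfl⟩ := mem_sup_of_normal_right.mp a0
      exact ⟨(⟨a, ha⟩ : K), (QuotientGroup.mk_mul_of_mem a hc).symm⟩
  obtain ⟨p, hp, pd, p2, pq'⟩ : ∃ p : ℕ, p.Prime ∧ p ∣ Nat.card (G ⧸ N) ∧ p ≠ 2 ∧ p ≠ orderOf y := by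
    by_contra! o
    obtain ⟨a, m, m2, e⟩ := Nat.exists_eq_pow_mul_and_not_dvd (Nat.card_pos (α := G ⧸ N)).ne' 2 (by norm_num)
    have m0 : m ≠ 0 := fun o => m2 (o ▸ dvd_zero 2)
    have := Nat.eq_prime_pow_of_unique_prime_dvd (p := orderOf y) m0 fun {d} hd i =>
      o d hd (e ▸ i.mul_left _) fun j => m2 (j ▸ i)
    exact ns (S0144.result 2 _ a _ Nat.prime_two hq (e.trans (congrArg _ this)))
  have := Fact.mk hp
  obtain ⟨x, hx⟩ := exists_prime_orderOf_dvd_card' (G := G) p (pd.trans (card_quotient_dvd_card N))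
  have xN : ∀ z ∈ N, orderOf z ≠ orderOf x := fun z hz e =>
    (pq z hz (e.trans hx ▸ hp)).elim (fun o => p2 (hx ▸ e ▸ o)) fun o => pq' (hx ▸ e ▸ o)
  have fx := fpf h (hx.symm ▸ hp) xN
  have nil : Group.IsNilpotent N := S0033.result (MulAut.conjNormal x) fx p hp (orderOf_eq_prime
    (by rw [← map_pow, ← hx, pow_orderOf_eq_one, map_one])
    fun e => y1 (congrArg Subtype.val (fx ⟨y, hy⟩ (by rw [e]; rfl))))
  obtain ⟨T⟩ : Nonempty (Sylow 2 N) := inferInstance
  have : (T : Subgroup N).Normal := T.normal_of_normalizerCondition normalizerCondition_of_isNilpotent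
  have := T.characteristic_of_normal this
  have n2 := ne 2 T (quo _ 2 (map_subtype_le _) (T.isPGroup'.map _) (Ne.symm h2))
  obtain ⟨t, ht⟩ := exists_prime_orderOf_dvd_card' (G := G) 2 (by
    by_contra o
    have := S0205.result (G := G) (Nat.odd_iff.mpr (by omega))
    exact ns inferInstance)
  have ft := fpf h (ht.symm ▸ Nat.prime_two) (ht.symm ▸ n2)
  have tt : t * t = 1 := by rw [← sq, ← ht, pow_orderOf_eq_one]
  have iv : Function.Involutive (MulAut.conjNormal t : MulAut N) := fun z => by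
    rw [← MulAut.mul_apply, ← map_mul, tt, map_one, MulAut.one_apply]
  have inv : ∀ z ∈ N, t * z * t⁻¹ = z⁻¹ := fun z hz =>
    congrArg Subtype.val (congrFun (ft.coe_eq_inv_of_involutive iv) ⟨z, hz⟩)
  set C := centralizer (N : Set G)
  have NC : N ≤ C := fun a ha => mem_centralizer_iff.mpr fun b hb =>
    congrArg Subtype.val (ft.commute_all_of_involutive iv ⟨b, hb⟩ ⟨a, ha⟩)
  have oq : ∀ z : G, (orderOf z).Prime → (∀ w ∈ N, orderOf w ≠ orderOf z) → orderOf (z : G ⧸ C) = orderOf z :=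
    fun z hz o => by
      have := Fact.mk hz
      exact orderOf_eq_prime (by rw [← QuotientGroup.mk_pow, pow_orderOf_eq_one]; rfl) fun e =>
        y1 (cen h hz o hy (mem_centralizer_iff.mp ((QuotientGroup.eq_one_iff z).mp e) y hy).symm)
  have c : Commute (t : G ⧸ C) x := by
    refine QuotientGroup.eq.mpr (mem_centralizer_iff.mpr fun z hz => ?_)
    have a := inv z hz
    have b := inv (x * z⁻¹ * x⁻¹) (Normal.conj_mem inferInstance _ (inv_mem hz) x)
    have d : x * t * z * (x * t)⁻¹ = t * x * z * (t * x)⁻¹ := by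
      have b' := inv (x * z * x⁻¹) (Normal.conj_mem inferInstance _ hz x)
      calc _ = x * (t * z * t⁻¹) * x⁻¹ := by group
        _ = (x * z * x⁻¹)⁻¹ := by rw [a]; group
        _ = _ := by rw [← b']; group
    calc _ = (t * x)⁻¹ * (t * x * z * (t * x)⁻¹) * (x * t) := by group
      _ = _ := by rw [← d]; group
  have e := c.orderOf_mul_eq_mul_orderOf_of_coprime (by
    rw [oq t (ht.symm ▸ Nat.prime_two) (ht.symm ▸ n2), oq x (hx.symm ▸ hp) xN, ht, hx]
    exact (Nat.coprime_primes Nat.prime_two hp).mpr p2.symm)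
  rw [oq t (ht.symm ▸ Nat.prime_two) (ht.symm ▸ n2), oq x (hx.symm ▸ hp) xN, ht, hx] at e
  have d : 2 * p ∣ orderOf (t * x) := e ▸ orderOf_map_dvd (QuotientGroup.mk' C) (t * x)
  refine p2 (uniq (h (t * x) fun i => ?_) hp Nat.prime_two ((dvd_mul_left _ _).trans d) ((dvd_mul_right _ _).trans d))
  rw [← QuotientGroup.mk_mul, (QuotientGroup.eq_one_iff _).mpr (NC i), orderOf_one] at e
  omega

/-- Let N be a non-trivial normal subgroup of the finite group G such that every element of G outside N has prime power order. If N is not solvable, then G/N is solvable. -/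
theorem result {G : Type*} [Group G] [Finite G] (N : Subgroup G) [N.Normal] (hN : N ≠ ⊥) (hns : ¬ Group.IsSolvable ↥N)
    (h : ∀ x : G, x ∉ N → IsPrimePow (orderOf x)) : Group.IsSolvable (G ⧸ N) := by
  by_contra o
  have := (pg (p := 2) (main _ G N rfl h o)).isNilpotent
  exact hns inferInstance

end Cfsg.Agent.S3901
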