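import Mathlib
import Cfsg.Statements.S3905
import Cfsg.Agent.H2.Frobenius
import Cfsg.Agent.H2.Primitive
import Cfsg.Agent.S0205

set_option autoImplicit false
open Cfsg

namespace Cfsg.Agent.S3905

open Subgroup

section
variable {G : Type*} [Group G]

theorem dich {K : Subgroup G} [K.Normal] {x : G} (hx : IsCoatom (centralizer ({x} : Set G)))
    {k : G} (hk : k ∈ K) (hkx : k * x ≠ x * k) (g : G) : ∃ a ∈ K, ∃ c, c * x = x * c ∧ g = a * c := by
  have h1 : ¬ K ≤ centralizer ({x} : Set G) := fun h => hkx (mem_centralizer_singleton_iff.1 (h hk))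
  have h2 := H2.coatom_sup_eq_top hx h1
  have h3 : g ∈ ((K ⊔ centralizer ({x} : Set G) : Subgroup G) : Set G) := by rw [h2]; trivial
  rw [normal_mul] at h3
  obtain ⟨a, ha, c, hc, rfl⟩ := h3
  exact ⟨a, ha, c, mem_centralizer_singleton_iff.1 hc, rfl⟩

/-- second centre -/
def Z2 (N : Subgroup G) [N.Normal] : Subgroup G where
  carrier := {x | x ∈ N ∧ ∀ n ∈ N, x * n * x⁻¹ * n⁻¹ ∈ centralizer (N : Set G)}
  one_mem' := ⟨one_mem _, fun n _ => by simp⟩
  mul_mem' := by
    rintro a b ⟨ha, ha'⟩ ⟨hb, hb'⟩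
    refine ⟨mul_mem ha hb, fun n hn => ?_⟩
    have e : a * b * n * (a * b)⁻¹ * n⁻¹ = a * (b * n * b⁻¹ * n⁻¹) * a⁻¹ * (a * n * a⁻¹ * n⁻¹) := by group
    rw [e]
    exact mul_mem ((inferInstance : (centralizer (N : Set G)).Normal).conj_mem _ (hb' n hn) a) (ha' n hn)
  inv_mem' := by
    rintro a ⟨ha, ha'⟩
    refine ⟨inv_mem ha, fun n hn => ?_⟩
    have e : a⁻¹ * n * a⁻¹⁻¹ * n⁻¹ = a⁻¹ * (a * n * a⁻¹ * n⁻¹)⁻¹ * a⁻¹⁻¹ := by group
    rw [e]
    exact (inferInstance : (centralizer (N : Set G)).Normal).conj_mem _ (inv_mem (ha' n hn)) _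

instance (N : Subgroup G) [hN : N.Normal] : (Z2 N).Normal := ⟨by
  rintro a ⟨ha, ha'⟩ g
  refine ⟨hN.conj_mem a ha g, fun n hn => ?_⟩
  have e : g * a * g⁻¹ * n * (g * a * g⁻¹)⁻¹ * n⁻¹ =
      g * (a * (g⁻¹ * n * g⁻¹⁻¹) * a⁻¹ * (g⁻¹ * n * g⁻¹⁻¹)⁻¹) * g⁻¹ := by group
  rw [e]
  exact (inferInstance : (centralizer (N : Set G)).Normal).conj_mem _ (ha' _ (hN.conj_mem n hn _)) _⟩

theorem part1a (N : Subgroup G) [N.Normal]
    (h : ∀ x : G, x ∈ N → x ∉ centralizer (N : Set G) → IsCoatom (centralizer ({x} : Set G)))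
    {x0 : G} (hx0 : x0 ∈ Z2 N) (hx0' : x0 ∉ centralizer (N : Set G)) : N ≤ Z2 N := by
  have key : ∀ y ∈ N, ∀ k ∈ Z2 N, k * y ≠ y * k → y ∈ Z2 N := by
    intro y hy k hk hky
    have hy' : y ∉ centralizer (N : Set G) := fun hc => hky (hc k hk.1)
    refine ⟨hy, fun n hn => ?_⟩
    obtain ⟨a, ha, c, hc, rfl⟩ := dich (K := Z2 N) (h y hy hy') hk hky n
    have e : y * (a * c) * y⁻¹ * (a * c)⁻¹ = y * (a * y⁻¹ * a⁻¹ * y⁻¹⁻¹) * y⁻¹ := by
      have : c * y⁻¹ = y⁻¹ * c := by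
        rw [eq_inv_mul_iff_mul_eq, ← mul_assoc, ← hc]; group
      calc y * (a * c) * y⁻¹ * (a * c)⁻¹ = y * a * (c * y⁻¹) * c⁻¹ * a⁻¹ := by group
        _ = _ := by rw [this]; group
    rw [e]
    exact (inferInstance : (centralizer (N : Set G)).Normal).conj_mem _ (ha.2 _ (inv_mem hy)) _
  obtain ⟨y, hy, hxy⟩ : ∃ y ∈ N, x0 * y ≠ y * x0 := by
    by_contra hc
    push Not at hc
    exact hx0' fun n hn => (hc n hn).symm
  have hyZ := key y hy x0 hx0 hxy
  intro n hn
  by_cases hc : x0 * n = n * x0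
  · have h1 : x0 * (n * y) ≠ (n * y) * x0 := by
      intro e
      apply hxy
      rw [← mul_assoc, hc, mul_assoc, mul_assoc] at e
      exact mul_left_cancel e
    have := key _ (mul_mem hn hy) x0 hx0 h1
    simpa using mul_mem this (inv_mem hyZ)
  · exact key n hn x0 hx0 hc

theorem pow_conj {x y z : G} (hz : x * y * x⁻¹ = z * y) (hzx : z * x = x * z) (a : ℕ) :
    x ^ a * y * (x ^ a)⁻¹ = z ^ a * y := by
  induction a with
  | zero => simp
  | succ a ih =>
    have hc : Commute z x := hzx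
    calc x ^ (a + 1) * y * (x ^ (a + 1))⁻¹ = x * (x ^ a * y * (x ^ a)⁻¹) * x⁻¹ := by
          rw [pow_succ']; group
      _ = x * z ^ a * y * x⁻¹ := by rw [ih]; group
      _ = z ^ a * (x * y * x⁻¹) := by rw [← (hc.pow_left a).eq]; group
      _ = _ := by rw [hz, pow_succ]; group

theorem part1b [Finite G] (N : Subgroup G) [N.Normal]
    (h : ∀ x : G, x ∈ N → x ∉ centralizer (N : Set G) → IsCoatom (centralizer ({x} : Set G)))
    (h2 : N ≤ Z2 N) {x : G} (hx : x ∈ N) (hx' : x ∉ centralizer (N : Set G)) :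
    ∃ q : ℕ, q.Prime ∧ x ^ q ∈ centralizer (N : Set G) := by
  obtain ⟨y, hy, hxy⟩ : ∃ y ∈ N, x * y ≠ y * x := by
    by_contra hc
    push Not at hc
    exact hx' fun n hn => (hc n hn).symm
  set z := x * y * x⁻¹ * y⁻¹ with hz
  have hzc : z ∈ centralizer (N : Set G) := (h2 hx).2 y hy
  have hz1 : z ≠ 1 := by
    intro e
    apply hxy
    rw [hz, mul_inv_eq_one, mul_inv_eq_iff_eq_mul] at e
    exact e
  have hk : orderOf z ≠ 1 := fun e => hz1 (orderOf_eq_one_iff.1 e)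
  obtain ⟨q, hq, b, hb⟩ := Nat.exists_prime_and_dvd hk
  have hpos : 0 < orderOf z := orderOf_pos z
  have hb0 : b ≠ 0 := by rintro rfl; omega
  have hblt : b < orderOf z := by
    rw [hb]; have := hq.two_le; nlinarith [Nat.pos_of_ne_zero hb0]
  have hzb : z ^ b ≠ 1 := pow_ne_one_of_lt_orderOf hb0 hblt
  have e1 : x * y * x⁻¹ = z * y := by rw [hz]; group
  have hcy : Commute z y := (hzc y hy).symm
  have hcx : Commute z x := (hzc x hx).symm
  have e2 : x * y ^ b * x⁻¹ = z ^ b * y ^ b := by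
    rw [← conj_pow, e1, hcy.mul_pow]
  have e3 := pow_conj e2 (hcx.pow_left b).eq q
  rw [← pow_mul, mul_comm b q, ← hb, pow_orderOf_eq_one, one_mul] at e3
  refine ⟨q, hq, ?_⟩
  by_contra hc
  have c1 := h x hx hx'
  have c2 := h _ (pow_mem hx q) hc
  have hle : centralizer ({x} : Set G) ≤ centralizer ({x ^ q} : Set G) := by
    intro g hg
    rw [mem_centralizer_singleton_iff] at hg ⊢
    exact ((show Commute g x from hg).pow_right q).eq
  have heq : centralizer ({x ^ q} : Set G) = centralizer ({x} : Set G) :=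
    ((c1.le_iff).1 hle).resolve_left c2.1
  have : y ^ b ∈ centralizer ({x ^ q} : Set G) := by
    rw [mem_centralizer_singleton_iff]
    rw [mul_inv_eq_iff_eq_mul] at e3
    exact e3.symm
  rw [heq, mem_centralizer_singleton_iff] at this
  apply hzb
  rw [← this, mul_inv_cancel_right] at e2
  exact (mul_eq_right.1 e2.symm)

theorem part1c {Γ : Type*} [Group Γ] (hc : ∀ a b : Γ, a * b = b * a)
    (h : ∀ a : Γ, a ≠ 1 → ∃ q : ℕ, q.Prime ∧ a ^ q = 1) : ∃ p : ℕ, p.Prime ∧ ∀ a : Γ, a ^ p = 1 := by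
  by_cases h1 : ∀ a : Γ, a = 1
  · exact ⟨2, Nat.prime_two, fun a => by rw [h1 a, one_pow]⟩
  push Not at h1
  obtain ⟨a, ha⟩ := h1
  obtain ⟨p, hp, hap⟩ := h a ha
  refine ⟨p, hp, fun b => ?_⟩
  by_contra hb
  have hb1 : b ≠ 1 := by rintro rfl; exact hb (one_pow p)
  obtain ⟨q, hq, hbq⟩ := h b hb1
  have hpq : p ≠ q := by rintro rfl; exact hb hbq
  haveI := Fact.mk hp
  haveI := Fact.mk hq
  have oa : orderOf a = p := orderOf_eq_prime hap ha
  have ob : orderOf b = q := orderOf_eq_prime hbq hb1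
  have oab : orderOf (a * b) = p * q := by
    rw [← oa, ← ob]
    apply Commute.orderOf_mul_eq_mul_orderOf_of_coprime (hc a b)
    rw [oa, ob]; exact (Nat.coprime_primes hp hq).2 hpq
  have hab : a * b ≠ 1 := by
    intro e
    rw [e, orderOf_one] at oab
    have := hp.two_le; have := hq.two_le; nlinarith
  obtain ⟨r, hr, habr⟩ := h _ hab
  haveI := Fact.mk hr
  have : orderOf (a * b) = r := orderOf_eq_prime habr hab
  rw [oab] at this
  exact Nat.not_prime_mul hp.ne_one hq.ne_one (this ▸ hr)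

theorem exists_ab [Finite G] (N : Subgroup G) [hNn : N.Normal] (hN : N ≠ ⊥)
    (h : ∀ x ∈ N, x ≠ 1 → IsCoatom (centralizer ({x} : Set G))) :
    ∃ A : Subgroup G, A.Normal ∧ A ≤ N ∧ A ≠ ⊥ ∧ Group.IsSolvable A := by
  rcases Nat.even_or_odd (Nat.card N) with he | ho
  swap
  · exact ⟨N, hNn, le_rfl, hN, S0205.result ho⟩
  obtain ⟨t, ht⟩ := exists_prime_orderOf_dvd_card' (G := N) 2 (even_iff_two_dvd.1 he)
  have ht2 : (t : G) * t = 1 := by
    have := pow_orderOf_eq_one t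
    rw [ht, sq] at this
    exact congrArg Subtype.val this
  have ht1 : (t : G) ≠ 1 := by
    intro e
    have : t = 1 := Subtype.ext e
    rw [this, orderOf_one] at ht; omega
  by_cases hc : ∀ a ∈ N, ∀ b ∈ N, a * a = 1 → b * b = 1 → a * b = b * a
  · let A : Subgroup G :=
      { carrier := {a | a ∈ N ∧ a * a = 1}
        one_mem' := ⟨one_mem _, one_mul _⟩
        mul_mem' := by
          rintro a b ⟨ha, ha2⟩ ⟨hb, hb2⟩
          refine ⟨mul_mem ha hb, ?_⟩
          calc a * b * (a * b) = a * (b * a) * b := by group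
            _ = (a * a) * (b * b) := by rw [← hc a ha b hb ha2 hb2]; group
            _ = 1 := by rw [ha2, hb2, one_mul]
        inv_mem' := by
          rintro a ⟨ha, ha2⟩
          exact ⟨inv_mem ha, by rw [← mul_inv_rev, ha2, inv_one]⟩ }
    refine ⟨A, ⟨?_⟩, fun a ha => ha.1, ?_, ?_⟩
    · rintro a ⟨ha, ha2⟩ g
      refine ⟨hNn.conj_mem a ha g, ?_⟩
      calc g * a * g⁻¹ * (g * a * g⁻¹) = g * (a * a) * g⁻¹ := by group
        _ = 1 := by rw [ha2]; group
    · intro e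
      have : (t : G) ∈ A := ⟨t.2, ht2⟩
      rw [e] at this
      exact ht1 this
    · exact isSolvable_of_comm fun a b => Subtype.ext (hc _ a.2.1 _ b.2.1 a.2.2 b.2.2)
  · push Not at hc
    obtain ⟨a, ha, b, hb, ha2, hb2, hab⟩ := hc
    have ia : a⁻¹ = a := inv_eq_of_mul_eq_one_right ha2
    have ib : b⁻¹ = b := inv_eq_of_mul_eq_one_right hb2
    have hx1 : a * b ≠ 1 := by
      intro e
      apply hab
      rw [e]
      have : b * a = (a * b)⁻¹ := by rw [mul_inv_rev, ia, ib]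
      rw [this, e, inv_one]
    have c1 := h _ (mul_mem ha hb) hx1
    have hle : centralizer ({a * b} : Set G) ≤ normalizer (zpowers (a * b) : Set G) := by
      refine le_trans ?_ (centralizer_le_normalizer _)
      intro g hg y hy
      obtain ⟨k, rfl⟩ := mem_zpowers_iff.1 hy
      exact ((show Commute g (a * b) from mem_centralizer_singleton_iff.1 hg).zpow_right k).eq.symm
    have hconj : a * (a * b) * a⁻¹ = (a * b)⁻¹ := by
      rw [mul_inv_rev, ia, ib, ← mul_assoc, ha2, one_mul]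
    have haN : a ∈ normalizer (zpowers (a * b) : Set G) := by
      apply mem_normalizer_fintype
      intro y hy
      obtain ⟨k, rfl⟩ := mem_zpowers_iff.1 hy
      rw [← conj_zpow, hconj]
      exact zpow_mem (inv_mem (mem_zpowers _)) k
    have htop : normalizer (zpowers (a * b) : Set G) = ⊤ := by
      refine ((c1.le_iff).1 hle).resolve_right fun e => ?_
      rw [e, mem_centralizer_singleton_iff] at haN
      apply hab
      rw [mul_assoc] at haN
      exact mul_left_cancel haN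
    refine ⟨zpowers (a * b), normalizer_eq_top_iff.1 htop, zpowers_le.2 (mul_mem ha hb), ?_, ?_⟩
    · rwa [Ne, zpowers_eq_bot]
    · exact isSolvable_of_comm fun u v => (inferInstance : IsMulCommutative (zpowers (a * b))).is_comm.comm u v

theorem part2 [Finite G] (N : Subgroup G) [hNn : N.Normal] (hN : N ≠ ⊥)
    (hZ : ∀ x ∈ N, x ∈ centralizer (N : Set G) → x = 1)
    (h : ∀ x ∈ N, x ≠ 1 → IsCoatom (centralizer ({x} : Set G))) :
    ∃ (Q K : Subgroup G) (p : ℕ), p.Prime ∧ (Nat.card Q).Prime ∧ K.Normal ∧ K ≤ N ∧ Q ≤ N ∧ K ≠ ⊥ ∧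
      IsElementaryAbelian p K ∧ (∀ n ∈ N, ∃ k ∈ K, ∃ q ∈ Q, n = k * q) ∧
      (∀ q ∈ Q, ∀ k ∈ K, k * q = q * k → q = 1 ∨ k = 1) ∧ K ⊓ Q = ⊥ := by
  obtain ⟨A, hAn, hAN, hA1, hAs⟩ := exists_ab N hN h
  obtain ⟨K, hK, hKA⟩ := H2.exists_minN_le A hA1
  have hKs : Group.IsSolvable K :=
    Group.isSolvable_of_isSolvable_injective (inclusion_injective hKA)
  obtain ⟨p, hp, hKe⟩ := hK.elementary hKs
  haveI hKn := hK.normal
  have hKN : K ≤ N := hKA.trans hAN
  have hKc : ∀ a ∈ K, ∀ b ∈ K, a * b = b * a := fun a ha b hb =>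
    congrArg Subtype.val (hKe.1.is_comm.comm (⟨a, ha⟩ : K) ⟨b, hb⟩)
  -- elements not centralizing `K`
  have hne : ∀ {y k : G}, k * y ≠ y * k → y ≠ 1 := by rintro y k hk rfl; simp at hk
  have fpf : ∀ y ∈ N, ∀ k ∈ K, k * y ≠ y * k → ∀ a ∈ K, a * y = y * a → a = 1 := by
    intro y hy k hk hky a ha hay
    have hn : (K ⊓ centralizer ({y} : Set G)).Normal := ⟨by
      intro n hn g
      obtain ⟨b, hb, c, hc, rfl⟩ := dich (h y hy (hne hky)) hk hky g
      have h1 : c * n * c⁻¹ ∈ K := hKn.conj_mem n hn.1 c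
      have h2 : c * n * c⁻¹ ∈ centralizer ({y} : Set G) :=
        mul_mem (mul_mem (mem_centralizer_singleton_iff.2 hc) hn.2)
          (inv_mem (mem_centralizer_singleton_iff.2 hc))
      have e : b * c * n * (b * c)⁻¹ = c * n * c⁻¹ := by
        calc b * c * n * (b * c)⁻¹ = b * (c * n * c⁻¹) * b⁻¹ := by group
          _ = _ := by rw [hKc b hb _ h1]; group
      rw [e]
      exact mem_inf.2 ⟨h1, h2⟩⟩
    rcases hK.2.2 _ hn inf_le_left with e | e
    · have : a ∈ K ⊓ centralizer ({y} : Set G) := mem_inf.2 ⟨ha, mem_centralizer_singleton_iff.2 hay⟩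
      rw [e] at this
      exact this
    · exfalso
      rw [← e] at hk
      exact hky (mem_centralizer_singleton_iff.1 hk.2)
  obtain ⟨k0, hk0, hk01⟩ : ∃ k ∈ K, k ≠ 1 := by
    by_contra hc
    push Not at hc
    exact hK.ne_bot (eq_bot_iff.2 fun k hk => hc k hk)
  obtain ⟨y, hy, hky⟩ : ∃ y ∈ N, k0 * y ≠ y * k0 := by
    by_contra hc
    push Not at hc
    exact hk01 (hZ k0 (hKN hk0) fun n hn => (hc n hn).symm)
  have cen1 : ∀ n ∈ N, ∀ k ∈ K, k * n ≠ n * k → ∀ g, g * n * g⁻¹ * n⁻¹ ∈ K := by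
    intro n hn k hk hkn g
    obtain ⟨b, hb, c, hc, rfl⟩ := dich (h n hn (hne hkn)) hk hkn g
    have e : b * c * n * (b * c)⁻¹ * n⁻¹ = b * (n * b⁻¹ * n⁻¹) := by
      calc b * c * n * (b * c)⁻¹ * n⁻¹ = b * (c * n) * c⁻¹ * b⁻¹ * n⁻¹ := by group
        _ = _ := by rw [hc]; group
    rw [e]
    exact mul_mem hb (hKn.conj_mem _ (inv_mem hb) n)
  have cen : ∀ n ∈ N, ∀ g, g * n * g⁻¹ * n⁻¹ ∈ K := by
    intro n hn g
    by_cases hc : k0 * n = n * k0
    · have h1 : k0 * (n * y) ≠ (n * y) * k0 := by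
        intro e
        apply hky
        rw [← mul_assoc, hc, mul_assoc, mul_assoc] at e
        exact mul_left_cancel e
      have a1 := cen1 _ (mul_mem hn hy) k0 hk0 h1 g
      have a2 := cen1 _ hy k0 hk0 hky g
      have e' : g * n * g⁻¹ * n⁻¹ = (g * (n * y) * g⁻¹ * (n * y)⁻¹) * (n * (g * y * g⁻¹ * y⁻¹)⁻¹ * n⁻¹) := by
        group
      rw [e']
      exact mul_mem a1 (hKn.conj_mem _ (inv_mem a2) n)
    · exact cen1 n hn k0 hk0 hc g
  have cy := h y hy (hne hky)
  -- `C_N(K) ∩ C(y) = 1`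
  have hL : ∀ c ∈ N, c * y = y * c → (∀ k ∈ K, k * c = c * k) → c = 1 := by
    intro c hc hcy hcK
    refine hZ c hc fun g _ => ?_
    obtain ⟨b, hb, d, hd, rfl⟩ := dich cy hk0 hky g
    have h1 := cen c hc d
    have h2 : d * c * d⁻¹ * c⁻¹ ∈ centralizer ({y} : Set G) :=
      mul_mem (mul_mem (mul_mem (mem_centralizer_singleton_iff.2 hd) (mem_centralizer_singleton_iff.2 hcy))
        (inv_mem (mem_centralizer_singleton_iff.2 hd))) (inv_mem (mem_centralizer_singleton_iff.2 hcy))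
    have h3 := fpf y hy k0 hk0 hky _ h1 (mem_centralizer_singleton_iff.1 h2)
    rw [mul_inv_eq_one, mul_inv_eq_iff_eq_mul] at h3
    rw [mul_assoc, h3, ← mul_assoc, hcK b hb, mul_assoc]
  let Q : Subgroup G := N ⊓ centralizer ({y} : Set G)
  have hfp : ∀ q ∈ Q, ∀ k ∈ K, k * q = q * k → q = 1 ∨ k = 1 := by
    intro q hq k hk hkq
    by_cases hc : ∀ k ∈ K, k * q = q * k
    · exact Or.inl (hL q hq.1 (mem_centralizer_singleton_iff.1 hq.2) hc)
    · push Not at hc
      obtain ⟨k', hk', hk'q⟩ := hc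
      exact Or.inr (fpf q hq.1 k' hk' hk'q k hk hkq)
  have hKQ : ∀ n ∈ N, ∃ k ∈ K, ∃ q ∈ Q, n = k * q := by
    intro n hn
    obtain ⟨b, hb, d, hd, rfl⟩ := dich cy hk0 hky n
    refine ⟨b, hb, d, mem_inf.2 ⟨?_, mem_centralizer_singleton_iff.2 hd⟩, rfl⟩
    simpa using mul_mem (inv_mem (hKN hb)) hn
  have hdis : K ⊓ Q = ⊥ := eq_bot_iff.2 fun a ha =>
    fpf y hy k0 hk0 hky a ha.1 (mem_centralizer_singleton_iff.1 ha.2.2)
  refine ⟨Q, K, p, hp, ?_, hKn, hKN, inf_le_left, hK.ne_bot, hKe, hKQ, hfp, hdis⟩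
  have hyQ : y ∈ Q := mem_inf.2 ⟨hy, mem_centralizer_singleton_iff.2 rfl⟩
  have hQ1 : Nat.card Q ≠ 1 := by
    intro e
    rw [card_eq_one] at e
    rw [e] at hyQ
    exact hne hky hyQ
  obtain ⟨r, hr, hrd⟩ := Nat.exists_prime_and_dvd hQ1
  haveI := Fact.mk hr
  obtain ⟨u, hu⟩ := exists_prime_orderOf_dvd_card' (G := Q) r hrd
  have hu' : orderOf (u : G) = r := by rw [Subgroup.orderOf_coe, hu]
  have hu1 : (u : G) ≠ 1 := by
    intro e
    rw [e, orderOf_one] at hu'
    exact hr.ne_one hu'.symm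
  have hMn : (K ⊔ zpowers (u : G)).Normal := ⟨by
    intro n hn g
    have hnN : n ∈ N := (sup_le hKN (zpowers_le.2 u.2.1) : K ⊔ zpowers (u : G) ≤ N) hn
    have e : g * n * g⁻¹ = (g * n * g⁻¹ * n⁻¹) * n := by group
    rw [e]
    exact mul_mem (mem_sup_left (cen n hnN g)) hn⟩
  have huk : (u : G) * k0 ≠ k0 * u := fun e =>
    (hfp u u.2 k0 hk0 e.symm).elim hu1 hk01
  have hQu : Q = zpowers (u : G) := by
    refine le_antisymm (fun q hq => ?_) (zpowers_le.2 u.2)
    obtain ⟨m, hm, c, hc, e⟩ := dich (K := K ⊔ zpowers (u : G)) (h k0 (hKN hk0) hk01)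
      (mem_sup_right (mem_zpowers _)) huk q
    have hmN : m ∈ N := (sup_le hKN (zpowers_le.2 u.2.1) : K ⊔ zpowers (u : G) ≤ N) hm
    have hcN : c ∈ N := by
      have : c = m⁻¹ * q := by rw [e]; group
      rw [this]; exact mul_mem (inv_mem hmN) hq.1
    obtain ⟨k, hk, q', hq', rfl⟩ := hKQ c hcN
    have h1 : k0 * q' = q' * k0 := by
      rw [mul_assoc, ← mul_assoc k0, hKc k0 hk0 k hk, mul_assoc] at hc
      exact (mul_left_cancel hc).symm
    have h2 : q' = 1 := (hfp q' hq' k0 hk0 h1).resolve_right hk01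
    rw [h2, mul_one] at e
    have hqM : q ∈ ((K ⊔ zpowers (u : G) : Subgroup G) : Set G) := by
      rw [e]; exact mul_mem hm (mem_sup_left hk)
    rw [normal_mul] at hqM
    obtain ⟨a, ha, w, hw, e2⟩ := hqM
    have hwQ : w ∈ Q := (zpowers_le.2 u.2 : zpowers (u : G) ≤ Q) hw
    have haQ : a ∈ K ⊓ Q := by
      refine mem_inf.2 ⟨ha, ?_⟩
      have : a = q * w⁻¹ := by rw [← e2]; simp
      rw [this]; exact mul_mem hq (inv_mem hwQ)
    rw [hdis, mem_bot] at haQ
    rw [← e2, haQ]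
    simpa using hw
  rw [hQu, Nat.card_zpowers, hu']
  exact hr

end

/-- Let N be a normal subgroup of the finite group G such that for every element x of N outside the center of N the centralizer C_G(x) is a maximal subgroup of G. Then N/Z(N) is either an elementary abelian p-group for some prime p, or a Frobenius group whose kernel is an elementary abelian normal subgroup and whose complement has prime order. -/
theorem result {G : Type*} [Group G] [Finite G] (N : Subgroup G) [N.Normal]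
    (h : ∀ x : G, x ∈ N → x ∉ Subgroup.centralizer (N : Set G) → IsCoatom (Subgroup.centralizer ({x} : Set G))) :
    (∃ p : ℕ, p.Prime ∧ Cfsg.IsElementaryAbelian p (⊤ : Subgroup (↥N ⧸ Subgroup.center ↥N))) ∨
    (∃ (Q K : Subgroup (↥N ⧸ Subgroup.center ↥N)) (p : ℕ), p.Prime ∧ Cfsg.IsFrobeniusComplement Q ∧ (Nat.card ↥Q).Prime ∧
      K.Normal ∧ (K : Set (↥N ⧸ Subgroup.center ↥N)) = Cfsg.frobeniusKernel Q ∧ Cfsg.IsElementaryAbelian p K) := by
  classical
  have hcen : ∀ x : N, x ∈ center N ↔ (x : G) ∈ centralizer (N : Set G) := by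
    intro x
    rw [mem_center_iff]
    exact ⟨fun h g hg => congrArg Subtype.val (h ⟨g, hg⟩), fun h g => Subtype.ext (h g g.2)⟩
  by_cases h2 : N ≤ Z2 N
  · left
    have hc : ∀ a b : N ⧸ center N, a * b = b * a := by
      intro a b
      obtain ⟨a, rfl⟩ := QuotientGroup.mk_surjective a
      obtain ⟨b, rfl⟩ := QuotientGroup.mk_surjective b
      rw [← mul_inv_eq_one, mul_inv_rev, ← mul_assoc, ← QuotientGroup.mk_inv, ← QuotientGroup.mk_inv,
        ← QuotientGroup.mk_mul, ← QuotientGroup.mk_mul, ← QuotientGroup.mk_mul, QuotientGroup.eq_one_iff, hcen]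
      exact (h2 a.2).2 b b.2
    obtain ⟨p, hp, hpow⟩ := part1c hc (by
      intro a ha
      obtain ⟨a, rfl⟩ := QuotientGroup.mk_surjective a
      rw [Ne, QuotientGroup.eq_one_iff, hcen] at ha
      obtain ⟨q, hq, hq'⟩ := part1b N h h2 a.2 ha
      refine ⟨q, hq, ?_⟩
      rw [← QuotientGroup.mk_pow, QuotientGroup.eq_one_iff, hcen]
      exact hq')
    exact ⟨p, hp, ⟨⟨fun a b => Subtype.ext (hc _ _)⟩⟩, fun a _ => hpow a⟩
  right
  have hZ2 : ∀ x ∈ Z2 N, x ∈ centralizer (N : Set G) := by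
    intro x hx
    by_contra hc
    exact h2 (part1a N h hx hc)
  let Z : Subgroup G := N ⊓ centralizer (N : Set G)
  haveI : Z.Normal := inferInstance
  let π := QuotientGroup.mk' Z
  have hπ : Function.Surjective π := QuotientGroup.mk'_surjective Z
  have hπ1 : ∀ x, π x = 1 ↔ x ∈ Z := fun x => QuotientGroup.eq_one_iff x
  haveI : (N.map π).Normal := Normal.map inferInstance π hπ
  have hZb : ∀ x ∈ N.map π, x ∈ centralizer (N.map π : Set (G ⧸ Z)) → x = 1 := by
    rintro _ ⟨x, hx, rfl⟩ hc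
    rw [hπ1]
    refine mem_inf.2 ⟨hx, hZ2 x ⟨hx, fun n hn => ?_⟩⟩
    have : π (x * n * x⁻¹ * n⁻¹) = 1 := by
      rw [map_mul, map_mul, map_mul, map_inv, map_inv, ← hc (π n) (mem_map_of_mem π hn)]
      group
    exact ((hπ1 _).1 this).2
  have hNb : N.map π ≠ ⊥ := by
    intro e
    apply h2
    intro x hx
    have : π x ∈ N.map π := mem_map_of_mem π hx
    rw [e, mem_bot, hπ1] at this
    refine ⟨hx, fun n hn => ?_⟩
    rw [← this.2 n hn]
    simp
  have hco : ∀ x ∈ N.map π, x ≠ 1 → IsCoatom (centralizer ({x} : Set (G ⧸ Z))) := by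
    rintro _ ⟨x, hx, rfl⟩ hx1
    have hxc : x ∉ centralizer (N : Set G) := fun hc => hx1 ((hπ1 x).2 (mem_inf.2 ⟨hx, hc⟩))
    have c1 := h x hx hxc
    refine ⟨fun e => hx1 (hZb _ (mem_map_of_mem π hx) fun g _ => ?_), fun M hM => ?_⟩
    · exact mem_centralizer_singleton_iff.1 (e ▸ mem_top g)
    · have hle : centralizer ({x} : Set G) ≤ (centralizer ({π x} : Set (G ⧸ Z))).comap π := by
        intro g hg
        rw [mem_comap, mem_centralizer_singleton_iff, ← map_mul, ← map_mul, mem_centralizer_singleton_iff.1 hg]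
      have hlt : centralizer ({x} : Set G) < M.comap π :=
        lt_of_le_of_lt hle ((comap_lt_comap_of_surjective hπ).2 hM)
      have := c1.2 _ hlt
      rw [← map_comap_eq_self_of_surjective hπ M, this, map_top_of_surjective π hπ]
  obtain ⟨Q, K, p, hp, hQ, hKn, hKN, hQN, hK1, hKe, hKQ, hfp, hdis⟩ := part2 (N.map π) hNb hZb hco
  let f : N ⧸ center N →* G ⧸ Z := QuotientGroup.lift (center N) (π.comp N.subtype) (by
    intro x hx
    exact (hπ1 _).2 (mem_inf.2 ⟨x.2, (hcen x).1 hx⟩))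
  have hf : Function.Injective f := by
    rw [injective_iff_map_eq_one]
    intro a ha
    obtain ⟨a, rfl⟩ := QuotientGroup.mk_surjective a
    rw [QuotientGroup.eq_one_iff, hcen]
    exact ((hπ1 _).1 ha).2
  have hr : ∀ y ∈ N.map π, ∃ a, f a = y := by
    rintro _ ⟨x, hx, rfl⟩
    exact ⟨((⟨x, hx⟩ : N) : N ⧸ center N), rfl⟩
  have hr' : ∀ a, f a ∈ N.map π := by
    intro a
    obtain ⟨a, rfl⟩ := QuotientGroup.mk_surjective a
    exact mem_map_of_mem π a.2
  have hcard : Nat.card (Q.comap f) = Nat.card Q := by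
    rw [← card_map_of_injective (K := Q.comap f) hf, map_comap_eq_self fun y hy => hr y (hQN hy)]
  haveI : (K.comap f).Normal := hKn.comap f
  have hcomp : IsComplement' (K.comap f) (Q.comap f) := by
    apply isComplement'_of_disjoint_and_mul_eq_univ
    · rw [disjoint_iff, ← comap_inf, hdis]
      exact (MonoidHom.ker_eq_bot_iff f).2 hf
    · refine Set.eq_univ_of_forall fun a => ?_
      obtain ⟨k, hk, q, hq, e⟩ := hKQ _ (hr' a)
      obtain ⟨k, rfl⟩ := hr k (hKN hk)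
      obtain ⟨q, rfl⟩ := hr q (hQN hq)
      exact ⟨k, hk, q, hq, hf (by rw [map_mul, e])⟩
  have hK1' : K.comap f ≠ ⊥ := by
    intro e
    apply hK1
    rw [← map_comap_eq_self (f := f) (H := K) fun y hy => hr y (hKN hy), e, Subgroup.map_bot]
  have hQ1' : Q.comap f ≠ ⊥ := by
    intro e
    rw [e, card_bot] at hcard
    exact hQ.ne_one hcard.symm
  have hF : IsFrobeniusComplement (Q.comap f) := by
    rw [H2.Frob.iff_semiregular hcomp hK1' hQ1']
    intro q hq hq1
    refine eq_bot_iff.2 fun k hk => ?_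
    have h1 : f k * f q = f q * f k := by
      rw [← map_mul, ← map_mul, mem_centralizer_singleton_iff.1 hk.2]
    rcases hfp _ hq _ hk.1 h1 with e | e
    · exact absurd (hf (by rw [e, map_one])) hq1
    · exact hf (by rw [e, map_one])
  refine ⟨Q.comap f, K.comap f, p, hp, hF, hcard ▸ hQ, inferInstance, (H2.Frob.kernel_eq hcomp hF).symm,
    ⟨⟨fun a b => Subtype.ext (hf ?_)⟩⟩, fun a ha => hf ?_⟩
  · exact (map_mul f _ _).trans ((congrArg Subtype.val (hKe.1.is_comm.comm (⟨f a, a.2⟩ : K) ⟨f b, b.2⟩)).trans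
      (map_mul f _ _).symm)
  · rw [map_pow, map_one]
    exact hKe.2 _ ha

end Cfsg.Agent.S3905
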