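import Mathlib
import Cfsg.Statements.S3909
import Cfsg.Agent.FGS.EqOrd
import Cfsg.Agent.Core.Cores

set_option autoImplicit false
open Cfsg

namespace Cfsg.Agent.S3909

open Subgroup

/-- Let G be a finite group in which any two abelian subgroups of the same order are conjugate. Let M be a normal subgroup of G. If M contains an element of the same order as a ∈ G, then a ∈ M; and if M is elementary abelian of order p^t with p prime and t ≥ 2, then M is the unique Sylow p-subgroup of G. -/
theorem result {G : Type*} [Group G] [Finite G] (hB : ∀ A B : Subgroup G, IsMulCommutative ↥A → IsMulCommutative ↥B → Nat.card ↥A = Nat.card ↥B → ∃ g : G, B = A.map (MulAut.conj g).toMonoidHom) (M : Subgroup G) [M.Normal] :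
    (∀ a : G, (∃ m ∈ M, orderOf m = orderOf a) → a ∈ M) ∧
    ∀ (p t : ℕ) [Fact p.Prime], 2 ≤ t → Nat.card ↥M = p ^ t → Cfsg.IsElementaryAbelian p M → ∀ P : Sylow p G, (P : Subgroup G) = M := by
  have h1 : ∀ a : G, (∃ m ∈ M, orderOf m = orderOf a) → a ∈ M := by
    rintro a ⟨m, hm, h⟩
    obtain ⟨g, hg⟩ := hB (zpowers m) (zpowers a) inferInstance inferInstance
      (by rw [Nat.card_zpowers, Nat.card_zpowers, h])
    obtain ⟨x, hx, e⟩ : a ∈ (zpowers m).map (MulAut.conj g).toMonoidHom := hg ▸ mem_zpowers a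
    rw [← e]
    exact Subgroup.Normal.conj_mem inferInstance x (zpowers_le.mpr hm hx) g
  refine ⟨h1, fun p t hp ht hM hE P => ?_⟩
  have hMP : M ≤ P := (Core.le_pCore inferInstance (IsPGroup.of_card hM)).trans (Core.pCore_le_sylow P)
  obtain ⟨m, hm, hmo⟩ := FGS.exists_prime_orderOf_mem (H := M) hp.out (hM ▸ dvd_pow_self p (by omega))
  refine le_antisymm (fun x hx => ?_) hMP
  rcases eq_or_ne x 1 with rfl | hx1
  · exact one_mem _
  rcases FGS.unique_or_exponent (fun H K h1 h2 _ h => hB H K h1 h2 h) P.isPGroup' with h | h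
  · exfalso
    have h2 : M ≤ zpowers m := by
      intro y hy
      rcases eq_or_ne y 1 with rfl | hy1
      · exact one_mem _
      have := h (zpowers ⟨y, hMP hy⟩) (zpowers ⟨m, hMP hm⟩)
        (by rw [Nat.card_zpowers, orderOf_mk, orderOf_eq_prime (hE.2 y hy) hy1])
        (by rw [Nat.card_zpowers, orderOf_mk, hmo])
      obtain ⟨i, hi⟩ : (⟨y, hMP hy⟩ : P) ∈ zpowers ⟨m, hMP hm⟩ := this ▸ mem_zpowers _
      exact ⟨i, congrArg Subtype.val hi⟩
    have h3 := card_le_of_le h2
    rw [hM, Nat.card_zpowers, hmo] at h3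
    have := Nat.pow_lt_pow_right hp.out.one_lt (show 1 < t by omega)
    rw [pow_one] at this
    omega
  · exact h1 x ⟨m, hm, hmo.trans (orderOf_eq_prime (h x hx) hx1).symm⟩

end Cfsg.Agent.S3909
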