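import Mathlib
import Cfsg.Statements.S3910
import Cfsg.Agent.S3909
import Cfsg.Agent.Transfer.Frobenius
import Cfsg.Agent.FGS.SylowNum

set_option autoImplicit false
open Cfsg

namespace Cfsg.Agent.S3910

open Subgroup

/-- A finite nilpotent group in which any two abelian subgroups of the same order are conjugate is cyclic. -/
theorem result {G : Type*} [Group G] [Finite G] (hB : ∀ A B : Subgroup G, IsMulCommutative ↥A → IsMulCommutative ↥B → Nat.card ↥A = Nat.card ↥B → ∃ g : G, B = A.map (MulAut.conj g).toMonoidHom) (hnil : Group.IsNilpotent G) : IsCyclic G := by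
  have : IsZGroup G := by
    refine ⟨fun p hp P => ?_⟩
    have := Fact.mk hp
    obtain ⟨x, hx⟩ := Finite.exists_max (fun x : P => orderOf x)
    by_cases h : zpowers (x : G) ⊔ pResidual p G = ⊤
    · have h1 := FGS.sup_inf_of_le_normalizer (P := zpowers (x : G)) (L := pResidual p G)
        (A := P) le_normalizer_of_normal (zpowers_le.mpr x.2)
      rw [h, top_inf_eq, inf_comm, (Transfer.hasNormalPComplement_iff_inf_eq_bot P).mp
        Transfer.hasNormalPComplement_of_isNilpotent, sup_bot_eq] at h1
      exact PGrp.isCyclic_of_eq_zpowers h1.symm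
    · obtain ⟨M, hM, hle⟩ := PGrp.exists_coatom_ge h
      have := NormalizerCondition.normal_of_coatom M Group.normalizerCondition_of_isNilpotent hM
      refine (hM.1 (top_le_iff.mp ?_)).elim
      rw [← Transfer.pResidual_sup_sylow P]
      refine sup_le (le_sup_right.trans hle) fun y hy => (S3909.result hB M).1 y ?_
      obtain ⟨a, ha⟩ := FGS.exists_orderOf_eq_of_mem P.isPGroup' x.2
      obtain ⟨b, hb⟩ := FGS.exists_orderOf_eq_of_mem P.isPGroup' hy
      have h2 : orderOf (⟨y, hy⟩ : P) ≤ orderOf x := hx ⟨y, hy⟩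
      rw [orderOf_mk, ← orderOf_coe, ha, hb, Nat.pow_le_pow_iff_right hp.one_lt] at h2
      obtain ⟨j, hj⟩ := FGS.exists_pow_orderOf_eq (x := (x : G)) (q := orderOf y)
        (by rw [ha, hb]; exact pow_dvd_pow p h2)
      exact ⟨_, hle (mem_sup_left (npow_mem_zpowers _ j)), hj⟩
  infer_instance

end Cfsg.Agent.S3910
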