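import Mathlib
import Cfsg.Statements.S3917
import Cfsg.Agent.Core.CoprimeGen
import Cfsg.Agent.PGrp.Class

set_option autoImplicit false
open Cfsg

namespace Cfsg.Agent.S3917

open Subgroup

/-- Say that a group has self-centralizing non-cyclic subgroups when every non-cyclic subgroup H satisfies C_G(H) ≤ H. A finite abelian group with self-centralizing non-cyclic subgroups is cyclic or elementary abelian of order p² for a prime p. -/
theorem result {G : Type*} [CommGroup G] [Finite G] (hX : (∀ H : Subgroup G, ¬ IsCyclic ↥H → Subgroup.centralizer (H : Set G) ≤ H)) :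
    IsCyclic G ∨ ∃ p : ℕ, p.Prime ∧ Nat.card G = p ^ 2 ∧ Monoid.exponent G = p := by
  rw [or_iff_not_imp_left]
  intro hG
  obtain ⟨q, a, b, hq, ha, hb, hb1, hab⟩ := Core.exists_two_of_not_isCyclic hG
  have := Fact.mk hq
  have hbo : orderOf b = q := orderOf_eq_prime hb hb1
  have hc : Nat.card (zpowers b ⊔ zpowers a : Subgroup G) = q ^ 2 := by
    rw [PGrp.card_sup_zpowers hq (le_normalizer_of_normal (mem_top a)) (ha ▸ one_mem _) hab,
      Nat.card_zpowers, hbo, sq]
  have he : ∀ x ∈ zpowers b ⊔ zpowers a, x ^ q = 1 := fun x hx =>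
    (sup_le (zpowers_le.mpr hb) (zpowers_le.mpr ha) : _ ≤ (powMonoidHom q : G →* G).ker) hx
  have ht : zpowers b ⊔ zpowers a = ⊤ := by
    refine eq_top_iff.mpr fun x _ => hX _ (fun h => ?_) fun y _ => mul_comm y x
    obtain ⟨g, hg⟩ := h.exists_ofOrder_eq_natCard
    have h1 : orderOf g ∣ q := orderOf_dvd_of_pow_eq_one (Subtype.ext (he g g.2))
    rw [hg, hc] at h1
    exact absurd (Nat.le_of_dvd hq.pos h1) (by nlinarith [hq.one_lt])
  rw [ht] at hc he
  exact ⟨q, hq, by rwa [card_top] at hc, Nat.dvd_antisymm (Monoid.exponent_dvd_of_forall_pow_eq_one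
    fun x => he x (mem_top x)) (hbo ▸ Monoid.order_dvd_exponent b)⟩

end Cfsg.Agent.S3917
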