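import Mathlib
import Cfsg.Statements.S3918
import Cfsg.Agent.PGrp.Sect2
-- import your own Cfsg.Agent.* helpers here

set_option autoImplicit false
open Cfsg

namespace Cfsg.Agent.S3918

/-- Say that a group has self-centralizing non-cyclic subgroups when every non-cyclic subgroup H satisfies C_G(H) ≤ H. For an odd prime p, a finite non-abelian p-group has self-centralizing non-cyclic subgroups if and only if it has order p³. -/
theorem result {G : Type*} [Group G] [Finite G] {p : ℕ} [Fact p.Prime] (hp : p ≠ 2) (hG : IsPGroup p G) (hna : ¬ IsMulCommutative G) :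
    (∀ H : Subgroup G, ¬ IsCyclic ↥H → Subgroup.centralizer (H : Set G) ≤ H) ↔ Nat.card G = p ^ 3 := by
  have hp' : p.Prime := Fact.out
  obtain ⟨n, hn⟩ := IsPGroup.iff_card.mp hG
  have h2 : ¬ Nat.card G ≤ p ^ 2 := fun h => hna (PGrp.isMulCommutative_of_card_le_sq hG h)
  constructor
  · intro h
    obtain ⟨E, -, hEn, hE, hE2⟩ := PGrp.exists_normal_elementary_sq hp hG ⊤
      (fun h => hna (PGrp.isMulCommutative_of_isCyclic (PGrp.isCyclic_top_iff.mp h)))
    have h1 : ¬ IsCyclic E := by
      intro hc
      have h1 := PGrp.card_le_of_isCyclic_of_pow hp'.ne_zero hc hE.2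
      rw [hE2] at h1
      have := hp'.one_lt
      nlinarith
    have h3 := PGrp.index_centralizer_le_of_card_eq_sq hG E hE2
    have h4 := Subgroup.card_le_of_le (h E h1)
    have h5 := (Subgroup.centralizer (E : Set G)).card_mul_index
    rw [hE2] at h4
    have h6 : Nat.card G ≤ p ^ 3 := by
      rw [← h5, pow_succ]
      exact Nat.mul_le_mul h4 h3
    rw [hn] at h2 h6 ⊢
    have h7 := (Nat.pow_le_pow_iff_right hp'.one_lt).mp h6
    have h8 := mt (Nat.pow_le_pow_iff_right hp'.one_lt).mpr h2
    congr 1
    omega
  · intro h H hH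
    obtain ⟨k, hk⟩ := PGrp.exists_card_eq_pow hG H
    have h1 : k ≤ 3 := by
      have := Subgroup.card_le_of_le (le_top : H ≤ ⊤)
      rw [hk, Subgroup.card_top, h] at this
      exact (Nat.pow_le_pow_iff_right hp'.one_lt).mp this
    have h3 : 2 ≤ k := by
      by_contra hcon
      apply hH
      refine isCyclic_of_card_dvd_prime (p := p) ?_
      rw [hk]
      conv_rhs => rw [← pow_one p]
      exact pow_dvd_pow p (by omega)
    have h4 : k = 2 ∨ k = 3 := by omega
    rcases h4 with rfl | rfl
    · have h5 : H.index = p := by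
        have := H.card_mul_index
        rw [hk, h, pow_succ p 2] at this
        exact Nat.eq_of_mul_eq_mul_left (pow_pos hp'.pos 2) this
      rcases PGrp.eq_or_eq_top_of_index_prime hp' h5 (Subgroup.le_centralizer_iff_isMulCommutative.mpr
        (IsPGroup.isMulCommutative_of_card_eq_prime_sq hk)) with h6 | h6
      · exact h6.le
      · exfalso
        have h7 : H ≤ Subgroup.center G := Subgroup.centralizer_eq_top_iff_subset.mp h6
        have h8 := Subgroup.index_antitone h7
        have h9 := PGrp.sq_le_index_center hG hna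
        have := hp'.one_lt
        nlinarith
    · have : H = ⊤ := PGrp.eq_of_le_of_card_le le_top (by rw [hk, Subgroup.card_top, h])
      rw [this]
      exact le_top

end Cfsg.Agent.S3918
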