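import Mathlib
import Cfsg.Statements.S3919
import Cfsg.Agent.PGrp.Sect2
-- import your own Cfsg.Agent.* helpers here

set_option autoImplicit false
open Cfsg

namespace Cfsg.Agent.S3919

/-- Say that a group has self-centralizing non-cyclic subgroups when every non-cyclic subgroup H satisfies C_G(H) ≤ H. A finite non-abelian 2-group G of order 2^n has self-centralizing non-cyclic subgroups if and only if G has nilpotency class n − 1 (that is, G is dihedral, semidihedral or generalized quaternion). -/
theorem result {G : Type*} [Group G] [Finite G] (hna : ¬ IsMulCommutative G) (n : ℕ) (hG : Nat.card G = 2 ^ n) :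
    (∀ H : Subgroup G, ¬ IsCyclic ↥H → Subgroup.centralizer (H : Set G) ≤ H) ↔ (⊤ : Subgroup G).lowerCentralSeries (n - 2) ≠ ⊥ := by
  have : Fact (Nat.Prime 2) := ⟨Nat.prime_two⟩
  have hP : IsPGroup 2 G := IsPGroup.of_card hG
  have := hP.isNilpotent
  have hn : 3 ≤ n := by
    by_contra hcon
    apply hna
    refine PGrp.isMulCommutative_of_card_le_sq hP ?_
    rw [hG]
    exact Nat.pow_le_pow_right two_pos (by omega)
  have h1 := PGrp.nilpotencyClass_le_of_card hG (by omega)
  rw [Ne, Subgroup.lowerCentralSeries_eq_bot_iff_nilpotencyClass_le]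
  constructor
  · intro h
    by_cases hc : ∀ A : Subgroup G, A.Normal → IsMulCommutative A → IsCyclic A
    · obtain ⟨a, b, m, -, hm⟩ := PGrp.mc_of_normal_abelian_cyclic hP hc
        (fun h => hna (PGrp.isMulCommutative_of_isCyclic h))
      have h2 := PGrp.mc_card hm
      rw [hG] at h2
      have h3 := Nat.pow_right_injective le_rfl h2
      rw [PGrp.mc_nilpotencyClass hm]
      omega
    · push Not at hc
      obtain ⟨A, hAn, hA, hAc⟩ := hc
      obtain ⟨E, -, hEn, hE, hE2⟩ := PGrp.exists_invariant_elementary_sq_of_comm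
        (hP.to_subgroup ⊤) le_top Subgroup.le_normalizer_of_normal hA hAc
      have := PGrp.normal_iff_top_le_normalizer.mpr hEn
      have h2 : ¬ IsCyclic E := by
        intro hc
        have h1 := PGrp.card_le_of_isCyclic_of_pow two_ne_zero hc hE.2
        omega
      have h3 := PGrp.index_centralizer_le_of_card_eq_sq hP E hE2
      have h4 := Subgroup.card_le_of_le (h E h2)
      have h5 := (Subgroup.centralizer (E : Set G)).card_mul_index
      rw [hE2] at h4
      have h6 : Nat.card G ≤ 2 ^ 3 := by
        rw [← h5, pow_succ]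
        exact Nat.mul_le_mul h4 h3
      rw [hG] at h6
      have h7 := (Nat.pow_le_pow_iff_right one_lt_two).mp h6
      intro h8
      exact hna (Group.IsNilpotent.nilpotencyClass_le_one_iff.mp (by omega))
  · intro h H hH
    obtain ⟨a, b, hm⟩ := PGrp.exists_mc_of_class hn hG (by omega)
    obtain ⟨t, ht, hta⟩ : ∃ t ∈ H, t ∉ Subgroup.zpowers a := by
      by_contra hcon
      push Not at hcon
      exact hH (PGrp.isCyclic_of_le (Subgroup.isCyclic_zpowers a) hcon)
    have hm' := hm.change (Subgroup.mem_top t) hta
    have hz : a ^ 2 ^ (n - 2) ∈ H := by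
      have h2 := hm'.card_of_le (B := H) le_top ht
      have h3 : Subgroup.zpowers a ⊓ H ≠ ⊥ := by
        intro h3
        rw [h3, Subgroup.card_bot, one_mul] at h2
        exact hH (isCyclic_of_prime_card h2)
      have h4 : 2 ∣ Nat.card ↥(Subgroup.zpowers a ⊓ H) := by
        obtain ⟨k, hk⟩ := PGrp.exists_card_eq_pow hP (Subgroup.zpowers a ⊓ H)
        rw [hk]
        refine dvd_pow_self 2 fun h0 => h3 ?_
        rw [h0, pow_zero] at hk
        exact Subgroup.card_eq_one.mp hk
      obtain ⟨x, hx⟩ := exists_prime_orderOf_dvd_card' 2 h4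
      rw [← hm.eq_z x.2.1 (by rw [Subgroup.orderOf_coe, hx])]
      exact x.2.2
    intro c hc
    rcases hm'.mem_of_commute (Subgroup.mem_top c)
      (Subgroup.mem_centralizer_iff.mp hc t ht).symm with rfl | rfl | rfl | rfl
    · exact H.one_mem
    · exact hz
    · exact ht
    · exact H.mul_mem hz ht

end Cfsg.Agent.S3919
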