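import Mathlib
import Cfsg.Statements.S3920
import Cfsg.Agent.PGrp.DihSub
-- import your own Cfsg.Agent.* helpers here

set_option autoImplicit false
open Cfsg

namespace Cfsg.Agent.S3920

open DihedralGroup

theorem aux {k : ℕ} {j a : ZMod (2 ^ k)} (hj : j ≠ 0) (ha : 2 * a = 0) : ∃ m : ℕ, a = j * m := by
  have ex : ∃ t : ℕ, j * 2 ^ t = 0 := ⟨k, by
    have : ((2 ^ k : ℕ) : ZMod (2 ^ k)) = 0 := ZMod.natCast_self _
    push_cast at this
    rw [this, mul_zero]⟩
  classical
  have h1 := Nat.find_spec ex
  have h0 : Nat.find ex ≠ 0 := fun e => hj (by simpa [e] using h1)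
  obtain ⟨t, ht⟩ := Nat.exists_eq_succ_of_ne_zero h0
  have h2 := Nat.find_min ex (m := t) (by omega)
  rw [ht, pow_succ] at h1
  rcases (ZMod.neg_eq_self_iff a).1 (by linear_combination -ha) with e | e
  · exact ⟨0, by simp [e]⟩
  rcases (ZMod.neg_eq_self_iff (j * 2 ^ t)).1 (by linear_combination -h1) with e' | e'
  · exact absurd e' h2
  exact ⟨2 ^ t, by push_cast; exact ZMod.val_injective _ (by omega)⟩

/-- Say that a group has self-centralizing non-cyclic subgroups when every non-cyclic subgroup H satisfies C_G(H) ≤ H. For n ≥ 3, the dihedral group of order 2n has self-centralizing non-cyclic subgroups if and only if n is odd or a power of 2. -/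
theorem result (n : ℕ) (hn : 3 ≤ n) : (∀ H : Subgroup (DihedralGroup n), ¬ IsCyclic ↥H → Subgroup.centralizer (H : Set (DihedralGroup n)) ≤ H) ↔ (Odd n ∨ ∃ k : ℕ, n = 2 ^ k) := by
  constructor
  · intro h
    by_contra hn'
    push Not at hn'
    obtain ⟨k, m, hm, rfl⟩ := Nat.exists_eq_two_pow_mul_odd (n := n) (by omega)
    obtain _ | k := k
    · exact hn'.1 (by simpa using hm)
    have hm1 : m ≠ 1 := fun e => hn'.2 (k + 1) (by rw [e, mul_one])
    have := h (PGrp.dihSub _ (2 ^ (k + 1))) (fun hc => PGrp.not_comm_dihSub (n := 2 ^ (k + 1) * m) (d := 2 ^ (k + 1)) (fun hd => by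
      push_cast at hd
      rw [mul_comm 2] at hd
      have := Int.dvd_of_mul_dvd_mul_left (by positivity : (2 : ℤ) ^ (k + 1) ≠ 0) hd
      exact hm1 (Nat.Coprime.eq_one_of_dvd (Nat.coprime_two_right.2 hm) (by exact_mod_cast this)))
      inferInstance) (x := r ((2 ^ k * m : ℤ) : ZMod _)) (by
        have e : ((2 ^ (k + 1) * m : ℕ) : ZMod (2 ^ (k + 1) * m)) = 0 := ZMod.natCast_self _
        push_cast at e
        rintro (a | a) -
        · simp [add_comm]
        · simp only [r_mul_sr, sr_mul_r, sr.injEq]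
          push_cast
          linear_combination e)
    rw [PGrp.r_mem_dihSub (by push_cast; exact dvd_mul_right _ _), pow_succ] at this
    have := Int.dvd_of_mul_dvd_mul_left (by positivity : (2 : ℤ) ^ k ≠ 0) this
    exact (Nat.not_even_iff_odd.2 hm) (even_iff_two_dvd.2 (by exact_mod_cast this))
  · intro h H hH
    obtain ⟨i, hi⟩ := PGrp.exists_sr_of_not_isCyclic hH
    obtain ⟨j, hj, hj0⟩ : ∃ j, r j ∈ H ∧ j ≠ 0 := by
      by_contra hn'
      push Not at hn'
      refine hH (Subgroup.isCyclic_of_le (H' := Subgroup.zpowers (sr i)) ?_)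
      rintro (a | a) ha
      · rw [hn' a ha]; exact Subgroup.one_mem _
      · have := hn' _ (H.mul_mem hi ha)
        rw [sub_eq_zero.1 this]
        exact Subgroup.mem_zpowers _
    have key : ∀ a, 2 * a = 0 → r a ∈ H := fun a ha => by
      rcases h with h | ⟨k, rfl⟩
      · rw [PGrp.zmod_zero_of_odd h ha]; exact H.one_mem
      · obtain ⟨m, rfl⟩ := aux hj0 ha
        rw [← r_pow]; exact H.pow_mem hj m
    rintro (a | a) ha
    · have := ha _ hi
      simp only [r_mul_sr, sr_mul_r, sr.injEq] at this
      exact key a (by linear_combination this)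
    · have := ha _ hi
      simp only [sr_mul_sr, r.injEq] at this
      simpa using H.mul_mem hi (key (a - i) (by linear_combination this))

end Cfsg.Agent.S3920
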