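import Mathlib
import Cfsg.Statements.S3947
import Cfsg.Agent.Fil.F

set_option autoImplicit false
open Cfsg

namespace Cfsg.Agent.S3947

open Subgroup Cfsg.Agent.H2 Cfsg.Agent.Fil

theorem nc_iff {G : Type*} [Group G] {A H : Subgroup G} (h : A ≤ H) :
    normalClosure ((A.subgroupOf H : Subgroup H) : Set H) = ⊤ ↔
      ∀ X, A ≤ X → X ≤ H → H ≤ normalizer (X : Set G) → X = H := by
  refine ⟨fun k X h1 h2 h3 => ?_, fun k => ?_⟩
  · haveI := (normal_subgroupOf_iff_le_normalizer h2).2 h3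
    exact le_antisymm h2 (subgroupOf_eq_top.1 (top_le_iff.1 (k ▸ normalClosure_le_normal fun x hx => h1 hx)))
  · refine map_injective H.subtype_injective ((k (map H.subtype _) (fun a ha => ⟨⟨a, h ha⟩, subset_normalClosure ha, rfl⟩)
      (map_subtype_le _) (Core.le_normalizer_map_subtype_of_normal H _)).trans ?_)
    rw [← MonoidHom.range_eq_map, range_subtype]


/-- Let G be a finite group and A a proper subgroup of G whose normal closure is G. Let Y be the join of all proper subgroups H of G that contain A and are generated by their own conjugates of A (the normal closure of A in H is H). Then either Y = G, or A is contained in exactly one maximal subgroup of G. -/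
theorem result {G : Type*} [Group G] [Finite G] (A : Subgroup G) (hA : Subgroup.normalClosure (A : Set G) = ⊤) (hAG : A ≠ ⊤) :
    sSup {H : Subgroup G | A ≤ H ∧ H ≠ ⊤ ∧ Subgroup.normalClosure ((A.subgroupOf H : Subgroup ↥H) : Set ↥H) = ⊤} = ⊤ ∨
      ∃! M : Subgroup G, IsCoatom M ∧ A ≤ M := by
  induction A using WellFoundedGT.induction with | ind A ih => ?_
  refine or_iff_not_imp_left.2 fun hY => ?_
  obtain ⟨M, hM, hYM⟩ := (eq_top_or_exists_le_coatom _).resolve_left hY
  have hAM : A ≤ M := le_trans (le_sSup (by exact ⟨le_rfl, hAG, (nc_iff le_rfl).2 fun X a b _ => le_antisymm b a⟩)) hYM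
  refine ⟨M, ⟨hM, hAM⟩, fun L hL => flavell hA hM hAM (fun L h1 h2 h3 => ?_) hL.1 hL.2⟩
  obtain ⟨X, ⟨k1, k2⟩, hX⟩ := exists_minimal_of_wellFoundedLT (fun X : Subgroup G => A ≤ X ∧ SN L X) ⟨L, h3, SN.top⟩
  have k3 : ∀ Z, A ≤ Z → Z ≤ X → X ≤ normalizer (Z : Set G) → Z = X := fun Z a b c =>
    le_antisymm b (hX ⟨a, SN.step Z X b c k2⟩ b)
  have k4 : X ≠ ⊤ := fun e => h1.1 (top_le_iff.1 (e ▸ k2.le))
  rcases k1.eq_or_lt with rfl | k5
  · exact k2
  rcases ih X k5 (top_le_iff.1 (hA ▸ normalClosure_mono k1)) k4 with k | ⟨P, -, hP⟩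
  · refine (hY (top_le_iff.1 (k.ge.trans (sSup_le_sSup ?_)))).elim
    rintro K ⟨a, b, c⟩
    refine ⟨k1.trans a, b, (nc_iff (k1.trans a)).2 fun Z l1 l2 l3 => (nc_iff a).1 c Z ?_ l2 l3⟩
    exact inf_eq_right.1 (k3 (Z ⊓ X) (le_inf l1 k1) inf_le_right (Core.le_normalizer_inf (a.trans l3) le_normalizer))
  · exact absurd ((hP L ⟨h1, k2.le⟩).trans (hP M ⟨hM, le_trans (le_sSup (by
      exact ⟨k1, k4, (nc_iff k1).2 k3⟩)) hYM⟩).symm) h2

end Cfsg.Agent.S3947
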