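import Mathlib
import Cfsg.Statements.S3927
import Cfsg.Agent.S3947
import Cfsg.Agent.Core.MinNormal

set_option autoImplicit false
open Cfsg

namespace Cfsg.Agent.S3927

open Subgroup Cfsg.Agent.H2 SemidirectProduct
open scoped Pointwise

theorem main (k : ℕ) (G : Type*) [Group G] [Finite G] : ∀ a : G, normalClosure (zpowers a : Set G) = ⊤ →
    closure (insert a (Set.range (fun c : G => c * a * c⁻¹ * a⁻¹)^[k])) = ⊤ := by
  refine Core.induction_on_card (P := fun G _ _ => ∀ a : G, normalClosure (zpowers a : Set G) = ⊤ →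
    closure (insert a (Set.range (fun c : G => c * a * c⁻¹ * a⁻¹)^[k])) = ⊤) (fun G _ _ ih a ha => ?_) G
  set E := closure (insert a (Set.range (fun c : G => c * a * c⁻¹ * a⁻¹)^[k]))
  have haE : zpowers a ≤ E := zpowers_le.2 (subset_closure (Set.mem_insert _ _))
  by_cases h0 : zpowers a = ⊤
  · exact top_le_iff.1 (h0 ▸ haE)
  rcases Cfsg.Agent.S3947.result _ ha h0 with h | ⟨M, ⟨hM, haM⟩, h⟩
  · refine top_le_iff.1 (h.ge.trans (sSup_le ?_))
    rintro H ⟨h1, h2, h3⟩ x hx
    have h4 := ih H (Core.card_lt_of_ne_top H h2) ⟨a, h1 (mem_zpowers a)⟩ (by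
      rw [← h3]; congr 2; ext y; simp [mem_subgroupOf, mem_zpowers_iff, Subtype.ext_iff])
    have h5 : x ∈ map H.subtype ⊤ := ⟨⟨x, hx⟩, trivial, rfl⟩
    rw [← h4, MonoidHom.map_closure] at h5
    refine closure_mono ?_ h5
    rintro _ ⟨y, rfl | ⟨c, rfl⟩, rfl⟩
    · exact Set.mem_insert _ _
    · exact Set.mem_insert_of_mem _ ⟨c, (Function.Semiconj.iterate_right (f := H.subtype) (fun _ => rfl) k c).symm⟩
  · by_contra hc
    obtain ⟨P, hP, hEP⟩ := (eq_top_or_exists_le_coatom _).resolve_left hc
    obtain rfl := h P ⟨hP, haE.trans hEP⟩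
    have hN : normalizer (P : Set G) = P := (hM.le_iff.1 P.le_normalizer).resolve_left fun e => by
      haveI := Core.normal_of_le_normalizer e.ge
      exact hM.1 (top_le_iff.1 (ha ▸ normalClosure_le_normal haM))
    have h1 : ∀ c : G, c * a * c⁻¹ * a⁻¹ ∈ P → c ∈ P := fun c hc => by
      have := h _ ⟨Fil.coatom_conj hM c⁻¹, zpowers_le.2 (mem_conj_smul.2 (by
        simpa using mul_mem hc (haM (mem_zpowers a))))⟩
      exact inv_mem_iff.1 (hN ▸ mem_normalizer_iff_conj_smul.2 this)
    have h2 : ∀ (k : ℕ) (c : G), (fun c : G => c * a * c⁻¹ * a⁻¹)^[k] c ∈ P → c ∈ P := fun k => by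
      induction k with
      | zero => exact fun _ h => h
      | succ k ih => exact fun c hc => h1 c (ih _ hc)
    exact hM.1 (eq_top_iff.2 fun c _ => h2 k c (hEP (subset_closure (Set.mem_insert_of_mem _ ⟨c, rfl⟩))))


/-- Let G be a finite group and α an automorphism of G with [G, α] = G, that is, the elements g·α(g)⁻¹ generate G. Then for every k ≥ 1 the iterated commutators [g, α, …, α] with k entries α — the values of the k-th iterate of the map c ↦ c·α(c)⁻¹ — also generate G. -/
theorem result {G : Type*} [Group G] [Finite G] (α : MulAut G) (hG : Subgroup.closure (Set.range (fun c : G => c * (α c)⁻¹)) = ⊤) (k : ℕ) (hk : 1 ≤ k) :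
    Subgroup.closure (Set.range ((fun c : G => c * (α c)⁻¹)^[k])) = ⊤ := by
  haveI : Finite (MulAut G) := Finite.of_injective (fun f => (f : G → G)) DFunLike.coe_injective
  let Γ := G ⋊[(zpowers α).subtype] (zpowers α)
  haveI : Finite Γ := Finite.of_equiv _ SemidirectProduct.equivProd.symm
  let a : Γ := inr ⟨α, mem_zpowers α⟩
  have h1 : ∀ c : G, (inl c : Γ) * a * (inl c)⁻¹ * a⁻¹ = inl (c * (α c)⁻¹) := fun c => by
    rw [map_mul, mul_assoc, mul_assoc, ← map_inv, ← mul_assoc a, ← map_inv α]
    exact congrArg _ (by simp only [a]; rw [← map_inv, ← inl_aut]; rfl)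
  have h2 := main k Γ a (eq_top_iff.2 fun x _ => by
    rw [← inl_left_mul_inr_right x]
    refine mul_mem ?_ (subset_normalClosure ?_)
    · have : (⊤ : Subgroup G) ≤ (normalClosure (zpowers a : Set Γ)).comap inl := by
        rw [← hG, closure_le]
        rintro _ ⟨c, rfl⟩
        have ha := subset_normalClosure (s := (zpowers a : Set Γ)) (mem_zpowers a)
        exact (show inl (c * (α c)⁻¹) ∈ normalClosure _ from h1 c ▸ mul_mem (Normal.conj_mem inferInstance _ ha _) (inv_mem ha))
      exact this trivial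
    · obtain ⟨n, hn⟩ := x.right.2
      exact ⟨n, by simp only [a]; rw [← map_zpow]; exact congrArg inr (Subtype.ext hn)⟩)
  set f := fun c : G => c * (α c)⁻¹
  set E := closure (Set.range f^[k])
  have h3 : ∀ x ∈ E, α x ∈ E := fun x hx => by
    have : E ≤ E.comap α.toMonoidHom := (closure_le _).2 (by
      rintro _ ⟨c, rfl⟩
      exact subset_closure ⟨α c, (Function.Semiconj.iterate_right (f := α) (fun _ => by simp [f]) k c).symm⟩)
    exact this hx
  have h4 : ∀ β ∈ zpowers α, ∀ x ∈ E, β x ∈ E := fun β hβ => by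
    obtain ⟨n, rfl⟩ := mem_powers_iff_mem_zpowers.2 hβ
    induction n with
    | zero => exact fun x h => h
    | succ n ih => exact fun x hx => by simp only [pow_succ']; exact h3 _ (ih (pow_mem (mem_zpowers α) n) x hx)
  let E' : Subgroup Γ :=
    { carrier := {x | x.left ∈ E}
      one_mem' := one_mem E
      mul_mem' := fun {x y} hx hy => mul_mem hx (h4 _ x.right.2 _ hy)
      inv_mem' := fun {x} hx => h4 _ x.right⁻¹.2 _ (inv_mem hx) }
  have h5 : (⊤ : Subgroup Γ) ≤ E' := by
    rw [← h2, closure_le]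
    rintro _ (rfl | ⟨c, rfl⟩)
    · exact one_mem E
    · obtain ⟨k, rfl⟩ := Nat.exists_eq_add_of_le' hk
      have e : c * a * c⁻¹ * a⁻¹ = inl (f c.left) := by
        rw [← h1]
        have : Commute (inr c.right : Γ) a := by
          obtain ⟨n, hn⟩ := c.right.2
          exact Commute.map (show Commute c.right ⟨α, mem_zpowers α⟩ from Subtype.ext
            (show c.right.1 * α = α * c.right.1 from hn ▸ (Commute.zpow_self α n).eq)) inr
        nth_rewrite 1 2 [← inl_left_mul_inr_right c]
        rw [mul_assoc (inl _), this.eq, mul_inv_rev]; simp only [mul_assoc, mul_inv_cancel_left]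
      rw [Function.iterate_succ_apply, e, ← (Function.Semiconj.iterate_right (f := (inl : G →* Γ)) (ga := f)
        (fun c => (h1 c).symm) k _)]
      exact subset_closure ⟨c.left, rfl⟩
  exact eq_top_iff.2 fun g _ => h5 (mem_top (inl g))

end Cfsg.Agent.S3927
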