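import Mathlib
import Cfsg.Statements.S3928
import Cfsg.Agent.LeU.Inv3
import Cfsg.Agent.S3927
import Cfsg.Agent.S3949

set_option autoImplicit false
open Cfsg

namespace Cfsg.Agent.S3928

open Subgroup Cfsg.Agent.LeU.Inv2

/-- There is a function f such that for every non-trivial finite group G and every automorphism α of G of order 2 with [G, α] = G (the elements g·α(g)⁻¹ generate G), the order of G is at most f(m), where m is the number of elements of odd order inverted by α. -/
theorem result : ∃ f : ℕ → ℕ, ∀ (G : Type) [Group G] [Finite G] [Nontrivial G] (α : MulAut G), orderOf α = 2 →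
    Subgroup.closure (Set.range (fun c : G => c * (α c)⁻¹)) = ⊤ →
      Nat.card G ≤ f (Nat.card {g : G // Odd (orderOf g) ∧ α g = g⁻¹}) := by
  classical
  choose b hb using fun m : ℕ => main (m ^ m) m m.factorial (Nat.factorial_pos m)
  refine ⟨fun m => b m ^ (b m * (b m * b m) + 1) * m.factorial ^ m, fun G _ _ _ α hα hG => ?_⟩
  have h2 : ∀ g, α (α g) = g := fun g => by
    rw [← MulAut.mul_apply, ← pow_two, ← hα, pow_orderOf_eq_one]; rfl
  have hJ : closure {g : G | Odd (orderOf g) ∧ α g = g⁻¹} = ⊤ := by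
    rw [← Cfsg.Agent.S3949.result α hα hG (Nat.card G) (fun g _ h =>
      absurd (Nat.le_of_dvd Nat.card_pos (h.trans (orderOf_dvd_natCard g)))
        (not_le.2 Nat.lt_two_pow_self))]
    exact Cfsg.Agent.S3927.result α hG _ Nat.card_pos
  generalize hm : Nat.card {g : G // Odd (orderOf g) ∧ α g = g⁻¹} = m
  have he : ∀ g : G, Odd (orderOf g) ∧ α g = g⁻¹ → g ^ m.factorial = 1 := by
    intro g hg
    refine orderOf_dvd_iff_pow_eq_one.1 (Nat.dvd_factorial (orderOf_pos g) ?_)
    rw [← Nat.card_zpowers, ← hm]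
    refine Nat.card_le_card_of_injective
      (fun y : zpowers g => (⟨y.1, hg.1.of_dvd_nat (orderOf_dvd_of_mem_zpowers y.2), ?_⟩ :
        {g : G // Odd (orderOf g) ∧ α g = g⁻¹})) 
      (fun y z h => Subtype.ext (Subtype.mk.inj h))
    obtain ⟨_, k, rfl⟩ := y
    show α (g ^ k) = (g ^ k)⁻¹
    rw [map_zpow, hg.2, inv_zpow]
  set S : Finset G := (Set.toFinite {g : G | Odd (orderOf g) ∧ α g = g⁻¹}).toFinset with hS
  have hS1 : closure (S : Set G) = ⊤ := by rw [hS, Set.Finite.coe_toFinset, hJ]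
  have hS2 : S.card ≤ m := by
    rw [hS, ← Set.ncard_eq_toFinset_card, ← Nat.card_coe_set_eq, ← hm]
    exact le_rfl
  have hS3 : ∀ s ∈ S, s ^ m.factorial = 1 := fun s hs =>
    he s (by rw [hS, Set.Finite.mem_toFinset] at hs; exact hs)
  refine schur G S hS1 m _ _ hS2 (Nat.factorial_pos m) hS3 ?_
  set π := QuotientGroup.mk' (center G) with hπ
  have hs : Function.Surjective π := QuotientGroup.mk'_surjective _
  let β : G ⧸ center G ≃* G ⧸ center G := QuotientGroup.congr (center G) (center G) α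
    (characteristic_iff_map_eq.1 inferInstance α)
  have hβ : ∀ g, β (π g) = π (α g) := fun _ => rfl
  refine hb m (G ⧸ center G) β ?_ ?_ ?_ (S.image π) ?_ (Finset.card_image_le.trans hS2) ?_
  · intro x
    obtain ⟨x, rfl⟩ := hs x
    rw [hβ, hβ, h2]
  · rw [eq_top_iff, ← map_top_of_surjective π hs, ← hG, MonoidHom.map_closure]
    refine closure_mono ?_
    rintro _ ⟨_, ⟨c, rfl⟩, rfl⟩
    exact ⟨π c, by simp only [hβ, map_mul, map_inv]⟩
  · have key : ∀ x : β.toMonoidHom.eqLocus (MonoidHom.id _),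
        ∀ j : {g : G // Odd (orderOf g) ∧ α g = g⁻¹},
        Odd (orderOf (x.1.out⁻¹ * j.1 * x.1.out)) ∧
          α (x.1.out⁻¹ * j.1 * x.1.out) = (x.1.out⁻¹ * j.1 * x.1.out)⁻¹ := by
      intro x j
      have h1 : π (α x.1.out) = π x.1.out := by
        rw [← hβ]
        have e : π x.1.out = x.1 := QuotientGroup.out_eq' x.1
        rw [e]
        exact x.2
      generalize x.1.out = g at h1
      have h3 := mem_center_iff.1 (QuotientGroup.eq.1 h1)
      refine ⟨?_, ?_⟩
      · have : orderOf (g⁻¹ * j.1 * g) = orderOf j.1 := by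
          simpa using (MulAut.conj g⁻¹).orderOf_eq j.1
        rw [this]; exact j.2.1
      · rw [map_mul, map_mul, map_inv, j.2.2]
        calc (α g)⁻¹ * (j.1)⁻¹ * α g = ((α g)⁻¹ * g) * (g⁻¹ * (j.1)⁻¹ * α g) := by group
          _ = g⁻¹ * (j.1)⁻¹ * α g * ((α g)⁻¹ * g) := (h3 _).symm
          _ = _ := by group
    rw [← hm, ← Nat.card_fun]
    refine Nat.card_le_card_of_injective (fun x j => ⟨_, key x j⟩) fun x y h => Subtype.ext ?_
    rw [← QuotientGroup.out_eq' x.1, ← QuotientGroup.out_eq' y.1]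
    have h1 : ∀ j : {g : G // Odd (orderOf g) ∧ α g = g⁻¹},
        x.1.out⁻¹ * j.1 * x.1.out = y.1.out⁻¹ * j.1 * y.1.out := fun j =>
      congrArg Subtype.val (congrFun h j)
    generalize x.1.out = g at h1
    generalize y.1.out = k at h1
    have h3 : closure {g : G | Odd (orderOf g) ∧ α g = g⁻¹} ≤ centralizer {k * g⁻¹} := by
      rw [closure_le]
      intro j hj
      have h4 : g⁻¹ * j * g = k⁻¹ * j * k := h1 ⟨j, hj⟩
      refine mem_centralizer_singleton_iff.2 ?_
      calc j * (k * g⁻¹) = k * (k⁻¹ * j * k) * g⁻¹ := by group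
        _ = _ := by rw [← h4]; group
    have h5 : ∀ c : G, c * (k * g⁻¹) = k * g⁻¹ * c := fun c =>
      mem_centralizer_singleton_iff.1 (h3 (hJ ▸ mem_top c))
    refine QuotientGroup.eq.2 ?_
    have e : g⁻¹ * k = k * g⁻¹ := by
      calc g⁻¹ * k = g⁻¹ * (k * g⁻¹ * g) := by group
        _ = _ := by rw [← h5]; group
    rw [e]
    exact mem_center_iff.2 h5
  · rw [Finset.coe_image, ← MonoidHom.map_closure, hS1, map_top_of_surjective π hs]
  · intro s hs'
    obtain ⟨s, h, rfl⟩ := Finset.mem_image.1 hs'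
    rw [← map_pow, hS3 s h, map_one]

end Cfsg.Agent.S3928
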