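import Mathlib
import Cfsg.Statements.S3933
import Cfsg.Agent.S0144
import Cfsg.Agent.Core.Product
import Cfsg.Agent.Core.SylowOf
import Cfsg.Agent.Core.MinNormal
import Cfsg.Agent.FGS.Basic
-- import your own Cfsg.Agent.* helpers here

set_option autoImplicit false
open Cfsg

namespace Cfsg.Agent.S3933

open Subgroup Cfsg.Agent.Core
open scoped Pointwise

universe u

theorem nd {G : Type u} [Group G] [Finite G] (p : ℕ) [Fact p.Prime] (N : Subgroup G) [N.Normal] :
    Nat.card (Sylow p N) ∣ Nat.card (Sylow p G) := by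
  obtain ⟨S⟩ := (inferInstance : Nonempty (Sylow p G))
  have h := isSylowOf_sylow_inf_normal S N
  rw [h.toSylow.card_eq_index_normalizer, S.card_eq_index_normalizer]
  refine Dvd.dvd.trans ?_ ((FGS.relIndex_dvd_index_of_normal_right N
    (normalizer (((S : Subgroup G) ⊓ N : Subgroup G) : Set G))).trans
    (index_dvd_of_le ((le_inf le_rfl le_normalizer_of_normal).trans
      inf_normalizer_le_normalizer_inf)))
  refine index_dvd_of_le ?_
  rw [← Sylow.coe_coe, h.coe_toSylow, subgroupOf_normalizer_eq h.le]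

theorem qd {G : Type u} [Group G] [Finite G] (p : ℕ) [Fact p.Prime] {H : Type*} [Group H]
    [Finite H] {f : G →* H} (hf : Function.Surjective f) :
    Nat.card (Sylow p H) ∣ Nat.card (Sylow p G) := by
  obtain ⟨S⟩ := (inferInstance : Nonempty (Sylow p G))
  rw [(S.mapSurjective hf).card_eq_index_normalizer, S.card_eq_index_normalizer]
  exact (index_dvd_of_le (le_normalizer_map f)).trans (index_map_dvd _ hf)

theorem third {G : Type u} [Group G] [Finite G] (hG : ¬ Group.IsSolvable G) {p q : ℕ}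
    (hp : p.Prime) (hq : q.Prime) : ∃ r : ℕ, r.Prime ∧ r ∣ Nat.card G ∧ r ≠ p ∧ r ≠ q := by
  by_contra hc
  push Not at hc
  apply hG
  have h0 : Nat.card G ≠ 0 := Nat.card_pos.ne'
  obtain ⟨a, m, hm, e⟩ := Nat.exists_eq_pow_mul_and_not_dvd h0 p hp.ne_one
  have hm0 : m ≠ 0 := fun e' => h0 (by rw [e, e', mul_zero])
  have := Nat.eq_prime_pow_of_unique_prime_dvd (p := q) hm0 fun {d} hd hdm =>
    hc d hd (e ▸ Dvd.dvd.mul_left hdm _) (fun e' => hm (e' ▸ hdm))
  exact Cfsg.Agent.S0144.result p q a _ hp hq (e.trans (by rw [← this]))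

theorem key {G : Type u} [Group G] [Finite G] [IsSimpleGroup G] (r : ℕ) [hr : Fact r.Prime]
    (hd : r ∣ Nat.card G) {X : Subgroup G} (hX : X ≠ ⊤) (h1 : ¬ r ∣ X.index)
    (h2 : (Nat.card (Sylow r G)).Coprime X.index) : False := by
  obtain ⟨Q, hQ⟩ := exists_isSylowOf r X
  obtain ⟨R, hR⟩ := (hQ.trans le_top (by rwa [relIndex_top_right])).exists_sylow_top
  rw [R.card_eq_index_normalizer] at h2
  have hle : (R : Subgroup G) ≤ X.normalCore := by
    intro x hx g
    obtain ⟨a, ha, b, hb, rfl⟩ := exists_mul_of_coprime_index h2.symm g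
    have h3 : b * x * b⁻¹ ∈ X := hQ.le (hR ▸ (mem_normalizer_iff.1 hb x).1 hx)
    have := mul_mem (mul_mem ha h3) (inv_mem ha)
    simpa [mul_assoc] using this
  rcases (inferInstance : X.normalCore.Normal).eq_bot_or_eq_top with e | e
  · exact (isSylowOf_top R).ne_bot (by rwa [card_top]) (le_bot_iff.1 (e ▸ hle))
  · exact hX (eq_top_iff.2 (e ▸ X.normalCore_le))

theorem simple {G : Type u} [Group G] [Finite G] [IsSimpleGroup G]
    (h : ∀ (r : ℕ) [Fact r.Prime], Nat.card (Sylow r G) = 1 ∨ IsPrimePow (Nat.card (Sylow r G))) :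
    Group.IsSolvable G := by
  by_contra hG
  have nt : ∀ (u : ℕ) [Fact u.Prime], u ∣ Nat.card G → ∀ P : Sylow u G,
      normalizer ((P : Subgroup G) : Set G) ≠ ⊤ := by
    intro u _ hu P e
    rcases (normalizer_eq_top_iff.1 e).eq_bot_or_eq_top with e' | e'
    · exact (isSylowOf_top P).ne_bot (by rwa [card_top]) e'
    · have : IsPGroup u G := (e' ▸ P.2 : IsPGroup u (⊤ : Subgroup G)).of_equiv topEquiv
      have := this.isNilpotent
      exact hG inferInstance
  have ex : ∀ (u : ℕ) [Fact u.Prime], u ∣ Nat.card G → ∃ s k : ℕ, s.Prime ∧ 0 < k ∧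
      s ^ k = Nat.card (Sylow u G) := by
    intro u _ hu
    obtain ⟨P⟩ := (inferInstance : Nonempty (Sylow u G))
    rcases h u with e | e
    · rw [P.card_eq_index_normalizer, index_eq_one] at e
      exact absurd e (nt u hu P)
    · exact (isPrimePow_nat_iff _).1 e
  have pr : ∀ (r u : ℕ) [Fact r.Prime] [Fact u.Prime], r ∣ Nat.card G → u ∣ Nat.card G →
      ∀ s k t j : ℕ, s.Prime → t.Prime → s ^ k = Nat.card (Sylow u G) →
      t ^ j = Nat.card (Sylow r G) → r = s ∨ t = s := by
    intro r u hr _ h1 h2 s k t j hs ht e1 e2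
    by_contra hc
    push Not at hc
    obtain ⟨P⟩ := (inferInstance : Nonempty (Sylow u G))
    rw [P.card_eq_index_normalizer] at e1
    refine key r h1 (nt u h2 P) ?_ ?_
    · intro hd
      exact hc.1 ((Nat.prime_dvd_prime_iff_eq hr.out hs).1 (hr.out.dvd_of_dvd_pow (e1 ▸ hd)))
    · rw [← e2]
      exact e1 ▸ Nat.coprime_pow_primes _ _ ht hs hc.2
  obtain ⟨u, hu, hu', -⟩ := third hG Nat.prime_two Nat.prime_two
  haveI := Fact.mk hu
  obtain ⟨s, k, hs, hk, e1⟩ := ex u hu'
  haveI := Fact.mk hs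
  have hs' : s ∣ Nat.card G := by
    obtain ⟨P⟩ := (inferInstance : Nonempty (Sylow u G))
    rw [P.card_eq_index_normalizer] at e1
    exact (dvd_pow_self s hk.ne').trans (e1 ▸ index_dvd_card _)
  obtain ⟨w, l, hw, hl, e2⟩ := ex s hs'
  have hws : w ≠ s := by
    rintro rfl
    exact not_dvd_card_sylow w G (e2 ▸ dvd_pow_self w hl.ne')
  obtain ⟨r, hr, hr', c1, c2⟩ := third hG hs hw
  haveI := Fact.mk hr
  obtain ⟨t, j, ht, -, e3⟩ := ex r hr'
  have d1 := (pr r u hr' hu' s k t j hs ht e1 e3).resolve_left c1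
  have d2 := (pr r s hr' hs' w l t j hw ht e2 e3).resolve_left c2
  exact hws (d2.symm.trans d1)

theorem main (G : Type u) [Group G] [Finite G] :
    (∀ (r : ℕ) [Fact r.Prime], Nat.card (Sylow r G) = 1 ∨ IsPrimePow (Nat.card (Sylow r G))) →
    Group.IsSolvable G := by
  refine induction_on_card (P := fun G _ _ => (∀ (r : ℕ) [Fact r.Prime],
    Nat.card (Sylow r G) = 1 ∨ IsPrimePow (Nat.card (Sylow r G))) → Group.IsSolvable G) ?_ G
  intro G _ _ ih h
  have dv : ∀ {a b : ℕ}, a ∣ b → (b = 1 ∨ IsPrimePow b) → (a = 1 ∨ IsPrimePow a) := by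
    intro a b hab hb
    by_cases ha : a = 1
    · exact Or.inl ha
    · rcases hb with rfl | hb
      · exact Or.inl (Nat.dvd_one.1 hab)
      · exact Or.inr (hb.dvd hab ha)
  rcases subsingleton_or_nontrivial G with hs | hs
  · infer_instance
  by_cases hS : IsSimpleGroup G
  · exact simple h
  obtain ⟨N, hN, h1, h2⟩ : ∃ N : Subgroup G, N.Normal ∧ N ≠ ⊥ ∧ N ≠ ⊤ := by
    by_contra hc
    push Not at hc
    exact hS ⟨fun N hN => by
      by_cases e : N = ⊥
      · exact Or.inl e
      · exact Or.inr (hc N hN e)⟩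
  have e := N.card_mul_index
  have a1 : 1 < N.index := one_lt_index_of_ne_top h2
  have a2 : 1 < Nat.card N := (one_lt_card_iff_ne_bot N).2 h1
  haveI := ih N (by nlinarith) fun r _ => dv (nd r N) (h r)
  haveI := ih (G ⧸ N) (by rw [← index_eq_card]; nlinarith) fun r _ =>
    dv (qd r (QuotientGroup.mk'_surjective N)) (h r)
  exact solvable_of_ker_le_range N.subtype (QuotientGroup.mk' N) (by simp)


/-- If for every prime r the number of Sylow r-subgroups of the finite group G is a prime power or 1, then G is solvable. -/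
theorem result {G : Type*} [Group G] [Finite G] (h : ∀ (r : ℕ) [Fact r.Prime], Nat.card (Sylow r G) = 1 ∨ IsPrimePow (Nat.card (Sylow r G))) :
    Group.IsSolvable G := by
  exact main G h

end Cfsg.Agent.S3933
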