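import Mathlib
import Cfsg.Statements.S3937
import Cfsg.Agent.FGS.Basic2
import Cfsg.Agent.H2.Subnormal
import Cfsg.Agent.Core.Fitting

set_option autoImplicit false
open Cfsg

namespace Cfsg.Agent.S3937

open Subgroup Cfsg.Agent.FGS Cfsg.Agent.H2
open scoped commutatorElement Pointwise IsMulCommutative

theorem step {G : Type*} [Group G] (g x : G) (n : ℕ) :
    (List.replicate (n + 1) g).foldl (fun a b => a * b * a⁻¹ * b⁻¹) x =
      ⁅(List.replicate n g).foldl (fun a b => a * b * a⁻¹ * b⁻¹) x, g⁆ := by
  rw [List.replicate_succ', List.foldl_append]; rfl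

/-- Baer's characterization of the Fitting subgroup: in a finite group G, an element g lies in the Fitting subgroup if and only if g is a left Engel element, that is, for every x there is n with [x, g, g, …, g] = 1 (n entries g, [a, b] = aba⁻¹b⁻¹). -/
theorem result {G : Type*} [Group G] [Finite G] (g : G) :
    g ∈ Cfsg.fittingSubgroup G ↔ ∀ x : G, ∃ n : ℕ, (List.replicate n g).foldl (fun a b => a * b * a⁻¹ * b⁻¹) x = 1 := by
  haveI := Core.fitting_normal (G := G)
  constructor
  · intro hg x
    obtain ⟨n, hn⟩ := (isNilpotent_iff_lowerCentralSeries _).mp (Core.fitting_nilpotent (G := G))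
    refine ⟨n + 1, ?_⟩
    have key : ∀ m : ℕ, (List.replicate (m + 1) g).foldl (fun a b => a * b * a⁻¹ * b⁻¹) x ∈
        (fittingSubgroup G).lowerCentralSeries m := by
      intro m
      induction m with
      | zero => exact commutator_le_right ⊤ _ (commutator_mem_commutator (mem_top x) hg)
      | succ m ih => rw [step]; exact commutator_mem_commutator ih hg
    have := key n
    rwa [hn] at this
  · intro h
    have key : ∀ H : Subgroup G, zpowers g ≤ H → SN H (zpowers g) := by
      intro H
      induction H using WellFoundedLT.induction with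
      | ind H ih =>
      intro hH
      by_contra hn
      obtain ⟨M, hMH, hM⟩ := zipper hH (fun K h1 h2 => ih K h2 h1) hn
      have hSM : zpowers g ≤ M := hM _ le_rfl (lt_of_le_of_ne hH fun he => hn (SN.of_normal hH (he ▸ le_normalizer)))
      have hgM : g ∈ M := hSM (mem_zpowers g)
      have hgH : g ∈ H := hH (mem_zpowers g)
      have hN : H ⊓ normalizer (M : Set G) ≤ M := by
        refine hM _ (le_inf hH (hSM.trans le_normalizer)) (lt_of_le_of_ne inf_le_left fun he => hn ?_)
        exact (SN.of_normal hMH.le (he.ge.trans inf_le_right)).trans (ih M hMH hSM)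
      obtain ⟨x, hxH, hxM⟩ := SetLike.exists_of_lt hMH
      obtain ⟨n, hn⟩ := h x
      have h2 : ∀ m : ℕ, (List.replicate m g).foldl (fun a b => a * b * a⁻¹ * b⁻¹) x ∈ H ∧
          (List.replicate m g).foldl (fun a b => a * b * a⁻¹ * b⁻¹) x ∉ M := by
        intro m
        induction m with
        | zero => exact ⟨hxH, hxM⟩
        | succ m ih =>
          rw [step]
          generalize (List.replicate m g).foldl (fun a b => a * b * a⁻¹ * b⁻¹) x = y at ih
          refine ⟨mul_mem (mul_mem (mul_mem ih.1 hgH) (inv_mem ih.1)) (inv_mem hgH), fun hy => ih.2 ?_⟩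
          have h3 : y * g * y⁻¹ ∈ M := by simpa [commutatorElement_def] using mul_mem hy hgM
          have h4 : MulAut.conj y⁻¹ • M ≤ M := by
            refine hM _ (zpowers_le.mpr (mem_conj_smul.mpr (by simpa using h3))) (lt_of_le_of_ne
              (conj_smul_le_of_mem hMH.le (inv_mem ih.1)) fun he => hMH.ne ?_)
            exact eq_of_le_of_card_ge hMH.le (by rw [← he, H2.card_conj_smul])
          exact hN <| mem_inf.mpr ⟨ih.1, inv_mem_iff.mp (mem_normalizer_of_conj_smul_le h4)⟩
      exact (h2 n).2 (hn ▸ one_mem M)
    exact Core.le_fitting_of_isSubnormal (SN.top_iff.mp (key ⊤ le_top)) (CommGroup.isNilpotent (G := zpowers g)) (mem_zpowers g)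

end Cfsg.Agent.S3937
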