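import Mathlib
import Cfsg.Statements.S3939
import Cfsg.Agent.FGS.Hyper
import Cfsg.Agent.FGS.Kazarin
import Cfsg.Agent.H2.SubnormalCore
import Cfsg.Agent.Transfer.Wielandt

set_option autoImplicit false
open Cfsg

namespace Cfsg.Agent.S3939

open Subgroup Cfsg.Agent.FGS
open scoped IsMulCommutative

/-- In a finite group G the set of elements g such that the subgroup generated by g and x is nilpotent for every x ∈ G is exactly the hypercenter of G (the last term of the upper central series). -/
theorem result {G : Type*} [Group G] [Finite G] (g : G) :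
    (∀ x : G, Group.IsNilpotent ↥(Subgroup.closure ({x, g} : Set G))) ↔ g ∈ ⨆ n : ℕ, Subgroup.upperCentralSeries G n := by
  constructor
  · intro h
    refine mem_of_forall_pPart _ fun p j hp a ha hj => ?_
    haveI := Fact.mk hp
    haveI := Transfer.pResidual_normal (p := p) (G := G)
    have haH : ∀ x, a ∈ closure ({x, g} : Set G) := fun x =>
      (zpowers_le.mpr (subset_closure (by simp))) ha
    have hxH : ∀ x, x ∈ closure ({x, g} : Set G) := fun x => subset_closure (by simp)
    refine le_hypercenter_of_cent (p := p) G (pCore p G ⊓ centralizer (pResidual p G : Set G)) inferInstance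
      ((Core.pCore_isPGroup p).to_le inf_le_left) (fun x hx => ?_) (mem_inf.mpr ⟨?_, ?_⟩)
    · exact mem_centralizer_iff.mpr fun y hy =>
        (mem_centralizer_iff.mp hy.2 x (Transfer.mem_pResidual_of_coprime hx)).symm
    · refine H2.baer_suzuki_elem fun x => ?_
      haveI := h x
      obtain ⟨P⟩ : Nonempty (Sylow p (closure ({x, g} : Set G))) := inferInstance
      have h1 : (⟨a, haH x⟩ : closure ({x, g} : Set G)) ∈ P :=
        mem_sylow_of_normal P (k := j) (by rw [← orderOf_coe]; exact hj)
      have h2 := (inferInstance : (P : Subgroup (closure ({x, g} : Set G))).Normal).conj_mem _ h1 ⟨x, hxH x⟩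
      refine (P.isPGroup'.map (Subgroup.subtype _)).to_le ((closure_le _).mpr ?_)
      rintro y (rfl | rfl)
      · exact ⟨_, h1, rfl⟩
      · exact ⟨_, h2, rfl⟩
    · refine le_centralizer_iff.mp (Transfer.pResidual_le_iff.mpr fun x hx => ?_) (mem_zpowers a)
      refine Transfer.le_centralizer_of_nilpotent (h x) (isPGroup_zpowers hj) (zpowers_le.mpr (haH x))
        (A := zpowers x) ?_ (zpowers_le.mpr (hxH x)) (mem_zpowers x)
      rw [Nat.card_zpowers]
      exact (Nat.Prime.coprime_iff_not_dvd hp).mp hx.symm
  · intro h x
    rw [mem_iSup_of_directed (Subgroup.upperCentralSeries_mono _).directed_le] at h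
    obtain ⟨n, hn⟩ := h
    have := isNilpotent_sup_of_le_upperCentralSeries n G (zpowers x) (zpowers g)
      (CommGroup.isNilpotent (G := zpowers x)) (zpowers_le.mpr hn)
    rwa [zpowers_eq_closure, zpowers_eq_closure, ← Subgroup.closure_union] at this

end Cfsg.Agent.S3939
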