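import Mathlib
import Cfsg.Statements.S3941
import Cfsg.Agent.FGS.Basic
-- import your own Cfsg.Agent.* helpers here

set_option autoImplicit false
open Cfsg

namespace Cfsg.Agent.S3941

open Equiv Equiv.Perm

/-- Let n ≥ 5 and p an odd prime with p ≤ n, and suppose that every proper subgroup of the alternating group of degree n whose order is divisible by p has a normal Sylow p-subgroup. Then n = p. -/
theorem result (n p : ℕ) (hn : 5 ≤ n) [Fact p.Prime] (hp : p ≠ 2) (hpn : p ≤ n)
    (h : ∀ H : Subgroup ↥(alternatingGroup (Fin n)), H ≠ ⊤ → p ∣ Nat.card ↥H → Cfsg.IsPClosed p ↥H) : n = p := by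
  have hpp : p.Prime := Fact.out
  by_contra hne
  obtain ⟨m, rfl⟩ := Nat.exists_eq_add_of_le' hn
  have h3 : 3 ≤ p := by have := hpp.two_le; omega
  let l : Fin (m + 5) := Fin.last _
  let i : Fin (m + 5) := ⟨p - 1, by omega⟩
  have hi0 : i ≠ 0 := fun e => by have := congrArg Fin.val e; simp [i] at this; omega
  let c := Fin.cycleRange i
  have hc : orderOf c = p := by
    rw [← lcm_cycleType, Fin.cycleType_cycleRange hi0, Multiset.lcm_singleton]
    simp [i]; omega
  have hs : sign c = 1 := by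
    rw [Fin.sign_cycleRange]
    exact Even.neg_one_pow (by
      obtain ⟨k, hk⟩ := hpp.odd_of_ne_two hp
      exact ⟨k, by simp [i]; omega⟩)
  have hl : c l = l := Fin.cycleRange_of_gt (by simp [i, l, Fin.lt_def]; omega)
  let H := MulAction.stabilizer (alternatingGroup (Fin (m + 5))) l
  have hl0 : l ≠ 0 := Fin.last_pos.ne'
  have hl1 : l ≠ 1 := fun e => by have := congrArg Fin.val e; simp [l] at this
  have hl3 : l ≠ 3 := fun e => by
    have := congrArg Fin.val e; simp [l, Nat.mod_eq_of_lt] at this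
  have hH : H ≠ ⊤ := fun e => by
    have : (⟨swap l 0 * swap 0 1, by simp [hl0]⟩ : alternatingGroup (Fin (m + 5))) ∈ H :=
      e ▸ Subgroup.mem_top _
    have h1 : (swap l 0 * swap 0 1 : Perm (Fin (m + 5))) l = l := this
    rw [mul_apply, swap_apply_of_ne_of_ne hl0 hl1, swap_apply_left] at h1
    exact hl0 h1.symm
  have ord : ∀ (x : Perm (Fin (m + 5))) (h1 : x ∈ alternatingGroup _) (h2 : x l = l),
      orderOf (⟨⟨x, h1⟩, h2⟩ : H) = orderOf x := fun x h1 h2 => by
    rw [← Subgroup.orderOf_coe, ← Subgroup.orderOf_coe]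
  obtain ⟨P⟩ : Nonempty (Sylow p H) := inferInstance
  haveI := h H hH (by rw [← hc, ← ord c hs hl]; exact orderOf_dvd_natCard _) P
  have key : ∀ (g d : Perm (Fin (m + 5))), g l = l → d l = l → sign d = 1 → orderOf d = p →
      ∃ k, orderOf (c * (g * d * g⁻¹)) = p ^ k := fun g d hg hd hd' ho => by
    have s1 : g * d * g⁻¹ ∈ alternatingGroup _ := by
      rw [mem_alternatingGroup]; simp [hd']
    have s2 : (g * d * g⁻¹) l = l := by
      rw [mul_apply, mul_apply, inv_eq_iff_eq.2 hg.symm, hd, hg]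
    have m1 := FGS.mem_sylow_of_normal P (x := ⟨⟨c, hs⟩, hl⟩) (k := 1) 
      ((ord c hs hl).trans (by rw [hc, pow_one]))
    have m2 := FGS.mem_sylow_of_normal P (x := ⟨⟨_, s1⟩, s2⟩) (k := 1) ((ord _ s1 s2).trans (by
      rw [pow_one, ← ho]; exact (MulAut.conj g).orderOf_eq d))
    obtain ⟨k, hk⟩ := FGS.exists_orderOf_eq_of_mem P.2 (P.1.mul_mem m1 m2)
    exact ⟨k, by rw [← hk, ← Subgroup.orderOf_coe, ← Subgroup.orderOf_coe]; rfl⟩
  have c0 : c 0 = 1 := by
    rw [Fin.cycleRange_of_lt (by simp [i, Fin.lt_def]; omega)]; rfl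
  have c1 : c 1 = 2 := by
    rw [Fin.cycleRange_of_lt (by simp [i, Fin.lt_def]; omega)]; rfl
  have v3 : ((3 : Fin (m + 5)) : ℕ) = 3 := by simp [Nat.mod_eq_of_lt]
  have v2 : ((2 : Fin (m + 5)) : ℕ) = 2 := by simp [Nat.mod_eq_of_lt]
  by_cases hp3 : p = 3
  · obtain ⟨k, hk⟩ := key (swap 0 3) c (swap_apply_of_ne_of_ne hl0 hl3) hl hs hc
    have n1 : (1 : Fin (m + 5)) ≠ 3 := fun e => by
      have := congrArg Fin.val e; rw [v3] at this; simp at this
    have n2 : (2 : Fin (m + 5)) ≠ 3 := fun e => by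
      have := congrArg Fin.val e; rw [v2, v3] at this; omega
    have n3 : (2 : Fin (m + 5)) ≠ 0 := fun e => by
      have := congrArg Fin.val e; rw [v2] at this; simp at this
    have c2 : c 2 = 0 := Fin.cycleRange_of_eq (Fin.ext (by rw [v2]; simp [i, hp3]))
    have c3 : c 3 = 3 := Fin.cycleRange_of_gt (by rw [Fin.lt_def, v3]; simp [i, hp3])
    set x := c * (swap 0 3 * c * (swap 0 3)⁻¹) with hx
    have x0 : x 0 = 1 := by simp [hx, c3, c0]
    have x1 : x 1 = 0 := by
      simp [hx, swap_apply_of_ne_of_ne one_ne_zero n1, c1, swap_apply_of_ne_of_ne n3 n2, c2]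
    have xe : ∀ j : ℕ, (x ^ (2 * j)) 0 = 0 := fun j => by
      induction j with
      | zero => rfl
      | succ j ih => rw [mul_add, pow_add, mul_one, pow_two, mul_apply, mul_apply, x0, x1, ih]
    obtain ⟨j, hj⟩ : Odd (p ^ k) := (hpp.odd_of_ne_two hp).pow
    have := pow_orderOf_eq_one x
    rw [hk, hj, pow_succ'] at this
    have := congrArg (fun f : Perm (Fin (m + 5)) => f 0) this
    simp only [mul_apply, xe, x0, one_apply] at this
    exact one_ne_zero this
  · obtain ⟨k, hk⟩ := key (swap 0 1) c⁻¹ (swap_apply_of_ne_of_ne hl0 hl1)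
      (inv_eq_iff_eq.2 hl.symm) (by simp [hs]) (by rw [orderOf_inv, hc])
    have e : c * (swap 0 1 * c⁻¹ * (swap 0 1)⁻¹) = swap 1 2 * swap 1 0 := by
      rw [← mul_assoc, ← mul_assoc, ← swap_apply_apply, c0, c1, swap_inv, swap_comm 0 1]
    rw [e, (isThreeCycle_swap_mul_swap_same (fun e => by
        have := congrArg Fin.val e; rw [v2] at this; simp at this) one_ne_zero (fun e => by
        have := congrArg Fin.val e; rw [v2] at this; simp at this)).orderOf] at hk
    obtain _ | k := k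
    · simp at hk
    · exact hp3 ((Nat.prime_dvd_prime_iff_eq hpp Nat.prime_three).1
        (hk ▸ dvd_pow_self p (by omega)))

end Cfsg.Agent.S3941
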