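import Mathlib
import Cfsg.Statements.S3946
import Cfsg.Agent.FGS.Kegel

set_option autoImplicit false
open Cfsg

namespace Cfsg.Agent.S3946

open Subgroup

theorem pow_eq {G A : Type*} [Group G] [Group A] (φ : A →* MulAut G) (x : G) (a : A) (n : ℕ) :
    (SemidirectProduct.inl x * SemidirectProduct.inr a : G ⋊[φ] A) ^ n =
      SemidirectProduct.inl ((List.range n).map fun i => φ (a ^ i) x).prod *
        SemidirectProduct.inr (a ^ n) := by
  induction n with
  | zero => simp
  | succ n ih =>
    rw [pow_succ, ih, List.range_succ, List.map_append, List.prod_append, map_mul, pow_succ, map_mul]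
    simp only [List.map_cons, List.map_nil, List.prod_cons, List.prod_nil, mul_one,
      SemidirectProduct.inl_aut, map_inv]
    group

/-- Call an automorphism α of order n of a group G splitting when x · α(x) · α²(x) ⋯ α^(n−1)(x) = 1 for every x ∈ G. A finite group admitting a splitting automorphism of prime order is nilpotent (this contains the case of a fixed-point-free automorphism of prime order). -/
theorem result {G : Type*} [Group G] [Finite G] (α : MulAut G) (hp : (orderOf α).Prime)
    (hsplit : ∀ x : G, (((List.range (orderOf α)).map (fun i : ℕ => (α ^ i) x)).prod = 1)) : Group.IsNilpotent G := by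
  classical
  have := Fact.mk hp
  let φ : zpowers α →* MulAut G := (zpowers α).subtype
  let a : zpowers α := ⟨α, mem_zpowers α⟩
  have : Finite (G ⋊[φ] zpowers α) := Finite.of_equiv _ SemidirectProduct.equivProd.symm
  let K : Subgroup (G ⋊[φ] zpowers α) := (SemidirectProduct.rightHom (φ := φ)).ker
  have hK : K = SemidirectProduct.inl.range := SemidirectProduct.range_inl_eq_ker_rightHom.symm
  have hi : K.index = orderOf α := by
    rw [index_ker, MonoidHom.range_eq_top.mpr SemidirectProduct.rightHom_surjective, card_top,
      Nat.card_zpowers]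
  have h1 : ∀ y ∈ K, (y * SemidirectProduct.inr a) ^ orderOf α = 1 := by
    intro y hy
    rw [hK] at hy
    obtain ⟨x, rfl⟩ := hy
    have : a ^ orderOf α = 1 := Subtype.ext (pow_orderOf_eq_one α)
    rw [pow_eq, this, map_one, mul_one]
    exact (congrArg _ (hsplit x)).trans (map_one _)
  have hnil := FGS.nilpotent_of_index_prime hp _ K inferInstance hi fun g hg => by
    obtain ⟨i, hi, e⟩ : ∃ i, i < orderOf α ∧ SemidirectProduct.rightHom g = a ^ i := by
      obtain ⟨i, hi, e⟩ := Finset.mem_image.mp ((mem_zpowers_iff_mem_range_orderOf).mp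
        (SemidirectProduct.rightHom g).2)
      exact ⟨i, Finset.mem_range.mp hi, Subtype.ext e.symm⟩
    have hi0 : i ≠ 0 := by
      rintro rfl
      exact hg e
    have h2 : g * (SemidirectProduct.inr a ^ i)⁻¹ ∈ K := by
      rw [MonoidHom.mem_ker, map_mul, map_inv, map_pow, e, SemidirectProduct.rightHom_inr, mul_inv_cancel]
    obtain ⟨y, hy⟩ := (FGS.bijective_mul_pow (Q := K) (a := SemidirectProduct.inr a)
      (le_normalizer_of_normal (mem_top _)) h1 (Nat.coprime_of_lt_prime hi0 hi hp).symm).2 ⟨_, h2⟩
    rw [← mul_right_cancel (congrArg Subtype.val hy), ← pow_mul, mul_comm, pow_mul, h1 y y.2, one_pow]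
  rw [hK] at hnil
  exact Group.nilpotent_of_mulEquiv (MonoidHom.ofInjective (SemidirectProduct.inl_injective (φ := φ))).symm

end Cfsg.Agent.S3946
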