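import Mathlib
import Cfsg.Statements.S3972
import Cfsg.Agent.Fil.C
import Cfsg.Agent.Perm.FC4
import Cfsg.Agent.Perm.Small2

set_option autoImplicit false
open Cfsg

namespace Cfsg.Agent.S3972

open Subgroup MulAction Cfsg.Agent.Perm


/-- Let `p` be a prime, `m ≥ 2`, and `G` a transitive but not doubly transitive permutation group on `p ^ m` points containing a permutation of order `p ^ m` (necessarily a full cycle). Then `G` is imprimitive, and the normal closure in `G` of the `p ^ (m - 1)`-th power of that permutation is an intransitive normal subgroup. -/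
theorem result {Ω : Type*} [Fintype Ω] [DecidableEq Ω] (p m : ℕ) (hp : p.Prime) (hm : 2 ≤ m) (hΩ : Fintype.card Ω = p ^ m) (G : Subgroup (Equiv.Perm Ω)) (htr : MulAction.IsPretransitive G Ω) (h2 : ¬ MulAction.IsMultiplyPretransitive G Ω 2) (g : G) (hg : orderOf g = p ^ m) : ¬ MulAction.IsPreprimitive G Ω ∧ ¬ MulAction.IsPretransitive (Subgroup.normalClosure ({g ^ (p ^ (m - 1))} : Set G)) Ω := by
  haveI : Fact p.Prime := ⟨hp⟩
  obtain ⟨k, rfl⟩ : ∃ k, m = k + 1 := ⟨m - 1, by omega⟩
  rw [Nat.add_sub_cancel]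
  set z := g ^ p ^ k with hz
  have hzo : orderOf z = p := by
    rw [hz, orderOf_pow' _ (pow_pos hp.pos k).ne', hg, Nat.gcd_eq_right (pow_dvd_pow p k.le_succ), pow_succ,
      Nat.mul_div_cancel_left _ (pow_pos hp.pos k)]
  have hz1 : z ≠ 1 := fun e => by rw [e, orderOf_one] at hzo; exact hp.ne_one hzo.symm
  have hmin : ∀ L : Subgroup G, ∀ y ∈ L, y ∈ zpowers g → y ≠ 1 → z ∈ L := by
    intro L y hy hyg hy1
    obtain ⟨j, s, hs, hsd, hso⟩ := exists_pow_orderOf_prime hy1
    have : s = p := (Nat.prime_dvd_prime_iff_eq hs hp).1 (hs.dvd_of_dvd_pow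
      (hg ▸ hsd.trans (orderOf_dvd_of_mem_zpowers hyg)))
    subst this
    exact (zpowers_le.2 (pow_mem hy j)) (mem_zpowers_of_cyclic (P := zpowers g) inferInstance (pow_mem hyg j)
      (pow_mem (mem_zpowers g) _) (hzo.trans hso.symm))
  obtain ⟨a, ha⟩ : ∃ a : Ω, z • a ≠ a := by
    by_contra hc
    push Not at hc
    exact hz1 (Subtype.ext (Equiv.ext hc))
  have hst : stabilizer (zpowers g) a = ⊥ := by
    rw [eq_bot_iff]
    intro y hy
    by_contra h1
    exact ha (hmin (stabilizer G a) y hy y.2 (fun e => h1 (Subtype.ext e)))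
  have htrC : IsPretransitive (zpowers g) Ω := by
    rw [isPretransitive_iff_base a]
    have e1 : (orbit (zpowers g) a).ncard = Nat.card Ω := by
      rw [← index_stabilizer, hst, index_bot, Nat.card_zpowers, hg, Nat.card_eq_fintype_card, hΩ]
    have e2 := (Set.eq_univ_iff_ncard _).2 e1
    intro x
    exact (e2 ▸ Set.mem_univ x : x ∈ orbit (zpowers g) a)
  have hcomm : ∀ x y : zpowers g, (x : G) * y = y * x := fun x y => congrArg Subtype.val (mul_comm' x y)
  have hreg : ∀ b : Ω, stabilizer (zpowers g) b = ⊥ := by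
    intro b
    obtain ⟨c, rfl⟩ := htrC.exists_smul_eq a b
    rw [eq_bot_iff, ← hst]
    intro y hy
    have h1 : (y : G) • (c : G) • a = (c : G) • a := hy
    rw [← mul_smul, hcomm, mul_smul] at h1
    exact smul_left_cancel _ h1
  have hnp : ¬ IsPreprimitive G Ω := fun hprim => h2 (Fil.cyclic_B (zpowers g) inferInstance htrC hreg a hp
    (by rw [Nat.card_zpowers, hg]; exact dvd_pow_self _ (by omega)) (by
      rw [Nat.card_zpowers, hg]
      intro e
      have := Nat.pow_right_injective hp.two_le (e.trans (pow_one p).symm)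
      omega))
  refine ⟨hnp, fun hN => hnp (isPreprimitive_of_rel fun r hr hinv u v huv h x y => ?_)⟩
  let K : Subgroup G :=
    { carrier := {x | ∀ w, r w (x • w)}
      one_mem' := fun w => by simpa using hr.refl w
      mul_mem' := fun {s t} hs ht w => by rw [mul_smul]; exact hr.trans (ht w) (hs _)
      inv_mem' := fun {s} hs w => by simpa using hr.symm (hs (s⁻¹ • w)) }
  haveI : K.Normal := ⟨fun s hs t w => by simpa [mul_smul] using hinv t _ _ (hs (t⁻¹ • w))⟩
  obtain ⟨c, rfl⟩ := htrC.exists_smul_eq u v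
  have hc : (c : G) ∈ K := fun w => by
    obtain ⟨d, rfl⟩ := htrC.exists_smul_eq u w
    have := hinv d _ _ h
    change r ((d : G) • u) ((d : G) • (c : G) • u) at this
    rw [← mul_smul, hcomm, mul_smul] at this
    exact this
  have hzK := hmin K c hc c.2 (fun e => huv (by change u = (c : G) • u; rw [e, one_smul]))
  obtain ⟨s, rfl⟩ := hN.exists_smul_eq x y
  exact (normalClosure_le_normal (N := K) (by simpa using hzK) s.2) x

end Cfsg.Agent.S3972
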