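import Mathlib
import Cfsg.Statements.S3982
import Cfsg.Agent.BG.AmbHall2
import Cfsg.Agent.H2.FrobComplement
import Cfsg.Agent.FGS.Basic2

set_option autoImplicit false
open Cfsg

namespace Cfsg.Agent.S3982

open Subgroup Cfsg.Agent.BG Cfsg.Agent.BG.Amb
open scoped Pointwise

/-- Let p be an odd prime and G a finite group of even order divisible by p in which the centralizer of every non-identity p-element has odd order. If some nontrivial p-subgroup of G has a normalizer of even order, then the normalizer of every Sylow p-subgroup of G has even order. -/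
theorem result {G : Type*} [Group G] [Finite G] (p : ℕ) [Fact p.Prime] (hp2 : p ≠ 2) (hpG : p ∣ Nat.card G) (h2G : 2 ∣ Nat.card G) (hC : ∀ g : G, g ≠ 1 → (∃ k : ℕ, orderOf g = p ^ k) → Odd (Nat.card ↥(Subgroup.centralizer ({g} : Set G)))) (Q : Subgroup G) (hQ : IsPGroup p ↥Q) (hQ1 : Q ≠ ⊥) (hev : Even (Nat.card ↥(Subgroup.normalizer (Q : Set G)))) (P : Sylow p G) : Even (Nat.card ↥(Subgroup.normalizer ((P : Subgroup G) : Set G))) := by
  obtain ⟨y, hyQ, hy⟩ := FGS.exists_prime_orderOf_mem Nat.prime_two hev.two_dvd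
  have hy2 : y * y = 1 := by rw [← pow_two, ← hy, pow_orderOf_eq_one]
  obtain ⟨R, hle, ⟨hR, hyR⟩, hmax⟩ := exists_maximal_ge_of_wellFoundedGT
    (fun R : Subgroup G => IsPGroup p R ∧ y ∈ 𝐍(R)) Q ⟨hQ, hyQ⟩
  have hodd : ∀ g ∈ R, g ≠ 1 → ¬ 2 ∣ Nat.card 𝐂[g] := fun g hg h1 =>
    (hC g h1 (FGS.exists_orderOf_eq_of_mem hR hg)).not_two_dvd_nat
  obtain ⟨hinv, -⟩ := H2.inverts_of_involution hyR hy2 ((eq_bot_iff_forall _).mpr fun g hg => by
    by_contra h1
    exact hodd g hg.1 h1 (hy ▸ orderOf_dvd_natCard _ (mem_cent1_comm.mp hg.2)))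
  obtain ⟨T, hT⟩ := Core.exists_isSylowOf p 𝐍(R)
  have hRT : R ≤ T := hT.normal_le hR le_normalizer le_rfl
  have hK : 𝐂(R) ⊔ T ≤ 𝐍(R) := sup_le (cent_le_norm R) hT.le
  have hyK : zpowers y ≤ 𝐍(𝐂(R) ⊔ T) := zpowers_le.mpr (mem_normalizer_fintype fun k hk => by
    have : y * k * y⁻¹ * k⁻¹ ∈ 𝐂(R) := mem_cent.mpr fun r hr => by
      have h1 := hinv _ (inv_mem (inv_conj_mem_of_le_norm hK hk hr))
      have h2 := hinv _ (inv_mem hr)
      calc _ = r * (y * k * y⁻¹ * k⁻¹) := rfl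
        _ = (y * r⁻¹ * y⁻¹) * (y * k * y⁻¹ * k⁻¹) := by rw [h2, inv_inv]
        _ = y * k * y⁻¹ * (y * (k⁻¹ * r * k)⁻¹ * y⁻¹) * k⁻¹ := by group
        _ = _ := by rw [h1]; group
    simpa using mul_mem (mem_sup_left this) hk)
  obtain ⟨g, hg, hg1⟩ := exists_mem_ne_one (ne_bot_mono hQ1 hle)
  have hπ : IsPiSubgroup {2}ᶜ (𝐂(R) ⊔ T) := pi_sup ((pi_compl_singleton Nat.prime_two).mpr fun h =>
    hodd g hg hg1 (h.trans (card_dvd_of_le (cent_le_cent1 hg)))) (pi_of_isPGroup hT.isPGroup hp2)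
    (hT.le.trans (norm_le_norm_cent R))
  obtain ⟨S, hS, hyS⟩ := Core.exists_invariant_isSylowOf (zpowers y) _ hyK (by
    rw [Nat.card_zpowers, hy]
    exact Nat.prime_two.coprime_iff_not_dvd.mpr ((pi_compl_singleton Nat.prime_two).mp hπ))
    (Or.inl inferInstance) p
  have hRS : R ≤ S := hS.normal_le hR (hRT.trans le_sup_right) hK
  have hSR : S = R := le_antisymm (hmax ⟨hS.isPGroup, hyS (mem_zpowers y)⟩ hRS) hRS
  subst hSR
  have := hS.eq_of_le hT.isPGroup le_sup_right hRT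
  subst this
  obtain ⟨P', rfl⟩ := (Core.IsSylowOf.of_normalizer (K := ⊤) (by rwa [top_inf_eq])).exists_sylow_top
  obtain ⟨c, rfl⟩ := MulAction.exists_smul_eq G P' P
  rw [Sylow.coe_subgroup_smul, ← conj_normalizer, card_conj]
  exact even_iff_two_dvd.mpr (hy ▸ orderOf_dvd_natCard _ hyR)

end Cfsg.Agent.S3982
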