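import Mathlib
import Cfsg.Statements.S3983
import Cfsg.Agent.FGS.TI

set_option autoImplicit false
open scoped Pointwise
open Cfsg

namespace Cfsg.Agent.S3983

/-- Let P be a Sylow p-subgroup of the finite group G that meets each conjugate g P g⁻¹ with g outside N_G(P) trivially, and let U be a subgroup of G of order divisible by p. Then a Sylow p-subgroup Q of U has the same property inside U: Q meets each conjugate u Q u⁻¹ with u ∈ U outside N_U(Q) trivially. -/
theorem result {G : Type*} [Group G] [Finite G] (p : ℕ) [Fact p.Prime] (P : Sylow p G) (hTI : ∀ g : G, g ∉ Subgroup.normalizer ((P : Subgroup G) : Set G) → (P : Subgroup G) ⊓ (MulAut.conj g • (P : Subgroup G)) = ⊥) (U : Subgroup G) (hU : p ∣ Nat.card ↥U) (Q : Sylow p ↥U) : ∀ u : ↥U, u ∉ Subgroup.normalizer ((Q : Subgroup ↥U) : Set ↥U) → (Q : Subgroup ↥U) ⊓ (MulAut.conj u • (Q : Subgroup ↥U)) = ⊥ := by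
  refine FGS.ti_of_sylow_eq Q fun R x hx hx' h1 => ?_
  obtain ⟨P₁, h₁⟩ := Q.exists_comap_eq_of_injective U.subtype_injective
  obtain ⟨P₂, h₂⟩ := R.exists_comap_eq_of_injective U.subtype_injective
  have : P₁ = P₂ := FGS.sylow_eq_of_ti P hTI (x := x)
    (show x ∈ (P₁ : Subgroup G).comap U.subtype from h₁ ▸ hx)
    (show x ∈ (P₂ : Subgroup G).comap U.subtype from h₂ ▸ hx') (by simpa using h1)
  exact Sylow.ext (by rw [← h₁, ← h₂, this])

end Cfsg.Agent.S3983
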