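import Mathlib
import Cfsg.Statements.S3984
import Cfsg.Agent.FGS.TI

set_option autoImplicit false
open scoped Pointwise
open Cfsg

namespace Cfsg.Agent.S3984

/-- Let P be a Sylow p-subgroup of the finite group G that meets each conjugate g P g⁻¹ with g outside N_G(P) trivially, and let N be a normal subgroup of G of order prime to p. Then every Sylow p-subgroup Q of G ⧸ N meets each conjugate x Q x⁻¹ with x outside its normalizer trivially. -/
theorem result {G : Type*} [Group G] [Finite G] (p : ℕ) [Fact p.Prime] (P : Sylow p G) (hTI : ∀ g : G, g ∉ Subgroup.normalizer ((P : Subgroup G) : Set G) → (P : Subgroup G) ⊓ (MulAut.conj g • (P : Subgroup G)) = ⊥) (N : Subgroup G) [N.Normal] (hN : (Nat.card ↥N).Coprime p) (Q : Sylow p (G ⧸ N)) : ∀ x : G ⧸ N, x ∉ Subgroup.normalizer ((Q : Subgroup (G ⧸ N)) : Set (G ⧸ N)) → (Q : Subgroup (G ⧸ N)) ⊓ (MulAut.conj x • (Q : Subgroup (G ⧸ N))) = ⊥ := by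
  refine FGS.ti_of_sylow_eq Q fun R y hy hy' h1 => ?_
  have hs := QuotientGroup.mk'_surjective N
  obtain ⟨P₁, rfl⟩ := Sylow.mapSurjective_surjective hs p Q
  obtain ⟨P₂, rfl⟩ := Sylow.mapSurjective_surjective hs p R
  obtain ⟨b, hb, rfl⟩ : ∃ b ∈ P₂, QuotientGroup.mk' N b = y := hy'
  obtain ⟨g, hg, hle⟩ := (Core.isSylowOf_sylow_of_le P₁ (K := ((P₁ : Subgroup G).map
    (QuotientGroup.mk' N)).comap (QuotientGroup.mk' N)) (Subgroup.le_comap_map _ _)).exists_conj_le
    (P₂.isPGroup'.to_le (Subgroup.zpowers_le.mpr hb)) (Subgroup.zpowers_le.mpr hy)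
  have h2 : P₁ = g • P₂ := FGS.sylow_eq_of_ti P hTI (x := g * b * g⁻¹)
    (hle (BG.Amb.conj_mem_conj.mpr (Subgroup.mem_zpowers b))) (BG.Amb.conj_mem_conj.mpr hb)
    (fun e => h1 (by rw [conj_eq_one_iff.mp e, map_one]))
  have h3 : P₁.mapSurjective hs = QuotientGroup.mk' N g • P₂.mapSurjective hs := by
    refine Sylow.ext ?_
    rw [h2, Sylow.coe_subgroup_smul]
    ext z
    obtain ⟨z, rfl⟩ := hs z
    constructor
    · rintro ⟨w, hw, e⟩
      exact FGS.mem_conj_iff.mpr ⟨_, FGS.mem_conj_iff.mp hw, by simp [← e]⟩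
    · intro h
      obtain ⟨w, hw, e⟩ := FGS.mem_conj_iff.mp h
      exact ⟨g * w * g⁻¹, BG.Amb.conj_mem_conj.mpr hw, by rw [map_mul, map_mul, e, map_inv]; group⟩
  rw [← inv_smul_eq_iff] at h3
  rw [← h3]
  exact Sylow.smul_eq_iff_mem_normalizer.mpr (Subgroup.le_normalizer (inv_mem hg))

end Cfsg.Agent.S3984
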