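import Mathlib
import Cfsg.Statements.S3985
import Cfsg.Agent.FGS.TI
import Cfsg.Agent.BG.AmbHall2

set_option autoImplicit false
open scoped Pointwise
open Cfsg

namespace Cfsg.Agent.S3985

open Subgroup Cfsg.Agent.BG Cfsg.Agent.BG.Amb
open scoped Pointwise

/-- Let P be a cyclic Sylow p-subgroup of the finite group G. Then P meets each conjugate g P g⁻¹ with g outside N_G(P) trivially if and only if P is weakly self-centralizing: C_G(x) = C_G(P) for every non-identity x ∈ P. -/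
theorem result {G : Type*} [Group G] [Finite G] (p : ℕ) [Fact p.Prime] (P : Sylow p G) (hcyc : IsCyclic ↥(P : Subgroup G)) : (∀ g : G, g ∉ Subgroup.normalizer ((P : Subgroup G) : Set G) → (P : Subgroup G) ⊓ (MulAut.conj g • (P : Subgroup G)) = ⊥) ↔ ∀ x : G, x ∈ (P : Subgroup G) → x ≠ 1 → Subgroup.centralizer ({x} : Set G) = Subgroup.centralizer ((P : Subgroup G) : Set G) := by
  have hab := comm_of_cyclic hcyc
  refine ⟨fun h x hx h1 => le_antisymm (fun c hc => ?_) (cent_le_cent1 hx), fun h =>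
    FGS.ti_of_sylow_eq P fun Q x hx hx' h1 => ?_⟩
  · obtain ⟨a, b, ha, hb, rfl, -, ⟨k, hk⟩, hb'⟩ := FGS.exists_pPart p c
    have hN : ∀ d ∈ 𝐂[x], d ∈ 𝐍((P : Subgroup G)) := fun d hd =>
      Sylow.smul_eq_iff_mem_normalizer.mp (FGS.sylow_eq_of_ti P h (x := x) (mem_conj.mpr (by
        rwa [mul_assoc, ← mem_cent1.mp hd, inv_mul_cancel_left])) hx h1)
    have hbx : b ∈ 𝐂[x] := zpowers_le.mpr hc hb
    refine mul_mem (comm_le_cent hab (FGS.mem_sylow_of_mem_normalizer P hk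
      (hN a (zpowers_le.mpr hc ha)))) (zpowers_le.mp (le_cent_iff_comm_eq_bot'.mpr ?_))
    by_contra hne
    obtain ⟨n, hn⟩ := IsPGroup.iff_card.mp P.isPGroup'
    have hA : zpowers b ≤ 𝐍((P : Subgroup G)) := zpowers_le.mpr (hN b hbx)
    have h2 := coprime_abelian_comm_inf_cent hab hA
      (by rw [hn, Nat.card_zpowers]; exact (hb'.pow_right n).symm)
    have h3 : (P : Subgroup G) ⊓ 𝐂(zpowers b) ≠ ⊥ :=
      ne_bot_of_mem (mem_inf.mpr ⟨hx, by rw [cent_zpowers]; exact mem_cent1_comm.mp hbx⟩) h1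
    obtain ⟨y, hy, hy'⟩ := FGS.exists_prime_orderOf_mem Fact.out
      (Core.prime_dvd_card_of_isPGroup (P.isPGroup'.to_le (comm_le_left hA)) hne)
    obtain ⟨z, hz, hz'⟩ := FGS.exists_prime_orderOf_mem Fact.out
      (Core.prime_dvd_card_of_isPGroup (P.isPGroup'.to_le inf_le_left) h3)
    have h4 : zpowers y = zpowers z := eq_of_card_eq_of_cyclic hcyc
      (zpowers_le.mpr (comm_le_left hA hy)) (zpowers_le.mpr hz.1)
      (by rw [Nat.card_zpowers, Nat.card_zpowers, hy', hz'])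
    exact ne_bot_of_mem (mem_inf.mpr ⟨hy, zpowers_le.mpr hz.2 (h4 ▸ mem_zpowers y)⟩)
      (FGS.ne_one_of_orderOf_prime Fact.out hy') h2
  · refine Sylow.ext (Q.is_maximal' P.isPGroup' fun y hy => ?_).symm
    obtain ⟨k, hk⟩ := FGS.exists_orderOf_eq_of_mem Q.isPGroup' hy
    exact FGS.mem_sylow_of_mem_normalizer P hk (cent_le_norm _ (h x hx h1 ▸
      FGS.le_centralizer_of_comm (FGS.isMulCommutative_sylow P Q hab) hx' hy))

end Cfsg.Agent.S3985
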