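import Mathlib
import Cfsg.Statements.S3986
import Cfsg.Agent.FGS.TI

set_option autoImplicit false
open Cfsg

namespace Cfsg.Agent.S3986

/-- Let p be a prime and G a finite group. Then some Sylow p-subgroup of G is a direct factor of G (it is normal and has a normal complement) if and only if every element of p-power order commutes with every element whose order is a power of a prime other than p. -/
theorem result {G : Type*} [Group G] [Finite G] (p : ℕ) [Fact p.Prime] : (∃ (P : Sylow p G) (K : Subgroup G), (P : Subgroup G).Normal ∧ K.Normal ∧ (P : Subgroup G) ⊓ K = ⊥ ∧ (P : Subgroup G) ⊔ K = ⊤) ↔ ∀ x y : G, (∃ a : ℕ, orderOf x = p ^ a) → (∃ q b : ℕ, q.Prime ∧ q ≠ p ∧ orderOf y = q ^ b) → x * y = y * x := by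
  refine ⟨?_, FGS.exists_direct_factor_of_comm⟩
  rintro ⟨P, K, hP, hK, h1, h2⟩ x y ⟨a, ha⟩ ⟨q, b, hq, hne, hb⟩
  exact Subgroup.commute_of_normal_of_disjoint _ _ hP hK (disjoint_iff.mpr h1) x y
    (FGS.mem_sylow_of_normal P ha) (FGS.mem_of_direct_factor h2
      (hb ▸ ((Nat.coprime_primes hq Fact.out).mpr hne).pow_left b))

end Cfsg.Agent.S3986
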