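import Mathlib
import Cfsg.Statements.S3987
import Cfsg.Agent.FGS.TI

set_option autoImplicit false
open Cfsg

namespace Cfsg.Agent.S3987

open Subgroup

/-- Let p be a prime and G a finite group. Then some Sylow p-subgroup of G is a direct factor of G (normal with a normal complement) if and only if for every element x of p-power order and every element y whose order is a power of a prime other than p, the conjugacy class of x y has as many elements as the product of the sizes of the classes of x and of y. -/
theorem result {G : Type*} [Group G] [Finite G] (p : ℕ) [Fact p.Prime] : (∃ (P : Sylow p G) (K : Subgroup G), (P : Subgroup G).Normal ∧ K.Normal ∧ (P : Subgroup G) ⊓ K = ⊥ ∧ (P : Subgroup G) ⊔ K = ⊤) ↔ ∀ x y : G, (∃ a : ℕ, orderOf x = p ^ a) → (∃ q b : ℕ, q.Prime ∧ q ≠ p ∧ orderOf y = q ^ b) → (Subgroup.centralizer ({x * y} : Set G)).index = (Subgroup.centralizer ({x} : Set G)).index * (Subgroup.centralizer ({y} : Set G)).index := by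
  refine ⟨?_, fun h => FGS.exists_direct_factor_of_comm fun x y hx hy => ?_⟩
  · rintro ⟨P, K, hP, hK, h1, h2⟩ x y ⟨a, ha⟩ ⟨q, b, hq, hne, hb⟩
    have hc := commute_of_normal_of_disjoint _ _ hP hK (disjoint_iff.mpr h1)
    have hyp : (orderOf y).Coprime p := hb ▸ ((Nat.coprime_primes hq Fact.out).mpr hne).pow_left b
    have hx := FGS.mem_sylow_of_normal P ha
    have hy := FGS.mem_of_direct_factor h2 hyp
    rw [FGS.centralizer_mul_of_coprime (hc x y hx hy) (ha ▸ (hyp.pow_right a).symm),
      ← relIndex_mul_index (inf_le_right : centralizer {x} ⊓ centralizer {y} ≤ centralizer {y}),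
      inf_relIndex_right]
    congr 1
    refine le_antisymm (by rw [← relIndex_top_right]; exact relIndex_le_of_le_right le_top (by
      rw [relIndex_top_right]; exact index_ne_zero_of_finite)) ?_
    obtain ⟨n, hn⟩ := IsPGroup.iff_card.mp P.isPGroup'
    have h3 : (centralizer {x}).index ∣ p ^ n := by
      refine (index_dvd_of_le (fun k hk => mem_centralizer_singleton_iff.mpr
        (hc x k hx hk).symm : K ≤ centralizer {x})).trans ?_
      rw [← relIndex_top_right, ← h2, relIndex_sup_right, ← hn]
      exact relIndex_dvd_card _ _
    have h4 : ¬ p ∣ (centralizer {y}).index := FGS.not_dvd_index_of_sylow_le P fun g hg =>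
      mem_centralizer_singleton_iff.mpr (hc g y hg hy)
    have h5 := index_dvd_of_le (inf_le_left : centralizer {x} ⊓ centralizer {y} ≤ centralizer {x})
    rw [← relIndex_mul_index (inf_le_right : centralizer {x} ⊓ centralizer {y} ≤ centralizer {y}),
      inf_relIndex_right] at h5
    exact Nat.le_of_dvd (Nat.pos_of_ne_zero index_ne_zero_of_finite)
      (((((Fact.out : p.Prime).coprime_iff_not_dvd.mpr h4).pow_left n).coprime_dvd_left
        h3).dvd_of_dvd_mul_right h5)
  · have h1 : centralizer {x} ⊓ centralizer {y} ≤ centralizer {x * y} := fun c hc =>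
      mem_centralizer_singleton_iff.mpr (by
        rw [← mul_assoc, mem_centralizer_singleton_iff.mp hc.1, mul_assoc,
          mem_centralizer_singleton_iff.mp hc.2, mul_assoc])
    have h2 := index_inf_le.trans (h x y hx hy).ge
    rw [← relIndex_mul_index h1] at h2
    have h3 : (centralizer {x} ⊓ centralizer {y}).relIndex (centralizer {x * y}) = 1 :=
      le_antisymm (by
        have := Nat.pos_of_ne_zero (index_ne_zero_of_finite (H := centralizer {x * y}))
        nlinarith) (Nat.pos_of_ne_zero index_ne_zero_of_finite)
    have := mem_centralizer_singleton_iff.mp (relIndex_eq_one.mp h3 (FGS.self_mem_centralizer _)).2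
    exact (mul_right_cancel (this.trans (mul_assoc _ _ _).symm))

end Cfsg.Agent.S3987
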