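import Cfsg.Statements.S3999
import Cfsg.Agent.S0042
import Cfsg.Agent.Perm.FC7
import Cfsg.Agent.H2.FrobQuot
import Cfsg.Agent.Core.Hall
import Cfsg.Agent.FGS.Basic
-- import your own Cfsg.Agent.* helpers here

set_option autoImplicit false
open Cfsg

namespace Cfsg.Agent.S3999

open Subgroup
open scoped Pointwise

theorem exists_15 {B : Type*} [Group B] [Finite B] (h : Nat.card B = 15) : ∃ g : B, orderOf g = 15 := by
  have key : ∀ (p : ℕ) [Fact p.Prime], p = 3 ∨ p = 5 → ∃ (P : Sylow p B) (_ : (P : Subgroup B).Normal) (g : B),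
      g ∈ P ∧ orderOf g = p := fun p _ hp => by
    obtain ⟨g, hg⟩ := exists_prime_orderOf_dvd_card' (G := B) p (by rcases hp with rfl | rfl <;> simp [h])
    obtain ⟨P, hP⟩ := FGS.exists_sylow_mem (hg.trans (pow_one p).symm)
    have h1 := P.card_dvd_index.trans (index_dvd_card _)
    have h2 := card_sylow_modEq_one p B
    have h3 := Nat.le_of_dvd (by omega) h1
    rw [h] at h1 h3
    have : Subsingleton (Sylow p B) := (Nat.card_eq_one_iff_unique.1 (by
      generalize Nat.card (Sylow p B) = n at *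
      rcases hp with rfl | rfl <;> interval_cases n <;> simp_all (decide := true))).1
    exact ⟨P, P.normal_of_subsingleton, g, hP, hg⟩
  have : Fact (Nat.Prime 5) := ⟨Nat.prime_five⟩
  obtain ⟨P, hP, a, ha, ha'⟩ := key 3 (.inl rfl)
  obtain ⟨Q, hQ, b, hb, hb'⟩ := key 5 (.inr rfl)
  have := (commute_of_normal_of_disjoint _ _ hP hQ (IsPGroup.disjoint_of_ne 3 5 (by decide) _ _ P.2 Q.2)
    a b ha hb).orderOf_mul_eq_mul_orderOf_of_coprime (by rw [ha', hb']; decide)
  exact ⟨_, by rw [this, ha', hb']⟩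

theorem not_solvable_iff {G : Type*} [Group G] [Finite G] (hG : ∃ C : Subgroup G, IsFrobeniusComplement C) :
    ¬ Group.IsSolvable G ↔ (∃ m, Nat.card G = 15 * m ∧ Nat.Coprime 15 m) ∧ ∀ g : G, orderOf g ≠ 15 := by
  constructor
  · intro hns
    obtain ⟨H, hH⟩ := hG
    obtain ⟨K, hK, _, hn⟩ := S0042.result H hH
    have hc := H2.Frob.isComplement'_of_coe_eq hH hK
    obtain ⟨L, z, f, h⟩ := (Perm.isFC_of_frob hH).exists_nsData fun hs => hns (by
      have : Group.IsSolvable (G ⧸ K) := solvable_of_surjective (f := hc.symm.QuotientMulEquiv.symm.toMonoidHom)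
        hc.symm.QuotientMulEquiv.symm.surjective
      exact solvable_of_ker_le_range K.subtype (QuotientGroup.mk' K) (by simp))
    have h1 : Nat.Coprime 15 (Nat.card f.ker) := by
      have e := card_mul_index ((oddCore H).subgroupOf f.ker)
      rw [← e, Nat.card_congr (subgroupOfEquivOfLe (h.ker ▸ le_sup_right)).toEquiv]
      refine Nat.Coprime.mul_right (h.cop.symm.coprime_dvd_left (by decide)) (Nat.Coprime.coprime_dvd_right
        ?_ (show Nat.Coprime 15 2 by decide))
      change (oddCore H).relIndex f.ker ∣ 2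
      rw [h.ker, relIndex_sup_right, ← h.two, ← Nat.card_zpowers]
      exact relIndex_dvd_card _ _
    have h2 : ∃ m, Nat.card f.range = 15 * m ∧ Nat.Coprime 15 m := by
      rcases Perm.alt_or_top (n := 3) h.le with e | e <;> rw [e]
      · exact ⟨4, Perm.card_a5, by decide⟩
      · exact ⟨8, by rw [card_top, Nat.card_eq_fintype_card, Fintype.card_perm]; rfl, by decide⟩
    obtain ⟨m, hm, hm'⟩ := h2
    have h3 : Nat.card H = 15 * (m * Nat.card f.ker) := by
      rw [← mul_assoc, ← hm, ← index_ker, index_mul_card]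
    have h4 : Nat.Coprime 15 H.index := (H2.Frob.coprime_index hH).coprime_dvd_left (Dvd.intro _ h3.symm)
    refine ⟨⟨m * Nat.card f.ker * H.index, by rw [← mul_assoc, ← h3, card_mul_index],
      (hm'.mul_right h1).mul_right h4⟩, fun g hg => ?_⟩
    obtain ⟨c, hc⟩ := H2.Frob.exists_le_conj_of_coprime hH (U := zpowers g) (by rwa [Nat.card_zpowers, hg])
    let x : H := ⟨c⁻¹ * g * c, FGS.mem_conj_iff.1 (hc (mem_zpowers g))⟩
    have hx : orderOf x = 15 := by
      rw [← hg, ← orderOf_coe]
      simpa [x] using (MulAut.conj c⁻¹).orderOf_eq g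
    have : ∀ n, f x ^ n = 1 → 15 ∣ n := fun n hn => by
      have := f.ker.orderOf_dvd_natCard (x := x ^ n) (by rwa [MonoidHom.mem_ker, map_pow])
      rw [← hx, orderOf_dvd_iff_pow_eq_one, ← orderOf_eq_one_iff]
      exact Nat.eq_one_of_dvd_coprimes h1 (hx ▸ orderOf_pow_dvd n) this
    have h5 : ∀ σ : Equiv.Perm (Fin 5), σ ^ 4 = 1 ∨ σ ^ 5 = 1 ∨ σ ^ 6 = 1 := by decide +kernel
    rcases h5 (f x) with e | e | e <;> exact absurd (this _ e) (by decide)
  · rintro ⟨⟨m, h1, h2⟩, h3⟩ hs
    obtain ⟨B, hB⟩ := Core.exists_subgroup_card_of_coprime 15 m h1 h2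
    obtain ⟨g, hg⟩ := exists_15 hB
    exact h3 g ((orderOf_coe g).trans hg)

theorem frob {F G : Type*} [Group F] [Finite F] [Group G] [Finite G] (e : F ≃ G)
    (he : ∀ x, orderOf (e x) = orderOf x) (hF : ∃ C : Subgroup F, IsFrobeniusComplement C) :
    ∃ C : Subgroup G, IsFrobeniusComplement C := by
  obtain ⟨H, hH⟩ := hF
  obtain ⟨K, hK, _, hn⟩ := S0042.result H hH
  have hc := H2.Frob.isComplement'_of_coe_eq hH hK
  have hcop : (Nat.card H).Coprime (Nat.card K) := hc.index_eq_card ▸ H2.Frob.coprime_index hH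
  have hG : Nat.card K * Nat.card H = Nat.card G := hc.card_mul.trans (Nat.card_congr e)
  let π : Set ℕ := {p | p ∣ Nat.card K}
  have h1 : IsPiHall π (piCore π G) := ⟨Core.piCore_isPiSubgroup π, fun p hp hπ => by
    have := Fact.mk hp
    obtain ⟨P⟩ := (inferInstance : Nonempty (Sylow p G))
    obtain ⟨R⟩ := (inferInstance : Nonempty (Sylow p K))
    have hm : ∀ x : F, (∃ k, orderOf x = p ^ k) → x ∈ (R : Subgroup K).map K.subtype := by
      rintro x ⟨k, hk⟩
      have hx : x ∈ K := by
        rw [← QuotientGroup.eq_one_iff, ← orderOf_eq_one_iff]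
        refine Nat.eq_one_of_dvd_coprimes ((hcop.coprime_dvd_right hπ).pow_right k) ?_
          (hk ▸ orderOf_map_dvd (QuotientGroup.mk' K) x)
        rw [← hc.symm.index_eq_card]
        exact orderOf_dvd_natCard _
      exact ⟨⟨x, hx⟩, FGS.mem_sylow_of_normal R ((orderOf_mk _ _).trans hk), rfl⟩
    have h2 : (P : Set G) = {g | ∃ k, orderOf g = p ^ k} :=
      Set.eq_of_subset_of_ncard_le (fun g hg => FGS.exists_orderOf_eq_of_mem P.2 hg) (by
        refine (Set.ncard_le_ncard_of_injOn (t := (R : Subgroup K).map K.subtype) e.symm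
          (fun g hg => hm _ (by rwa [← he, e.apply_symm_apply])) e.symm.injective.injOn).trans ?_
        change Nat.card ((R : Subgroup K).map K.subtype) ≤ Nat.card (P : Subgroup G)
        obtain ⟨j, hj⟩ := IsPGroup.iff_card.1 R.2
        rw [card_map_of_injective K.subtype_injective, hj]
        exact Nat.le_of_dvd Nat.card_pos (P.pow_dvd_card_of_pow_dvd_card
          (hG ▸ hj ▸ (card_subgroup_dvd_card _).mul_right _)))
    have h3 : (P : Subgroup G).Normal := ⟨fun x hx g => h2.ge (by
      obtain ⟨k, hk⟩ := h2.le hx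
      exact ⟨k, ((MulAut.conj g).orderOf_eq x).trans hk⟩)⟩
    exact FGS.not_dvd_index_of_sylow_le P (Core.le_piCore h3 fun q hq hd => by
      obtain ⟨j, hj⟩ := IsPGroup.iff_card.1 P.2
      rwa [(Nat.prime_dvd_prime_iff_eq hq hp).1 (hq.dvd_of_dvd_pow (hj ▸ hd))])⟩
  obtain ⟨C, hC⟩ := exists_right_complement'_of_coprime (Core.IsPiHall.coprime_index h1 h1.1)
  have nd : ∀ {p : ℕ}, p.Prime → p ∣ Nat.card K → ¬ p ∣ Nat.card H := fun hp h h' =>
    hp.one_lt.ne' (Nat.eq_one_of_dvd_coprimes hcop h' h)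
  refine ⟨C, (H2.Frob.iff_semiregular hC (fun h => ?_) fun h => ?_).2 fun x hx hx1 => ?_⟩
  · obtain ⟨p, hp, hd⟩ := Nat.exists_prime_and_dvd
      (mt card_eq_one.1 (H2.Frob.ne_bot_of_coe_eq hH hK))
    exact h1.2 p hp hd (by rw [h, index_bot, ← hG]; exact hd.mul_right _)
  · obtain ⟨p, hp, hd⟩ := Nat.exists_prime_and_dvd (mt card_eq_one.1 hH.1)
    have := hC.card_mul
    rw [h, card_bot, mul_one, ← hG] at this
    exact nd hp (h1.1 p hp (this ▸ hd.mul_left _)) hd
  · refine eq_bot_iff.2 fun y hy => by_contra fun hy1 => ?_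
    obtain ⟨p, hp, hpy⟩ := Nat.exists_prime_and_dvd (mt orderOf_eq_one_iff.1 hy1)
    obtain ⟨q, hq, hqx⟩ := Nat.exists_prime_and_dvd (mt orderOf_eq_one_iff.1 hx1)
    have d1 := (piCore π G).orderOf_dvd_natCard hy.1
    have d2 : orderOf x ∣ (piCore π G).index := hC.symm.index_eq_card ▸ C.orderOf_dvd_natCard hx
    have := (show Commute y x from mem_centralizer_singleton_iff.1 hy.2).orderOf_mul_eq_mul_orderOf_of_coprime
      (((Core.IsPiHall.coprime_index h1 h1.1).coprime_dvd_left d1).coprime_dvd_right d2)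
    rw [← e.apply_symm_apply (y * x), he] at this
    by_cases hw : e.symm (y * x) ∈ K
    · exact h1.2 q hq ((this ▸ hqx.mul_left _).trans (K.orderOf_dvd_natCard hw)) (hqx.trans d2)
    · obtain ⟨c, hc⟩ : ∃ c, e.symm (y * x) ∈ MulAut.conj c • H := by
        by_contra! h
        exact hw (hK.ge (.inr h))
      exact nd hp (h1.1 p hp (hpy.trans d1)) ((this ▸ hpy.mul_right _).trans
        (FGS.card_conj H c ▸ (MulAut.conj c • H).orderOf_dvd_natCard hc))

/-- Let F be a finite Frobenius group (it has a Frobenius complement) and G a finite group with the same order type as F (for every m the same number of elements of order m). Then G is a Frobenius group; moreover G is solvable if and only if F is. -/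
theorem result {F G : Type*} [Group F] [Finite F] [Group G] [Finite G] (hF : (∃ C : Subgroup F, Cfsg.IsFrobeniusComplement C)) (hT : (∀ m : ℕ, Nat.card {g : F // orderOf g = m} = Nat.card {h : G // orderOf h = m})) :
    (∃ C : Subgroup G, Cfsg.IsFrobeniusComplement C) ∧ (Group.IsSolvable G ↔ Group.IsSolvable F) := by

  let e : F ≃ G := Equiv.ofFiberEquiv (f := orderOf) (g := orderOf) fun m =>
    (Finite.card_eq.1 (hT m)).some
  have he : ∀ x, orderOf (e x) = orderOf x := Equiv.ofFiberEquiv_map _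
  have hG := frob e he hF
  refine ⟨hG, not_iff_not.1 ?_⟩
  rw [not_solvable_iff hF, not_solvable_iff hG, Nat.card_congr e, e.forall_congr_right.symm]
  simp only [he]

end Cfsg.Agent.S3999
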