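import Mathlib
import Cfsg.Statements.S4009
import Cfsg.Agent.FGS.Comm
import Cfsg.Agent.Core.Coprime2
import Cfsg.Agent.Core.MinNormal
-- import your own Cfsg.Agent.* helpers here

set_option autoImplicit false
open Cfsg

namespace Cfsg.Agent.S4009

open Subgroup
open scoped commutatorElement

variable {G : Type*} [Group G]

/-- The chain `[N, G, …, G]`. -/
def ch (N : Subgroup G) : ℕ → Subgroup G
  | 0 => N
  | j + 1 => ⁅ch N j, ⊤⁆

instance ch_normal (N : Subgroup G) [N.Normal] (j : ℕ) : (ch N j).Normal := by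
  induction j with
  | zero => assumption
  | succ j ih => exact commutator_normal _ _

/-- Lower central series. -/
abbrev L (G : Type*) [Group G] (i : ℕ) : Subgroup G := (⊤ : Subgroup G).lowerCentralSeries i

theorem ch_L (N : Subgroup G) [N.Normal] (i j : ℕ) : ⁅ch N i, L G j⁆ ≤ ch N (i + j + 1) :=
  FGS.commutator_lowerCentralSeries_le (ch N) inferInstance ⊤ (fun _ => le_rfl) i j

theorem L_L (i j : ℕ) : ⁅L G i, L G j⁆ ≤ L G (i + j + 1) :=
  FGS.commutator_lowerCentralSeries_le (L G) inferInstance ⊤ (fun _ => le_rfl) i j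

theorem L_anti {i j : ℕ} (h : i ≤ j) : L G j ≤ L G i := Subgroup.lowerCentralSeries_antitone ⊤ h

theorem gen2 {N K : Subgroup G} [N.Normal] [K.Normal] (hK : K ≤ N) (h : ⁅N, N⁆ ≤ K) {a b : G}
    (e : N = zpowers a ⊔ zpowers b ⊔ K) : ⁅N, N⁆ ≤ zpowers ⁅a, b⁆ ⊔ ⁅K, N⁆ := by
  let π := QuotientGroup.mk' ⁅K, N⁆
  have h1 : ∀ k ∈ K, ∀ y ∈ N, π ⁅k, y⁆ = 1 := fun k hk y hy =>
    (QuotientGroup.eq_one_iff _).2 (commutator_mem_commutator hk hy)
  have h2 : ∀ y ∈ N, π ⁅a, y⁆ ∈ zpowers (π ⁅a, b⁆) → π ⁅b, y⁆ ∈ zpowers (π ⁅a, b⁆) →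
      ∀ x ∈ N, π ⁅x, y⁆ ∈ zpowers (π ⁅a, b⁆) := by
    intro y hy ha hb
    have h3 : ∀ x ∈ N, ∀ x' ∈ N, π ⁅x * x', y⁆ = π ⁅x', y⁆ * π ⁅x, y⁆ := fun x hx x' hx' => by
      have h4 := h1 _ (h (commutator_mem_commutator hx' hy)) x hx
      rw [map_commutatorElement, commutatorElement_eq_one_iff_mul_comm] at h4
      rw [show ⁅x * x', y⁆ = x * ⁅x', y⁆ * x⁻¹ * ⁅x, y⁆ by group, map_mul, map_mul, map_mul,
        ← h4, map_inv, mul_inv_cancel_right]
    let S : Subgroup G :=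
      { carrier := {x | x ∈ N ∧ π ⁅x, y⁆ ∈ zpowers (π ⁅a, b⁆)}
        one_mem' := ⟨one_mem _, by simp⟩
        mul_mem' := fun {x x'} hx hx' => ⟨mul_mem hx.1 hx'.1, by
          rw [h3 x hx.1 x' hx'.1]; exact mul_mem hx'.2 hx.2⟩
        inv_mem' := fun {x} hx => ⟨inv_mem hx.1, by
          have := h3 x hx.1 _ (inv_mem hx.1)
          rw [mul_inv_cancel, commutatorElement_one_left, map_one, eq_comm,
            mul_eq_one_iff_eq_inv] at this
          rw [this]
          exact inv_mem hx.2⟩ }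
    have h4 : N ≤ S := e.le.trans (sup_le (sup_le (zpowers_le.2 ⟨e.ge (mem_sup_left
      (mem_sup_left (mem_zpowers a))), ha⟩) (zpowers_le.2 ⟨e.ge (mem_sup_left
      (mem_sup_right (mem_zpowers b))), hb⟩)) fun k hk => ⟨hK hk, by
        rw [h1 k hk y hy]; exact one_mem _⟩)
    exact fun x hx => (h4 hx).2
  have ha : a ∈ N := e.ge (mem_sup_left (mem_sup_left (mem_zpowers a)))
  have hb : b ∈ N := e.ge (mem_sup_left (mem_sup_right (mem_zpowers b)))
  have sy : ∀ x y, π ⁅x, y⁆ ∈ zpowers (π ⁅a, b⁆) → π ⁅y, x⁆ ∈ zpowers (π ⁅a, b⁆) := fun x y h => by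
    rw [← commutatorElement_inv x y, map_inv]
    exact inv_mem h
  refine commutator_le.2 fun x hx y hy => ?_
  have h3 := h2 y hy (sy _ _ (h2 a ha (by simp) (sy _ _ (mem_zpowers _)) y hy))
    (sy _ _ (h2 b hb (mem_zpowers _) (by simp) y hy)) x hx
  rw [← MonoidHom.map_zpowers] at h3
  have := (comap_map_eq π (zpowers ⁅a, b⁆)).le h3
  rwa [QuotientGroup.ker_mk'] at this

variable [Finite G] {p : ℕ} [hp : Fact p.Prime]

theorem card_lt (hG : IsPGroup p G) {H K : Subgroup G} (h : H < K) : p * Nat.card H ≤ Nat.card K := by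
  obtain ⟨m, hm⟩ := IsPGroup.iff_card.1 (hG.to_subgroup H)
  obtain ⟨n, hn⟩ := IsPGroup.iff_card.1 (hG.to_subgroup K)
  have : Nat.card H < Nat.card K := lt_of_le_of_ne (card_le_of_le h.le) fun e =>
    h.ne (eq_of_le_of_card_ge h.le e.ge)
  rw [hm, hn] at this ⊢
  rw [← pow_succ']
  exact Nat.pow_le_pow_right hp.out.pos ((Nat.pow_lt_pow_iff_right hp.out.one_lt).1 this)

theorem ch_lt (hG : IsPGroup p G) {N : Subgroup G} [N.Normal] (h : N ≠ ⊥) : ⁅N, ⊤⁆ < N :=
  Core.commutator_lt_of_isPGroup (hG.to_subgroup _) (hG.to_subgroup _)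
    (by rw [normalizer_eq_top]) h

theorem card_ch (hG : IsPGroup p G) (N : Subgroup G) [N.Normal] (i j : ℕ) (h : ch N (i + j) ≠ ⊥) :
    p ^ j * Nat.card (ch N (i + j)) ≤ Nat.card (ch N i) := by
  induction j with
  | zero => simp
  | succ j ih =>
    have h1 : ch N (i + j) ≠ ⊥ := fun h1 => h (by
      change ⁅ch N (i + j), ⊤⁆ = ⊥
      rw [h1, commutator_bot_left])
    refine le_trans ?_ (ih h1)
    rw [pow_succ, mul_assoc]
    exact Nat.mul_le_mul_left _ (card_lt hG (ch_lt hG h1))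

theorem key (hG : IsPGroup p G) {N : Subgroup G} [N.Normal] {i : ℕ} (hN : N ≤ L G i)
    (h : ⁅N, N⁆ ≠ ⊥) : p ^ (i + 2) * Nat.card (⁅N, N⁆ : Subgroup G) ≤ Nat.card N ∧
      (p ^ (i + 3) * Nat.card (⁅N, N⁆ : Subgroup G) ≤ Nat.card N ∨
        ⁅⁅N, N⁆, ⁅N, N⁆⁆ ≤ L G (4 * i + 4)) := by
  have h0 : N ≠ ⊥ := fun e => h (by rw [e, commutator_bot_left])
  have h1 : ch N 1 < N := ch_lt hG h0
  have h2 : ⁅N, N⁆ ≤ ch N 1 := commutator_mono le_rfl le_top
  have h3 : ⁅ch N 1, N⁆ ≤ ch N (i + 2) := (commutator_mono le_rfl hN).trans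
    ((ch_L N 1 i).trans_eq (by congr 1; omega))
  obtain ⟨a, ha, ha'⟩ := SetLike.exists_of_lt h1
  by_cases h4 : N = zpowers a ⊔ zpowers a ⊔ ch N 1
  · have h5 := gen2 h1.le h2 h4
    rw [commutatorElement_self, zpowers_one_eq_bot, bot_sup_eq] at h5
    have h6 := card_ch hG N 0 (i + 2) (by
      rw [zero_add]; exact fun e => h (eq_bot_iff.2 (h5.trans (h3.trans e.le))))
    rw [zero_add] at h6
    refine ⟨le_trans (Nat.mul_le_mul_left _ (card_le_of_le (h5.trans h3))) h6, Or.inr ?_⟩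
    have h8 : ch N 1 ≤ L G (i + 1) := commutator_mono hN le_rfl
    have h7 : ⁅N, N⁆ ≤ L G (2 * i + 2) := h5.trans ((commutator_mono h8 hN).trans
        ((L_L (i + 1) i).trans (L_anti (by omega))))
    exact (commutator_mono h7 h7).trans ((L_L (2 * i + 2) (2 * i + 2)).trans
      (L_anti (by omega)))
  rw [sup_idem] at h4
  have h5 : zpowers a ⊔ ch N 1 < N := lt_of_le_of_ne (sup_le (zpowers_le.2 ha) h1.le) (Ne.symm h4)
  have h6 : ch N 1 < zpowers a ⊔ ch N 1 := lt_of_le_of_ne le_sup_right fun e =>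
    ha' (e.ge (mem_sup_left (mem_zpowers a)))
  have h7 : ⁅N, N⁆ ≤ ch N (1 + i) := (commutator_mono le_rfl hN).trans
    ((ch_L N 0 i).trans_eq (by congr 1; omega))
  have h8 := card_ch hG N 1 i fun e => h (eq_bot_iff.2 (h7.trans e.le))
  have c1 := card_lt hG h5
  have c2 := card_lt hG h6
  have c3 := card_le_of_le h7
  have e2 : ∀ x, p ^ (i + 2) * x = p * (p * (p ^ i * x)) := fun x => by ring
  have e3 : ∀ x, p ^ (i + 3) * x = p * (p * (p ^ i * (p * x))) := fun x => by ring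
  refine ⟨?_, ?_⟩
  · rw [e2]
    exact (Nat.mul_le_mul_left _ ((Nat.mul_le_mul_left _ ((Nat.mul_le_mul_left _ c3).trans h8)).trans
      c2)).trans c1
  by_cases h9 : ⁅N, N⁆ = ch N (1 + i)
  swap
  · left
    rw [e3]
    exact (Nat.mul_le_mul_left _ ((Nat.mul_le_mul_left _ ((Nat.mul_le_mul_left _
      (card_lt hG (lt_of_le_of_ne h7 h9))).trans h8)).trans c2)).trans c1
  obtain ⟨b, hb, hb'⟩ := SetLike.exists_of_lt h5
  by_cases h10 : N = zpowers a ⊔ zpowers b ⊔ ch N 1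
  · right
    have h11 := gen2 h1.le h2 h10
    have h12 : ch N (i + 2) = ⁅⁅N, N⁆, ⊤⁆ := by rw [h9, add_comm 1]; rfl
    have h13 : ⁅⁅N, N⁆, ⊤⁆ ≤ ⁅N, N⁆ := commutator_le_left _ _
    have h14 := gen2 (a := ⁅a, b⁆) (b := ⁅a, b⁆) h13 (commutator_mono le_rfl le_top) (by
      rw [sup_idem]
      exact le_antisymm (h11.trans (sup_le_sup_left (h3.trans h12.le) _))
        (sup_le (zpowers_le.2 (commutator_mem_commutator ha hb)) h13))
    rw [commutatorElement_self, zpowers_one_eq_bot, bot_sup_eq] at h14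
    have h15 : ⁅N, N⁆ ≤ L G (2 * i + 1) := (commutator_mono hN hN).trans
      ((L_L i i).trans (L_anti (by omega)))
    have h16 : ⁅⁅N, N⁆, ⊤⁆ ≤ L G (2 * i + 1 + 1) := commutator_mono h15 le_rfl
    exact h14.trans ((commutator_mono h16 h15).trans
      ((L_L (2 * i + 1 + 1) (2 * i + 1)).trans (L_anti (by omega))))
  · left
    have h11 : zpowers a ⊔ zpowers b ⊔ ch N 1 < N := lt_of_le_of_ne
      (sup_le (sup_le (zpowers_le.2 ha) (zpowers_le.2 hb)) h1.le) (Ne.symm h10)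
    have h12 : zpowers a ⊔ ch N 1 < zpowers a ⊔ zpowers b ⊔ ch N 1 := lt_of_le_of_ne
      (sup_le_sup_right le_sup_left _) fun e =>
        hb' (e.ge (mem_sup_left (mem_sup_right (mem_zpowers b))))
    rw [show p ^ (i + 3) * Nat.card (⁅N, N⁆ : Subgroup G) =
      p * (p * (p * (p ^ i * Nat.card (⁅N, N⁆ : Subgroup G)))) by ring]
    exact (Nat.mul_le_mul_left _ ((Nat.mul_le_mul_left _ ((Nat.mul_le_mul_left _
      ((Nat.mul_le_mul_left _ c3).trans h8)).trans c2)).trans (card_lt hG h12))).trans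
      (card_lt hG h11)

theorem der_le (j : ℕ) : derivedSeries G j ≤ L G (2 ^ j - 1) := by
  induction j with
  | zero => exact le_top
  | succ j ih =>
    have : 0 < 2 ^ j := by positivity
    exact (commutator_mono ih ih).trans ((L_L _ _).trans_eq (by congr 1; rw [pow_succ]; omega))

theorem main (hG : IsPGroup p G) (j : ℕ) (h : derivedSeries G j ≠ ⊥) :
    p ^ (2 ^ j - 1 + 2 * j) * Nat.card (derivedSeries G j) ≤ Nat.card G ∨
    (p ^ (2 ^ j - 1 + 2 * j) * Nat.card (derivedSeries G j) ≤ p * Nat.card G ∧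
      derivedSeries G (j + 1) ≤ L G (2 ^ (j + 1))) ∨
    (p ^ (2 ^ j - 1 + 2 * j) * Nat.card (derivedSeries G j) ≤ p * (p * Nat.card G) ∧
      derivedSeries G j ≤ L G (2 ^ j)) := by
  induction j with
  | zero => left; simp
  | succ j ih =>
    have h0 : 0 < 2 ^ j := by positivity
    have h1 : derivedSeries G j ≠ ⊥ := fun e => h (by rw [derivedSeries_succ, e, commutator_bot_left])
    obtain ⟨k1, k2⟩ := key hG (der_le j) h
    have e1 : ∀ x, p ^ (2 ^ (j + 1) - 1 + 2 * (j + 1)) * x =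
        p ^ (2 ^ j - 1 + 2 * j) * (p ^ (2 ^ j - 1 + 3) * x) := fun x => by
      rw [← mul_assoc, ← pow_add]
      congr 2
      rw [pow_succ]
      omega
    have e2 : ∀ x, p ^ (2 ^ (j + 1) - 1 + 2 * (j + 1)) * x =
        p * (p ^ (2 ^ j - 1 + 2 * j) * (p ^ (2 ^ j - 1 + 2) * x)) := fun x => by
      rw [e1]; ring
    rcases ih h1 with h2 | ⟨h2, h3⟩ | ⟨h2, h3⟩
    · rcases k2 with k2 | k2
      · left
        rw [e1]
        exact (Nat.mul_le_mul_left _ k2).trans h2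
      · right; left
        rw [e2]
        refine ⟨Nat.mul_le_mul_left _ ((Nat.mul_le_mul_left _ k1).trans h2), k2.trans_eq ?_⟩
        congr 1
        rw [pow_succ, pow_succ]
        omega
    · right; right
      rw [e2]
      exact ⟨Nat.mul_le_mul_left _ ((Nat.mul_le_mul_left _ k1).trans h2), h3⟩
    · right; right
      have k3 := (key hG h3 h).1
      rw [e1, show 2 ^ j - 1 + 3 = 2 ^ j + 2 by omega]
      refine ⟨(Nat.mul_le_mul_left _ k3).trans h2, (commutator_mono h3 h3).trans ((L_L _ _).trans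
        (L_anti (by rw [pow_succ]; omega)))⟩

/-- Let P be a finite p-group of order p^n whose derived length is exactly k + 1 (the k-th derived subgroup is nontrivial and the (k+1)-st is trivial). Then n ≥ 2^k + 2k − 2. -/
theorem result {P : Type*} [Group P] [Finite P] (p : ℕ) [Fact p.Prime] (n k : ℕ) (hcard : Nat.card P = p ^ n) (hk : derivedSeries P k ≠ ⊥) (hk' : derivedSeries P (k + 1) = ⊥) : 2 ^ k + 2 * k ≤ n + 2 := by
  have hp : p.Prime := Fact.out
  have hG : IsPGroup p P := IsPGroup.of_card hcard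
  have h1 := card_lt hG (bot_lt_iff_ne_bot.2 hk)
  rw [Subgroup.card_bot, mul_one] at h1
  have h2 : p ^ (2 ^ k - 1 + 2 * k) * Nat.card (derivedSeries P k) ≤ p * (p * Nat.card P) := by
    rcases main hG k hk with h | h | h
    · exact h.trans ((Nat.le_mul_of_pos_left _ hp.pos).trans (Nat.le_mul_of_pos_left _ hp.pos))
    · exact h.1.trans (Nat.le_mul_of_pos_left _ hp.pos)
    · exact h.1
  have h3 := (Nat.mul_le_mul_left _ h1).trans h2
  rw [hcard, ← pow_succ, ← pow_succ', ← pow_succ'] at h3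
  have h4 := (Nat.pow_le_pow_iff_right hp.one_lt).1 h3
  have : 0 < 2 ^ k := by positivity
  omega

end Cfsg.Agent.S4009
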