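import Mathlib
import Cfsg.Statements.S4010
import Cfsg.Agent.LinP.Basic

set_option autoImplicit false
open Cfsg

namespace Cfsg.Agent.S4010

open Cfsg.Agent.LinP

/-- Let F be a field, n ≥ 1, and P a finite p-group (p a prime) admitting an injective homomorphism into the general linear group of degree n over F. Then the derived length of P is at most ⌊log₂ n⌋ + 1: that term of the derived series of P is trivial. -/
theorem result {P : Type*} [Group P] [Finite P] (p : ℕ) [Fact p.Prime] (hP : IsPGroup p P) (F : Type*) [Field F] (n : ℕ) (hn : 1 ≤ n) (ρ : P →* Matrix.GeneralLinearGroup (Fin n) F) (hρ : Function.Injective ρ) : derivedSeries P (Nat.log 2 n + 1) = ⊥ := by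
  let L := AlgebraicClosure F
  have hσ := matRep_injective (algebraMap F L) hρ
  have h1 := Nat.lt_pow_succ_log_self (by norm_num : 1 < 2) n
  refine eq_bot_iff.2 fun g hg => hσ (Eq.trans ?_ (map_one _).symm)
  by_cases h : (p : L) = 0
  · have := (CharP.charP_iff_prime_eq_zero (R := L) Fact.out).2 h
    exact derived_le_ker_charP hP _ (by simpa using h1.le) g hg
  · exact derived_le_ker h _ n P hP _ _ (by simp)
      (h1.trans_le (Nat.pow_le_pow_left (Fact.out : p.Prime).two_le _)) g hg

end Cfsg.Agent.S4010
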