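import Mathlib
import Cfsg.Statements.S4015
import Cfsg.Agent.LinP.Basic

set_option autoImplicit false
open Cfsg

namespace Cfsg.Agent.S4015

open Cfsg.Agent.LinP

/-- Let p be an odd prime, F a finite field with q elements where p does not divide q, and e the multiplicative order of q modulo p. Let n ≥ e and write w = ⌊n/e⌋ and k = ⌊log_p w⌋. Then a Sylow p-subgroup of GL(n, F) has derived length exactly k + 1: its (k+1)-st derived subgroup is trivial and its k-th is not. -/
theorem result (p : ℕ) [Fact p.Prime] (hp : p ≠ 2) (F : Type*) [Field F] [Fintype F] (q : ℕ) (hq : Fintype.card F = q) (hpq : ¬ p ∣ q) (n : ℕ) (hn : orderOf (q : ZMod p) ≤ n) (P : Sylow p (Matrix.GeneralLinearGroup (Fin n) F)) : derivedSeries ↥(P : Subgroup (Matrix.GeneralLinearGroup (Fin n) F)) (Nat.log p (n / orderOf (q : ZMod p)) + 1) = ⊥ ∧ derivedSeries ↥(P : Subgroup (Matrix.GeneralLinearGroup (Fin n) F)) (Nat.log p (n / orderOf (q : ZMod p))) ≠ ⊥ := by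
  have hpp : p.Prime := Fact.out
  refine ⟨derived_eq_bot_cross hq hpq P.isPGroup' (Subgroup.subtype_injective _)
    (Nat.lt_pow_succ_log_self hpp.one_lt _), fun h => ?_⟩
  have hq0 : (q : ZMod p) ≠ 0 := by rwa [Ne, ZMod.natCast_eq_zero_iff]
  have he : 0 < orderOf (q : ZMod p) := (isOfFinOrder_iff_pow_eq_one.2 ⟨p - 1,
    Nat.sub_pos_of_lt hpp.one_lt, ZMod.pow_card_sub_one_eq_one hq0⟩).orderOf_pos
  have h1 := pow_orderOf_eq_one (q : ZMod p)
  generalize orderOf (q : ZMod p) = e at *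
  obtain ⟨g, hg⟩ := exists_prime_orderOf_dvd_card' (G := GL (Fin e) F) p (by
    rw [Matrix.card_GL_field, hq]
    refine Dvd.dvd.trans ?_ (Finset.dvd_prod_of_mem _ (Finset.mem_univ ⟨0, he⟩))
    rw [← ZMod.natCast_eq_zero_iff, Nat.cast_sub (Nat.pow_le_pow_right
      (hq ▸ Fintype.card_pos) he.le)]
    simp [h1])
  obtain ⟨W, _, _, V, _, _, _, σ, hW, hσ, hd, hj⟩ := exists_wreath hg (Nat.log p (n / e))
  obtain ⟨ρ, hρ⟩ := exists_GL_of_rep (n := n) σ hσ (by
    rw [hd, mul_comm]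
    exact (Nat.le_div_iff_mul_le he).1 (Nat.pow_log_le_self p (Nat.div_pos hn he).ne'))
  obtain ⟨Q, hQ⟩ := (hW.of_surjective _ ρ.rangeRestrict_surjective).exists_le_sylow
  obtain ⟨c, rfl⟩ := MulAction.exists_smul_eq (GL (Fin n) F) P Q
  let f : W →* P := (P.equivSMul c).symm.toMonoidHom.comp (ρ.codRestrict _ fun w => hQ ⟨w, rfl⟩)
  have hf : Function.Injective f := (P.equivSMul c).symm.injective.comp fun a b hab =>
    hρ (congrArg Subtype.val hab)
  have h2 := map_derivedSeries_le_derivedSeries f (Nat.log p (n / e))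
  exact hj ((Subgroup.map_eq_bot_iff_of_injective _ hf).1 (le_bot_iff.1 (h2.trans h.le)))

end Cfsg.Agent.S4015
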