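import Mathlib
import Cfsg.Statements.S4028
import Cfsg.Agent.FGS.Basic
import Cfsg.Agent.PGrp.Aut
-- import your own Cfsg.Agent.* helpers here

set_option autoImplicit false
open Cfsg

namespace Cfsg.Agent.S4028

/-- Let G be a finite group with Sylow 2-subgroup P. Then N_G(⟨x⟩) = C_G(x) holds for every 2-element x of G if and only if N_P(⟨y⟩) = C_P(y) holds for every y ∈ P (computed inside P). -/
theorem result {G : Type*} [Group G] [Finite G] (P : Sylow 2 G) :
    (∀ x : G, (∀ r : ℕ, r.Prime → r ∣ orderOf x → r = 2) →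
      Subgroup.normalizer ((Subgroup.zpowers x : Subgroup G) : Set G) ≤ Subgroup.centralizer {x}) ↔
    (∀ y : ↥(P : Subgroup G), Subgroup.normalizer ((Subgroup.zpowers y : Subgroup ↥(P : Subgroup G)) : Set ↥(P : Subgroup G)) ≤
        Subgroup.centralizer {y}) := by
  haveI := Fact.mk Nat.prime_two
  have hz : ∀ {x g : G}, g ∈ Subgroup.normalizer ((Subgroup.zpowers x : Subgroup G) : Set G) ↔
      g * x * g⁻¹ ∈ Subgroup.zpowers x := fun {x g} =>
    ⟨fun h => (Subgroup.mem_normalizer_iff.1 h x).1 (Subgroup.mem_zpowers x), fun h =>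
      Subgroup.mem_normalizer_fintype (by
        rintro _ ⟨k, rfl⟩
        simp only [← conj_zpow]
        exact Subgroup.zpow_mem _ h k)⟩
  constructor
  · intro h y g hg
    obtain ⟨k, hk⟩ := (Subgroup.mem_normalizer_iff.1 hg y).1 (Subgroup.mem_zpowers y)
    obtain ⟨n, hn⟩ := FGS.exists_orderOf_eq_of_mem P.2 y.2
    have := h y (fun r hr hd => (Nat.prime_dvd_prime_iff_eq hr Nat.prime_two).1
      (hr.dvd_of_dvd_pow (hn ▸ hd))) (hz.2 ⟨k, congrArg Subtype.val hk⟩)
    rw [Subgroup.mem_centralizer_singleton_iff] at this ⊢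
    exact Subtype.ext this
  · intro h x hx g hg
    have hx2 : IsPGroup 2 (Subgroup.zpowers x) := by
      refine IsPGroup.of_card (n := (orderOf x).primeFactorsList.length) ?_
      rw [Nat.card_zpowers]
      exact Nat.eq_prime_pow_of_unique_prime_dvd (orderOf_pos x).ne' fun hr hd => hx _ hr hd
    obtain ⟨a, b, ha, hb, rfl, -, ⟨k, hk⟩, hb'⟩ := FGS.exists_pPart 2 g
    have ha' := (Subgroup.zpowers_le.2 hg) ha
    have hb'' := (Subgroup.zpowers_le.2 hg) hb
    refine Subgroup.mul_mem _ ?_ ?_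
    · have h1 : IsPGroup 2 (Subgroup.zpowers a ⊔ Subgroup.zpowers x : Subgroup G) :=
        (FGS.isPGroup_zpowers hk).to_sup_of_normal_right' hx2 (Subgroup.zpowers_le.2 ha')
      obtain ⟨Q, hQ⟩ := h1.exists_le_sylow
      obtain ⟨c, rfl⟩ := MulAction.exists_smul_eq G P Q
      have mem : ∀ y ∈ Subgroup.zpowers a ⊔ Subgroup.zpowers x, c⁻¹ * y * c ∈ (P : Subgroup G) :=
        fun y hy => FGS.mem_conj_iff.1 (hQ hy)
      have m1 := mem a (Subgroup.mem_sup_left (Subgroup.mem_zpowers a))
      have m2 := mem x (Subgroup.mem_sup_right (Subgroup.mem_zpowers x))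
      obtain ⟨j, hj⟩ := hz.1 ha'
      have := h ⟨_, m2⟩ (x := ⟨_, m1⟩) (Subgroup.mem_normalizer_fintype (by
        rintro _ ⟨i, rfl⟩
        simp only [← conj_zpow]
        refine Subgroup.zpow_mem _ (Subgroup.mem_zpowers_iff.2 ⟨j, Subtype.ext ?_⟩) i
        have : c⁻¹ * x * c = c⁻¹ * x * c⁻¹⁻¹ := by rw [inv_inv]
        simp only [SubgroupClass.coe_zpow, Subgroup.coe_mul, InvMemClass.coe_inv]
        rw [this, conj_zpow, show x ^ j = _ from hj]
        group))
      rw [Subgroup.mem_centralizer_singleton_iff] at this ⊢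
      have e := congrArg (fun z : (P : Subgroup G) => c * (z : G) * c⁻¹) this
      simpa [mul_assoc] using e
    · have hA : Subgroup.zpowers b ≤ Subgroup.normalizer ((Subgroup.zpowers x : Subgroup G) : Set G) :=
        Subgroup.zpowers_le.2 hb''
      obtain ⟨n, hn⟩ := IsPGroup.iff_card.1 hx2
      have h1 := PGrp.orderOf_actHom_dvd hA ⟨b, Subgroup.mem_zpowers b⟩
      have h2 := orderOf_dvd_natCard (PGrp.actHom hA ⟨b, Subgroup.mem_zpowers b⟩)
      rw [IsCyclic.card_mulAut, hn] at h2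
      have h3 : Nat.totient (2 ^ n) ∣ 2 ^ n := by
        obtain _ | n := n
        · simp
        · rw [Nat.totient_prime_pow_succ Nat.prime_two]; simp [pow_succ]
      have h4 := Nat.Coprime.eq_one_of_dvd ((hb'.coprime_dvd_left h1).pow_right n) (h2.trans h3)
      rw [orderOf_eq_one_iff, PGrp.actHom_eq_one_iff, PGrp.centralizer_zpowers] at h4
      exact h4

end Cfsg.Agent.S4028
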