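import Mathlib
import Cfsg.Statements.S4029
import Cfsg.Agent.S0160
import Cfsg.Agent.PGrp.Frattini
import Cfsg.Agent.Inv.Dihedral
-- import your own Cfsg.Agent.* helpers here

set_option autoImplicit false
open Cfsg

namespace Cfsg.Agent.S4029

/-- Let P be a finite 2-group in which N_P(⟨y⟩) = C_P(y) for every y ∈ P. If s is the number of conjugacy classes of involutions of P, then #(P/Φ(P)) ≤ s + 1; in particular the subgroup generated by the involutions of P has order at least #(P/Φ(P)). -/
theorem result {P : Type*} [Group P] [Finite P] (hP : IsPGroup 2 P)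
    (hirr : ∀ y : P, Subgroup.normalizer ((Subgroup.zpowers y : Subgroup P) : Set P) ≤ Subgroup.centralizer {y}) :
    Nat.card (P ⧸ frattini P) ≤ Nat.card {c : ConjClasses P // ∃ y : P, ConjClasses.mk y = c ∧ orderOf y = 2} + 1 ∧
    Nat.card (P ⧸ frattini P) ≤ Nat.card (Subgroup.closure {y : P | orderOf y = 2}) := by
  open Subgroup in
  have h1 : Nat.card (P ⧸ frattini P) ≤
      Nat.card {c : ConjClasses P // ∃ y : P, ConjClasses.mk y = c ∧ orderOf y = 2} + 1 := by
    letI : CommGroup (P ⧸ frattini P) := { (inferInstance : Group (P ⧸ frattini P)) with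
      mul_comm := fun a b => by
        obtain ⟨a, rfl⟩ := QuotientGroup.mk_surjective a
        obtain ⟨b, rfl⟩ := QuotientGroup.mk_surjective b
        rw [← QuotientGroup.mk_mul, ← QuotientGroup.mk_mul, QuotientGroup.eq]
        simpa [commutatorElement_def, mul_assoc] using
          PGrp.commutatorElement_mem_frattini hP b⁻¹ a⁻¹ }
    haveI : NeZero (Monoid.exponent (P ⧸ frattini P)) := ⟨Monoid.exponent_ne_zero_of_finite⟩
    rw [← CommGroup.card_monoidHom_of_hasEnoughRootsOfUnity (P ⧸ frattini P) ℂ]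
    have h2 : Nat.card ((P ⧸ frattini P) →* ℂˣ) ≤
        Nat.card {χ : Cfsg.IrrCharacter P // ∀ g : P, ((χ : P → ℂ) g).im = 0} := by
      haveI := Fintype.ofFinite P
      refine Nat.card_le_card_of_injective (fun l => ⟨⟨_, Char.isIrr_linear
        (l.comp (QuotientGroup.mk' _))⟩, fun g => ?_⟩) fun l m h => ?_
      · have : ((l (g : P ⧸ frattini P) : ℂˣ) : ℂ) ^ 2 = 1 := by
          rw [← Units.val_pow_eq_pow_val, ← map_pow, ← QuotientGroup.mk_pow,
            (QuotientGroup.eq_one_iff _).2 (PGrp.pow_mem_frattini hP g), map_one, Units.val_one]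
        show ((l (g : P ⧸ frattini P) : ℂˣ) : ℂ).im = 0
        rcases sq_eq_one_iff.1 this with h | h <;> rw [h] <;> simp
      · ext g
        exact congrFun (congrArg (fun χ => χ.1.1) h) g
    refine h2.trans ?_
    rw [S0160.result]
    refine le_trans (Set.ncard_le_ncard (s := {C : ConjClasses P | _}) (t := insert (ConjClasses.mk 1)
      {c : ConjClasses P | ∃ y : P, ConjClasses.mk y = c ∧ orderOf y = 2}) fun C hC => ?_)
      (Set.ncard_insert_le _ _)
    obtain ⟨g, rfl⟩ := ConjClasses.mk_surjective C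
    obtain ⟨c, hc⟩ := isConj_iff.1 (hC g rfl)
    have := mem_centralizer_singleton_iff.1 (hirr g (mem_normalizer_fintype (x := c) (by
      rintro _ ⟨k, rfl⟩
      simp only
      rw [← conj_zpow, hc]
      exact zpow_mem (inv_mem (mem_zpowers g)) k)))
    rw [this, mul_inv_cancel_right] at hc
    by_cases h : g = 1
    · exact Or.inl (by rw [h])
    · exact Or.inr ⟨g, rfl, Inv.two_of_mul_self h (by nth_rewrite 1 [hc]; exact inv_mul_cancel g)⟩
  refine ⟨h1, h1.trans ?_⟩
  have h2 : {c : ConjClasses P | ∃ y : P, ConjClasses.mk y = c ∧ orderOf y = 2}.ncard ≤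
      {y : P | orderOf y = 2}.ncard :=
    le_trans (Set.ncard_le_ncard (t := ConjClasses.mk '' {y : P | orderOf y = 2})
      fun c ⟨y, h, h'⟩ => ⟨y, h', h⟩) Set.ncard_image_le
  refine le_trans (Nat.add_le_add_right h2 1) ?_
  rw [← Set.ncard_insert_of_notMem (a := 1) (by simp)]
  refine Set.ncard_le_ncard (t := (closure {y : P | orderOf y = 2} : Set P)) ?_
  rintro y (rfl | hy)
  · exact one_mem _
  · exact subset_closure hy

end Cfsg.Agent.S4029
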