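import Mathlib
import Cfsg.Statements.S4032
import Cfsg.Agent.FGS.Basic
import Cfsg.Agent.Core.Coprime
-- import your own Cfsg.Agent.* helpers here

set_option autoImplicit false
open Cfsg

namespace Cfsg.Agent.S4032

/-- Let π be a set of primes and G a finite group in which N_G(⟨x⟩) = C_G(x) for every π-element x. If N is a normal subgroup of G whose order is divisible by no prime of π, then G/N has the same property: N_{G/N}(⟨y⟩) = C_{G/N}(y) for every π-element y of G/N. -/
theorem result {G : Type*} [Group G] [Finite G] (π : Set ℕ)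
    (hirr : ∀ x : G, (∀ r : ℕ, r.Prime → r ∣ orderOf x → r ∈ π) →
      Subgroup.normalizer ((Subgroup.zpowers x : Subgroup G) : Set G) ≤ Subgroup.centralizer {x})
    (N : Subgroup G) [N.Normal] (hN : ∀ r : ℕ, r.Prime → r ∣ Nat.card N → r ∉ π) :
    ∀ y : G ⧸ N, (∀ r : ℕ, r.Prime → r ∣ orderOf y → r ∈ π) →
      Subgroup.normalizer ((Subgroup.zpowers y : Subgroup (G ⧸ N)) : Set (G ⧸ N)) ≤ Subgroup.centralizer {y} := by
  intro y hy g hg
  obtain ⟨x₀, rfl⟩ := QuotientGroup.mk_surjective y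
  have h1 : x₀ ^ (orderOf (x₀ : G ⧸ N) * Nat.card N) = 1 := by
    have : x₀ ^ orderOf (x₀ : G ⧸ N) ∈ N := by
      rw [← QuotientGroup.eq_one_iff, QuotientGroup.mk_pow, pow_orderOf_eq_one]
    rw [pow_mul]
    exact congrArg Subtype.val (pow_card_eq_one' (x := (⟨_, this⟩ : N)))
  have hcop : (orderOf (x₀ : G ⧸ N)).Coprime (Nat.card N) :=
    Nat.coprime_of_dvd fun r hr h h' => hN r hr h' (hy r hr h)
  obtain ⟨x, b, -, hb, e, -, hx, hb'⟩ := FGS.exists_parts hcop h1
  have hbN : (b : G ⧸ N) = 1 := by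
    obtain ⟨k, rfl⟩ := hb
    rw [← orderOf_eq_one_iff]
    refine Nat.eq_one_of_dvd_coprimes hcop ?_ (orderOf_dvd_of_pow_eq_one ?_)
    · simp only [QuotientGroup.mk_zpow]
      exact orderOf_dvd_of_mem_zpowers (Subgroup.zpow_mem_zpowers _ _)
    · rw [← QuotientGroup.mk_pow, hb', QuotientGroup.mk_one]
  have e' : (x₀ : G ⧸ N) = x := by rw [e, QuotientGroup.mk_mul, hbN, mul_one]
  have hd := orderOf_dvd_of_pow_eq_one hx
  have h2 := Core.normalizer_map_mk' (Subgroup.zpowers x) N
    (by rw [Nat.card_zpowers]; exact hcop.coprime_dvd_left hd) (Or.inl inferInstance)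
  rw [MonoidHom.map_zpowers, QuotientGroup.mk'_apply, ← e'] at h2
  rw [h2] at hg
  obtain ⟨c, hc, rfl⟩ := hg
  have := hirr x (fun r hr h => hy r hr (h.trans hd)) hc
  rw [Subgroup.mem_centralizer_singleton_iff] at this ⊢
  rw [e', QuotientGroup.mk'_apply, ← QuotientGroup.mk_mul, this, QuotientGroup.mk_mul]

end Cfsg.Agent.S4032
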