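import Mathlib
import Cfsg.Statements.S4038
import Cfsg.Agent.FGS.NilMax
import Cfsg.Agent.FGS.Semi
import Cfsg.Agent.FGS.FT

set_option autoImplicit false
open Cfsg

namespace Cfsg.Agent.S4038

open Subgroup SemidirectProduct

/-- Let A and G be finite groups of coprime orders with A acting on G by automorphisms. Suppose G has a proper A-invariant subgroup M, maximal among proper A-invariant subgroups, which is nilpotent and whose Sylow 2-subgroups have nilpotency class at most 2. Then G is solvable. -/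
theorem result {G A : Type*} [Group G] [Finite G]
    [Group A] [Finite A] (φ : A →* MulAut G) (hcop : (Nat.card A).Coprime (Nat.card G))
    (M : Subgroup G) (hMtop : M ≠ ⊤) (hMinv : ∀ a : A, ∀ m : G, m ∈ M → φ a m ∈ M)
    (hMmax : ∀ H : Subgroup G, M ≤ H → H ≠ ⊤ → (∀ a : A, ∀ h : G, h ∈ H → φ a h ∈ H) → H = M)
    (hnil : Group.IsNilpotent M) (h2 : ∀ S : Sylow 2 ↥M, Group.nilpotencyClass ↥(S : Subgroup ↥M) ≤ 2) :
    Group.IsSolvable G := by
  rcases FGS.solvable_or_of_coprime hcop with hs | hs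
  swap
  · exact hs
  obtain ⟨S⟩ := (inferInstance : Nonempty (Sylow 2 M))
  have h3 := FGS.commutator_mem_centralizer_of_class (h2 S)
  refine Core.solvable_of_mulEquiv (FGS.sdEquivG φ).symm (FGS.solvable_of_nilpotent_max
    (A := FGS.sdA φ) (M := M.map inl) (P := ((S : Subgroup M).map M.subtype).map inl) (FGS.sd_sup φ)
    (Core.solvable_of_mulEquiv (FGS.sdEquivA φ) hs) (FGS.sd_coprime φ hcop)
    (lt_of_le_of_ne (FGS.map_inl_le_sdG M) fun h => hMtop (FGS.map_inl_eq_sdG.mp h))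
    (FGS.sdA_le_normalizer_iff.mpr hMinv) (fun H h1 h4 h5 => ?_) (Core.nilpotent_map hnil _)
    ((Core.isSylowOf_map_subtype S).map _) ?_)
  · obtain ⟨H, rfl⟩ := FGS.exists_map_inl h4
    rw [FGS.map_inl_inj, FGS.map_inl_eq_sdG, or_iff_not_imp_right]
    exact fun h => hMmax H (FGS.map_inl_le_iff.mp h1) h (FGS.sdA_le_normalizer_iff.mp h5)
  · rintro _ ⟨_, ⟨x, hx, rfl⟩, rfl⟩ _ ⟨_, ⟨y, hy, rfl⟩, rfl⟩ _ ⟨_, ⟨z, hz, rfl⟩, rfl⟩
    rw [← map_commutatorElement, ← map_commutatorElement, ← map_mul, ← map_mul, h3 x hx y hy z hz,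
      map_mul, map_mul]

end Cfsg.Agent.S4038
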