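import Mathlib
import Cfsg.Statements.S4039
import Cfsg.Agent.FGS.NilMax

set_option autoImplicit false
open Cfsg

namespace Cfsg.Agent.S4039

open Subgroup

/-- A finite group possessing a maximal subgroup that is nilpotent of class at most 2 is solvable. -/
theorem result {G : Type*} [Group G] [Finite G]
    (M : Subgroup G) (hmax : IsCoatom M) (hnil : Group.IsNilpotent M) (hcl : Group.nilpotencyClass ↥M ≤ 2) :
    Group.IsSolvable G := by
  obtain ⟨P, hP⟩ := Core.exists_isSylowOf 2 M
  have := FGS.solvable_of_nilpotent_max (K := ⊤) (A := ⊥) (M := M) (P := P) (top_sup_eq _)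
    inferInstance (by simp) hmax.1.lt_top bot_le
    (fun H h1 _ _ => h1.eq_or_lt.imp Eq.symm (hmax.2 H)) hnil hP fun x hx y hy =>
      centralizer_le hP.le (FGS.commutator_mem_centralizer_of_class hcl x (hP.le hx) y (hP.le hy))
  exact Core.solvable_of_mulEquiv topEquiv this

end Cfsg.Agent.S4039
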