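import Mathlib
import Cfsg.Statements.S4043
import Cfsg.Agent.FGS.Basic2
import Cfsg.Agent.Core.Coprime2
import Cfsg.Agent.Core.Cores
import Cfsg.Agent.Core.Product
import Cfsg.Agent.Transfer.Residual
import Cfsg.Agent.H2.Subnormal

set_option autoImplicit false
open Cfsg

namespace Cfsg.Agent.S4043

open Subgroup Cfsg.Agent.FGS
open scoped Pointwise

theorem aux {G : Type*} [Group G] [Finite G] {p : ℕ}
    [Fact p.Prime] (N : Subgroup G) [N.Normal] (hN : IsPGroup p N) (A : Subgroup G)
    (hA : A.IsComplement' N) (hAp : Cfsg.HasNormalPComplement p A)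
    (hC : ∀ n : G, n ∈ N → (∀ a : G, a ∈ A → a * n * a⁻¹ = n) → n = 1) :
    ∃ K : Subgroup G, (Nat.card K).Coprime (Nat.card N) ∧ normalizer (K : Set G) = A ∧
      N ⊔ K = N ⊔ pResidual p G := by
  have hp : p.Prime := Fact.out
  haveI := Transfer.pResidual_normal (p := p) (G := A)
  set K := (pResidual p A).map A.subtype with hK
  have hc : (Nat.card K).Coprime (Nat.card N) := Core.coprime_of_isPGroup hN (by
    rw [hK, Core.card_map_subtype]
    exact ((Nat.Prime.coprime_iff_not_dvd hp).mpr (Transfer.hasNormalPComplement_iff_not_dvd.mp hAp)).symm)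
  have hAK : A ≤ normalizer (K : Set G) := Core.le_normalizer_map_subtype_of_normal A _
  have hnN : ∀ H : Subgroup G, H ≤ normalizer (N : Set G) := fun H => (normalizer_eq_top N).ge.trans' le_top
  refine ⟨K, hc, ?_, le_antisymm (sup_le_sup_left (Transfer.map_subtype_pResidual_le A) N)
    (sup_le le_sup_left (Transfer.pResidual_le_iff.mpr fun x hx => ?_))⟩
  · have h0 : N ⊓ centralizer (K : Set G) = ⊥ := by
      by_contra h
      obtain ⟨P⟩ : Nonempty (Sylow p A) := inferInstance
      refine Core.inf_centralizer_ne_bot_of_isPGroup (hN.to_le inf_le_left) (P.isPGroup'.map A.subtype)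
        ((map_subtype_le _).trans (Core.le_normalizer_inf (hnN A) (Core.le_normalizer_centralizer hAK))) h
        (eq_bot_iff.mpr fun z hz => hC z hz.1.1 fun a ha => ?_)
      obtain ⟨k, hk, y, hy, e⟩ := Transfer.exists_mul_eq_of_sylow P ⟨a, ha⟩
      have h1 := mem_centralizer_iff.mp hz.1.2 k ⟨k, hk, rfl⟩
      have h2 := mem_centralizer_iff.mp hz.2 y ⟨y, hy, rfl⟩
      rw [show a = k * y from (congrArg Subtype.val e).symm, mul_assoc (k : G), h2, ← mul_assoc, h1]
      group
    have h1 := Core.sup_inf_of_le_right (hnN A) hAK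
    rw [sup_comm, hA.sup_eq_top, top_inf_eq] at h1
    rw [h1, sup_eq_right]
    refine le_trans (fun n hn => h0.le ⟨hn.1, mem_centralizer_iff.mpr fun k hk => ?_⟩) bot_le
    have h2 : k * n * k⁻¹ * n⁻¹ ∈ N := mul_mem (Normal.conj_mem inferInstance n hn.1 k) (N.inv_mem hn.1)
    have h3 : k * n * k⁻¹ * n⁻¹ ∈ K := by
      have := mul_mem hk ((mem_normalizer_iff.mp hn.2 _).mp (inv_mem hk))
      simpa only [mul_assoc] using this
    have := Core.eq_one_of_mem_of_coprime hc h3 h2
    rwa [mul_inv_eq_one, mul_inv_eq_iff_eq_mul] at this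
  · obtain ⟨n, hn, a, ha, rfl⟩ := (Core.mem_sup_of_le_normalizer (hnN A)).mp
      ((sup_comm A N ▸ hA.sup_eq_top).ge (mem_top x))
    let f := QuotientGroup.mk' N
    have h1 : f (n * a) = f a := by
      rw [map_mul, show f n = 1 from (QuotientGroup.eq_one_iff n).mpr hn, one_mul]
    obtain ⟨b, hb, hba, hb'⟩ := exists_pPrime_lift f a (h1 ▸ hx.coprime_dvd_left (orderOf_map_dvd f _))
    have hbA : b ∈ A := zpowers_le.mpr ha hb
    have h2 : a * b⁻¹ ∈ N := by
      rw [← QuotientGroup.ker_mk' N, MonoidHom.mem_ker, map_mul, map_inv, hba, mul_inv_cancel]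
    rw [show n * a = n * (a * b⁻¹) * b by group]
    exact mul_mem_sup (mul_mem hn h2)
      ⟨⟨b, hbA⟩, Transfer.mem_pResidual_of_coprime (by rwa [← orderOf_coe]), rfl⟩

/-- Let G be a finite group that is the semidirect product of a normal p-subgroup N by a subgroup A, and also of N by a subgroup A₁, where p is a prime and A and A₁ both have normal p-complements. If C_N(A) = C_N(A₁) = 1, then A₁ is conjugate to A by an element of N. -/
theorem result {G : Type*} [Group G] [Finite G] {p : ℕ}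
    [Fact p.Prime] (N : Subgroup G) [N.Normal] (hN : IsPGroup p N) (A A₁ : Subgroup G)
    (hA : A.IsComplement' N) (hA₁ : A₁.IsComplement' N)
    (hAp : Cfsg.HasNormalPComplement p A) (hA₁p : Cfsg.HasNormalPComplement p A₁)
    (hC : ∀ n : G, n ∈ N → (∀ a : G, a ∈ A → a * n * a⁻¹ = n) → n = 1)
    (hC₁ : ∀ n : G, n ∈ N → (∀ a : G, a ∈ A₁ → a * n * a⁻¹ = n) → n = 1) :
    ∃ n : G, n ∈ N ∧ A₁ = A.map (MulAut.conj n).toMonoidHom := by
  obtain ⟨K, h1, rfl, h3⟩ := aux N hN A hA hAp hC
  obtain ⟨L, h4, rfl, h6⟩ := aux N hN A₁ hA₁ hA₁p hC₁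
  have hnN : ∀ H : Subgroup G, H ≤ normalizer (N : Set G) := fun H => (normalizer_eq_top N).ge.trans' le_top
  obtain ⟨n, hn, h⟩ := Core.exists_conj_le_of_le_sup N K L (hnN K) (hnN L) h1
    (Or.inr (Core.solvable_of_isPGroup hN)) (le_sup_right.trans (h3.trans h6.symm).le)
  have h7 := Core.card_sup_of_disjoint (hnN K) (Core.disjoint_of_coprime h1).symm
  rw [h3, ← h6, Core.card_sup_of_disjoint (hnN L) (Core.disjoint_of_coprime h4).symm] at h7
  have h8 := Core.eq_of_le_of_card_le h
    (by rw [Core.card_conj_smul, Nat.eq_of_mul_eq_mul_left Nat.card_pos h7])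
  exact ⟨n, hn, by rw [← h8, H2.normalizer_conj_smul]; rfl⟩

end Cfsg.Agent.S4043
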