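import Mathlib
import Cfsg.Statements.S4050
import Cfsg.Agent.FGS.PiClosed

set_option autoImplicit false
open Cfsg

namespace Cfsg.Agent.S4050

open Subgroup Cfsg.Agent.FGS

/-- Let π be a set of primes and G a finite group. The π-elements of G (elements whose order is divisible only by primes of π) form a subgroup if and only if G is π-separable (it has a chain of normal subgroups from 1 to G with each successive index divisible only by primes in π or only by primes outside π) and N_G(H)/C_G(H) is a π'-group for every nontrivial π'-subgroup H of G. -/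
theorem result {G : Type*} [Group G] [Finite G] (π : Set ℕ)
    (hπ : ∀ p ∈ π, p.Prime) :
    (∃ K : Subgroup G, ∀ x : G, x ∈ K ↔ ∀ p : ℕ, p.Prime → p ∣ orderOf x → p ∈ π) ↔
    ((∃ (n : ℕ) (H : Fin (n + 1) → Subgroup G), H 0 = ⊥ ∧ H (Fin.last n) = ⊤ ∧ Monotone H ∧ (∀ i, (H i).Normal) ∧
      ∀ i : Fin n, (∀ q : ℕ, q.Prime → q ∣ (H i.castSucc).relIndex (H i.succ) → q ∈ π) ∨
        (∀ q : ℕ, q.Prime → q ∣ (H i.castSucc).relIndex (H i.succ) → q ∉ π)) ∧
     (∀ H : Subgroup G, H ≠ ⊥ → (∀ p : ℕ, p.Prime → p ∣ Nat.card ↥H → p ∉ π) →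
        ∀ p : ℕ, p.Prime → p ∣ (Subgroup.centralizer (H : Set G)).relIndex (Subgroup.normalizer (H : Set G)) → p ∉ π)) := by
  constructor
  · intro h
    constructor
    · rw [exists_iff_piCl_top] at h
      refine ⟨2, ![⊥, piCore π G, ⊤], rfl, rfl, ?_, ?_, ?_⟩
      · refine Fin.monotone_iff_le_succ.mpr fun i => ?_
        fin_cases i <;> simp
      · intro i
        fin_cases i <;> simp <;> infer_instance
      · intro i
        fin_cases i
        · left
          intro q hq hd
          exact Core.piCore_isPiSubgroup π q hq (by simpa using hd)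
        · right
          exact h
    · obtain ⟨K, hK⟩ := h
      have hn : K.Normal := ⟨fun x hx g => by
        rw [hK] at hx ⊢
        rwa [show orderOf (g * x * g⁻¹) = orderOf x from (MulAut.conj g).orderOf_eq x]⟩
      intro H _ hH p hp hd hpπ
      obtain ⟨a, ha, hc, -, k, hk⟩ := PGrp.exists_of_prime_dvd_relIndex hp hd
      have haK : a ∈ K := (hK a).mpr fun q hq hd => by
        rw [hk] at hd
        rwa [(Nat.prime_dvd_prime_iff_eq hq hp).mp (hq.dvd_of_dvd_pow hd)]
      refine hc (mem_centralizer_iff.mpr fun y hy => ?_)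
      have h1 : y * a * y⁻¹ * a⁻¹ ∈ K := mul_mem (hn.conj_mem a haK y) (inv_mem haK)
      have h2 : y * a * y⁻¹ * a⁻¹ ∈ H := by
        have := mul_mem hy ((mem_normalizer_iff.mp ha _).mp (inv_mem hy))
        simpa only [mul_assoc] using this
      have h3 : orderOf (y * a * y⁻¹ * a⁻¹) = 1 := by
        by_contra h
        obtain ⟨q, hq, hd⟩ := Nat.exists_prime_and_dvd h
        exact hH q hq (hd.trans (H.orderOf_dvd_natCard h2)) ((hK _).mp h1 q hq hd)
      rwa [orderOf_eq_one_iff, mul_inv_eq_one, mul_inv_eq_iff_eq_mul] at h3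
  · rintro ⟨⟨n, H, h0, hn, hm, hN, hi⟩, hhom⟩
    rw [exists_iff_piCl_top, ← hn]
    have : ∀ i, PiCl π (H i) := by
      intro i
      induction i using Fin.induction with
      | zero => rw [h0]; exact piCl_bot
      | succ i ih =>
        haveI := hN i.castSucc
        haveI := hN i.succ
        rcases hi i with h | h
        · exact ih.step hhom (hm i.castSucc_le_succ) h
        · exact ih.step_compl (hm i.castSucc_le_succ) h
    exact this _

end Cfsg.Agent.S4050
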