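import Mathlib
import Cfsg.Statements.S4051
import Cfsg.Agent.FGS.PiClosed

set_option autoImplicit false
open Cfsg

namespace Cfsg.Agent.S4051

open Subgroup Cfsg.Agent.FGS

/-- Let π be a set of primes and G a finite group such that N_G(H)/C_G(H) is a π'-group for every nontrivial π'-subgroup H of G. If K is a normal subgroup of G such that the π-elements of K form a subgroup and the π-elements of G/K form a subgroup, then the π-elements of G form a subgroup. -/
theorem result {G : Type*} [Group G] [Finite G] (π : Set ℕ)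
    (hπ : ∀ p ∈ π, p.Prime) (hhom : (∀ H : Subgroup G, H ≠ ⊥ → (∀ p : ℕ, p.Prime → p ∣ Nat.card ↥H → p ∉ π) →
        ∀ p : ℕ, p.Prime → p ∣ (Subgroup.centralizer (H : Set G)).relIndex (Subgroup.normalizer (H : Set G)) → p ∉ π))
    (K : Subgroup G) [K.Normal]
    (hK : ∃ L : Subgroup ↥K, ∀ x : ↥K, x ∈ L ↔ ∀ p : ℕ, p.Prime → p ∣ orderOf x → p ∈ π)
    (hQ : ∃ L : Subgroup (G ⧸ K), ∀ x : G ⧸ K, x ∈ L ↔ ∀ p : ℕ, p.Prime → p ∣ orderOf x → p ∈ π) :
    (∃ K : Subgroup G, ∀ x : G, x ∈ K ↔ ∀ p : ℕ, p.Prime → p ∣ orderOf x → p ∈ π) := by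
  rw [exists_iff_piCl_top] at hK hQ ⊢
  rw [piCl_top_iff] at hK
  let f := QuotientGroup.mk' K
  have hs : Function.Surjective f := QuotientGroup.mk'_surjective _
  have h1 : K ≤ (piCore π (G ⧸ K)).comap f := fun x hx => by
    rw [mem_comap, show f x = 1 from (QuotientGroup.eq_one_iff x).mpr hx]; exact one_mem _
  refine (hK.step hhom h1 fun p hp hd => ?_).step_compl le_top fun p hp hd => hQ p hp ?_
  · have h2 := relIndex_ker ((piCore π (G ⧸ K)).comap f) f
    rw [QuotientGroup.ker_mk', map_comap_eq_self_of_surjective hs] at h2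
    exact Core.piCore_isPiSubgroup π p hp (h2 ▸ hd)
  · rwa [relIndex_top_right, index_comap_of_surjective _ hs, ← relIndex_top_right] at hd

end Cfsg.Agent.S4051
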