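import Mathlib
import Cfsg.Statements.S4056
import Cfsg.Agent.PGrp.Special
-- import your own Cfsg.Agent.* helpers here

set_option autoImplicit false
open Cfsg
open scoped commutatorElement

namespace Cfsg.Agent.S4056

/-- In a finite 2-group of nilpotency class at most 2 and exponent dividing 4, the Frattini subgroup lies in the centre and is elementary abelian. -/
theorem result {P : Type*} [Group P] [Finite P] (hP : IsPGroup 2 P)
    (hcl : Group.nilpotencyClass P ≤ 2) (hexp : Monoid.exponent P ∣ 4) :
    frattini P ≤ Subgroup.center P ∧ Cfsg.IsElementaryAbelian 2 (frattini P) := by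
  have : Fact (Nat.Prime 2) := ⟨Nat.prime_two⟩
  have := hP.isNilpotent
  have h1 : commutator P ≤ Subgroup.center P := by
    have h := lowerCentralSeries_eq_bot_iff_nilpotencyClass_le.mpr hcl
    intro x hx
    rw [Subgroup.mem_center_iff]
    intro g
    have h2 : ⁅x, g⁆ ∈ (⊤ : Subgroup P).lowerCentralSeries 2 :=
      Subgroup.commutator_mem_commutator hx (Subgroup.mem_top g)
    rw [h, Subgroup.mem_bot, commutatorElement_eq_one_iff_mul_comm] at h2
    exact h2.symm
  have hc := PGrp.commute_of_commutator_le_center h1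
  have h4 : ∀ x : P, x ^ 4 = 1 := fun x => Monoid.exponent_dvd_iff_forall_pow_eq_one.mp hexp x
  have h2 : ∀ x y : P, ⁅y, x⁆ ^ 2 = 1 := by
    intro x y
    have := PGrp.mul_pow_of_commute (hc y x x) (hc y x y) 4
    rw [h4, h4, h4, one_mul, one_mul, show Nat.choose 4 2 = 4 + 2 from rfl, pow_add, h4,
      one_mul] at this
    exact this.symm
  have h3 : ∀ y : P, y ^ 2 ∈ Subgroup.center P := by
    intro y
    rw [Subgroup.mem_center_iff]
    intro x
    rw [eq_comm, ← commutatorElement_eq_one_iff_mul_comm,
      PGrp.commutator_pow_left_of_commute (hc _ _ _), h2]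
  have h5 : frattini P ≤ omegaOne 2 (Subgroup.center P) := by
    refine (PGrp.frattini_le_iff hP).mpr ⟨?_, fun x => PGrp.mem_omegaOne (h3 x) ?_⟩
    · rw [commutator_def, Subgroup.commutator_le]
      intro x _ y _
      exact PGrp.mem_omegaOne (h1 (PGrp.commutatorElement_mem_commutator x y)) (h2 y x)
    · rw [← pow_mul]; exact h4 x
  refine ⟨h5.trans PGrp.omegaOne_le, PGrp.isMulCommutative_of_le (h5.trans PGrp.omegaOne_le)
    inferInstance, fun a ha => PGrp.pow_eq_one_of_mem_omegaOne_of_comm inferInstance (h5 ha)⟩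

end Cfsg.Agent.S4056
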