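import Mathlib
import Cfsg.Statements.S4065

set_option autoImplicit false
open Cfsg

namespace Cfsg.Agent.S4065

open Matrix

theorem comm_iff {F : Type*} [Field F] (a y : Matrix (Fin 2) (Fin 2) F) : a * y = y * a ↔
    a 0 1 * y 1 0 = a 1 0 * y 0 1 ∧ (a 0 0 - a 1 1) * y 0 1 = (y 0 0 - y 1 1) * a 0 1 ∧
      (a 0 0 - a 1 1) * y 1 0 = (y 0 0 - y 1 1) * a 1 0 := by
  rw [← Matrix.ext_iff]
  simp only [Fin.forall_fin_two, Matrix.mul_apply, Fin.sum_univ_two]
  refine ⟨fun ⟨⟨h1, h2⟩, h3, h4⟩ => ⟨?_, ?_, ?_⟩, fun ⟨h1, h2, h3⟩ => ⟨⟨?_, ?_⟩, ?_, ?_⟩⟩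
  · linear_combination h1
  · linear_combination h2
  · linear_combination -h3
  · linear_combination h1
  · linear_combination h2
  · linear_combination -h3
  · linear_combination -h1

theorem par {F : Type*} [Field F] {p q r p' q' r' u v w : F} (hy : ¬ (u = 0 ∧ v = 0 ∧ w = 0))
    (ha : p * v = q * u ∧ r * u = w * p ∧ r * v = w * q) (hb : p' * v = q' * u ∧ r' * u = w * p' ∧ r' * v = w * q') :
    p * q' = q * p' ∧ r * p' = r' * p ∧ r * q' = r' * q := by
  grind

theorem comm_trans {F : Type*} [Field F] {a b y : Matrix (Fin 2) (Fin 2) F}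
    (hy : ¬ (y 0 1 = 0 ∧ y 1 0 = 0 ∧ y 0 0 - y 1 1 = 0)) (ha : a * y = y * a) (hb : b * y = y * b) : a * b = b * a := by
  rw [comm_iff] at ha hb ⊢
  exact par hy ha hb

variable {F : Type*} [Field F] [CharP F 2]

theorem eq_one_of {y : SpecialLinearGroup (Fin 2) F} (hy : y 0 1 = 0 ∧ y 1 0 = 0 ∧ y 0 0 - y 1 1 = 0) : y = 1 := by
  obtain ⟨h1, h2, h3⟩ := hy
  have h4 := y.det_coe
  rw [Matrix.det_fin_two] at h4
  have h5 : y 0 0 = y 1 1 := sub_eq_zero.mp h3
  have h6 : y 1 1 = 1 := by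
    have : y 1 1 ^ 2 = 1 := by
      change y 0 0 * y 1 1 - y 0 1 * y 1 0 = 1 at h4
      rw [h1, h5] at h4; linear_combination h4
    rcases sq_eq_one_iff.mp this with h | h
    · exact h
    · rw [h, CharTwo.neg_eq]
  ext i j
  fin_cases i <;> fin_cases j <;> simp [h1, h2, h5, h6]

theorem center_bot : Subgroup.center (SpecialLinearGroup (Fin 2) F) = ⊥ := by
  refine eq_bot_iff.mpr fun y hy => eq_one_of ?_
  obtain ⟨r, -, hr⟩ := Matrix.SpecialLinearGroup.mem_center_iff.mp hy
  have : ∀ i j, y i j = scalar (Fin 2) r i j := fun i j => by rw [hr]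
  simp [this]

theorem psl_trans {a b y : ProjectiveSpecialLinearGroup (Fin 2) F} (hy : y ≠ 1) (ha : a * y = y * a)
    (hb : b * y = y * b) : a * b = b * a := by
  have hinj : Function.Injective (QuotientGroup.mk' (Subgroup.center (SpecialLinearGroup (Fin 2) F))) := by
    rw [← MonoidHom.ker_eq_bot_iff, QuotientGroup.ker_mk', center_bot]
  obtain ⟨a, rfl⟩ := QuotientGroup.mk'_surjective _ a
  obtain ⟨b, rfl⟩ := QuotientGroup.mk'_surjective _ b
  obtain ⟨y, rfl⟩ := QuotientGroup.mk'_surjective _ y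
  rw [← map_mul, ← map_mul] at ha hb ⊢
  refine congrArg _ (Subtype.ext (comm_trans (y := y.1) (fun h => hy (by rw [eq_one_of h, map_one]))
    (congrArg Subtype.val (hinj ha)) (congrArg Subtype.val (hinj hb))))

/-- Let F be a finite field with 2ⁿ elements, n ≥ 2. In PSL₂(F) the centralizer of every element meets each of its conjugates by elements outside its normalizer trivially. -/
theorem result (n : ℕ) (hn : 2 ≤ n)
    (x : Matrix.ProjectiveSpecialLinearGroup (Fin 2) (GaloisField 2 n)) :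
    Cfsg.IsTISubset (Subgroup.centralizer ({x} : Set (Matrix.ProjectiveSpecialLinearGroup (Fin 2) (GaloisField 2 n))) :
      Set (Matrix.ProjectiveSpecialLinearGroup (Fin 2) (GaloisField 2 n))) := by
  intro g hg y hy hgy
  by_contra h1
  refine hg ?_
  simp only [SetLike.mem_coe, Subgroup.mem_centralizer_singleton_iff] at hy hgy
  by_cases hx : x = 1
  · subst hx
    intro z
    simp [Subgroup.mem_centralizer_singleton_iff]
  have h2 : g * y * g⁻¹ ≠ 1 := fun e => h1 (by simpa using e)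
  intro z
  simp only [SetLike.mem_coe, Subgroup.mem_centralizer_singleton_iff]
  refine ⟨fun hz => psl_trans h2 ?_ hgy.symm, fun hz => psl_trans h1 ?_ hy.symm⟩
  · have := psl_trans hx hz hy
    calc _ = g * (z * y) * g⁻¹ := by group
      _ = _ := by rw [this]; group
  · have := psl_trans hx hz hgy
    calc _ = g⁻¹ * (g * z * g⁻¹ * (g * y * g⁻¹)) * g := by group
      _ = _ := by rw [this]; group

end Cfsg.Agent.S4065
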