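import Mathlib
import Cfsg.Statements.S4066
import Cfsg.Agent.FGS.Basic
import Cfsg.Agent.PGrp.Basic
import Cfsg.Agent.Core.SylowOf
-- import your own Cfsg.Agent.* helpers here

set_option autoImplicit false
open Cfsg

namespace Cfsg.Agent.S4066

/-- Let G be a finite group in which the centralizer of every element meets each of its conjugates by elements outside its normalizer trivially. Then any two distinct Sylow p-subgroups of G, for any prime p, intersect trivially. -/
theorem result {G : Type*} [Group G] [Finite G] (hTI : ∀ x : G, Cfsg.IsTISubset (Subgroup.centralizer ({x} : Set G) : Set G))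
    {p : ℕ} [Fact p.Prime] (P Q : Sylow p G) (hPQ : P ≠ Q) : (P : Subgroup G) ⊓ (Q : Subgroup G) = ⊥ := by
  by_contra hne
  obtain ⟨x, ⟨hxP, hxQ⟩, hx1⟩ := (Subgroup.bot_or_exists_ne_one _).resolve_left hne
  have hP0 : (⊤ : Subgroup (P : Subgroup G)) ≠ ⊥ := fun e => by
    have := Subgroup.mem_top (⟨x, hxP⟩ : (P : Subgroup G))
    rw [e, Subgroup.mem_bot] at this
    exact hx1 (congrArg (fun y : (P : Subgroup G) => (y : G)) this)
  obtain ⟨z, -, hz, hzo⟩ := PGrp.exists_mem_center_orderOf_eq (G := (P : Subgroup G)) P.2 ⊤ hP0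
  have hz1 : ((z : (P : Subgroup G)) : G) ≠ (1 : G) := fun e => (Fact.out : p.Prime).one_lt.ne
    (by rw [← hzo, ← Subgroup.orderOf_coe, e, orderOf_one])
  have hPH : (P : Subgroup G) ≤ Subgroup.centralizer {(z : G)} := fun y hy =>
    Subgroup.mem_centralizer_singleton_iff.2
      (congrArg Subtype.val (Subgroup.mem_center_iff.1 hz ⟨y, hy⟩))
  obtain ⟨g, rfl⟩ := MulAction.exists_smul_eq G P Q
  have hg : g⁻¹ ∈ Subgroup.normalizer (Subgroup.centralizer {(z : G)} : Set G) := by
    by_contra hn
    exact hx1 (hTI z _ hn x (hPH hxP) (hPH (by simpa using FGS.mem_conj_iff.1 hxQ)))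
  have hQH : ((g • P : Sylow p G) : Subgroup G) ≤ Subgroup.centralizer {(z : G)} := fun y hy => by
    exact (Subgroup.mem_normalizer_iff.1 hg y).2 (hPH (by simpa using FGS.mem_conj_iff.1 hy))
  refine hPQ (Sylow.ext (P.3 (g • P).2 fun h hh => ?_).symm)
  obtain ⟨n, hn⟩ := P.2 ⟨h, hh⟩
  replace hn : h ^ p ^ n = 1 := congrArg Subtype.val hn
  let S : Set G := {y | ∃ k ∈ Subgroup.centralizer {(z : G)}, y = k * h * k⁻¹}
  have hc : ∀ k ∈ Subgroup.centralizer {(z : G)}, k * h * k⁻¹ * h = h * (k * h * k⁻¹) :=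
    fun k hk => by
      have hzh : (z : G) ∈ Subgroup.centralizer {h} :=
        Subgroup.mem_centralizer_singleton_iff.2
          (Subgroup.mem_centralizer_singleton_iff.1 (hPH hh)).symm
      have : k ∈ Subgroup.normalizer (Subgroup.centralizer {h} : Set G) := by
        by_contra hn
        exact hz1 (hTI h _ hn z hzh (by
          rw [Subgroup.mem_centralizer_singleton_iff.1 hk, mul_inv_cancel_right]; exact hzh))
      exact Subgroup.mem_centralizer_singleton_iff.1 ((Subgroup.mem_normalizer_iff.1 this h).1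
        (Subgroup.mem_centralizer_singleton_iff.2 rfl))
  have hS : ∀ a ∈ S, ∀ b ∈ S, a * b = b * a := by
    rintro _ ⟨k, hk, rfl⟩ _ ⟨l, hl, rfl⟩
    have := hc _ (Subgroup.mul_mem _ (Subgroup.inv_mem _ hl) hk)
    calc _ = l * (l⁻¹ * k * h * (l⁻¹ * k)⁻¹ * h) * l⁻¹ := by group
      _ = _ := by rw [this]; group
  have hA := PGrp.isMulCommutative_iff_forall.1 (Subgroup.isMulCommutative_closure hS)
  have hp : IsPGroup p (Subgroup.closure S) := fun y => ⟨n, Subtype.ext (by
    obtain ⟨y, hy⟩ := y
    show y ^ p ^ n = 1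
    induction hy using Subgroup.closure_induction with
    | mem a ha => obtain ⟨k, -, rfl⟩ := ha; rw [conj_pow, hn]; simp
    | one => simp
    | mul a b ha hb h1 h2 => rw [(show Commute a b from hA a ha b hb).mul_pow, h1, h2, mul_one]
    | inv a _ h1 => rw [inv_pow, h1, inv_one])⟩
  refine (Core.isSylowOf_top (g • P)).le_of_le_normalizer hp le_top (fun y hy => ?_)
    (Subgroup.subset_closure ⟨1, Subgroup.one_mem _, by simp⟩)
  refine PGrp.mem_normalizer_of_conj_mem fun a ha => ?_
  induction ha using Subgroup.closure_induction with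
  | mem a ha =>
    obtain ⟨k, hk, rfl⟩ := ha
    exact Subgroup.subset_closure ⟨y * k, Subgroup.mul_mem _ (hQH hy) hk, by group⟩
  | one => simp
  | mul a b _ _ h1 h2 => simpa [mul_assoc] using Subgroup.mul_mem _ h1 h2
  | inv a _ h1 => simpa [mul_assoc] using Subgroup.inv_mem _ h1

end Cfsg.Agent.S4066
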