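import Mathlib
import Cfsg.Statements.S4072
import Cfsg.Agent.FGS.FitCrit
import Cfsg.Agent.Transfer.Frobenius
import Cfsg.Agent.Core.Coprime2
import Cfsg.Agent.Core.Product

set_option autoImplicit false
open Cfsg

namespace Cfsg.Agent.S4072

open Subgroup Cfsg.Agent.FGS
open scoped IsMulCommutative

theorem solv {G : Type*} [Group G] [Finite G] {p : ℕ} [Fact p.Prime] (hp : p ∣ Nat.card G)
    (h : HasNormalPComplement p G) (hN : ∀ N : Subgroup G, N.Normal → N ≠ ⊤ → IsMulCommutative N) :
    Group.IsSolvable G := by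
  obtain ⟨N, hn, h1, h2⟩ := Transfer.hasNormalPComplement_iff_exists_normal.mp h
  haveI := hN N hn (fun he => h1 (by rwa [he, card_top]))
  haveI := h2.isNilpotent
  exact (Group.isSolvable_iff_subgroup_quotient N).mpr ⟨inferInstance, inferInstance⟩

/-- A finite group in which every non-abelian subgroup is self-normalizing is solvable or simple. -/
theorem result {G : Type*} [Group G] [Finite G] (hS : ∀ H : Subgroup G, ¬ IsMulCommutative H → Subgroup.normalizer (H : Set G) = H) :
    Group.IsSolvable G ∨ IsSimpleGroup G := by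
  by_contra! hcon
  obtain ⟨hns, hsim⟩ := hcon
  have hab : ∀ N : Subgroup G, N.Normal → N ≠ ⊤ → IsMulCommutative N := fun N _ hN => by
    by_contra h
    exact hN ((hS N h).symm.trans (normalizer_eq_top N))
  haveI : Nontrivial G := by
    by_contra h
    rw [not_nontrivial_iff_subsingleton] at h
    exact hns inferInstance
  obtain ⟨N, hNn, hN0, hN1⟩ : ∃ N : Subgroup G, N.Normal ∧ N ≠ ⊥ ∧ N ≠ ⊤ := by
    by_contra! h
    exact hsim ⟨fun N hN => by by_cases h0 : N = ⊥; exact Or.inl h0; exact Or.inr (h N hN h0)⟩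
  have hNC : N ≤ centralizer (N : Set G) := fun a ha => mem_centralizer_iff.mpr fun b hb =>
    Core.comm_of_isMulCommutative (hab N hNn hN1) hb ha
  by_cases hC : centralizer (N : Set G) = ⊤
  · obtain ⟨z, hz, hp⟩ := Core.exists_mem_prime_orderOf hN0
    have hzZ : z ∈ center G := centralizer_eq_top_iff_subset.mp hC hz
    set p := orderOf z with hpz
    haveI := Fact.mk hp
    obtain ⟨P⟩ : Nonempty (Sylow p G) := inferInstance
    obtain ⟨Q, hQP, -, q, hq, hqp, -, g, hg, ⟨k, hk⟩, hgc⟩ := Transfer.exists_of_not_hasNormalPComplement P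
      fun h => hns (solv (orderOf_dvd_natCard z) h hab)
    have hQ := P.isPGroup'.to_le hQP
    have hgq := isPGroup_zpowers hk
    have hg' : zpowers g ≤ normalizer (Q : Set G) := zpowers_le.mpr hg
    have hQa : IsMulCommutative Q := by
      by_contra h
      rw [hS Q h] at hg'
      have := eq_bot_of_isPGroup_of_ne hq hp hqp hgq (hQ.to_le hg')
      exact hgc (by rw [zpowers_eq_bot.mp this]; exact one_mem _)
    have hcop : (Nat.card (zpowers g)).Coprime (Nat.card Q) :=
      haveI := Fact.mk hq
      IsPGroup.coprime_card_of_ne q p hqp _ _ hgq hQ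
    have hRQ : ⁅Q, zpowers g⁆ ≤ Q := Core.commutator_le_of_le_normalizer hg'
    have hH : ¬ IsMulCommutative ↥(⁅Q, zpowers g⁆ ⊔ zpowers g) := by
      intro h
      refine hgc (Core.le_centralizer_of_commutator_commutator_eq_bot _ Q hg' hcop ?_ (mem_zpowers g))
      rw [eq_bot_iff, commutator_le]
      intro a ha b hb
      exact commutatorElement_eq_one_iff_mul_comm.mpr
        (Core.comm_of_isMulCommutative h (mem_sup_left ha) (mem_sup_right hb))
    have hzH : z ∈ ⁅Q, zpowers g⁆ ⊔ zpowers g := by
      rw [← hS _ hH]; exact center_le_normalizer _ hzZ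
    have hK : IsPGroup p ↥(⁅Q, zpowers g⁆ ⊔ zpowers z) :=
      (hQ.to_le hRQ).to_sup_of_normal_left' (isPGroup_zpowers (k := 1) (by rw [pow_one]))
        (zpowers_le.mpr (center_le_normalizer _ hzZ))
    have h1 := Core.sup_inf_of_le_left (normalizer_commutator_ge_right Q (zpowers g))
      (le_sup_left : _ ≤ ⁅Q, zpowers g⁆ ⊔ zpowers z)
    rw [eq_bot_of_isPGroup_of_ne hq hp hqp (hgq.to_le (inf_le_left : zpowers g ⊓ _ ≤ _))
      (hK.to_le inf_le_right), sup_bot_eq] at h1
    have hzR : z ∈ ⁅Q, zpowers g⁆ := h1.le ⟨hzH, mem_sup_right (mem_zpowers z)⟩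
    have h2 := Core.centralizer_inf_commutator_eq_bot _ Q hQa hg' hcop
    exact ne_one_of_orderOf_prime hp rfl (h2.le ⟨⟨hRQ hzR, center_le_centralizer _ hzZ⟩, hzR⟩)
  · set C := centralizer (N : Set G) with hCd
    haveI := hab C inferInstance hC
    have hs := QuotientGroup.mk'_surjective C
    obtain ⟨p, hp, hd⟩ := Nat.exists_prime_and_dvd (mt index_eq_one.mp hC)
    haveI := Fact.mk hp
    obtain ⟨P⟩ : Nonempty (Sylow p (G ⧸ C)) := inferInstance
    refine hns ((Group.isSolvable_iff_subgroup_quotient C).mpr ⟨inferInstance, solv hd ?_ ?_⟩)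
    · refine Transfer.hasNormalPComplement_of_forall_normalizer P fun Q hQ hQ0 => ?_
      have h1 : ¬ IsMulCommutative (Q.comap (QuotientGroup.mk' C)) := by
        intro h
        refine hQ0 (eq_bot_iff.mpr fun x hx => ?_)
        obtain ⟨x, rfl⟩ := hs x
        refine (QuotientGroup.eq_one_iff x).mpr (mem_centralizer_iff.mpr fun y hy => ?_)
        refine Core.comm_of_isMulCommutative h ?_ hx
        rw [mem_comap, show QuotientGroup.mk' C y = 1 from (QuotientGroup.eq_one_iff y).mpr (hNC hy)]
        exact one_mem _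
      have h2 : normalizer (Q : Set (G ⧸ C)) ≤ Q := by
        intro x hx
        obtain ⟨x, rfl⟩ := hs x
        exact (hS _ h1).le (le_normalizer_comap _ hx)
      exact Transfer.hasNormalPComplement_of_isPGroup ((P.isPGroup'.to_le hQ).to_le h2)
    · intro M _ hM
      haveI := hab (M.comap (QuotientGroup.mk' C)) inferInstance fun h =>
        hM (by rw [← map_comap_eq_self_of_surjective hs M, h, map_top_of_surjective _ hs])
      rw [← map_comap_eq_self_of_surjective hs M]
      infer_instance

end Cfsg.Agent.S4072
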