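import Mathlib
import Cfsg.Statements.S4074
import Cfsg.Agent.PGrp.DihSub
-- import your own Cfsg.Agent.* helpers here

set_option autoImplicit false
open Cfsg

namespace Cfsg.Agent.S4074

open DihedralGroup

/-- For n > 2, every non-abelian subgroup of the dihedral group of order 2n is self-normalizing if and only if n = 4 or n is odd. -/
theorem result (n : ℕ) (hn : 2 < n) :
    (∀ H : Subgroup (DihedralGroup n), ¬ IsMulCommutative H → Subgroup.normalizer (H : Set (DihedralGroup n)) = H) ↔
    (n = 4 ∨ Odd n) := by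
  constructor
  · intro h
    by_contra hn'
    push Not at hn'
    obtain ⟨m, rfl⟩ := Nat.not_odd_iff_even.1 hn'.2
    have hd : (2 : ℤ) ∣ (m + m : ℕ) := ⟨m, by push_cast; ring⟩
    have := h (PGrp.dihSub _ 2) (PGrp.not_comm_dihSub fun hd => by
      have h1 : m + m ∣ 4 := by exact_mod_cast hd
      have := Nat.le_of_dvd (by norm_num) h1
      omega)
    have h1 : r ((1 : ℤ) : ZMod (m + m)) ∈ PGrp.dihSub (m + m) 2 := by
      rw [← this, Subgroup.mem_normalizer_iff]
      rintro (a | a)
      · simp
      · obtain ⟨a, rfl⟩ := ZMod.intCast_surjective a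
        have e : r ((1 : ℤ) : ZMod (m + m)) * sr (a : ZMod (m + m)) * (r ((1 : ℤ) : ZMod (m + m)))⁻¹ =
            sr ((a - 2 : ℤ) : ZMod (m + m)) := by simp; ring
        rw [e, PGrp.sr_mem_dihSub, PGrp.sr_mem_dihSub, PGrp.r_mem_dihSub hd, PGrp.r_mem_dihSub hd]
        omega
    rw [PGrp.r_mem_dihSub hd] at h1
    omega
  · intro h H hH
    obtain ⟨i, hi⟩ := PGrp.exists_sr_of_not_isCyclic (H := H) fun hc => hH inferInstance
    refine le_antisymm ?_ Subgroup.le_normalizer
    have key : ∀ a, r a ∈ Subgroup.normalizer (H : Set (DihedralGroup n)) → r a ∈ H := by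
      rcases h with rfl | ⟨k, rfl⟩
      · obtain ⟨j, hj, hj0⟩ : ∃ j, r j ∈ H ∧ 2 * j ≠ 0 := by
          by_contra hn'
          push Not at hn'
          have h2 : ∀ x ∈ H, x⁻¹ = x := by
            rintro (a | a) ha
            · rw [inv_r, r.injEq]; linear_combination -hn' a ha
            · rfl
          refine hH ⟨⟨fun x y => Subtype.ext ?_⟩⟩
          rw [Subgroup.coe_mul, Subgroup.coe_mul, ← h2 _ (H.mul_mem x.2 y.2), mul_inv_rev,
            h2 _ x.2, h2 _ y.2]
        intro a _
        have : ∀ j a : ZMod 4, 2 * j ≠ 0 → ∃ m : Fin 4, a = j * (m : ℕ) := by decide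
        obtain ⟨m, rfl⟩ := this j a hj0
        rw [← r_pow]; exact H.pow_mem hj m
      · intro a ha
        have h1 := H.pow_mem (H.mul_mem ((Subgroup.mem_normalizer_iff.1 ha _).1 hi) hi) (k + 1)
        have e : ((2 * k + 1 : ℕ) : ZMod (2 * k + 1)) = 0 := ZMod.natCast_self _
        simp only [inv_r, r_mul_sr, sr_mul_r, sr_mul_sr, r_pow] at h1
        convert h1 using 2
        push_cast at e ⊢
        linear_combination -a * e
    rintro (a | a) ha
    · exact key a ha
    · simpa using H.mul_mem hi (key _ (Subgroup.mul_mem _ (Subgroup.le_normalizer hi) ha))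

end Cfsg.Agent.S4074
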