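import Mathlib
import Cfsg.Statements.S4080
import Cfsg.Agent.Inv.Reg
import Cfsg.Agent.PGrp.Class

set_option autoImplicit false
open Cfsg

namespace Cfsg.Agent.S4080

open Inv.Rg Subgroup
open scoped commutatorElement

theorem exists_mul {p : ℕ} (hp : p.Prime) (u : ZMod (p ^ 2)) (h : p • u = 0) : ∃ v : ZMod (p ^ 2), p • v = u := by
  haveI : NeZero (p ^ 2) := ⟨pow_ne_zero _ hp.ne_zero⟩
  rw [← ZMod.natCast_zmod_val u, nsmul_eq_mul, ← Nat.cast_mul, ZMod.natCast_eq_zero_iff] at h
  obtain ⟨k, hk⟩ := (Nat.mul_dvd_mul_iff_left hp.pos).1 ((pow_two p).symm.dvd.trans h)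
  exact ⟨k, by rw [← ZMod.natCast_zmod_val u, hk, nsmul_eq_mul, Nat.cast_mul]⟩

/-- Let p > 3 be a prime and L the direct product of two cyclic groups of order p². Every automorphism of L of order p fixes every element of order p of L. -/
theorem result {p : ℕ} [Fact p.Prime] (hp : 3 < p)
    (a : MulAut (Multiplicative (ZMod (p ^ 2) × ZMod (p ^ 2)))) (ha : orderOf a = p)
    (x : Multiplicative (ZMod (p ^ 2) × ZMod (p ^ 2))) (hx : orderOf x = p) : a x = x := by
  have hpp : p.Prime := Fact.out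
  haveI : NeZero (p ^ 2) := ⟨pow_ne_zero _ hpp.ne_zero⟩
  have hx1 : p • x.toAdd = 0 := by rw [← toAdd_pow, orderOf_dvd_iff_pow_eq_one.1 hx.dvd, toAdd_one]
  obtain ⟨u, hu⟩ := exists_mul hpp _ (congrArg Prod.fst hx1)
  obtain ⟨v, hv⟩ := exists_mul hpp _ (congrArg Prod.snd hx1)
  obtain ⟨y, rfl⟩ : ∃ y, x = y ^ p := ⟨Multiplicative.ofAdd (u, v), Prod.ext hu.symm hv.symm⟩
  set G := SemidirectProduct (Multiplicative (ZMod (p ^ 2) × ZMod (p ^ 2))) (zpowers a) (zpowers a).subtype
  have hc : Nat.card G = p ^ 5 := by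
    rw [SemidirectProduct.card, Nat.card_zpowers, ha]
    simp
    ring
  haveI : Finite G := Nat.finite_of_card_ne_zero (hc ▸ pow_ne_zero _ hpp.ne_zero)
  have hG : IsPGroup p (⊤ : Subgroup G) := (IsPGroup.of_card hc).to_subgroup _
  have h5 : 5 ≤ p := by
    by_contra h
    exact absurd (show p = 4 by omega) (by rintro rfl; exact absurd hpp (by decide))
  have hR : Reg p (⊤ : Subgroup G) := reg_of_class hG (eq_bot_iff.2 ((gam_anti _ h5).trans
    (PGrp.lowerCentralSeries_eq_bot_of_card_le hG (m := 4) (by rw [card_top, hc]) (by omega)).le))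
  have h1 := (hR.commute_iff' 1 (a := SemidirectProduct.inr ⟨a, mem_zpowers a⟩) (b := SemidirectProduct.inl y)
    trivial trivial).2 ((hR.commute_iff 1 trivial trivial).1 (by
      rw [pow_one, ← map_pow, show (⟨a, mem_zpowers a⟩ : zpowers a) ^ p = 1 from Subtype.ext (by
        simp [orderOf_dvd_iff_pow_eq_one.1 ha.dvd]), map_one]
      exact Commute.one_left _))
  rw [pow_one, ← map_pow] at h1
  have h2 := SemidirectProduct.inl_aut (φ := (zpowers a).subtype) ⟨a, mem_zpowers a⟩ (y ^ p)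
  rw [h1.eq, map_inv, mul_inv_cancel_right] at h2
  exact SemidirectProduct.inl_injective h2

end Cfsg.Agent.S4080
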