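import Cfsg.Statements.S4081
import Cfsg.Agent.H23.Orb2
-- import your own Cfsg.Agent.* helpers here

set_option autoImplicit false
open Cfsg

namespace Cfsg.Agent.S4081

/-- Let G be a finite group whose order is not a prime power. Then the automorphism group of G has exactly three orbits on G if and only if there are distinct primes p, q with #G = pⁿ·q (n ≥ 1) such that G has a normal elementary abelian Sylow p-subgroup P, p is a primitive root modulo q (the multiplicative order of p mod q is q − 1), and every element of order q of G acts on P without non-identity fixed points. -/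
theorem result {G : Type*} [Group G] [Finite G] (hnpp : ¬ IsPrimePow (Nat.card G)) (hnt : Nat.card G ≠ 1) :
    Nat.card (MulAction.orbitRel.Quotient (MulAut G) G) = 3 ↔
    ∃ (p q n : ℕ) (_ : Fact p.Prime) (_ : Fact q.Prime), p ≠ q ∧ 1 ≤ n ∧ Nat.card G = p ^ n * q ∧
      (∀ P : Sylow p G, (P : Subgroup G).Normal ∧ Cfsg.IsElementaryAbelian p (P : Subgroup G)) ∧
      orderOf (p : ZMod q) = q - 1 ∧
      ∀ x y : G, orderOf x = q → orderOf y = p → x * y * x⁻¹ ≠ y := by

  have hord : ∀ {g h : G}, (Quotient.mk'' g : MulAction.orbitRel.Quotient (MulAut G) G) = Quotient.mk'' h ↔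
      ∃ α : MulAut G, α h = g := Quotient.eq''.trans MulAction.orbitRel_apply
  have hne : ∀ {g h : G}, orderOf g ≠ orderOf h →
      (Quotient.mk'' g : MulAction.orbitRel.Quotient (MulAut G) G) ≠ Quotient.mk'' h := fun hn e => by
    obtain ⟨α, rfl⟩ := hord.1 e
    exact hn (α.orderOf_eq _)
  rw [← Set.ncard_univ]
  constructor
  · intro h3
    obtain ⟨p, hp, hpG⟩ := Nat.exists_prime_and_dvd hnt
    obtain ⟨q, ⟨hq, hqG⟩, hqp⟩ : ∃ q, (q.Prime ∧ q ∣ Nat.card G) ∧ q ≠ p := by
      by_contra! h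
      exact hnpp (isPrimePow_iff_unique_prime_dvd.2 ⟨p, ⟨hp, hpG⟩, h⟩)
    have := Fact.mk hp
    have := Fact.mk hq
    obtain ⟨a, ha⟩ := exists_prime_orderOf_dvd_card' p hpG
    obtain ⟨b, hb⟩ := exists_prime_orderOf_dvd_card' q hqG
    have hu := Set.eq_of_subset_of_ncard_le (Set.subset_univ {Quotient.mk'' 1, Quotient.mk'' a, Quotient.mk'' b})
      (h3.trans (Set.ncard_eq_three.2 ⟨_, _, _, hne (by rw [orderOf_one, ha]; exact hp.one_lt.ne),
        hne (by rw [orderOf_one, hb]; exact hq.one_lt.ne), hne (by rw [ha, hb]; exact hqp.symm), rfl⟩).symm).le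
    have tri : ∀ g : G, (∃ α : MulAut G, α 1 = g) ∨ (∃ α : MulAut G, α a = g) ∨ ∃ α : MulAut G, α b = g :=
      fun g => (hu.ge (Set.mem_univ (Quotient.mk'' g))).imp hord.1 (Or.imp hord.1 hord.1)
    have h0 : ∀ g : G, g ≠ 1 → orderOf g = p ∨ orderOf g = q := fun g hg => by
      rcases tri g with ⟨α, rfl⟩ | ⟨α, rfl⟩ | ⟨α, rfl⟩
      exacts [absurd (map_one α) hg, .inl ((α.orderOf_eq _).trans ha), .inr ((α.orderOf_eq _).trans hb)]
    have h1 : ∀ g h : G, orderOf g = orderOf h → ∃ α : MulAut G, α g = h := fun g h e => by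
      have := hp.one_lt
      have := hq.one_lt
      rcases tri g with ⟨α, rfl⟩ | ⟨α, rfl⟩ | ⟨α, rfl⟩ <;> rcases tri h with ⟨β, rfl⟩ | ⟨β, rfl⟩ | ⟨β, rfl⟩ <;>
        first
        | exact ⟨β * α⁻¹, congrArg β (α.symm_apply_apply _)⟩
        | (simp only [MulEquiv.orderOf_eq, orderOf_one, ha, hb] at e; omega)
    obtain ⟨i, m, hm, hc⟩ := Nat.exists_eq_pow_mul_and_not_dvd (Nat.card_pos (α := G)).ne' p hp.ne_one
    have hm' := Nat.eq_prime_pow_of_unique_prime_dvd (n := m) (p := q) (by rintro rfl; simp at hm)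
      fun {r} hr hrm => by
        have := Fact.mk hr
        obtain ⟨g, hg⟩ := exists_prime_orderOf_dvd_card' (G := G) r (hc ▸ hrm.mul_left _)
        refine hg ▸ (h0 g fun e => hr.one_lt.ne (by rw [← hg, e, orderOf_one])).resolve_left fun e =>
          hm (e ▸ hg ▸ hrm)
    rw [hm'] at hc
    have hs := S0144.result p q _ _ hp hq hc
    obtain ⟨k, hk1, hk2⟩ : ∃ k, derivedSeries G k ≠ ⊥ ∧ derivedSeries G (k + 1) = ⊥ := by
      by_contra! h
      obtain ⟨k, hk⟩ := hs
      induction k with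
      | zero => exact hnt (by rw [← Subgroup.card_top, ← derivedSeries_zero, hk, Subgroup.card_bot])
      | succ k ih => exact ih (by_contra fun e => h k e hk)
    have : IsMulCommutative (derivedSeries G k) := Subgroup.le_centralizer_iff_isMulCommutative.1
      (Subgroup.commutator_eq_bot_iff_le_centralizer.1 hk2)
    obtain ⟨⟨d, hd⟩, hd1⟩ := Subgroup.ne_bot_iff_exists_ne_one.1 hk1
    rcases h0 d (fun e => hd1 (Subtype.ext e)) with h | h
    · obtain ⟨n, h⟩ := H23.Orb.forward hqp.symm hqG hc h0 h1 _ hd h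
      exact ⟨p, q, n, inferInstance, inferInstance, hqp.symm, h⟩
    · obtain ⟨n, h⟩ := H23.Orb.forward hqp hpG (hc.trans (mul_comm _ _)) (fun g hg => (h0 g hg).symm) h1 _ hd h
      exact ⟨q, p, n, inferInstance, inferInstance, hqp, h⟩
  · rintro ⟨p, q, n, hp, hq, hpq, hn, hc, hP, ho, fpf⟩
    obtain ⟨P⟩ := (inferInstance : Nonempty (Sylow p G))
    have := (hP P).1
    obtain ⟨a, ha⟩ := exists_prime_orderOf_dvd_card' (G := G) p
      (hc ▸ (dvd_pow_self p (by omega)).mul_right _)
    obtain ⟨b, hb⟩ := exists_prime_orderOf_dvd_card' (G := G) q (hc ▸ dvd_mul_left _ _)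
    obtain ⟨h0, h1, h2⟩ := H23.Orb.backward hpq hc P (hP P).2 ho fpf ha
    refine Set.ncard_eq_three.2 ⟨Quotient.mk'' 1, Quotient.mk'' a, Quotient.mk'' b, hne (by rw [orderOf_one, ha]; exact hp.out.one_lt.ne),
      hne (by rw [orderOf_one, hb]; exact hq.out.one_lt.ne), hne (by rw [ha, hb]; exact hpq),
      (Set.eq_univ_of_forall fun g => ?_).symm⟩
    induction g using Quotient.inductionOn' with | h g => ?_
    by_cases h : g = 1
    · exact .inl (by rw [h])
    · exact .inr ((h0 g h).imp (fun e => hord.2 (h1 a g ha e)) fun e => hord.2 (h2 b g hb e))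

end Cfsg.Agent.S4081
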