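import Mathlib
import Cfsg.Statements.S4082
import Cfsg.Agent.PG.PbC
import Cfsg.Agent.Classical.DihRecog

set_option autoImplicit false
open Cfsg

namespace Cfsg.Agent.S4082

open Subgroup Cfsg.Agent.PG.PbC

theorem back {G H : Type*} [Group G] [Finite G] [Group H] [Finite H] {p : ℕ} [Fact p.Prime]
    (P : Sylow p G) (hP : IsCyclic P) (f : H →* G) (hf : Function.Injective f) (S : Sylow p H)
    [(S : Subgroup H).Normal] (hq : IsCyclic (H ⧸ (S : Subgroup H)))
    (hle : ∀ s ∈ (S : Subgroup H), f s ∈ (P : Subgroup G))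
    (h : normalizer ((P : Subgroup G) : Set G) = centralizer ((P : Subgroup G) : Set G) ∨
      ∀ Q : Subgroup G, Q ≤ P → Nat.card Q = p → IsMulCommutative ↥(centralizer (Q : Set G)) ∧
          ∀ x : G, x ∈ normalizer (Q : Set G) → x ∉ centralizer (Q : Set G) →
            orderOf x = 2) :
    IsCyclic H ∨ ∃ n : ℕ, Nonempty (H ≃* DihedralGroup (p ^ n)) := by
  have hp : p.Prime := Fact.out
  have hS : IsCyclic (S : Subgroup H) := cyc_of_emb hP f hf hle
  have hn : (S : Subgroup H).Normal := inferInstance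
  haveI : IsMulCommutative (P : Subgroup G) := by
    letI : CommGroup (P : Subgroup G) := IsCyclic.commGroup
    exact ⟨⟨mul_comm⟩⟩
  have hPc : ∀ a ∈ (P : Subgroup G), ∀ b ∈ (P : Subgroup G), a * b = b * a := fun a ha b hb =>
    congrArg Subtype.val (IsMulCommutative.is_comm.comm (⟨a, ha⟩ : (P : Subgroup G)) ⟨b, hb⟩)
  by_cases hz : ∀ s ∈ (S : Subgroup H), ∀ g, s * g = g * s
  · exact Or.inl (cyc_of_central S hS hq hz)
  right
  push Not at hz
  obtain ⟨s, hs, g, hsg⟩ := hz
  rcases h with h | h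
  · exfalso
    have h1 : (f g)⁻¹ * f s * f g ∈ P := by
      have := hle _ (hn.conj_mem s hs g⁻¹)
      rw [map_mul, map_mul, inv_inv, map_inv] at this
      exact this
    obtain ⟨n, hn1, hn2⟩ := P.conj_eq_normalizer_conj_of_mem (f s) (f g) (hle s hs) h1
    have hn3 : n ∈ centralizer ((P : Subgroup G) : Set G) := h ▸ hn1
    have := mem_centralizer_iff.1 hn3 _ (hle s hs)
    apply hsg; apply hf
    rw [map_mul, map_mul]
    rw [mul_assoc n⁻¹, this, inv_mul_cancel_left] at hn2
    calc f s * f g = f g * ((f g)⁻¹ * f s * f g) := by group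
      _ = _ := by rw [hn2]
  · have hS1 : (S : Subgroup H) ≠ ⊥ := by
      intro hb; rw [hb, mem_bot] at hs; subst hs; simp at hsg
    obtain ⟨n, hn0⟩ := S.isPGroup'.exists_card_eq
    have hd : p ∣ Nat.card (S : Subgroup H) := by
      rw [hn0]; apply dvd_pow_self; rintro rfl
      exact hS1 (card_eq_one.1 (by simpa using hn0))
    obtain ⟨a, ha⟩ := exists_prime_orderOf_dvd_card' p hd
    have ha' : orderOf (a : H) = p := by rw [Subgroup.orderOf_coe, ha]
    set Q := zpowers (f a) with hQ
    have hQP : Q ≤ P := zpowers_le.2 (hle _ a.2)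
    have hQc : Nat.card Q = p := by rw [Nat.card_zpowers, orderOf_injective f hf, ha']
    have hN : ∀ k : H, f k ∈ normalizer (Q : Set G) := by
      intro k
      have key : ∀ k : H, f k * f a * (f k)⁻¹ ∈ Q := by
        intro k
        have h1 : k * a * k⁻¹ ∈ zpowers (a : H) :=
          mem_zpowers_of_cyc hS a.2 (hn.conj_mem _ a.2 k) (by
            rw [conj_pow, pow_orderOf_eq_one]; simp)
        obtain ⟨j, hj⟩ := h1
        exact ⟨j, by simp only at hj ⊢; rw [← map_zpow, hj]; simp⟩
      refine mem_normalizer_fintype (fun q hq => ?_)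
      obtain ⟨j, rfl⟩ := hq
      simp only
      rw [← conj_zpow]
      exact zpow_mem (key k) j
    set A := (centralizer (Q : Set G)).comap f with hA
    have hSA : (S : Subgroup H) ≤ A := fun t ht =>
      mem_centralizer_iff.2 fun q hq => hPc _ (hQP hq) _ (hle t ht)
    have hout : ∀ k, k ∉ A → k * k = 1 := fun k hk => by
      have := (h Q hQP hQc).2 (f k) (hN k) hk
      apply hf; rw [map_mul, map_one, ← pow_two, ← this, pow_orderOf_eq_one]
    obtain ⟨q, hq'⟩ := hq.exists_generator
    obtain ⟨c, rfl⟩ := QuotientGroup.mk_surjective q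
    have gen : ∀ k : H, ∃ j : ℤ, (c ^ j)⁻¹ * k ∈ (S : Subgroup H) := fun k => by
      obtain ⟨j, hj⟩ := hq' (k : H ⧸ (S : Subgroup H))
      exact ⟨j, by rw [← QuotientGroup.eq, QuotientGroup.mk_zpow]; exact hj⟩
    have hgA : g ∉ A := fun hg => by
      apply hsg; apply hf
      rw [map_mul, map_mul]
      exact congrArg Subtype.val ((h Q hQP hQc).1.is_comm.comm
        (⟨f s, hSA hs⟩ : centralizer (Q : Set G)) ⟨f g, hg⟩)
    have hcA : c ∉ A := fun hc => by
      obtain ⟨j, hj⟩ := gen g
      apply hgA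
      simpa using A.mul_mem (A.zpow_mem hc j) (hSA hj)
    have hcc := hout c hcA
    have hci : c⁻¹ = c := inv_eq_of_mul_eq_one_right hcc
    have dich : ∀ k : H, k ∈ (S : Subgroup H) ∨ c * k ∈ (S : Subgroup H) := fun k => by
      obtain ⟨j, hj⟩ := gen k
      have h2 : c ^ (2 : ℤ) = 1 := by rw [zpow_two, hcc]
      rcases Int.even_or_odd' j with ⟨i, rfl | rfl⟩
      · left; simpa [zpow_mul, h2] using hj
      · right; simpa [zpow_add, zpow_mul, h2, hci] using hj
    have hi : (S : Subgroup H).index = 2 := by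
      refine index_eq_two_iff'.2 ⟨c, fun b => ?_⟩
      rcases dich b with hb | hb
      · exact Or.inr ⟨hb, fun h' => hcA (by simpa using A.mul_mem (hSA h') (A.inv_mem (hSA hb)))⟩
      · exact Or.inl ⟨hb, fun h' => hcA (by simpa using A.mul_mem (hSA hb) (A.inv_mem (hSA h')))⟩
    have := Cfsg.Agent.Classical.DihRecog.equiv_dihedral_of_index_two (S : Subgroup H) hi
      (fun k hk => hout k fun hkA => by
        rcases dich k with hb | hb
        · exact hk hb
        · exact hcA (by simpa using A.mul_mem (hSA hb) (A.inv_mem hkA)))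
    exact ⟨n, hn0 ▸ this⟩

/-- Let p be an odd prime and G a finite group with Sylow p-subgroup P. Say that G has restricted p-by-cyclic subgroups when every subgroup H of G whose Sylow p-subgroup is normal in H with cyclic quotient is itself cyclic or dihedral of order 2pⁿ for some n. Then G has restricted p-by-cyclic subgroups if and only if P is cyclic and one of the following holds: (1) N_G(P) = C_G(P); or (2) N_G(P)/C_G(P) has order 2 and, for the subgroup Q of order p of P, the centralizer C_G(Q) is abelian and every element of N_G(Q) outside C_G(Q) is an involution inverting every element of C_G(Q). -/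
theorem result {G : Type*} [Group G] [Finite G] {p : ℕ}
    [Fact p.Prime] (hp : p ≠ 2) (P : Sylow p G) :
    (∀ H : Subgroup G, (∀ S : Sylow p ↥H, (S : Subgroup ↥H).Normal) →
        (∀ (S : Sylow p ↥H) [(S : Subgroup ↥H).Normal], IsCyclic (↥H ⧸ (S : Subgroup ↥H))) →
        IsCyclic H ∨ (∃ n : ℕ, Nonempty (H ≃* DihedralGroup (p ^ n)))) ↔
    (IsCyclic P ∧
      (Subgroup.normalizer ((P : Subgroup G) : Set G) = Subgroup.centralizer ((P : Subgroup G) : Set G) ∨
       ((Subgroup.centralizer ((P : Subgroup G) : Set G)).relIndex (Subgroup.normalizer ((P : Subgroup G) : Set G)) = 2 ∧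
        ∀ Q : Subgroup G, Q ≤ P → Nat.card Q = p →
          IsMulCommutative ↥(Subgroup.centralizer (Q : Set G)) ∧
          ∀ x : G, x ∈ Subgroup.normalizer (Q : Set G) → x ∉ Subgroup.centralizer (Q : Set G) →
            orderOf x = 2 ∧ ∀ c : G, c ∈ Subgroup.centralizer (Q : Set G) → x * c * x⁻¹ = c⁻¹))) := by
  have hpp : p.Prime := Fact.out
  have hodd : Odd p := hpp.odd_of_ne_two hp
  constructor
  · intro h
    have key : ∀ Q : Subgroup G, IsPGroup p Q → ∀ x ∈ normalizer (Q : Set G),
        x ∉ centralizer (Q : Set G) → x * x = 1 ∧ ∀ y ∈ Q, x * y * x⁻¹ = y⁻¹ := by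
      intro Q hQ x hx hc
      obtain ⟨h1, h2⟩ := pbc hQ hx
      rw [mem_centralizer_iff] at hc
      push Not at hc
      obtain ⟨q, hq, hqx⟩ := hc
      have hxH : x ∈ Q ⊔ zpowers x := (le_sup_right : zpowers x ≤ _) (mem_zpowers x)
      have hQH : Q ≤ Q ⊔ zpowers x := le_sup_left
      rcases h _ h1 h2 with hc | ⟨n, ⟨e⟩⟩
      · exfalso; apply hqx
        letI : CommGroup ↥(Q ⊔ zpowers x) := IsCyclic.commGroup
        exact congrArg Subtype.val (mul_comm (⟨q, hQH hq⟩ : ↥(Q ⊔ zpowers x)) ⟨x, hxH⟩)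
      · obtain ⟨k, hk⟩ := hQ ⟨q, hq⟩
        have := dih_odd e (q := ⟨q, hQH hq⟩) (x := ⟨x, hxH⟩) (hodd.pow (n := k))
          (Subtype.ext (by simpa using congrArg Subtype.val hk))
          (fun h' => hqx (congrArg Subtype.val h').symm)
        refine ⟨congrArg Subtype.val this.1, fun y hy => ?_⟩
        obtain ⟨l, hl⟩ := hQ ⟨y, hy⟩
        exact congrArg Subtype.val (this.2 ⟨y, hQH hy⟩ _ (hodd.pow (n := l))
          (Subtype.ext (by simpa using congrArg Subtype.val hl)))
    have hP : IsCyclic P := by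
      obtain ⟨h1, h2⟩ := pbc P.isPGroup' (one_mem (normalizer ((P : Subgroup G) : Set G)))
      have e : (P : Subgroup G) ⊔ zpowers (1 : G) = P := by simp
      rcases h _ h1 h2 with hc | ⟨n, ⟨e'⟩⟩
      · rw [e] at hc; exact hc
      · exfalso
        have h3 := Nat.card_congr e'.toEquiv
        haveI : NeZero (p ^ n) := ⟨pow_ne_zero _ hpp.ne_zero⟩
        rw [e, DihedralGroup.nat_card] at h3
        obtain ⟨m, hm⟩ := P.isPGroup'.exists_card_eq
        have : Odd (2 * p ^ n) := by rw [← h3, hm]; exact hodd.pow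
        exact (Nat.not_even_iff_odd.2 this) (even_two_mul _)
    refine ⟨hP, ?_⟩
    by_cases hNC : normalizer ((P : Subgroup G) : Set G) ≤ centralizer ((P : Subgroup G) : Set G)
    · exact Or.inl (le_antisymm hNC (centralizer_le_normalizer _))
    right
    obtain ⟨t, ht, htc⟩ := SetLike.not_le_iff_exists.1 hNC
    have two : ∀ Q : Subgroup G, IsPGroup p Q → ∀ x ∈ normalizer (Q : Set G),
        x ∉ centralizer (Q : Set G) → ∀ y ∈ normalizer (Q : Set G),
        y ∉ centralizer (Q : Set G) → x * y ∈ centralizer (Q : Set G) := by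
      intro Q hQ x hx hxc y hy hyc
      refine mem_centralizer_iff.2 fun q hq => ?_
      have h1 := (key Q hQ y hy hyc).2 q hq
      have h2 := (key Q hQ x hx hxc).2 q⁻¹ (Q.inv_mem hq)
      rw [inv_inv] at h2
      calc q * (x * y) = (x * q⁻¹ * x⁻¹) * (x * y) := by rw [h2]
        _ = x * (y * q * y⁻¹) * y := by rw [h1]; group
        _ = _ := by group
    refine ⟨relIndex_eq_two_iff.2 ⟨t, ht, fun b hb => ?_⟩, fun Q hQP hQc => ?_⟩
    · by_cases hbc : b ∈ centralizer ((P : Subgroup G) : Set G)
      · exact Or.inr ⟨hbc, fun h' => htc (by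
          simpa using (centralizer _).mul_mem ((centralizer _).inv_mem hbc) h')⟩
      · exact Or.inl ⟨two _ P.isPGroup' b hb hbc t ht htc, hbc⟩
    · have hQ : IsPGroup p Q := P.isPGroup'.to_le hQP
      have inv : ∀ x ∈ normalizer (Q : Set G), x ∉ centralizer (Q : Set G) →
          ∀ c ∈ centralizer (Q : Set G), x * c * x⁻¹ = c⁻¹ := by
        intro x hx hxc c hc
        have h1 := (key Q hQ x hx hxc).1
        have h2 := (key Q hQ (x * c) (mul_mem hx (centralizer_le_normalizer _ hc)) (fun h' => hxc (by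
          simpa using (centralizer _).mul_mem h' ((centralizer _).inv_mem hc)))).1
        rw [inv_eq_of_mul_eq_one_right h1]
        exact eq_inv_of_mul_eq_one_left (by rw [← h2]; group)
      have htQ : ∀ y ∈ Q, t * y * t⁻¹ = y⁻¹ := fun y hy => (key _ P.isPGroup' t ht htc).2 y (hQP hy)
      have htN : t ∈ normalizer (Q : Set G) :=
        mem_normalizer_fintype (fun q hq => by rw [htQ q hq]; exact Q.inv_mem hq)
      have htC : t ∉ centralizer (Q : Set G) := fun h' => by
        obtain ⟨a, ha⟩ := exists_prime_orderOf_dvd_card' (G := Q) p (by rw [hQc])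
        have h1 := mem_centralizer_iff.1 h' _ a.2
        have h2 := htQ _ a.2
        rw [← h1, mul_inv_cancel_right] at h2
        have h3 : (a : G) ^ 2 = 1 := by rw [pow_two]; nth_rewrite 1 [h2]; simp
        have h4 := orderOf_dvd_of_pow_eq_one h3
        rw [Subgroup.orderOf_coe, ha] at h4
        exact hp ((Nat.prime_dvd_prime_iff_eq hpp Nat.prime_two).1 h4)
      refine ⟨⟨⟨fun a b => Subtype.ext ?_⟩⟩, fun x hx hxc => ⟨?_, inv x hx hxc⟩⟩
      · have h1 := inv t htN htC _ a.2
        have h2 := inv t htN htC _ b.2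
        have h3 := inv t htN htC _ (mul_mem a.2 b.2)
        have : ((a : G) * b)⁻¹ = ((b : G) * a)⁻¹ := by
          rw [← h3, mul_inv_rev, ← h1, ← h2]; group
        exact inv_injective this
      · refine orderOf_eq_prime (by rw [pow_two]; exact (key Q hQ x hx hxc).1) ?_
        rintro rfl; exact hxc (one_mem _)
  · rintro ⟨hP, h⟩ H h1 h2
    obtain ⟨S⟩ : Nonempty (Sylow p H) := inferInstance
    haveI := h1 S
    obtain ⟨f, hf, hle⟩ := exists_emb P H S
    refine back P hP f hf S (h2 S) hle (h.imp id fun h Q a b => ⟨(h.2 Q a b).1, fun x c d => ((h.2 Q a b).2 x c d).1⟩)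

end Cfsg.Agent.S4082
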