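import Mathlib
import Cfsg.Statements.S4083
import Cfsg.Agent.PG.PbC
import Cfsg.Agent.Classical.DihRecog
import Cfsg.Agent.Classical.SmallRecog
import Cfsg.Agent.Inv.Fus
import Cfsg.Agent.Inv.Four

set_option autoImplicit false
open Cfsg

namespace Cfsg.Agent.S4083

open Subgroup Cfsg.Agent.PG.PbC

theorem odd_cent {G : Type*} [Group G] [Finite G] {A : Subgroup G} (hA : IsCyclic A)
    (h2 : IsPGroup 2 A) {c : G} (hc : c ∈ normalizer (A : Set G)) {r : ℕ} (hr : Odd r)
    (hcr : c ^ r ∈ centralizer (A : Set G)) : c ∈ centralizer (A : Set G) := by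
  haveI : Fact (Nat.Prime 2) := ⟨Nat.prime_two⟩
  set φ := A.normalizerMonoidHom ⟨c, hc⟩ with hφ
  have h1 : φ ^ r = 1 := by
    rw [hφ, ← map_pow, ← MonoidHom.mem_ker, normalizerMonoidHom_ker]
    exact hcr
  obtain ⟨k, hk⟩ := h2.exists_card_eq
  have h3 : orderOf φ ∣ 2 ^ k := by
    refine (orderOf_dvd_natCard φ).trans ?_
    rw [IsCyclic.card_mulAut, hk]
    rcases k with _ | k
    · simp
    · rw [Nat.totient_prime_pow Nat.prime_two k.succ_pos]
      simpa using pow_dvd_pow 2 k.le_succ
  have h4 : orderOf φ = 1 := Nat.eq_one_of_dvd_coprimes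
    ((Nat.coprime_two_left.2 hr).pow_left k) h3 (orderOf_dvd_of_pow_eq_one h1)
  have h5 : (⟨c, hc⟩ : normalizer (A : Set G)) ∈ A.normalizerMonoidHom.ker := orderOf_eq_one_iff.1 h4
  rw [normalizerMonoidHom_ker] at h5
  exact h5

theorem back_cyc {H : Type*} [Group H] [Finite H] (S : Sylow 2 H) [(S : Subgroup H).Normal]
    (hS : IsCyclic (S : Subgroup H)) (hq : IsCyclic (H ⧸ (S : Subgroup H))) : IsCyclic H := by
  haveI : Fact (Nat.Prime 2) := ⟨Nat.prime_two⟩
  refine cyc_of_central S hS hq fun s hs g => ?_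
  have hodd : Odd (S : Subgroup H).index :=
    Nat.not_even_iff_odd.1 fun h => S.not_dvd_index (even_iff_two_dvd.1 h)
  have hle : (S : Subgroup H) ≤ centralizer ((S : Subgroup H) : Set H) := by
    letI : CommGroup (S : Subgroup H) := IsCyclic.commGroup
    intro a ha
    exact mem_centralizer_iff.2 fun b hb =>
      congrArg Subtype.val (mul_comm (⟨b, hb⟩ : (S : Subgroup H)) ⟨a, ha⟩)
  exact mem_centralizer_iff.1 (odd_cent hS S.isPGroup' (by rw [normalizer_eq_top]; trivial) hodd
    (hle (pow_index_mem _ g))) s hs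

theorem back {G H : Type*} [Group G] [Finite G] [Group H] [Finite H]
    (P : Sylow 2 G) (f : H →* G) (hf : Function.Injective f) (S : Sylow 2 H)
    [(S : Subgroup H).Normal] (hq : IsCyclic (H ⧸ (S : Subgroup H)))
    (hle : ∀ s ∈ (S : Subgroup H), f s ∈ (P : Subgroup G)) {n : ℕ}
    (e : (P : Subgroup G) ≃* DihedralGroup (2 ^ n))
    (hK : ∀ K : Subgroup G, K ≤ P → Nat.card K = 4 → (∀ k ∈ K, k ^ 2 = 1) →
      centralizer (K : Set G) = K) :
    IsCyclic H ∨ (∃ n : ℕ, Nonempty (H ≃* DihedralGroup (2 ^ n))) ∨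
      Nonempty (H ≃* alternatingGroup (Fin 4)) := by
  haveI : Fact (Nat.Prime 2) := ⟨Nat.prime_two⟩
  haveI : NeZero (2 ^ n) := ⟨pow_ne_zero _ two_ne_zero⟩
  have hn : (S : Subgroup H).Normal := inferInstance
  by_cases hS : IsCyclic (S : Subgroup H)
  · exact Or.inl (back_cyc S hS hq)
  right
  have hK' : ∀ K : Subgroup H, K ≤ S → IsKleinFour K → centralizer (K : Set H) ≤ K := by
    intro K hKS h4 c hc
    have h1 := hK (K.map f) (by rintro _ ⟨k, hk, rfl⟩; exact hle k (hKS hk))
      (by rw [card_map_of_injective hf]; exact h4.card_four)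
      (by rintro _ ⟨k, hk, rfl⟩; rw [← map_pow, pow_two, Inv.four_mul_self h4 hk, map_one])
    have h2 : f c ∈ centralizer ((K.map f : Subgroup G) : Set G) := by
      refine mem_centralizer_iff.2 ?_
      rintro _ ⟨k, hk, rfl⟩
      rw [← map_mul, ← map_mul, mem_centralizer_iff.1 hc k hk]
    rw [h1] at h2
    obtain ⟨k, hk, hk'⟩ := h2
    rwa [← hf hk']
  let ψ : (S : Subgroup H) →* DihedralGroup (2 ^ n) :=
    e.toMonoidHom.comp ((f.comp (S : Subgroup H).subtype).codRestrict P (fun s => hle s s.2))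
  have hψ : Function.Injective ψ := fun a b hab =>
    Subtype.ext (hf (congrArg Subtype.val (e.injective hab)))
  set R0 : Subgroup (S : Subgroup H) := (zpowers (DihedralGroup.r 1)).comap ψ with hR0
  have memR : ∀ s, s ∈ R0 ↔ ∃ i, ψ s = DihedralGroup.r i := fun s => by
    rw [hR0, mem_comap]
    constructor
    · rintro ⟨k, hk⟩; exact ⟨(k : ZMod (2 ^ n)), by rw [← hk]; simp⟩
    · rintro ⟨i, hi⟩
      rw [hi]; exact ⟨(i.val : ℤ), by simp⟩
  have nmem : ∀ s, s ∉ R0 → ∃ i, ψ s = DihedralGroup.sr i := fun s hs => by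
    rcases h : ψ s with i | i
    · exact absurd ((memR s).2 ⟨i, h⟩) hs
    · exact ⟨i, rfl⟩
  have hRc : IsCyclic R0 := cyc_of_emb (P := zpowers (DihedralGroup.r 1)) inferInstance ψ hψ
    (fun s hs => hs)
  have hout : ∀ s, s ∉ R0 → s * s = 1 := fun s hs => by
    obtain ⟨i, hi⟩ := nmem s hs
    apply hψ; rw [map_mul, hi, map_one, DihedralGroup.sr_mul_self]
  have htwo : ∀ s t, s ∉ R0 → t ∉ R0 → s * t ∈ R0 := fun s t hs ht => by
    obtain ⟨i, hi⟩ := nmem s hs
    obtain ⟨j, hj⟩ := nmem t ht
    exact (memR _).2 ⟨_, by rw [map_mul, hi, hj, DihedralGroup.sr_mul_sr]⟩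
  obtain ⟨s, hs⟩ : ∃ s, s ∉ R0 := by
    by_contra! h
    have : R0 = ⊤ := eq_top_iff.2 fun s _ => h s
    rw [this] at hRc
    exact hS (isCyclic_of_surjective topEquiv topEquiv.surjective)
  have hi : R0.index = 2 := by
    refine index_eq_two_iff.2 ⟨s, fun b => ?_⟩
    by_cases hb : b ∈ R0
    · exact Or.inr ⟨hb, fun h' => hs (by simpa using R0.mul_mem (R0.inv_mem hb) h')⟩
    · exact Or.inl ⟨htwo _ _ hb hs, hb⟩
  have hR2 : IsPGroup 2 R0 := S.isPGroup'.to_subgroup R0
  obtain ⟨m, hm⟩ := hR2.exists_card_eq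
  have eS := Cfsg.Agent.Classical.DihRecog.equiv_dihedral_of_index_two R0 hi hout
  rw [hm] at eS
  by_cases htop : (S : Subgroup H) = ⊤
  · left
    obtain ⟨eS⟩ := eS
    exact ⟨m, ⟨(topEquiv.symm.trans (MulEquiv.subgroupCongr htop.symm)).trans eS⟩⟩
  right
  have hodd : Odd (S : Subgroup H).index :=
    Nat.not_even_iff_odd.1 fun h => S.not_dvd_index (even_iff_two_dvd.1 h)
  have hcS : Nat.card (S : Subgroup H) = 2 ^ m * 2 := by rw [← R0.card_mul_index, hm, hi]
  have hm0 : m ≠ 0 := by
    rintro rfl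
    exact hS (isCyclic_of_prime_card (p := 2) (by simpa using hcS))
  obtain ⟨z, hz⟩ := exists_prime_orderOf_dvd_card' (G := R0) 2 (by rw [hm]; exact dvd_pow_self 2 hm0)
  have hz' : orderOf ((z : (S : Subgroup H)) : H) = 2 := by
    rw [Subgroup.orderOf_coe, Subgroup.orderOf_coe, hz]
  have hs1 : (s : H) ≠ 1 := fun h => hs (by rw [show s = 1 from Subtype.ext h]; exact one_mem _)
  have hss : (s : H) * s = 1 := congrArg Subtype.val (hout s hs)
  have hs2 : orderOf (s : H) = 2 := orderOf_eq_prime (by rw [pow_two, hss]) hs1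
  have hzz : ((z : (S : Subgroup H)) : H) * (z : (S : Subgroup H)) = 1 := by
    have := pow_orderOf_eq_one ((z : (S : Subgroup H)) : H)
    rwa [hz', pow_two] at this
  have hzs : Commute ((z : (S : Subgroup H)) : H) s := Inv.commute_of_mul_self hzz hss
    (congrArg Subtype.val (hout (z * s) fun h => hs (by simpa using R0.mul_mem (R0.inv_mem z.2) h)))
  have hne : ((z : (S : Subgroup H)) : H) ≠ s := fun h => hs (by rw [← Subtype.ext h]; exact z.2)
  have h4 := Inv.isKleinFour_closure hz' hs2 hzs hne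
  have hKS : closure ({((z : (S : Subgroup H)) : H), (s : H)} : Set H) ≤ S := by
    rw [closure_le]; rintro _ (rfl | rfl) <;> exact Subtype.prop _
  set K := closure ({((z : (S : Subgroup H)) : H), (s : H)} : Set H) with hKdef
  by_cases hm1 : m = 1
  · subst hm1
    have hKe : K = S := eq_of_le_of_card_ge hKS (by rw [hcS, h4.card_four]; norm_num)
    have hC : centralizer (K : Set H) = K := le_antisymm (hK' K hKS h4) fun a ha =>
      mem_centralizer_iff.2 fun b hb => (Inv.four_commute h4 hb ha).eq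
    have h6 := Inv.four_relIndex_dvd h4 (N := ⊤) (by rw [hKe, normalizer_eq_top])
    rw [hC, relIndex_top_right, hKe] at h6
    have h3 : (S : Subgroup H).index = 3 := by
      have h1 : (S : Subgroup H).index ≠ 1 := fun h => htop (index_eq_one.1 h)
      have := Nat.le_of_dvd (by norm_num) h6
      obtain ⟨k, hk⟩ := hodd
      interval_cases h : (S : Subgroup H).index <;> omega
    have h12 : Nat.card H = 12 := by rw [← (S : Subgroup H).card_mul_index, hcS, h3]; norm_num
    obtain ⟨c, hc⟩ := exists_prime_orderOf_dvd_card' (G := H) 3 (by rw [h12]; norm_num)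
    have hc3 : Nat.card (zpowers c) = 3 := by rw [Nat.card_zpowers, hc]
    have hi4 : (zpowers c).index = 4 := by
      have := (zpowers c).card_mul_index; rw [hc3, h12] at this; omega
    refine Cfsg.Agent.Classical.SmallRecog.equiv_alt_of_core (zpowers c) hi4 (by norm_num) ?_
      (by rw [h12]; rfl)
    by_contra hne'
    haveI : Fact (Nat.Prime 3) := ⟨Nat.prime_three⟩
    have hdv := card_dvd_of_le (zpowers c).normalCore_le
    rw [hc3] at hdv
    rcases (Nat.dvd_prime Nat.prime_three).1 hdv with h1 | h1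
    · exact hne' (card_eq_one.1 h1)
    have he : (zpowers c).normalCore = zpowers c :=
      eq_of_le_of_card_ge (zpowers c).normalCore_le (by rw [h1, hc3])
    have hN : (zpowers c).Normal := he ▸ inferInstance
    have hd : Disjoint (S : Subgroup H) (zpowers c) := disjoint_iff.2
      (inf_eq_bot_of_coprime (by rw [hcS, hc3]; norm_num))
    have : c ∈ K := hK' K hKS h4 (mem_centralizer_iff.2 fun k hk =>
      (commute_of_normal_of_disjoint _ _ hn hN hd k c (hKS hk) (mem_zpowers c)).eq)
    have h2 := orderOf_dvd_of_pow_eq_one (show c ^ 2 = 1 by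
      rw [pow_two]; exact Inv.four_mul_self h4 this)
    rw [hc] at h2; norm_num at h2
  · exfalso
    have h1 : (S : Subgroup H).index ≠ 1 := fun h => htop (index_eq_one.1 h)
    obtain ⟨r, hr, hrd⟩ := Nat.exists_prime_and_dvd h1
    haveI := Fact.mk hr
    obtain ⟨c, hc⟩ := exists_prime_orderOf_dvd_card' (G := H) r
      (hrd.trans (S : Subgroup H).index_dvd_card)
    have hro : Odd r := hodd.of_dvd_nat hrd
    have hcr : c ^ r = 1 := by rw [← hc, pow_orderOf_eq_one]
    obtain ⟨ρ, hρ⟩ := hRc.exists_generator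
    have hρo : orderOf ((ρ : (S : Subgroup H)) : H) = 2 ^ m := by
      rw [Subgroup.orderOf_coe, Subgroup.orderOf_coe, ← hm]
      exact orderOf_eq_card_of_forall_mem_zpowers hρ
    set R := R0.map (S : Subgroup H).subtype with hR
    have memR' : ∀ a : (S : Subgroup H), (a : H) ∈ R ↔ a ∈ R0 := fun a =>
      ⟨fun ⟨b, hb, h⟩ => by rwa [← (Subtype.ext h : b = a)], fun h => ⟨a, h, rfl⟩⟩
    have eR := R0.equivMapOfInjective _ (S : Subgroup H).subtype_injective
    have hRc' : IsCyclic R := isCyclic_of_surjective eR eR.surjective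
    have hcρ : c * (ρ : (S : Subgroup H)) * c⁻¹ ∈ R := by
      have hm' := hn.conj_mem _ (ρ : (S : Subgroup H)).2 c
      by_contra h
      have h2 := hout ⟨_, hm'⟩ (fun h' => h ((memR' _).2 h'))
      have h3 : (c * (ρ : (S : Subgroup H)) * c⁻¹) ^ 2 = 1 := by
        rw [pow_two]; exact congrArg Subtype.val h2
      rw [conj_pow, conj_eq_one_iff] at h3
      have h5 := orderOf_dvd_of_pow_eq_one h3
      rw [hρo] at h5
      have := (Nat.pow_dvd_pow_iff_le_right (by norm_num : 1 < 2)).1
        (show 2 ^ m ∣ 2 ^ 1 by simpa using h5)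
      omega
    have hcN : c ∈ normalizer (R : Set H) := by
      refine mem_normalizer_fintype ?_
      rintro _ ⟨a, ha, rfl⟩
      obtain ⟨j, hj⟩ := hρ ⟨a, ha⟩
      have : (a : H) = ((ρ : (S : Subgroup H)) : H) ^ j := by
        have := congrArg (fun x : R0 => ((x : (S : Subgroup H)) : H)) hj
        simpa using this.symm
      show c * (a : H) * c⁻¹ ∈ R
      rw [this, ← conj_zpow]
      exact zpow_mem hcρ j
    have hcC := odd_cent hRc' (hR2.map _) hcN hro (by rw [hcr]; exact one_mem _)
    have hcs := hn.conj_mem _ s.2 c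
    have hu : c * s * c⁻¹ * s ∈ R := by
      refine (memR' (⟨_, hcs⟩ * s)).2 (htwo _ _ (fun h => hs ?_) hs)
      have h2 := mem_centralizer_iff.1 hcC _ ((memR' _).2 h)
      have h3 : c * s * c⁻¹ = s := by
        have : c * s * c⁻¹ * c = c * (c * s * c⁻¹) := h2
        have h5 : (s : H) = c * s * c⁻¹ := by
          rw [inv_mul_cancel_right] at this
          exact mul_left_cancel this
        exact h5.symm
      rwa [show (⟨_, hcs⟩ : (S : Subgroup H)) = s from Subtype.ext h3] at h
    set u := c * s * c⁻¹ * s with hudef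
    have huc : u * c = c * u := mem_centralizer_iff.1 hcC u hu
    have hcs1 : c * s * c⁻¹ = u * s := by rw [hudef, mul_assoc (c * s * c⁻¹), hss, mul_one]
    have hpow : ∀ j : ℕ, c ^ j * s * (c ^ j)⁻¹ = u ^ j * s := by
      intro j
      induction j with
      | zero => simp
      | succ j ih =>
        have hcomm : Commute (u ^ j) c := (show Commute u c from huc).pow_left j
        calc c ^ (j + 1) * s * (c ^ (j + 1))⁻¹ = c * (c ^ j * s * (c ^ j)⁻¹) * c⁻¹ := by
              rw [pow_succ']; group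
          _ = c * u ^ j * s * c⁻¹ := by rw [ih]; group
          _ = u ^ j * (c * s * c⁻¹) := by rw [← hcomm.eq]; group
          _ = _ := by rw [hcs1, pow_succ u, mul_assoc (u ^ j)]
    have hur : u ^ r = 1 := by
      have := hpow r
      rw [hcr] at this
      simpa using this.symm
    have hu1 : u = 1 := by
      obtain ⟨k, hk⟩ := (hR2.map (S : Subgroup H).subtype) ⟨u, hu⟩
      have hk' : u ^ 2 ^ k = 1 := congrArg Subtype.val hk
      exact orderOf_eq_one_iff.1 (Nat.eq_one_of_dvd_coprimes
        ((Nat.coprime_two_left.2 hro).pow_left k) (orderOf_dvd_of_pow_eq_one hk')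
        (orderOf_dvd_of_pow_eq_one hur))
    rw [hu1, one_mul] at hcs1
    have : c ∈ K := by
      apply hK' K hKS h4
      rw [hKdef, centralizer_closure, mem_centralizer_iff]
      rintro _ (rfl | rfl)
      · exact mem_centralizer_iff.1 hcC _ ((memR' _).2 z.2)
      · nth_rewrite 1 [← hcs1]; group
    have h2 := orderOf_dvd_of_pow_eq_one (show c ^ 2 = 1 by
      rw [pow_two]; exact Inv.four_mul_self h4 this)
    rw [hc] at h2
    have := (Nat.prime_dvd_prime_iff_eq hr Nat.prime_two).1 h2
    subst this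
    exact absurd hro (by decide)

/-- Let G be a finite group with Sylow 2-subgroup P. Every subgroup H of G whose Sylow 2-subgroup is normal in H with cyclic quotient is cyclic, dihedral of 2-power order, or isomorphic to the alternating group of degree 4, if and only if either P is cyclic, or P is dihedral (of order at least 4) and every elementary abelian subgroup K of order 4 of P satisfies C_G(K) = K. -/
theorem result {G : Type*} [Group G] [Finite G] (P : Sylow 2 G) :
    (∀ H : Subgroup G, (∀ S : Sylow 2 ↥H, (S : Subgroup ↥H).Normal) →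
        (∀ (S : Sylow 2 ↥H) [(S : Subgroup ↥H).Normal], IsCyclic (↥H ⧸ (S : Subgroup ↥H))) →
        IsCyclic H ∨ (∃ n : ℕ, Nonempty (H ≃* DihedralGroup (2 ^ n))) ∨ Nonempty (H ≃* alternatingGroup (Fin 4))) ↔
    (IsCyclic P ∨
      ((∃ n : ℕ, 1 ≤ n ∧ Nonempty ((P : Subgroup G) ≃* DihedralGroup (2 ^ n))) ∧
        ∀ K : Subgroup G, K ≤ P → Nat.card K = 4 → (∀ k ∈ K, k ^ 2 = 1) → Subgroup.centralizer (K : Set G) = K)) := by
  haveI : Fact (Nat.Prime 2) := ⟨Nat.prime_two⟩
  constructor
  · intro h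
    obtain ⟨h1, h2⟩ := pbc P.isPGroup' (one_mem (normalizer ((P : Subgroup G) : Set G)))
    have e : (P : Subgroup G) ⊔ zpowers (1 : G) = P := by simp
    obtain ⟨m, hm⟩ := P.isPGroup'.exists_card_eq
    rcases h _ h1 h2 with hc | ⟨n, ⟨e'⟩⟩ | ⟨⟨e'⟩⟩
    · rw [e] at hc; exact Or.inl hc
    · rw [e] at e'
      rcases Nat.eq_zero_or_pos n with rfl | hn
      · left
        exact isCyclic_of_prime_card (p := 2) (by
          rw [Nat.card_congr e'.toEquiv, DihedralGroup.nat_card]; rfl)
      refine Or.inr ⟨⟨n, hn, ⟨e'⟩⟩, fun K hKP h4 hK2 => ?_⟩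
      have hsq : ∀ k ∈ K, k * k = 1 := fun k hk => by rw [← pow_two]; exact hK2 k hk
      have hKc : ∀ a ∈ K, ∀ b ∈ K, a * b = b * a := fun a ha b hb =>
        (Inv.commute_of_mul_self (hsq a ha) (hsq b hb) (hsq _ (K.mul_mem ha hb))).eq
      refine le_antisymm (fun x hx => ?_) fun a ha => mem_centralizer_iff.2 fun b hb => hKc b hb a ha
      obtain ⟨h1, h2⟩ := pbc (P.isPGroup'.to_le hKP) (centralizer_le_normalizer _ hx)
      have hxH : x ∈ K ⊔ zpowers x := (le_sup_right : zpowers x ≤ _) (mem_zpowers x)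
      have hcomm : ∀ a b : ↥(K ⊔ zpowers x), a * b = b * a := by
        have h3 : K ⊔ zpowers x ≤ centralizer (K : Set G) :=
          sup_le (fun a ha => mem_centralizer_iff.2 fun b hb => hKc b hb a ha) (zpowers_le.2 hx)
        have h5 : K ⊔ zpowers x ≤ centralizer ((K ⊔ zpowers x : Subgroup G) : Set G) := by
          refine sup_le (le_centralizer_iff.1 h3) (zpowers_le.2 ?_)
          rw [← zpowers_le, le_centralizer_iff]
          refine sup_le (le_centralizer_iff.1 (zpowers_le.2 hx)) ?_
          exact le_centralizer _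
        intro a b
        exact Subtype.ext (mem_centralizer_iff.1 (h5 b.2) a a.2)
      rcases h _ h1 h2 with hc | ⟨l, ⟨e''⟩⟩ | ⟨⟨e''⟩⟩
      · exfalso
        have hKc' : IsCyclic K := cyc_of_emb hc (MonoidHom.id G) Function.injective_id
          (fun s hs => (le_sup_left : K ≤ _) hs)
        obtain ⟨g, hg⟩ := hKc'.exists_generator
        have h6 := orderOf_eq_card_of_forall_mem_zpowers hg
        have h7 := orderOf_dvd_of_pow_eq_one (show g ^ 2 = 1 from Subtype.ext (hK2 g g.2))
        rw [h6, h4] at h7; norm_num at h7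
      · haveI : NeZero (2 ^ l) := ⟨pow_ne_zero _ two_ne_zero⟩
        have h6 : ∀ a b : DihedralGroup (2 ^ l), a * b = b * a := fun a b => by
          obtain ⟨a, rfl⟩ := e''.surjective a
          obtain ⟨b, rfl⟩ := e''.surjective b
          rw [← map_mul, hcomm, map_mul]
        have h7 := h6 (.r 1) (.sr 0)
        rw [DihedralGroup.r_mul_sr, DihedralGroup.sr_mul_r] at h7
        have h8 : ((2 : ℕ) : ZMod (2 ^ l)) = 0 := by
          have := DihedralGroup.sr.inj h7
          push_cast; linear_combination -this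
        have h9 := Nat.le_of_dvd (by norm_num) ((ZMod.natCast_eq_zero_iff _ _).1 h8)
        have h10 : K = K ⊔ zpowers x := eq_of_le_of_card_ge le_sup_left (by
          rw [Nat.card_congr e''.toEquiv, DihedralGroup.nat_card, h4]; omega)
        rw [h10]; exact hxH
      · exfalso
        have h6 : ∀ a b : alternatingGroup (Fin 4), a * b = b * a := fun a b => by
          obtain ⟨a, rfl⟩ := e''.surjective a
          obtain ⟨b, rfl⟩ := e''.surjective b
          rw [← map_mul, hcomm, map_mul]
        revert h6; decide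
    · exfalso
      rw [e] at e'
      have h3 := Nat.card_congr e'.toEquiv
      have h12 : Nat.card (alternatingGroup (Fin 4)) = 12 := by
        rw [Nat.card_eq_fintype_card]; decide
      rw [hm, h12] at h3
      have : 3 ∣ 2 ^ m := by rw [h3]; norm_num
      have := (Nat.prime_dvd_prime_iff_eq Nat.prime_three Nat.prime_two).1
        (Nat.prime_three.dvd_of_dvd_pow this)
      omega
  · intro h H h1 h2
    obtain ⟨S⟩ : Nonempty (Sylow 2 H) := inferInstance
    haveI := h1 S
    obtain ⟨f, hf, hle⟩ := exists_emb P H S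
    rcases h with h | ⟨⟨n, -, ⟨e⟩⟩, hK⟩
    · exact Or.inl (back_cyc S (cyc_of_emb h f hf hle) (h2 S))
    · exact back P f hf S (h2 S) hle e hK

end Cfsg.Agent.S4083
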