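import Mathlib
import Cfsg.Statements.S4084
import Cfsg.Agent.FGS.Basic2
-- import your own Cfsg.Agent.* helpers here

set_option autoImplicit false
open Cfsg

namespace Cfsg.Agent.S4084

theorem aux {G H : Type*} [Group G] [Finite G] [Group H] [Finite H] (e : G ≃ H)
    (he : ∀ x y : G, Commute x y ↔ Commute (e x) (e y))
    {p q : ℕ} (hp : p.Prime) (hq : q.Prime) (hpq : p ≠ q) :
    (∃ g : G, orderOf g = p * q) → (∃ h : H, orderOf h = p * q) := by
  rintro ⟨g, hg⟩
  let A := Subgroup.centralizer (Subgroup.centralizer {g} : Set G)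
  let B := Subgroup.centralizer (Subgroup.centralizer {e g} : Set H)
  have hAB : ∀ x, x ∈ A ↔ e x ∈ B := fun x => by
    simp only [A, B, Subgroup.mem_centralizer_iff, SetLike.mem_coe, Set.mem_singleton_iff, forall_eq]
    constructor
    · intro h y hy
      obtain ⟨y, rfl⟩ := e.surjective y
      exact (he _ _).1 (h y ((he _ _).2 hy))
    · intro h y hy
      exact (he _ _).2 (h _ ((he _ _).1 hy))
  have hc : Nat.card A = Nat.card B := Nat.card_congr (e.subtypeEquiv hAB)
  have hd : p * q ∣ Nat.card B := by
    rw [← hc, ← hg]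
    exact Subgroup.orderOf_dvd_natCard _ fun y hy =>
      Subgroup.mem_centralizer_singleton_iff.1 hy
  obtain ⟨a, ha, hao⟩ := FGS.exists_prime_orderOf_mem hp (Dvd.dvd.trans (Dvd.intro _ rfl) hd)
  obtain ⟨b, hb, hbo⟩ := FGS.exists_prime_orderOf_mem hq (Dvd.dvd.trans (Dvd.intro_left _ rfl) hd)
  have hab : Commute a b := hb a (Subgroup.mem_centralizer_singleton_iff.2
    (ha _ (Subgroup.mem_centralizer_singleton_iff.2 rfl)).symm)
  exact ⟨a * b, by
    rw [hab.orderOf_mul_eq_mul_orderOf_of_coprime
      (by rw [hao, hbo]; exact (Nat.coprime_primes hp hq).2 hpq), hao, hbo]⟩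

/-- Let G and H be finite groups whose commuting graphs are isomorphic: there is a bijection e : G → H with x, y commuting exactly when e(x), e(y) commute. Then G and H have the same prime graph: for distinct primes p, q, G has an element of order pq if and only if H does (and #G = #H, so the prime divisors agree). -/
theorem result {G H : Type*} [Group G] [Finite G] [Group H] [Finite H] (e : G ≃ H)
    (he : ∀ x y : G, Commute x y ↔ Commute (e x) (e y))
    {p q : ℕ} (hp : p.Prime) (hq : q.Prime) (hpq : p ≠ q) :
    (∃ g : G, orderOf g = p * q) ↔ (∃ h : H, orderOf h = p * q) := by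
  exact ⟨aux e he hp hq hpq, aux e.symm (fun x y => by rw [he]; simp) hp hq hpq⟩

end Cfsg.Agent.S4084
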