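import Mathlib
import Cfsg.Statements.S4085
import Cfsg.Agent.BG.Rank2
import Cfsg.Agent.Fischer.ES
-- import your own Cfsg.Agent.* helpers here

set_option autoImplicit false
open Cfsg

namespace Cfsg.Agent.S4085

open Subgroup Cfsg.Agent.BG.Rank

section
variable {G : Type*} [Group G] [Finite G]

/-- adjacency in the power graph -/
def Adj (a b : G) : Prop := a ∈ zpowers b ∨ b ∈ zpowers a

theorem mem_of_dvd {w a b : G} (ha : a ∈ zpowers w) (hb : b ∈ zpowers w)
    (h : orderOf a ∣ orderOf b) : a ∈ zpowers b :=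
  zpowers_le.1 (le_of_card_dvd_of_isCyclic (C := zpowers w) inferInstance (zpowers_le.2 ha)
    (zpowers_le.2 hb) (by rwa [Nat.card_zpowers, Nat.card_zpowers]))

theorem adj_iff {w a b : G} (ha : a ∈ zpowers w) (hb : b ∈ zpowers w) :
    Adj a b ↔ orderOf a ∣ orderOf b ∨ orderOf b ∣ orderOf a :=
  ⟨Or.imp orderOf_dvd_of_mem_zpowers orderOf_dvd_of_mem_zpowers,
    Or.imp (mem_of_dvd ha hb) (mem_of_dvd hb ha)⟩

theorem exists_ord {w : G} {d : ℕ} (h : d ∣ orderOf w) : ∃ a ∈ zpowers w, orderOf a = d :=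
  ⟨_, pow_mem (mem_zpowers w) _, orderOf_pow_orderOf_div (orderOf_pos w).ne' h⟩

omit [Finite G] in
theorem twin {a b : G} (h : zpowers a = zpowers b) (c : G) : Adj a c ↔ Adj b c := by
  rw [Adj, Adj, h, ← zpowers_le, h, zpowers_le]

theorem ncard_gens (w : G) : {a | zpowers a = zpowers w}.ncard = (orderOf w).totient := by
  classical
  haveI := Fintype.ofFinite (zpowers w)
  rw [← IsCyclic.card_orderOf_eq_totient (α := zpowers w) (d := orderOf w)
    (by rw [← Nat.card_eq_fintype_card, Nat.card_zpowers]), ← Set.ncard_coe_finset,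
    ← Set.ncard_image_of_injective _ (zpowers w).subtype_injective]
  congr 1
  ext a
  simp only [Set.mem_setOf_eq, Set.mem_image, Finset.coe_filter, Finset.mem_univ, true_and]
  constructor
  · intro h
    refine ⟨⟨a, h ▸ mem_zpowers a⟩, ?_, rfl⟩
    rw [orderOf_mk, ← Nat.card_zpowers, h, Nat.card_zpowers]
  · rintro ⟨a, h, rfl⟩
    exact le_antisymm (zpowers_le.2 a.2) (zpowers_le.2 (mem_of_dvd (mem_zpowers w) a.2
      (by rw [coe_subtype, orderOf_coe, h])))

theorem dom {w t : G} (ht : t ∈ zpowers w) (h : ∀ c ∈ zpowers w, Adj t c) :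
    t = 1 ∨ zpowers t = zpowers w ∨ ∃ l k : ℕ, l.Prime ∧ orderOf w = l ^ k := by
  by_contra hcon
  push Not at hcon
  obtain ⟨h1, h2, h3⟩ := hcon
  have h4 : ¬ orderOf w ∣ orderOf t := fun h' =>
    h2 (le_antisymm (zpowers_le.2 ht) (zpowers_le.2 (mem_of_dvd (mem_zpowers w) ht h')))
  rw [Nat.dvd_iff_prime_pow_dvd_dvd] at h4
  push Not at h4
  obtain ⟨l, k, hl, h5, h6⟩ := h4
  obtain ⟨b, hb, hbo⟩ := exists_ord h5
  have h7 := ((adj_iff ht hb).1 (h b hb)).resolve_right (hbo ▸ h6)
  obtain ⟨j, -, hj⟩ := (Nat.dvd_prime_pow hl).1 (hbo ▸ h7)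
  refine h3 l _ hl (Nat.eq_prime_pow_of_unique_prime_dvd (orderOf_pos w).ne' fun {r} hr hrw => ?_)
  obtain ⟨c, hc, hco⟩ := exists_ord hrw
  rcases (adj_iff ht hc).1 (h c hc) with h8 | h8 <;> rw [hco, hj] at h8
  · rcases j with _ | j
    · exact absurd (orderOf_eq_one_iff.1 hj) h1
    · exact ((Nat.prime_dvd_prime_iff_eq hl hr).1 ((dvd_pow_self l j.succ_ne_zero).trans h8)).symm
  · exact (Nat.prime_dvd_prime_iff_eq hr hl).1 (hr.dvd_of_dvd_pow h8)

theorem adj_of_pp {w a b : G} {l k : ℕ} (hl : l.Prime) (h : orderOf w = l ^ k) (ha : a ∈ zpowers w)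
    (hb : b ∈ zpowers w) : Adj a b := by
  obtain ⟨i, -, hi⟩ := (Nat.dvd_prime_pow hl).1 (h ▸ orderOf_dvd_of_mem_zpowers ha)
  obtain ⟨j, -, hj⟩ := (Nat.dvd_prime_pow hl).1 (h ▸ orderOf_dvd_of_mem_zpowers hb)
  rw [adj_iff ha hb, hi, hj]
  exact (le_total i j).imp (pow_dvd_pow l) (pow_dvd_pow l)

end

theorem dir {G H : Type*} [Group G] [Finite G] [Group H] [Finite H] (e : G ≃ H)
    (he : ∀ x y : G, Adj x y ↔ Adj (e x) (e y)) {p q : ℕ} (hp : p.Prime) (hq : q.Prime) (hpq : p < q)
    {g : G} (hg : orderOf g = p * q) : ∃ h : H, orderOf h = p * q := by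
  obtain ⟨_, hgx, ⟨x, rfl⟩, hmax⟩ := Finite.exists_le_maximal
    (p := fun S : Subgroup G => ∃ x, S = zpowers x) ⟨g, rfl⟩
  have hN : ∀ x', zpowers x' = zpowers x → ∀ a, Adj x' a ↔ a ∈ zpowers x := fun x' hx' a =>
    (twin hx' a).trans ⟨fun h => h.elim
      (fun h => hmax ⟨a, rfl⟩ (zpowers_le.2 h) (mem_zpowers a)) id, Or.inr⟩
  have hn : p * q ∣ orderOf x := hg ▸ orderOf_dvd_of_mem_zpowers (hgx (mem_zpowers g))
  obtain ⟨u, hu, huo⟩ := exists_ord ((dvd_mul_right p q).trans hn)
  obtain ⟨v, hv, hvo⟩ := exists_ord ((dvd_mul_left q p).trans hn)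
  have hpq1 : ¬ p ∣ q := fun h => hpq.ne ((Nat.prime_dvd_prime_iff_eq hp hq).1 h)
  have hpq2 : ¬ q ∣ p := fun h => hpq.ne' ((Nat.prime_dvd_prime_iff_eq hq hp).1 h)
  have huv : ¬ Adj u v := by
    rw [adj_iff hu hv, huo, hvo]; tauto
  have huv' : ¬ Adj (e u) (e v) := fun h => huv ((he _ _).2 h)
  have common : ∀ c ∈ zpowers x, Adj (e c) (e u) → Adj (e c) (e v) →
      c = 1 ∨ (p ∣ orderOf c ∧ q ∣ orderOf c) := by
    intro c hc h1 h2
    rw [← he, adj_iff hc hu, huo, Nat.dvd_prime hp] at h1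
    rw [← he, adj_iff hc hv, hvo, Nat.dvd_prime hq] at h2
    rw [← orderOf_eq_one_iff]
    rcases h1 with (h1 | h1) | h1
    · exact Or.inl h1
    · rw [h1] at h2 ⊢
      rcases h2 with (h2 | h2) | h2
      exacts [Or.inl h2, absurd h2 hpq.ne, absurd h2 hpq2]
    · rcases h2 with (h2 | h2) | h2
      exacts [Or.inl h2, absurd (h2 ▸ h1) hpq1, Or.inr ⟨h1, h2⟩]
  by_cases hB : ∃ x', zpowers x' = zpowers x ∧ e u ∈ zpowers (e x') ∧ e v ∈ zpowers (e x')
  · obtain ⟨x', hx', h1, h2⟩ := hB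
    have C : ∀ s, e x' ∈ zpowers s → s ∉ zpowers (e x') → s = e 1 := by
      intro s hs hs'
      obtain ⟨a, rfl⟩ := e.surjective s
      have hle := zpowers_le.2 hs
      have ha : a ∈ zpowers x := (hN x' hx' a).1 ((he _ _).2 (Or.inl hs))
      obtain rfl | ⟨h3, h4⟩ := common a ha (Or.inr (hle h1)) (Or.inr (hle h2))
      · rfl
      exfalso
      by_cases hd : orderOf x ∣ orderOf a
      · have hax : zpowers a = zpowers x' := hx' ▸ le_antisymm (zpowers_le.2 ha)
          (zpowers_le.2 (mem_of_dvd (mem_zpowers x) ha hd))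
        rcases dom hs (fun c hc => by
          obtain ⟨c, rfl⟩ := e.surjective c
          exact (he _ _).1 ((twin hax c).1 ((he _ _).2 (Or.inr hc)))) with h | h | ⟨l, k, hl, h⟩
        · rw [h, zpowers_one_eq_bot, mem_bot] at h1
          exact huv' (Or.inl (h1 ▸ one_mem _))
        · exact hs' (h ▸ mem_zpowers _)
        · exact huv' (adj_of_pp hl h (hle h1) (hle h2))
      · rw [Nat.dvd_iff_prime_pow_dvd_dvd] at hd
        push Not at hd
        obtain ⟨l, k, hl, h5, h6⟩ := hd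
        obtain ⟨b, hb, hbo⟩ := exists_ord h5
        have hne : ¬ (p ∣ l ^ k ∧ q ∣ l ^ k) := fun h => hpq.ne
          (((Nat.prime_dvd_prime_iff_eq hp hl).1 (hp.dvd_of_dvd_pow h.1)).trans
            ((Nat.prime_dvd_prime_iff_eq hq hl).1 (hq.dvd_of_dvd_pow h.2)).symm)
        have hab : ¬ Adj a b := by
          rw [adj_iff ha hb, hbo]
          exact fun h => h.elim (fun h => hne ⟨h3.trans h, h4.trans h⟩) h6
        rcases (he _ _).1 ((hN x' hx' b).2 hb) with h | h
        · have hle' := zpowers_le.2 h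
          rcases common b hb (Or.inr (hle' h1)) (Or.inr (hle' h2)) with h7 | h7
          · exact hab (Or.inr (h7 ▸ one_mem _))
          · exact hne (hbo ▸ h7)
        · exact hab ((he _ _).2 (Or.inr (hle h)))
    have M : ∀ s, e x' ∈ zpowers s → s ∈ zpowers (e x') := by
      intro s hs
      by_contra hs'
      have h3 := (C s⁻¹ (by rwa [zpowers_inv]) (by rwa [inv_mem_iff])).trans (C s hs hs').symm
      have h4 : s * s = 1 := by nth_rewrite 1 [← h3]; exact inv_mul_cancel s
      have hle := zpowers_le.2 hs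
      rcases (Fischer.mem_zpowers_two h4).1 (hle h1) with h5 | h5
      · exact huv' (Or.inl (h5 ▸ one_mem _))
      · exact huv' (Or.inr (h5 ▸ hle h2))
    have hc : orderOf (e x') = orderOf x := by
      rw [← Nat.card_zpowers, ← Nat.card_zpowers]
      refine Nat.card_congr (e.subtypeEquiv fun a => ?_).symm
      rw [← hN x' hx', he]
      exact ⟨fun h => h.elim (M _) id, Or.inr⟩
    obtain ⟨h, -, hh⟩ := exists_ord (hc ▸ hn)
    exact ⟨h, hh⟩
  exfalso
  have hA : ∀ x', zpowers x' = zpowers x → e x' ∈ zpowers (e u) := by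
    intro x' hx'
    rcases (he _ _).1 ((hN x' hx' u).2 hu) with h1 | h1
    · exact h1
    rcases (he _ _).1 ((hN x' hx' v).2 hv) with h2 | h2
    · exact absurd (Or.inl (zpowers_le.2 h2 h1)) huv'
    · exact absurd ⟨x', hx', h1, h2⟩ hB
  have hT : ∀ u', zpowers (e u') = zpowers (e u) → zpowers u' = zpowers u := by
    intro u' h
    have tw : ∀ c, Adj u' c ↔ Adj u c := fun c => by rw [he, he, twin h]
    have h1 : u' ∈ zpowers x := (hN x rfl u').1 (Or.symm ((tw x).2 (Or.inl hu)))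
    obtain ⟨c, hc, hco⟩ := exists_ord hn
    have h2 := mt (tw v).1 huv
    have h3 := (tw c).2 (Or.inl (mem_of_dvd hu hc (by rw [huo, hco]; exact dvd_mul_right _ _)))
    rw [adj_iff h1 hv, hvo, not_or] at h2
    rw [adj_iff h1 hc, hco] at h3
    have h4 : orderOf u' = p := by
      have h5 := h3.resolve_right fun h => h2.2 ((dvd_mul_left q p).trans h)
      have h6 := ((Nat.Prime.coprime_iff_not_dvd hq).2 h2.2).symm.dvd_of_dvd_mul_right h5
      exact ((Nat.dvd_prime hp).1 h6).resolve_left fun h => h2.1 (h ▸ one_dvd _)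
    exact le_antisymm (zpowers_le.2 (mem_of_dvd h1 hu (by rw [h4, huo])))
      (zpowers_le.2 (mem_of_dvd hu h1 (by rw [h4, huo])))
  have hp2 := hp.two_le
  have hpqn := Nat.le_of_dvd (orderOf_pos x) hn
  by_cases h2 : p = 2
  · subst h2
    have huu : u * u = 1 := by rw [← pow_two, ← huo, pow_orderOf_eq_one]
    have h3 := hT (e.symm (e u)⁻¹) (by rw [e.apply_symm_apply, zpowers_inv])
    have h4 : (e u)⁻¹ = e u := by
      rcases (Fischer.mem_zpowers_two huu).1 (h3 ▸ mem_zpowers _) with h | h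
      · rw [h, zpowers_one_eq_bot, eq_comm, zpowers_eq_bot] at h3
        rw [h3, orderOf_one] at huo
        omega
      · exact e.symm_apply_eq.1 h
    have h5 : e u * e u = 1 := by nth_rewrite 1 [← h4]; exact inv_mul_cancel _
    have h6 : ∀ x', zpowers x' = zpowers x → e x' = 1 := fun x' hx' =>
      ((Fischer.mem_zpowers_two h5).1 (hA x' hx')).resolve_right fun h => by
        rw [e.injective h] at hx'
        rw [← Nat.card_zpowers, ← hx', Nat.card_zpowers, huo] at hpqn
        omega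
    have h7 : x⁻¹ = x := e.injective ((h6 _ zpowers_inv).trans (h6 x rfl).symm)
    have h8 : orderOf x ∣ 2 := orderOf_dvd_of_pow_eq_one (by
      rw [pow_two]; nth_rewrite 1 [← h7]; exact inv_mul_cancel x)
    have := Nat.le_of_dvd two_pos h8
    omega
  have hz : (orderOf (e u)).totient ≤ p - 1 := by
    rw [← Nat.totient_prime hp, ← huo, ← ncard_gens, ← ncard_gens,
      ← Set.ncard_image_of_injective _ e.injective]
    refine Set.ncard_le_ncard (fun s hs => ?_)
    obtain ⟨s, rfl⟩ := e.surjective s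
    exact ⟨s, hT s hs, rfl⟩
  obtain ⟨x₀, hx₀, hmx⟩ := Set.exists_max_image {a | zpowers a = zpowers x}
    (fun a => orderOf (e a)) (Set.toFinite _) ⟨x, rfl⟩
  have hw : (orderOf (e x₀)).totient ≤ p - 1 := le_trans (Nat.le_of_dvd
    (Nat.totient_pos.2 (orderOf_pos _))
    (Nat.totient_dvd_of_dvd (orderOf_dvd_of_mem_zpowers (hA x₀ hx₀)))) hz
  have hin : ∀ x', zpowers x' = zpowers x → e x' ∈ zpowers (e x₀) := by
    intro x' hx'
    rcases (he _ _).1 ((hN x' hx' x₀).2 (hx₀ ▸ mem_zpowers x₀)) with h | h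
    · exact h
    · refine mem_of_dvd (hA _ hx') (hA _ hx₀) (dvd_of_eq (le_antisymm (hmx x' hx') ?_))
      exact Nat.le_of_dvd (orderOf_pos _) (orderOf_dvd_of_mem_zpowers h)
  have hlo : (p - 1) * (q - 1) ≤ (e '' {a | zpowers a = zpowers x}).ncard := by
    rw [Set.ncard_image_of_injective _ e.injective, ncard_gens, ← Nat.totient_prime hp,
      ← Nat.totient_prime hq, ← Nat.totient_mul ((Nat.coprime_primes hp hq).2 hpq.ne)]
    exact Nat.le_of_dvd (Nat.totient_pos.2 (orderOf_pos _)) (Nat.totient_dvd_of_dvd hn)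
  have hhi : (e '' {a | zpowers a = zpowers x}).ncard ≤ 2 * (p - 1) := by
    by_cases hpp : ∃ l k : ℕ, l.Prime ∧ orderOf (e x₀) = l ^ k
    · obtain ⟨l, k, hl, h⟩ := hpp
      have h1 : (e '' {a | zpowers a = zpowers x}).ncard ≤ l ^ k := by
        rw [← h, ← Nat.card_zpowers]
        refine Set.ncard_le_ncard (t := (zpowers (e x₀) : Set H)) ?_
        rintro _ ⟨a, ha, rfl⟩
        exact hin a ha
      rcases k with _ | k
      · rw [pow_zero] at h1; omega
      · rw [h, Nat.totient_prime_pow_succ hl] at hw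
        have := hl.two_le
        obtain ⟨l, rfl⟩ : ∃ m, l = m + 1 := ⟨l - 1, by omega⟩
        rw [pow_succ] at h1
        rw [Nat.add_sub_cancel] at hw
        have : (l + 1) ^ k * 1 ≤ (l + 1) ^ k * l := Nat.mul_le_mul_left _ (by omega)
        nlinarith
    · have h1 : e '' {a | zpowers a = zpowers x} ⊆ insert 1 {a | zpowers a = zpowers (e x₀)} := by
        rintro _ ⟨a, ha, rfl⟩
        refine (dom (hin a ha) fun c hc => ?_).imp_right fun h => h.resolve_right hpp
        obtain ⟨c, rfl⟩ := e.surjective c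
        exact (he _ _).1 ((twin (ha.trans hx₀.symm) c).2 ((he _ _).2 (Or.inr hc)))
      have := (Set.ncard_le_ncard h1).trans (Set.ncard_insert_le _ _)
      rw [ncard_gens] at this
      omega
  have : (p - 1) * 3 ≤ (p - 1) * (q - 1) := Nat.mul_le_mul_left _ (by omega)
  omega

/-- Let G and H be finite groups whose power graphs are isomorphic: there is a bijection e : G → H such that, for all x, y, one of x, y is a power of the other exactly when one of e(x), e(y) is a power of the other. Then G and H have the same prime graph: for distinct primes p, q, G has an element of order pq if and only if H does. -/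
theorem result {G H : Type*} [Group G] [Finite G] [Group H] [Finite H] (e : G ≃ H)
    (he : ∀ x y : G, (x ∈ Subgroup.zpowers y ∨ y ∈ Subgroup.zpowers x) ↔
      (e x ∈ Subgroup.zpowers (e y) ∨ e y ∈ Subgroup.zpowers (e x)))
    {p q : ℕ} (hp : p.Prime) (hq : q.Prime) (hpq : p ≠ q) :
    (∃ g : G, orderOf g = p * q) ↔ (∃ h : H, orderOf h = p * q) := by
  have he' : ∀ x y : H, Adj x y ↔ Adj (e.symm x) (e.symm y) := fun x y => by
    have := he (e.symm x) (e.symm y)
    rw [e.apply_symm_apply, e.apply_symm_apply] at this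
    exact this.symm
  rcases lt_or_gt_of_ne hpq with h | h
  · exact ⟨fun ⟨_, hg⟩ => dir e he hp hq h hg, fun ⟨_, hg⟩ => dir e.symm he' hp hq h hg⟩
  · rw [mul_comm]
    exact ⟨fun ⟨_, hg⟩ => dir e he hq hp h hg, fun ⟨_, hg⟩ => dir e.symm he' hq hp h hg⟩

end Cfsg.Agent.S4085
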