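import Mathlib
import Cfsg.Statements.S4086
import Cfsg.Agent.FGS.Basic2
-- import your own Cfsg.Agent.* helpers here

set_option autoImplicit false
open Cfsg

namespace Cfsg.Agent.S4086

/-- For a finite group G the following are equivalent: every non-identity element has prime-power order; whenever two elements generate a cyclic subgroup, one of them is a power of the other (the enhanced power graph of G coincides with its power graph). -/
theorem result {G : Type*} [Group G] [Finite G] :
    (∀ g : G, g ≠ 1 → IsPrimePow (orderOf g)) ↔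
    (∀ x y : G, IsCyclic ↥(Subgroup.closure ({x, y} : Set G)) → (x ∈ Subgroup.zpowers y ∨ y ∈ Subgroup.zpowers x)) := by
  constructor
  · intro h x y hc
    obtain ⟨⟨z, hz⟩, hz'⟩ := hc.exists_generator
    obtain ⟨i, hi⟩ := mem_powers_iff_mem_zpowers.2 (hz' ⟨x, Subgroup.subset_closure (by simp)⟩)
    obtain ⟨j, hj⟩ := mem_powers_iff_mem_zpowers.2 (hz' ⟨y, Subgroup.subset_closure (by simp)⟩)
    obtain rfl : z ^ i = x := congrArg Subtype.val hi
    obtain rfl : z ^ j = y := congrArg Subtype.val hj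
    by_cases h1 : z = 1
    · simp [h1]
    obtain ⟨p, k, hp, -, e⟩ := (isPrimePow_nat_iff _).1 (h z h1)
    obtain ⟨a, -, ha⟩ := (Nat.dvd_prime_pow hp).1 (e ▸ Nat.gcd_dvd_right i (orderOf z))
    obtain ⟨b, -, hb⟩ := (Nat.dvd_prime_pow hp).1 (e ▸ Nat.gcd_dvd_right j (orderOf z))
    have key : ∀ i j : ℕ, Nat.gcd j (orderOf z) ∣ Nat.gcd i (orderOf z) →
        z ^ i ∈ Subgroup.zpowers (z ^ j) := fun i j hd => by
      obtain ⟨c, hc⟩ := hd.trans (Nat.gcd_dvd_left _ _)
      rw [hc, pow_mul]
      refine Subgroup.pow_mem _ ?_ c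
      rw [← zpow_natCast z (Nat.gcd _ _), Nat.gcd_eq_gcd_ab, zpow_add, zpow_mul, zpow_mul, zpow_natCast,
        zpow_natCast, pow_orderOf_eq_one, one_zpow, mul_one]
      exact Subgroup.zpow_mem_zpowers _ _
    rw [e] at ha hb
    rcases le_total a b with hab | hab
    · exact Or.inr (key _ _ (by rw [ha, hb]; exact pow_dvd_pow p hab))
    · exact Or.inl (key _ _ (by rw [ha, hb]; exact pow_dvd_pow p hab))
  · intro h g hg
    have h1 : orderOf g ≠ 1 := by rwa [Ne, orderOf_eq_one_iff]
    rw [isPrimePow_iff_unique_prime_dvd]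
    obtain ⟨p, hp, hd⟩ := Nat.exists_prime_and_dvd h1
    refine ⟨p, ⟨hp, hd⟩, fun q ⟨hq, hd'⟩ => ?_⟩
    obtain ⟨i, hi⟩ := FGS.exists_pow_orderOf_eq hd
    obtain ⟨j, hj⟩ := FGS.exists_pow_orderOf_eq hd'
    rcases h (g ^ i) (g ^ j) (Subgroup.isCyclic_of_le (H' := Subgroup.zpowers g) (by
      rw [Subgroup.closure_le]
      rintro _ (rfl | rfl) <;> exact Subgroup.pow_mem _ (Subgroup.mem_zpowers g) _)) with e | e
    · have := orderOf_dvd_of_mem_zpowers e
      rw [hi, hj] at this
      exact ((Nat.prime_dvd_prime_iff_eq hp hq).1 this).symm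
    · have := orderOf_dvd_of_mem_zpowers e
      rw [hi, hj] at this
      exact (Nat.prime_dvd_prime_iff_eq hq hp).1 this

end Cfsg.Agent.S4086
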