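import Mathlib
import Cfsg.Statements.S4088
import Cfsg.Agent.FGS.Casolo
import Cfsg.Agent.FGS.Sylow

set_option autoImplicit false
open Cfsg

namespace Cfsg.Agent.S4088

open Subgroup Cfsg.Agent.FGS
open scoped Pointwise

/-- Let G be a finite group, p a prime dividing the order of G, H a p-subgroup of G and P a Sylow p-subgroup of G. Call the subnormalizer of H the set of elements g of G such that H is subnormal in the subgroup generated by H and g. Then the number of elements of the subnormalizer of H equals the number of Sylow p-subgroups of G containing H times the order of N_G(P), and also equals the number of conjugates of H contained in P times the order of N_G(H). -/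
theorem result {G : Type*} [Group G] [Finite G] (p : ℕ) [Fact p.Prime]
    (hp : p ∣ Nat.card G) (H : Subgroup G) (hH : IsPGroup p H) (P : Sylow p G) :
    Nat.card {g : G // ((H).subgroupOf (H ⊔ Subgroup.zpowers g)).IsSubnormal} =
        Nat.card {Q : Sylow p G // H ≤ (Q : Subgroup G)} * Nat.card (Subgroup.normalizer ((P : Subgroup G) : Set G)) ∧
    Nat.card {g : G // ((H).subgroupOf (H ⊔ Subgroup.zpowers g)).IsSubnormal} =
        Nat.card {K : Subgroup G // K ≤ (P : Subgroup G) ∧ ∃ g : G, K = H.map (MulAut.conj g).toMonoidHom} *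
          Nat.card (Subgroup.normalizer (H : Set G)) := by
  haveI := Fintype.ofFinite G
  have h1 := card_subnormalizer hH P
  refine ⟨h1, h1.trans ?_⟩
  have h2 := card_smul_mem (L := G) P fun Q => H ≤ (Q : Subgroup G)
  have h3 := card_smul_mem (L := ConjAct G) H fun K => K ≤ (P : Subgroup G)
  rw [Sylow.stabilizer_eq_normalizer] at h2
  have h4 : Nat.card (MulAction.stabilizer (ConjAct G) H) = Nat.card (normalizer (H : Set G)) :=
    Nat.card_congr (ConjAct.ofConjAct.toEquiv.subtypeEquiv fun g =>
      (conjAct_pointwise_smul_iff (g := ConjAct.ofConjAct g)))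
  rw [← h4]
  refine Eq.trans ?_ (h2.symm.trans (Eq.trans ?_ (h3.trans ?_)))
  · congr 1
    refine Nat.card_congr (Equiv.subtypeEquivRight fun Q => ⟨fun h => ⟨h, ?_⟩, fun h => h.1⟩)
    obtain ⟨g, rfl⟩ := MulAction.exists_smul_eq G P Q
    exact ⟨g, rfl⟩
  · refine Nat.card_congr (((Equiv.inv G).trans ConjAct.toConjAct.toEquiv).subtypeEquiv fun g => ?_)
    change _ ↔ MulAut.conj g⁻¹ • H ≤ _
    rw [Core.conj_smul_le_iff, inv_inv]
    exact ⟨fun h x hx => mem_smul_sylow_iff.mp (h hx), fun h x hx => mem_smul_sylow_iff.mpr (h x hx)⟩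
  · rfl

end Cfsg.Agent.S4088
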