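import Mathlib
import Cfsg.Statements.S4089
import Cfsg.Agent.FGS.Casolo
import Cfsg.Agent.FGS.Sylow

set_option autoImplicit false
open Cfsg

namespace Cfsg.Agent.S4089

open Subgroup Cfsg.Agent.FGS
open scoped Pointwise

/-- Let G be a finite group, p a prime and H a p-subgroup of G. Then the set of elements g of G such that H is subnormal in the subgroup generated by H and g is the union of the normalizers N_G(R) over the subgroups R of G containing H with R = O_p(N_G(R)); and this set does not change when H is replaced by the intersection of all Sylow p-subgroups of G containing H. -/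
theorem result {G : Type*} [Group G] [Finite G] (p : ℕ) [Fact p.Prime]
    (H : Subgroup G) (hH : IsPGroup p H) :
    {g : G | ((H).subgroupOf (H ⊔ Subgroup.zpowers g)).IsSubnormal} =
      {g : G | ∃ R : Subgroup G, H ≤ R ∧ (Cfsg.pCore p (Subgroup.normalizer (R : Set G))).map (Subgroup.normalizer (R : Set G)).subtype = R ∧ g ∈ Subgroup.normalizer (R : Set G)} ∧
    ∀ g : G, (((H).subgroupOf (H ⊔ Subgroup.zpowers g)).IsSubnormal ↔
      (((sInf {K : Subgroup G | ∃ Q : Sylow p G, H ≤ (Q : Subgroup G) ∧ K = (Q : Subgroup G)})).subgroupOf ((sInf {K : Subgroup G | ∃ Q : Sylow p G, H ≤ (Q : Subgroup G) ∧ K = (Q : Subgroup G)}) ⊔ Subgroup.zpowers g)).IsSubnormal) := by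
  haveI := Fintype.ofFinite G
  constructor
  · ext g
    rw [Set.mem_ofPred_eq, Set.mem_ofPred_eq, isSubnormal_iff_exists hH]
    constructor
    · rintro ⟨T, hT⟩
      obtain ⟨R, -, hR⟩ := exists_maximal_ge_of_wellFoundedGT
        (fun T : Subgroup G => IsPGroup p T ∧ H ≤ T ∧ g ∈ normalizer (T : Set G)) T hT
      have h1 : R ≤ (pCore p (normalizer (R : Set G))).map (Subgroup.subtype _) := fun x hx =>
        ⟨⟨x, le_normalizer hx⟩, Core.le_pCore normal_in_normalizer hR.prop.1.comap_subtype hx, rfl⟩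
      exact ⟨R, hR.prop.2.1, le_antisymm (hR.le_of_ge ⟨(Core.pCore_isPGroup p).map _, hR.prop.2.1.trans h1,
        Core.le_normalizer_map_subtype_of_normal _ _ hR.prop.2.2⟩ h1) h1, hR.prop.2.2⟩
    · rintro ⟨R, h1, h2, h3⟩
      exact ⟨R, by rw [← h2]; exact (Core.pCore_isPGroup p).map _, h1, h3⟩
  · intro g
    have h1 : ∀ H : Subgroup G, IsPGroup p H → IsPGroup p
        ↥(sInf {K : Subgroup G | ∃ Q : Sylow p G, H ≤ (Q : Subgroup G) ∧ K = (Q : Subgroup G)}) := by
      intro H hH
      obtain ⟨Q, hQ⟩ := hH.exists_le_sylow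
      exact Q.isPGroup'.to_le (sInf_le ⟨Q, hQ, rfl⟩)
    rw [isSubnormal_iff_exists hH, isSubnormal_iff_exists (h1 H hH)]
    constructor
    · rintro ⟨T, hT, hHT, hg⟩
      refine ⟨_, h1 T hT, sInf_le_sInf ?_, mem_normalizer_fintype fun x hx => ?_⟩
      · rintro _ ⟨Q, hQ, rfl⟩
        exact ⟨Q, hHT.trans hQ, rfl⟩
      · refine mem_sInf.mpr ?_
        rintro _ ⟨Q, hQ, rfl⟩
        have := mem_sInf.mp hx _ ⟨g⁻¹ • Q, fun y hy => mem_smul_sylow_iff.mpr
          (by rw [inv_inv]; exact hQ ((mem_normalizer_iff.mp hg y).mp hy)), rfl⟩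
        have h2 := mem_smul_sylow_iff.mp this
        rwa [inv_inv] at h2
    · rintro ⟨T, hT, hHT, hg⟩
      refine ⟨T, hT, le_trans (le_sInf ?_) hHT, hg⟩
      rintro _ ⟨Q, hQ, rfl⟩
      exact hQ

end Cfsg.Agent.S4089
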