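import Mathlib
import Cfsg.Agent.Core.SylowOf
import Cfsg.Agent.Core.Cores
import Cfsg.Agent.Core.Coprime
import Cfsg.Agent.Core.Hall
import Cfsg.Agent.Core.PSolvable
import Cfsg.Statements.S4090
-- import your own Cfsg.Agent.* helpers here

set_option autoImplicit false
open scoped BigOperators
open Cfsg

namespace Cfsg.Agent.S4090

open Subgroup Cfsg.Agent.Core
open scoped Pointwise

theorem card_fib {α β : Type*} [Finite α] [Finite β] (f : α → β) (k : ℕ)
    (h : ∀ b, Nat.card {a // f a = b} = k) : Nat.card α = Nat.card β * k := by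
  classical
  haveI := Fintype.ofFinite β
  rw [← Nat.card_congr (Equiv.sigmaFiberEquiv f), Nat.card_sigma]
  simp [h]

section
variable {G G' : Type*} [Group G] [Group G']

def T (p : ℕ) (H : Subgroup G) : Set G :=
  {g | ∃ Q : Subgroup G, IsPGroup p Q ∧ H ≤ Q ∧ g ∈ normalizer (Q : Set G)}

def cl (H : Subgroup G) (g : G) : Subgroup G :=
  sInf {Q : Subgroup G | H ≤ Q ∧ g ∈ normalizer (Q : Set G)}

theorem le_cl (H : Subgroup G) (g : G) : H ≤ cl H g := le_sInf fun _ h => h.1

theorem cl_le {H Q : Subgroup G} {g : G} (h1 : H ≤ Q) (h2 : g ∈ normalizer (Q : Set G)) :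
    cl H g ≤ Q := sInf_le ⟨h1, h2⟩

theorem mem_norm_cl (H : Subgroup G) (g : G) : g ∈ normalizer (cl H g : Set G) := by
  rw [mem_normalizer_iff]
  intro x
  simp only [cl, Subgroup.mem_sInf, Set.mem_setOf_eq]
  exact ⟨fun h Q hQ => (mem_normalizer_iff.1 hQ.2 x).1 (h Q hQ),
    fun h Q hQ => (mem_normalizer_iff.1 hQ.2 x).2 (h Q hQ)⟩

theorem mem_norm_map (f : G →* G') {Q : Subgroup G} {g : G} (h : g ∈ normalizer (Q : Set G)) :
    f g ∈ normalizer (Q.map f : Set G') :=
  map_le_normalizer_map (zpowers_le.2 h) f ⟨g, mem_zpowers g, rfl⟩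

theorem mem_norm_comap (f : G →* G') {Q : Subgroup G'} {g : G}
    (h : f g ∈ normalizer (Q : Set G')) : g ∈ normalizer (Q.comap f : Set G) := by
  rw [mem_normalizer_iff] at h ⊢
  intro x
  simp only [mem_comap, map_mul, map_inv]
  exact h (f x)

theorem map_cl (f : G →* G') (H : Subgroup G) (g : G) : (cl H g).map f = cl (H.map f) (f g) := by
  apply le_antisymm
  · rw [map_le_iff_le_comap]
    exact cl_le (map_le_iff_le_comap.1 (le_cl _ _)) (mem_norm_comap f (mem_norm_cl _ _))
  · exact cl_le (map_mono (le_cl _ _)) (mem_norm_map f (mem_norm_cl _ _))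

theorem mem_T {p : ℕ} {H : Subgroup G} {g : G} : g ∈ T p H ↔ IsPGroup p (cl H g) :=
  ⟨fun ⟨_, h1, h2, h3⟩ => h1.to_le (cl_le h2 h3), fun h => ⟨_, h, le_cl _ _, mem_norm_cl _ _⟩⟩

theorem map_T {p : ℕ} (f : G →* G') {H : Subgroup G} {g : G} (h : g ∈ T p H) :
    f g ∈ T p (H.map f) := by
  rw [mem_T, ← map_cl]
  exact (mem_T.1 h).map f

theorem card_fiber (f : G →* G') (g : G) : Nat.card {x : G // f x = f g} = Nat.card f.ker := by
  refine Nat.card_congr ⟨fun x => ⟨g⁻¹ * x.1, by rw [MonoidHom.mem_ker, map_mul, x.2]; simp⟩,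
    fun y => ⟨g * y.1, by rw [map_mul, y.2, mul_one]⟩, fun x => ?_, fun y => ?_⟩ <;> simp

theorem card_T_p [Finite G] {p : ℕ} (f : G →* G') (hf : Function.Surjective f)
    (hk : IsPGroup p f.ker) (H : Subgroup G) :
    Nat.card (T p H) = Nat.card (T p (H.map f)) * Nat.card f.ker := by
  haveI : Finite G' := Finite.of_surjective f hf
  apply card_fib (fun x : T p H => (⟨f x, map_T f x.2⟩ : T p (H.map f)))
  rintro ⟨b, hb⟩
  obtain ⟨g, rfl⟩ := hf b
  rw [← card_fiber f g]
  refine Nat.card_congr ⟨fun x => ⟨x.1.1, congrArg Subtype.val x.2⟩, fun y => ⟨⟨y.1, ?_⟩,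
    Subtype.ext y.2⟩, fun x => rfl, fun y => rfl⟩
  obtain ⟨Q, h1, h2, h3⟩ := hb
  exact ⟨Q.comap f, h1.comap_of_ker_isPGroup f hk, map_le_iff_le_comap.1 h2,
    mem_norm_comap f (y.2.symm ▸ h3)⟩

theorem card_T_q [Finite G] {p : ℕ} [hp : Fact p.Prime] (f : G →* G') (hf : Function.Surjective f)
    (hk : (Nat.card f.ker).Coprime p) (H : Subgroup G) (hH : IsPGroup p H) :
    Nat.card (T p H) = Nat.card (T p (H.map f)) *
      Nat.card (f.ker ⊓ centralizer (H : Set G) : Subgroup G) := by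
  haveI : Finite G' := Finite.of_surjective f hf
  apply card_fib (fun x : T p H => (⟨f x, map_T f x.2⟩ : T p (H.map f)))
  rintro ⟨b, hb⟩
  obtain ⟨g0, rfl⟩ := hf b
  set N := f.ker with hN
  set W' := cl (H.map f) (f g0) with hW'
  set W := W'.comap f with hW
  have hW'p : IsPGroup p W' := mem_T.1 hb
  have hHW : H ≤ W := map_le_iff_le_comap.1 (le_cl _ _)
  have hNW : N ≤ W := ker_le_comap f W'
  have disj : ∀ Q : Subgroup G, IsPGroup p Q → ∀ x ∈ Q, x ∈ N → x = 1 := fun Q hQ x h1 h2 =>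
    eq_one_of_mem_of_coprime (coprime_of_isPGroup hQ hk) h2 h1
  have uniq : ∀ Q : Subgroup G, IsPGroup p Q → Q ≤ W → ∀ g, f g = f g0 → cl H g ≤ Q →
      Q = cl H g := by
    intro Q hQ hQW g hg hle
    refine le_antisymm (fun q hq => ?_) hle
    have : f q ∈ (cl H g).map f := by rw [map_cl, hg]; exact hQW hq
    obtain ⟨k, hk1, hk2⟩ := this
    have : k⁻¹ * q = 1 := disj Q hQ _ (Q.mul_mem (Q.inv_mem (hle hk1)) hq) (by
      rw [hN, MonoidHom.mem_ker, map_mul, map_inv, hk2, inv_mul_cancel])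
    rw [← inv_mul_eq_one.1 this]; exact hk1
  obtain ⟨Q, hQ, hHQ⟩ := exists_isSylowOf_ge hH hHW
  have hsup : N ⊔ Q = W := by
    obtain ⟨m, hm⟩ := IsPGroup.iff_card.1 hW'p
    apply hQ.sup_eq_of_relIndex_eq_pow hNW (n := m)
    rw [hN, relIndex_ker, hW, map_comap_eq_self_of_surjective hf, hm]
  have hnW : ∀ g, f g = f g0 → g ∈ normalizer (W : Set G) := fun g hg =>
    mem_norm_comap f (hg.symm ▸ mem_norm_cl _ _)
  have hQN : Q ≤ normalizer (N : Set G) := le_normalizer_of_normal
  obtain ⟨g1, hg1, hg1Q⟩ : ∃ g1, f g1 = f g0 ∧ g1 ∈ normalizer (Q : Set G) := by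
    obtain ⟨k, hk1, hk2⟩ := hQ.exists_mul_normalizer (hnW g0 rfl)
    rw [← hsup, mem_sup_of_le_normalizer hQN] at hk1
    obtain ⟨n, hn, q, hq, rfl⟩ := hk1
    refine ⟨n⁻¹ * g0, by rw [map_mul, map_inv, hn, inv_one, one_mul], ?_⟩
    have := (normalizer (Q : Set G)).mul_mem (le_normalizer hq) hk2
    simpa [mul_assoc] using this
  set C := N ⊓ centralizer (H : Set G) with hC
  set D := N ⊓ normalizer (Q : Set G) with hD
  have cent : ∀ n ∈ N, (∀ h ∈ H, n * h * n⁻¹ ∈ Q) → n ∈ C := by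
    intro n hn h
    refine ⟨hn, mem_centralizer_iff.2 fun x hx => ?_⟩
    have : n * x * n⁻¹ * x⁻¹ = 1 := disj Q hQ.isPGroup _
      (Q.mul_mem (h x hx) (Q.inv_mem (hHQ hx))) (by
        have hn' : f n = 1 := hn
        rw [hN, MonoidHom.mem_ker]; simp [hn'])
    rw [mul_inv_eq_one, mul_inv_eq_iff_eq_mul] at this
    exact this.symm
  have hDC : D ≤ C := fun n hn => cent n hn.1 fun h hh =>
    (mem_normalizer_iff.1 hn.2 h).1 (hHQ hh)
  have good : ∀ c ∈ C, IsPGroup p (MulAut.conj c • Q : Subgroup G) ∧ H ≤ MulAut.conj c • Q ∧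
      MulAut.conj c • Q ≤ W := by
    intro c hc
    refine ⟨(hQ.conj c).isPGroup, fun h hh => ?_,
      (hQ.conj_of_mem_normalizer (le_normalizer (hNW hc.1))).le⟩
    rw [mem_conj_smul_iff, mul_assoc, mem_centralizer_iff.1 hc.2 h hh, inv_mul_cancel_left]
    exact hHQ hh
  have nrm : ∀ c x : G, c * x * c⁻¹ ∈ normalizer ((MulAut.conj c • Q : Subgroup G) : Set G) ↔
      x ∈ normalizer (Q : Set G) := by
    intro c x
    rw [← conj_smul_eq_iff_mem_normalizer, ← conj_smul_eq_iff_mem_normalizer, ← mul_smul,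
      ← map_mul, inv_mul_cancel_right, map_mul, mul_smul, smul_left_cancel_iff]
  have hf1 : ∀ (c : C) (d : D), f (c * (g1 * d) * (c : G)⁻¹) = f g0 := by
    intro c d
    have h1 : f c = 1 := c.2.1
    have h2 : f d = 1 := d.2.1
    simp [h1, h2, hg1]
  have hn1 : ∀ (c : C) (d : D), (c : G) * (g1 * d) * (c : G)⁻¹ ∈
      normalizer ((MulAut.conj (c : G) • Q : Subgroup G) : Set G) := fun c d =>
    (nrm _ _).2 (mul_mem hg1Q d.2.2)
  let F := {a : T p H // (⟨f a, map_T f a.2⟩ : T p (H.map f)) = ⟨f g0, hb⟩}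
  let Φ : C × D → F := fun x => ⟨⟨x.1 * (g1 * x.2) * (x.1 : G)⁻¹,
    ⟨_, (good _ x.1.2).1, (good _ x.1.2).2.1, hn1 _ _⟩⟩, Subtype.ext (hf1 _ _)⟩
  have key := card_fib Φ (Nat.card D) (by
    rintro ⟨⟨g, hgT⟩, hg⟩
    have hg' : f g = f g0 := congrArg Subtype.val hg
    have hclW : cl H g ≤ W := cl_le hHW (hnW g hg')
    obtain ⟨c0, hc0, he0⟩ : ∃ c0 ∈ C, MulAut.conj c0 • Q = cl H g := by
      obtain ⟨k, hk1, hk2⟩ := hQ.exists_conj_le (mem_T.1 hgT) hclW
      rw [← hsup, sup_comm, mem_sup_of_le_normalizer' hQN] at hk1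
      obtain ⟨q, hq, n, hn, rfl⟩ := hk1
      have h3 : ∀ h ∈ cl H g, n * h * n⁻¹ ∈ Q := by
        intro h hh
        have := Q.mul_mem (Q.mul_mem (Q.inv_mem hq) (conj_smul_le_iff.1 hk2 h hh)) hq
        simpa [mul_assoc] using this
      have hnC := cent n hn fun h hh => h3 h (le_cl _ _ hh)
      refine ⟨n⁻¹, C.inv_mem hnC, uniq _ (good _ (C.inv_mem hnC)).1 (good _ (C.inv_mem hnC)).2.2 g hg'
        fun h hh => ?_⟩
      rw [mem_conj_smul_iff, inv_inv]
      exact h3 h hh
    have hval : ∀ x : {x : C × D // Φ x = ⟨⟨g, hgT⟩, hg⟩},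
        (x.1.1 : G) * (g1 * x.1.2) * (x.1.1 : G)⁻¹ = g := fun x =>
      congrArg (fun y : F => (y.1 : G)) x.2
    have hmem : ∀ x : {x : C × D // Φ x = ⟨⟨g, hgT⟩, hg⟩}, c0⁻¹ * x.1.1 ∈ D := by
      intro x
      refine ⟨N.mul_mem (N.inv_mem hc0.1) x.1.1.2.1, ?_⟩
      have h1 := hn1 x.1.1 x.1.2
      rw [hval x] at h1
      have h2 := uniq _ (good _ x.1.1.2).1 (good _ x.1.1.2).2.2 g hg'
        (cl_le (good _ x.1.1.2).2.1 h1)
      rw [← he0] at h2
      show _ ∈ normalizer (Q : Set G)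
      rw [← conj_smul_eq_iff_mem_normalizer, map_mul, mul_smul, h2, map_inv, inv_smul_smul]
    refine Nat.card_eq_of_bijective (fun x => (⟨_, hmem x⟩ : D)) ⟨fun x y h => ?_, fun e => ?_⟩
    · have h1 : (x.1.1 : G) = y.1.1 := mul_left_cancel (congrArg Subtype.val h)
      have h2 := (hval x).trans (hval y).symm
      rw [h1] at h2
      exact Subtype.ext (Prod.ext (Subtype.ext h1)
        (Subtype.ext (mul_left_cancel (mul_left_cancel (mul_right_cancel h2)))))
    · have hc : c0 * e ∈ C := C.mul_mem hc0 (hDC e.2)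
      have hd : g1⁻¹ * ((c0 * e)⁻¹ * g * (c0 * e)) ∈ D := by
        constructor
        · have h1 : f (c0 * e) = 1 := hc.1
          show f _ = 1
          rw [map_mul, map_mul, map_mul f _ g, map_inv, map_inv, h1, hg1, hg']
          simp
        · apply mul_mem (inv_mem hg1Q)
          have h1 : c0⁻¹ * g * c0 ∈ normalizer (Q : Set G) := by
            rw [← nrm c0, he0]
            simpa [mul_assoc] using mem_norm_cl H g
          have h2 : (e : G) ∈ normalizer (Q : Set G) := e.2.2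
          have := mul_mem (mul_mem (inv_mem h2) h1) h2
          simpa [mul_assoc] using this
      refine ⟨⟨(⟨_, hc⟩, ⟨_, hd⟩), Subtype.ext (Subtype.ext ?_)⟩, Subtype.ext ?_⟩
      · show c0 * e * (g1 * (g1⁻¹ * ((c0 * e)⁻¹ * g * (c0 * e)))) * (c0 * e)⁻¹ = g
        group
      · show c0⁻¹ * (c0 * e) = e
        group)
  rw [Nat.card_prod] at key
  exact (Nat.eq_of_mul_eq_mul_right Nat.card_pos key).symm

theorem sn_of_nil {P : Type*} [Group P] [Finite P] (hP : Group.IsNilpotent P) (A : Subgroup P) :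
    A.IsSubnormal := by
  have key : ∀ (n : ℕ) (H : Subgroup P), Nat.card P - Nat.card H ≤ n → H.IsSubnormal := by
    intro n
    induction n using Nat.strong_induction_on with
    | _ n ih =>
    intro H hn
    by_cases h : H = ⊤
    · rw [h]; exact IsSubnormal.top
    have h1 : H < normalizer (H : Set P) :=
      Group.normalizerCondition_of_isNilpotent H (lt_top_iff_ne_top.mpr h)
    have h2 := card_lt_of_lt h1
    have h3 := (normalizer (H : Set P)).card_le_card_group
    exact IsSubnormal.step H _ h1.le (ih _ (by omega) _ le_rfl) normal_in_normalizer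
  exact key _ _ le_rfl

theorem sn_iff [Finite G] {p : ℕ} [hp : Fact p.Prime] (H : Subgroup G) (hH : IsPGroup p H) (g : G) :
    (H.subgroupOf (H ⊔ zpowers g)).IsSubnormal ↔ g ∈ T p H := by
  set L := H ⊔ zpowers g with hL
  constructor
  · intro h
    have h1 := le_pCore_of_isSubnormal h (hH.comap_subtype)
    refine ⟨(pCore p L).map L.subtype, (pCore_isPGroup p).map _, fun x hx => ?_,
      le_normalizer_map_subtype_of_normal L _ (mem_sup_right (mem_zpowers g))⟩
    exact ⟨⟨x, mem_sup_left hx⟩, h1 hx, rfl⟩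
  · rintro ⟨Q, h1, h2, h3⟩
    have hLQ : L ≤ normalizer (Q : Set G) := sup_le (h2.trans le_normalizer) (zpowers_le.2 h3)
    haveI : (Q.subgroupOf L).Normal := normal_subgroupOf_of_le_normalizer hLQ
    have hp' : IsPGroup p (Q.subgroupOf L) := h1.comap_subtype
    exact IsSubnormal.trans (K := Q.subgroupOf L) (comap_mono h2) (sn_of_nil hp'.isNilpotent _)
      (Normal.isSubnormal inferInstance)

theorem step [Finite G] {p : ℕ} [hp : Fact p.Prime] (H : Subgroup G) (hH : IsPGroup p H)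
    (A B : Subgroup G) [A.Normal] [B.Normal] (hAB : A ≤ B)
    (h : (∃ m : ℕ, A.relIndex B = p ^ m) ∨ (A.relIndex B).Coprime p) :
    Nat.card (T p (H.map (QuotientGroup.mk' A))) = Nat.card (T p (H.map (QuotientGroup.mk' B))) *
      ((if (A.relIndex B).Coprime p then 1 else A.relIndex B) *
       (if (A.relIndex B).Coprime p then
          Nat.card {u : G // u ∈ B ∧ ∀ h ∈ H, h * u * h⁻¹ * u⁻¹ ∈ A} / Nat.card A else 1)) := by
  let f : G ⧸ A →* G ⧸ B := QuotientGroup.map A B (MonoidHom.id G) hAB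
  have hf : Function.Surjective f := by
    intro y
    obtain ⟨x, rfl⟩ := QuotientGroup.mk_surjective y
    exact ⟨x, rfl⟩
  have hm : (H.map (QuotientGroup.mk' A)).map f = H.map (QuotientGroup.mk' B) := by
    rw [map_map]; rfl
  have hk : f.ker = B.map (QuotientGroup.mk' A) := by
    exact (QuotientGroup.ker_map A B (MonoidHom.id G) hAB).trans (by rw [comap_id])
  have hkc : Nat.card f.ker = A.relIndex B := by rw [hk, relIndex_eq_card_map_mk']
  split_ifs with hc
  · rw [card_T_q f hf (hkc ▸ hc) _ (hH.map _), hm, one_mul]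
    congr 1
    rw [eq_comm]
    apply Nat.div_eq_of_eq_mul_right Nat.card_pos
    rw [← card_comap_mk']
    · refine Nat.card_congr (Equiv.subtypeEquivRight fun u => ?_)
      rw [mem_comap, mem_inf, mem_centralizer_iff]
      refine and_congr ?_ ?_
      · rw [MonoidHom.mem_ker]
        exact (QuotientGroup.eq_one_iff u).symm
      · constructor
        · rintro h _ ⟨x, hx, rfl⟩
          have := (QuotientGroup.eq_one_iff _).2 (h x hx)
          rw [← mul_inv_eq_one, mul_inv_rev, ← mul_assoc]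
          exact this
        · intro h x hx
          have := h _ ⟨x, hx, rfl⟩
          rw [← mul_inv_eq_one, mul_inv_rev, ← mul_assoc] at this
          exact (QuotientGroup.eq_one_iff _).1 this
  · obtain ⟨m, hm'⟩ := h.resolve_right hc
    rw [card_T_p f hf (IsPGroup.iff_card.2 ⟨m, hkc.trans hm'⟩), hm, hkc, mul_one]

theorem tele {n : ℕ} (t : Fin (n + 1) → ℕ) (a : Fin n → ℕ)
    (h : ∀ i : Fin n, t i.castSucc = t i.succ * a i) : t 0 = t (Fin.last n) * ∏ i, a i := by
  induction n with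
  | zero => simp
  | succ n ih =>
    rw [Fin.prod_univ_castSucc, ← mul_assoc, mul_right_comm, ← Fin.succ_last, ← h (Fin.last n)]
    exact ih (fun i => t i.castSucc) (fun i => a i.castSucc) (fun i => h i.castSucc)

end

/-- Let G be a finite p-solvable group, H a p-subgroup of G and P a Sylow p-subgroup, and fix a chain of normal subgroups 1 = M₀ ≤ M₁ ≤ ⋯ ≤ Mₙ = G of G each of whose factors is a p-group or a p'-group. Then the number of elements g of G such that H is subnormal in the subgroup generated by H and g equals the order of P times the product, over the factors Mᵢ₊₁/Mᵢ of order prime to p, of the order of the centralizer of H in Mᵢ₊₁/Mᵢ (counted as the number of u ∈ Mᵢ₊₁ with [h, u] ∈ Mᵢ for all h ∈ H, divided by the order of Mᵢ). -/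
theorem result {G : Type*} [Group G] [Finite G] (p : ℕ) [Fact p.Prime]
    (hG : Cfsg.IsPSolvable p G) (H : Subgroup G) (hH : IsPGroup p H) (P : Sylow p G)
    (n : ℕ) (M : Fin (n + 1) → Subgroup G) (h0 : M 0 = ⊥) (hn : M (Fin.last n) = ⊤) (hmono : Monotone M)
    (hnormal : ∀ i, (M i).Normal)
    (hfac : ∀ i : Fin n, (∃ m : ℕ, (M i.castSucc).relIndex (M i.succ) = p ^ m) ∨ ((M i.castSucc).relIndex (M i.succ)).Coprime p) :
    Nat.card {g : G // ((H).subgroupOf (H ⊔ Subgroup.zpowers g)).IsSubnormal} =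
      Nat.card (P : Subgroup G) *
        ∏ i : Fin n, (if ((M i.castSucc).relIndex (M i.succ)).Coprime p then
          Nat.card {u : G // u ∈ M i.succ ∧ ∀ h ∈ H, h * u * h⁻¹ * u⁻¹ ∈ M i.castSucc} / Nat.card (M i.castSucc)
          else 1) := by
  have h1 := tele (fun i => haveI := hnormal i; Nat.card (T p (H.map (QuotientGroup.mk' (M i))))) _
    (fun i => by
      haveI := hnormal i.castSucc
      haveI := hnormal i.succ
      exact step H hH (M i.castSucc) (M i.succ) (hmono (Fin.castSucc_lt_succ).le) (hfac i))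
  have h2 := tele (fun i => (M i).index) (fun i => (M i.castSucc).relIndex (M i.succ))
    (fun i => by
      rw [mul_comm]
      exact (relIndex_mul_index (hmono (Fin.castSucc_lt_succ).le)).symm)
  simp only [h0, hn, index_bot, index_top, one_mul] at h2
  have e0 : Nat.card {g : G // ((H).subgroupOf (H ⊔ Subgroup.zpowers g)).IsSubnormal} =
      Nat.card (T p H) := Nat.card_congr (Equiv.subtypeEquivRight fun g => sn_iff H hH g)
  haveI := hnormal 0
  haveI := hnormal (Fin.last n)
  have e1 : Nat.card (T p H) = Nat.card (T p (H.map (QuotientGroup.mk' (M 0)))) := by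
    rw [card_T_p (QuotientGroup.mk' (M 0)) (QuotientGroup.mk'_surjective _)
      (by rw [QuotientGroup.ker_mk', h0]; exact IsPGroup.of_bot), QuotientGroup.ker_mk']
    simp [h0]
  have e2 : Nat.card (T p (H.map (QuotientGroup.mk' (M (Fin.last n))))) = 1 := by
    haveI : Subsingleton (G ⧸ M (Fin.last n)) := by
      rw [QuotientGroup.subsingleton_iff]; exact hn
    rw [Nat.card_eq_one_iff_unique]
    exact ⟨inferInstance, ⟨⟨1, _, hH.map _, le_rfl, one_mem _⟩⟩⟩
  rw [e0, e1, h1, e2, one_mul, Finset.prod_mul_distrib]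
  congr 1
  have hp : p.Prime := Fact.out
  obtain ⟨k, hk⟩ : ∃ k, ∏ i : Fin n, (if ((M i.castSucc).relIndex (M i.succ)).Coprime p then 1 else
      (M i.castSucc).relIndex (M i.succ)) = p ^ k := by
    apply Finset.prod_induction _ (fun x => ∃ k, x = p ^ k)
    · rintro _ _ ⟨a, rfl⟩ ⟨b, rfl⟩
      exact ⟨a + b, (pow_add _ _ _).symm⟩
    · exact ⟨0, rfl⟩
    · intro i _
      split_ifs with hc
      · exact ⟨0, rfl⟩
      · exact (hfac i).resolve_right hc
  have hc : (∏ i : Fin n, (if ((M i.castSucc).relIndex (M i.succ)).Coprime p then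
      (M i.castSucc).relIndex (M i.succ) else 1)).Coprime p := by
    apply Nat.Coprime.prod_left
    intro i _
    split_ifs with hc
    · exact hc
    · exact Nat.coprime_one_left p
  have h3 : Nat.card G = p ^ k * ∏ i : Fin n, (if ((M i.castSucc).relIndex (M i.succ)).Coprime p then
      (M i.castSucc).relIndex (M i.succ) else 1) := by
    rw [← hk, ← Finset.prod_mul_distrib, h2]
    refine Finset.prod_congr rfl fun i _ => ?_
    split_ifs <;> simp
  rw [hk, P.card_eq_multiplicity, h3, Nat.factorization_mul (pow_ne_zero _ hp.ne_zero) (by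
    intro e; rw [e, mul_zero] at h3; exact Nat.card_pos.ne' h3), Finsupp.add_apply,
    Nat.factorization_eq_zero_of_not_dvd ((Nat.Prime.coprime_iff_not_dvd hp).1 hc.symm),
    hp.factorization_pow]
  simp

end Cfsg.Agent.S4090
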