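import Mathlib
import Cfsg.Statements.S4091
import Cfsg.Agent.PCount.Basic

set_option autoImplicit false
open Cfsg

namespace Cfsg.Agent.S4091

open Cfsg.Agent.PCount Cfsg.Agent.Core Subgroup Real

theorem sum_le {G : Type*} [Group G] [Fintype G] (p : ℕ) [Fact p.Prime] (P : Sylow p G)
    [Fintype (P : Subgroup G)] :
    Nat.card G * ∑ x : (P : Subgroup G), ((mu (P : Subgroup G).subtype x).ncard : ℝ)⁻¹ ≤
      Nat.card {g : G // ∃ k : ℕ, orderOf g = p ^ k} := by
  classical
  let m : G → ℕ := fun y => {g | g⁻¹ * y * g ∈ (P : Subgroup G)}.ncard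
  have h1 : ∀ x, (mu (P : Subgroup G).subtype x).ncard = m x := fun x => by simp [mu, m]
  have h2 : ∀ g y, m (g⁻¹ * y * g) = m y := fun g y =>
    Set.ncard_congr (fun a _ => g * a) (fun a h => by simpa [mul_assoc] using h) (by simp)
      fun b h => ⟨g⁻¹ * b, by simpa [mul_assoc] using h, by simp⟩
  have h3 : ∀ g : G, ∑ x : (P : Subgroup G), (m x : ℝ)⁻¹ =
      ∑ y, if g⁻¹ * y * g ∈ (P : Subgroup G) then (m y : ℝ)⁻¹ else 0 := fun g => by
    rw [← Finset.sum_filter]
    symm
    exact Finset.sum_bij (fun y hy => (⟨g⁻¹ * y * g, (Finset.mem_filter.1 hy).2⟩ : (P : Subgroup G)))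
      (by simp) (by simp) (fun x _ => ⟨g * x * g⁻¹, by simp [mul_assoc], by simp [mul_assoc]⟩)
      fun y _ => by rw [h2]
  calc _ = ∑ g : G, ∑ x : (P : Subgroup G), (m x : ℝ)⁻¹ := by simp [h1]
    _ = ∑ y, (m y : ℝ) * (m y : ℝ)⁻¹ := by
        rw [Finset.sum_congr rfl fun g _ => h3 g, Finset.sum_comm]
        refine Finset.sum_congr rfl fun y _ => ?_
        rw [← Finset.sum_filter, Finset.sum_const, nsmul_eq_mul]
        congr 2
        simp only [m]
        rw [← Set.ncard_coe_finset]; congr 1; ext; simp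
    _ ≤ ∑ y : G, if ∃ k : ℕ, orderOf y = p ^ k then (1 : ℝ) else 0 := Finset.sum_le_sum fun y _ => by
        split_ifs with h
        · exact mul_inv_le_one
        · rw [show m y = 0 from by_contra fun c => ?_]
          · simp
          obtain ⟨g, hg⟩ := Set.nonempty_of_ncard_ne_zero c
          obtain ⟨k, hk⟩ := IsPGroup.iff_orderOf.1 P.isPGroup' ⟨_, hg⟩
          refine h ⟨k, ?_⟩
          rw [← hk, ← orderOf_coe]
          simpa using ((MulAut.conj g⁻¹).orderOf_eq y).symm
    _ = _ := by simp [Fintype.card_subtype]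

/-- Let G be a finite p-solvable group, P a Sylow p-subgroup of G, u the number of p-elements of G (elements of p-power order, the identity included) and n the number of Sylow p-subgroups of G. Then u/#P ≥ n^((p−1)/p), stated as u^p ≥ #P^p · n^(p−1). -/
theorem result {G : Type*} [Group G] [Finite G] (p : ℕ) [Fact p.Prime]
    (hG : Cfsg.IsPSolvable p G) (P : Sylow p G) :
    Nat.card (P : Subgroup G) ^ p * Nat.card (Sylow p G) ^ (p - 1) ≤ Nat.card {g : G // ∃ k : ℕ, orderOf g = p ^ k} ^ p := by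
  classical
  have := Fintype.ofFinite G
  have hp : p.Prime := Fact.out
  have h1 := main P.isPGroup' G (P : Subgroup G).subtype hG (by
    rw [range_subtype]; exact isSylowOf_top P)
  have h2 := sum_le p P
  rw [range_subtype] at h1
  have h3 : (Nat.card G : ℝ) = Nat.card (Sylow p G) * Nat.card (normalizer (P : Set G)) := by
    rw [P.card_eq_index_normalizer, ← Nat.cast_mul, index_mul_card]
  rw [← Nat.card_eq_fintype_card, lc, P.coe_coe] at h1
  have pos : ∀ x, (0 : ℝ) < (mu (P : Subgroup G).subtype x).ncard := fun x => by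
    exact_mod_cast (Set.ncard_pos (s := mu _ x) (Set.toFinite _)).2 ⟨1, x, by simp⟩
  have n0 : (0 : ℝ) < Nat.card (Sylow p G) := by exact_mod_cast Nat.card_pos
  have m0 : (0 : ℝ) < Nat.card (normalizer (P : Set G)) := by exact_mod_cast Nat.card_pos
  have s0 : (0 : ℝ) < Nat.card (P : Subgroup G) := by exact_mod_cast Nat.card_pos
  have p0 : (0 : ℝ) < p := by exact_mod_cast hp.pos
  have hc : (Fintype.card (P : Subgroup G) : ℝ) = Nat.card (P : Subgroup G) := by simp
  generalize (Nat.card (Sylow p G)) = n at *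
  generalize (Nat.card (normalizer (P : Set G))) = m at *
  generalize Nat.card {g : G // ∃ k : ℕ, orderOf g = p ^ k} = u at *
  rw [h3, log_mul n0.ne' m0.ne'] at h1
  set L : ℝ := log m + log n / p with hL
  have h4 : ∀ x, exp (-L) * (1 + L - log (mu (P : Subgroup G).subtype x).ncard) ≤
      ((mu (P : Subgroup G).subtype x).ncard : ℝ)⁻¹ := fun x => by
    have := add_one_le_exp (L - log (mu (P : Subgroup G).subtype x).ncard)
    calc _ ≤ exp (-L) * exp (L - log (mu (P : Subgroup G).subtype x).ncard) :=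
          mul_le_mul_of_nonneg_left (by linarith) (exp_pos _).le
      _ = _ := by rw [← exp_add, ← add_sub_assoc, neg_add_cancel, zero_sub, exp_neg, exp_log (pos x)]
  have h5 := Finset.sum_le_sum fun x (_ : x ∈ Finset.univ) => h4 x
  rw [← Finset.mul_sum, Finset.sum_sub_distrib, Finset.sum_const, Finset.card_univ, nsmul_eq_mul,
    hc] at h5
  have h6 : ∑ x, log (mu (P : Subgroup G).subtype x).ncard ≤ Nat.card (P : Subgroup G) * L := by
    refine le_of_mul_le_mul_left (h1.trans_eq ?_) p0
    rw [hL]; field_simp; ring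
  have h7 : n * m * (exp (-L) * Nat.card (P : Subgroup G)) ≤ u := by
    refine le_trans (mul_le_mul_of_nonneg_left (le_trans ?_ h5) (by positivity)) (h3 ▸ h2)
    exact mul_le_mul_of_nonneg_left (by linarith) (exp_pos _).le
  have h8 := pow_le_pow_left₀ (by positivity) h7 p
  have h9 : exp (-L) ^ p = ((m : ℝ) ^ p * n)⁻¹ := by
    rw [← exp_nat_mul, mul_neg, exp_neg, hL, mul_add, mul_div_cancel₀ _ p0.ne', exp_add, exp_log n0,
      exp_nat_mul, exp_log m0]
  obtain ⟨q, rfl⟩ := Nat.exists_eq_succ_of_ne_zero hp.ne_zero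
  rw [mul_pow, mul_pow, mul_pow, h9] at h8
  have : ((Nat.card (P : Subgroup G) ^ (q + 1) * n ^ q : ℕ) : ℝ) ≤ (u ^ (q + 1) : ℕ) := by
    push_cast
    refine le_trans (le_of_eq ?_) h8
    simp only [Nat.succ_eq_add_one]
    field_simp
    ring
  exact_mod_cast this

end Cfsg.Agent.S4091
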