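import Mathlib
import Cfsg.Statements.S4092
import Cfsg.Agent.FGS.Basic
import Cfsg.Agent.Core.Basic
-- import your own Cfsg.Agent.* helpers here

set_option autoImplicit false
open Cfsg

namespace Cfsg.Agent.S4092

/-- Let G be a finite group, p a prime and P a Sylow p-subgroup of G that is not normal in G. Then G has at least p·#P elements of p-power order (the identity included). -/
theorem result {G : Type*} [Group G] [Finite G] (p : ℕ) [Fact p.Prime]
    (P : Sylow p G) (hP : ¬ (P : Subgroup G).Normal) :
    p * Nat.card (P : Subgroup G) ≤ Nat.card {g : G // ∃ k : ℕ, orderOf g = p ^ k} := by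
  classical
  have hp : p.Prime := Fact.out
  haveI := Fintype.ofFinite (Sylow p G)
  have hne : ∃ Q : Sylow p G, Q ≠ P := by
    by_contra h
    push Not at h
    haveI : Subsingleton (Sylow p G) := ⟨fun a b => (h a).trans (h b).symm⟩
    exact hP (Sylow.normal_of_subsingleton P)
  obtain ⟨Q₀, hQ₀⟩ := hne
  obtain ⟨⟨A, B⟩, hAB, hmax⟩ := Finset.exists_max_image
    (Finset.univ.filter fun x : Sylow p G × Sylow p G => x.1 ≠ x.2)
    (fun x => Nat.card ((x.1 : Subgroup G) ⊓ x.2 : Subgroup G)) ⟨(Q₀, P), by simpa using hQ₀⟩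
  simp only [Finset.mem_filter, Finset.mem_univ, true_and, Prod.forall] at hAB hmax
  set D : Subgroup G := A ⊓ B with hD
  have hDp : IsPGroup p D := A.2.to_le inf_le_left
  let T := Finset.univ.filter fun Q : Sylow p G => D ≤ Q
  have hT : p + 1 ≤ T.card := by
    have h1 := (hDp.card_modEq_card_fixedPoints (Sylow p G)).symm.trans (card_sylow_modEq_one p G)
    have h2 : Nat.card (MulAction.fixedPoints D (Sylow p G)) = T.card := by
      rw [Nat.card_eq_fintype_card, Fintype.card_subtype]
      congr 1
      ext Q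
      simp only [T, Finset.mem_filter, Finset.mem_univ, true_and]
      exact hDp.sylow_mem_fixedPoints_iff
    have h3 : 1 < T.card := Finset.one_lt_card.2
      ⟨A, by simp [T, hD], B, by simp [T, hD], hAB⟩
    rw [h2] at h1
    have := Nat.le_of_dvd (by omega) ((Nat.modEq_iff_dvd' h3.le).1 h1.symm)
    omega
  have hlt : p * Nat.card D ≤ Nat.card P := by
    have h1 : D < A := lt_of_le_of_ne inf_le_left fun e =>
      hAB (Sylow.ext (A.3 B.2 (e.ge.trans inf_le_right)).symm)
    have h2 := Core.card_mul_relIndex h1.le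
    obtain ⟨k, hk⟩ := (A.2.index (D.subgroupOf A))
    have h3 : k ≠ 0 := fun e => h1.not_ge (Subgroup.relIndex_eq_one.1 (by
      rw [Subgroup.relIndex, hk, e, pow_zero]))
    rw [FGS.sylow_card_eq P A, ← h2, Subgroup.relIndex, hk, mul_comm]
    exact Nat.mul_le_mul_left _ (Nat.le_self_pow h3 p)
  haveI := Fintype.ofFinite G
  let f : Subgroup G → Finset G := fun H => Finset.univ.filter (· ∈ H)
  have hf : ∀ H, (f H).card = Nat.card H := fun H => by
    rw [Nat.card_eq_fintype_card, Fintype.card_subtype]
  have hcard : (T.biUnion fun Q => f Q \ f D).card = T.card * (Nat.card P - Nat.card D) := by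
    rw [Finset.card_biUnion, Finset.sum_const_nat]
    · intro Q hQ
      rw [Finset.card_sdiff_of_subset, hf, hf, FGS.sylow_card_eq P Q]
      intro x hx
      simp only [T, f, Finset.mem_filter, Finset.mem_univ, true_and] at hQ hx ⊢
      exact hQ hx
    · intro Q hQ R hR hQR
      simp only [T, Finset.coe_filter, Finset.mem_univ, true_and, Set.mem_setOf_eq] at hQ hR
      have e := Core.eq_of_le_of_card_le (le_inf hQ hR) (hmax Q R hQR)
      rw [Function.onFun, Finset.disjoint_left]
      intro x h1 h2
      simp only [f, Finset.mem_sdiff, Finset.mem_filter, Finset.mem_univ, true_and] at h1 h2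
      exact h1.2 (e ▸ ⟨h1.1, h2.1⟩)
  have hsub : (T.biUnion fun Q => f Q \ f D) ∪ f D ⊆
      Finset.univ.filter fun g : G => ∃ k : ℕ, orderOf g = p ^ k := by
    intro x hx
    simp only [f, Finset.mem_union, Finset.mem_biUnion, Finset.mem_sdiff, Finset.mem_filter,
      Finset.mem_univ, true_and] at hx ⊢
    rcases hx with ⟨Q, -, h, -⟩ | h
    · exact FGS.exists_orderOf_eq_of_mem Q.2 h
    · exact FGS.exists_orderOf_eq_of_mem hDp h
  have h := Finset.card_le_card hsub
  rw [Finset.card_union_of_disjoint (by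
    rw [Finset.disjoint_left]
    intro x h1 h2
    simp only [Finset.mem_biUnion, Finset.mem_sdiff] at h1
    obtain ⟨Q, -, -, h⟩ := h1
    exact h h2), hcard, hf] at h
  rw [Nat.card_eq_fintype_card (α := {g : G // ∃ k : ℕ, orderOf g = p ^ k}), Fintype.card_subtype]
  refine le_trans ?_ h
  have h1 := Nat.mul_le_mul_right (Nat.card P - Nat.card D) hT
  have h2 : Nat.card D ≤ Nat.card P := le_trans (Nat.le_mul_of_pos_left _ hp.pos) hlt
  obtain ⟨c, hc⟩ := Nat.exists_eq_add_of_le h2
  rw [hc] at hlt h1 ⊢
  rw [Nat.add_sub_cancel_left] at h1 ⊢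
  nlinarith

end Cfsg.Agent.S4092
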