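import Mathlib
import Cfsg.Statements.S4093
import Cfsg.Agent.FGS.Basic
import Cfsg.Agent.Core.Basic
import Cfsg.Agent.Suz.FirstA
-- import your own Cfsg.Agent.* helpers here

set_option autoImplicit false
open scoped BigOperators
open Cfsg

namespace Cfsg.Agent.S4093

/-- Let G be a finite group with a normal subgroup N complementing a Sylow p-subgroup P (a normal p-complement). Then the number of elements of G of p-power order equals the sum over x ∈ P of the index of C_N(x) in N. -/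
theorem result {G : Type*} [Group G] [Finite G] (p : ℕ) [Fact p.Prime]
    (P : Sylow p G) (N : Subgroup G) [N.Normal] (hNP : N.IsComplement' (P : Subgroup G)) :
    Nat.card {g : G // ∃ k : ℕ, orderOf g = p ^ k} =
      ∑ᶠ x : (P : Subgroup G), Nat.card N / Nat.card ↥(N ⊓ Subgroup.centralizer ({(x : G)} : Set G)) := by
  classical
  haveI := Fintype.ofFinite G
  have hdis : ∀ x ∈ (P : Subgroup G), x ∈ N → x = 1 := fun x h1 h2 =>
    Subgroup.disjoint_def.1 hNP.disjoint h2 h1
  have e : {g : G | ∃ k : ℕ, orderOf g = p ^ k} =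
      ⋃ x : (P : Subgroup G), (fun n : G => n * x * n⁻¹) '' (N : Set G) := by
    ext g
    simp only [Set.mem_setOf_eq, Set.mem_iUnion, Set.mem_image, SetLike.mem_coe]
    constructor
    · rintro ⟨k, hk⟩
      obtain ⟨Q, hQ⟩ := FGS.exists_sylow_mem hk
      obtain ⟨c, rfl⟩ := MulAction.exists_smul_eq G P Q
      obtain ⟨⟨n, y⟩, rfl⟩ := hNP.2 c
      have h1 := (P : Subgroup G).mul_mem ((P : Subgroup G).mul_mem y.2 (FGS.mem_conj_iff.1 hQ))
        ((P : Subgroup G).inv_mem y.2)
      exact ⟨⟨_, h1⟩, n, n.2, by simp [mul_assoc]⟩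
    · rintro ⟨x, n, -, rfl⟩
      obtain ⟨k, hk⟩ := FGS.exists_orderOf_eq_of_mem P.2 x.2
      exact ⟨k, hk ▸ (MulAut.conj n).orderOf_eq (x : G)⟩
  rw [show Nat.card {g : G // ∃ k : ℕ, orderOf g = p ^ k} =
    {g : G | ∃ k : ℕ, orderOf g = p ^ k}.ncard from Nat.card_coe_set_eq _, e,
    Set.ncard_iUnion_of_finite (fun _ => Set.toFinite _)]
  · refine finsum_congr fun x => ?_
    rw [← Suz.FA.relIndex_eq_ncard N (Subgroup.centralizer {(x : G)}), inf_comm,
      ← Core.card_inf_mul_relIndex (Subgroup.centralizer {(x : G)}) N,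
      Nat.mul_div_cancel_left _ Nat.card_pos]
    intro g _ g' _
    rw [Subgroup.mem_centralizer_singleton_iff]
    constructor
    · intro e
      calc g⁻¹ * g' * x = g⁻¹ * (g' * x * g'⁻¹) * g' := by group
        _ = x * (g⁻¹ * g') := by rw [← e]; group
    · intro e
      calc g * x * g⁻¹ = g * (x * (g⁻¹ * g')) * g'⁻¹ := by group
        _ = g' * x * g'⁻¹ := by rw [← e]; group
  · intro x y hxy
    rw [Function.onFun, Set.disjoint_left]
    rintro _ ⟨n, hn, rfl⟩ ⟨m, hm, e⟩
    refine hxy (Subtype.ext (mul_inv_eq_one.1 (hdis _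
      ((P : Subgroup G).mul_mem x.2 ((P : Subgroup G).inv_mem y.2)) ?_)))
    have h1 : (x : G) * (y : G)⁻¹ = n⁻¹ * m * (y * (m⁻¹ * n) * (y : G)⁻¹) := by
      have e' : m * y * m⁻¹ = n * x * n⁻¹ := e
      calc _ = n⁻¹ * (n * x * n⁻¹) * n * (y : G)⁻¹ := by group
        _ = _ := by rw [← e']; group
    rw [h1]
    exact N.mul_mem (N.mul_mem (N.inv_mem hn) hm)
      (Subgroup.Normal.conj_mem inferInstance _ (N.mul_mem (N.inv_mem hm) hn) _)

end Cfsg.Agent.S4093
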