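import Mathlib
import Cfsg.Statements.S4097
import Cfsg.Agent.S0035
import Cfsg.Agent.S0042
-- import your own Cfsg.Agent.* helpers here

set_option autoImplicit false
open Cfsg

namespace Cfsg.Agent.S4097

open Pointwise

theorem sup_solv {G : Type*} [Group G] (N B : Subgroup G) [N.Normal] (hN : Group.IsSolvable N)
    (hB : Group.IsSolvable B) : Group.IsSolvable ↥(N ⊔ B) := by
  have hB' : Group.IsSolvable ↥(B.map (QuotientGroup.mk' N)) :=
    solvable_of_surjective (f := (QuotientGroup.mk' N).subgroupMap B)
      ((QuotientGroup.mk' N).subgroupMap_surjective B)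
  have hmem : ∀ x : ↥(N ⊔ B), ((QuotientGroup.mk' N).comp (N ⊔ B).subtype) x ∈
      B.map (QuotientGroup.mk' N) := by
    intro x
    have hx : (x : G) ∈ ((N ⊔ B : Subgroup G) : Set G) := x.2
    rw [Subgroup.normal_mul] at hx
    obtain ⟨n, hn, b, hb, hnb⟩ := hx
    refine ⟨b, hb, ?_⟩
    have : ((QuotientGroup.mk' N).comp (N ⊔ B).subtype) x = QuotientGroup.mk' N (n * b) := by
      simp only [MonoidHom.comp_apply, Subgroup.coe_subtype]
      congr 1
      exact hnb.symm
    rw [this, map_mul, show QuotientGroup.mk' N n = 1 from (QuotientGroup.eq_one_iff n).2 hn,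
      one_mul]
  refine solvable_of_ker_le_range (Subgroup.inclusion (le_sup_left : N ≤ N ⊔ B))
    (((QuotientGroup.mk' N).comp (N ⊔ B).subtype).codRestrict _ hmem) ?_
  intro x hx
  have h1 : (x : G) ∈ N := by
    have := congrArg Subtype.val (MonoidHom.mem_ker.1 hx)
    exact (QuotientGroup.eq_one_iff (x : G)).1 this
  exact ⟨⟨x, h1⟩, rfl⟩

theorem comm_solv {G : Type*} [Group G] (B : Subgroup G)
    (h : ∀ x ∈ B, ∀ y ∈ B, x * y = y * x) : Group.IsSolvable B :=
  isSolvable_of_comm (fun x y => Subtype.ext (h x x.2 y y.2))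

universe u

theorem main : ∀ (n : ℕ) (G : Type u) [Group G] [Finite G], Nat.card G = n →
    ∀ A : Subgroup G, Group.IsSolvable A →
    (∀ S : Subgroup G, A ≤ S → Group.IsSolvable S → ∀ a ∈ A, ∀ s ∈ S, a * s = s * a) →
    A ≤ Subgroup.center G := by
  intro n
  induction n using Nat.strong_induction_on with
  | _ n ih =>
  intro G _ _ hn A hA hc
  set C : Subgroup G := Subgroup.centralizer (A : Set G) with hCdef
  have memC : ∀ x, x ∈ C ↔ ∀ a ∈ A, a * x = x * a := fun x => Subgroup.mem_centralizer_iff
  -- proper overgroups centralize `A`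
  have step : ∀ H : Subgroup G, H ≠ ⊤ → A ≤ H → H ≤ C := by
    intro H hH hAH
    have hlt : Nat.card H < n := by
      rw [← hn]
      have h1 := H.card_mul_index
      have h2 : 1 < H.index := Subgroup.one_lt_index_of_ne_top hH
      have h3 : 0 < Nat.card H := Nat.card_pos
      nlinarith
    have hA' : Group.IsSolvable ↥(A.subgroupOf H) :=
      solvable_of_solvable_injective (f := (Subgroup.subgroupOfEquivOfLe hAH).toMonoidHom)
        (Subgroup.subgroupOfEquivOfLe hAH).injective
    have := ih _ hlt H rfl (A.subgroupOf H) hA' (by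
      intro S hS hSs a ha s hs
      have h1 : Group.IsSolvable ↥(S.map H.subtype) :=
        solvable_of_surjective (f := H.subtype.subgroupMap S) (H.subtype.subgroupMap_surjective S)
      have h2 : A ≤ S.map H.subtype := fun x hx => ⟨⟨x, hAH hx⟩, hS hx, rfl⟩
      exact Subtype.ext (hc _ h2 h1 a ha s ⟨s, hs, rfl⟩))
    intro h hh
    rw [memC]
    intro a ha
    have h4 := Subgroup.mem_center_iff.1 (this (show (⟨a, hAH ha⟩ : H) ∈ A.subgroupOf H from ha))
      ⟨h, hh⟩
    exact (congrArg Subtype.val h4).symm
  have hAC : A ≤ C := fun x hx => (memC x).2 fun a ha => hc A le_rfl hA a ha x hx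
  by_contra hne
  have hCtop : C ≠ ⊤ := by
    intro h
    apply hne
    intro a ha
    rw [Subgroup.mem_center_iff]
    intro g
    exact (((memC g).1 (h ▸ Subgroup.mem_top g)) a ha).symm
  have hZC : Subgroup.center G ≤ C := fun z hz => (memC z).2 fun a _ =>
    Subgroup.mem_center_iff.1 hz a
  -- `C` is self-normalizing
  have hNC : Subgroup.normalizer (C : Set G) ≤ C := by
    refine step _ ?_ (hAC.trans Subgroup.le_normalizer)
    intro htop
    haveI hCn : C.Normal := Subgroup.normalizer_eq_top_iff.1 htop
    apply hCtop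
    rw [eq_top_iff]
    intro g _
    set Z : Subgroup G := C ⊓ Subgroup.centralizer (C : Set G) with hZ
    haveI : Z.Normal := inferInstance
    have hZs : Group.IsSolvable Z := comm_solv Z fun x hx y hy =>
      (Subgroup.mem_centralizer_iff.1 hy.2 x hx.1)
    have hgs : Group.IsSolvable ↥(Subgroup.zpowers g) := comm_solv _ (by
      rintro x ⟨i, rfl⟩ y ⟨j, rfl⟩
      exact (Commute.zpow_zpow_self g i j).eq)
    have hAZ : A ≤ Z := fun a ha => ⟨hAC ha, Subgroup.mem_centralizer_iff.2 fun c hc' =>
      (((memC c).1 hc') a ha).symm⟩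
    rw [memC]
    intro a ha
    exact hc _ (hAZ.trans le_sup_left) (sup_solv Z _ hZs hgs) a ha g
      (Subgroup.mem_sup_right (Subgroup.mem_zpowers g))
  have cen : ∀ x ∈ C, x ∉ Subgroup.center G → ∀ y, y * x = x * y → y ∈ C := by
    intro x hx hxz y hy
    refine step (Subgroup.centralizer ({x} : Set G)) ?_ ?_ ?_
    · intro h
      apply hxz
      rw [Subgroup.mem_center_iff]
      intro g
      have : g ∈ Subgroup.centralizer ({x} : Set G) := h ▸ Subgroup.mem_top g
      exact (Subgroup.mem_centralizer_singleton_iff.1 this)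
    · intro a ha
      exact Subgroup.mem_centralizer_singleton_iff.2 ((memC x).1 hx a ha)
    · exact Subgroup.mem_centralizer_singleton_iff.2 hy
  have ti : ∀ g, g ∉ C → ∀ x ∈ C, g⁻¹ * x * g ∈ C → x ∈ Subgroup.center G := by
    intro g hg x hx hx'
    by_contra hxz
    have hyz : g⁻¹ * x * g ∉ Subgroup.center G := by
      intro h
      apply hxz
      have := (inferInstance : (Subgroup.center G).Normal).conj_mem _ h g
      simpa [mul_assoc] using this
    have hA2 : A ≤ C.map (MulAut.conj g).toMonoidHom := by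
      intro a ha
      refine ⟨g⁻¹ * a * g, cen _ hx' hyz _ ?_, by simp [mul_assoc]⟩
      have := (memC x).1 hx a ha
      calc g⁻¹ * a * g * (g⁻¹ * x * g) = g⁻¹ * (a * x) * g := by group
        _ = g⁻¹ * (x * a) * g := by rw [this]
        _ = _ := by group
    have hcard : Nat.card ↥(C.map (MulAut.conj g).toMonoidHom) = Nat.card C :=
      Subgroup.card_map_of_injective (MulAut.conj g).injective
    have hne2 : C.map (MulAut.conj g).toMonoidHom ≠ ⊤ := by
      intro h
      apply hCtop
      apply Subgroup.eq_top_of_card_eq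
      rw [← hcard, h, Subgroup.card_top]
    have hle := step _ hne2 hA2
    have heq : C.map (MulAut.conj g).toMonoidHom = C :=
      Subgroup.eq_of_le_of_card_ge hle hcard.ge
    apply hg
    apply hNC
    rw [Subgroup.mem_normalizer_iff]
    intro h
    constructor
    · intro hh
      exact hle ⟨h, hh, by simp⟩
    · intro hh
      have : g * h * g⁻¹ ∈ C.map (MulAut.conj g).toMonoidHom := heq.symm ▸ hh
      obtain ⟨k, hk, hk2⟩ := this
      have h5 : k = h := by simpa using hk2
      exact h5 ▸ hk
  -- pass to the quotient by the centre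
  set π := QuotientGroup.mk' (Subgroup.center G) with hπ
  have hπs : Function.Surjective π := QuotientGroup.mk'_surjective _
  have back : ∀ x, π x ∈ C.map π → x ∈ C := by
    rintro x ⟨c, hc1, hc2⟩
    have h1 : c⁻¹ * x ∈ Subgroup.center G := QuotientGroup.eq.1 hc2
    have := C.mul_mem hc1 (hZC h1)
    simpa using this
  have hF : Cfsg.IsFrobeniusComplement (C.map π) := by
    refine ⟨?_, ?_, ?_⟩
    · intro h
      apply hne
      intro a ha
      have : π a ∈ C.map π := ⟨a, hAC ha, rfl⟩
      rw [h, Subgroup.mem_bot] at this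
      exact (QuotientGroup.eq_one_iff a).1 this
    · intro h
      apply hCtop
      rw [eq_top_iff]
      intro g _
      exact back g (h ▸ Subgroup.mem_top _)
    · intro g hg
      obtain ⟨g, rfl⟩ := hπs g
      rw [eq_bot_iff]
      rintro x ⟨hx1, hx2⟩
      obtain ⟨x, rfl⟩ := hπs x
      have hg' : g ∉ C := fun h => hg ⟨g, h, rfl⟩
      have hx3 : π (g⁻¹ * x * g) ∈ C.map π := by
        have := Subgroup.mem_pointwise_smul_iff_inv_smul_mem.1 hx2
        simpa [map_mul, map_inv] using this
      rw [Subgroup.mem_bot]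
      exact (QuotientGroup.eq_one_iff x).2 (ti g hg' x (back x hx1) (back _ hx3))
  obtain ⟨N, hN1, hN2, hN3⟩ := Cfsg.Agent.S0035.result _ hF
  obtain ⟨N', hN1', -, hN3'⟩ := Cfsg.Agent.S0042.result _ hF
  have hNN : N' = N := SetLike.coe_injective (hN1'.trans hN1.symm)
  subst hNN
  set K : Subgroup G := N'.comap π with hK
  haveI : K.Normal := hN2.comap π
  have hZK : Subgroup.center G ≤ K := by
    intro z hz
    show π z ∈ N'
    rw [show π z = 1 from (QuotientGroup.eq_one_iff z).2 hz]
    exact N'.one_mem
  have hKs : Group.IsSolvable K := by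
    haveI : Group.IsSolvable ↥(Subgroup.center G) := comm_solv _ fun x hx y _ =>
      (Subgroup.mem_center_iff.1 hx y).symm
    haveI : Group.IsSolvable N' := inferInstance
    refine solvable_of_ker_le_range (Subgroup.inclusion hZK) (π.subgroupComap N') ?_
    intro x hx
    have h1 : (x : G) ∈ Subgroup.center G := by
      have := congrArg Subtype.val (MonoidHom.mem_ker.1 hx)
      exact (QuotientGroup.eq_one_iff (x : G)).1 this
    exact ⟨⟨x, h1⟩, rfl⟩
  have hKC : K ≤ C := fun k hk => (memC k).2 fun a ha =>
    hc _ le_sup_right (sup_solv K A hKs hA) a ha k (Subgroup.mem_sup_left hk)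
  have hNH : N' ≤ C.map π := by
    intro y hy
    obtain ⟨y, rfl⟩ := hπs y
    exact ⟨y, hKC hy, rfl⟩
  apply hF.2.1
  rw [eq_top_iff, ← hN3.sup_eq_top]
  exact sup_le hNH le_rfl


/-- Let A be a solvable subgroup of a finite group G such that A lies in the centre of every solvable subgroup of G containing A. Then A lies in the centre of G. -/
theorem result {G : Type*} [Group G] [Finite G]
    (A : Subgroup G) (hA : Group.IsSolvable A)
    (hc : ∀ S : Subgroup G, A ≤ S → Group.IsSolvable S → ∀ a ∈ A, ∀ s ∈ S, a * s = s * a) : A ≤ Subgroup.center G := by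
  exact main _ G rfl A hA hc

end Cfsg.Agent.S4097
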