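import Cfsg.Statements.S4104
import Cfsg.Agent.H23.Cnt3
-- import your own Cfsg.Agent.* helpers here

set_option autoImplicit false
open Cfsg

namespace Cfsg.Agent.S4104

/-- Let G be a finite group, π a set of primes with least member p, m the π-part of the order of G and k the number of conjugacy classes of G consisting of π-elements (elements whose order is divisible only by primes in π). If k > m/p, then G has a nilpotent Hall π-subgroup (a nilpotent subgroup of order m) whose derived subgroup has order at most p. -/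
theorem result {G : Type*} [Group G] [Finite G]
    (π : Set ℕ) (hπ : ∀ q ∈ π, q.Prime) (p : ℕ) (hp : p ∈ π) (hmin : ∀ q ∈ π, p ≤ q)
    (m : ℕ) (hm : m ∣ Nat.card G) (hmπ : ∀ q : ℕ, q.Prime → q ∣ m → q ∈ π)
    (hm' : ∀ q ∈ π, ¬ q ∣ Nat.card G / m)
    (k : ℕ) (hk : k = Nat.card {C : ConjClasses G // ∀ q : ℕ, q.Prime → (∃ g : G, ConjClasses.mk g = C ∧ q ∣ orderOf g) → q ∈ π})
    (hmany : m < p * k) :
    ∃ H : Subgroup G, Nat.card H = m ∧ Group.IsNilpotent H ∧ Nat.card (commutator H) ≤ p := by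

  have e := H23.Cnt.pp_eq Nat.card_pos.ne' (Nat.mul_div_cancel' hm).symm hmπ
    (BG.Amb.piNat_compl_iff.2 fun q _ hq => hm' q hq)
  subst hk
  obtain ⟨H, h1, hH⟩ := H23.Cnt.nil_hall hmin (e.trans_lt hmany)
  rw [H23.Cnt.pp_card h1] at e
  exact ⟨H, e, hH, H23.Cnt.card_commutator_le (fun s hs d => hmin s (h1.1 s hs d))
    (e.trans_lt (hmany.trans_le (Nat.mul_le_mul_left _
      ((H23.Cnt.kpi_le_of_nil hH h1).trans (H23.Cnt.kS_le_classes H)))))⟩

end Cfsg.Agent.S4104
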