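import Cfsg.Statements.S4105
import Cfsg.Agent.H23.Cnt3
-- import your own Cfsg.Agent.* helpers here

set_option autoImplicit false
open Cfsg

namespace Cfsg.Agent.S4105

/-- Let G be a finite group, π a set of primes with least member p, m the π-part of the order of G and k the number of conjugacy classes of G consisting of π-elements. If k > m·(p² + p − 1)/p³, then G has an abelian Hall π-subgroup (an abelian subgroup of order m). -/
theorem result {G : Type*} [Group G] [Finite G]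
    (π : Set ℕ) (hπ : ∀ q ∈ π, q.Prime) (p : ℕ) (hp : p ∈ π) (hmin : ∀ q ∈ π, p ≤ q)
    (m : ℕ) (hm : m ∣ Nat.card G) (hmπ : ∀ q : ℕ, q.Prime → q ∣ m → q ∈ π)
    (hm' : ∀ q ∈ π, ¬ q ∣ Nat.card G / m)
    (k : ℕ) (hk : k = Nat.card {C : ConjClasses G // ∀ q : ℕ, q.Prime → (∃ g : G, ConjClasses.mk g = C ∧ q ∣ orderOf g) → q ∈ π})
    (hmany : m * (p ^ 2 + p - 1) < p ^ 3 * k) :
    ∃ H : Subgroup G, Nat.card H = m ∧ IsMulCommutative H := by

  have e := H23.Cnt.pp_eq Nat.card_pos.ne' (Nat.mul_div_cancel' hm).symm hmπ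
    (BG.Amb.piNat_compl_iff.2 fun q _ hq => hm' q hq)
  change k = FGS.kpi π G at hk
  obtain ⟨H, h1, hH⟩ := H23.Cnt.nil_hall (G := G) hmin (by
    rw [e, ← hk]
    obtain ⟨t, rfl⟩ : ∃ t, p = t + 1 := ⟨p - 1, by have := (hπ p hp).two_le; omega⟩
    rw [show (t + 1) ^ 2 + (t + 1) - 1 = (t + 1) ^ 2 + t from rfl] at hmany
    refine Nat.lt_of_mul_lt_mul_left (a := (t + 1) ^ 2) ?_
    nlinarith [Nat.zero_le (m * t)])
  rw [H23.Cnt.pp_card h1] at e
  exact ⟨H, e, H23.Cnt.comm_of_lt (fun s hs d => hmin s (h1.1 s hs d))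
    (e ▸ hmany.trans_le (Nat.mul_le_mul_left _ (hk ▸ H23.Cnt.kpi_le_of_nil hH h1)))⟩

end Cfsg.Agent.S4105
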