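import Mathlib
import Cfsg.Statements.S4107
import Cfsg.Agent.FGS.Camina
import Cfsg.Agent.Core.Fitting

set_option autoImplicit false
open Cfsg

namespace Cfsg.Agent.S4107

open Subgroup

/-- Let G be a finite group and N a proper non-trivial normal subgroup such that for every x outside N all elements of the coset xN have the same order as x. Then N ≤ F(G) or F(G) ≤ N, where F(G) is the Fitting subgroup; and if N is properly contained in F(G) then F(G) has prime-power order. -/
theorem result {G : Type*} [Group G] [Finite G] (N : Subgroup G) [N.Normal] (hN1 : N ≠ ⊥) (hN2 : N ≠ ⊤)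
    (heq : ∀ x : G, x ∉ N → ∀ n ∈ N, orderOf (x * n) = orderOf x) :
    (N ≤ Cfsg.fittingSubgroup G ∨ Cfsg.fittingSubgroup G ≤ N) ∧
    (N < Cfsg.fittingSubgroup G → IsPrimePow (Nat.card (Cfsg.fittingSubgroup G))) := by
  have key : ∀ q : ℕ, q.Prime → ¬ Cfsg.pCore q G ≤ N → IsPGroup q N := fun q hq h => by
    haveI := Fact.mk hq
    obtain ⟨x, hx, hxN⟩ := SetLike.not_le_iff_exists.mp h
    obtain ⟨k, hk⟩ := Core.pCore_isPGroup q ⟨x, hx⟩
    refine (IsPGroup.comap_of_ker_isPGroup (H := N.map (QuotientGroup.mk' (Cfsg.pCore q G))) ?_ (QuotientGroup.mk' _)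
      (by rw [QuotientGroup.ker_mk']; exact Core.pCore_isPGroup q)).to_le (le_comap_map _ _)
    rintro ⟨_, n, hn, rfl⟩
    refine ⟨k, Subtype.ext ?_⟩
    have h1 : (x * n) ^ q ^ k = 1 := by
      rw [← orderOf_dvd_iff_pow_eq_one, heq x hxN n hn, orderOf_dvd_iff_pow_eq_one]
      exact congrArg Subtype.val hk
    simpa [mul_pow, (QuotientGroup.eq_one_iff x).mpr hx] using congrArg (QuotientGroup.mk' (Cfsg.pCore q G)) h1
  have key2 : ¬ Cfsg.fittingSubgroup G ≤ N → ∃ q : ℕ, q.Prime ∧ IsPGroup q N := fun h => by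
    by_contra! h1
    haveI := Core.fitting_normal (G := G)
    exact h ((Core.le_iSup_pCore_of_nilpotent _ Core.fitting_nilpotent).trans (iSup_le fun q => by
      by_contra h2; exact h1 q q.2 (key q q.2 h2)))
  refine ⟨or_iff_not_imp_right.mpr fun h => ?_, fun h => ?_⟩
  · obtain ⟨q, hq, h1⟩ := key2 h
    haveI := Fact.mk hq
    exact Core.le_fitting inferInstance h1.isNilpotent
  · obtain ⟨q, hq, h1⟩ := key2 h.not_ge
    haveI := Fact.mk hq
    haveI := Core.fitting_normal (G := G)
    have h2 : Cfsg.fittingSubgroup G ≤ Cfsg.pCore q G :=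
      (Core.le_iSup_pCore_of_nilpotent _ Core.fitting_nilpotent).trans (iSup_le fun r => by
        haveI := Fact.mk r.2
        by_cases h3 : Cfsg.pCore r G ≤ N
        · exact h3.trans (Core.le_pCore inferInstance h1)
        · by_contra h4
          exact hN1 (disjoint_self.mp (IsPGroup.disjoint_of_ne r q (fun e => h4 (e ▸ le_rfl)) N N (key r r.2 h3) h1)))
    obtain ⟨k, hk⟩ := IsPGroup.iff_card.mp ((Core.pCore_isPGroup q).to_le h2)
    exact ⟨q, k, hq.prime, Nat.pos_of_ne_zero fun e => ne_bot_of_gt h (by rwa [e, pow_zero, card_eq_one] at hk), hk.symm⟩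

end Cfsg.Agent.S4107
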