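import Mathlib
import Cfsg.Statements.S4108
import Cfsg.Agent.FGS.Basic2
import Cfsg.Agent.Core.Basic
import Cfsg.Agent.H2.Frobenius

set_option autoImplicit false
open Cfsg

namespace Cfsg.Agent.S4108

/-- Let G be a finite group, p a prime and N a proper non-trivial normal p-subgroup such that for every x outside N all elements of the coset xN have the same order as x. Then every non-trivial subgroup H of G of order prime to p acts fixed-point-freely on N: NH is a Frobenius group with complement H and kernel N. -/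
theorem result {G : Type*} [Group G] [Finite G] (N : Subgroup G) [N.Normal] (hN1 : N ≠ ⊥) (hN2 : N ≠ ⊤)
    (heq : ∀ x : G, x ∉ N → ∀ n ∈ N, orderOf (x * n) = orderOf x)
    (p : ℕ) [Fact p.Prime] (hNp : IsPGroup p N) :
    ∀ H : Subgroup G, H ≠ ⊥ → (Nat.card H).Coprime p →
      Cfsg.IsFrobeniusComplement (H.subgroupOf (N ⊔ H)) ∧ Cfsg.frobeniusKernel (H.subgroupOf (N ⊔ H)) = (N.subgroupOf (N ⊔ H) : Set ↥(N ⊔ H)) := by
  intro H hH hHp
  obtain ⟨k, hk⟩ := IsPGroup.iff_card.mp hNp
  have hcop : (Nat.card N).Coprime (Nat.card H) := by rw [hk]; exact Nat.Coprime.pow_left _ hHp.symm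
  have hc : Subgroup.IsComplement' (N.subgroupOf (N ⊔ H)) (H.subgroupOf (N ⊔ H)) := by
    refine Subgroup.isComplement'_of_coprime ?_ ?_
    · rw [Core.card_subgroupOf_of_le le_sup_left, Core.card_subgroupOf_of_le le_sup_right,
        Core.card_sup_of_disjoint (le_top.trans (Subgroup.normalizer_eq_top N).ge) (Core.disjoint_of_coprime hcop)]
    · rwa [Core.card_subgroupOf_of_le le_sup_left, Core.card_subgroupOf_of_le le_sup_right]
  have hF : Cfsg.IsFrobeniusComplement (H.subgroupOf (N ⊔ H)) := by
    refine (H2.Frob.iff_semiregular hc ?_ ?_).mpr fun h hh h1 => ?_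
    · rw [Ne, Subgroup.subgroupOf_eq_bot, disjoint_iff, inf_eq_left.mpr le_sup_left]; exact hN1
    · rw [Ne, Subgroup.subgroupOf_eq_bot, disjoint_iff, inf_eq_left.mpr le_sup_right]; exact hH
    · rw [eq_bot_iff]
      rintro n ⟨hn, hnh⟩
      have hhN : (h : G) ∉ N := fun h' => h1 (Subtype.ext (Core.eq_one_of_mem_of_coprime hcop h' hh))
      have hcomm : Commute (h : G) n :=
        (congrArg Subtype.val (Subgroup.mem_centralizer_singleton_iff.mp hnh)).symm
      have h2 := heq h hhN n hn
      rw [hcomm.orderOf_mul_eq_mul_orderOf_of_coprime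
        (Nat.Coprime.of_dvd (H.orderOf_dvd_natCard hh) (N.orderOf_dvd_natCard hn) hcop.symm)] at h2
      exact Subtype.ext (orderOf_eq_one_iff.mp ((Nat.mul_eq_left (orderOf_pos _).ne').mp h2))
  exact ⟨hF, H2.Frob.kernel_eq hc hF⟩

end Cfsg.Agent.S4108
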