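import Mathlib
import Cfsg.Statements.S4112
import Cfsg.Agent.FGS.Suppl
import Cfsg.Agent.FGS.Sylow
import Cfsg.Agent.Core.Coprime2

set_option autoImplicit false
open Cfsg

namespace Cfsg.Agent.S4112

/-- Let G be a finite group and M ≤ N non-trivial proper normal subgroups such that for every g outside N the conjugacy class of g is a union of cosets of M (equivalently gm is conjugate to g for every m ∈ M). Then (1) and (2) below are equivalent, and they imply (3): (1) every g outside N acts fixed-point-freely on M, that is C_G(x) ≤ N for every x ∈ M, x ≠ 1; (2) the index of N in G is coprime to the order of M; (3) there is a subgroup H of G with HN = G and H ∩ M = 1. -/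
theorem result {G : Type*} [Group G] [Finite G] (N M : Subgroup G) [N.Normal] [M.Normal] (hMN : M ≤ N) (hM1 : M ≠ ⊥) (hN2 : N ≠ ⊤)
    (hcam : ∀ g : G, g ∉ N → ∀ m ∈ M, ∃ x : G, x * g * x⁻¹ = g * m) :
    ((∀ x ∈ M, x ≠ 1 → Subgroup.centralizer ({x} : Set G) ≤ N) ↔ N.index.Coprime (Nat.card M)) ∧
    ((∀ x ∈ M, x ≠ 1 → Subgroup.centralizer ({x} : Set G) ≤ N) → ∃ H : Subgroup G, H ⊔ N = ⊤ ∧ H ⊓ M = ⊥) := by
  have h12 : (∀ x ∈ M, x ≠ 1 → Subgroup.centralizer ({x} : Set G) ≤ N) → N.index.Coprime (Nat.card M) := by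
    intro hc
    refine Nat.Coprime.symm (Nat.coprime_of_dvd fun p hp h1 h2 => ?_)
    haveI := Fact.mk hp
    obtain ⟨P⟩ : Nonempty (Sylow p G) := inferInstance
    have hne : (P : Subgroup G) ⊓ M ≠ ⊥ := fun h => by
      have h3 := FGS.not_dvd_relIndex_sylow_normal P M
      have h4 := Core.card_inf_mul_relIndex (P : Subgroup G) M
      rw [h, Subgroup.card_bot, one_mul] at h4
      exact h3 (h4 ▸ h1)
    have h5 := Core.inf_centralizer_ne_bot_of_isPGroup (P.isPGroup'.to_le inf_le_left) P.isPGroup'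
      (Core.le_normalizer_inf Subgroup.le_normalizer (le_top.trans (Subgroup.normalizer_eq_top M).ge)) hne
    obtain ⟨⟨z, hz⟩, hz1⟩ := Subgroup.ne_bot_iff_exists_ne_one.mp h5
    refine FGS.not_dvd_index_of_sylow_le P (fun y hy => hc z hz.1.2 (fun h => hz1 (Subtype.ext h)) ?_) h2
    exact Subgroup.mem_centralizer_singleton_iff.mpr (hz.2 y hy)
  refine ⟨⟨h12, fun hcop x hx hx1 g hg => ?_⟩, fun hc => ?_⟩
  · refine FGS.mem_of_forall_prime N fun q hq => ?_
    haveI := Fact.mk hq
    obtain ⟨a, b, ha, hb, hab, hcomm, ⟨k, hk⟩, hbq⟩ := FGS.exists_pPart q g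
    refine ⟨orderOf b, (Nat.Prime.coprime_iff_not_dvd hq).mp hbq.symm, ?_⟩
    rw [hab, hcomm.mul_pow, pow_orderOf_eq_one, mul_one]
    refine N.pow_mem (by_contra fun haN => ?_) _
    have hqN : q ∣ N.index := by
      by_contra hn
      exact haN (Core.le_of_coprime_index (K := Subgroup.zpowers a) (by
        rw [Nat.card_zpowers, hk]; exact Nat.Coprime.pow_left _ ((Nat.Prime.coprime_iff_not_dvd hq).mpr hn))
        (Subgroup.mem_zpowers a))
    obtain ⟨y, hy⟩ := hcam a haN x hx
    have hax : Commute a x := Subgroup.mem_centralizer_singleton_iff.mp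
      ((Subgroup.zpowers_le.mpr hg) ha)
    have h1 : (a * x) ^ q ^ k = 1 := by
      rw [← hy, conj_pow, ← hk, pow_orderOf_eq_one]; group
    rw [hax.mul_pow, ← hk, pow_orderOf_eq_one, one_mul, hk] at h1
    have h2 : (q ^ k).Coprime (orderOf x) := Nat.Coprime.pow_left _
      (Nat.Coprime.of_dvd hqN (M.orderOf_dvd_natCard hx) hcop)
    exact hx1 (orderOf_eq_one_iff.mp (Nat.eq_one_of_dvd_coprimes h2 (orderOf_dvd_of_pow_eq_one h1) dvd_rfl))
  · obtain ⟨H, h1, -, h2⟩ := FGS.exists_min_suppl N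
    refine ⟨H, h1, (Core.disjoint_of_coprime (Nat.coprime_of_dvd fun p hp h3 h4 => ?_)).eq_bot⟩
    exact hp.one_lt.ne' (Nat.eq_one_of_dvd_coprimes (h12 hc) (h2 p hp h3) h4)

end Cfsg.Agent.S4112
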