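import Mathlib
import Cfsg.Statements.S4116
import Cfsg.Agent.FGS.Basic2
import Cfsg.Agent.FGS.Sylow
import Cfsg.Agent.H2.Frobenius

set_option autoImplicit false
open Cfsg

namespace Cfsg.Agent.S4116

open Subgroup Cfsg.Agent.FGS
open scoped Pointwise

/-- Let G be a finite group with a subgroup H whose order is coprime to its index (a Hall subgroup) and which meets each of its conjugates by elements outside N_G(H) trivially. Then every subgroup of G whose order is divisible only by primes dividing the order of H lies in a conjugate of H. -/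
theorem result {G : Type*} [Group G] [Finite G] (H : Subgroup G)
    (hHall : (Nat.card H).Coprime H.index) (hTI : Cfsg.IsTISubset (H : Set G))
    (K : Subgroup G) (hK : ∀ q : ℕ, q.Prime → q ∣ Nat.card K → q ∣ Nat.card H) :
    ∃ g : G, K ≤ H.map (MulAut.conj g).toMonoidHom := by
  set N := normalizer (H : Set G) with hN
  have hmem : ∀ x ∈ K, ∀ g : G, g⁻¹ * x * g ∈ N → g⁻¹ * x * g ∈ H := by
    intro x hx g hg
    haveI : (H.subgroupOf N).Normal := normal_in_normalizer
    refine mem_of_forall_prime H fun p hp => ?_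
    by_cases hd : p ∣ H.relIndex N
    · refine ⟨orderOf x, fun h => ?_, ?_⟩
      · exact hp.one_lt.ne' (Nat.eq_one_of_dvd_coprimes hHall (hK p hp (h.trans (K.orderOf_dvd_natCard hx)))
          (hd.trans (relIndex_dvd_index_of_le le_normalizer)))
      · have : (g⁻¹ * x * g) ^ orderOf x = 1 := by
          simpa [pow_orderOf_eq_one] using conj_pow (a := g⁻¹) (b := x) (i := orderOf x)
        rw [this]; exact one_mem _
    · exact ⟨_, hd, (H.subgroupOf N).pow_index_mem ⟨_, hg⟩⟩
  have hfix : ∀ (x : K) (g : G), x • (g : G ⧸ N) = g ↔ g⁻¹ * x * g ∈ N := fun x g =>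
    H2.smul_coe_eq_iff.trans mem_conj_iff
  obtain ⟨a, ha⟩ := H2.exists_fixed_of_forall_fix (G := K) (Ω := G ⧸ N) (by
    intro x hx a b ha hb
    obtain ⟨g, rfl⟩ := QuotientGroup.mk_surjective a
    obtain ⟨h, rfl⟩ := QuotientGroup.mk_surjective b
    have h1 := hmem x x.2 g ((hfix x g).mp ha)
    have h2 := hmem x x.2 h ((hfix x h).mp hb)
    symm
    rw [QuotientGroup.eq]
    by_contra hn
    have := hTI _ hn _ h1 (show _ ∈ H by convert h2 using 1; group)
    apply hx
    ext
    calc (x : G) = g * (g⁻¹ * x * g) * g⁻¹ := by group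
      _ = 1 := by rw [this]; group) (by
    intro x hx
    obtain ⟨q, j, hq, hqx, hj⟩ := exists_pow_orderOf_prime (x := (x : G)) fun h => hx (Subtype.ext h)
    haveI := Fact.mk hq
    have hqH := hK q hq (hqx.trans (K.orderOf_dvd_natCard x.2))
    obtain ⟨P, hP⟩ := exists_sylow_le_of_not_dvd_index (H := H) (p := q) fun h =>
      hq.one_lt.ne' (Nat.eq_one_of_dvd_coprimes hHall hqH h)
    obtain ⟨Q, hQ⟩ := exists_sylow_mem (k := 1) (hj.trans (pow_one q).symm)
    obtain ⟨g, rfl⟩ := MulAction.exists_smul_eq G P Q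
    refine ⟨g, (hfix x g).mpr ?_⟩
    by_contra hn
    have h1 : g⁻¹ * (x : G) ^ j * g ∈ H := hP (mem_smul_sylow_iff.mp hQ)
    have := hTI _ hn _ h1 (show _ ∈ H by convert h1 using 1; group)
    apply ne_one_of_orderOf_prime hq hj
    calc (x : G) ^ j = g * (g⁻¹ * x ^ j * g) * g⁻¹ := by group
      _ = 1 := by rw [this]; group)
  obtain ⟨g, rfl⟩ := QuotientGroup.mk_surjective a
  exact ⟨g, fun x hx => mem_conj_iff.mpr (hmem x hx g ((hfix ⟨x, hx⟩ g).mp (ha _)))⟩

end Cfsg.Agent.S4116
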