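import Mathlib
import Cfsg.Statements.S4117
import Cfsg.Agent.FGS.Basic2
import Cfsg.Agent.FGS.Semi
import Cfsg.Agent.Core.SylowOf
import Cfsg.Agent.Core.Coprime2
import Cfsg.Agent.BG.T1_22

set_option autoImplicit false
open Cfsg

namespace Cfsg.Agent.S4117

open Subgroup Cfsg.Agent.FGS SemidirectProduct
open scoped commutatorElement IsMulCommutative

theorem aux {X : Type*} [Group X] [Finite X] (A G : Subgroup X) (hA : A ≤ normalizer (G : Set X))
    (hcop : (Nat.card A).Coprime (Nat.card G)) [IsZGroup G] :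
    (Nat.card ↥(G ⊓ centralizer (A : Set X))).Coprime ((G ⊓ centralizer (A : Set X)).relIndex G) ∧
    IsCyclic ↥⁅G, A⁆ ∧ (G ⊓ centralizer (A : Set X)) ⊓ ⁅G, A⁆ = ⊥ ∧
    ⁅G, A⁆ ⊔ (G ⊓ centralizer (A : Set X)) = G := by
  have hs : Group.IsSolvable A ∨ Group.IsSolvable G := Or.inr inferInstance
  have hKG : ⁅G, A⁆ ≤ G := Core.commutator_le_of_le_normalizer hA
  have hcomm : IsMulCommutative ↥⁅G, A⁆ := by
    have h1 : IsCyclic ↥⁅G, G⁆ := by
      rw [← map_subtype_commutator]
      exact isCyclic_of_surjective _ (G.subtype.subgroupMap_surjective (commutator G))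
        (hH := IsZGroup.isCyclic_commutator G)
    have h2 : ⁅G, A⁆ ≤ centralizer ((⁅G, G⁆ : Subgroup X) : Set X) :=
      (commutator_mono (normalizer_commutator_ge_left G G)
        (Core.le_normalizer_commutator hA hA)).trans (BG.der1_norm_cyclic h1)
    refine ⟨⟨commutative_of_cyclic_center_quotient (Abelianization.of.comp (inclusion hKG)) fun x hx => ?_⟩⟩
    have : (x : X) ∈ ⁅G, G⁆ := by
      rw [← map_subtype_commutator]
      exact ⟨inclusion hKG x, (Abelianization.ker_of G).le hx, rfl⟩
    exact mem_center_iff.mpr fun y => Subtype.ext (mem_centralizer_iff.mp (h2 y.2) x this).symm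
  refine ⟨?_, ?_, ?_, Core.commutator_sup_centralizer A G hA hcop hs⟩
  · refine Nat.coprime_of_dvd fun p hp h1 h2 => ?_
    haveI := Fact.mk hp
    obtain ⟨P, hP, hAP⟩ := Core.exists_invariant_isSylowOf A G hA hcop hs p
    have h3 := (hP.inf_centralizer A G hA hcop hs hAP).ne_bot h1
    haveI : IsZGroup P := IsZGroup.of_injective (inclusion_injective hP.le)
    haveI : IsCyclic P := by haveI := hP.isPGroup.isNilpotent; infer_instance
    have hc := hcop.coprime_dvd_right (card_dvd_of_le hP.le)
    rcases hP.isPGroup.commutator_eq_bot_or_commutator_eq_self hAP hc.symm with h | h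
    · have h4 : P ≤ G ⊓ centralizer (A : Set X) :=
        le_inf hP.le (le_centralizer_iff.mp (Core.le_centralizer_iff_commutator_eq_bot'.mpr h))
      exact hP.not_dvd (h2.trans (relIndex_dvd_of_le_left G h4))
    · have h4 := Core.centralizer_inf_commutator_eq_bot A P inferInstance hAP hc
      rw [Subgroup.commutator_comm, h, inf_eq_left.mpr inf_le_left] at h4
      exact h3 h4
  · haveI : IsZGroup ↥⁅G, A⁆ := IsZGroup.of_injective (inclusion_injective hKG)
    haveI := CommGroup.isNilpotent (G := ↥⁅G, A⁆)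
    infer_instance
  · have h4 := Core.centralizer_inf_commutator_eq_bot A _ hcomm (normalizer_commutator_ge_right G A)
      (hcop.coprime_dvd_right (card_dvd_of_le hKG))
    rw [Core.commutator_commutator_eq A G hA hcop hs] at h4
    rw [eq_bot_iff, ← h4]
    exact le_inf (le_inf inf_le_right (inf_le_left.trans inf_le_right)) inf_le_right

/-- Let A be a finite group acting on the finite group G by automorphisms with the orders of A and G coprime, and suppose every Sylow subgroup of G is cyclic. Then the fixed-point subgroup C_G(A) is a Hall subgroup of G (its order is coprime to its index), the subgroup [G, A] generated by the elements g⁻¹·a(g) is cyclic and normal with [G, A] ∩ C_G(A) = 1 and [G, A]·C_G(A) = G. -/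
theorem result {G A : Type*} [Group G] [Finite G] [Group A] [Finite A]
    [MulDistribMulAction A G] (hcop : (Nat.card A).Coprime (Nat.card G))
    (hcyc : ∀ (p : ℕ) [Fact p.Prime] (P : Sylow p G), IsCyclic (P : Subgroup G)) :
    (Nat.card (MulAction.fixedPoints A G : Set G)).Coprime (Nat.card G / Nat.card (MulAction.fixedPoints A G : Set G)) ∧
    IsCyclic (Subgroup.closure {y : G | ∃ (a : A) (g : G), y = g⁻¹ * a • g}) ∧
    (Subgroup.closure {y : G | ∃ (a : A) (g : G), y = g⁻¹ * a • g}).Normal ∧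
    (Subgroup.closure {y : G | ∃ (a : A) (g : G), y = g⁻¹ * a • g} : Set G) ∩ MulAction.fixedPoints A G = {1} ∧
    Subgroup.closure {y : G | ∃ (a : A) (g : G), y = g⁻¹ * a • g} ⊔ Subgroup.closure (MulAction.fixedPoints A G) = ⊤ := by
  haveI : IsZGroup G := ⟨fun p hp P => haveI := Fact.mk hp; hcyc p P⟩
  let φ := MulDistribMulAction.toMulAut A G
  have hφ : ∀ a x, φ a x = a • x := fun _ _ => rfl
  haveI : IsZGroup (sdG φ) := IsZGroup.of_surjective (f := (sdEquivG φ).toMonoidHom) (sdEquivG φ).surjective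
  obtain ⟨h1, h2, h3, h4⟩ := aux (sdA φ) (sdG φ) (by rw [normalizer_eq_top]; exact le_top) (sd_coprime φ hcop)
  set K := closure {y : G | ∃ (a : A) (g : G), y = g⁻¹ * a • g} with hK
  let C := FixedPoints.subgroup A G
  have hC : C.map inl = sdG φ ⊓ centralizer (sdA φ : Set (G ⋊[φ] A)) := by
    ext x
    constructor
    · rintro ⟨x, hx, rfl⟩
      exact ⟨⟨x, rfl⟩, inl_mem_centralizer_sdA_iff.mpr hx⟩
    · rintro ⟨⟨x, rfl⟩, hx⟩
      exact ⟨x, inl_mem_centralizer_sdA_iff.mp hx, rfl⟩
  have he : ∀ (a : A) (g : G), ⁅(inl g : G ⋊[φ] A), (inr a : G ⋊[φ] A)⁆ = inl (g * a • g⁻¹) := by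
    intro a g
    rw [map_mul, ← hφ, ← sd_conj, commutatorElement_def, map_inv]; group
  have hK' : K.map inl = ⁅sdG φ, sdA φ⁆ := by
    apply le_antisymm
    · rw [map_le_iff_le_comap, closure_le]
      rintro _ ⟨a, g, rfl⟩
      have := commutator_mem_commutator (show inl g⁻¹ ∈ sdG φ from ⟨_, rfl⟩) (show inr a ∈ sdA φ from ⟨_, rfl⟩)
      rwa [he, inv_inv] at this
    · rw [commutator_le]
      rintro _ ⟨g, rfl⟩ _ ⟨a, rfl⟩
      rw [he]
      exact ⟨_, subset_closure ⟨a, g⁻¹, by rw [inv_inv]⟩, rfl⟩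
  rw [← hC, ← hK'] at h3 h4
  rw [← hC, card_map_inl] at h1
  refine ⟨?_, ?_, ?_, ?_, ?_⟩
  · rw [sdG, MonoidHom.range_eq_map, relIndex_map_map_of_injective _ _ inl_injective, relIndex_top_right] at h1
    change (Nat.card C).Coprime (Nat.card G / Nat.card C)
    rwa [← C.card_mul_index, Nat.mul_div_cancel_left _ Nat.card_pos]
  · rw [← hK'] at h2
    exact isCyclic_of_surjective _ (mapInlEquiv (φ := φ) K).symm.surjective
  · refine (sdG_le_normalizer_iff (φ := φ)).mp ?_
    rw [hK']; exact normalizer_commutator_ge_left _ _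
  · rw [← map_inf _ _ _ inl_injective, Subgroup.map_eq_bot_iff_of_injective _ inl_injective] at h3
    ext x
    constructor
    · rintro ⟨hx, hx'⟩
      exact h3.le ⟨hx', hx⟩
    · rintro rfl
      exact ⟨K.one_mem, C.one_mem⟩
  · rw [← Subgroup.map_sup, map_inl_eq_sdG] at h4
    rw [← h4]
    congr 1
    exact closure_eq C

end Cfsg.Agent.S4117
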