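import Mathlib
import Cfsg.Statements.S4126
import Cfsg.Agent.FGS.Basic2
import Cfsg.Agent.Transfer.OmegaFus
import Cfsg.Agent.Core.Product

set_option autoImplicit false
open Cfsg

namespace Cfsg.Agent.S4126

open Subgroup Cfsg.Agent.FGS

/-- Let G be a finite group and p a prime. Suppose every element of order p, and when p = 2 also every element of order 4, has a conjugacy class of p-power size. Then G has a normal p-complement. -/
theorem result {G : Type*} [Group G] [Finite G] (p : ℕ) [Fact p.Prime]
    (h : ∀ x : G, (orderOf x = p ∨ (p = 2 ∧ orderOf x = 4)) → ∃ a : ℕ, (Subgroup.centralizer ({x} : Set G)).index = p ^ a) :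
    Cfsg.HasNormalPComplement p G := by
  have hp : p.Prime := Fact.out
  obtain ⟨P⟩ : Nonempty (Sylow p G) := inferInstance
  refine Transfer.hasNormalPComplement_of_control_small P fun a _ ha g _ => ?_
  by_cases h1 : a = 1
  · exact ⟨1, one_mem _, by simp [h1]⟩
  have ha' : orderOf a = p ∨ (p = 2 ∧ orderOf a = 4) := by
    rcases ha with ha | ⟨rfl, ha⟩
    · exact Or.inl (orderOf_eq_prime ha h1)
    · by_cases h2 : a ^ 2 = 1
      · exact Or.inl (orderOf_eq_prime h2 h1)
      · exact Or.inr ⟨rfl, orderOf_eq_prime_pow (p := 2) (n := 1) (by simpa using h2) (by simpa using ha)⟩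
  obtain ⟨k, hk⟩ := h a ha'
  have hc : (P : Subgroup G).index.Coprime (centralizer ({a} : Set G)).index := by
    rw [hk]
    exact Nat.Coprime.pow_right _ ((Nat.Prime.coprime_iff_not_dvd hp).mpr P.not_dvd_index).symm
  obtain ⟨x, hx, y, hy, rfl⟩ := Core.exists_mul_of_coprime_index hc g
  refine ⟨x, hx, ?_⟩
  have := mem_centralizer_singleton_iff.mp hy
  calc x * y * a * (x * y)⁻¹ = x * (y * a) * y⁻¹ * x⁻¹ := by group
    _ = x * a * x⁻¹ := by rw [this]; group

end Cfsg.Agent.S4126
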