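import Mathlib
import Cfsg.Statements.S4139
import Cfsg.Agent.FGS.Basic2
import Cfsg.Agent.Core.Coprime2

set_option autoImplicit false
open Cfsg

namespace Cfsg.Agent.S4139

open Subgroup

theorem card_eq_sum {G : Type*} [Group G] [Finite G] [Fintype (ConjClasses G)] (Q : ℕ → Prop) [DecidablePred Q] :
    Nat.card {x : G // Q (centralizer ({x} : Set G)).index} =
      ∑ C : ConjClasses G, if Q (Nat.card C.carrier) then Nat.card C.carrier else 0 := by
  classical
  haveI := Fintype.ofFinite G
  rw [Nat.card_eq_fintype_card, Fintype.card_subtype, Finset.card_eq_sum_card_fiberwise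
    (f := ConjClasses.mk) (t := Finset.univ) (fun _ _ => Finset.mem_coe.mpr (Finset.mem_univ _))]
  refine Finset.sum_congr rfl fun C _ => ?_
  have h : ∀ x : G, ConjClasses.mk x = C → (centralizer ({x} : Set G)).index = Nat.card C.carrier := by
    rintro x rfl; exact (FGS.ncard_carrier x).symm
  split_ifs with hQ
  · rw [Nat.card_coe_set_eq, Set.ncard_eq_toFinset_card']
    congr 1
    ext x
    simp only [Finset.mem_filter, Finset.mem_univ, true_and, Set.mem_toFinset, ConjClasses.mem_carrier_iff_mk_eq]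
    exact and_iff_right_of_imp fun hx => by rwa [h x hx]
  · rw [Finset.card_eq_zero, Finset.filter_eq_empty_iff]
    exact fun x hx e => hQ (h x e ▸ (Finset.mem_filter.mp hx).2)

/-- number of elements with class size a power of `p` -/
noncomputable def u (p : ℕ) (G : Type*) [Group G] : ℕ :=
  Nat.card {x : G // ∃ k, (centralizer ({x} : Set G)).index = p ^ k}

theorem u_modEq {G : Type*} [Group G] [Finite G] (p : ℕ) : u p G ≡ Nat.card (center G) [MOD p] := by
  classical
  haveI := Fintype.ofFinite (ConjClasses G)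
  have h1 : Nat.card (center G) = Nat.card {x : G // (centralizer ({x} : Set G)).index = 1} :=
    Nat.card_congr (Equiv.subtypeEquivRight fun x => FGS.index_centralizer_eq_one_iff.symm)
  rw [h1, u, card_eq_sum (fun n => ∃ k, n = p ^ k), card_eq_sum (· = 1)]
  refine Nat.ModEq.sum fun C _ => ?_
  split_ifs with h2 h3 h3
  · rfl
  · obtain ⟨k, hk⟩ := h2
    rw [hk] at h3 ⊢
    exact (Nat.modEq_zero_iff_dvd).mpr (dvd_pow_self p fun e => h3 (by rw [e, pow_zero]))
  · exact absurd ⟨0, h3⟩ h2
  · rfl

theorem u_quot {G : Type*} [Group G] [Finite G] {p : ℕ} (hp : p.Prime) (Z : Subgroup G) [Z.Normal]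
    (hZ : Z ≤ center G) (hc : Nat.card Z = p) : u p G = p * u p (G ⧸ Z) := by
  have key : ∀ x : G, (∃ k, (centralizer ({x} : Set G)).index = p ^ k) ↔
      ∃ k, (centralizer ({(x : G ⧸ Z)} : Set (G ⧸ Z))).index = p ^ k := fun x => by
    rw [← index_comap_of_surjective _ (QuotientGroup.mk'_surjective Z)]
    set D := (centralizer ({(x : G ⧸ Z)} : Set (G ⧸ Z))).comap (QuotientGroup.mk' Z)
    have hD : ∀ d ∈ D, d * x * d⁻¹ * x⁻¹ ∈ Z := fun d hd => by
      rw [← QuotientGroup.eq_one_iff]
      have : (d : G ⧸ Z) * x = x * d := mem_centralizer_singleton_iff.mp hd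
      simp [this]
    let f : D →* Z := MonoidHom.mk' (fun d => ⟨_, hD d d.2⟩) fun d e => Subtype.ext (by
      have := mem_center_iff.mp (hZ (hD e e.2)) ((d : G) * x * (d : G)⁻¹ * x⁻¹)
      have h2 := mem_center_iff.mp (hZ (hD e e.2)) d
      simp only [coe_mul]
      rw [this, ← mul_assoc _ _ x⁻¹, ← mul_assoc _ _ (d : G)⁻¹, ← mul_assoc _ _ x, ← h2]
      group)
    have hle : centralizer ({x} : Set G) ≤ D := fun g hg => mem_centralizer_singleton_iff.mpr
      (congrArg (QuotientGroup.mk' Z) (mem_centralizer_singleton_iff.mp hg))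
    have h1 : (centralizer ({x} : Set G)).relIndex D ∣ p := by
      have : (centralizer ({x} : Set G)).subgroupOf D = f.ker := by
        ext d
        rw [mem_subgroupOf, mem_centralizer_singleton_iff, MonoidHom.mem_ker, Subtype.ext_iff]
        exact (mul_inv_eq_iff_eq_mul.trans (by simp [mul_inv_eq_iff_eq_mul])).symm
      rw [relIndex, this, index_ker, ← hc]
      exact card_subgroup_dvd_card _
    rw [← relIndex_mul_index hle]
    refine ⟨fun ⟨k, hk⟩ => ?_, fun ⟨k, hk⟩ => ?_⟩
    · obtain ⟨j, -, hj⟩ := (Nat.dvd_prime_pow hp).mp (hk ▸ dvd_mul_left _ _)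
      exact ⟨j, hj⟩
    · obtain ⟨j, -, hj⟩ := (Nat.dvd_prime_pow hp (m := k + 1)).mp
        ((Nat.mul_dvd_mul_right h1 D.index).trans (by rw [pow_succ', hk]))
      exact ⟨j, hj⟩
  have := Nat.card_congr (QuotientGroup.preimageMkEquivSubgroupProdSet Z
    {y | ∃ k, (centralizer ({y} : Set (G ⧸ Z))).index = p ^ k})
  rw [Nat.card_prod, hc] at this
  exact (Nat.card_congr (Equiv.subtypeEquivRight key)).trans this

theorem exists_central {G : Type*} [Group G] [Finite G] {p : ℕ} (hp : p.Prime) (h : p ∣ Nat.card (center G)) :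
    ∃ Z : Subgroup G, Z.Normal ∧ Z ≤ center G ∧ Nat.card Z = p := by
  haveI := Fact.mk hp
  obtain ⟨z, hz⟩ := exists_prime_orderOf_dvd_card' p h
  have := zpowers_le.mpr z.2
  exact ⟨_, ⟨fun x hx g => by rwa [mem_center_iff.mp (this hx) g, mul_inv_cancel_right]⟩, this,
    by rw [Nat.card_zpowers, orderOf_coe, hz]⟩

theorem dvd_u {p : ℕ} (hp : p.Prime) (k : ℕ) : ∀ (G : Type*) [Group G] [Finite G] [Group.IsNilpotent G],
    p ^ k ∣ Nat.card G → p ^ k ∣ u p G := by
  induction k with
  | zero => simp
  | succ k ih =>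
    intro G _ _ _ h
    haveI := Fact.mk hp
    obtain ⟨P⟩ : Nonempty (Sylow p G) := inferInstance
    haveI : (P : Subgroup G).Normal := Sylow.normal_of_normalizerCondition Group.normalizerCondition_of_isNilpotent P
    have h1 : (P : Subgroup G) ⊓ center G ≠ ⊥ := by
      rw [← centralizer_univ, ← coe_top]
      exact Core.inf_centralizer_ne_bot_of_nilpotent (N := ⊤) inferInstance le_top le_top (normalizer_eq_top _).ge
        (P.ne_bot_of_dvd_card ((dvd_pow_self p k.succ_ne_zero).trans h))
    obtain ⟨n, hn⟩ := IsPGroup.iff_card.mp (P.isPGroup'.to_le (inf_le_left : (P : Subgroup G) ⊓ center G ≤ _))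
    obtain ⟨Z, _, hZ, hc⟩ := exists_central (G := G) hp ((dvd_pow_self p fun e => h1 (by
      rwa [e, pow_zero, card_eq_one] at hn)).trans (hn ▸ card_dvd_of_le inf_le_right))
    rw [u_quot hp Z hZ hc, pow_succ']
    refine Nat.mul_dvd_mul_left p (ih _ (Nat.dvd_of_mul_dvd_mul_right hp.pos ?_))
    rwa [← pow_succ, ← hc, ← card_eq_card_quotient_mul_card_subgroup, hc]

theorem exists_normal {p : ℕ} (hp : p.Prime) (k : ℕ) : ∀ (G : Type*) [Group G] [Finite G],
    p ^ k ∣ u p G → ∃ N : Subgroup G, N.Normal ∧ Nat.card N = p ^ k := by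
  induction k with
  | zero => exact fun G _ _ _ => ⟨⊥, inferInstance, by simp⟩
  | succ k ih =>
    intro G _ _ h
    obtain ⟨Z, _, hZ, hc⟩ := exists_central (G := G) hp
      (((u_modEq p).dvd_iff dvd_rfl).mp ((dvd_pow_self p k.succ_ne_zero).trans h))
    rw [u_quot hp Z hZ hc, pow_succ'] at h
    obtain ⟨N, _, hN⟩ := ih _ (Nat.dvd_of_mul_dvd_mul_left hp.pos h)
    exact ⟨N.comap (QuotientGroup.mk' Z), inferInstance, by rw [Core.card_comap_mk', hc, hN, pow_succ']⟩

/-- Let G and H be finite groups such that for every natural number k, G and H have the same number of conjugacy classes of size k. If H is nilpotent then G is nilpotent. -/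
theorem result {G H : Type*} [Group G] [Finite G] [Group H] [Finite H]
    (hH : Group.IsNilpotent H)
    (h : ∀ k : ℕ, Nat.card {C : ConjClasses G // Nat.card C.carrier = k} = Nat.card {C : ConjClasses H // Nat.card C.carrier = k}) :
    Group.IsNilpotent G := by
  classical
  haveI := Fintype.ofFinite (ConjClasses G)
  haveI := Fintype.ofFinite (ConjClasses H)
  let e := Equiv.ofFiberEquiv (f := fun C : ConjClasses G => Nat.card C.carrier)
    (g := fun C : ConjClasses H => Nat.card C.carrier) fun k => (Finite.card_eq.mp (h k)).some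
  have key : ∀ Q : ℕ → Prop, Nat.card {x : G // Q (centralizer ({x} : Set G)).index} =
      Nat.card {x : H // Q (centralizer ({x} : Set H)).index} := fun Q => by
    rw [card_eq_sum, card_eq_sum, ← e.sum_comp]
    exact Finset.sum_congr rfl fun C _ => by
      rw [show Nat.card (e C).carrier = Nat.card C.carrier from Equiv.ofFiberEquiv_map
        (f := fun C : ConjClasses G => Nat.card C.carrier) (g := fun C : ConjClasses H => Nat.card C.carrier) _ C]
  have hc : Nat.card G = Nat.card H := by simpa using key fun _ => True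
  refine (Group.isNilpotent_of_finite_tfae.out 3 0).mp fun p hp P => ?_
  haveI := hp
  obtain ⟨N, hN, h1⟩ := exists_normal hp.out ((Nat.card G).factorization p) G (by
    rw [u, key fun n => ∃ k, n = p ^ k]
    exact dvd_u hp.out _ H (hc ▸ Nat.ordProj_dvd _ _))
  rwa [← Core.eq_of_le_of_card_le ((IsPGroup.of_card h1).le_sylow_of_normal P) (by
    rw [h1, P.card_eq_multiplicity])]

end Cfsg.Agent.S4139
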