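import Mathlib
import Cfsg.Statements.S4140
import Cfsg.Agent.FGS.Camina
import Cfsg.Agent.FGS.Kazarin
import Cfsg.Agent.FGS.Thompson
import Cfsg.Agent.Transfer.FPF

set_option autoImplicit false
open Cfsg

namespace Cfsg.Agent.S4140

open Subgroup

/-- Let G be a finite group and N a proper non-trivial normal subgroup such that for every g outside N the conjugacy class of g is a union of cosets of N (equivalently gn is conjugate to g for every n ∈ N). Then either every element of G outside N acts fixed-point-freely on N (C_G(x) ≤ N for all x ∈ N, x ≠ 1, so G is a Frobenius group with kernel N), or N has prime-power order, or G/N has prime-power order. -/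
theorem result {G : Type*} [Group G] [Finite G] (N : Subgroup G) [N.Normal] (hN1 : N ≠ ⊥) (hN2 : N ≠ ⊤)
    (hcam : ∀ g : G, g ∉ N → ∀ n ∈ N, ∃ x : G, x * g * x⁻¹ = g * n) :
    (∀ x ∈ N, x ≠ 1 → Subgroup.centralizer ({x} : Set G) ≤ N) ∨ IsPrimePow (Nat.card N) ∨ IsPrimePow N.index := by
  have h : FGS.Cam N := hcam
  by_contra! hc
  obtain ⟨⟨x, hxN, hx1, hxc⟩, h2, h3⟩ := hc
  obtain ⟨g, hg, hgN⟩ := SetLike.not_le_iff_exists.mp hxc
  obtain ⟨p, j, hp, a, ha, haj, haN⟩ : ∃ r j : ℕ, r.Prime ∧ ∃ a ∈ zpowers g, orderOf a = r ^ j ∧ a ∉ N := by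
    by_contra! h4
    exact hgN (FGS.mem_of_forall_pPart N h4)
  haveI := Fact.mk hp
  have hpi : p ∣ N.index := by
    by_contra h4
    exact haN (Core.le_of_coprime_index (K := zpowers a) (by
      rw [Nat.card_zpowers, haj]; exact (hp.coprime_iff_not_dvd.mpr h4).pow_left j) (mem_zpowers a))
  have hpN : p ∣ Nat.card N := by
    by_contra h4
    exact hx1 ((FGS.eq_bot_of_eqOrd h.eqOrd le_rfl haN (haj ▸ (hp.coprime_iff_not_dvd.mpr h4).pow_left j)).le
      (mem_inf.mpr ⟨hxN, FGS.mem_centralizer_symm.mp (zpowers_le.mpr hg ha)⟩))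
  obtain ⟨L, _, hLN, hL, k, hk⟩ := FGS.exists_normal_of_npc (h.npc hpi)
  obtain ⟨q, hq, hqi, hqp⟩ : ∃ q : ℕ, q.Prime ∧ q ∣ N.index ∧ q ≠ p := by
    by_contra! h4
    exact h3 (isPrimePow_iff_unique_prime_dvd.mpr ⟨p, ⟨hp, hpi⟩, fun q hq => h4 q hq.1 hq.2⟩)
  haveI := Fact.mk hq
  by_cases hqN : q ∣ Nat.card N
  · obtain ⟨L', _, hLN', hL', k', hk'⟩ := FGS.exists_normal_of_npc (h.npc hqi)
    have hM : L ⊓ L' ≤ N := inf_le_left.trans hLN
    have hker : (QuotientGroup.mk' (L ⊓ L')).ker ≤ L' := by rw [QuotientGroup.ker_mk']; exact inf_le_right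
    obtain ⟨P⟩ : Nonempty (Sylow p (G ⧸ L ⊓ L')) := inferInstance
    have h4 : Nat.card (L'.map (QuotientGroup.mk' (L ⊓ L'))) = L.relIndex L' := by
      rw [← relIndex_ker, QuotientGroup.ker_mk', inf_relIndex_right]
    have h5 : Core.IsSylowOf p (L'.map (QuotientGroup.mk' (L ⊓ L'))) (N.map (QuotientGroup.mk' (L ⊓ L'))) := by
      obtain ⟨i, -, hi⟩ := (Nat.dvd_prime_pow hp).mp (hk ▸ FGS.relIndex_dvd_relIndex_of_normal hLN'
        (le_top.trans (normalizer_eq_top L').ge) L)
      refine ⟨map_mono hLN', IsPGroup.of_card (h4.trans hi), ?_⟩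
      rw [relIndex_map_map, sup_eq_left.mpr hker, sup_eq_left.mpr (hker.trans hLN'), hk']
      exact fun h => hqp ((Nat.prime_dvd_prime_iff_eq hp hq).mp (hp.dvd_of_dvd_pow h)).symm
    have h6 := h5.eq_of_normal (Core.isSylowOf_sylow_inf_normal P _) (le_top.trans (normalizer_eq_top _).ge)
    have hne : ∀ (r s i : ℕ) (A B : Subgroup G), r.Prime → s.Prime → r ≠ s → r ∣ Nat.card N → A ≤ N →
        A.relIndex N = s ^ i → ¬ r ∣ Nat.card B → ¬ A ≤ B := fun r s i A B hr hs hrs h7 h8 h9 h10 h11 => by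
      rw [← Core.card_mul_relIndex h8, h9, hr.dvd_mul] at h7
      exact h7.elim (fun h => h10 (h.trans (card_dvd_of_le h11)))
        fun h => hrs ((Nat.prime_dvd_prime_iff_eq hr hs).mp (hr.dvd_of_dvd_pow h))
    refine (h.map _ hM).false_of_normal (V := L.map (QuotientGroup.mk' (L ⊓ L'))) ?_ P (hS := h6 ▸ inferInstance) ?_
      (map_mono hLN) ?_ fun h7 => hL (h7.trans (Core.card_map_dvd _ _))
    · rwa [index_map_eq N (QuotientGroup.mk'_surjective _) (by rwa [QuotientGroup.ker_mk'])]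
    · rw [← h6, Ne, Subgroup.map_eq_bot_iff, QuotientGroup.ker_mk']
      exact fun h7 => hne p q k' L' L hp hq hqp.symm hpN hLN' hk' hL (h7.trans inf_le_left)
    · rw [Ne, Subgroup.map_eq_bot_iff, QuotientGroup.ker_mk']
      exact fun h7 => hne q p k L L' hq hp hqp hqN hLN hk hL' (h7.trans inf_le_right)
  · obtain ⟨y, hy⟩ := exists_prime_orderOf_dvd_card' q (hqi.trans N.index_dvd_card)
    have hnil : Group.IsNilpotent N := Transfer.nilpotent_of_prime_fpf (R := zpowers y)
      (le_top.trans (normalizer_eq_top N).ge) (by rwa [Nat.card_zpowers, hy]) (eq_bot_iff.mpr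
        ((inf_le_inf_left N (centralizer_le (Set.singleton_subset_iff.mpr (mem_zpowers y)))).trans
        (FGS.eq_bot_of_eqOrd h.eqOrd le_rfl (fun h4 => hqN (hy ▸ N.orderOf_dvd_natCard h4))
          (hy ▸ hq.coprime_iff_not_dvd.mpr hqN)).le))
    obtain ⟨P⟩ : Nonempty (Sylow p G) := inferInstance
    have h5 := Core.isSylowOf_sylow_inf_normal P N
    refine h.false_of_normal hpi P (hS := Core.normal_of_le_normalizer ((normalizer_eq_top N).ge.trans
      (FGS.normalizer_le_normalizer_of_isSylowOf_nilpotent hnil h5))) (h5.ne_bot hpN) hLN ?_ hL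
    rintro rfl
    rw [relIndex_bot_left] at hk
    exact h2 ⟨p, k, hp.prime, Nat.pos_of_ne_zero fun e => hN1 (by rwa [e, pow_zero, card_eq_one] at hk), hk.symm⟩

end Cfsg.Agent.S4140
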