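import Mathlib
import Cfsg.Statements.S4142
import Cfsg.Agent.Perm.Conj

set_option autoImplicit false
open Cfsg

namespace Cfsg.Agent.S4142

open Subgroup

/-- Let G be a finite group and N a normal subgroup. Then the conjugacy class of every element g outside N is a union of cosets of N (gn is conjugate to g for all n ∈ N) if and only if for every g outside N the centralizer of g in G has the same order as the centralizer of gN in G/N. -/
theorem result {G : Type*} [Group G] [Finite G] (N : Subgroup G) [N.Normal] :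
    (∀ g : G, g ∉ N → ∀ n ∈ N, ∃ x : G, x * g * x⁻¹ = g * n) ↔
      ∀ g : G, g ∉ N → Nat.card (Subgroup.centralizer ({g} : Set G)) =
        Nat.card (Subgroup.centralizer ({(QuotientGroup.mk g : G ⧸ N)} : Set (G ⧸ N))) := by
  have key : ∀ g : G, Nat.card (centralizer ({g} : Set G)) =
      Nat.card (centralizer ({(g : G ⧸ N)} : Set (G ⧸ N))) ↔
      {y | IsConj g y} = QuotientGroup.mk ⁻¹' {y : G ⧸ N | IsConj (g : G ⧸ N) y} := fun g => by
    have h1 := Perm.ncard_conj_mul_card_centralizer g
    have h2 := QuotientGroup.card_preimage_mk N {y : G ⧸ N | IsConj (g : G ⧸ N) y}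
    rw [card_eq_card_quotient_mul_card_subgroup N, ← Perm.ncard_conj_mul_card_centralizer (g : G ⧸ N),
      mul_right_comm, mul_comm _ (Nat.card N), ← Nat.card_coe_set_eq {y : G ⧸ N | _}, ← h2,
      Nat.card_coe_set_eq] at h1
    refine ⟨fun h => Set.eq_of_subset_of_ncard_le (fun y hy => (QuotientGroup.mk' N).map_isConj hy)
      (Nat.eq_of_mul_eq_mul_right Nat.card_pos (h ▸ h1)).ge, fun h => ?_⟩
    rw [← h] at h1
    exact Nat.eq_of_mul_eq_mul_left ((Set.ncard_pos (Set.toFinite _)).mpr ⟨g, IsConj.refl g⟩) h1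
  refine forall₂_congr fun g _ => ⟨fun h => (key g).mpr (Set.Subset.antisymm
    (fun y hy => (QuotientGroup.mk' N).map_isConj hy) fun y hy => ?_), fun h n hn => ?_⟩
  · obtain ⟨c, hc⟩ := isConj_iff.mp hy
    obtain ⟨c, rfl⟩ := QuotientGroup.mk_surjective c
    obtain ⟨x, hx⟩ := h _ (‹N.Normal›.conj_mem' _
      (QuotientGroup.eq.mp (show ((c * g * c⁻¹ : G) : G ⧸ N) = y from hc)) c)
    refine isConj_iff.mpr ⟨c * x, ?_⟩
    calc _ = c * (x * g * x⁻¹) * c⁻¹ := by group
      _ = _ := by rw [hx]; group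
  · refine isConj_iff.mp (((key g).mp h).ge ?_)
    change IsConj _ ((g * n : G) : G ⧸ N)
    rw [QuotientGroup.mk_mul_of_mem g hn]

end Cfsg.Agent.S4142
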