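import Mathlib
import Cfsg.Statements.S4144
import Cfsg.Agent.Inv.MCl3

set_option autoImplicit false
open Cfsg

namespace Cfsg.Agent.S4144

open Inv.Rg Subgroup H23.Kr
open scoped commutatorElement

/-- Let X be a finite p-group of order p^n, n ≥ 2, of nilpotency class n − 1 (maximal class), and H any subgroup of X. Then the index in H of the subgroup generated by the p-th powers of elements of H is at most p^p. -/
theorem result {X : Type*} [Group X] [Finite X] {p : ℕ} [Fact p.Prime] (n : ℕ) (hn : 2 ≤ n) (hX : Nat.card X = p ^ n)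
    (hmax : Group.nilpotencyClass X = n - 1) (H : Subgroup X) :
    (Subgroup.closure {y : X | ∃ h ∈ H, y = h ^ p}).relIndex H ≤ p ^ p := by
  rw [← pc_one_eq]
  rcases hn.eq_or_lt with rfl | h3
  · exact (MCl.relIndex_le_card _ _).trans ((card_le_card_group H).trans (hX ▸ Nat.pow_le_pow_right
      (Fact.out : p.Prime).pos (Fact.out : p.Prime).two_le))
  · exact (MCl.of_cls hX h3 hmax).relIndex_pc_le' H

end Cfsg.Agent.S4144
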