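import Mathlib
import Cfsg.Statements.S4153
import Cfsg.Agent.FGS.ClassCount
import Cfsg.Agent.Core.SylowOf

set_option autoImplicit false
open Cfsg

namespace Cfsg.Agent.S4153

open Subgroup
open scoped Classical

/-- Let G be a finite group, p a prime, N a normal subgroup, P a Sylow p-subgroup of G and P̄ a Sylow p-subgroup of G/N. Count the elements of p-power order, the identity included. Then (number of such elements of G/N)/#P̄ ≤ (number of such elements of G)/#P, stated as a cross-multiplied inequality, with equality when N is central. -/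
theorem result {G : Type*} [Group G] [Finite G] (p : ℕ) [Fact p.Prime] (N : Subgroup G) [N.Normal]
    (P : Sylow p G) (Pbar : Sylow p (G ⧸ N)) :
    Nat.card {g : (G ⧸ N) // ∃ k : ℕ, orderOf g = p ^ k} * Nat.card (P : Subgroup G) ≤ Nat.card {g : G // ∃ k : ℕ, orderOf g = p ^ k} * Nat.card (Pbar : Subgroup (G ⧸ N)) ∧
    (N ≤ Subgroup.center G → Nat.card {g : (G ⧸ N) // ∃ k : ℕ, orderOf g = p ^ k} * Nat.card (P : Subgroup G) = Nat.card {g : G // ∃ k : ℕ, orderOf g = p ^ k} * Nat.card (Pbar : Subgroup (G ⧸ N))) := by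
  have := Fintype.ofFinite G
  have hP : Nat.card P = Nat.card ((P : Subgroup G) ⊓ N : Subgroup G) * Nat.card Pbar := by
    have h1 := relIndex_ker (P : Subgroup G) (QuotientGroup.mk' N)
    have h2 := (Core.isSylowOf_top P).map (QuotientGroup.mk' N)
    rw [QuotientGroup.ker_mk'] at h1
    rw [map_top_of_surjective _ (QuotientGroup.mk'_surjective N)] at h2
    rw [← Core.card_inf_mul_relIndex N, inf_comm, h1, h2.card_eq (Core.isSylowOf_top Pbar)]
  have h1 : Nat.card {g : G // ∃ k : ℕ, orderOf g = p ^ k} =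
      ∑ c : G ⧸ N with ∃ k : ℕ, orderOf c = p ^ k,
        (Finset.univ.filter fun g : G => (∃ k : ℕ, orderOf g = p ^ k) ∧ (g : G ⧸ N) = c).card := by
    rw [Nat.card_eq_fintype_card, Fintype.card_subtype, Finset.card_eq_sum_card_fiberwise
      (f := fun g : G => (g : G ⧸ N)) (t := Finset.univ.filter fun c => ∃ k, orderOf c = p ^ k)]
    · simp only [Finset.filter_filter]
    · intro g hg
      obtain ⟨k, hk⟩ := (Finset.mem_filter.mp hg).2
      simpa using FGS.exists_pow_of_dvd Fact.out (hk ▸ orderOf_map_dvd (QuotientGroup.mk' N) g)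
  have key : ∀ c : G ⧸ N, (∃ k : ℕ, orderOf c = p ^ k) →
      Nat.card ((P : Subgroup G) ⊓ N : Subgroup G) ≤ (Finset.univ.filter fun g : G =>
        (∃ k : ℕ, orderOf g = p ^ k) ∧ (g : G ⧸ N) = c).card ∧ (N ≤ center G →
      (Finset.univ.filter fun g : G => (∃ k : ℕ, orderOf g = p ^ k) ∧ (g : G ⧸ N) = c).card ≤
        Nat.card ((P : Subgroup G) ⊓ N : Subgroup G)) := by
    rintro c ⟨k, hk⟩
    obtain ⟨x, rfl⟩ := QuotientGroup.mk_surjective c
    obtain ⟨a, -, e, j, hj⟩ := FGS.exists_pElement_lift (QuotientGroup.mk' N) x hk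
    obtain ⟨Q, hQ⟩ := FGS.exists_sylow_mem hj
    rw [(Core.isSylowOf_sylow_inf_normal P N).card_eq (Core.isSylowOf_sylow_inf_normal Q N),
      FGS.card_eq_card_filter]
    refine ⟨Finset.card_le_card_of_injOn (a * ·) (fun n hn => ?_) (mul_right_injective _).injOn,
      fun hz => Finset.card_le_card_of_injOn (a⁻¹ * ·) (fun y hy => ?_) (mul_right_injective _).injOn⟩
    · simp only [Finset.coe_filter, Finset.mem_univ, true_and, Set.mem_ofPred_eq, mem_inf] at hn ⊢
      exact ⟨FGS.exists_orderOf_eq_of_mem Q.isPGroup' (mul_mem hQ hn.1),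
        (QuotientGroup.mk_mul_of_mem _ hn.2).trans e⟩
    · simp only [Finset.coe_filter, Finset.mem_univ, true_and, Set.mem_ofPred_eq, mem_inf] at hy ⊢
      obtain ⟨⟨i, hi⟩, hy⟩ := hy
      have h2 : a⁻¹ * y ∈ N := QuotientGroup.eq.mp (Eq.trans e hy.symm)
      have h3 : Commute a⁻¹ y := by
        have := mem_center_iff.mp (hz h2) y
        rw [← mul_assoc] at this
        exact (mul_right_cancel this).symm
      obtain ⟨l, hl⟩ := FGS.exists_pow_of_dvd (k := j + i) Fact.out (h3.orderOf_mul_dvd_mul_orderOf.trans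
        (by rw [orderOf_inv, hj, hi, pow_add]))
      exact ⟨FGS.mem_sylow_of_mem_normalizer Q hl (center_le_normalizer _ (hz h2)), h2⟩
  rw [hP, ← mul_assoc, h1, Nat.card_eq_fintype_card, Fintype.card_subtype,
    ← Finset.sum_const_nat (f := fun _ => Nat.card ((P : Subgroup G) ⊓ N : Subgroup G)) (fun _ _ => rfl)]
  exact ⟨Nat.mul_le_mul_right _ (Finset.sum_le_sum fun c hc => (key c (Finset.mem_filter.mp hc).2).1),
    fun hz => congrArg (· * _) (Finset.sum_congr rfl fun c hc => le_antisymm
      (key c (Finset.mem_filter.mp hc).2).1 ((key c (Finset.mem_filter.mp hc).2).2 hz))⟩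

end Cfsg.Agent.S4153
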