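import Mathlib
import Cfsg.Statements.S4154
import Cfsg.Agent.Core.Product

set_option autoImplicit false
open Cfsg

namespace Cfsg.Agent.S4154

open Subgroup

/-- Let G be a finite group and α an automorphism of G such that every element of G is the product of an element fixed by α and an element of the form g⁻¹α(g). If N is a normal α-invariant subgroup, then the automorphism ᾱ induced on G/N has the same property, and every coset fixed by ᾱ contains an element fixed by α (so the fixed points of ᾱ are the images of the fixed points of α). -/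
theorem result {G : Type*} [Group G] [Finite G] (α : MulAut G)
    (hccp : ∀ x : G, ∃ c g : G, α c = c ∧ x = c * (g⁻¹ * α g))
    (N : Subgroup G) [N.Normal] (hN : ∀ n ∈ N, α n ∈ N) :
    (∀ x : G, ∃ c g : G, c⁻¹ * α c ∈ N ∧ x⁻¹ * (c * (g⁻¹ * α g)) ∈ N) ∧
    (∀ x : G, x⁻¹ * α x ∈ N → ∃ c : G, α c = c ∧ c⁻¹ * x ∈ N) := by
  refine ⟨fun x => ?_, fun x hx => ?_⟩
  · obtain ⟨c, g, h1, h2⟩ := hccp x
    exact ⟨c, g, by rw [h1, inv_mul_cancel]; exact one_mem _, by rw [← h2, inv_mul_cancel]; exact one_mem _⟩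
  let C : Subgroup G := α.toMonoidHom.eqLocus (MonoidHom.id G)
  let D : Subgroup G := ((QuotientGroup.mk' N).comp α.toMonoidHom).eqLocus (QuotientGroup.mk' N)
  have hD : ∀ y, y ∈ D ↔ y⁻¹ * α y ∈ N := fun y => eq_comm.trans QuotientGroup.eq
  have h1 : C ⊔ N ≤ D := sup_le (fun c hc => congrArg (QuotientGroup.mk' N) hc)
    fun n hn => (hD n).mpr (mul_mem (inv_mem hn) (hN n hn))
  have h2 : N.index ≤ Nat.card (C.map (QuotientGroup.mk' N)) * D.index := by
    rw [index, index, ← Nat.card_prod]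
    refine Nat.card_le_card_of_surjective
      (fun y => y.1 * QuotientGroup.mk' N (y.2.out * (α y.2.out)⁻¹)) fun y => ?_
    obtain ⟨y, rfl⟩ := QuotientGroup.mk_surjective y
    obtain ⟨c, g, h1, rfl⟩ := hccp y
    obtain ⟨d, hd⟩ := QuotientGroup.mk_out_eq_mul D g⁻¹
    refine ⟨⟨⟨_, c, h1, rfl⟩, (g⁻¹ : G)⟩, ?_⟩
    have : QuotientGroup.mk' N (α d) = QuotientGroup.mk' N d := d.2
    simp only [hd, map_mul, map_inv, this]
    change _ = QuotientGroup.mk' N _
    simp only [map_mul, map_inv]
    group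
  have h3 := relIndex_ker C (QuotientGroup.mk' N)
  rw [QuotientGroup.ker_mk'] at h3
  rw [← h3, ← relIndex_sup_right, ← relIndex_mul_index (le_sup_right : N ≤ C ⊔ N),
    ← relIndex_mul_index h1] at h2
  have h4 := Nat.le_of_mul_le_mul_left h2 (Nat.pos_of_ne_zero index_ne_zero_of_finite)
  have h5 : (C ⊔ N).relIndex D = 1 := le_antisymm (by
    have := Nat.pos_of_ne_zero (index_ne_zero_of_finite (H := D))
    nlinarith) (Nat.pos_of_ne_zero index_ne_zero_of_finite)
  obtain ⟨c, hc, n, hn, rfl⟩ := mem_sup_of_normal_right.mp (relIndex_eq_one.mp h5 ((hD x).mpr hx))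
  exact ⟨c, hc, by simpa using hn⟩

end Cfsg.Agent.S4154
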