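import Mathlib
import Cfsg.Statements.S4155
import Cfsg.Agent.FGS.Camina
import Cfsg.Agent.FGS.Thompson
import Cfsg.Agent.FGS.DPi
import Cfsg.Agent.PGrp.CyclicTwo
import Cfsg.Agent.S4107

set_option autoImplicit false
open Cfsg

namespace Cfsg.Agent.S4155

open Subgroup

/-- Let G be a finite group and N a proper non-trivial normal nilpotent subgroup whose order is not a prime power, such that for every x outside N all elements of the coset xN have the same order as x. Then N is the Fitting subgroup of G, and for every prime q every Sylow q-subgroup of G/N is cyclic or generalized quaternion. -/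
theorem result {G : Type*} [Group G] [Finite G] (N : Subgroup G) [N.Normal] (hN1 : N ≠ ⊥) (hN2 : N ≠ ⊤)
    (heq : ∀ x : G, x ∉ N → ∀ n ∈ N, orderOf (x * n) = orderOf x)
    (hnil : Group.IsNilpotent N) (hnpp : ¬ IsPrimePow (Nat.card N)) :
    N = Cfsg.fittingSubgroup G ∧
    ∀ (q : ℕ) [Fact q.Prime] (Q : Sylow q (G ⧸ N)), IsCyclic (Q : Subgroup (G ⧸ N)) ∨ ∃ n : ℕ, Nonempty ((Q : Subgroup (G ⧸ N)) ≃* QuaternionGroup (2 ^ n)) := by
  have hNF := Core.le_fitting inferInstance hnil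
  refine ⟨hNF.eq_of_not_lt fun h => hnpp (((S4107.result N hN1 hN2 heq).2 h).dvd (card_dvd_of_le hNF)
    (by rwa [Ne, card_eq_one])), fun q hq Q => ?_⟩
  obtain ⟨P, rfl⟩ := Sylow.mapSurjective_surjective (QuotientGroup.mk'_surjective N) q Q
  obtain ⟨r, hr, hrN, hrq⟩ : ∃ r : ℕ, r.Prime ∧ r ∣ Nat.card N ∧ r ≠ q := by
    by_contra! h4
    obtain ⟨k, hk⟩ := IsPGroup.iff_card.mp (FGS.isPGroup_iff_forall_prime.mpr h4)
    exact hnpp ⟨q, k, hq.out.prime, Nat.pos_of_ne_zero fun e => hN1 (by rwa [e, pow_zero, card_eq_one] at hk), hk.symm⟩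
  haveI := Fact.mk hr
  obtain ⟨V, hV⟩ := Core.exists_isSylowOf r N
  have hn : ∀ (s : ℕ) [Fact s.Prime] (X : Subgroup G), Core.IsSylowOf s X N → X.Normal := fun s _ X hX =>
    Core.normal_of_le_normalizer ((normalizer_eq_top N).ge.trans
      (FGS.normalizer_le_normalizer_of_isSylowOf_nilpotent hnil hX))
  haveI := hn r V hV
  haveI := hn q _ (Core.isSylowOf_sylow_inf_normal P N)
  have hqV : ¬ q ∣ Nat.card V := by
    rw [hV.card_eq_pow]
    exact fun h => hrq ((Nat.prime_dvd_prime_iff_eq hq.out hr).mp (hq.out.dvd_of_dvd_pow h)).symm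
  refine (PGrp.isCyclic_or_quaternion_of_unique (P.mapSurjective (QuotientGroup.mk'_surjective N)).isPGroup'
    fun H K hH hK => ?_).imp_right fun ⟨_, m, _, h⟩ => ⟨m, h⟩
  by_cases hPN : (P : Subgroup G) ≤ N
  · haveI : Subsingleton ((P.mapSurjective (QuotientGroup.mk'_surjective N) : Sylow q _) : Subgroup (G ⧸ N)) := by
      rw [Sylow.coe_mapSurjective, (Subgroup.map_eq_bot_iff _).mpr (by rwa [QuotientGroup.ker_mk'])]
      infer_instance
    exact Subsingleton.elim _ _
  obtain ⟨g, hg, hgN, hgp, hc⟩ := FGS.exists_central_mod P.isPGroup' hPN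
  suffices ∀ H : Subgroup ((P.mapSurjective (QuotientGroup.mk'_surjective N) : Sylow q _) : Subgroup (G ⧸ N)),
      Nat.card H = q → H = zpowers ⟨_, mem_map_of_mem _ hg⟩ from (this H hH).trans (this K hK).symm
  intro H hH
  obtain ⟨⟨_, b, hb, rfl⟩, hbH, hbq⟩ := FGS.exists_prime_orderOf_mem hq.out hH.symm.dvd
  replace hbq : orderOf (QuotientGroup.mk' N b) = q := (orderOf_coe _).trans hbq
  have hbN : b ∉ N := mt (QuotientGroup.eq_one_iff b).mpr (FGS.ne_one_of_orderOf_prime hq.out hbq)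
  have := FGS.mem_sup_of_fpf (hV.ne_bot hrN) P.isPGroup' (inf_le_left : (P : Subgroup G) ⊓ N ≤ P) hqV
    (fun x hx hx' => FGS.eq_bot_of_eqOrd heq hV.le (fun h1 => hx' (mem_inf.mpr ⟨hx, h1⟩))
      (FGS.coprime_orderOf_of_mem P.isPGroup' hqV hx)) hg hb
    (mem_inf.mpr ⟨by
      rw [commutatorElement_def]; exact mul_mem (mul_mem (mul_mem hg hb) (inv_mem hg)) (inv_mem hb), by
      rw [← commutatorElement_inv]; exact inv_mem (hc b hb)⟩)
    (mem_inf.mpr ⟨pow_mem hg q, hgp⟩) (mem_inf.mpr ⟨pow_mem hb q, by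
      rw [← QuotientGroup.eq_one_iff, ← QuotientGroup.mk'_apply, map_pow, ← hbq, pow_orderOf_eq_one]⟩)
    fun h1 => hbN h1.2
  obtain ⟨_, ⟨k, rfl⟩, t, ht, e⟩ := mem_sup_of_normal_right.mp this
  refine (FGS.zpowers_eq_of_card_prime hq.out hH ?_ fun h => hgN ((QuotientGroup.eq_one_iff g).mp
    (congrArg Subtype.val h))).symm
  convert zpow_mem hbH k using 1
  refine Subtype.ext ?_
  change QuotientGroup.mk' N g = QuotientGroup.mk' N b ^ k
  simp [← e, (QuotientGroup.eq_one_iff t).mpr ht.2]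

end Cfsg.Agent.S4155
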