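import Mathlib
import Cfsg.Statements.S4156

set_option autoImplicit false
open Cfsg

namespace Cfsg.Agent.S4156

open Subgroup Equiv

/-- the action on the sum-zero part of the permutation module -/
def M (n : ℕ) (F : Type*) [Field F] : Perm (Fin (n + 1)) →* Matrix (Fin n) (Fin n) F where
  toFun σ := Matrix.of fun i j => (if σ j.castSucc = i.castSucc then 1 else 0) -
    (if σ (Fin.last n) = i.castSucc then 1 else 0)
  map_one' := by
    ext i j
    simp [Matrix.one_apply, eq_comm, (Fin.castSucc_lt_last i).ne]
  map_mul' σ τ := by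
    ext i k
    have := Fin.sum_univ_castSucc (fun j : Fin (n + 1) =>
      ((if σ j = i.castSucc then (1 : F) else 0) - (if σ (Fin.last n) = i.castSucc then 1 else 0)) *
      ((if τ k.castSucc = j then 1 else 0) - (if τ (Fin.last n) = j then 1 else 0)))
    rw [sub_self, zero_mul, add_zero] at this
    rw [Matrix.mul_apply]
    refine Eq.trans ?_ this
    simp only [mul_sub, mul_ite, mul_one, mul_zero, Finset.sum_sub_distrib, Finset.sum_ite_eq,
      Finset.mem_univ, if_true, Matrix.of_apply, Perm.mul_apply]
    abel

theorem triv {G H : Type*} [Group G] [Monoid H] (hG : _root_.commutator G = ⊤) (f : G →* H)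
    (h : ∀ a b, Commute (f a) (f b)) (g : G) : f g = 1 := by
  have : (⊤ : Subgroup G) ≤ f.toHomUnits.ker := by
    rw [← hG, commutator_def, commutator_le]
    intro a _ b _
    rw [MonoidHom.mem_ker, map_commutatorElement, commutatorElement_eq_one_iff_commute]
    exact Units.ext (h a b)
  exact congrArg Units.val (this (mem_top g))

/-- Let n ≥ 5 and F a finite field. Then the projective special linear group PSL_n(F) contains a subgroup isomorphic to the alternating group of degree n + 1. -/
theorem result (n : ℕ) (hn : 5 ≤ n) (F : Type*) [Field F] [Finite F] :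
    ∃ f : alternatingGroup (Fin (n + 1)) →* Matrix.ProjectiveSpecialLinearGroup (Fin n) F, Function.Injective f := by
  have h5 : 5 ≤ Nat.card (Fin (n + 1)) := by simp; omega
  have hc := commutator_alternatingGroup_eq_top h5
  haveI := alternatingGroup.isSimpleGroup h5
  let φ := (M n F).comp (alternatingGroup (Fin (n + 1))).subtype
  have hdet : ∀ g, (φ g).det = 1 := triv hc (Matrix.detMonoidHom.comp φ) fun _ _ => mul_comm _ _
  let ψ : alternatingGroup (Fin (n + 1)) →* Matrix.SpecialLinearGroup (Fin n) F :=
    { toFun := fun g => ⟨φ g, hdet g⟩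
      map_one' := Subtype.ext (map_one φ)
      map_mul' := fun a b => Subtype.ext (map_mul φ a b) }
  refine ⟨(QuotientGroup.mk' _).comp ψ, (MonoidHom.ker_eq_bot_iff _).mp ?_⟩
  refine (IsSimpleGroup.eq_bot_or_eq_top_of_normal _ inferInstance).resolve_right fun h => ?_
  have h1 : ∀ g, ψ g = 1 := triv hc ψ fun a b =>
    (mem_center_iff.mp ((QuotientGroup.eq_one_iff _).mp (h.ge (mem_top b))) _)
  haveI : Nontrivial (alternatingGroup (Fin (n + 1))) := inferInstance
  obtain ⟨g, hg⟩ := exists_ne (1 : alternatingGroup (Fin (n + 1)))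
  have h2 : ∀ i j : Fin n, ((if g.1 j.castSucc = i.castSucc then (1 : F) else 0) -
      (if g.1 (Fin.last n) = i.castSucc then 1 else 0)) = if i = j then 1 else 0 := fun i j =>
    congrFun (congrFun (congrArg Subtype.val (h1 g)) i) j
  have h3 : ∀ j : Fin n, g.1 j.castSucc = j.castSucc := fun j => by
    by_contra h3
    have h4 := h2 j j
    by_cases h6 : g.1 (Fin.last n) = j.castSucc
    · obtain ⟨i, hi, hi'⟩ : ∃ i : Fin n, i ≠ j ∧ g.1 i.castSucc ≠ j.castSucc := by
        haveI : Nontrivial (Fin n) := Fin.nontrivial_iff_two_le.mpr (by omega)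
        obtain ⟨i, hi⟩ := exists_ne j
        exact ⟨i, hi, fun e => (Fin.castSucc_lt_last i).ne (g.1.injective (e.trans h6.symm))⟩
      have := h2 j i
      simp [hi.symm, hi', h6] at this
    · simp [h3, h6] at h4
  refine hg (Subtype.ext (Equiv.ext fun x => ?_))
  induction x using Fin.lastCases with
  | cast j => exact h3 j
  | last =>
    by_contra h4
    obtain ⟨j, hj⟩ := Fin.exists_castSucc_eq.mpr h4
    exact (Fin.castSucc_lt_last j).ne (g.1.injective ((h3 j).trans hj))

end Cfsg.Agent.S4156
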