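import Mathlib
import Cfsg.Statements.S4167
import Cfsg.Agent.FGS.Solv
import Cfsg.Agent.FGS.Basic2
import Cfsg.Agent.FGS.SylowNum
import Cfsg.Agent.Core.SylowOf
import Cfsg.Agent.S0111
import Cfsg.Agent.S0205

set_option autoImplicit false
open Cfsg

namespace Cfsg.Agent.S4167

open Subgroup

/-- Let G be a finite group in which no conjugacy class has size divisible by 4. Then G is solvable. -/
theorem result {G : Type*} [Group G] [Finite G]
    (h : ∀ x : G, ¬ 4 ∣ (Subgroup.centralizer ({x} : Set G)).index) : Group.IsSolvable G := by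
  revert h
  refine FGS.solvable_of_simple
    (P := fun G _ => ∀ x : G, ¬ 4 ∣ (Subgroup.centralizer ({x} : Set G)).index) ?_ ?_ ?_ G
  · intro G _ _ N _ h x hx
    exact h x (hx.trans (FGS.index_centralizer_normal_dvd N x))
  · intro G _ _ N _ h x hx
    obtain ⟨x, rfl⟩ := QuotientGroup.mk'_surjective N x
    exact h x (hx.trans (FGS.index_centralizer_map_dvd (QuotientGroup.mk'_surjective N) x))
  intro G _ _ _ h
  by_cases hodd : Odd (Nat.card G)
  · exact S0205.result hodd
  by_contra hs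
  have h2 : 2 ∣ Nat.card G := even_iff_two_dvd.mp (Nat.not_odd_iff_even.mp hodd)
  obtain ⟨z, hz⟩ := exists_prime_orderOf_dvd_card' (G := G) 2 h2
  have hz1 := FGS.ne_one_of_orderOf_prime Nat.prime_two hz
  have hC : centralizer ({z} : Set G) = ⊤ := by
    refine FGS.eq_top_of_forall_conj_mem _ fun x => ?_
    obtain ⟨R, hR⟩ := Core.exists_isSylowOf 2 (centralizer ({x} : Set G))
    obtain ⟨P, hP⟩ := hR.isPGroup.exists_le_sylow
    obtain ⟨P', hP'⟩ := FGS.exists_sylow_mem (p := 2) (k := 1) (x := z) (by simpa using hz)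
    obtain ⟨g, rfl⟩ := MulAction.exists_smul_eq G P P'
    have hu := FGS.mem_smul_sylow_iff.mp hP'
    suffices ∃ k : G, k * z * k⁻¹ ∈ R by
      obtain ⟨k, hk⟩ := this
      have := mem_centralizer_singleton_iff.mp (hR.le hk)
      refine ⟨k⁻¹, mem_centralizer_singleton_iff.mpr ?_⟩
      calc k⁻¹ * x * k⁻¹⁻¹ * z = k⁻¹ * (x * (k * z * k⁻¹)) * k := by group
        _ = z * (k⁻¹ * x * k⁻¹⁻¹) := by rw [← this]; group
    by_cases huR : g⁻¹ * z * g ∈ R
    · exact ⟨g⁻¹, by simpa using huR⟩
    have hi : R.relIndex (P : Subgroup G) = 2 := by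
      obtain ⟨k, hk⟩ := FGS.relIndex_sylow_eq_pow P R
      have h1 : R.relIndex (P : Subgroup G) ∣
          R.relIndex (centralizer ({x} : Set G)) * (centralizer ({x} : Set G)).index := by
        rw [relIndex_mul_index hR.le]
        exact Dvd.intro _ (relIndex_mul_index hP)
      rw [hk] at h1 ⊢
      have h3 := ((Nat.coprime_two_left.mpr (Nat.odd_iff.mpr
        (Nat.two_dvd_ne_zero.mp hR.not_dvd))).pow_left k).dvd_of_dvd_mul_left h1
      match k with
      | 0 => exact (huR (relIndex_eq_one.mp hk hu)).elim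
      | 1 => rfl
      | k + 2 => exact (h x ((Dvd.intro_left (2 ^ k) (by ring)).trans h3)).elim
    rcases S0111.result P R hP hi (g⁻¹ * z * g)
      (by simpa [hz] using FGS.orderOf_conj g⁻¹ z) hu huR with ⟨M, hM, hM2, hzM⟩ | ⟨k, hk⟩
    · rcases hM.eq_bot_or_eq_top with rfl | rfl
      · rw [index_bot] at hM2
        exact (hs (FGS.solvable_of_prime_card (hM2 ▸ Nat.prime_two))).elim
      · exact (hzM (mem_top _)).elim
    · exact ⟨k * g⁻¹, by simpa [mul_assoc] using hk⟩
  have hZ : center G = ⊤ := (Subgroup.Normal.eq_bot_or_eq_top inferInstance).resolve_left fun h0 =>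
    hz1 (mem_bot.mp (h0 ▸ FGS.mem_center_iff_centralizer_eq_top.mpr hC))
  apply hs
  have : IsMulCommutative G := ⟨⟨fun a b => (mem_center_iff.mp (hZ ▸ mem_top b) a)⟩⟩
  exact Core.solvable_of_isMulCommutative

end Cfsg.Agent.S4167
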