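import Mathlib
import Cfsg.Statements.S4168
import Cfsg.Agent.Comp2.PLayer

set_option autoImplicit false
open Cfsg

namespace Cfsg.Agent.S4168

open Cfsg.Agent.Comp2


/-- Let L be a finite quasisimple group (perfect with L/Z(L) simple). Then every prime dividing the order of the centre Z(L) also divides the order of L/Z(L). -/
theorem result {L : Type*} [Group L] [Finite L] (hL : Cfsg.IsQuasisimple L)
    (p : ℕ) (hp : p.Prime) (hdiv : p ∣ Nat.card (Subgroup.center L)) : p ∣ (Subgroup.center L).index := by
  have := hL.1
  exact dvd_index_center_of_perfect hp (hdiv.trans (Subgroup.card_subgroup_dvd_card _))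

end Cfsg.Agent.S4168
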