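import Cfsg.Statements.S4170
import Mathlib


set_option autoImplicit false
open scoped Pointwise
open Cfsg

namespace Cfsg.Agent.S4170


/-- Let p be an odd prime and G a nontrivial group of permutations of a finite set Ω that is generated by its elements of p-power order. Then Ω has two disjoint nonempty subsets Δ₁ and Δ₂ such that the index in G of the subgroup of elements mapping Δ₁ onto Δ₁ and Δ₂ onto Δ₂ (and hence also the complement of their union onto itself) is divisible by p. -/
theorem result {Ω : Type*} [Fintype Ω] (p : ℕ) [Fact p.Prime] (hp : p ≠ 2) (G : Subgroup (Equiv.Perm Ω)) (hG : G ≠ ⊥) (hgen : Subgroup.closure {g : G | ∃ k : ℕ, orderOf g = p ^ k} = ⊤) :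
    ∃ Δ₁ Δ₂ : Set Ω, Δ₁.Nonempty ∧ Δ₂.Nonempty ∧ Disjoint Δ₁ Δ₂ ∧ p ∣ (MulAction.stabilizer G Δ₁ ⊓ MulAction.stabilizer G Δ₂).index := by
  classical
  by_contra hno
  push Not at hno
  have hpp : p.Prime := Fact.out
  have hnt : Nontrivial Ω := by
    by_contra hc
    rw [not_nontrivial_iff_subsingleton] at hc
    exact hG (Subsingleton.elim _ _)
  have step : ∀ (a : Ω) (T : Set Ω), T.Nonempty → a ∉ T → ¬ p ∣ (fixingSubgroup G T).index →
      ¬ p ∣ (fixingSubgroup G (insert a T)).index := by
    intro a T hT ha h
    have h1 := hno {a} T (Set.singleton_nonempty a) hT (Set.disjoint_singleton_left.2 ha)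
    set H := MulAction.stabilizer G ({a} : Set Ω) ⊓ MulAction.stabilizer G T with hH
    have hle : fixingSubgroup G T ≤ MulAction.stabilizer G T := fun g hg => by
      rw [mem_fixingSubgroup_iff] at hg
      rw [MulAction.mem_stabilizer_iff]
      ext x
      rw [Set.mem_smul_set]
      exact ⟨fun ⟨y, hy, e⟩ => e ▸ (hg y hy).symm ▸ hy, fun hx => ⟨x, hx, hg x hx⟩⟩
    have hN : ((fixingSubgroup G T).subgroupOf (MulAction.stabilizer G T)).Normal := by
      refine ⟨fun n hn g => ?_⟩
      rw [Subgroup.mem_subgroupOf, mem_fixingSubgroup_iff] at hn ⊢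
      intro y hy
      have h2 : (g : G)⁻¹ • y ∈ T := by
        have h3 : (g : G) • T = T := g.2
        rw [← Set.mem_smul_set_iff_inv_smul_mem, h3]; exact hy
      show ((g : G) * n * (g : G)⁻¹) • y = y
      rw [mul_smul, mul_smul, hn _ h2, smul_inv_smul]
    have h2 : (fixingSubgroup G T).relIndex H ∣ (fixingSubgroup G T).index := by
      rw [← Subgroup.relIndex_subgroupOf (show H ≤ MulAction.stabilizer G T from inf_le_right)]
      exact (Subgroup.relIndex_dvd_index_of_normal _ _).trans
        (Subgroup.relIndex_dvd_index_of_le hle)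
    have h3 : fixingSubgroup G T ⊓ H ≤ fixingSubgroup G (insert a T) := by
      intro g hg
      rw [mem_fixingSubgroup_iff]
      rintro y (rfl | hy)
      · have h4 : g • ({y} : Set Ω) = {y} := hg.2.1
        rw [Set.smul_set_singleton, Set.singleton_eq_singleton_iff] at h4
        exact h4
      · exact (mem_fixingSubgroup_iff G).1 hg.1 y hy
    intro hd
    have h4 := hd.trans (Subgroup.index_dvd_of_le h3)
    rw [← Subgroup.relIndex_mul_index (show fixingSubgroup G T ⊓ H ≤ H from inf_le_right),
      Subgroup.inf_relIndex_right] at h4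
    rcases (Nat.Prime.dvd_mul hpp).1 h4 with h5 | h5
    · exact h (h5.trans h2)
    · exact h1 h5
  have all : ∀ T : Finset Ω, T.Nonempty → ¬ p ∣ (fixingSubgroup G (T : Set Ω)).index := by
    intro T hT
    induction hT using Finset.Nonempty.cons_induction with
    | singleton a =>
      obtain ⟨b, hb⟩ := exists_ne a
      intro hd
      refine hno {a} {b} (Set.singleton_nonempty a) (Set.singleton_nonempty b)
        (Set.disjoint_singleton.2 hb.symm) (hd.trans (Subgroup.index_dvd_of_le fun g hg => ?_))
      rw [mem_fixingSubgroup_iff]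
      intro y hy
      have h4 : g • ({a} : Set Ω) = {a} := hg.1
      rw [Set.smul_set_singleton, Set.singleton_eq_singleton_iff] at h4
      rw [Finset.coe_singleton, Set.mem_singleton_iff] at hy
      rw [hy]; exact h4
    | cons a s ha hs ih =>
      rw [Finset.coe_cons]
      exact step a s hs ha ih
  have h1 := all Finset.univ Finset.univ_nonempty
  have h2 : fixingSubgroup G ((Finset.univ : Finset Ω) : Set Ω) = ⊥ := by
    rw [eq_bot_iff]
    intro g hg
    rw [mem_fixingSubgroup_iff] at hg
    exact Subtype.ext (Equiv.ext fun x => hg x (by simp))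
  rw [h2, Subgroup.index_bot] at h1
  have h3 : (⊤ : Subgroup G) = ⊥ := by
    rw [eq_bot_iff, ← hgen, Subgroup.closure_le]
    rintro g ⟨k, hk⟩
    rcases k with _ | k
    · simpa using hk
    · exact absurd ((dvd_pow_self p k.succ_ne_zero).trans (hk ▸ orderOf_dvd_natCard g)) h1
  refine hG (eq_bot_iff.2 fun g hg => ?_)
  have : (⟨g, hg⟩ : G) ∈ (⊥ : Subgroup G) := h3 ▸ Subgroup.mem_top _
  exact congrArg Subtype.val (Subgroup.mem_bot.1 this)

end Cfsg.Agent.S4170
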