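import Mathlib
import Cfsg.Statements.S4176
import Cfsg.Agent.FGS.Basic2
import Cfsg.Agent.Core.PSolvable
import Cfsg.Agent.Core.Product

set_option autoImplicit false
open Cfsg

namespace Cfsg.Agent.S4176

universe u v

open Subgroup
open scoped Pointwise

theorem card_orb {k V H : Type*} [Field k] [AddCommGroup V] [Module k V] [Group H]
    (ρ : Representation k H V) (a : V) :
    ∃ A : Subgroup H, (∀ x ∈ A, ρ x a = a) ∧ (∀ x, ρ x a = a → x ∈ A) ∧
      A.index = Nat.card {u : V | ∃ h : H, ρ h a = u} := by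
  letI : MulAction H V :=
    { smul := fun h v => ρ h v
      one_smul := fun v => by change ρ 1 v = v; simp
      mul_smul := fun g h v => by change ρ (g * h) v = ρ g (ρ h v); simp }
  exact ⟨MulAction.stabilizer H a, fun _ h => h, fun _ h => h, MulAction.index_stabilizer H a⟩

theorem aux {k : Type*} [Field k] (p : ℕ) [hp : Fact p.Prime] [CharP k p] (H : Type u) [Group H] [Finite H] :
    Cfsg.IsPSolvable p H → ∀ (V : Type v) [AddCommGroup V] [Module k V] (ρ : Representation k H V) (a : V)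
    (A : Subgroup H), (∀ x ∈ A, ρ x a = a) → ¬ p ∣ A.index →
    Submodule.span k {u : V | ∃ h : H, ρ h a = u} = ⊤ →
    (∃ w : V, ∀ v ∈ ρ.invariants, v ∈ Submodule.span k {w}) ∧
    ∀ (b : V) (B : Subgroup H), (∀ x ∈ B, ρ x b = b) → A.index.Coprime B.index → ∀ h : H, ρ h b = b := by
  refine Core.induction_on_card (P := fun H _ _ => Cfsg.IsPSolvable p H →
    ∀ (V : Type v) [AddCommGroup V] [Module k V] (ρ : Representation k H V) (a : V)
    (A : Subgroup H), (∀ x ∈ A, ρ x a = a) → ¬ p ∣ A.index →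
    Submodule.span k {u : V | ∃ h : H, ρ h a = u} = ⊤ →
    (∃ w : V, ∀ v ∈ ρ.invariants, v ∈ Submodule.span k {w}) ∧
    ∀ (b : V) (B : Subgroup H), (∀ x ∈ B, ρ x b = b) → A.index.Coprime B.index → ∀ h : H, ρ h b = b)
    (fun H _ _ ih hs V _ _ ρ a A hA hAp hspan => ?_) H
  classical
  rcases subsingleton_or_nontrivial H with h0 | h0
  · refine ⟨⟨a, fun v _ => ?_⟩, fun b _ _ _ h => by rw [Subsingleton.elim h 1]; simp⟩
    refine Submodule.span_mono ?_ (hspan.ge (Submodule.mem_top (x := v)))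
    rintro _ ⟨h, rfl⟩
    rw [Subsingleton.elim h 1]; simp
  obtain ⟨N, hN, hN1, hNp⟩ := Core.IsPSolvable.exists_normal hs
  -- an equivariant projection onto the `N`-invariants
  obtain ⟨e, e1, e2, e3, e4⟩ : ∃ e : V →ₗ[k] V, (∀ v, ∀ n ∈ N, ρ n (e v) = e v) ∧
      (∀ v, (∀ n ∈ N, ρ n v = v) → e v = v) ∧ (∀ h v, e (ρ h v) = ρ h (e v)) ∧
      ∀ (b : V) (B : Subgroup H), (∀ x ∈ B, ρ x b = b) → A.index.Coprime B.index → ∀ n ∈ N, ρ n b = b := by
    rcases hNp with hNp | hNp
    · have hNA : N ≤ A := Core.normal_le_of_coprime_index (by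
        obtain ⟨j, hj⟩ := IsPGroup.iff_card.mp hNp
        rw [hj]; exact Nat.Coprime.pow_left _ ((Nat.Prime.coprime_iff_not_dvd hp.out).mpr hAp))
      have : ∀ v, ∀ n ∈ N, ρ n v = v := fun v n hn => by
        have : ρ n = LinearMap.id := LinearMap.ext_on hspan (by
          rintro _ ⟨h, rfl⟩
          have := hA _ (hNA (hN.conj_mem _ hn h⁻¹))
          rw [LinearMap.id_apply, ← Module.End.mul_apply, ← map_mul]
          conv_rhs => rw [← this, ← Module.End.mul_apply, ← map_mul]
          congr 2; group)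
        rw [this]; rfl
      exact ⟨LinearMap.id, this, fun _ _ => rfl, fun _ _ => rfl, fun b _ _ _ => this b⟩
    haveI := Fintype.ofFinite H
    have hne : ∀ L : Subgroup H, L ≤ N → (Nat.card L : k) ≠ 0 := fun L hL h =>
      (Nat.Prime.coprime_iff_not_dvd hp.out).mp hNp.symm
        (((CharP.cast_eq_zero_iff k p _).mp h).trans (card_dvd_of_le hL))
    have s1 : ∀ (L : Subgroup H), ∀ n ∈ L, ∀ v, ρ n (∑ x : L, ρ x v) = ∑ x : L, ρ x v := fun L n hn v => by
      rw [map_sum]
      exact Fintype.sum_equiv (Equiv.mulLeft ⟨n, hn⟩) _ _ fun x => by simp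
    have s2 : ∀ (L : Subgroup H), ∀ n ∈ L, ∀ v, ∑ x : L, ρ x (ρ n v) = ∑ x : L, ρ x v := fun L n hn v =>
      Fintype.sum_equiv (Equiv.mulRight ⟨n, hn⟩) _ _ fun x => by simp
    have s3 : ∀ (L : Subgroup H) v, (∀ n ∈ L, ρ n v = v) → ∑ x : L, ρ x v = (Nat.card L : k) • v :=
      fun L v h => by
        rw [Finset.sum_congr rfl fun (x : L) _ => h x x.2, Finset.sum_const, Finset.card_univ,
          Nat.card_eq_fintype_card, Nat.cast_smul_eq_nsmul]
    refine ⟨(Nat.card N : k)⁻¹ • ∑ x : N, ρ x, fun v n hn => ?_, fun v hv => ?_, fun h v => ?_,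
      fun b B hB hc n hn => ?_⟩
    · simp only [LinearMap.smul_apply, LinearMap.sum_apply, map_smul, s1 N n hn]
    · simp only [LinearMap.smul_apply, LinearMap.sum_apply, s3 N v hv, inv_smul_smul₀ (hne N le_rfl)]
    · simp only [LinearMap.smul_apply, LinearMap.sum_apply, map_smul, map_sum]
      congr 1
      refine Fintype.sum_equiv (MulAut.conjNormal h⁻¹).toEquiv _ _ fun x => ?_
      rw [← Module.End.mul_apply, ← map_mul, ← Module.End.mul_apply, ← map_mul]
      congr 2
      simp [mul_assoc]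
    · have key : (Nat.card (B ⊓ N : Subgroup H) : k) • ∑ x : N, ρ x =
          (Nat.card N : k) • ∑ x : (B ⊓ N : Subgroup H), ρ x := LinearMap.ext_on hspan (by
        rintro _ ⟨h, rfl⟩
        simp only [LinearMap.smul_apply, LinearMap.sum_apply]
        rw [← s3 (B ⊓ N) _ fun m hm => s1 N m hm.2 _]
        simp only [map_sum]
        rw [Finset.sum_comm, Finset.sum_congr rfl (g := fun _ => ∑ x : (B ⊓ N : Subgroup H), ρ x (ρ h a)),
          Finset.sum_const, Finset.card_univ, ← Nat.card_eq_fintype_card, Nat.cast_smul_eq_nsmul]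
        intro y _
        obtain ⟨s, hs, t, ht, rfl⟩ := Core.exists_mul_of_coprime_index (H := B.subgroupOf N)
          (K := (MulAut.conj h • A).subgroupOf N) (Nat.Coprime.of_dvd (FGS.relIndex_dvd_index_of_normal_right N B)
            ((FGS.relIndex_dvd_index_of_normal_right N _).trans (FGS.index_conj A h).dvd) hc.symm) y
        rw [← s2 (B ⊓ N) s (mem_inf.mpr ⟨hs, s.2⟩) (ρ h a)]
        refine Finset.sum_congr rfl fun x _ => ?_
        have := hA _ (FGS.mem_conj_iff.mp (mem_subgroupOf.mp ht))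
        conv_rhs => rw [← this]
        simp only [← Module.End.mul_apply, ← map_mul]
        congr 2
        simp [mul_assoc])
      have k2 := LinearMap.congr_fun key b
      simp only [LinearMap.smul_apply, LinearMap.sum_apply] at k2
      rw [s3 (B ⊓ N) b fun m hm => hB m hm.1, smul_comm] at k2
      have k3 := smul_right_injective V (hne _ inf_le_right) k2
      have k4 := s1 N n hn b
      rw [k3, map_smul] at k4
      exact smul_right_injective V (hne N le_rfl) k4
  let W := Representation.invariants (ρ.comp N.subtype)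
  have hW : ∀ v, v ∈ W ↔ ∀ n ∈ N, ρ n v = v := fun v =>
    ⟨fun h n hn => h ⟨n, hn⟩, fun h n => h n n.2⟩
  have hsurj := QuotientGroup.mk'_surjective N
  obtain ⟨⟨w, hw⟩, h2⟩ := ih (H ⧸ N) (Core.card_quotient_lt N hN1) (Core.IsPSolvable.quotient hs N) W
    (ρ.quotientToInvariants N) ⟨e a, (hW _).mpr (e1 a)⟩ (A.map (QuotientGroup.mk' N)) (by
      rintro _ ⟨x, hx, rfl⟩
      exact Subtype.ext (by change ρ x (e a) = e a; rw [← e3, hA x hx]))
    (fun h => hAp (h.trans (index_map_dvd _ hsurj))) (by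
      rw [eq_top_iff]
      rintro ⟨v, hv⟩ -
      have h1 : (⟨e v, (hW _).mpr (e1 v)⟩ : W) = ⟨v, hv⟩ := Subtype.ext (e2 v ((hW v).mp hv))
      rw [← h1]
      have h2 := Submodule.mem_map_of_mem (f := e.codRestrict W fun v => (hW _).mpr (e1 v))
        (hspan.ge (Submodule.mem_top (x := v)))
      rw [Submodule.map_span] at h2
      refine Submodule.span_mono ?_ h2
      rintro _ ⟨_, ⟨h, rfl⟩, rfl⟩
      exact ⟨h, Subtype.ext (e3 h a).symm⟩)
  refine ⟨⟨w, fun v hv => ?_⟩, fun b B hB hc h => ?_⟩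
  · have := hw ⟨v, (hW v).mpr fun n _ => hv n⟩ fun g => by
      obtain ⟨g, rfl⟩ := hsurj g
      exact Subtype.ext (hv g)
    obtain ⟨c, hc⟩ := Submodule.mem_span_singleton.mp this
    exact Submodule.mem_span_singleton.mpr ⟨c, congrArg Subtype.val hc⟩
  · exact congrArg Subtype.val (h2 ⟨b, (hW b).mpr (e4 b B hB hc)⟩ (B.map (QuotientGroup.mk' N)) (by
      rintro _ ⟨x, hx, rfl⟩
      exact Subtype.ext (hB x hx)) (Nat.Coprime.of_dvd (index_map_dvd _ hsurj) (index_map_dvd _ hsurj) hc) h)

/-- Let k be a field of prime characteristic p, H a finite p-soluble group and ρ a k-linear representation of H on V. Let a be a vector that is fixed by some Sylow p-subgroup of H and whose H-orbit spans V. Then the space of H-fixed vectors has dimension at most 1, and every vector b whose H-orbit has size coprime to the size of the orbit of a is fixed by H. -/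
theorem result {k V H : Type*} [Field k] (p : ℕ) [Fact p.Prime] [CharP k p] [AddCommGroup V] [Module k V]
    [Group H] [Finite H] (hsol : Cfsg.IsPSolvable p H) (ρ : Representation k H V) (a : V)
    (hfix : ∃ P : Sylow p H, ∀ x : H, x ∈ (P : Subgroup H) → ρ x a = a)
    (hspan : Submodule.span k {u : V | ∃ h : H, ρ h a = u} = ⊤) :
    Module.finrank k ρ.invariants ≤ 1 ∧
    ∀ b : V, (Nat.card {u : V | ∃ h : H, ρ h a = u}).Coprime (Nat.card {u : V | ∃ h : H, ρ h b = u}) → ∀ h : H, ρ h b = b := by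
  obtain ⟨A, h1, h2, h3⟩ := card_orb ρ a
  obtain ⟨P, hP⟩ := hfix
  obtain ⟨⟨w, hw⟩, h4⟩ := aux p H hsol V ρ a A h1 (FGS.not_dvd_index_of_sylow_le P fun x hx => h2 x (hP x hx)) hspan
  refine ⟨(Submodule.finrank_mono hw).trans (finrank_span_le_card _ |>.trans (by simp)), fun b hb => ?_⟩
  obtain ⟨B, k1, -, k3⟩ := card_orb ρ b
  exact h4 b B k1 (by rwa [h3, k3])

end Cfsg.Agent.S4176
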