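import Mathlib
import Cfsg.Statements.S4177
import Cfsg.Agent.Core.Product

set_option autoImplicit false
open Cfsg

namespace Cfsg.Agent.S4177

/-- Let k be a field whose characteristic does not divide the order of the finite group H (for instance a field of characteristic zero), and ρ a k-linear representation of H on V. Let a be a vector whose H-orbit spans V. Then the space of H-fixed vectors has dimension at most 1, and every vector b whose H-orbit has size coprime to the size of the orbit of a is fixed by H. -/
theorem result {k V H : Type*} [Field k] [AddCommGroup V] [Module k V] [Group H] [Finite H]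
    (hchar : ¬ ringChar k ∣ Nat.card H) (ρ : Representation k H V) (a : V)
    (hspan : Submodule.span k {u : V | ∃ h : H, ρ h a = u} = ⊤) :
    Module.finrank k ρ.invariants ≤ 1 ∧
    ∀ b : V, (Nat.card {u : V | ∃ h : H, ρ h a = u}).Coprime (Nat.card {u : V | ∃ h : H, ρ h b = u}) → ∀ h : H, ρ h b = b := by
  classical
  let _ : MulAction H V := MulAction.compHom V ρ
  have := Fintype.ofFinite H
  have hk : ∀ B : Subgroup H, (Nat.card B : k) ≠ 0 := fun B h =>
    hchar (((ringChar.spec k _).mp h).trans B.card_subgroup_dvd_card)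
  have hs : ∑ h : H, ρ h a ∈ ρ.invariants := fun g => by
    rw [map_sum]
    exact Fintype.sum_equiv (Equiv.mulLeft g) _ _ fun h => by simp
  have key : ∀ B : Subgroup H, (∀ g : H, ∃ x ∈ B, ∃ y ∈ MulAction.stabilizer H a, g = x * y) →
      ∀ b : V, (∀ β ∈ B, ρ β b = b) → b ∈ Submodule.span k {∑ h : H, ρ h a} := by
    intro B hB b hb
    let P : V →ₗ[k] V := ∑ β : B, ρ β
    have h1 : ∀ h, P (ρ h a) = P a := fun h => by
      obtain ⟨x, hx, y, hy, rfl⟩ := hB h
      rw [map_mul, Module.End.mul_apply, show ρ y a = a from hy]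
      simp only [P, LinearMap.sum_apply]
      exact Fintype.sum_equiv (Equiv.mulRight (⟨x, hx⟩ : B)) _ _ fun β => by simp
    have h2 : ∀ v, (∀ β ∈ B, ρ β v = v) → P v = (Nat.card B : k) • v := fun v hv => by
      simp only [P, LinearMap.sum_apply]
      rw [Finset.sum_congr rfl fun (β : B) _ => hv β β.2]
      simp [Nat.cast_smul_eq_nsmul]
    have h3 : P a ∈ Submodule.span k {∑ h : H, ρ h a} := by
      rw [← Submodule.smul_mem_iff _ (hk ⊤), Subgroup.card_top]
      convert Submodule.smul_mem _ (Nat.card B : k) (Submodule.mem_span_singleton_self _) using 1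
      rw [← h2 _ fun β _ => hs β, map_sum]
      simp [h1, Nat.cast_smul_eq_nsmul]
    have h4 : ⊤ ≤ (Submodule.span k {∑ h : H, ρ h a}).comap P := hspan ▸ Submodule.span_le.mpr (by
      rintro _ ⟨h, rfl⟩
      exact (h1 h ▸ h3 : P _ ∈ _))
    rw [← Submodule.smul_mem_iff _ (hk B), ← h2 b hb]
    exact h4 trivial
  refine ⟨?_, fun b hb => ?_⟩
  · refine (Submodule.finrank_mono (show ρ.invariants ≤ Submodule.span k {∑ h : H, ρ h a} from
      fun b hb => key ⊤ (fun g => ⟨g, trivial, 1, one_mem _, (mul_one g).symm⟩) b fun β _ => hb β)).trans ?_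
    simpa using finrank_span_le_card (R := k) ({∑ h : H, ρ h a} : Set V)
  · refine (Submodule.span_singleton_le_iff_mem _ _).mpr hs (key (MulAction.stabilizer H b)
      ((Core.forall_exists_mul_iff_relIndex_eq_index _ _).mpr (Core.relIndex_eq_index_of_coprime ?_))
      b fun _ h => h)
    rw [MulAction.index_stabilizer, MulAction.index_stabilizer]
    exact hb.symm

end Cfsg.Agent.S4177
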