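import Mathlib
import Cfsg.Statements.S4178
import Cfsg.Agent.FGS.Basic2

set_option autoImplicit false
open Cfsg

namespace Cfsg.Agent.S4178

theorem aux {H U : Type*} [Group H] [Finite U] [Zero U] (R : Subgroup H) (f : H → U) (h0 : ∀ h, f h ≠ 0)
    (hf : ∀ g h, f g = f h → g⁻¹ * h ∈ R) : R.index ≤ Nat.card U - 1 := by
  classical
  haveI := Fintype.ofFinite U
  let φ : H ⧸ R → {u : U // u ≠ 0} := fun x => ⟨f x.out, h0 _⟩
  have hφ : Function.Injective φ := fun x y h => by
    rw [← x.out_eq', ← y.out_eq']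
    exact QuotientGroup.eq.mpr (hf _ _ (congrArg Subtype.val h))
  have := Nat.card_le_card_of_injective φ hφ
  rwa [Nat.card_eq_fintype_card (α := {u : U // u ≠ 0}), Fintype.card_subtype_compl,
    Fintype.card_subtype_eq, ← Nat.card_eq_fintype_card] at this

/-- Let F be a finite field with q elements, V a non-zero finite-dimensional F-space of dimension d, H a group of invertible linear maps of V, and R the subgroup of H generated by the elements of H that fix some non-zero vector (have eigenvalue 1). Then the index of R in H is at most q^d − 1; and if H leaves invariant some proper non-zero subspace, the index is at most q^(d/2) − 1. -/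
theorem result {F V : Type*} [Field F] [Fintype F] [AddCommGroup V] [Module F V] [FiniteDimensional F V] [Nontrivial V]
    (H : Subgroup (V ≃ₗ[F] V)) :
    (Subgroup.closure {h : ↥H | ∃ v : V, v ≠ 0 ∧ (h : V ≃ₗ[F] V) v = v}).index ≤ Fintype.card F ^ Module.finrank F V - 1 ∧
    ((∃ W : Submodule F V, W ≠ ⊥ ∧ W ≠ ⊤ ∧ ∀ h ∈ H, ∀ w ∈ W, h w ∈ W) →
      ((Subgroup.closure {h : ↥H | ∃ v : V, v ≠ 0 ∧ (h : V ≃ₗ[F] V) v = v}).index : ℝ) ≤ Real.sqrt ((Fintype.card F : ℝ) ^ Module.finrank F V) - 1) := by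
  haveI : Finite V := Module.finite_of_finite F
  set R := Subgroup.closure {h : ↥H | ∃ v : V, v ≠ 0 ∧ (h : V ≃ₗ[F] V) v = v}
  have hcard : Nat.card V = Fintype.card F ^ Module.finrank F V := by
    rw [Module.natCard_eq_pow_finrank (K := F), Nat.card_eq_fintype_card]
  have key : ∀ (g h : H) (v : V), v ≠ 0 → (g : V ≃ₗ[F] V) v = (h : V ≃ₗ[F] V) v → g⁻¹ * h ∈ R :=
    fun g h v hv e => Subgroup.subset_closure ⟨v, hv, by
      change (g : V ≃ₗ[F] V).symm ((h : V ≃ₗ[F] V) v) = v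
      rw [← e, LinearEquiv.symm_apply_apply]⟩
  refine ⟨?_, ?_⟩
  · obtain ⟨v, hv⟩ := exists_ne (0 : V)
    rw [← hcard]
    exact aux R (fun h => (h : V ≃ₗ[F] V) v) (fun h => by simpa using hv) fun g h e => key g h v hv e
  rintro ⟨W, h1, h2, hW⟩
  obtain ⟨w, hw, hw0⟩ := Submodule.exists_mem_ne_zero_of_ne_bot h1
  obtain ⟨v, hv⟩ : ∃ v, v ∉ W := by
    by_contra! h
    exact h2 (eq_top_iff.mpr fun x _ => h x)
  haveI : Finite (V ⧸ W) := Finite.of_surjective _ W.mkQ_surjective
  have k1 : R.index ≤ Nat.card W - 1 := aux R (fun h => (⟨(h : V ≃ₗ[F] V) w, hW h h.2 w hw⟩ : W))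
    (fun h e => hw0 (by simpa using congrArg Subtype.val e)) fun g h e => key g h w hw0 (congrArg Subtype.val e)
  have hinv : ∀ (h : H) (x : V), (h : V ≃ₗ[F] V) x ∈ W → x ∈ W := fun h x hx => by
    have := hW _ (h⁻¹).2 _ hx
    change (h : V ≃ₗ[F] V).symm _ ∈ W at this
    rwa [LinearEquiv.symm_apply_apply] at this
  have k2 : R.index ≤ Nat.card (V ⧸ W) - 1 := by
    refine aux R (fun h => W.mkQ ((h : V ≃ₗ[F] V) v)) (fun h e => hv (hinv h v ((Submodule.Quotient.mk_eq_zero W).mp e)))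
      fun g h e => ?_
    have e1 : (h : V ≃ₗ[F] V) v - (g : V ≃ₗ[F] V) v ∈ W := (Submodule.Quotient.eq W).mp e.symm
    set k := g⁻¹ * h with hk
    have e2 : (k : V ≃ₗ[F] V) v - v ∈ W := hinv g _ (by
      rw [map_sub]
      change (g : V ≃ₗ[F] V) ((g : V ≃ₗ[F] V).symm _) - _ ∈ W
      rwa [LinearEquiv.apply_symm_apply])
    by_contra hn
    have hfix : ∀ x : V, (k : V ≃ₗ[F] V) x = x → x = 0 := fun x hx =>
      by_contra fun h0 => hn (Subgroup.subset_closure ⟨x, h0, hx⟩)
    let ψ : W → W := fun x => ⟨(k : V ≃ₗ[F] V) x - x, W.sub_mem (hW k k.2 x x.2) x.2⟩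
    have hψ : Function.Injective ψ := fun x y e => by
      have e3 : (k : V ≃ₗ[F] V) x - x = (k : V ≃ₗ[F] V) y - y := congrArg Subtype.val e
      exact Subtype.ext (sub_eq_zero.mp (hfix _ (by rw [map_sub]; exact sub_eq_sub_iff_sub_eq_sub.mp e3)))
    obtain ⟨x, hx⟩ := Finite.surjective_of_injective hψ ⟨_, e2⟩
    have e3 : (k : V ≃ₗ[F] V) x - x = (k : V ≃ₗ[F] V) v - v := congrArg Subtype.val hx
    have := sub_eq_zero.mp (hfix ((x : V) - v) (by rw [map_sub]; exact sub_eq_sub_iff_sub_eq_sub.mp e3))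
    exact hv (this ▸ x.2)
  have k3 : Nat.card W * Nat.card (V ⧸ W) = Fintype.card F ^ Module.finrank F V := by
    rw [← hcard, Submodule.card_eq_card_quotient_mul_card W]
  have p1 : 0 < Nat.card W := Nat.card_pos
  have p2 : 0 < Nat.card (V ⧸ W) := Nat.card_pos
  rw [le_sub_iff_add_le]
  refine Real.le_sqrt_of_sq_le ?_
  have : (R.index + 1) ^ 2 ≤ Fintype.card F ^ Module.finrank F V := by
    rw [← k3, sq]; exact Nat.mul_le_mul (by omega) (by omega)
  exact_mod_cast this

end Cfsg.Agent.S4178
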