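import Mathlib
import Cfsg.Statements.S4182

set_option autoImplicit false
open Cfsg

namespace Cfsg.Agent.S4182

open Subgroup

/-- The set of `p`-elements. -/
def Pel (p : ℕ) (G : Type*) [Group G] : Set G := {g | ∃ k : ℕ, orderOf g = p ^ k}

theorem kill {G X : Type*} [Group G] [Group X] [Finite X] {p : ℕ} (hp : p.Prime) (φ : G →* X)
    (h : ¬ p ∣ Nat.card X) {x : G} (hx : x ∈ Pel p G) : φ x = 1 := by
  obtain ⟨k, e⟩ := hx
  have a : orderOf (φ x) ∣ p ^ k := e ▸ orderOf_map_dvd φ x
  exact orderOf_eq_one_iff.mp (Nat.eq_one_of_dvd_coprimes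
    (((Nat.Prime.coprime_iff_not_dvd hp).mpr h).pow_left k) a (orderOf_dvd_natCard _))

theorem pgrp {G : Type*} [Group G] [Finite G] {p : ℕ} [hp : Fact p.Prime] (h : IsPGroup p G)
    {ι : Type*} [Fintype ι] (hι : Fintype.card ι ≤ p) (K : ι → Subgroup G)
    (hcov : ∀ g, ∃ i, g ∈ K i) : ∃ i, K i = ⊤ := by
  classical
  by_contra! hK
  have := Fintype.ofFinite G
  have h1 : ∀ i, p * Nat.card (K i) ≤ Nat.card G := fun i => by
    obtain ⟨k, e⟩ := h.index (K i)
    have k0 : k ≠ 0 := fun o => hK i (index_eq_one.mp (by rw [e, o, pow_zero]))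
    rw [← (K i).index_mul_card, e]
    exact Nat.mul_le_mul_right _ (Nat.le_self_pow k0 p)
  have h2 : (Finset.univ.erase (1 : G)) ⊆
      Finset.univ.biUnion fun i => (Finset.univ.filter fun g => g ∈ K i).erase 1 := fun g hg => by
    obtain ⟨i, hi⟩ := hcov g
    simp only [Finset.mem_biUnion, Finset.mem_univ, true_and, Finset.mem_erase, Finset.mem_filter] at hg ⊢
    exact ⟨i, hg.1, hi⟩
  have h3 := (Finset.card_le_card h2).trans Finset.card_biUnion_le
  have h4 : ∀ i, p * ((Finset.univ.filter fun g => g ∈ K i).erase 1).card + p ≤ Nat.card G := fun i => by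
    have a : ((Finset.univ.filter fun g => g ∈ K i).erase 1).card + 1 = Nat.card (K i) := by
      rw [Finset.card_erase_add_one (by simp [one_mem]), Nat.card_eq_fintype_card, Fintype.card_subtype]
    have := h1 i
    rw [← a] at this
    linarith
  have h5 : (Finset.univ.erase (1 : G)).card + 1 = Nat.card G := by
    rw [Finset.card_erase_add_one (Finset.mem_univ _), Nat.card_eq_fintype_card, Finset.card_univ]
  have h6 := Finset.sum_le_sum (s := Finset.univ) fun i _ => h4 i
  rw [Finset.sum_add_distrib, ← Finset.mul_sum, Finset.sum_const, Finset.sum_const, Finset.card_univ,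
    smul_eq_mul, smul_eq_mul] at h6
  obtain ⟨i, -⟩ := hcov 1
  have h7 : p ≤ Nat.card G := le_trans (Nat.le_add_left _ _) (h4 i)
  have h8 := hp.out.two_le
  obtain ⟨m, hm⟩ := Nat.exists_eq_add_of_le h7
  set s := ∑ i, ((Finset.univ.filter fun g => g ∈ K i).erase 1).card
  set c := (Finset.univ.erase (1 : G)).card
  rw [hm] at h5 h6
  have h9 : p * s ≤ p * m := by nlinarith
  have := Nat.le_of_mul_le_mul_left h9 hp.out.pos
  omega

theorem conj_pel {G : Type*} [Group G] {p : ℕ} (g : G) {x : G} (hx : x ∈ Pel p G) :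
    g * x * g⁻¹ ∈ Pel p G := by
  obtain ⟨k, e⟩ := hx
  exact ⟨k, e ▸ orderOf_injective (MulAut.conj g).toMonoidHom (MulAut.conj g).injective x⟩

universe u

theorem main (p : ℕ) [hp : Fact p.Prime] {ι : Type*} [Fintype ι] (hι : Fintype.card ι ≤ p) (n : ℕ) :
    ∀ (G : Type u) [Group G] [Finite G], Nat.card G = n → closure (Pel p G) = ⊤ →
      ∀ K : ι → Subgroup G, (∀ g ∈ Pel p G, ∃ i, g ∈ K i) → ∃ i, K i = ⊤ := by
  induction n using Nat.strong_induction_on with
  | _ n ih =>
  intro G _ _ hn hgen K hcov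
  by_cases hG : IsPGroup p G
  · exact pgrp hG hι K fun g => hcov g (IsPGroup.iff_orderOf.mp hG g)
  by_contra! hK
  have sub : ∀ H : Subgroup G, H ≠ ⊤ → H ≤ closure (Pel p G ∩ H) → ∃ i, H ≤ K i := fun H h1 h2 => by
    have lt : Nat.card H < n := hn ▸ lt_of_le_of_ne (card_le_card_group H) fun e => h1 (eq_top_of_card_eq H e)
    obtain ⟨i, e⟩ := ih _ lt H rfl (by
      refine map_injective H.subtype_injective (le_antisymm (map_mono le_top) ?_)
      rw [← MonoidHom.range_eq_map, range_subtype, MonoidHom.map_closure]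
      refine h2.trans (closure_mono fun x hx => ⟨⟨x, hx.2⟩, ?_, rfl⟩)
      obtain ⟨k, e⟩ := hx.1
      exact ⟨k, by rw [← e, Subgroup.orderOf_mk]⟩) (fun i => (K i).subgroupOf H) fun g hg => by
        obtain ⟨k, e⟩ := hg
        exact hcov g ⟨k, by rw [← e, Subgroup.orderOf_coe]⟩
    exact ⟨i, subgroupOf_eq_top.mp e⟩
  obtain ⟨P⟩ : Nonempty (Sylow p G) := inferInstance
  have : Nonempty {H : Subgroup G // H ≠ ⊤ ∧ H ≤ closure (Pel p G ∩ H) ∧ ¬ p ∣ H.index} :=
    ⟨⟨P, fun e => hG ((e ▸ P.isPGroup').of_equiv topEquiv), fun x hx => subset_closure ⟨by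
      obtain ⟨k, e⟩ := IsPGroup.iff_orderOf.mp P.isPGroup' ⟨x, hx⟩
      exact ⟨k, by rw [← e, Subgroup.orderOf_mk]⟩, hx⟩, P.not_dvd_index⟩⟩
  obtain ⟨⟨L, l1, l2, l3⟩, mx⟩ := Finite.exists_max
    fun x : {H : Subgroup G // H ≠ ⊤ ∧ H ≤ closure (Pel p G ∩ H) ∧ ¬ p ∣ H.index} => Nat.card x.1
  have key : ∀ g : G, ∃ i, L.map (MulAut.conj g).toMonoidHom = closure (Pel p G ∩ K i) := fun g => by
    have c : Nat.card (L.map (MulAut.conj g).toMonoidHom) = Nat.card L :=
      card_map_of_injective (MulAut.conj g).injective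
    have ix : (L.map (MulAut.conj g).toMonoidHom).index = L.index :=
      index_map_of_bijective (MulAut.conj g).bijective L
    have a : L.map (MulAut.conj g).toMonoidHom ≤
        closure (Pel p G ∩ L.map (MulAut.conj g).toMonoidHom) := by
      refine (map_mono l2).trans ?_
      rw [MonoidHom.map_closure]
      refine closure_mono ?_
      rintro _ ⟨x, hx, rfl⟩
      exact ⟨conj_pel g hx.1, mem_map_of_mem _ hx.2⟩
    obtain ⟨i, hi⟩ := sub _ (fun e => l1 (index_eq_one.mp (by rw [← ix, e, index_top]))) a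
    have b : L.map (MulAut.conj g).toMonoidHom ≤ closure (Pel p G ∩ K i) :=
      a.trans (closure_mono fun x hx => ⟨hx.1, hi hx.2⟩)
    have d : closure (Pel p G ∩ K i) ≤ K i := (closure_le _).mpr fun x hx => hx.2
    refine ⟨i, eq_of_le_of_card_ge b (c ▸ mx ⟨closure (Pel p G ∩ K i), fun e => hK i (top_le_iff.mp (e ▸ d)),
      closure_mono fun x hx => ⟨hx.1, subset_closure hx⟩, fun o => l3 (ix ▸ o.trans (index_dvd_of_le b))⟩)⟩
  choose f hf using key
  set N := normalizer (L : Set G)
  have t1 : N.index ≤ p := by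
    refine le_trans ?_ hι
    rw [index_eq_card, ← Nat.card_eq_fintype_card]
    refine Nat.card_le_card_of_injective (fun q => f q.out) fun a b e => ?_
    have e2 : L.map (MulAut.conj a.out).toMonoidHom = L.map (MulAut.conj b.out).toMonoidHom := by
      rw [hf, hf]; exact congrArg (fun i => closure (Pel p G ∩ K i)) e
    rw [← a.out_eq', ← b.out_eq', QuotientGroup.eq]
    refine mem_normalizer_fintype fun x hx => ?_
    obtain ⟨y, hy, o⟩ : MulAut.conj b.out x ∈ L.map (MulAut.conj a.out).toMonoidHom := e2 ▸ mem_map_of_mem _ hx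
    have : a.out⁻¹ * b.out * x * (a.out⁻¹ * b.out)⁻¹ = y := by
      have o' : a.out * y * a.out⁻¹ = b.out * x * b.out⁻¹ := o
      calc _ = a.out⁻¹ * (b.out * x * b.out⁻¹) * a.out := by group
        _ = y := by rw [← o']; group
    exact this ▸ hy
  have t2 : ¬ p ∣ N.index := fun o => l3 (o.trans (index_dvd_of_le le_normalizer))
  have t3 : N = ⊤ := by
    refine top_le_iff.mp (hgen ▸ (closure_le _).mpr fun x hx => N.normalCore_le ?_)
    rw [normalCore_eq_ker]
    refine kill hp.out _ (fun o => ?_) hx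
    rw [Nat.card_perm, hp.out.dvd_factorial, ← index_eq_card] at o
    exact t2 (le_antisymm t1 o ▸ dvd_rfl)
  have : L.Normal := normalizer_eq_top_iff.mp t3
  exact l1 (top_le_iff.mp (hgen ▸ (closure_le _).mpr fun x hx =>
    (QuotientGroup.eq_one_iff x).mp (kill hp.out (QuotientGroup.mk' L) l3 hx)))

/-- Let p be a prime and G a finite group generated by its p-elements. If a finite family of proper subgroups of G covers the set of p-elements of G (every element of p-power order lies in one of them), then the family has at least p + 1 members. -/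
theorem result {G : Type*} [Group G] [Finite G] (p : ℕ) [Fact p.Prime] (hgen : Subgroup.closure {g : G | ∃ k : ℕ, orderOf g = p ^ k} = ⊤)
    {ι : Type*} [Fintype ι] (K : ι → Subgroup G) (hK : ∀ i, K i ≠ ⊤)
    (hcov : ∀ g : G, (∃ k : ℕ, orderOf g = p ^ k) → ∃ i, g ∈ K i) :
    p + 1 ≤ Fintype.card ι := by
  by_contra o
  obtain ⟨i, e⟩ := main p (Nat.lt_succ_iff.mp (not_le.mp o)) _ G rfl hgen K hcov
  exact hK i e

end Cfsg.Agent.S4182
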