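import Mathlib
import Cfsg.Statements.S4184
import Cfsg.Agent.FGS.Sylow

set_option autoImplicit false
open Cfsg

namespace Cfsg.Agent.S4184

open Subgroup
open scoped Pointwise

/-- `n` carries the full `p`-part of `m` for all primes of `S`. -/
def Full (m : ℕ) (S : Set ℕ) (n : ℕ) : Prop := ∀ p ∈ S, p.Prime → m.factorization p ≤ n.factorization p

theorem full_of_dvd {m n n' : ℕ} {S : Set ℕ} (h : Full m S n) (hd : n ∣ n') (h0 : n' ≠ 0) :
    Full m S n' := fun p hp hpp =>
  (h p hp hpp).trans ((Nat.factorization_le_iff_dvd (ne_zero_of_dvd_ne_zero h0 hd) h0).mpr hd p)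

theorem fact_index {G : Type*} [Group G] [Finite G] (H : Subgroup G) (p : ℕ) :
    (Nat.card G).factorization p = H.index.factorization p + (Nat.card H).factorization p := by
  rw [← H.index_mul_card, Nat.factorization_mul index_ne_zero_of_finite Nat.card_pos.ne']
  rfl

theorem exists_dvd_class {G : Type*} [Group G] [Finite G] (hZ : center G = ⊥) {p : ℕ}
    (hp : p.Prime) (hd : p ∣ Nat.card G) : ∃ g : G, p ∣ (centralizer ({g} : Set G)).index := by
  have := Fact.mk hp
  by_contra hn
  push Not at hn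
  obtain ⟨P⟩ : Nonempty (Sylow p G) := inferInstance
  have h1 : centralizer ((P : Subgroup G) : Set G) = ⊤ := by
    refine FGS.eq_top_of_forall_conj_mem _ fun x => ?_
    obtain ⟨R, hR⟩ := FGS.exists_sylow_le_centralizer (hn x)
    obtain ⟨g, rfl⟩ := MulAction.exists_smul_eq G R P
    refine ⟨g, mem_centralizer_iff.mpr fun y hy => ?_⟩
    have := hR _ (FGS.mem_smul_sylow_iff.mp hy)
    calc y * (g * x * g⁻¹) = g * (g⁻¹ * y * g * x) * g⁻¹ := by group
      _ = g * x * g⁻¹ * y := by rw [this]; group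
  rw [centralizer_eq_top_iff_subset, hZ] at h1
  exact P.ne_bot_of_dvd_card hd (eq_bot_iff.mpr h1)

theorem exists_central {G : Type*} [Group G] [Finite G] {p : ℕ} [Fact p.Prime] {P : Subgroup G}
    (hP : IsPGroup p P) (hne : P ≠ ⊥) : ∃ z ∈ P, z ≠ 1 ∧ ∀ y ∈ P, y * z = z * y := by
  have : Nontrivial P := (nontrivial_iff_ne_bot P).mpr hne
  have := hP.center_nontrivial
  obtain ⟨⟨z, hz⟩, hz1⟩ := exists_ne (1 : center P)
  refine ⟨z, z.2, fun h => hz1 (Subtype.ext (Subtype.ext h)), fun y hy => ?_⟩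
  exact congrArg Subtype.val (mem_center_iff.mp hz ⟨y, hy⟩)

theorem key {G : Type*} [Group G] [Finite G] (hZ : center G = ⊥) {m : ℕ} (hm : m ≠ 0) (A : Set ℕ)
    (H1 : ∀ g : G, g ≠ 1 → Full m A (centralizer ({g} : Set G)).index ∨
      Full m Aᶜ (centralizer ({g} : Set G)).index)
    (H2 : ∀ g : G, (centralizer ({g} : Set G)).index ∣ m)
    (H3 : ∀ g : G, ¬ (Full m A (centralizer ({g} : Set G)).index ∧
      Full m Aᶜ (centralizer ({g} : Set G)).index))
    {q : ℕ} (hq : q.Prime) (hqA : q ∉ A) (hqm : q ∣ m) (hqG : q ∣ Nat.card G)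
    {p : ℕ} (hp : p.Prime) (hpA : p ∈ A) : (Nat.card G).factorization p ≤ m.factorization p := by
  have := Fact.mk hp
  have := Fact.mk hq
  by_contra hlt
  push Not at hlt
  have hpq : p ≠ q := by rintro rfl; exact hqA hpA
  have hpG : p ∣ Nat.card G := hp.dvd_iff_one_le_factorization Nat.card_pos.ne' |>.mpr (by omega)
  have hpm : 1 ≤ m.factorization p := by
    obtain ⟨g, hg⟩ := exists_dvd_class hZ hp hpG
    exact (hp.dvd_iff_one_le_factorization hm).mp (hg.trans (H2 g))
  have hle : ∀ g : G, (centralizer ({g} : Set G)).index.factorization p ≤ m.factorization p :=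
    fun g => (Nat.factorization_le_iff_dvd index_ne_zero_of_finite hm).mpr (H2 g) p
  let Q : Sylow q G := default
  obtain ⟨y, hyQ, hy1, hy⟩ := exists_central Q.isPGroup' (Q.ne_bot_of_dvd_card hqG)
  have hyA : Full m A (centralizer ({y} : Set G)).index := by
    refine (H1 y hy1).resolve_right fun h => ?_
    have h1 := h q hqA hq
    have h2 : ¬ q ∣ (centralizer ({y} : Set G)).index :=
      FGS.not_dvd_index_of_sylow_le Q fun b hb => mem_centralizer_singleton_iff.mpr (hy b hb)
    rw [Nat.factorization_eq_zero_of_not_dvd h2] at h1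
    have := (hq.dvd_iff_one_le_factorization hm).mp hqm
    omega
  let R : Sylow p (centralizer ({y} : Set G)) := default
  let P0 : Subgroup G := (R : Subgroup _).map (centralizer ({y} : Set G)).subtype
  have hP0 : IsPGroup p P0 := R.isPGroup'.map _
  have hcard : Nat.card P0 = p ^ ((Nat.card G).factorization p - m.factorization p) := by
    rw [Core.card_map_subtype, R.card_eq_multiplicity, fact_index (centralizer ({y} : Set G)) p,
      le_antisymm (hle y) (hyA p hpA hp), Nat.add_sub_cancel_left]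
  have hw : ∀ w ∈ P0, w ≠ 1 → Full m A (centralizer ({w} : Set G)).index := by
    intro w hw hw1
    refine (H1 w hw1).resolve_right fun h => ?_
    have hc : Commute y w := (mem_centralizer_singleton_iff.mp (map_subtype_le _ hw)).symm
    obtain ⟨a, ha⟩ := FGS.exists_orderOf_eq_of_mem Q.isPGroup' hyQ
    obtain ⟨b, hb⟩ := FGS.exists_orderOf_eq_of_mem hP0 hw
    have hcop : (orderOf y).Coprime (orderOf w) := by
      rw [ha, hb]; exact Nat.coprime_pow_primes _ _ hq hp hpq.symm
    refine H3 (y * w) ?_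
    rw [FGS.centralizer_mul_of_coprime hc hcop]
    exact ⟨full_of_dvd hyA (index_dvd_of_le inf_le_left) index_ne_zero_of_finite,
      full_of_dvd h (index_dvd_of_le inf_le_right) index_ne_zero_of_finite⟩
  have hP0ne : P0 ≠ ⊥ := by
    rw [← one_lt_card_iff_ne_bot, hcard]
    exact Nat.one_lt_pow (by omega) hp.one_lt
  obtain ⟨z, hzP, hz1, hz⟩ := exists_central hP0 hP0ne
  obtain ⟨P, hP⟩ := hP0.exists_le_sylow
  obtain ⟨t, htP, ht1, ht⟩ := exists_central P.isPGroup' (P.ne_bot_of_dvd_card hpG)
  have htP0 : t ∈ P0 := by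
    have h1 : IsPGroup p (P0 ⊔ zpowers t : Subgroup G) :=
      P.isPGroup'.to_le (sup_le hP (zpowers_le.mpr htP))
    have h2 : P0 ⊔ zpowers t ≤ centralizer ({z} : Set G) :=
      sup_le (fun b hb => mem_centralizer_singleton_iff.mpr (hz b hb))
        (zpowers_le.mpr (mem_centralizer_singleton_iff.mpr (ht z (hP hzP)).symm))
    obtain ⟨k, hk⟩ := IsPGroup.iff_card.mp h1
    have h3 := card_dvd_of_le h2
    rw [hk, hp.pow_dvd_iff_le_factorization Nat.card_pos.ne'] at h3
    have h4 := fact_index (centralizer ({z} : Set G)) p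
    have h5 := hw z hzP hz1 p hpA hp
    have h6 : P0 = P0 ⊔ zpowers t := by
      refine eq_of_le_of_card_ge le_sup_left ?_
      rw [hk, hcard]
      exact Nat.pow_le_pow_right hp.pos (by omega)
    rw [h6]
    exact (le_sup_right : zpowers t ≤ P0 ⊔ zpowers t) (mem_zpowers t)
  have h7 := hw t htP0 ht1 p hpA hp
  have h8 : ¬ p ∣ (centralizer ({t} : Set G)).index :=
    FGS.not_dvd_index_of_sylow_le P fun b hb => mem_centralizer_singleton_iff.mpr (ht b hb)
  rw [Nat.factorization_eq_zero_of_not_dvd h8] at h7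
  omega

theorem full_of_prime {M : Type*} [Group M] [Finite M] (A : Set ℕ)
    (h : ∀ a ∈ A, ∀ b ∉ A, a.Prime → b.Prime → a ∣ Nat.card M → b ∣ Nat.card M →
      ¬ ∃ x : M, orderOf x = a * b) {x : M} {b : ℕ} (hb : b.Prime) (hbA : b ∉ A)
    (hbx : b ∣ orderOf x) : Full (Nat.card M) A (centralizer ({x} : Set M)).index := by
  intro a haA ha
  have := Fact.mk ha
  rw [fact_index (centralizer ({x} : Set M)) a]
  suffices ¬ a ∣ Nat.card (centralizer ({x} : Set M)) by
    rw [Nat.factorization_eq_zero_of_not_dvd this]; rfl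
  intro hd
  obtain ⟨⟨u, hu⟩, hu'⟩ := exists_prime_orderOf_dvd_card' a hd
  have hua : orderOf u = a := by simpa using hu'
  have hv : orderOf (x ^ (orderOf x / b)) = b := by
    rw [orderOf_pow_of_dvd (Nat.div_pos (Nat.le_of_dvd (orderOf_pos x) hbx) hb.pos).ne'
      (Nat.div_dvd_of_dvd hbx), Nat.div_div_self hbx (orderOf_pos x).ne']
  refine h a haA b hbA ha hb (hua ▸ orderOf_dvd_natCard u) (hbx.trans (orderOf_dvd_natCard x))
    ⟨u * x ^ (orderOf x / b), ?_⟩
  have hc : Commute u (x ^ (orderOf x / b)) :=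
    Commute.pow_right (mem_centralizer_singleton_iff.mp hu) _
  rw [hc.orderOf_mul_eq_mul_orderOf_of_coprime, hua, hv]
  rw [hua, hv]
  exact (Nat.coprime_primes ha hb).mpr (by rintro rfl; exact hbA haA)

/-- Let G and M be finite groups with trivial centres and the same set of conjugacy class sizes, and suppose the prime graph of M is disconnected: the prime divisors of #M split into two non-empty parts such that M has no element of order pq with p in one part and q in the other. Then #G = #M. -/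
theorem result {G M : Type*}
    [Group G] [Finite G] [Group M] [Finite M] (hZG : Subgroup.center G = ⊥) (hZM : Subgroup.center M = ⊥)
    (h : Set.range (fun g : G => (Subgroup.centralizer ({g} : Set G)).index) = Set.range (fun g : M => (Subgroup.centralizer ({g} : Set M)).index))
    (hdisc : ∃ A : Set ℕ, (∃ a ∈ A, a.Prime ∧ a ∣ Nat.card M) ∧ (∃ b ∉ A, b.Prime ∧ b ∣ Nat.card M) ∧
      ∀ a ∈ A, ∀ b ∉ A, a.Prime → b.Prime → a ∣ Nat.card M → b ∣ Nat.card M → ¬ ∃ x : M, orderOf x = a * b) :
    Nat.card G = Nat.card M := by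
  obtain ⟨A, ⟨a, haA, ha, haM⟩, ⟨b, hbA, hb, hbM⟩, hAB⟩ := hdisc
  have hBA : ∀ a ∈ Aᶜ, ∀ b ∉ Aᶜ, a.Prime → b.Prime → a ∣ Nat.card M → b ∣ Nat.card M →
      ¬ ∃ x : M, orderOf x = a * b := by
    intro a ha b hb h1 h2 h3 h4
    rw [mul_comm]
    exact hAB b (by simpa using hb) a ha h2 h1 h4 h3
  have hGM : ∀ g : G, ∃ x : M, (centralizer ({x} : Set M)).index = (centralizer ({g} : Set G)).index :=
    fun g => by
      have : (centralizer ({g} : Set G)).index ∈ Set.range
        (fun g : M => (Subgroup.centralizer ({g} : Set M)).index) := h ▸ ⟨g, rfl⟩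
      exact this
  have hMG : ∀ x : M, (centralizer ({x} : Set M)).index ∣ Nat.card G :=
    fun x => by
      obtain ⟨g, hg⟩ : (centralizer ({x} : Set M)).index ∈ Set.range
        (fun g : G => (Subgroup.centralizer ({g} : Set G)).index) := h ▸ ⟨x, rfl⟩
      rw [← hg]; exact index_dvd_card _
  have H1 : ∀ g : G, g ≠ 1 → Full (Nat.card M) A (centralizer ({g} : Set G)).index ∨
      Full (Nat.card M) Aᶜ (centralizer ({g} : Set G)).index := by
    intro g hg
    obtain ⟨x, hx⟩ := hGM g
    rw [← hx]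
    have hx1 : orderOf x ≠ 1 := by
      rw [Ne, orderOf_eq_one_iff]
      rintro rfl
      rw [FGS.index_centralizer_eq_one_iff.mpr (one_mem _), eq_comm,
        FGS.index_centralizer_eq_one_iff, hZG] at hx
      exact hg hx
    obtain ⟨r, hr, hrx⟩ := Nat.exists_prime_and_dvd hx1
    by_cases hrA : r ∈ A
    · exact Or.inr (full_of_prime Aᶜ hBA hr (by simpa using hrA) hrx)
    · exact Or.inl (full_of_prime A hAB hr hrA hrx)
  have H2 : ∀ g : G, (centralizer ({g} : Set G)).index ∣ Nat.card M := fun g => by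
    obtain ⟨x, hx⟩ := hGM g
    rw [← hx]; exact index_dvd_card _
  have H3 : ∀ g : G, ¬ (Full (Nat.card M) A (centralizer ({g} : Set G)).index ∧
      Full (Nat.card M) Aᶜ (centralizer ({g} : Set G)).index) := by
    intro g ⟨h1, h2⟩
    obtain ⟨x, hx⟩ := hGM g
    rw [← hx] at h1 h2
    have hne : Nat.card (centralizer ({x} : Set M)) ≠ 1 := by
      rw [Ne, card_eq_one]
      intro h0
      have hx1 : x = 1 := by
        rw [← mem_bot, ← h0]; exact mem_centralizer_singleton_iff.mpr rfl
      rw [hx1, centralizer_eq_top_iff_subset.mpr (by simp)] at h0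
      have : Nat.card M = 1 := by rw [← card_top, h0, card_bot]
      rw [this] at haM
      exact ha.one_lt.ne' (Nat.dvd_one.mp haM)
    obtain ⟨r, hr, hrx⟩ := Nat.exists_prime_and_dvd hne
    have h3 := fact_index (centralizer ({x} : Set M)) r
    have h4 := (hr.dvd_iff_one_le_factorization Nat.card_pos.ne').mp hrx
    by_cases hrA : r ∈ A
    · have := h1 r hrA hr; omega
    · have := h2 r hrA hr; omega
  have hMdG : Nat.card M ∣ Nat.card G := by
    rw [← Nat.factorization_prime_le_iff_dvd Nat.card_pos.ne' Nat.card_pos.ne']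
    intro p hp
    have := Fact.mk ha
    have := Fact.mk hb
    by_cases hpA : p ∈ A
    · obtain ⟨x, hx⟩ := exists_prime_orderOf_dvd_card' b hbM
      exact full_of_dvd (full_of_prime A hAB hb hbA hx.symm.dvd) (hMG x) Nat.card_pos.ne' p hpA hp
    · obtain ⟨x, hx⟩ := exists_prime_orderOf_dvd_card' a haM
      exact full_of_dvd (full_of_prime Aᶜ hBA ha (by simpa using haA) hx.symm.dvd) (hMG x)
        Nat.card_pos.ne' p hpA hp
  refine Nat.dvd_antisymm ?_ hMdG
  rw [← Nat.factorization_prime_le_iff_dvd Nat.card_pos.ne' Nat.card_pos.ne']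
  intro p hp
  by_cases hpA : p ∈ A
  · exact key hZG Nat.card_pos.ne' A H1 H2 H3 hb hbA hbM (hbM.trans hMdG) hp hpA
  · refine key hZG Nat.card_pos.ne' Aᶜ ?_ H2 ?_ ha (by simpa using haA) haM (haM.trans hMdG) hp hpA
    · simpa only [compl_compl, or_comm] using H1
    · simpa only [compl_compl, and_comm] using H3

end Cfsg.Agent.S4184
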