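import Mathlib
import Cfsg.Agent.BG.RepWeight
import Cfsg.Agent.Core.Basic
import Cfsg.Agent.Core.MinNormal
import Cfsg.Agent.Core.Cores
import Cfsg.Agent.PGrp.Frattini
import Cfsg.Statements.S4188
-- import your own Cfsg.Agent.* helpers here

set_option autoImplicit false
open Cfsg

namespace Cfsg.Agent.S4188

open Subgroup MulAction Cfsg.Agent.Core
open scoped commutatorElement

universe u v

theorem comm_mem {G : Type*} [Group G] {M : Subgroup G} (h : ∀ x : G, x ^ 2 ∈ M) (x y : G) :
    x * y * x⁻¹ * y⁻¹ ∈ M := by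
  have : x * y * x⁻¹ * y⁻¹ = x ^ 2 * (x⁻¹ * y) ^ 2 * (y ^ 2)⁻¹ := by simp only [sq]; group
  rw [this]
  exact M.mul_mem (M.mul_mem (h _) (h _)) (M.inv_mem (h _))

theorem normal_of_sq {G : Type*} [Group G] {M : Subgroup G} (h : ∀ x : G, x ^ 2 ∈ M) : M.Normal :=
  ⟨fun m hm g => by
    have := M.mul_mem (comm_mem h g m) hm
    simpa using this⟩

theorem index_split {G : Type*} [Group G] {M : Subgroup G} (h : ∀ x : G, x ^ 2 ∈ M)
    (K : Subgroup G) : M.index = (M ⊔ K).index * (M.subgroupOf K).index := by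
  haveI := normal_of_sq h
  rw [← relIndex_mul_index (le_sup_left : M ≤ M ⊔ K), relIndex_sup_left, mul_comm]
  rfl

/-- an equivariant fixed-point-free involution -/
structure Hf (G : Type*) {Ω : Type*} [Group G] [MulAction G Ω] (z : G) : Prop where
  ne : ∀ x : Ω, z • x ≠ x
  inv : ∀ x : Ω, z • z • x = x
  comm : ∀ (g : G) (x : Ω), g • z • x = z • g • x

theorem exists_hf {G Ω : Type*} [Group G] [Finite G] [MulAction G Ω] (hG : IsPGroup 2 G)
    [IsPretransitive G Ω] [Nontrivial Ω] : ∃ z : G, Hf (Ω := Ω) G z := by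
  let φ := toPermHom G Ω
  have h1 : IsPGroup 2 φ.range := hG.of_surjective _ φ.rangeRestrict_surjective
  haveI : Finite φ.range := Finite.of_surjective _ φ.rangeRestrict_surjective
  haveI : Nontrivial φ.range := by
    obtain ⟨a, b, hab⟩ := exists_pair_ne Ω
    obtain ⟨g, hg⟩ := exists_smul_eq G a b
    refine ⟨⟨⟨φ g, g, rfl⟩, 1, fun e => hab ?_⟩⟩
    have := congrArg (fun s : φ.range => s.1 a) e
    exact this.symm.trans hg
  haveI := h1.center_nontrivial
  obtain ⟨c, ho⟩ := exists_prime_orderOf_dvd_card' (G := center φ.range) 2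
    (prime_dvd_card_of_isPGroup (h1.to_subgroup _) (nontrivial_iff_ne_bot _ |>.1 inferInstance))
  rw [← Subgroup.orderOf_coe, ← Subgroup.orderOf_coe] at ho
  obtain ⟨⟨_, z, rfl⟩, hz⟩ := c
  change orderOf (φ z) = 2 at ho
  have hc : ∀ (g : G) (x : Ω), g • z • x = z • g • x := fun g x =>
    congrArg (fun s : φ.range => s.1 x) (mem_center_iff.1 hz ⟨φ g, g, rfl⟩)
  refine ⟨z, fun x hx => ?_, fun x => ?_, hc⟩
  · have : φ z = 1 := by
      ext y
      obtain ⟨g, rfl⟩ := exists_smul_eq G x y
      show z • g • x = g • x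
      rw [← hc, hx]
    rw [this] at ho
    simp at ho
  · have : φ z ^ 2 = 1 := ho ▸ pow_orderOf_eq_one _
    exact congrArg (fun s : Equiv.Perm Ω => s x) ((sq (φ z)).symm.trans this)

section
variable {G Ω : Type*} [Group G] [MulAction G Ω] {z : G}

def Hf.st (h : Hf (Ω := Ω) G z) : Setoid Ω where
  r x y := y = x ∨ y = z • x
  iseqv := ⟨fun _ => Or.inl rfl, by
    rintro x y (rfl | rfl)
    · exact Or.inl rfl
    · exact Or.inr (h.inv x).symm, by
    rintro x y w (rfl | rfl) (rfl | rfl)
    · exact Or.inl rfl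
    · exact Or.inr rfl
    · exact Or.inr rfl
    · exact Or.inl (h.inv x)⟩

@[reducible] def Hf.act (h : Hf (Ω := Ω) G z) : MulAction G (Quotient h.st) where
  smul g := Quotient.map (fun x => g • x) (by
    rintro x y (rfl | rfl)
    · exact Or.inl rfl
    · exact Or.inr (h.comm g x))
  one_smul q := by
    induction q using Quotient.inductionOn with
    | _ x => exact congrArg (Quotient.mk _) (one_smul G x)
  mul_smul a b q := by
    induction q using Quotient.inductionOn with
    | _ x => exact congrArg (Quotient.mk _) (mul_smul a b x)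

theorem Hf.card (h : Hf (Ω := Ω) G z) : Nat.card Ω = 2 * Nat.card (Quotient h.st) := by
  rw [mul_comm, ← Nat.card_eq_fintype_card.trans Fintype.card_bool, ← Nat.card_prod]
  symm
  refine Nat.card_eq_of_bijective (fun p : Quotient h.st × Bool => if p.2 then p.1.out else z • p.1.out)
    ⟨?_, fun x => ?_⟩
  · have e : ∀ q : Quotient h.st, Quotient.mk h.st (z • q.out) = q := fun q =>
      (Quotient.sound (show h.st.r q.out (z • q.out) from Or.inr rfl)).symm.trans q.out_eq
    rintro ⟨q, b⟩ ⟨q', b'⟩ hh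
    have hq : q = q' := by
      have := congrArg (Quotient.mk h.st) hh
      cases b <;> cases b' <;> simpa [e] using this
    subst hq
    cases b <;> cases b'
    · rfl
    · exact absurd hh (h.ne _)
    · exact absurd hh.symm (h.ne _)
    · rfl
  · rcases (Quotient.mk_out (s := h.st) x : x = _ ∨ x = _) with e | e
    · exact ⟨(Quotient.mk _ x, true), e.symm⟩
    · exact ⟨(Quotient.mk _ x, false), e.symm⟩

end

theorem perm_bound (n : ℕ) : ∀ (G : Type u) [Group G] [Finite G] (Ω : Type v) [Finite Ω]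
    [MulAction G Ω], IsPGroup 2 G → Nat.card Ω = n → ∀ M : Subgroup G, (∀ x : G, x ^ 2 ∈ M) →
    (∀ g : G, (∀ x : Ω, g • x = x) → g ∈ M) → M.index ^ 2 ≤ 2 ^ n := by
  induction n using Nat.strong_induction_on with
  | _ n ih =>
  intro G _ _ Ω _ _ hG hn M hsq hker
  by_cases hs : Subsingleton Ω
  · have : M = ⊤ := eq_top_iff.2 fun g _ => hker g fun x => Subsingleton.elim _ _
    rw [this, index_top, one_pow]
    exact Nat.one_le_two_pow
  rw [not_subsingleton_iff_nontrivial] at hs
  by_cases htr : IsPretransitive G Ω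
  swap
  · obtain ⟨a, b, hab⟩ : ∃ a b : Ω, b ∉ orbit G a := by
      by_contra h
      push Not at h
      exact htr ⟨fun a b => h a b⟩
    let S : SubMulAction G Ω := ⟨orbit G a, fun g _ hx => mem_orbit_of_mem_orbit g hx⟩
    let S' : SubMulAction G Ω := ⟨(orbit G a)ᶜ, fun g x hx h => hx (by
      simpa using mem_orbit_of_mem_orbit g⁻¹ h)⟩
    have hc : Nat.card S + Nat.card S' = n := by
      rw [← hn]
      exact (Set.ncard_add_ncard_compl (orbit G a)).trans (Set.ncard_univ Ω ▸ rfl)
    haveI : Nonempty S := ⟨⟨a, mem_orbit_self a⟩⟩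
    haveI : Nonempty S' := ⟨⟨b, hab⟩⟩
    have p1 : 0 < Nat.card S := Nat.card_pos
    have p2 : 0 < Nat.card S' := Nat.card_pos
    let K := (toPermHom G S).ker
    have h1 := ih _ (by omega) G S hG rfl (M ⊔ K) (fun x => mem_sup_left (hsq x))
      (fun g hg => mem_sup_right (Equiv.ext hg))
    have h2 := ih _ (by omega) K S' (hG.to_subgroup K) rfl (M.subgroupOf K) (fun x => hsq x)
      (fun g hg => hker g fun x => by
        by_cases hx : x ∈ orbit G a
        · exact congrArg (fun s : Equiv.Perm S => (s ⟨x, hx⟩ : Ω)) g.2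
        · exact congrArg Subtype.val (hg ⟨x, hx⟩))
    rw [index_split hsq K, mul_pow, ← hc, pow_add]
    exact Nat.mul_le_mul h1 h2
  obtain ⟨z, hz⟩ := exists_hf (Ω := Ω) hG
  letI := hz.act
  have hmk : ∀ (g : G) (x : Ω), g • Quotient.mk hz.st x = Quotient.mk hz.st (g • x) := fun _ _ => rfl
  have hc := hz.card
  haveI : Nonempty (Quotient hz.st) := ⟨Quotient.mk _ (Classical.arbitrary Ω)⟩
  have p1 : 0 < Nat.card (Quotient hz.st) := Nat.card_pos
  let K := (toPermHom G (Quotient hz.st)).ker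
  have hK : ∀ k ∈ K, ∀ x : Ω, k • x = x ∨ k • x = z • x := fun k hk x =>
    hz.st.symm (Quotient.exact (s := hz.st)
      (congrArg (fun s : Equiv.Perm (Quotient hz.st) => s (Quotient.mk _ x)) hk))
  have h1 := ih _ (by omega) G (Quotient hz.st) hG rfl (M ⊔ K) (fun x => mem_sup_left (hsq x))
    (fun g hg => mem_sup_right (Equiv.ext hg))
  let φ : K →* Equiv.Perm Ω := (toPermHom G Ω).comp K.subtype
  have hφ : ∀ (k : K) x, φ k x = (k : G) • x := fun _ _ => rfl
  have hφM : φ.ker ≤ M.subgroupOf K := fun k hk => hker k fun x =>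
    congrArg (fun s : Equiv.Perm Ω => s x) hk
  have hagree : ∀ (k k' : K) (x : Ω), ((k : G) • x = x ↔ (k' : G) • x = x) →
      (k : G) • x = (k' : G) • x := by
    intro k k' x h
    by_cases e : (k : G) • x = x
    · rw [e, h.1 e]
    · rw [(hK k k.2 x).resolve_left e, (hK k' k'.2 x).resolve_left (mt h.2 e)]
  rw [index_split hsq K, mul_pow, ← hn, hc, two_mul, pow_add]
  by_cases hs' : Subsingleton (Quotient hz.st)
  · have e1 : M ⊔ K = ⊤ := eq_top_iff.2 fun g _ => mem_sup_right (Subsingleton.elim _ _)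
    have e2 : Nat.card (Quotient hz.st) = 1 := Nat.card_eq_one_iff_unique.2 ⟨hs', inferInstance⟩
    have e3 : (M.subgroupOf K).index ≤ 2 := by
      refine (Nat.le_of_dvd (Nat.pos_of_ne_zero index_ne_zero_of_finite)
        (index_dvd_of_le hφM)).trans ?_
      rw [index_ker]
      refine (card_le_card_group _).trans ?_
      rw [Nat.card_perm, hc, e2]; rfl
    rw [e1, index_top, e2]
    nlinarith
  rw [not_subsingleton_iff_nontrivial] at hs'
  haveI : IsPretransitive G (Quotient hz.st) := ⟨fun a b => by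
    induction a using Quotient.inductionOn with
    | _ x =>
    induction b using Quotient.inductionOn with
    | _ y =>
    obtain ⟨g, rfl⟩ := exists_smul_eq G x y
    exact ⟨g, rfl⟩⟩
  obtain ⟨t, ht⟩ := exists_hf (Ω := Quotient hz.st) hG
  have hc' := ht.card
  refine Nat.mul_le_mul h1 ?_
  have hcomm : ∀ a b : φ.range, a * b = b * a := by
    rintro ⟨_, a, rfl⟩ ⟨_, b, rfl⟩
    apply Subtype.ext
    ext x
    show (a : G) • (b : G) • x = (b : G) • (a : G) • x
    rcases hK a a.2 x with e | e <;> rcases hK b b.2 x with e' | e'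
    · rw [e, e', e]
    · rw [e, e', hz.comm, e]
    · rw [e, e', hz.comm, e', e]
    · rw [e, e', hz.comm, hz.comm, e, e']
  letI : CommGroup φ.range := { (inferInstance : Group φ.range) with mul_comm := hcomm }
  let c : K →* K := (MulAut.conjNormal t).toMonoidHom
  let θ : K →* φ.range := φ.rangeRestrict / φ.rangeRestrict.comp c
  have hθ : ∀ k, θ k = φ.rangeRestrict (k * (c k)⁻¹) := fun k => by
    rw [map_mul, map_inv, ← div_eq_mul_inv]; rfl
  have a1 : (M.subgroupOf K).index ≤ θ.range.index := by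
    rw [← index_map_eq (M.subgroupOf K) φ.rangeRestrict_surjective
      (by rwa [MonoidHom.ker_rangeRestrict])]
    apply Nat.le_of_dvd (Nat.pos_of_ne_zero index_ne_zero_of_finite)
    apply index_dvd_of_le
    rintro _ ⟨k, rfl⟩
    refine ⟨_, ?_, (hθ k).symm⟩
    have := comm_mem hsq (k : G) t
    show (k : G) * (t * k * t⁻¹)⁻¹ ∈ M
    simpa [mul_assoc] using this
  have a2 : θ.range.index = Nat.card (θ.ker.map φ.rangeRestrict) := by
    have hle : φ.rangeRestrict.ker ≤ θ.ker := by
      intro k hk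
      rw [MonoidHom.ker_rangeRestrict] at hk
      rw [MonoidHom.mem_ker, hθ, ← MonoidHom.mem_ker, MonoidHom.ker_rangeRestrict]
      refine mul_mem hk (inv_mem ?_)
      ext x
      show (t * k * t⁻¹) • x = x
      rw [mul_smul, mul_smul, ← hφ, MonoidHom.mem_ker.1 hk]
      simp
    have e1 := θ.range.card_mul_index
    have e2 := (θ.ker.map φ.rangeRestrict).card_mul_index
    rw [index_map_eq _ φ.rangeRestrict_surjective hle, index_ker, mul_comm] at e2
    exact Nat.eq_of_mul_eq_mul_left Nat.card_pos (e1.trans e2.symm)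
  have a3 : Nat.card (θ.ker.map φ.rangeRestrict) ≤ 2 ^ Nat.card (Quotient ht.st) := by
    have : Nat.card (Quotient ht.st → Prop) = 2 ^ Nat.card (Quotient ht.st) := by
      rw [Nat.card_fun]; simp
    rw [← this]
    apply Nat.card_le_card_of_injective (fun s q => s.1.1 q.out.out = q.out.out)
    have hct : ∀ k ∈ θ.ker, ∀ x : Ω, (k : G) • t • x = t • (k : G) • x := by
      intro k hk x
      have e := congrArg (fun s : φ.range => s.1 (t • x)) (div_eq_one.1 hk)
      have e' : (k : G) • t • x = (t * k * t⁻¹) • t • x := e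
      rw [e', mul_smul, mul_smul, inv_smul_smul]
    rintro ⟨_, k, hk, rfl⟩ ⟨_, k', hk', rfl⟩ h
    apply Subtype.ext
    apply Subtype.ext
    ext x
    show (k : G) • x = (k' : G) • x
    set q : Quotient ht.st := Quotient.mk _ (Quotient.mk hz.st x) with hq
    have b0 : (k : G) • q.out.out = (k' : G) • q.out.out :=
      hagree k k' _ (iff_of_eq (congrFun h q))
    have b1 : ∀ y : Ω, (k : G) • y = (k' : G) • y → ∀ w, hz.st.r y w →
        (k : G) • w = (k' : G) • w := by
      rintro y hy w (rfl | rfl)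
      · exact hy
      · rw [hz.comm, hz.comm, hy]
    rcases (Quotient.mk_out (s := ht.st) (Quotient.mk hz.st x) : _ = _ ∨ _ = _) with e | e
    · exact b1 _ b0 x (Quotient.exact (s := hz.st) (q.out.out_eq.trans e.symm))
    · refine b1 (t • q.out.out) (by rw [hct k hk, hct k' hk', b0]) x
        (Quotient.exact (s := hz.st) ?_)
      rw [← hmk, q.out.out_eq]
      exact e.symm
  rw [hc', mul_comm, pow_mul]
  exact Nat.pow_le_pow_left (a1.trans (a2 ▸ a3)) 2

open Module Cfsg.Agent.BG.RepGlue Cfsg.Agent.BG.RepWeight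

@[reducible] def act {S : Type*} [Group S] (k : Type*) [Field k] (A : Subgroup S) [A.Normal] :
    MulAction S (A →* kˣ) where
  smul g χ := cchar ⟨g, Subgroup.le_normalizer_of_normal (Subgroup.mem_top g)⟩ χ
  one_smul χ := cchar_one χ
  mul_smul g h χ := cchar_mul ⟨g, _⟩ ⟨h, _⟩ χ

theorem lin_bound {k P W : Type*} [Field k] [IsAlgClosed k] [Group P] [Finite P] [AddCommGroup W]
    [Module k W] [FiniteDimensional k W] (h2 : (2 : k) ≠ 0) (hP : IsPGroup 2 P)
    (σ : Representation k P W) (hσ : ∀ g, σ g = 1 → g = 1) :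
    (frattini P).index ^ 2 ≤ 8 ^ finrank k W := by
  classical
  haveI := hP.isNilpotent
  obtain ⟨A, -, hA, hAc, hAC⟩ := PGrp.exists_scn_ge (⊥ : Subgroup P) inferInstance
  letI := act k A
  haveI : Fintype (A →* kˣ) := Fintype.ofFinite _
  obtain ⟨π, hπ⟩ := exists_isWtProj σ A (by
    obtain ⟨m, hm⟩ := IsPGroup.iff_card.1 (hP.to_subgroup A)
    rw [hm]; push_cast
    exact pow_ne_zero _ h2) (fun a ha b hb => by
      rw [← map_mul, ← map_mul, Core.comm_of_isMulCommutative hAc ha hb])
  let S : SubMulAction P (A →* kˣ) := ⟨{χ | wt σ A χ ≠ ⊥}, fun g χ hχ => by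
    obtain ⟨v, hv, h0⟩ := (Submodule.ne_bot_iff _).1 hχ
    refine (Submodule.ne_bot_iff _).2 ⟨σ g v, apply_mem_wt ⟨g, _⟩ hv, fun h => h0 ?_⟩
    rw [← σ.inv_self_apply g v, h, map_zero]⟩
  have hS : Nat.card S ≤ finrank k W := by
    rw [← hπ.sum_finrank]
    have : Nat.card S = (Finset.univ.filter fun χ => wt σ A χ ≠ ⊥).card := by
      rw [← Fintype.card_subtype, ← Nat.card_eq_fintype_card]; rfl
    rw [this, Finset.card_filter]
    apply Finset.sum_le_sum
    intro χ _
    split_ifs with h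
    · exact Nat.one_le_iff_ne_zero.2 fun e => h (Submodule.finrank_eq_zero.1 e)
    · exact Nat.zero_le _
  have hsep : ∀ a b : A, (∀ χ : S, χ.1 a = χ.1 b) → a = b := by
    intro a b h
    have : σ a = σ b := by
      ext v
      rw [← hπ.sum v, map_sum, map_sum]
      refine Finset.sum_congr rfl fun χ _ => ?_
      by_cases hχ : wt σ A χ = ⊥
      · have := hπ.mem χ v
        rw [hχ, Submodule.mem_bot] at this
        rw [this, map_zero, map_zero]
      · rw [mem_wt.1 (hπ.mem χ v) a, mem_wt.1 (hπ.mem χ v) b, h ⟨χ, hχ⟩]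
    apply Subtype.ext
    rw [← mul_inv_eq_one]
    apply hσ
    rw [map_mul, this, ← map_mul, mul_inv_cancel, map_one]
  have hsq : ∀ x : P, x ^ 2 ∈ frattini P := PGrp.pow_mem_frattini hP
  have h1 := perm_bound _ P S hP rfl (frattini P ⊔ A) (fun x => mem_sup_left (hsq x)) (fun g hg => by
    apply mem_sup_right
    rw [← hAC, mem_centralizer_iff]
    intro a ha
    have := hsep ⟨a, ha⟩ ⟨g⁻¹ * a * g, by simpa using hA.conj_mem a ha g⁻¹⟩ fun χ => by
      have e : (g • χ.1) ⟨a, ha⟩ = χ.1 ⟨g⁻¹ * a * g, by simpa using hA.conj_mem a ha g⁻¹⟩ :=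
        cchar_apply _ χ.1 _ _ rfl
      rw [← e]
      exact congrArg (fun ψ : S => ψ.1 ⟨a, ha⟩) (hg χ).symm
    have e : a = g⁻¹ * a * g := congrArg Subtype.val this
    conv_rhs => rw [e]
    group)
  have h3 : ((frattini P).subgroupOf A).index ≤ 2 ^ Nat.card S := by
    letI : CommGroup A := { (inferInstance : Group A) with mul_comm := hAc.1.comm }
    let φ : A →* A := powMonoidHom 2
    have a1 : ((frattini P).subgroupOf A).index ≤ φ.range.index := by
      apply Nat.le_of_dvd (Nat.pos_of_ne_zero index_ne_zero_of_finite)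
      apply index_dvd_of_le
      rintro _ ⟨a, rfl⟩
      exact hsq a
    have a2 : φ.range.index = Nat.card φ.ker := by
      have e1 := φ.range.card_mul_index
      have e2 := φ.ker.card_mul_index
      rw [index_ker, mul_comm] at e2
      exact Nat.eq_of_mul_eq_mul_left Nat.card_pos (e1.trans e2.symm)
    have a3 : Nat.card (S → Prop) = 2 ^ Nat.card S := by
      rw [Nat.card_fun]; simp
    rw [← a3]
    refine a1.trans (a2 ▸ Nat.card_le_card_of_injective (fun a χ => χ.1 a.1 = 1) ?_)
    intro a b h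
    apply Subtype.ext
    apply hsep
    intro χ
    have hh : χ.1 a.1 = 1 ↔ χ.1 b.1 = 1 := iff_of_eq (congrFun h χ)
    have m : ∀ c : φ.ker, χ.1 c.1 = 1 ∨ χ.1 c.1 = -1 := fun c => by
      have : (χ.1 c.1) ^ 2 = 1 := by
        rw [← map_pow, show c.1 ^ 2 = 1 from c.2, map_one]
      have h' : ((χ.1 c.1 : kˣ) : k) ^ 2 = 1 := by rw [← Units.val_pow_eq_pow_val, this]; rfl
      rcases sq_eq_one_iff.1 h' with e | e
      · exact Or.inl (Units.ext e)
      · exact Or.inr (Units.ext e)
    by_cases e : χ.1 a.1 = 1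
    · rw [e, hh.1 e]
    · rw [(m a).resolve_left e, (m b).resolve_left (mt hh.2 e)]
  rw [index_split hsq A, mul_pow]
  calc _ ≤ 2 ^ Nat.card S * (2 ^ Nat.card S) ^ 2 := Nat.mul_le_mul h1 (Nat.pow_le_pow_left h3 2)
    _ = 8 ^ Nat.card S := by rw [← pow_mul, mul_comm _ 2, pow_mul, ← mul_pow]; rfl
    _ ≤ _ := Nat.pow_le_pow_right (by norm_num) hS

theorem arith (n : ℕ) : 8 ^ (n + 2) + 2 * 3 ^ (n + 2) ≤ (3 ^ (n + 2)) ^ 2 + 1 := by
  induction n with
  | zero => norm_num
  | succ n ih =>
    have h : 9 ≤ 3 ^ (n + 2) := by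
      calc 9 = 3 ^ 2 := by norm_num
        _ ≤ _ := Nat.pow_le_pow_right (by norm_num) (by omega)
    rw [show n + 1 + 2 = (n + 2) + 1 by ring, pow_succ 8, pow_succ 3]
    nlinarith

/-- Let G be a finite group that is the semidirect product of a normal abelian subgroup N of odd order by a 2-subgroup P, and suppose N is the unique minimal normal subgroup of G. Then the index of the Frattini subgroup of P in P is at most #N − 1. -/
theorem result {G : Type*} [Group G] [Finite G] (N P : Subgroup G) (hN : N.Normal) (hNab : IsMulCommutative ↥N) (hNodd : Odd (Nat.card ↥N)) (hP : IsPGroup 2 ↥P) (hdisj : N ⊓ P = ⊥) (hprod : N ⊔ P = ⊤) (hmin : N ≠ ⊥ ∧ ∀ M : Subgroup G, M.Normal → M ≠ ⊥ → N ≤ M) : (frattini ↥P).index ≤ Nat.card ↥N - 1 := by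
  obtain ⟨p, hp, hE⟩ := minimal_normal_elementary N solvable_of_isMulCommutative hmin.1
    (fun M hM hle => (em (M = ⊥)).imp_right fun h => le_antisymm hle (hmin.2 M hM h))
  haveI : Fact p.Prime := ⟨hp⟩
  have hp2 : p ≠ 2 := by
    rintro rfl
    exact (Nat.not_even_iff_odd.2 hNodd) (even_iff_two_dvd.2
      (prime_dvd_card_of_isPGroup (IsElementaryAbelian.isPGroup hE) hmin.1))
  obtain ⟨n, σ, hn, -, hσ⟩ := exists_rep hE P.subtype
    (fun g => le_normalizer_of_normal (mem_top _)) (AlgebraicClosure (ZMod p))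
  have hC : P ⊓ centralizer (N : Set G) = ⊥ := by
    by_contra h0
    have hn : (P ⊓ centralizer (N : Set G)).Normal := by
      apply normal_of_le_normalizer
      rw [← hprod]
      refine sup_le ?_ (Core.le_normalizer_inf le_normalizer le_normalizer_of_normal)
      exact (le_centralizer_iff.1 inf_le_right).trans (centralizer_le_normalizer _)
    exact hmin.1 (le_bot_iff.1 (hdisj ▸ le_inf le_rfl ((hmin.2 _ hn h0).trans inf_le_left)))
  have h := lin_bound (k := AlgebraicClosure (ZMod p)) (by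
    intro e
    have := (CharP.cast_eq_zero_iff (AlgebraicClosure (ZMod p)) p 2).1 (by exact_mod_cast e)
    exact hp2 ((Nat.prime_dvd_prime_iff_eq hp Nat.prime_two).1 this)) hP σ (fun g hg =>
      Subtype.ext (mem_bot.1 (hC ▸ mem_inf.2 ⟨g.2, (hσ g).1 hg⟩)))
  rw [Module.finrank_fin_fun] at h
  have hp3 : 3 ≤ p := by have := hp.two_le; omega
  have h3 : 3 ^ n ≤ p ^ n := Nat.pow_le_pow_left hp3 n
  rw [hn]
  rcases n with _ | _ | n
  · exact absurd (card_eq_one.1 hn) hmin.1
  · have : (frattini P).index ≤ 2 := by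
      by_contra h'
      have : 3 ≤ (frattini P).index := by omega
      have := Nat.pow_le_pow_left this 2
      omega
    omega
  · have a := arith n
    by_contra h'
    have : 3 ^ (n + 2) ≤ (frattini P).index := by
      have : n + 1 + 1 = n + 2 := rfl
      rw [this] at h3 h'
      omega
    have b := Nat.pow_le_pow_left this 2
    have c : 1 ≤ 3 ^ (n + 2) := Nat.one_le_pow _ _ (by norm_num)
    have : n + 1 + 1 = n + 2 := rfl
    rw [this] at h
    omega

end Cfsg.Agent.S4188
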