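import Mathlib
import Cfsg.Statements.S4189
import Cfsg.Agent.PGrp.MaxClass2
import Cfsg.Agent.PGrp.Aut
-- import your own Cfsg.Agent.* helpers here

set_option autoImplicit false
open Cfsg

namespace Cfsg.Agent.S4189

/-- Let P be a finite non-abelian 2-group whose commutator subgroup has index 4 and whose automorphism group is not a 2-group (some automorphism has order that is not a power of 2). Then P is isomorphic to the quaternion group of order 8. -/
theorem result {P : Type*} [Group P] [Finite P] (hP : IsPGroup 2 P) (hna : ¬ IsMulCommutative P) (h4 : (commutator P).index = 4) (haut : ¬ IsPGroup 2 (MulAut P)) : Nonempty (P ≃* QuaternionGroup 2) := by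
  have : Fact (Nat.Prime 2) := ⟨Nat.prime_two⟩
  obtain ⟨a, b, m, hm, h⟩ := PGrp.exists_mc_of_index_commutator hP h4 hna
  by_contra hQ
  apply haut
  have hout : ∀ x : P, x ∉ Subgroup.zpowers a → orderOf x ≠ 2 ^ (m + 1) := by
    intro x hx hxo
    have h1 := h.change (Subgroup.mem_top x) hx
    have hm1 : m = 1 := by
      by_contra hm1
      have h2 : 2 ^ 3 ≤ 2 ^ (m + 1) := Nat.pow_le_pow_right (by norm_num) (by omega)
      rcases h1.y_sq with h3 | h3
      · have := Nat.le_of_dvd two_pos (orderOf_dvd_of_pow_eq_one (by rw [pow_two, h3] : x ^ 2 = 1))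
        omega
      · have := h.four_of_sq h3
        omega
    subst hm1
    rcases h1.y_sq with h3 | h3
    · have := Nat.le_of_dvd two_pos (orderOf_dvd_of_pow_eq_one (by rw [pow_two, h3] : x ^ 2 = 1))
      omega
    · rcases h1.act with h5 | ⟨h5, -⟩
      · exact hQ (PGrp.nonempty_equiv_quaternion_of_gens h1.ord (PGrp.mc_index h1) h1.ny
          (by rw [pow_two, h3]) h5)
      · omega
  have key : IsPGroup 2 (⊤ : Subgroup (MulAut P)) := by
    refine PGrp.isPGroup_of_forall_coprime Nat.prime_two fun φ _ hφ => ?_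
    have hn := Subgroup.normal_of_index_eq_two (PGrp.mc_index h)
    have h1 : φ a ∈ Subgroup.zpowers a := by
      by_contra hcon
      exact hout _ hcon (by rw [MulEquiv.orderOf_eq, h.ord])
    have h2 : ∀ x ∈ Subgroup.zpowers a, φ x ∈ Subgroup.zpowers a := by
      intro x hx
      obtain ⟨k, rfl⟩ := Subgroup.mem_zpowers_iff.mp hx
      rw [map_zpow]
      exact Subgroup.zpow_mem _ h1 k
    refine PGrp.aut_eq_one_of_centralizer_le hP (H := Subgroup.zpowers a) ?_ hφ ?_
    · intro x hx
      by_contra hcon
      exact PGrp.not_commute_of_index_two (PGrp.mc_index h) hcon hna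
        (Subgroup.mem_centralizer_iff.mp hx a (Subgroup.mem_zpowers a))
    · refine PGrp.aut_fix_of_mul_pow (hP.to_subgroup _) (fun x hx y hy => ?_) h2 hφ ?_
      · exact (Inv.commute_of_mem_zpowers₂ hx hy).mul_pow 2
      · intro x hx hx2
        by_cases hx1 : x = 1
        · rw [hx1, map_one]
        · have h3 := orderOf_eq_prime hx2 hx1
          rw [h.eq_z (h2 x hx) (by rw [MulEquiv.orderOf_eq, h3]), ← h.eq_z hx h3]
  exact key.of_equiv Subgroup.topEquiv

end Cfsg.Agent.S4189
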