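import Mathlib
import Cfsg.Statements.S4194
import Cfsg.Agent.FGS.TwoCen

set_option autoImplicit false
open Cfsg

namespace Cfsg.Agent.S4194

open Subgroup Cfsg.Agent.FGS Cfsg.Agent.LocalEven

/-- A finite group G has commutative Sylow 2-subgroups if and only if every 2-element of G (element of order a power of 2) is 2-central, that is, its centralizer contains a Sylow 2-subgroup of G. -/
theorem result {G : Type*} [Group G] [Finite G] (P : Sylow 2 G) :
    IsMulCommutative (P : Subgroup G) ↔ ∀ x : G, (∃ k : ℕ, orderOf x = 2 ^ k) → (∃ Q : Sylow 2 G, (Q : Subgroup G) ≤ Subgroup.centralizer ({x} : Set G)) := by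
  have : Fact (Nat.Prime 2) := ⟨Nat.prime_two⟩
  refine ⟨fun h x ⟨k, hk⟩ => ?_, comm_of_two_central P⟩
  obtain ⟨g, -, hg⟩ := (isSylowIn_top P).exists_conj_mem (mem_top x) (hk ▸ pow_orderOf_eq_one x)
  refine ⟨g⁻¹ • P, ?_⟩
  rw [sylow_smul_coe, cj_le_iff, inv_inv, cj_centralizer_singleton]
  exact fun s hs => mem_centralizer_singleton_iff.mpr (le_centralizer_iff_isMulCommutative.mpr h hg s hs)

end Cfsg.Agent.S4194
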