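import Mathlib
import Cfsg.Statements.S4195
import Cfsg.Agent.Inv.Count
import Cfsg.Agent.FGS.Basic

set_option autoImplicit false
open Cfsg

namespace Cfsg.Agent.S4195

/-- Let x be a non-identity element of a finite group G whose centralizer contains a Sylow 2-subgroup of G. If x is conjugate to its inverse, then x has order 2. -/
theorem result {G : Type*} [Group G] [Finite G] (x : G) (hx : x ≠ 1) (P : Sylow 2 G) (hP : (P : Subgroup G) ≤ Subgroup.centralizer ({x} : Set G)) (hreal : IsConj x x⁻¹) : orderOf x = 2 := by
  refine orderOf_eq_prime ?_ hx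
  by_contra h
  refine FGS.not_dvd_index_of_sylow_le P hP (Nat.dvd_of_mul_dvd_mul_right
    (Nat.card_pos (α := Subgroup.centralizer {x})) ?_)
  rw [Subgroup.index_mul_card, ← Inv.card_extCentralizer hreal (by rwa [← pow_two])]
  exact Subgroup.card_subgroup_dvd_card _

end Cfsg.Agent.S4195
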