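import Mathlib
import Cfsg.Statements.S4196
import Cfsg.Agent.S4195
import Cfsg.Agent.FGS.Basic2

set_option autoImplicit false
open Cfsg

namespace Cfsg.Agent.S4196

/-- A finite group G has elementary abelian Sylow 2-subgroups (commutative with every element squaring to the identity) if and only if every 2-element of G has a Sylow 2-subgroup in its centralizer and is conjugate to its inverse. -/
theorem result {G : Type*} [Group G] [Finite G] (P : Sylow 2 G) :
    (IsMulCommutative (P : Subgroup G) ∧ ∀ x ∈ (P : Subgroup G), x ^ 2 = 1) ↔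
      ∀ x : G, (∃ k : ℕ, orderOf x = 2 ^ k) → (∃ Q : Sylow 2 G, (Q : Subgroup G) ≤ Subgroup.centralizer ({x} : Set G)) ∧ IsConj x x⁻¹ := by
  refine ⟨fun h x ⟨k, hk⟩ => ?_, fun h => ?_⟩
  · obtain ⟨Q, hQ⟩ := FGS.exists_sylow_mem hk
    refine ⟨⟨Q, FGS.le_centralizer_of_comm (FGS.isMulCommutative_sylow P Q h.1) hQ⟩, ?_⟩
    obtain ⟨g, rfl⟩ := MulAction.exists_smul_eq G P Q
    have := h.2 _ (FGS.mem_conj_iff.mp hQ)
    rw [← inv_inv g, inv_inv g⁻¹, conj_pow, conj_eq_one_iff, pow_two] at this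
    rw [inv_eq_of_mul_eq_one_right this]
  have h1 : ∀ x ∈ (P : Subgroup G), x ^ 2 = 1 := fun x hx => by
    by_cases e : x = 1
    · simp [e]
    obtain ⟨⟨Q, hQ⟩, hr⟩ := h x (FGS.exists_orderOf_eq_of_mem P.isPGroup' hx)
    rw [← S4195.result x e Q hQ hr, pow_orderOf_eq_one]
  have h2 : ∀ x ∈ (P : Subgroup G), x⁻¹ = x := fun x hx =>
    inv_eq_of_mul_eq_one_right (by rw [← pow_two, h1 x hx])
  exact ⟨FGS.isMulCommutative_iff_forall.mpr fun a ha b hb => by
    rw [← h2 _ (mul_mem ha hb), mul_inv_rev, h2 a ha, h2 b hb], h1⟩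

end Cfsg.Agent.S4196
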