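import Mathlib
import Cfsg.Statements.S4211
import Cfsg.Agent.Block.Quat
import Cfsg.Agent.Inv.Dihedral
import Cfsg.Agent.PGrp.Alperin
import Cfsg.Agent.PGrp.CyclicTwo
import Cfsg.Agent.PLocal.Maschke
import Cfsg.Agent.BG.AmbHall2
import Cfsg.Agent.FGS.Basic2

set_option autoImplicit false
open Cfsg

namespace Cfsg.Agent.S4211

open Subgroup Cfsg.Agent.BG Cfsg.Agent.BG.Amb
open scoped commutatorElement

theorem exists_q8 {G : Type*} [Group G] [Finite G] (hna : ¬ IsMulCommutative G)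
    (hn : ∀ H : Subgroup G, H.Normal) :
    ∃ x y : G, orderOf x = 4 ∧ y * y = x ^ 2 ∧ y * x * y⁻¹ = x⁻¹ ∧ y ∉ zpowers x := by
  obtain ⟨y, ⟨x₀, hx₀⟩, hy⟩ := exists_minimalFor_of_wellFoundedLT (fun y : G => ∃ x, ¬ Commute x y)
    orderOf (by by_contra! h; exact hna ⟨⟨fun a b => h b a⟩⟩)
  obtain ⟨x, hxy, hx⟩ := exists_minimalFor_of_wellFoundedLT (fun x : G => ¬ Commute x y) orderOf
    ⟨x₀, hx₀⟩
  have h1 : ⁅y, x⁆ ∈ zpowers x :=
    mul_mem ((hn _).conj_mem _ (mem_zpowers x) y) (inv_mem (mem_zpowers x))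
  have h2 : ⁅y, x⁆ ∈ zpowers y := by
    simpa [commutatorElement_def, mul_assoc] using
      mul_mem (mem_zpowers y) ((hn _).conj_mem _ (inv_mem (mem_zpowers y)) x)
  have hc1 : ⁅y, x⁆ ≠ 1 := fun e => hxy (commutatorElement_eq_one_iff_commute.mp e).symm
  have cx : Commute x ⁅y, x⁆ := commute_of_mem_zpowers (mem_zpowers x) h1
  have cy : Commute y ⁅y, x⁆ := commute_of_mem_zpowers (mem_zpowers y) h2
  have hlt : ∀ (z : G) (q : ℕ), q.Prime → q ∣ orderOf z → ¬ orderOf z ≤ orderOf (z ^ q) :=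
    fun z q hq hd => by
      rw [orderOf_pow_of_dvd hq.ne_zero hd]
      exact (Nat.div_lt_self (orderOf_pos z) hq.one_lt).not_ge
  have h3 : ∀ q : ℕ, q.Prime → q ∣ orderOf x → q = orderOf ⁅y, x⁆ := fun q hq hd => by
    have := Fact.mk hq
    refine (orderOf_eq_prime ?_ hc1).symm
    rw [← PGrp.commutator_pow_right_of_commute cx, commutatorElement_eq_one_iff_commute]
    by_contra h
    exact hlt x q hq hd (hx (fun h' => h h'.symm) (Nat.le_of_dvd (orderOf_pos _) (orderOf_pow_dvd q)))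
  have h4 : ∀ q : ℕ, q.Prime → q ∣ orderOf y → q = orderOf ⁅y, x⁆ := fun q hq hd => by
    have := Fact.mk hq
    refine (orderOf_eq_prime ?_ hc1).symm
    rw [← PGrp.commutator_pow_left_of_commute cy, commutatorElement_eq_one_iff_commute]
    by_contra h
    exact hlt y q hq hd (hy ⟨x, fun h' => h h'.symm⟩
      (Nat.le_of_dvd (orderOf_pos _) (orderOf_pow_dvd q)))
  obtain ⟨p, hp, hd⟩ := exists_prime_dvd_orderOf (x := y) (by rintro rfl; exact hxy (Commute.one_right x))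
  have hc := (h4 p hp hd).symm
  rw [hc] at h3 h4
  obtain ⟨m, hm⟩ : ∃ m, orderOf x = p ^ m :=
    ⟨_, Nat.eq_prime_pow_of_unique_prime_dvd (orderOf_pos x).ne' (h3 _)⟩
  obtain ⟨n, hn'⟩ : ∃ n, orderOf y = p ^ (n + 1) := by
    have := Nat.eq_prime_pow_of_unique_prime_dvd (orderOf_pos y).ne' (h4 _)
    generalize (orderOf y).primeFactorsList.length = n at this
    rcases n with _ | n
    · exact absurd (hd.trans (dvd_of_eq this)) hp.not_dvd_one
    · exact ⟨n, this⟩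
  have hle : ∀ z, ¬ Commute x z → orderOf y ≤ orderOf z := fun z hz =>
    (le_total _ _).elim id (hy ⟨x, hz⟩)
  obtain ⟨d, rfl⟩ : ∃ d, m = n + 1 + d := Nat.exists_eq_add_of_le
    ((Nat.pow_le_pow_iff_right hp.one_lt).mp (by
      rw [← hm, ← hn']; exact (le_total _ _).elim id (hy ⟨y, fun h => hxy h.symm⟩)))
  have h5 : ∀ (z : G) (k : ℕ), orderOf z = p ^ (k + 1) → ⁅y, x⁆ ∈ zpowers z →
      zpowers (z ^ p ^ k) = zpowers ⁅y, x⁆ := fun z k hz h =>
    eq_of_card_eq_of_cyclic (A := zpowers z) inferInstance (zpowers_le.mpr (pow_mem (mem_zpowers z) _))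
      (zpowers_le.mpr h) (by
        rw [Nat.card_zpowers, Nat.card_zpowers, hc, orderOf_pow_of_dvd (pow_pos hp.pos k).ne'
          (hz ▸ pow_dvd_pow p k.le_succ), hz, pow_succ, Nat.mul_div_cancel_left _ (pow_pos hp.pos k)])
  obtain ⟨t, ht⟩ : y ^ p ^ n ∈ zpowers (x ^ p ^ (n + d)) := by
    rw [h5 x (n + d) (by rw [hm]; ring) h1, ← h5 y n hn' h2]
    exact mem_zpowers _
  have h6 : ⁅y, x ^ (-t * p ^ d : ℤ)⁆ = ⁅y, x⁆ ^ (-t * p ^ d : ℤ) :=
    PGrp.commutator_zpow_right_of_commute cx _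
  have h7 := PGrp.mul_pow_of_commute (x := x ^ (-t * p ^ d : ℤ)) (y := y)
    (h6 ▸ cx.zpow_zpow _ _) (h6 ▸ cy.zpow_right _) (p ^ n)
  rw [← ht, h6, show (x ^ (-t * p ^ d : ℤ)) ^ p ^ n * (x ^ p ^ (n + d)) ^ t = 1 by
    rw [← zpow_natCast, ← zpow_natCast, ← zpow_mul, ← zpow_mul, ← zpow_add]
    convert zpow_zero x
    push_cast
    ring, one_mul, ← zpow_natCast ( _ ^ (_ : ℤ)), ← zpow_mul] at h7
  have h8 : ¬ (p : ℤ) ∣ -t * p ^ d * ((p ^ n).choose 2 : ℕ) := fun h => by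
    rw [← hc, orderOf_dvd_iff_zpow_eq_one, ← hc.symm, ← h7] at h
    have := (hle _ fun h => hxy (by
      simpa using ((Commute.refl x).zpow_right (-t * p ^ d : ℤ)).inv_right.mul_right h)).trans
      (orderOf_le_of_pow_eq_one (pow_pos hp.pos n) h)
    rw [hn'] at this
    exact (Nat.pow_lt_pow_right hp.one_lt n.lt_succ_self).not_ge this
  obtain rfl : d = 0 := by
    by_contra h
    exact h8 (((dvd_pow_self _ h).mul_left _).mul_right _)
  have h9 : p ^ n = 2 := by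
    by_contra h
    refine h8 ((Int.natCast_dvd_natCast.mpr ?_).mul_left _)
    rcases n with _ | n
    · simp
    · exact PGrp.prime_dvd_choose_two_pow hp n.succ_ne_zero h
  obtain ⟨rfl, rfl⟩ := (Nat.Prime.pow_eq_iff Nat.prime_two).mp h9
  have hc2 : ⁅y, x⁆ ^ 2 = 1 := by rw [← hc, pow_orderOf_eq_one]
  have e1 := (PGrp.eq_one_or_eq_of_sq_eq_one hm h1 hc2).resolve_left hc1
  have e2 := (PGrp.eq_one_or_eq_of_sq_eq_one hn' h2 hc2).resolve_left hc1
  refine ⟨x, y, hm, by rw [← pow_two]; exact e2.symm.trans e1, ?_, fun h =>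
    hxy (commute_of_mem_zpowers (mem_zpowers x) h)⟩
  rw [PGrp.conj_eq_commutator_mul, e1, eq_inv_iff_mul_eq_one, ← pow_succ, ← pow_succ]
  exact orderOf_dvd_iff_pow_eq_one.mp (dvd_of_eq hm)

theorem conj_four {G : Type*} [Group G] [Finite G] (hn : ∀ H : Subgroup G, H.Normal) {x : G}
    (hx : orderOf x = 4) (g : G) : g * x * g⁻¹ = x ∨ g * x * g⁻¹ = x⁻¹ := by
  classical
  have h := (hn _).conj_mem _ (mem_zpowers x) g
  have ho := orderOf_conj' g x
  have h4 : x ^ 4 = 1 := hx ▸ pow_orderOf_eq_one x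
  rw [mem_zpowers_iff_mem_range_orderOf, hx, Finset.mem_image] at h
  obtain ⟨k, hk, e⟩ := h
  rw [← e] at ho ⊢
  rw [Finset.mem_range] at hk
  interval_cases k
  · simp [hx] at ho
  · simp
  · rw [orderOf_pow, hx] at ho; simp at ho
  · exact Or.inr (by rw [eq_inv_iff_mul_eq_one, ← pow_succ, h4])

/-- A finite non-abelian group in which every subgroup is normal is the internal direct product of a subgroup isomorphic to the quaternion group of order `8`, an elementary abelian `2`-subgroup and an abelian subgroup of odd order. -/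
theorem result {G : Type*} [Group G] [Finite G] (hna : ¬ IsMulCommutative G) (hn : ∀ H : Subgroup G, H.Normal) : ∃ Q E A : Subgroup G, Nonempty (Q ≃* QuaternionGroup 2) ∧ Cfsg.IsElementaryAbelian 2 E ∧ IsMulCommutative A ∧ Odd (Nat.card A) ∧ E ⊓ A = ⊥ ∧ Q ⊓ (E ⊔ A) = ⊥ ∧ Q ⊔ (E ⊔ A) = ⊤ := by
  obtain ⟨x, y, h1, h2, h3, h4⟩ := exists_q8 hna hn
  obtain ⟨e⟩ := Inv.nonempty_quaternion (n := 2) h1 h2 h3 h4
  obtain ⟨a, b, hQ⟩ := Block.exists_qData two_ne_zero e
  set Q := closure ({x, y} : Set G)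
  have ha : orderOf a = 4 := hQ.ord
  have ha4 : a ^ 4 = 1 := ha ▸ pow_orderOf_eq_one a
  have hz1 := hQ.z_ne_one two_ne_zero
  have hab : ¬ Commute b a := hQ.not_commute_a one_lt_two hQ.b_mem hQ.notMem
  have hb : orderOf b = 4 := orderOf_eq_prime_pow (p := 2) (n := 1) (by
    rw [pow_one, pow_two, hQ.sq]; exact hz1) (by
    rw [show b ^ 2 ^ (1 + 1) = b * b * (b * b) by simp [pow_succ, mul_assoc], hQ.sq, hQ.z_mul_z])
  have hab' : a * b * a⁻¹ = b⁻¹ := (conj_four hn hb a).resolve_left fun h =>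
    hab (mul_inv_eq_iff_eq_mul.mp h).symm
  set C := 𝐂[a] ⊓ 𝐂[b]
  have h5 : ∀ z ∈ C, orderOf z ≠ 4 := fun z hz ho => by
    have c1 : Commute a z := (mem_cent1_iff_commute.mp hz.1).symm
    have e1 : b * (a * z) * b⁻¹ = a⁻¹ * z := by
      rw [← hQ.conj, mul_assoc, mul_assoc, (mem_cent1_iff_commute.mp hz.2).inv_right.eq]
      group
    have hz4 : z ^ 4 = 1 := ho ▸ pow_orderOf_eq_one z
    by_cases h6 : (a * z) ^ 2 = 1
    · have h7 : (a⁻¹ * z) ^ 2 = 1 := by rw [← e1, conj_pow, h6]; group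
      have h8 := orderOf_eq_prime h6 fun e => hab (by
        rw [eq_inv_of_mul_eq_one_left e]; exact (mem_cent1_iff_commute.mp hz.2).symm.inv_right)
      rcases PGrp.eq_one_or_eq_of_sq_eq_one (m := 0) h8
        (e1 ▸ (hn _).conj_mem _ (mem_zpowers (a * z)) b) h7 with e | e
      · exact hab (inv_mul_eq_one.mp e ▸ (mem_cent1_iff_commute.mp hz.2).symm)
      · rw [pow_zero, pow_one] at e
        exact hz1 (by rw [pow_two, ← mul_inv_cancel a, mul_right_cancel e])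
    have h7 := orderOf_eq_prime_pow (p := 2) (n := 1) (x := a * z) (by rwa [pow_one]) (by
      rw [c1.mul_pow]; simp [ha4, hz4])
    rcases conj_four hn h7 b with e2 | e2 <;> rw [e1] at e2
    · exact hz1 (by rw [pow_two, ← mul_inv_cancel a, mul_right_cancel e2])
    · rw [mul_inv_rev, ← c1.inv_inv.eq] at e2
      have := orderOf_dvd_of_pow_eq_one (show z ^ 2 = 1 by
        rw [pow_two, ← mul_inv_cancel z, ← mul_left_cancel e2])
      rw [ho] at this
      omega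
  have hC : IsMulCommutative C := by
    by_contra h
    obtain ⟨z, -, hz, -⟩ := exists_q8 h fun H => by
      simpa [comap_map_eq_self_of_injective C.subtype_injective] using (hn (H.map C.subtype)).comap C.subtype
    exact h5 z z.2 (by rwa [orderOf_coe])
  obtain ⟨V, hV⟩ := exists_hall {2} (solvable_of_comm hC)
  obtain ⟨A, hA⟩ := exists_hall {2}ᶜ (solvable_of_comm hC)
  have hVe : IsElementaryAbelian 2 V := ⟨comm_mono hC (hall_le hV), fun v hv => by
    obtain ⟨k, hk⟩ := FGS.exists_orderOf_eq_of_mem (isPGroup_of_pi (hall_pi hV)) hv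
    by_contra h
    obtain ⟨j, hj⟩ := FGS.exists_pow_orderOf_eq (x := v) (q := 4) (by
      rw [← orderOf_dvd_iff_pow_eq_one, hk] at h
      rw [hk]
      rcases k with _ | _ | k
      · simp at h
      · simp at h
      · exact pow_dvd_pow 2 (show 2 ≤ _ by omega))
    exact h5 _ (pow_mem (hall_le hV hv) j) hj⟩
  have hzV : a ^ 2 ∈ V := mem_normal_hall hV le_normalizer_of_normal (mem_inf.mpr
    ⟨mem_cent1_iff_commute.mpr (hQ.commute_z hQ.a_mem).symm,
      mem_cent1_iff_commute.mpr (hQ.commute_z hQ.b_mem).symm⟩) (by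
    rw [hQ.z_order two_ne_zero]; exact (piNat_prime Nat.prime_two).mpr rfl)
  obtain ⟨E, hEV, hE1, hE2⟩ := PLocal.exists_complement_of_elementary hVe (zpowers_le.mpr hzV)
  have hVA := hall_inf_hall hV hA
  refine ⟨Q, E, A, ⟨e⟩, Core.IsElementaryAbelian.of_le hVe hEV, comm_mono hC (hall_le hA),
    Nat.not_even_iff_odd.mp fun h => (pi_compl_singleton Nat.prime_two).mp (hall_pi hA) h.two_dvd,
    eq_bot_iff.mpr ((inf_le_inf_right _ hEV).trans hVA.le), (eq_bot_iff_forall _).mpr fun g hg => ?_,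
    eq_top_iff.mpr fun g _ => ?_⟩
  · have h6 : g ∈ C := sup_le (hEV.trans (hall_le hV)) (hall_le hA) hg.2
    refine (hQ.eq_of_central one_lt_two hg.1 (mem_cent1_iff_commute.mp h6.1)
      (mem_cent1_iff_commute.mp h6.2)).resolve_right ?_
    rintro rfl
    have h7 : a ^ 2 ∈ (E ⊔ A) ⊓ V := mem_inf.mpr ⟨hg.2, hzV⟩
    rw [sup_inf_assoc_of_le hEV le_normalizer_of_normal, inf_comm, hVA, sup_bot_eq] at h7
    exact hz1 ((eq_bot_iff_forall _).mp hE1 _ (mem_inf.mpr ⟨mem_zpowers _, h7⟩))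
  have h6 : C ≤ Q ⊔ (E ⊔ A) := by
    rw [← hall_sup_hall hV hA, ← hE2, sup_assoc]
    exact sup_le_sup_right (zpowers_le.mpr hQ.z_mem) _
  have key : ∀ q ∈ Q, q * g * a * (q * g)⁻¹ = a → q * g * b * (q * g)⁻¹ = b → g ∈ Q ⊔ (E ⊔ A) :=
    fun q hq e1 e2 => by
      simpa using mul_mem (mem_sup_left (inv_mem hq)) (h6 (mem_inf.mpr
        ⟨mem_cent1.mpr (mul_inv_eq_iff_eq_mul.mp e1), mem_cent1.mpr (mul_inv_eq_iff_eq_mul.mp e2)⟩))
  have e0 : ∀ q w, q * g * w * (q * g)⁻¹ = q * (g * w * g⁻¹) * q⁻¹ := fun q w => by group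
  rcases conj_four hn ha g with e1 | e1 <;> rcases conj_four hn hb g with e2 | e2
  · exact key 1 (one_mem _) (by simpa using e1) (by simpa using e2)
  · exact key a hQ.a_mem (by rw [e0, e1]; group) (by rw [e0, e2, ← conj_inv, hab', inv_inv])
  · exact key b hQ.b_mem (by rw [e0, e1, ← conj_inv, hQ.conj, inv_inv]) (by rw [e0, e2]; group)
  · refine key (a * b) (mul_mem hQ.a_mem hQ.b_mem) ?_ ?_
    · rw [e0, e1, show a * b * a⁻¹ * (a * b)⁻¹ = a * (b * a * b⁻¹)⁻¹ * a⁻¹ by group, hQ.conj]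
      group
    · rw [e0, e2, show a * b * b⁻¹ * (a * b)⁻¹ = (a * b * a⁻¹)⁻¹ by group, hab', inv_inv]

end Cfsg.Agent.S4211
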