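import Mathlib
import Cfsg.Statements.S4230

set_option autoImplicit false
open Cfsg

namespace Cfsg.Agent.S4230

/-- Let p be an odd prime, q a natural number not divisible by p, and e the multiplicative order of q modulo p. For a natural number f, p divides the value at q of the f-th cyclotomic polynomial if and only if f = e·p^j for some j ≥ 0. -/
theorem result (p q f : ℕ) (hp : p.Prime) (hp2 : p ≠ 2) (hpq : ¬ p ∣ q) :
    ((p : ℤ) ∣ (Polynomial.cyclotomic f ℤ).eval (q : ℤ)) ↔ ∃ j : ℕ, f = orderOf (q : ZMod p) * p ^ j := by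
  have := Fact.mk hp
  have h0 : (q : ZMod p) ≠ 0 := mt (ZMod.natCast_eq_zero_iff q p).mp hpq
  have h1 := ZMod.orderOf_dvd_card_sub_one h0
  have h2 : 0 < p - 1 := by have := hp.one_lt; omega
  have h3 : ¬ p ∣ orderOf (q : ZMod p) := fun h => by
    have := Nat.le_of_dvd h2 (h.trans h1)
    omega
  rcases f.eq_zero_or_pos with rfl | hf
  · simp only [Polynomial.cyclotomic_zero, Polynomial.eval_one]
    refine iff_of_false (Nat.prime_iff_prime_int.mp hp).not_dvd_one ?_
    rintro ⟨j, hj⟩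
    exact (mul_pos (Nat.pos_of_dvd_of_pos h1 h2) (pow_pos hp.pos j)).ne hj
  obtain ⟨k, m, hm, rfl⟩ := Nat.exists_eq_pow_mul_and_not_dvd hf.ne' p hp.ne_one
  have : NeZero (m : ZMod p) := ⟨mt (ZMod.natCast_eq_zero_iff m p).mp hm⟩
  rw [← ZMod.intCast_zmod_eq_zero_iff_dvd, ← eq_intCast (Int.castRingHom (ZMod p)),
    ← Polynomial.eval₂_at_apply, ← Polynomial.eval_map, Polynomial.map_cyclotomic, map_natCast,
    ← Polynomial.IsRoot.def, Polynomial.isRoot_cyclotomic_prime_pow_mul_iff_of_charP,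
    IsPrimitiveRoot.iff_orderOf]
  refine ⟨fun h => ⟨k, by rw [h, mul_comm]⟩, fun ⟨j, hj⟩ => Nat.dvd_antisymm ?_ ?_⟩
  · exact ((hp.coprime_iff_not_dvd.mpr h3).pow_left k).symm.dvd_of_dvd_mul_left ⟨_, hj⟩
  · exact ((hp.coprime_iff_not_dvd.mpr hm).pow_left j).symm.dvd_of_dvd_mul_right
      (hj ▸ dvd_mul_left _ _)

end Cfsg.Agent.S4230
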