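import Mathlib
import Cfsg.Statements.S4234
import Cfsg.Agent.Max.L2g

set_option autoImplicit false
open Cfsg

namespace Cfsg.Agent.S4234

open scoped Pointwise
open Cfsg.Agent.Max.L2 Cfsg.Agent.Classical.PSL2Basic Cfsg.Agent.Classical.P1Ident
  Cfsg.Agent.Classical.Congr Cfsg.Agent.Classical.P1
open Cfsg.Agent.Classical.P1Inst Cfsg.Agent.Classical.DicksonSL Matrix
open scoped MatrixGroups

theorem ex_max {F : Type*} [Field F] [Finite F] (hq : Nat.card F = 13) {X : Subgroup PGL(2, F)}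
    (hX : X ≤ LL F) : ∃ M, M ⋖ LL F ∧ M ≤ Subgroup.normalizer (X : Set PGL(2, F)) := by
  haveI : Fact (Nat.Prime 13) := ⟨by norm_num⟩
  haveI := charP_of_card (F := F) (p := 13) (k := 1) hq
  have h2 : (2 : F) ≠ 0 := odd_card_iff.1 (by rw [hq]; decide)
  haveI := NeZero.mk h2
  have hd : dd F = 2 := gcd_eq_two h2
  have mD : ∀ {T D : Subgroup PGL(2, F)} {k : ℕ}, Tor T D k → D ⊓ LL F ⋖ LL F := fun hT =>
    max_D hT (Or.inl (by rw [hd]; rcases hT.k_eq with e | e <;> omega))
  have mA : A0 F ⋖ LL F := max_A4 (by rw [hq]; norm_num) (by omega)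
    (by rw [isSquare_two_iff', hq]; omega) (by rw [hq]; norm_num)
  have cT : ∀ {T D : Subgroup PGL(2, F)} {k : ℕ}, Tor T D k → X ≤ T →
      ∃ M, M ⋖ LL F ∧ M ≤ Subgroup.normalizer (X : Set PGL(2, F)) := fun hT h =>
    ⟨_, mD hT, fun s hs => Subgroup.mem_normalizer_fintype fun x hx => by
      rcases hT.conj_eq hs.1 (h hx) with e | e <;> rw [e]
      exacts [hx, inv_mem hx]⟩
  have cC : IsCyclic X → (∀ a ∈ X, a ^ 13 = 1 → a = 1) →
      ∃ M, M ⋖ LL F ∧ M ≤ Subgroup.normalizer (X : Set PGL(2, F)) := fun h h1 => by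
    obtain ⟨a, rfl⟩ := (Subgroup.isCyclic_iff_exists_zpowers_eq_top X).1 h
    by_cases ha : a ^ 13 = 1
    · obtain ⟨T, D, hT⟩ := exists_tor_plus F
      exact cT hT (by rw [h1 a (Subgroup.mem_zpowers a) ha]; simp)
    · obtain ⟨T, D, k, hT, h3⟩ := exists_tor ha
      exact cT hT (Subgroup.zpowers_le.2 h3)
  have cA : ∀ c : PGL(2, F), (∀ g ∈ A0 F, MulAut.conj g • MulAut.conj c • X = MulAut.conj c • X) →
      ∃ M, M ⋖ LL F ∧ M ≤ Subgroup.normalizer (X : Set PGL(2, F)) := fun c h =>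
    ⟨_, covBy_conj c⁻¹ mA, fun g hg => Subgroup.mem_normalizer_fintype fun x hx => by
      have h1 := h _ (mem_conj_iff.1 hg)
      have h3 : c * x * c⁻¹ ∈ MulAut.conj c • X := mem_conj_iff.2 (by simpa [mul_assoc] using hx)
      have h4 := Subgroup.smul_mem_pointwise_smul _ (MulAut.conj (c⁻¹⁻¹ * g * c⁻¹)) _ h3
      rw [h1, mem_conj_iff] at h4
      simpa [mul_assoc] using h4⟩
  have hc := Subgroup.card_dvd_of_le hX
  rw [card_LL_of hq] at hc
  rcases dickson2 X with ⟨x, h⟩ | ⟨T, D, k, hT, h⟩ | ⟨-, h | h | h⟩ | ⟨K, c, -, h⟩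
  · obtain ⟨μ, hμ⟩ := exists_mult (p := 13) x
    by_cases h1 : ∀ a ∈ X, a ^ 13 = 1 → a = 1
    · refine cC (isCyclic_of_injective_ringHom ((Units.coeHom F).comp
        (μ.comp (Subgroup.inclusion h))) ?_) h1
      rw [injective_iff_map_eq_one]
      exact fun a ha => Subtype.ext (h1 a a.2 ((hμ _).1 (Units.ext ha)))
    push Not at h1
    obtain ⟨a, ha, h3, h4⟩ := h1
    obtain ⟨c, rfl⟩ := exists_smul_inf' x
    have h5 : Subgroup.zpowers a = UU c := Subgroup.eq_of_le_of_card_ge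
      (Subgroup.zpowers_le.2 (mem_UU_iff.2 ⟨h ha, h3⟩))
      (by rw [card_UU, Nat.card_zpowers, orderOf_eq_prime h3 h4, hq])
    refine ⟨_, max_stab (c • inf), fun g hg => Subgroup.mem_normalizer_fintype fun y hy => ?_⟩
    let z : MulAction.stabilizer PGL(2, F) (c • (inf : PL F)) :=
      ⟨g, hg.1⟩ * ⟨y, h hy⟩ * ⟨g, hg.1⟩⁻¹ * ⟨y, h hy⟩⁻¹
    have h6 : (z : PGL(2, F)) ∈ X := (h5 ▸ Subgroup.zpowers_le.2 ha)
      (mem_UU_iff.2 ⟨z.2, (hμ z).1 (by simp only [z, map_mul, map_inv, mul_inv_cancel_comm, mul_inv_cancel])⟩)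
    simpa [z] using mul_mem h6 hy
  · by_cases h1 : X ≤ T
    · exact cT hT h1
    obtain ⟨e, h3⟩ := hT.equiv_dihedral h h1
    have h4 := Subgroup.card_dvd_of_le (inf_le_inf hX le_rfl : X ⊓ T ≤ LL F ⊓ T)
    rw [inf_comm (LL F), hT.card_T_inf', hd] at h4
    have h5 : Nat.card ↥(X ⊓ T) = 1 ∨ Nat.card ↥(X ⊓ T) = 2 ∨ 2 * Nat.card ↥(X ⊓ T) = k / 2 ∨
        Nat.card ↥(X ⊓ T) = k / 2 := by
      generalize Nat.card ↥(X ⊓ T) = n at h4
      rcases hT.k_eq with rfl | rfl <;> rw [hq] at h4 ⊢ <;>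
        have := Nat.le_of_dvd (by norm_num) h4 <;> interval_cases n <;> omega
    have h6 := Subgroup.index_mul_card (X.subgroupOf (D ⊓ LL F))
    rw [Nat.card_congr (Subgroup.subgroupOfEquivOfLe (le_inf h hX)).toEquiv, hT.DL.2, hd, h3] at h6
    have h7 : 0 < Nat.card ↥(X ⊓ T) := Nat.card_pos
    rcases h5 with h5 | h5 | h5 | h5
    · rw [h5] at h3
      haveI : Fact (Nat.Prime 2) := ⟨Nat.prime_two⟩
      refine cC (isCyclic_of_prime_card h3) fun a ha h8 => orderOf_eq_one_iff.1 ?_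
      exact Nat.eq_one_of_dvd_coprimes (show Nat.Coprime 2 13 by norm_num)
        (by simpa [h3] using Subgroup.orderOf_dvd_natCard _ ha) (orderOf_dvd_of_pow_eq_one h8)
    · rw [h5] at e
      obtain ⟨e⟩ := e
      obtain ⟨c, hc⟩ := conj_V (V := X) ⟨by rw [h3, h5], by
        rw [Monoid.exponent_eq_of_mulEquiv e, IsKleinFour.exponent_two]⟩ hX
      exact cA c fun g hg => by rw [hc, conj_V0_iff.2 (A0_le_S0 hg)]
    · refine ⟨_, mD hT, (Subgroup.normal_subgroupOf_iff_le_normalizer (le_inf h hX)).1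
        (Subgroup.normal_of_index_eq_two ?_)⟩
      rw [← h5] at h6
      exact Nat.eq_of_mul_eq_mul_right (by omega) h6
    · refine ⟨_, mD hT, (Subgroup.normal_subgroupOf_iff_le_normalizer (le_inf h hX)).1
        (Subgroup.normal_of_index_eq_one ?_)⟩
      rw [← h5] at h6
      exact Nat.eq_of_mul_eq_mul_right (by omega) (h6.trans (one_mul _).symm)
  · obtain ⟨c, hc⟩ := conj_A4 h
    exact cA c fun g hg => by rw [hc, conj_eq_self hg]
  · rw [card_of_equiv h card_S4] at hc; norm_num at hc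
  · rw [card_of_equiv h card_A5] at hc; norm_num at hc
  · obtain rfl := eq_top_of_prime (by rw [hq]; norm_num) K
    rw [le_antisymm hX (LL_le_of_top h), Subgroup.normalizer_eq_top]
    exact ⟨_, mA, le_top⟩

theorem coatom {F : Type*} [Field F] [Finite F] (hq : Nat.card F = 13) {K : Type*} [Group K]
    [Finite K] (f : K →* PGL(2, F)) (hr : f.range = LL F) (hk : ∀ z, f z = 1 → z = 1 ∨
      (z * z = 1 ∧ (∀ w, Commute w z) ∧ ∀ w, w * w = 1 → w = 1 ∨ w = z))
    {A : Subgroup K} (hA : ¬ A.Normal) : IsCoatom (Subgroup.normalizer (A : Set K)) := by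
  obtain ⟨M, h1, h2⟩ := ex_max hq (X := A.map f) (hr ▸ Subgroup.map_le_range f A)
  rw [← hr] at h1
  have h3 := Subgroup.isCoatom_comap_of_surjective f.rangeRestrict_surjective
    ((isCoatom_subgroupOf_iff h1.le).2 h1)
  have h4 : (M.subgroupOf f.range).comap f.rangeRestrict ≤ Subgroup.normalizer (A : Set K) := by
    refine fun g hg => Subgroup.mem_normalizer_fintype fun a ha => ?_
    obtain ⟨b, hb, e⟩ := (Subgroup.mem_normalizer_iff.1 (h2 hg) (f a)).1 ⟨a, ha, rfl⟩
    suffices b⁻¹ * (g * a * g⁻¹) ∈ A by simpa using mul_mem hb this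
    rcases hk (b⁻¹ * (g * a * g⁻¹)) (by simp [e, mul_assoc]) with h | ⟨h5, h6, h7⟩
    · rw [h]; exact one_mem _
    rcases (Nat.card A).even_or_odd with h8 | ⟨n, h8⟩
    · obtain ⟨w, hw⟩ := exists_prime_orderOf_dvd_card' (G := A) 2 h8.two_dvd
      rcases h7 w (by rw [← sq, ← Subgroup.coe_pow, orderOf_dvd_iff_pow_eq_one.1 hw.dvd]; rfl)
        with e | e
      · rw [show w = 1 from Subtype.ext e, orderOf_one] at hw; omega
      · rw [← e]; exact w.2
    · have h9 : ∀ x ∈ A, x ^ (2 * n + 1) = 1 := fun x hx => by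
        rw [← h8, ← orderOf_dvd_iff_pow_eq_one]; exact Subgroup.orderOf_dvd_natCard _ hx
      have h10 : (b * (b⁻¹ * (g * a * g⁻¹))) ^ (2 * n + 1) = 1 := by
        rw [mul_inv_cancel_left, conj_pow, h9 a ha]; simp
      rw [(h6 b).mul_pow, h9 b hb, one_mul, pow_succ, pow_mul, sq, h5, one_pow, one_mul] at h10
      rw [h10]; exact one_mem _
  rcases h3.le_iff.1 h4 with e | e
  · exact absurd (Subgroup.normalizer_eq_top_iff.1 e) hA
  · exact e ▸ h3

/-- Let K be isomorphic to PSL(2, 13) or to SL(2, 13) and let S be a finite abelian group of order coprime to the order of K. Then in the direct product K × S every subgroup that is not normal has a normalizer that is a maximal subgroup. -/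
theorem result {K S : Type*} [Group K] [CommGroup S] [Finite K] [Finite S]
    (hK : Nonempty (K ≃* Matrix.ProjectiveSpecialLinearGroup (Fin 2) (ZMod 13)) ∨
      Nonempty (K ≃* Matrix.SpecialLinearGroup (Fin 2) (ZMod 13)))
    (hKS : (Nat.card K).Coprime (Nat.card S)) (H : Subgroup (K × S)) (hH : ¬ H.Normal) :
    IsCoatom (Subgroup.normalizer (H : Set (K × S))) := by
  haveI : Fact (Nat.Prime 13) := ⟨by norm_num⟩
  have h1 : ∀ a s, (a, s) ∈ H → (a, 1) ∈ H := fun a s h => by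
    obtain ⟨n, h2, h3⟩ := Nat.chineseRemainder hKS 1 0
    have := pow_mem h n
    rwa [Prod.pow_mk, pow_eq_pow_iff_modEq.2 (h2.of_dvd (orderOf_dvd_natCard a)),
      pow_eq_pow_iff_modEq.2 (h3.of_dvd (orderOf_dvd_natCard s)), pow_one, pow_zero] at this
  have h2 : Subgroup.normalizer (H : Set (K × S)) = (Subgroup.normalizer
      (H.comap (MonoidHom.inl K S) : Set K)).comap (MonoidHom.fst K S) := by
    ext ⟨g, t⟩
    constructor
    · intro h
      refine Subgroup.mem_normalizer_fintype fun a ha => ?_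
      simpa using (Subgroup.mem_normalizer_iff.1 h (a, 1)).1 ha
    · intro h
      refine Subgroup.mem_normalizer_fintype fun ⟨a, s⟩ ha => ?_
      have h3 : (g * a * g⁻¹, 1) ∈ H := (Subgroup.mem_normalizer_iff.1 h a).1 (h1 a s ha)
      simpa using mul_mem (mul_mem h3 (inv_mem (h1 a s ha))) ha
  rw [h2]
  refine Subgroup.isCoatom_comap_of_surjective Prod.fst_surjective ?_
  have h3 : ¬ (H.comap (MonoidHom.inl K S)).Normal := fun h => hH (by
    rw [← Subgroup.normalizer_eq_top_iff, h2, Subgroup.normalizer_eq_top, Subgroup.comap_top])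
  rcases hK with ⟨⟨e⟩⟩ | ⟨⟨e⟩⟩
  · refine coatom (Nat.card_zmod 13) (toP.comp e.toMonoidHom) ?_ (fun z hz => Or.inl ?_) h3
    · rw [MonoidHom.range_comp, MonoidHom.range_eq_top.2 e.surjective, ← MonoidHom.range_eq_map]
    · exact e.injective (toP_injective (by simpa using hz))
  · refine coatom (Nat.card_zmod 13) (sP.comp e.toMonoidHom) ?_ (fun z hz => ?_) h3
    · rw [MonoidHom.range_comp, MonoidHom.range_eq_top.2 e.surjective, ← MonoidHom.range_eq_map,
        range_sP]
    · refine (Cfsg.Agent.Classical.SL2Basic.toPGL_eq_one_iff.1 hz).imp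
        (fun h => e.injective (by simpa using h)) fun (h : e z = -1) => ⟨e.injective (by simp [h]),
          fun w => e.injective (by simp [h]), fun w hw => ?_⟩
      exact (Cfsg.Agent.Classical.SL2Basic.eq_of_mul_self_eq_one (K := ZMod 13)
        (odd_card_iff.1 (by rw [Nat.card_zmod]; decide))
        (g := e w) (by rw [← map_mul, hw, map_one])).imp (fun h => e.injective (by simpa using h))
        fun h' => e.injective (h'.trans h.symm)

end Cfsg.Agent.S4234
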