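import Mathlib
import Cfsg.Statements.S4238
import Cfsg.Agent.FGS.MinNPC
import Cfsg.Agent.Transfer.ThompsonFunctor
import Cfsg.Agent.Core.Cores

set_option autoImplicit false
open Cfsg

namespace Cfsg.Agent.S4238

universe u

open Subgroup Cfsg.Agent.Transfer

theorem aux (p : ℕ) [hp : Fact p.Prime] (G : Type u) [Group G] [Finite G] :
    (∀ (X : Type u) [Group X], IsSectionOf G X → Cfsg.pPrimeCore p X = ⊥ →
      ∃ k : X, orderOf k = Monoid.exponent X) → Cfsg.HasNormalPComplement p G := by
  refine Core.induction_on_card (P := fun G _ _ => (∀ (X : Type u) [Group X], IsSectionOf G X →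
    Cfsg.pPrimeCore p X = ⊥ → ∃ k : X, orderOf k = Monoid.exponent X) → Cfsg.HasNormalPComplement p G)
    (fun G _ _ ih h => ?_) G
  by_contra h1
  have hq : ∀ (N : Subgroup G) [N.Normal], N ≠ ⊥ → Cfsg.HasNormalPComplement p (G ⧸ N) := fun N _ hN =>
    ih _ (Core.card_quotient_lt N hN) fun X _ hX => h X (((isSectionOf_self G).quotient N).trans hX)
  obtain ⟨q, Q, g, hm⟩ := FGS.exists_minNPC h1 fun H hH =>
    ih H (Core.card_lt_of_ne_top H hH) fun X _ hX => h X (((isSectionOf_self G).subgroup H).trans hX)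
  have hO : Cfsg.pPrimeCore p G = ⊥ := by_contra fun hO => h1 (hasNormalPComplement_of_quotient _
    (Core.not_dvd_card_pPrimeCore hp.out) (hq _ hO))
  have hZ : center G = ⊥ := by_contra fun hZ => h1 (hasNormalPComplement_of_ker_le_center
    (QuotientGroup.mk' (center G)) (QuotientGroup.ker_mk' _).le (hq _ hZ))
  obtain ⟨k, hk⟩ := h G (isSectionOf_self G) hO
  obtain ⟨a, b, ha, hb, hab, hcomm, ⟨i, hi⟩, hbp⟩ := FGS.exists_pPart p k
  haveI := hm.normal
  obtain ⟨n, hn⟩ := IsPGroup.iff_card.mp hm.pgroup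
  have hnorm : ∀ L : Subgroup G, L ≤ normalizer (Q : Set G) := fun L => le_top.trans (normalizer_eq_top Q).ge
  have hord : orderOf k = p ^ i * orderOf b := by
    rw [hab, hcomm.orderOf_mul_eq_mul_orderOf_of_coprime (by rw [hi]; exact Nat.Coprime.pow_left _ hbp.symm), hi]
  have h2 : orderOf g ∣ orderOf b := (Nat.Coprime.pow_right i hm.coprime).dvd_of_dvd_mul_left (by
    rw [← hord, hk]; exact Monoid.order_dvd_exponent g)
  have h3 : Q ⊔ zpowers b = ⊤ := by
    have k1 := Core.card_sup_dvd (hnorm (zpowers g))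
    have k2 := Core.card_sup_of_disjoint (hnorm (zpowers b)) (Core.disjoint_of_coprime (by
      rw [hn, Nat.card_zpowers]; exact Nat.Coprime.pow_left _ hbp.symm))
    rw [hm.sup, Nat.card_zpowers] at k1
    refine Core.eq_of_le_of_card_le le_top ?_
    rw [k2, Nat.card_zpowers]
    exact Nat.le_of_dvd (Nat.mul_pos Nat.card_pos (orderOf_pos _)) (k1.trans (Nat.mul_dvd_mul_left _ h2))
  have haQ : a ∈ Q := by
    refine Core.le_of_coprime_index (K := zpowers a) ?_ (mem_zpowers a)
    rw [Nat.card_zpowers, hi]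
    refine Nat.Coprime.pow_left _ (Nat.Coprime.coprime_dvd_right ?_ hbp.symm)
    rw [← relIndex_top_right, ← h3, Core.relIndex_sup_of_le_normalizer (hnorm _), ← Nat.card_zpowers]
    exact Core.relIndex_dvd_card' _ _
  have hQc : Q ≤ centralizer (Q : Set G) :=
    commutator_eq_bot_iff_le_centralizer.mp (eq_bot_iff.mpr (hm.commutator_le_center.trans hZ.le))
  have ha1 : a = 1 := by
    rw [← mem_bot, ← hZ]
    exact FGS.mem_center_of_sup h3 (fun x hx => mem_centralizer_singleton_iff.mpr (hQc haQ x hx))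
      (zpowers_le.mpr (mem_centralizer_singleton_iff.mpr hcomm.symm))
  obtain ⟨⟨x, hx⟩, hx1⟩ := ne_bot_iff_exists_ne_one.mp hm.ne_bot
  have h4 : orderOf x ∣ orderOf b := by
    rw [← one_mul b, ← ha1, ← hab, hk]; exact Monoid.order_dvd_exponent x
  refine hx1 (Subtype.ext (orderOf_eq_one_iff.mp (Nat.eq_one_of_dvd_coprimes
    (Nat.Coprime.pow_right n hbp) h4 ?_)))
  rw [← hn]; exact Q.orderOf_dvd_natCard hx

/-- Let G be a finite group and p a prime. Then G has a normal p-complement if and only if every section K = H/N of G (N a normal subgroup of a subgroup H) whose largest normal subgroup of order prime to p is trivial contains an element whose order equals the exponent of K. -/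
theorem result {G : Type*} [Group G] [Finite G] (p : ℕ) [Fact p.Prime] :
    Cfsg.HasNormalPComplement p G ↔
      ∀ (H : Subgroup G) (N : Subgroup H) [N.Normal], Cfsg.pPrimeCore p (H ⧸ N) = ⊥ →
        ∃ k : H ⧸ N, orderOf k = Monoid.exponent (H ⧸ N) := by
  constructor
  · intro h H N _ hO
    obtain ⟨M, _, h1, h2⟩ := hasNormalPComplement_iff_exists_normal.mp
      (hasNormalPComplement_quotient (hasNormalPComplement_subgroup h H) N)
    have h3 : M = ⊥ := eq_bot_iff.mpr (hO ▸ Core.le_pPrimeCore ‹_›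
      ((Nat.Prime.coprime_iff_not_dvd Fact.out).mpr h1).symm)
    subst h3
    obtain ⟨n, hn⟩ := IsPGroup.iff_card.mp (h2.of_equiv QuotientGroup.quotientBot)
    obtain ⟨j, -, hj⟩ := (Nat.dvd_prime_pow Fact.out).mp (hn ▸ Group.exponent_dvd_nat_card (G := H ⧸ N))
    obtain ⟨k, hk⟩ := Nat.Prime.exists_orderOf_eq_pow_factorization_exponent (H ⧸ N) (p := p) Fact.out
    exact ⟨k, by rw [hk, hj, Nat.Prime.factorization_pow Fact.out, Finsupp.single_eq_same]⟩
  · intro h
    refine aux p G fun X _ ⟨K, f, hf⟩ hX => ?_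
    let e := QuotientGroup.quotientKerEquivOfSurjective f hf
    obtain ⟨k, hk⟩ := h K f.ker (by
      have := Core.map_pPrimeCore_equiv p e
      rwa [hX, Subgroup.map_eq_bot_iff_of_injective (f := e.toMonoidHom) _ e.injective] at this)
    exact ⟨e k, by rw [MulEquiv.orderOf_eq, hk, Monoid.exponent_eq_of_mulEquiv e]⟩

end Cfsg.Agent.S4238
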