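import Mathlib
import Cfsg.Statements.S4240
import Cfsg.Agent.FGS.NilMax
import Cfsg.Agent.FGS.Semi
import Cfsg.Agent.FGS.FT

set_option autoImplicit false
open Cfsg

namespace Cfsg.Agent.S4240

open Subgroup SemidirectProduct

theorem minimal {G : Type*} [Group G] [Finite G] {K A : Subgroup G} [K.Normal] (hKA : K ⊔ A = ⊤)
    (hcop : (Nat.card A).Coprime (Nat.card K))
    (h : ∀ H, H < K → A ≤ normalizer (H : Set G) → Group.IsNilpotent H)
    (hmin : ∀ N : Subgroup G, N.Normal → N ≤ K → N = ⊥ ∨ N = K) : ∃ r, r.Prime ∧ IsPGroup r K := by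
  by_cases h2 : IsPGroup 2 K
  · exact ⟨2, Nat.prime_two, h2⟩
  rw [FGS.isPGroup_iff_forall_prime] at h2
  push Not at h2
  obtain ⟨p, hp, hd, hp2⟩ := h2
  have := Fact.mk hp
  refine ⟨p, hp, ?_⟩
  obtain ⟨Q, hQ, hAQ⟩ := Core.exists_invariant_isSylowOf A K le_normalizer_of_normal hcop
    (FGS.solvable_or_of_coprime hcop) p
  have h3 : HasNormalPComplement p K := by
    refine FGS.hasNormalPComplement_of_normalizers' hp2 hQ fun X hX hXQ hn => ?_
    rcases (inf_le_left : K ⊓ normalizer (X : Set G) ≤ K).eq_or_lt with e | e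
    · have hXn : X.Normal :=
        Core.normal_of_le_normalizer (hKA ▸ sup_le (e ▸ inf_le_right) (hAQ.trans hn))
      refine Transfer.hasNormalPComplement_of_isPGroup (IsPGroup.to_le ?_ inf_le_left)
      rw [← (hmin X hXn (hXQ.trans hQ.le)).resolve_left hX]
      exact hQ.isPGroup.to_le hXQ
    · have := h _ e (Core.le_normalizer_inf le_normalizer_of_normal
        ((hAQ.trans hn).trans le_normalizer))
      exact Transfer.hasNormalPComplement_of_isNilpotent
  rcases hmin ((pResidual p K).map K.subtype) inferInstance (map_subtype_le _) with h4 | h4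
  · rw [Subgroup.map_eq_bot_iff_of_injective _ K.subtype_injective] at h4
    exact Transfer.isPGroup_of_pResidual_eq_bot h4
  · rw [← h4, Core.card_map_subtype] at hd
    exact absurd hd (Transfer.hasNormalPComplement_iff_not_dvd.mp h3)

theorem internal {G : Type*} [Group G] [Finite G] {K A : Subgroup G} [K.Normal] (hKA : K ⊔ A = ⊤)
    (hcop : (Nat.card A).Coprime (Nat.card K))
    (h : ∀ H, H < K → A ≤ normalizer (H : Set G) → Group.IsNilpotent H)
    (hK : ¬ Group.IsNilpotent K) : ∃ (p r : ℕ) (P R : Subgroup G), p.Prime ∧ r.Prime ∧ p ≠ r ∧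
      Core.IsSylowOf p P K ∧ P.Normal ∧ P ≠ ⊥ ∧ IsPGroup r R ∧ P ⊔ R = K := by
  have hK1 : ⊥ < K := bot_lt_iff_ne_bot.mpr (by rintro rfl; exact hK inferInstance)
  obtain ⟨N, -, ⟨hNn, hNK⟩, hmax⟩ := exists_maximal_ge_of_wellFoundedGT
    (fun N : Subgroup G => N.Normal ∧ N < K) ⊥ ⟨inferInstance, hK1⟩
  have hNnil := h N hNK le_normalizer_of_normal
  have hsu := QuotientGroup.mk'_surjective N
  set f := QuotientGroup.mk' N
  have hk : f.ker = N := QuotientGroup.ker_mk' N
  have := Normal.map ‹K.Normal› f hsu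
  have hcm : (K.map f).comap f = K := comap_map_eq_self (hk.le.trans hNK.le)
  obtain ⟨r, hr, hKr⟩ := minimal (K := K.map f) (A := A.map f)
    (by rw [← Subgroup.map_sup, hKA, map_top_of_surjective f hsu])
    ((hcop.coprime_dvd_left (card_map_dvd _ _)).coprime_dvd_right (card_map_dvd _ _))
    (fun H h1 h2 => by
      rw [← map_comap_eq_self_of_surjective hsu H]
      refine Core.nilpotent_map (h _ (hcm ▸ (comap_lt_comap_of_surjective hsu).mpr h1) fun a ha =>
        mem_normalizer_fintype fun x hx => ?_) f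
      simpa using PGrp.conj_mem_of_mem_normalizer (h2 ⟨a, ha, rfl⟩) hx)
    (fun M hM h1 => by
      rw [or_iff_not_imp_right]
      intro h2
      rw [← map_comap_eq_self_of_surjective hsu M, Subgroup.map_eq_bot_iff, hk]
      exact hmax ⟨hM.comap f, hcm ▸ (comap_lt_comap_of_surjective hsu).mpr (lt_of_le_of_ne h1 h2)⟩
        (hk.ge.trans (ker_le_comap f M)))
  have := Fact.mk hr
  obtain ⟨R, hR, hAR⟩ := Core.exists_invariant_isSylowOf A K le_normalizer_of_normal hcop
    (FGS.solvable_or_of_coprime hcop) r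
  have hsyl : ∀ p : ℕ, p.Prime → p ≠ r → ∃ P, Core.IsSylowOf p P K ∧ P.Normal := by
    intro p hp hpr
    have := Fact.mk hp
    obtain ⟨P, hP⟩ := Core.exists_isSylowOf p N
    refine ⟨P, hP.trans hNK.le fun hd => hpr ?_, Core.normal_of_le_normalizer
      (le_trans le_normalizer_of_normal (FGS.normalizer_le_normalizer_of_isSylowOf_nilpotent hNnil hP))⟩
    rw [← hk, relIndex_ker] at hd
    exact FGS.isPGroup_iff_forall_prime.mp hKr p hp hd
  by_contra hne
  refine hK (Core.nilpotent_of_exists_sylow_normal fun q hq _ => ?_)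
  have := Fact.mk hq
  by_cases hqr : q = r
  · subst hqr
    refine ⟨hR.toSylow, (normal_subgroupOf_iff_le_normalizer hR.le).mpr
      (Core.le_of_forall_isSylowOf_le _ _ fun p hp hd => ?_)⟩
    by_cases hpq : p = q
    · exact ⟨R, hpq ▸ hR, le_normalizer⟩
    obtain ⟨P, hP, hPn⟩ := hsyl p hp hpq
    have := Fact.mk hp
    refine ⟨P, hP, le_trans (le_sup_left.trans le_normalizer)
      (FGS.normalizer_le_normalizer_of_isSylowOf_nilpotent (h (P ⊔ R) (lt_of_le_of_ne
        (sup_le hP.le hR.le) fun e => hne ⟨p, q, P, R, hp, hq, hpq, hP, hPn, hP.ne_bot hd,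
          hR.isPGroup, e⟩) (Core.le_normalizer_sup le_normalizer_of_normal hAR))
        (hR.of_le le_sup_right (sup_le hP.le hR.le)))⟩
  · obtain ⟨P, hP, hPn⟩ := hsyl q hq hqr
    exact ⟨hP.toSylow, by rw [hP.coe_toSylow]; infer_instance⟩

/-- Let a finite group A act by automorphisms on a finite group G of order coprime to that of A. Suppose every maximal A-invariant proper subgroup of G is nilpotent while G is not. Then G is solvable, the order of G has the form p^a·q^b for two distinct primes p and q, and G has a normal A-invariant Sylow subgroup for some prime dividing its order. -/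
theorem result {A G : Type*} [Group A] [Group G] [Finite A] [Finite G] [MulDistribMulAction A G]
    (hcop : (Nat.card A).Coprime (Nat.card G))
    (hmax : ∀ H : Subgroup G, H ≠ ⊤ → (∀ a : A, ∀ x ∈ H, a • x ∈ H) →
      (∀ K : Subgroup G, H < K → (∀ a : A, ∀ x ∈ K, a • x ∈ K) → K = ⊤) → Group.IsNilpotent H)
    (hG : ¬ Group.IsNilpotent G) :
    Group.IsSolvable G ∧
      (∃ p q a b : ℕ, p.Prime ∧ q.Prime ∧ p ≠ q ∧ Nat.card G = p ^ a * q ^ b) ∧
      ∃ (p : ℕ) (P : Sylow p G), p.Prime ∧ p ∣ Nat.card G ∧ (P : Subgroup G).Normal ∧ (∀ a : A, ∀ x ∈ (P : Subgroup G), a • x ∈ (P : Subgroup G)) := by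
  let φ := MulDistribMulAction.toMulAut A G
  obtain ⟨p, r, P, R, hp, hr, hpr, hP, hPn, hP1, hR, e⟩ := internal (FGS.sd_sup φ)
    (FGS.sd_coprime φ hcop) (fun H h1 h2 => by
      obtain ⟨H, rfl⟩ := FGS.exists_map_inl h1.le
      obtain ⟨M, hHM, ⟨h3, h4⟩, h5⟩ := exists_maximal_ge_of_wellFoundedGT
        (fun M : Subgroup G => M ≠ ⊤ ∧ ∀ a : A, ∀ x ∈ M, a • x ∈ M) H
        ⟨fun h => h1.ne (FGS.map_inl_eq_sdG.mpr h), FGS.sdA_le_normalizer_iff.mp h2⟩
      refine Core.nilpotent_map (Core.nilpotent_of_le hHM (hmax M h3 h4 fun L h6 h7 => ?_)) _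
      by_contra h8
      exact not_le_of_gt h6 (h5 ⟨h8, h7⟩ h6.le))
    fun h => hG (Group.nilpotent_of_mulEquiv (FGS.sdEquivG φ).symm)
  have := Fact.mk hp
  have := Fact.mk hr
  obtain ⟨a, ha⟩ := hP.isPGroup.exists_card_eq
  obtain ⟨b, hb⟩ := hR.exists_card_eq
  refine ⟨Core.solvable_of_mulEquiv (FGS.sdEquivG φ).symm (e ▸ FGS.solvable_sup_of_normal
    (Core.solvable_of_isPGroup hP.isPGroup) (Core.solvable_of_isPGroup hR)),
    ⟨p, r, a, b, hp, hr, hpr, ?_⟩, ?_⟩
  · rw [← FGS.card_sdG φ, ← e, Core.card_sup_of_disjoint le_normalizer_of_normal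
      (Core.disjoint_of_coprime (IsPGroup.coprime_card_of_ne p r hpr _ _ hP.isPGroup hR)), ha, hb]
  · have hd := (Core.prime_dvd_card_of_isPGroup hP.isPGroup hP1).trans (card_dvd_of_le hP.le)
    have hc := hP.card_eq_pow
    obtain ⟨P, rfl⟩ := FGS.exists_map_inl hP.le
    rw [FGS.card_sdG] at hd hc
    rw [FGS.card_map_inl] at hc
    exact ⟨p, Sylow.ofCard P hc, hp, hd, (FGS.sdG_le_normalizer_iff (φ := φ) (H := P)).mp le_normalizer_of_normal,
      (FGS.sdA_le_normalizer_iff (φ := φ) (H := P)).mp le_normalizer_of_normal⟩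

end Cfsg.Agent.S4240
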