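import Mathlib
import Cfsg.Statements.S4242
import Cfsg.Agent.FGS.DPi
import Cfsg.Agent.FGS.Hyper
import Cfsg.Agent.Transfer.Frobenius
import Cfsg.Agent.Core.SylowOf
import Cfsg.Agent.Core.Fitting

set_option autoImplicit false
open Cfsg

namespace Cfsg.Agent.S4242

open Subgroup

theorem nil_map {G : Type*} [Group G] {K : Subgroup G} (H : Subgroup K) :
    Group.IsNilpotent (H.map K.subtype) ↔ Group.IsNilpotent H :=
  ⟨fun _ => Group.nilpotent_of_mulEquiv (H.equivMapOfInjective _ K.subtype_injective).symm,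
    fun h => Core.nilpotent_map h _⟩

/-- Let G be a finite group and p a prime dividing its order. Every maximal subgroup of G of order divisible by p is nilpotent if and only if G is nilpotent, or G is a minimal non-nilpotent group, or G is the internal direct product of a normal subgroup of order p and a normal minimal non-nilpotent subgroup of order prime to p. -/
theorem result {G : Type*} [Group G] [Finite G] (p : ℕ) (hp : p.Prime) (hpG : p ∣ Nat.card G) :
    (∀ M : Subgroup G, IsCoatom M → p ∣ Nat.card M → Group.IsNilpotent M) ↔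
      (Group.IsNilpotent G ∨ Cfsg.IsMinimalNonNilpotent G ∨
        ∃ Z K : Subgroup G, Z.Normal ∧ K.Normal ∧ Z ⊓ K = ⊥ ∧ Z ⊔ K = ⊤ ∧ Nat.card Z = p ∧
          Cfsg.IsMinimalNonNilpotent K ∧ ¬ p ∣ Nat.card K) := by
  haveI := Fact.mk hp
  constructor
  · intro h
    by_contra! hc
    obtain ⟨h1, h2, h3⟩ := hc
    have h4 : ∀ H : Subgroup G, H ≠ ⊤ → p ∣ Nat.card H → Group.IsNilpotent H := fun H hH hd => by
      obtain ⟨M, hM, hle⟩ := (eq_top_or_exists_le_coatom H).resolve_left hH
      exact Core.nilpotent_of_le hle (h M hM (hd.trans (card_dvd_of_le hle)))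
    obtain ⟨K, hK, hKn⟩ : ∃ K : Subgroup G, IsCoatom K ∧ ¬ Group.IsNilpotent K := by
      by_contra! h5
      refine h2 ⟨h1, fun H hH => ?_⟩
      obtain ⟨M, hM, hle⟩ := (eq_top_or_exists_le_coatom H).resolve_left hH
      exact Core.nilpotent_of_le hle (h5 M hM)
    have hKp : ¬ p ∣ Nat.card K := fun hd => hKn (h K hK hd)
    have hdvd : ∀ R : Subgroup G, IsPGroup p R → R ≠ ⊥ → p ∣ Nat.card R := fun R hR hne => by
      obtain ⟨n, hn⟩ := IsPGroup.iff_card.mp hR
      exact hn ▸ dvd_pow_self p fun e => hne (by rwa [e, pow_zero, card_eq_one] at hn)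
    have hcm : ∀ R H : Subgroup G, IsPGroup p R → R ≠ ⊥ → ¬ p ∣ Nat.card H → R ⊔ H ≠ ⊤ →
        R ≤ centralizer (H : Set G) := fun R H hR hne hH ht x hx y hy => by
      obtain ⟨k, hk⟩ := hR.exists_orderOf_eq_pow ⟨x, hx⟩
      exact (FGS.commute_of_nilpotent (h4 _ ht ((hdvd R hR hne).trans (card_dvd_of_le le_sup_left)))
        (mem_sup_left hx) (mem_sup_right hy) ((orderOf_mk _ _).symm.trans hk)
        (Nat.Coprime.coprime_dvd_left (H.orderOf_dvd_natCard hy) ((hp.coprime_iff_not_dvd.mpr hH).symm))).symm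
    have h5 : ∀ R : Subgroup G, IsPGroup p R → R ≠ ⊥ → ¬ R.Normal := fun R hR hne hN => by
      have hRK : R ⊓ K = ⊥ := by
        by_contra h6
        exact hKp ((hdvd _ (hR.to_le inf_le_left) h6).trans (card_dvd_of_le inf_le_right))
      have htop : ∀ R' : Subgroup G, R' ≤ R → R' ≠ ⊥ → R' ⊔ K = ⊤ := fun R' h6 h7 =>
        hK.2 _ (right_lt_sup.mpr fun h8 => h7 (eq_bot_iff.mpr (hRK ▸ le_inf h6 h8)))
      have hlt : ∀ H < K, R ⊔ H ≠ ⊤ := fun H hH e => hH.not_ge fun x hx => by
        obtain ⟨r, hr, y, hy, rfl⟩ := mem_sup_of_normal_left.mp (e.ge (mem_top x))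
        rwa [mem_bot.mp (hRK.le (mem_inf.mpr ⟨hr, (mul_mem_cancel_right (hH.le hy)).mp hx⟩)), one_mul]
      have hRc : K ≤ centralizer (R : Set G) := fun x hx => by
        refine le_centralizer_iff.mp (hcm R (zpowers x) hR hne (fun hd => hKp (hd.trans (card_dvd_of_le
          (zpowers_le.mpr hx)))) (hlt _ ((zpowers_le.mpr hx).lt_of_ne fun e => hKn ?_))) (mem_zpowers x)
        rw [← e]
        exact Core.nilpotent_of_commutator_le_centralizer
          ((le_normalizer_iff_commutator_le_right.mp le_normalizer).trans (le_centralizer _))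
      obtain ⟨z, hz⟩ := exists_prime_orderOf_dvd_card' p (hdvd R hR hne)
      have hz1 : zpowers (z : G) ≠ ⊥ := by
        rw [Ne, zpowers_eq_bot, OneMemClass.coe_eq_one, ← orderOf_eq_one_iff, hz]; exact hp.ne_one
      have hzK : K ≤ centralizer (zpowers (z : G) : Set G) :=
        hRc.trans (centralizer_le (show zpowers (z : G) ≤ R from zpowers_le.mpr z.2))
      have h6 := htop _ (zpowers_le.mpr z.2) hz1
      refine hKp (h3 (zpowers (z : G)) K ?_ ?_ (eq_bot_iff.mpr (hRK ▸ inf_le_inf_right K (zpowers_le.mpr z.2))) h6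
        (by rw [Nat.card_zpowers, orderOf_coe, hz]) ⟨hKn, fun H hH => (nil_map H).mp (Core.nilpotent_of_le le_sup_right
          (h4 _ (hlt _ ((map_subtype_le H).lt_of_ne fun e => hH (map_subtype_inj.mp (e.trans ?_))))
          ((hdvd R hR hne).trans (card_dvd_of_le le_sup_left))))⟩)
      · exact Core.normal_of_le_normalizer (h6 ▸ sup_le le_normalizer (hzK.trans (centralizer_le_normalizer _)))
      · exact Core.normal_of_le_normalizer (h6 ▸ sup_le ((le_centralizer_iff.mp hzK).trans
          (centralizer_le_normalizer _)) le_normalizer)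
      · rw [← MonoidHom.range_eq_map, range_subtype]
    obtain ⟨P, N, _, hN⟩ : HasNormalPComplement p G := by
      obtain ⟨P⟩ : Nonempty (Sylow p G) := inferInstance
      refine Transfer.hasNormalPComplement_of_forall_normalizer P fun Q hQ hne => ?_
      have hQ' := P.isPGroup'.to_le hQ
      haveI := h4 _ (fun e => h5 Q hQ' hne (normalizer_eq_top_iff.mp e))
        ((hdvd Q hQ' hne).trans (card_dvd_of_le le_normalizer))
      exact Transfer.hasNormalPComplement_of_isNilpotent
    have hP1 := P.ne_bot_of_dvd_card hpG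
    have hNp : ¬ p ∣ Nat.card N := hN.index_eq_card ▸ P.not_dvd_index
    obtain ⟨n, hn⟩ := IsPGroup.iff_card.mp P.isPGroup'
    refine h5 P P.isPGroup' hP1 (Core.normal_of_le_normalizer (hN.sup_eq_top ▸ sup_le ((Core.le_of_forall_isSylowOf_le
      N _ fun q hq _ => ?_).trans (centralizer_le_normalizer _)) le_normalizer))
    haveI := Fact.mk hq
    obtain ⟨Q, hQ, hPQ⟩ := Core.exists_invariant_isSylowOf P N (le_top.trans (normalizer_eq_top N).ge)
      (hn ▸ (hp.coprime_iff_not_dvd.mpr hNp).pow_left n) (.inl (Core.solvable_of_isPGroup P.isPGroup')) q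
    refine ⟨Q, hQ, le_centralizer_iff.mp (hcm _ _ P.isPGroup' hP1 (fun hd => hNp (hd.trans (card_dvd_of_le hQ.le)))
      fun e => hKn ?_)⟩
    haveI : Q.Normal := Core.normal_of_le_normalizer (e ▸ sup_le hPQ le_normalizer)
    refine Core.nilpotent_of_le (Core.le_of_coprime_index (N := Q) ?_) hQ.isPGroup.isNilpotent
    rw [← relIndex_top_right, ← e, relIndex_sup_right]
    exact ((hp.coprime_iff_not_dvd.mpr hKp).pow_left n).symm.coprime_dvd_right (hn ▸ relIndex_dvd_card _ _)
  · rintro (h | h | ⟨Z, K, _, _, h1, h2, h3, h4, h5⟩) M hM hd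
    · infer_instance
    · exact h.2 M hM.1
    · have hc : Nat.card Z * Nat.card K = Nat.card G :=
        (isComplement'_of_disjoint_and_mul_eq_univ (disjoint_iff.mpr h1) (by rw [← normal_mul, h2, coe_top])).card_mul
      have hZM : Z ≤ M := Core.normal_le_of_coprime_index (h3 ▸ hp.coprime_iff_not_dvd.mpr fun h => h5
        (Nat.dvd_of_mul_dvd_mul_left hp.pos (by rw [← h3, hc, ← M.card_mul_index, h3]; exact mul_dvd_mul hd h)))
      have hZ : Z ≤ Subgroup.upperCentralSeries G 1 := by
        rw [Subgroup.upperCentralSeries_one, ← centralizer_univ, ← coe_top, le_centralizer_iff, ← h2]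
        haveI := isCyclic_of_prime_card h3
        exact sup_le (le_centralizer Z) fun y hy x hx => commute_of_normal_of_disjoint Z K inferInstance inferInstance
          (disjoint_iff.mpr h1) x y hx hy
      refine Core.nilpotent_of_le (fun x hx => ?_) (FGS.isNilpotent_sup_of_le_upperCentralSeries 1 G _ Z
        ((nil_map (M.subgroupOf K)).mpr (h4.2 _ fun e => hM.1 (eq_top_iff.mpr (h2 ▸ sup_le hZM
          (subgroupOf_eq_top.mp e))))) hZ)
      obtain ⟨r, hr, y, hy, rfl⟩ := mem_sup_of_normal_left.mp (h2.ge (mem_top x))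
      exact mul_mem (mem_sup_right hr) (mem_sup_left ⟨⟨y, hy⟩, (mul_mem_cancel_left (hZM hr)).mp hx, rfl⟩)

end Cfsg.Agent.S4242
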