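import Mathlib
import Cfsg.Statements.S4245
import Cfsg.Agent.FGS.Solv
import Cfsg.Agent.FGS.Basic2
import Cfsg.Agent.Core.Basic
import Cfsg.Agent.S0143
import Cfsg.Agent.S0205

set_option autoImplicit false
open Cfsg

namespace Cfsg.Agent.S4245

open Subgroup Cfsg.Agent.FGS

universe u

theorem burn {G : Type*} [Group G] [Finite G] [IsSimpleGroup G] {p s : ℕ} (hp : p.Prime) {y : G}
    (hy : y ≠ 1) {K : Subgroup G} (hK : K ≤ centralizer {y}) (h : K.index ∣ p ^ s) :
    Group.IsSolvable G := by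
  obtain ⟨j, hj⟩ := exists_pow_of_dvd hp ((index_dvd_of_le hK).trans h)
  exact solvable_of_prime_card (S0143.result p j hp y hy hj)

theorem aux {C : Type*} [Group C] [Finite C] [IsCyclic C] (hC : IsPGroup 2 C) {p s : ℕ}
    (hp : p.Prime) (G : Type u) [Group G] [Finite G] :
    (∃ (H : Type u) (_ : Group H) (_ : Finite H) (f : H →* G) (φ : H →* C),
      f.range.index ∣ p ^ s ∧ IsCyclic φ.ker) → Group.IsSolvable G := by
  refine solvable_of_simple (P := fun G _ => ∃ (H : Type u) (_ : Group H) (_ : Finite H)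
    (f : H →* G) (φ : H →* C), f.range.index ∣ p ^ s ∧ IsCyclic φ.ker) ?_ ?_ ?_ G
  · rintro G _ _ N _ ⟨H, _, _, f, φ, h1, h2⟩
    refine ⟨N.comap f, inferInstance, inferInstance, f.subgroupComap N, φ.comp (Subgroup.subtype _), ?_, ?_⟩
    · refine (dvd_of_eq ?_).trans ((relIndex_dvd_index_of_normal_right N f.range).trans h1)
      rw [relIndex]; congr 1
      ext x
      exact ⟨fun ⟨y, hy⟩ => ⟨y, congrArg Subtype.val hy⟩,
        fun ⟨y, hy⟩ => ⟨⟨y, show f y ∈ N from hy ▸ x.2⟩, Subtype.ext hy⟩⟩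
    · exact isCyclic_of_injective ((Subgroup.subtype _).subgroupComap φ.ker) fun x y e =>
        Subtype.ext (Subtype.ext (congrArg (fun t : φ.ker => (t : H)) e))
  · rintro G _ _ N _ ⟨H, _, _, f, φ, h1, h2⟩
    refine ⟨H, inferInstance, inferInstance, (QuotientGroup.mk' N).comp f, φ, ?_, h2⟩
    rw [← MonoidHom.map_range]
    exact (index_map_dvd _ (QuotientGroup.mk'_surjective N)).trans h1
  rintro G _ _ _ ⟨H, _, _, f, φ, h1, h2⟩
  haveI : Fact (Nat.Prime 2) := ⟨Nat.prime_two⟩
  let B := φ.ker.map f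
  haveI hB : IsCyclic B := isCyclic_of_surjective _ (f.subgroupMap_surjective φ.ker)
  have hn : f.range ≤ normalizer (B : Set G) := by
    have := le_normalizer_map (H := φ.ker) f
    rwa [normalizer_eq_top, ← MonoidHom.range_eq_map] at this
  by_cases hp2 : p = 2
  · subst hp2
    obtain ⟨r, hr⟩ := IsPGroup.iff_card.1 hC
    have h3 : B.index ∣ 2 ^ (r + s) := by
      rw [← relIndex_mul_index (map_le_range f φ.ker), pow_add]
      refine mul_dvd_mul ?_ h1
      rw [MonoidHom.range_eq_map, ← relIndex_comap, relIndex_top_right, ← hr]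
      exact (index_dvd_of_le (le_comap_map _ _)).trans (index_ker φ ▸ card_subgroup_dvd_card _)
    rcases B.bot_or_exists_ne_one with h | ⟨y, hy, h⟩
    · rw [h, index_bot] at h3
      exact Core.solvable_of_isPGroup (IsPGroup.iff_card.2 (exists_pow_of_dvd Nat.prime_two h3))
    · exact burn hp h (le_centralizer_of_comm inferInstance hy) h3
  by_cases h3 : 2 ∣ Nat.card B
  · obtain ⟨z, hz, h4⟩ := exists_prime_orderOf_mem Nat.prime_two h3
    refine burn hp (ne_one_of_orderOf_prime Nat.prime_two h4) (fun g hg => ?_) h1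
    have h5 := (mem_normalizer_iff.1 (hn hg) z).1 hz
    rw [mem_centralizer_singleton_iff, ← mul_inv_eq_iff_eq_mul]
    classical
    haveI := Fintype.ofFinite B
    have h6 := IsCyclic.card_orderOf_eq_totient (α := B) (d := 2) (by
      rwa [← Nat.card_eq_fintype_card])
    exact congrArg Subtype.val (Finset.card_le_one.1 h6.le ⟨_, h5⟩ (by
      simp only [Finset.mem_filter, Finset.mem_univ, true_and, ← orderOf_coe]
      exact ((MulAut.conj g).orderOf_eq z).trans h4) ⟨z, hz⟩ (by
      simp only [Finset.mem_filter, Finset.mem_univ, true_and, ← orderOf_coe]; exact h4))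
  by_cases h4 : 2 ∣ Nat.card G
  swap
  · exact S0205.result (Nat.odd_iff.2 (by omega))
  obtain ⟨S, hS⟩ := exists_sylow_le_of_not_dvd_index (p := 2) (H := f.range) fun h =>
    hp2 ((Nat.prime_dvd_prime_iff_eq Nat.prime_two hp).1 (Nat.prime_two.dvd_of_dvd_pow
      (h.trans h1))).symm
  have hc : IsCyclic S := by
    obtain ⟨⟨_, t, ht, rfl⟩, h5⟩ := IsCyclic.exists_generator (α := ((S : Subgroup G).comap f).map φ)
    refine ⟨⟨⟨f t, ht⟩, fun x => ?_⟩⟩
    obtain ⟨y, hy⟩ := hS x.2
    obtain ⟨k, hk⟩ := h5 ⟨φ y, y, show f y ∈ S from hy ▸ x.2, rfl⟩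
    have hk' : φ t ^ k = φ y := congrArg Subtype.val hk
    have h6 : f t ^ k * (f y)⁻¹ ∈ B := ⟨t ^ k * y⁻¹, by simp [MonoidHom.mem_ker, hk'], by simp⟩
    obtain ⟨j, hj⟩ := exists_orderOf_eq_of_mem S.2
      (show f t ^ k * (f y)⁻¹ ∈ (S : Subgroup G) from mul_mem (zpow_mem (show f t ∈ (S : Subgroup G) from ht) k) (inv_mem (hy ▸ x.2)))
    have h7 : orderOf (f t ^ k * (f y)⁻¹) = 1 := Nat.eq_one_of_dvd_coprimes
      (((Nat.Prime.coprime_iff_not_dvd Nat.prime_two).2 h3).pow_left j) hj.dvd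
      (orderOf_dvd_natCard _ h6)
    exact ⟨k, Subtype.ext (by
      rw [← hy]; exact mul_inv_eq_one.1 (orderOf_eq_one_iff.1 h7))⟩
  have h5 := IsCyclic.isComplement' ((Nat.minFac_eq_two_iff _).2 h4) hc
  rcases (MonoidHom.normal_ker (MonoidHom.transferSylow S (hc.normalizer_le_centralizer
    ((Nat.minFac_eq_two_iff _).2 h4)))).eq_bot_or_eq_top with h | h <;> rw [h] at h5
  · rw [isComplement'_bot_left] at h5
    exact Core.solvable_of_isPGroup ((h5 ▸ S.2).of_equiv topEquiv)
  · rw [isComplement'_top_left] at h5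
    exact absurd (by rw [h5, index_bot]; exact h4) S.not_dvd_index

/-- Let G be a finite group with a subgroup A of prime-power index. Suppose A has a normal cyclic subgroup B such that A/B is cyclic of order a power of 2. Then G is solvable. -/
theorem result {G : Type*} [Group G] [Finite G] (A : Subgroup G) (p s : ℕ) (hp : p.Prime) (hA : A.index = p ^ s)
    (B : Subgroup A) [B.Normal] (hB : IsCyclic B) (hAB : IsCyclic (A ⧸ B)) (r : ℕ) (hr : Nat.card (A ⧸ B) = 2 ^ r) :
    Group.IsSolvable G := by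
  exact aux (C := A ⧸ B) (IsPGroup.of_card hr) hp G ⟨A, inferInstance, inferInstance, A.subtype,
    QuotientGroup.mk' B, by rw [range_subtype, hA], by rwa [QuotientGroup.ker_mk']⟩

end Cfsg.Agent.S4245
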