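import Mathlib
import Cfsg.Statements.S4253
import Cfsg.Agent.FGS.Basic

set_option autoImplicit false
open Cfsg

namespace Cfsg.Agent.S4253

open scoped Pointwise

/-- Let H be a Frobenius complement in a finite group G (a nontrivial proper subgroup meeting each conjugate gHg⁻¹ with g outside H trivially). Then in the action of G on the left cosets of H by left multiplication, no non-identity element of G fixes two distinct cosets. -/
theorem result {G : Type*} [Group G] [Finite G] (H : Subgroup G) (hH : Cfsg.IsFrobeniusComplement H)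
    (g : G) (hg : g ≠ 1) (a b : G ⧸ H) (ha : g • a = a) (hb : g • b = b) : a = b := by
  obtain ⟨a, rfl⟩ := QuotientGroup.mk_surjective a
  obtain ⟨b, rfl⟩ := QuotientGroup.mk_surjective b
  have h1 := QuotientGroup.eq.mp ha.symm
  have h2 := QuotientGroup.eq.mp hb.symm
  refine QuotientGroup.eq.mpr ?_
  by_contra h
  have : a⁻¹ * (g * a) ∈ H ⊓ MulAut.conj (a⁻¹ * b) • H :=
    Subgroup.mem_inf.mpr ⟨h1, FGS.mem_conj_iff.mpr (by simpa [mul_assoc] using h2)⟩
  rw [hH.2.2 _ h, Subgroup.mem_bot, inv_mul_eq_one] at this
  exact hg (by simpa using this)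

end Cfsg.Agent.S4253
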