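import Mathlib
import Cfsg.Statements.S4261
import Cfsg.Agent.FGS.Basic
import Cfsg.Agent.Core.Fitting
import Cfsg.Agent.Transfer.Residual
import Cfsg.Agent.S0048

set_option autoImplicit false
open Cfsg

namespace Cfsg.Agent.S4261

open Subgroup

/-- Let M be a maximal subgroup of a finite solvable group G such that x^[G : M] lies in M for every x in G. Then M is normal in G. -/
theorem result {G : Type*} [Group G] [Finite G] (hG : Group.IsSolvable G) (M : Subgroup G) (hM : IsCoatom M)
    (hexp : ∀ x : G, x ^ M.index ∈ M) : M.Normal := by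
  obtain ⟨p, k, hp, -, hk⟩ := (isPrimePow_nat_iff _).mp (S0048.result M hM)
  have := Fact.mk hp
  have h1 : pResidual p G ≤ M := Transfer.pResidual_le_iff.mpr fun g hg =>
    Core.mem_of_pow_mem_of_coprime (hexp g) (by rw [← hk]; exact hg.symm.pow_left k)
  have hs := QuotientGroup.mk'_surjective (pResidual p G)
  have h2 := Core.isCoatom_map_of_ker_le hs hM (by rwa [QuotientGroup.ker_mk'])
  have := (Transfer.isPGroup_quotient_pResidual (p := p) (G := G)).isNilpotent
  have h3 := Group.normalizerCondition_of_isNilpotent.normal_of_coatom _ h2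
  rw [← comap_map_eq_self (f := QuotientGroup.mk' (pResidual p G)) (H := M)
    (by rwa [QuotientGroup.ker_mk'])]
  infer_instance

end Cfsg.Agent.S4261
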