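import Mathlib
import Cfsg.Statements.S4269
import Cfsg.Agent.FGS.Basic2
import Cfsg.Agent.Core.Coprime
import Cfsg.Agent.Core.MinNormal

set_option autoImplicit false
open Cfsg

namespace Cfsg.Agent.S4269

open Subgroup Cfsg.Agent.FGS
open scoped commutatorElement Pointwise

theorem conj_mul {G : Type*} [Group G] {H : Subgroup G} (c : G) {n : G} (hn : n ∈ normalizer (H : Set G)) :
    H.map (MulAut.conj (c * n)).toMonoidHom = H.map (MulAut.conj c).toMonoidHom := by
  rw [← Core.conj_smul_eq_map, ← Core.conj_smul_eq_map, map_mul, mul_smul,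
    Core.conj_smul_eq_iff_mem_normalizer.mpr hn]

/-- Let G be a finite group, V an abelian normal subgroup and H a subgroup with HV = G. Then H is pronormal in G (H and gHg⁻¹ are conjugate inside the subgroup they generate, for every g) if and only if every H-invariant subgroup U of V satisfies U = N_U(H)·[H, U], that is, U is the join of U ∩ N_G(H) and the commutator subgroup [H, U]. -/
theorem result {G : Type*} [Group G] [Finite G]
    (V : Subgroup G) [V.Normal] (hV : IsMulCommutative ↥V) (H : Subgroup G) (hHV : H ⊔ V = ⊤) :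
    Cfsg.IsPronormal H ↔
      ∀ U : Subgroup G, U ≤ V → (∀ h ∈ H, U.map (MulAut.conj h).toMonoidHom = U) →
        U = (U ⊓ Subgroup.normalizer (H : Set G)) ⊔ ⁅H, U⁆ := by
  have hc : ∀ a ∈ V, ∀ b ∈ V, a * b = b * a := fun a ha b hb => Core.comm_of_isMulCommutative hV ha hb
  constructor
  · intro h U hU hHU
    have hn : H ≤ normalizer (U : Set G) := fun x hx =>
      Core.conj_smul_eq_iff_mem_normalizer.mp (hHU x hx)
    have h1 : ⁅H, U⁆ ≤ U := le_normalizer_iff_commutator_le_right.mp hn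
    refine le_antisymm (fun u hu => ?_) (sup_le inf_le_left h1)
    obtain ⟨x, hx, he⟩ := h u
    have h2 : H ⊔ H.map (MulAut.conj u).toMonoidHom ≤ ⁅H, U⁆ ⊔ H := by
      refine sup_le le_sup_right ?_
      rintro _ ⟨y, hy, rfl⟩
      have : (MulAut.conj u).toMonoidHom y = ⁅y, u⁆⁻¹ * y := by
        simp [commutatorElement_def, mul_assoc]
      rw [this]
      exact mul_mem_sup (inv_mem (commutator_mem_commutator hy hu)) hy
    obtain ⟨c, hc', y, hy, rfl⟩ := (Core.mem_sup_of_le_normalizer (normalizer_commutator_ge_left H U)).mp (h2 hx)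
    rw [conj_mul c (le_normalizer hy), ← Core.conj_smul_eq_map, ← Core.conj_smul_eq_map] at he
    have h3 : c⁻¹ * u ∈ normalizer (H : Set G) := by
      rw [← Core.conj_smul_eq_iff_mem_normalizer, map_mul, mul_smul, he, map_inv, inv_smul_smul]
    rw [sup_comm, ← mul_inv_cancel_left c u]
    exact mul_mem_sup hc' <| mem_inf.mpr ⟨mul_mem (inv_mem (h1 hc')) hu, h3⟩
  · intro h g
    obtain ⟨v, hv, y, hy, rfl⟩ := (Core.mem_sup_of_le_normalizer (N := V) (H := H)
      (by rw [normalizer_eq_top]; exact le_top)).mp ((sup_comm H V ▸ hHV).ge (mem_top g))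
    rw [conj_mul v (le_normalizer hy)]
    set L := H ⊔ H.map (MulAut.conj v).toMonoidHom with hL
    have hcV : ∀ (x : G), ∀ u ∈ V, ⁅x, u⁆ ∈ V := fun x u hu =>
      commutator_le_right ⊤ V (commutator_mem_commutator (mem_top x) hu)
    let U : Subgroup G :=
      { carrier := {u | u ∈ V ∧ ∀ x ∈ H, ⁅x, u⁆ ∈ L}
        one_mem' := ⟨one_mem _, fun x _ => by simp⟩
        mul_mem' := fun {a b} ha hb => ⟨mul_mem ha.1 hb.1, fun x hx => by
          have : ⁅x, a * b⁆ = ⁅x, a⁆ * (a * ⁅x, b⁆ * a⁻¹) := by simp only [commutatorElement_def]; group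
          rw [this, hc a ha.1 _ (hcV x b hb.1), mul_inv_cancel_right]
          exact mul_mem (ha.2 x hx) (hb.2 x hx)⟩
        inv_mem' := fun {a} ha => ⟨inv_mem ha.1, fun x hx => by
          have : ⁅x, a⁻¹⁆ = a⁻¹ * ⁅x, a⁆⁻¹ * a := by simp only [commutatorElement_def]; group
          rw [this, hc _ (inv_mem ha.1) _ (inv_mem (hcV x a ha.1)), inv_mul_cancel_right]
          exact inv_mem (ha.2 x hx)⟩ }
    have hUV : U ≤ V := fun u hu => hu.1
    have hvU : v ∈ U := ⟨hv, fun x hx => by
      have : ⁅x, v⁆ = x * (MulAut.conj v).toMonoidHom x⁻¹ := by simp [commutatorElement_def, mul_assoc]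
      rw [this]
      exact mul_mem_sup hx ⟨x⁻¹, inv_mem hx, rfl⟩⟩
    have hHU : ∀ k ∈ H, U.map (MulAut.conj k).toMonoidHom = U := by
      intro k hk
      refine Core.conj_smul_eq_iff_mem_normalizer.mpr (mem_normalizer_fintype fun u hu =>
        ⟨Normal.conj_mem inferInstance u hu.1 k, fun x hx => ?_⟩)
      have : ⁅x, k * u * k⁻¹⁆ = k * ⁅k⁻¹ * x * k, u⁆ * k⁻¹ := by simp only [commutatorElement_def]; group
      rw [this]
      exact mul_mem (mul_mem (mem_sup_left hk) (hu.2 _ (mul_mem (mul_mem (inv_mem hk) hx) hk)))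
        (inv_mem (mem_sup_left hk))
    have h1 := h U hUV hHU
    have h2 : ⁅H, U⁆ ≤ V := (commutator_mono le_top hUV).trans (commutator_le_right _ _)
    rw [h1] at hvU
    obtain ⟨n, hn, c, hc', hv'⟩ := (Core.mem_sup_of_le_normalizer' (H := U ⊓ normalizer (H : Set G)) (fun a ha => centralizer_le_normalizer _
      (mem_centralizer_iff.mpr fun b hb => hc b (h2 hb) a (hUV ha.1)))).mp hvU
    refine ⟨c, (commutator_le (H₁ := H) (H₂ := U)).mpr (fun x hx u hu => hu.2 x hx) hc', ?_⟩
    rw [hv', hc n (hUV hn.1) c (h2 hc'), conj_mul c hn.2]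

end Cfsg.Agent.S4269
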