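import Mathlib
import Cfsg.Statements.S4271
import Cfsg.Agent.FGS.Pron

set_option autoImplicit false
open Cfsg

namespace Cfsg.Agent.S4271

open Subgroup
open scoped Pointwise

/-- Let p be a prime and G a finite group with a normal subgroup A such that every subgroup of A containing a Sylow p-subgroup of A is pronormal in A, and the Sylow p-subgroups of G/A are self-normalizing. Let T be a Sylow p-subgroup of A. Then every subgroup of G containing a Sylow p-subgroup of G is pronormal in G if and only if every subgroup of N_G(T)/T containing a Sylow p-subgroup of N_G(T)/T is pronormal in N_G(T)/T. (Pronormal: H and gHg⁻¹ are conjugate inside the subgroup they generate, for every g.) -/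
theorem result {G : Type*} [Group G] [Finite G] {p : ℕ} [Fact p.Prime]
    (A : Subgroup G) [A.Normal] (hA : (∀ K : Subgroup ↥A, (∃ P : Sylow p ↥A, (P : Subgroup ↥A) ≤ K) → Cfsg.IsPronormal K))
    (hQ : ∀ P : Sylow p (G ⧸ A), Subgroup.normalizer ((P : Subgroup (G ⧸ A)) : Set (G ⧸ A)) = P)
    (T : Subgroup G) (hT : ∃ P : Sylow p ↥A, (P : Subgroup ↥A).map A.subtype = T) [(T.subgroupOf (Subgroup.normalizer (T : Set G))).Normal] :
    (∀ K : Subgroup G, (∃ P : Sylow p G, (P : Subgroup G) ≤ K) → Cfsg.IsPronormal K) ↔ (∀ K : Subgroup (↥(Subgroup.normalizer (T : Set G)) ⧸ T.subgroupOf (Subgroup.normalizer (T : Set G))), (∃ P : Sylow p (↥(Subgroup.normalizer (T : Set G)) ⧸ T.subgroupOf (Subgroup.normalizer (T : Set G))), (P : Subgroup (↥(Subgroup.normalizer (T : Set G)) ⧸ T.subgroupOf (Subgroup.normalizer (T : Set G)))) ≤ K) → Cfsg.IsPronormal K) := by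
  have hT' := Core.isSylowOf_iff_exists_sylow.mpr hT
  have key : ∀ (K L : Subgroup (G ⧸ A)) (P : Sylow p (G ⧸ A)) (g : G ⧸ A), (P : Subgroup (G ⧸ A)) ≤ K → K ≤ L →
      MulAut.conj g • K ≤ L → ∃ x ∈ L, x⁻¹ * g ∈ K := fun K L P g hP hK hg => by
    have h1 := Core.isSylowOf_sylow_of_le P (hP.trans hK)
    obtain ⟨x, hx, e⟩ := h1.exists_conj_eq (((Core.isSylowOf_top P).conj_of_mem_normalizer (g := g)
      (by rw [normalizer_eq_top]; trivial)).of_le ((H2.conj_smul_mono g hP).trans hg) le_top)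
    refine ⟨x, hx, hP ((hQ P).le ?_)⟩
    rw [H2.mem_normalizer_iff_conj_smul, map_mul, mul_smul, ← e, map_inv, inv_smul_smul]
  rw [← FGS.yp_top_iff, ← FGS.yp_quot_iff _ (T.subgroupOf _) hT'.isPGroup.comap_subtype,
    FGS.yp_iff ((FGS.yp_subtype_iff A).mpr hA) (FGS.yp_top_iff.mpr fun K ⟨P, hP⟩ g => ?_) hT', and_iff_left]
  · refine fun K ⟨P, hP⟩ => le_antisymm (Core.map_le_normalizer_map le_rfl _) fun g hg => map_mono le_normalizer ?_
    obtain ⟨x, hx, e⟩ := key _ _ (P.mapSurjective (QuotientGroup.mk'_surjective A)) g (map_mono hP) le_rfl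
      (H2.mem_normalizer_iff_conj_smul.mp hg).le
    simpa using mul_mem hx e
  · obtain ⟨x, hx, e⟩ := key K _ P g hP le_sup_left le_sup_right
    refine ⟨x, hx, (?_ : MulAut.conj g • K = MulAut.conj x • K)⟩
    rw [← mul_inv_cancel_left x g, map_mul, mul_smul, H2.mem_normalizer_iff_conj_smul.mp (le_normalizer e)]

end Cfsg.Agent.S4271
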