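import Cfsg.Statements.S4279
import Mathlib
import Cfsg.Agent.Chev.Ss3

set_option autoImplicit false
open Cfsg

namespace Cfsg.Agent.S4279
open Cfsg.Lie Cfsg.Agent.Chev

/-- In the Chevalley group G of type G₂ over a finite field F of odd order q, the centralizer of an involution t has order q²(q² − 1)² and contains two elementwise commuting subgroups, each isomorphic to SL(2, F), which meet exactly in the subgroup generated by t and whose join has index 2 in the centralizer. -/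
theorem result {F : Type*} [Field F] [Fintype F] (hF : Odd (Fintype.card F)) (t : ↥(Cfsg.Lie.chevG2.group F)) (ht : orderOf t = 2) : Nat.card (Subgroup.centralizer ({t} : Set ↥(Cfsg.Lie.chevG2.group F))) = Fintype.card F ^ 2 * (Fintype.card F ^ 2 - 1) ^ 2 ∧ ∃ L₁ L₂ : Subgroup ↥(Cfsg.Lie.chevG2.group F), Nonempty (L₁ ≃* Matrix.SpecialLinearGroup (Fin 2) F) ∧ Nonempty (L₂ ≃* Matrix.SpecialLinearGroup (Fin 2) F) ∧ (∀ x ∈ L₁, ∀ y ∈ L₂, x * y = y * x) ∧ L₁ ⊓ L₂ = Subgroup.zpowers t ∧ L₁ ⊔ L₂ ≤ Subgroup.centralizer ({t} : Set ↥(Cfsg.Lie.chevG2.group F)) ∧ (L₁ ⊔ L₂).relIndex (Subgroup.centralizer ({t} : Set ↥(Cfsg.Lie.chevG2.group F))) = 2 := by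
  letI := good2G2
  haveI := neZero_two hF
  obtain ⟨k, hk, b, hb, e⟩ := conj_G2 (group_eq (D := chevG2) (F := F) ▸ t.2) ((Subgroup.orderOf_coe t).trans ht)
  obtain ⟨φ, ψ, h1, h2, h3, h4, h5⟩ := exists_pair_G2 (F := F)
  rw [List.mem_singleton.mp hk, ← h4] at e
  rw [← group_eq] at hb
  have e' : MulAut.conj (⟨b, hb⟩ : chevG2.group F) t = φ (-1) := Subtype.ext e
  have h6 := card_G2_1 (F := F)
  rw [← h4, ← card_centralizer, ← card_cent_eq (isConj_iff.mpr ⟨_, e'⟩)] at h6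
  have hq : ∀ n, 1 ≤ Fintype.card F ^ n := fun n => Nat.one_le_pow _ _ Fintype.card_pos
  have h7 : Nat.card (Subgroup.centralizer ({t} : Set ↥(chevG2.group F))) =
      Fintype.card F ^ 2 * (Fintype.card F ^ 2 - 1) ^ 2 := by zify [hq]; rw [h6]; ring
  let c := (MulAut.conj (⟨b, hb⟩ : chevG2.group F)).symm
  have i1 : Function.Injective (c.toMonoidHom.comp φ) := c.injective.comp h1
  have i2 : Function.Injective (c.toMonoidHom.comp ψ) := c.injective.comp h2
  have i3 : ∀ a b, Commute (c.toMonoidHom.comp φ a) (c.toMonoidHom.comp ψ b) := fun a b =>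
    (h3 a b).map c
  obtain ⟨a1, a2, a3⟩ := sl2_pair i1 i2 i3 (t := t) (c.symm_apply_eq.mp e').symm
    (c.symm_apply_eq.mp (e'.trans h5)).symm ht
  refine ⟨h7, _, _, ⟨(MonoidHom.ofInjective i1).symm⟩, ⟨(MonoidHom.ofInjective i2).symm⟩, ?_, a1,
    a2, ?_⟩
  · rintro _ ⟨a, rfl⟩ _ ⟨b, rfl⟩; exact i3 a b
  · have h8 := Subgroup.card_mul_index (((c.toMonoidHom.comp φ).range ⊔
      (c.toMonoidHom.comp ψ).range).subgroupOf (Subgroup.centralizer {t}))
    rw [Nat.card_congr (Subgroup.subgroupOfEquivOfLe a2).toEquiv, h7, ← mul_pow, ← a3,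
      mul_comm 2] at h8
    exact Nat.eq_of_mul_eq_mul_left Nat.card_pos h8

end Cfsg.Agent.S4279
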