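import Mathlib
import Cfsg.Statements.S4291
import Cfsg.Agent.Perm.FC7

set_option autoImplicit false
open Cfsg

namespace Cfsg.Agent.S4291

open Subgroup in
theorem ker_le {G : Type*} [Group G] [Finite G] (h : Perm.IsFC G) {f₁ f₂ : G →* DihedralGroup 2}
    (h1 : Function.Surjective f₁) : f₁.ker ≤ f₂.ker := by
  have : Fact (Nat.Prime 2) := ⟨Nat.prime_two⟩
  obtain ⟨S⟩ : Nonempty (Sylow 2 G) := inferInstance
  have hp : IsPGroup 2 (f₁.prod f₂).range :=
    (IsPGroup.of_card (G := DihedralGroup 2 × DihedralGroup 2) (n := 4) (by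
      rw [Nat.card_prod, DihedralGroup.nat_card]; rfl)).to_subgroup _
  have hS : ∀ g, ∃ s ∈ (S : Subgroup G), f₁ s = f₁ g ∧ f₂ s = f₂ g := fun g => by
    have h2 := (S.mapSurjective (f₁.prod f₂).rangeRestrict_surjective).is_maximal'
      (hp.to_subgroup ⊤) le_top
    obtain ⟨s, hs, e⟩ := h2.le (mem_top ((f₁.prod f₂).rangeRestrict g))
    exact ⟨s, hs, Prod.ext_iff.1 (congrArg Subtype.val e)⟩
  have hc : ∀ c, ¬ ∀ s ∈ (S : Subgroup G), f₁ s ∈ zpowers c := fun c hc => by
    refine IsKleinFour.not_isCyclic (G := DihedralGroup 2) ⟨c, fun x => ?_⟩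
    obtain ⟨g, rfl⟩ := h1 x
    obtain ⟨s, hs, e, -⟩ := hS g
    exact e ▸ hc s hs
  have hS' : ¬ IsCyclic S := fun hh => by
    obtain ⟨c, hc'⟩ := (S : Subgroup G).isCyclic_iff_exists_zpowers_eq_top.1 hh
    refine hc (f₁ c) fun s hs => ?_
    rw [← hc'] at hs
    obtain ⟨i, rfl⟩ := hs
    exact ⟨i, by simp⟩
  obtain ⟨a, b, n, hq⟩ := h.exists_gq S.2 hS'
  have hb : f₁ b ∉ zpowers (f₁ a) := fun hb => hc (f₁ a) fun s hs =>
    hq.le_of_mem (N := (zpowers (f₁ a)).comap f₁) (mem_zpowers _) hb hs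
  have ha : f₁ a ≠ 1 := fun ha => hc (f₁ b) fun s hs =>
    hq.le_of_mem (N := (zpowers (f₁ b)).comap f₁) (by rw [mem_comap, ha]; exact one_mem _)
      (mem_zpowers _) hs
  intro g hg
  obtain ⟨s, hs, e1, e2⟩ := hS g
  rw [MonoidHom.mem_ker.1 hg] at e1
  rw [MonoidHom.mem_ker, ← e2]
  rcases (hq.mem s).1 hs with h3 | ⟨i, hi⟩
  · rcases Inv.MC.even_or_odd h3 with ⟨i, rfl⟩ | ⟨i, hi⟩
    · simp only [map_zpow, map_mul, IsKleinFour.mul_self, one_zpow]
    · have := congrArg f₁ hi
      simp only [map_zpow, map_mul, IsKleinFour.mul_self, one_zpow, e1, map_inv, one_mul] at this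
      exact absurd (inv_eq_one.1 this.symm) ha
  · have := congrArg f₁ hi
    simp only [map_zpow, map_mul, e1, map_inv, one_mul] at this
    exact absurd (inv_mem_iff.1 (mem_zpowers_iff.2 ⟨i, this⟩)) hb

theorem big {G : Type*} [Group G] [Finite G] {n : ℕ}
    (ht : ∀ σ : Equiv.Perm (Fin n), σ ≠ 1 → ∃ τ, Equiv.Perm.sign τ = 1 ∧
      (τ * σ * τ⁻¹ * σ ≠ σ * (τ * σ * τ⁻¹) ∨ (σ * σ = 1 ∧ τ * σ * τ⁻¹ ≠ σ)))
    (h3 : 3 ∣ Nat.card (alternatingGroup (Fin n))) {N : Subgroup G}
    (h : (∃ f : G →* alternatingGroup (Fin n), Function.Surjective f ∧ f.ker = N) ∨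
      ∃ f : G →* Equiv.Perm (Fin n), Function.Surjective f ∧ f.ker = N) :
    3 ∣ N.index ∧ ∀ M : Subgroup G, M.Normal → IsZGroup M → M ≤ N := by
  obtain ⟨f, hf, rfl⟩ : ∃ f : G →* Equiv.Perm (Fin n), alternatingGroup _ ≤ f.range ∧ f.ker = N := by
    rcases h with ⟨f, hf, rfl⟩ | ⟨f, hf, rfl⟩
    · refine ⟨(Subgroup.subtype _).comp f, fun x hx => ?_, ?_⟩
      · obtain ⟨g, hg⟩ := hf ⟨x, hx⟩
        exact ⟨g, congrArg Subtype.val hg⟩
      · rw [← MonoidHom.comap_ker, Subgroup.ker_subtype, MonoidHom.comap_bot]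
    · exact ⟨f, (MonoidHom.range_eq_top.2 hf).symm ▸ le_top, rfl⟩
  exact ⟨by rw [Subgroup.index_ker]; exact h3.trans (Subgroup.card_dvd_of_le hf),
    fun M _ _ => Perm.le_ker_of_zgroup ht f hf M⟩

theorem cases {G : Type*} [Group G] [Finite G] {N : Subgroup G}
    (h : N = ⊤ ∨
        (∃ f : G →* DihedralGroup 2, Function.Surjective f ∧ f.ker = N) ∨
        (∃ f : G →* alternatingGroup (Fin 4), Function.Surjective f ∧ f.ker = N) ∨
        (∃ f : G →* Equiv.Perm (Fin 4), Function.Surjective f ∧ f.ker = N) ∨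
        (∃ f : G →* alternatingGroup (Fin 5), Function.Surjective f ∧ f.ker = N) ∨
        (∃ f : G →* Equiv.Perm (Fin 5), Function.Surjective f ∧ f.ker = N)) :
    (∃ f : G →* DihedralGroup 2, Function.Surjective f ∧ f.ker = N) ∨
      ((N = ⊤ ∨ 3 ∣ N.index) ∧ ∀ M : Subgroup G, M.Normal → IsZGroup M → M ≤ N) := by
  rcases h with rfl | h | h
  · exact Or.inr ⟨Or.inl rfl, fun _ _ _ => le_top⟩
  · exact Or.inl h
  · rw [← or_assoc] at h
    rcases h with h | h
    · exact Or.inr ((big Perm.perm_four_test (by rw [Perm.card_a4]; norm_num) h).imp_left Or.inr)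
    · exact Or.inr ((big Perm.perm_five_test (by rw [Perm.card_a5]; norm_num) h).imp_left Or.inr)

theorem mixed {G : Type*} [Group G] [Finite G] {N : Subgroup G} [IsZGroup N]
    {f : G →* DihedralGroup 2} (hf : Function.Surjective f) (h : N = ⊤ ∨ 3 ∣ N.index)
    (hle : f.ker ≤ N) : False := by
  rcases h with rfl | h
  · have : IsZGroup (DihedralGroup 2) :=
      IsZGroup.of_surjective (f := f.comp (Subgroup.subtype ⊤))
        (hf.comp fun x => ⟨⟨x, trivial⟩, rfl⟩)
    have := IsKleinFour.isMulCommutative (G := DihedralGroup 2)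
    exact IsKleinFour.not_isCyclic (G := DihedralGroup 2) Perm.isCyclic_of_zgroup_of_comm
  · have := h.trans (Subgroup.index_dvd_of_le hle)
    rw [Subgroup.index_ker, MonoidHom.range_eq_top.2 hf, Subgroup.card_top,
      DihedralGroup.nat_card] at this
    omega

/-- Let G be a finite group that occurs as a Frobenius complement. Then G has exactly one normal subgroup N such that every Sylow subgroup of N is cyclic and the quotient of G by N is trivial or isomorphic to one of the following five groups: the Klein four-group, the alternating group of degree 4, the symmetric group of degree 4, the alternating group of degree 5, the symmetric group of degree 5. (The quotient is described by a surjective homomorphism with kernel N; the Klein four-group is written as the dihedral group of order 4.) -/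
theorem result {G : Type*} [Group G] [Finite G]
    (hFC : (∃ (L : Type) (_ : Group L) (_ : Finite L) (H : Subgroup L), Cfsg.IsFrobeniusComplement H ∧ Nonempty (G ≃* H))) :
    ∃! N : Subgroup G, N.Normal ∧ (∀ (p : ℕ) [Fact p.Prime] (P : Sylow p N), IsCyclic P) ∧
      (N = ⊤ ∨
        (∃ f : G →* DihedralGroup 2, Function.Surjective f ∧ f.ker = N) ∨
        (∃ f : G →* alternatingGroup (Fin 4), Function.Surjective f ∧ f.ker = N) ∨
        (∃ f : G →* Equiv.Perm (Fin 4), Function.Surjective f ∧ f.ker = N) ∨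
        (∃ f : G →* alternatingGroup (Fin 5), Function.Surjective f ∧ f.ker = N) ∨
        (∃ f : G →* Equiv.Perm (Fin 5), Function.Surjective f ∧ f.ker = N)) := by
  have h := Perm.isFC_of_exists_frob hFC
  refine existsUnique_of_exists_of_unique ?_ fun M N ⟨hM, zM, cM⟩ ⟨hN, zN, cN⟩ => ?_
  · rcases h.cases with hZ | ⟨f, hf, hZ⟩ | ⟨z, f, hf⟩ | ⟨L, z, f, hf⟩
    · exact ⟨⊤, inferInstance, fun p _ P => inferInstance, Or.inl rfl⟩
    · exact ⟨f.ker, inferInstance, fun p _ P => inferInstance, Or.inr (Or.inl ⟨f, hf, rfl⟩)⟩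
    · have := hf.zgrp
      refine ⟨f.ker, inferInstance, fun p _ P => inferInstance, Or.inr (Or.inr ?_)⟩
      exact (Perm.surj_cases f hf.le).imp_right fun h1 => Or.inl ⟨f, h1, rfl⟩
    · have := hf.zgrp
      refine ⟨f.ker, inferInstance, fun p _ P => inferInstance,
        Or.inr (Or.inr (Or.inr (Or.inr ?_)))⟩
      exact (Perm.surj_cases f hf.le).imp_right fun h1 => ⟨f, h1, rfl⟩
  · have zM' : IsZGroup M := ⟨fun p hp P => @zM p ⟨hp⟩ P⟩
    have zN' : IsZGroup N := ⟨fun p hp P => @zN p ⟨hp⟩ P⟩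
    rcases cases cM with ⟨f, hf, rfl⟩ | ⟨h1, h2⟩ <;> rcases cases cN with ⟨g, hg, rfl⟩ | ⟨h3, h4⟩
    · exact le_antisymm (ker_le h hf) (ker_le h hg)
    · exact (mixed hf h3 (h4 _ hM zM')).elim
    · exact (mixed hg h1 (h2 _ hN zN')).elim
    · exact le_antisymm (h4 _ hM zM') (h2 _ hN zN')

end Cfsg.Agent.S4291
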