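import Mathlib
import Cfsg.Statements.S4294
import Cfsg.Agent.Part.Am3

set_option autoImplicit false
open Cfsg

namespace Cfsg.Agent.S4294


/-- A finite non-solvable subgroup of the multiplicative group of a division ring is isomorphic to the binary icosahedral group SL(2,5). -/
theorem result {D : Type*} [DivisionRing D] (H : Subgroup Dˣ) [Finite H] (hH : ¬ Group.IsSolvable H) :
    Nonempty (H ≃* Matrix.SpecialLinearGroup (Fin 2) (ZMod 5)) := by
  have fc := Perm.isFC_of_units H
  obtain ⟨L, hL, L0, pf⟩ := Perm.exists_perfect_normal hH
  have : Nontrivial L := (Subgroup.nontrivial_iff_ne_bot L).2 L0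
  obtain ⟨e⟩ := (fc.subgroup L).equiv_SL25 pf
  have h : Part.Am.St ((Units.coeHom D).comp H.subtype) (L.subtype.comp e.symm.toMonoidHom) :=
    { hρ := Units.val_injective.comp H.subtype_injective
      hφ := L.subtype_injective.comp e.symm.injective
      nr := by
        rw [MonoidHom.range_comp, MonoidHom.range_eq_top.2 e.symm.surjective, ← MonoidHom.range_eq_map,
          Subgroup.range_subtype]
        exact hL
      pf := Perm.commutator_eq_top_of_surjective e.toMonoidHom e.surjective pf
      fc := fc }
  exact ⟨(MulEquiv.ofBijective _ ⟨h.hφ, h.surj⟩).symm⟩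

end Cfsg.Agent.S4294
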