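import Mathlib
import Cfsg.Statements.S4296
import Cfsg.Agent.Perm.FC8

set_option autoImplicit false
open Cfsg

namespace Cfsg.Agent.S4296

open Subgroup in
open scoped IsMulCommutative in
theorem aux {L : Type*} [Group L] [Finite L] {K : Subgroup L} [K.Normal] {i j : L}
    (h : Perm.Q8 i j) (hf : K ⊓ centralizer {i * i} = ⊥) (ho : Odd (Nat.card K)) :
    IsSquare (Nat.card K) := by
  obtain ⟨h1, h2⟩ := H2.inverts_of_involution (K := K) (s := i * i)
    (normalizer_eq_top K ▸ mem_top _) h.four hf
  let ρ : L →* Module.End ℤ (Additive K) :=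
    { toFun := fun g => (MonoidHom.toAdditive
        (MulAut.conjNormal g : MulAut K).toMonoidHom).toIntLinearMap
      map_one' := by ext v; simp
      map_mul' := fun a b => by ext v; simp [mul_assoc] }
  have h3 : ρ (i * i) = -1 := LinearMap.ext fun v =>
    Additive.toMul.injective (Subtype.ext (h1 _ v.toMul.2))
  refine Perm.isSquare_card (M := Additive K) ho (ρ i) (ρ j) (by rw [← map_mul, h3])
    (by rw [← map_mul, h.hj, h3]) ?_
  rw [← map_mul, ← neg_one_mul, ← h3, ← map_mul, ← map_mul, Inv.mul_eq_of_inverts h.inv,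
    inv_eq_of_mul_eq_one_right (mul_assoc i i _ ▸ h.four)]
  simp only [mul_assoc]

/-- Let H be a Frobenius complement in a finite group, and suppose some Sylow subgroup of H is not cyclic. Then the number of elements of the Frobenius kernel (the identity together with the elements lying in no conjugate of H) is an odd perfect square. -/
theorem result {L : Type*} [Group L] [Finite L] (H : Subgroup L) (hF : Cfsg.IsFrobeniusComplement H)
    (hZ : ∃ (p : ℕ) (_ : Fact p.Prime) (P : Sylow p H), ¬ IsCyclic P) :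
    Odd (Nat.card (Cfsg.frobeniusKernel H)) ∧ IsSquare (Nat.card (Cfsg.frobeniusKernel H)) := by
  obtain ⟨p, _, P, hP⟩ := hZ
  have h := Perm.isFC_of_frob hF
  obtain rfl : p = 2 := by_contra fun e => hP (h.isCyclic_of_ne_two e P.2)
  obtain ⟨a, b, n, hq⟩ := h.exists_gq P.2 hP
  have h8 := hq.q8'
  obtain ⟨K, hK, hn, -⟩ := Char.frobenius_kernel H hF
  have hs := H2.Frob.semiregular_of_coe_eq hF hK
  have ho : Odd (Nat.card K) := by
    refine Nat.coprime_two_left.1 (Nat.Coprime.of_dvd_left ?_
      (H2.coprime_of_semiregular (Subgroup.normalizer_eq_top K ▸ le_top) hs))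
    exact hq.z_two ▸ orderOf_dvd_natCard _
  rw [← hK]
  refine ⟨ho, aux (i := ((a ^ 2 ^ n : H) : L)) (j := b) ⟨by rw [Subgroup.orderOf_coe, h8.hi],
    congrArg Subtype.val h8.hj, congrArg Subtype.val h8.inv⟩ (hs _ (mul_mem (a ^ 2 ^ n).2
      (a ^ 2 ^ n).2) fun e => ?_) ho⟩
  exact Inv.ne_one_of_two (Inv.MC.two_of_four h8.hi) (Subtype.ext e)

end Cfsg.Agent.S4296
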