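import Mathlib
import Cfsg.Statements.S4295
import Cfsg.Agent.S4296

set_option autoImplicit false
open Cfsg

namespace Cfsg.Agent.S4295


/-- For a natural number m the following are equivalent: (a) some finite group has a Frobenius complement isomorphic to the quaternion group of order 8 whose Frobenius kernel (the identity together with the elements lying in no conjugate of the complement) has exactly m elements; (b) m is an odd perfect square greater than 1. -/
theorem result (m : ℕ) :
    (∃ (L : Type) (_ : Group L) (_ : Finite L) (H : Subgroup L), Cfsg.IsFrobeniusComplement H ∧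
        Nonempty (H ≃* QuaternionGroup 2) ∧ Nat.card (Cfsg.frobeniusKernel H) = m) ↔
    (Odd m ∧ IsSquare m ∧ 1 < m) := by
  constructor
  · rintro ⟨L, _, _, H, hH, ⟨e⟩, rfl⟩
    have : Fact (Nat.Prime 2) := ⟨Nat.prime_two⟩
    obtain ⟨P⟩ : Nonempty (Sylow 2 H) := inferInstance
    have hp : IsPGroup 2 (⊤ : Subgroup H) := IsPGroup.of_card (n := 3) (by
      rw [Subgroup.card_top, Nat.card_congr e.toEquiv, Nat.card_eq_fintype_card]; rfl)
    obtain ⟨h1, h2⟩ := S4296.result H hH ⟨2, this, P, fun hc => by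
      rw [← P.is_maximal' hp le_top] at hc
      have := (isCyclic_of_surjective _ (Subgroup.topEquiv.trans e).surjective).isMulCommutative
      exact absurd (this.is_comm.comm (QuaternionGroup.a 1) (QuaternionGroup.xa 0)) (by decide)⟩
    refine ⟨h1, h2, ?_⟩
    rw [Nat.card_coe_set_eq, H2.Frob.ncard_kernel hH]
    exact Subgroup.one_lt_index_of_ne_top hH.2.1
  · rintro ⟨h1, ⟨n, rfl⟩, h2⟩
    have ho : Odd n := (Nat.odd_mul.1 h1).1
    have : Fact (1 < n) := ⟨by nlinarith⟩
    obtain ⟨x, y, h⟩ := Perm.exists_sq_add_sq_add_one ho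
    have h3 : (y : ZMod n) ^ 2 = -1 - x ^ 2 := by
      have := (ZMod.natCast_eq_zero_iff _ n).2 h
      push_cast at this
      linear_combination this
    obtain ⟨a, ha'⟩ : ∃ a : Matrix.SpecialLinearGroup (Fin 2) (ZMod n), a.1 = !![0, -1; 1, 0] :=
      ⟨⟨_, by simp [Matrix.det_fin_two]⟩, rfl⟩
    obtain ⟨t, ht'⟩ : ∃ t : Matrix.SpecialLinearGroup (Fin 2) (ZMod n),
        t.1 = !![(x : ZMod n), y; y, -x] :=
      ⟨⟨_, by rw [Matrix.det_fin_two_of]; linear_combination -h3⟩, rfl⟩
    have ha : a ^ 2 = -1 := by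
      ext i j; fin_cases i <;> fin_cases j <;> simp [ha', sq]
    have r1 : a ^ (2 * 2) = 1 := by rw [pow_mul, ha]; simp
    have r2 : t * t = a ^ 2 := by
      rw [ha]; ext i j
      fin_cases i <;> fin_cases j <;> simp [ht'] <;> first | ring1 | linear_combination h3
    have r3 : t * a * t⁻¹ = a⁻¹ := by
      rw [mul_inv_eq_iff_eq_mul, eq_inv_mul_iff_mul_eq]; ext i j
      fin_cases i <;> fin_cases j <;> simp [ht', ha']
    let ρ := (Matrix.SpecialLinearGroup.coeMonoidHom).comp (Inv.quaternionHom a t 2 r1 r2 r3)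
    have hρ : ρ (QuaternionGroup.a 2) = -1 := by
      have := Inv.quaternionHom_a r1 r2 r3 2
      rw [zpow_ofNat, ha] at this
      exact congrArg Subtype.val this
    obtain ⟨L, _, _, H, hH, ⟨e⟩, hc⟩ := Perm.exists_frob_of_aut (Perm.matAut ρ) fun g hg k hk => by
      have h4 : ∀ g : QuaternionGroup 2, g ≠ 1 → g = .a 2 ∨ g * g = .a 2 := by decide
      have h5 : Perm.matAut ρ (.a 2) k = k := by
        rcases h4 g hg with e | e
        · rwa [← e]
        · rw [← e, map_mul, MulAut.mul_apply, hk, hk]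
      have h6 : (ρ (.a 2)).mulVec k.toAdd = k.toAdd := congrArg Multiplicative.toAdd h5
      rw [hρ, Matrix.neg_mulVec, Matrix.one_mulVec, neg_eq_iff_add_eq_zero, ← two_smul (ZMod n),
        IsUnit.smul_eq_zero (by
          exact_mod_cast (ZMod.isUnit_iff_coprime 2 n).2 (Nat.coprime_two_left.2 ho))] at h6
      exact congrArg Multiplicative.ofAdd h6
    refine ⟨L, _, inferInstance, H, hH, ⟨e.symm⟩, ?_⟩
    rw [hc]
    simp [sq]

end Cfsg.Agent.S4295
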