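import Mathlib
import Cfsg.Statements.S4302
import Cfsg.Agent.H4J.A
import Cfsg.Agent.PGrp.Sym3
import Cfsg.Agent.PGrp.Comm
import Cfsg.Agent.Transfer.S4Free
import Cfsg.Agent.Transfer.Replacement
import Cfsg.Agent.LocalEven.SylowIn
-- import your own Cfsg.Agent.* helpers here

set_option autoImplicit false
open Cfsg

namespace Cfsg.Agent.S4302

open Subgroup Cfsg.Agent.PLocal MatrixGroups in
theorem sl_sym : Nonempty (SL(2, ZMod 2) ≃* Equiv.Perm (Fin 3)) := by
  let t : SL(2, ZMod 2) := ⟨!![1, 1; 0, 1], by decide⟩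
  let s : SL(2, ZMod 2) := ⟨!![0, 1; 1, 0], by decide⟩
  have ht : orderOf t = 2 := orderOf_eq_prime (by decide) (fun e => absurd (congrArg (fun m : SL(2, ZMod 2) => m 0 1) e) (by decide))
  refine PGrp.equiv_sym3 (S := zpowers t) (by rw [card_SL2_zmod]; rfl) (by rw [Nat.card_zpowers, ht]) ?_
  intro hn
  have h1 := hn.conj_mem t (mem_zpowers t) s
  rw [mem_zpowers_iff_mem_range_orderOf, ht] at h1
  revert h1
  decide

open Subgroup Cfsg.Agent.PLocal MatrixGroups in
theorem prod_iso {G : Type*} [Group G] [Finite G] {V H Q : Subgroup G} (h : FFSetup 2 V H Q)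
    (hg : FFSetup.TvGen 2 V H) (hH : H ≠ ⊥) :
    ∃ n : ℕ, 1 ≤ n ∧ Nonempty (H ≃* (Fin n → Equiv.Perm (Fin 3))) := by
  classical
  obtain ⟨h1, h2, h3, -⟩ := h.structure_thm hg (P := FFSetup.Fac 2 V H Q) fun _ => Iff.rfl
  haveI := Fintype.ofFinite {E // FFSetup.Fac 2 V H Q E}
  have hcomm : Pairwise fun i j : {E // FFSetup.Fac 2 V H Q E} =>
      ∀ x y : G, x ∈ (i : Subgroup G) → y ∈ (j : Subgroup G) → Commute x y := by
    rintro ⟨_, A, hAH, hA, rfl⟩ ⟨_, B, hBH, hB, rfl⟩ hne x y hx hy
    exact h.commute_of_tvE_ne hAH hA hBH hB (fun e => hne (Subtype.ext e)) hy x hx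
  obtain ⟨A, hAH, hA⟩ := hg.exists_tv hH
  haveI : Nonempty {E // FFSetup.Fac 2 V H Q E} := ⟨⟨_, A, hAH, hA, rfl⟩⟩
  obtain ⟨e3⟩ := sl_sym
  refine ⟨Fintype.card {E // FFSetup.Fac 2 V H Q E}, Fintype.card_pos, ⟨?_⟩⟩
  exact (MulEquiv.subgroupCongr (h3.symm.trans (noncommPiCoprod_range (hcomm := hcomm)).symm)).trans
    ((MonoidHom.ofInjective (injective_noncommPiCoprod_of_iSupIndep (hcomm := hcomm) h2)).symm.trans
      ((MulEquiv.piCongrRight fun E => ((h1 E).2.1.some.trans e3)).trans
        (MulEquiv.arrowCongr (Fintype.equivFin _) (MulEquiv.refl _))))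

open Subgroup in
theorem cent_of_omega {G : Type*} [Group G] [Finite G] {W : Subgroup G} (hW : IsMulCommutative W)
    (h2 : IsPGroup 2 W) {x : G} (hx : x ∈ normalizer (W : Set G)) (ho : (orderOf x).Coprime 2)
    (hc : x ∈ centralizer (omegaOne 2 W : Set G)) : x ∈ centralizer (W : Set G) := by
  have hz : zpowers x ≤ normalizer (W : Set G) := (zpowers_le (H := normalizer _)).2 hx
  have h1 := Core.centralizer_inf_commutator_eq_bot (zpowers x) W hW hz
    (Core.coprime_of_isPGroup h2 (by rwa [Nat.card_zpowers]))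
  have hle : ⁅W, zpowers x⁆ ≤ W := LocalEven.commutator_le_left_of_le_normalizer hz
  refine (Core.le_centralizer_iff_commutator_eq_bot.2 ?_ : zpowers x ≤ _) (mem_zpowers x)
  by_contra hne
  obtain ⟨m, hm⟩ := IsPGroup.iff_card.1 (h2.to_le hle)
  have hm0 : m ≠ 0 := by
    rintro rfl
    exact hne (card_eq_one.1 (by simpa using hm))
  obtain ⟨y, hy⟩ := exists_prime_orderOf_dvd_card' (G := ↥⁅W, zpowers x⁆) 2 (hm ▸ dvd_pow_self 2 hm0)
  have hy2 : (y : G) ^ 2 = 1 := by
    rw [← hy, ← Subgroup.coe_pow, pow_orderOf_eq_one, coe_one]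
  have hy3 : (y : G) ∈ omegaOne 2 W := subset_closure ⟨hle y.2, hy2⟩
  have : (y : G) ∈ (W ⊓ centralizer (zpowers x : Set G)) ⊓ ⁅W, zpowers x⁆ :=
    ⟨⟨hle y.2, le_centralizer_iff.1 ((zpowers_le (H := centralizer _)).2 hc) hy3⟩, y.2⟩
  rw [h1, mem_bot] at this
  rw [Subtype.ext (a1 := y) (a2 := 1) this, orderOf_one] at hy
  exact absurd hy (by norm_num)

/-- Let `X` be a finite solvable group whose Fitting subgroup is a 2-group (equivalently `F(X) = O₂(X)`), `T` a Sylow 2-subgroup of `X`, `J(T)` the subgroup generated by the abelian subgroups of `T` of largest order, `C` the largest normal subgroup of `X` centralizing the centre `Z(T)`, and `Y` the normal closure of `J(T)` in `X`. Then `X = C · Y · N_X(J(T))`, and either `Y ≤ C`, or `CY/C` is isomorphic to a direct product of at least one copy of the symmetric group of degree 3. -/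
theorem result {X : Type*} [Group X] [Finite X]
    [Group.IsSolvable X] (hF : Cfsg.fittingSubgroup X = Cfsg.pCore 2 X) (T : Sylow 2 X) :
    ((Subgroup.centralizer (((T : Subgroup X) ⊓ Subgroup.centralizer ((T : Subgroup X) : Set X) : Subgroup X) : Set X)).normalCore
        ⊔ Subgroup.normalClosure (Cfsg.thompsonSubgroupAOf (T : Subgroup X) : Set X)
        ⊔ Subgroup.normalizer (Cfsg.thompsonSubgroupAOf (T : Subgroup X) : Set X) = ⊤) ∧
    (Subgroup.normalClosure (Cfsg.thompsonSubgroupAOf (T : Subgroup X) : Set X)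
        ≤ (Subgroup.centralizer (((T : Subgroup X) ⊓ Subgroup.centralizer ((T : Subgroup X) : Set X) : Subgroup X) : Set X)).normalCore
      ∨ ∃ n : ℕ, 1 ≤ n ∧
        Nonempty (↥(Subgroup.normalClosure (Cfsg.thompsonSubgroupAOf (T : Subgroup X) : Set X)) ⧸
            ((Subgroup.centralizer (((T : Subgroup X) ⊓ Subgroup.centralizer ((T : Subgroup X) : Set X) : Subgroup X) : Set X)).normalCore).subgroupOf
              (Subgroup.normalClosure (Cfsg.thompsonSubgroupAOf (T : Subgroup X) : Set X))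
          ≃* (Fin n → Equiv.Perm (Fin 3)))) := by
  open Subgroup Cfsg.Agent.PLocal in
  rw [Transfer.thompsonSubgroupAOf_eq]
  set Z : Subgroup X := (T : Subgroup X) ⊓ centralizer ((T : Subgroup X) : Set X) with hZ
  set C := (centralizer (Z : Set X)).normalCore with hC
  set J := thompsonSubgroupOf 0 (T : Subgroup X) with hJ
  set Y := normalClosure (J : Set X) with hY
  have hJT : J ≤ T := Transfer.thompsonSubgroupOf_le_iff.2 fun A hA => hA.1
  constructor
  · rw [eq_top_iff]
    intro g _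
    obtain ⟨n, hn, x, hx, rfl⟩ := (LocalEven.sylow_inf_normal T Y).frattini (g := g)
      (le_normalizer_of_normal (mem_top g))
    refine mul_mem (mem_sup_left (mem_sup_right hn)) (mem_sup_right ?_)
    rw [hJ, ← Transfer.thompsonSubgroupOf_eq_of_le (le_inf hJT le_normalClosure) inf_le_left]
    exact Transfer.normalizer_le_normalizer_thompsonSubgroupOf _ hx
  have hc : centralizer (pCore 2 X : Set X) ≤ pCore 2 X := hF ▸ Core.centralizer_fitting_le
  have hOT : pCore 2 X ≤ T := Core.pCore_le_sylow T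
  set W := normalClosure (Z : Set X) with hW
  have hW0 : W ≤ pCore 2 X ⊓ centralizer (pCore 2 X : Set X) := by
    have h1 : Z ≤ centralizer (pCore 2 X : Set X) := inf_le_right.trans (centralizer_le hOT)
    exact normalClosure_le_normal (le_inf (h1.trans hc) h1)
  have hWT : W ≤ T := (hW0.trans inf_le_left).trans hOT
  have hWc : IsMulCommutative W := le_centralizer_iff_isMulCommutative.1
    ((hW0.trans inf_le_right).trans (centralizer_le (hW0.trans inf_le_left)))
  have hW2 : IsPGroup 2 W := T.isPGroup'.to_le hWT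
  have hCW : C = centralizer (W : Set X) := le_antisymm
    (le_centralizer_iff.1 (normalClosure_le_normal (le_centralizer_iff.1 (normalCore_le _))))
    (normal_le_normalCore.2 (centralizer_le le_normalClosure))
  have key : ∀ D : Subgroup X, D.Normal → (∀ d ∈ D, ∃ k : ℕ, d ^ 2 ^ k ∈ C) → D ≤ C := by
    intro D hD h
    refine normal_le_normalCore.2 ?_
    have h1 : IsPGroup 2 (D.map (QuotientGroup.mk' C)) := by
      rintro ⟨_, d, hd, rfl⟩
      obtain ⟨k, hk⟩ := h d hd
      refine ⟨k, Subtype.ext ?_⟩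
      change (QuotientGroup.mk' C d) ^ 2 ^ k = 1
      rw [← map_pow]
      exact (QuotientGroup.eq_one_iff _).2 hk
    have h2 := (Core.le_pCore (hD.map _ (QuotientGroup.mk'_surjective C)) h1).trans
      (Core.pCore_le_sylow (T.mapSurjective (QuotientGroup.mk'_surjective C)))
    rw [map_le_iff_le_comap, Sylow.coe_mapSurjective, comap_map_eq, QuotientGroup.ker_mk'] at h2
    exact h2.trans (sup_le (le_centralizer_iff.1 inf_le_right) (normalCore_le _))
  set V := omegaOne 2 W with hV
  haveI hVn : V.Normal := PGrp.omegaOne_normal W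
  have hVW : V ≤ W := PGrp.omegaOne_le
  have hVe : IsElementaryAbelian 2 V := PGrp.isElementaryAbelian_omegaOne hWc
  have hCV : centralizer (V : Set X) = C := by
    refine le_antisymm (key _ inferInstance fun d hd => ?_) (hCW ▸ centralizer_le hVW)
    obtain ⟨k, m, hm, e⟩ := Nat.exists_eq_two_pow_mul_odd (orderOf_pos d).ne'
    refine ⟨k, hCW ▸ cent_of_omega hWc hW2 (le_normalizer_of_normal (mem_top _)) ?_ (pow_mem hd _)⟩
    refine Nat.Coprime.coprime_dvd_left (orderOf_dvd_of_pow_eq_one (n := m) ?_) hm.coprime_two_right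
    rw [← pow_mul, ← e, pow_orderOf_eq_one]
  have hO : pCore 2 (X ⧸ centralizer (V : Set X)) = ⊥ := by
    have h1 := key ((pCore 2 (X ⧸ centralizer (V : Set X))).comap (QuotientGroup.mk' _)) inferInstance
      fun d hd => by
        obtain ⟨k, hk⟩ := Core.pCore_isPGroup (p := 2) (G := X ⧸ centralizer (V : Set X)) ⟨_, hd⟩
        refine ⟨k, hCV ▸ (QuotientGroup.eq_one_iff _).1 ?_⟩
        exact congrArg Subtype.val hk
    rw [eq_bot_iff]
    intro q hq
    obtain ⟨d, rfl⟩ := QuotientGroup.mk'_surjective _ q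
    exact (QuotientGroup.eq_one_iff _).2 (hCV ▸ h1 hq)
  by_cases hYC : Y ≤ C
  · exact Or.inl hYC
  right
  have h := ffSetup_holRep hVe hO Y (Core.isPSolvable_of_solvable 2 inferInstance)
  have hg : FFSetup.TvGen 2 (holV V) (Y.map (holRep V)) := by
    intro L hL
    rw [map_le_iff_le_comap]
    refine le_trans (normalClosure_le_normal (N := (L.comap (holRep V)).normalCore) ?_) (normalCore_le _)
    refine (Transfer.thompsonSubgroupOf_le_iff.2 fun A hA => ?_ : J ≤ _)
    intro a ha g
    have hAY : A ≤ Y := (Transfer.le_thompsonSubgroupOf hA).trans le_normalClosure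
    have h1 := H4J.wb_le h (map_mono hAY) ((T.isPGroup'.to_le hA.1).map _)
      (best_map_holRep (Transfer.isBestOffenderOn_of_mem_maxEA hA (hVW.trans hWT)
        ⟨hVe.1, fun x _ => pow_zero x⟩)) (L := LocalEven.cj (holRep V g)⁻¹ L) (fun S hS hS' => by
          rw [LocalEven.le_cj_iff, inv_inv]
          refine hL _ (LocalEven.cj_le_iff'.2 fun s hs => ?_)
            (hS'.cj (le_normalizer_of_normal (mem_top _)))
          obtain ⟨y, hy, rfl⟩ := hS hs
          exact ⟨g * y * g⁻¹, Normal.conj_mem inferInstance y (hAY hy) g, by simp⟩)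
    have h2 := h1 ⟨a, ha, rfl⟩
    rw [LocalEven.mem_cj_inv] at h2
    rw [mem_comap, map_mul, map_mul, map_inv]
    exact h2
  obtain ⟨n, hn, ⟨e⟩⟩ := prod_iso h hg fun e => hYC (by
    rwa [Subgroup.map_eq_bot_iff, ker_holRep, hCV] at e)
  refine ⟨n, hn, ⟨MulEquiv.trans ?_ e⟩⟩
  have hker : C.subgroupOf Y = ((holRep V).subgroupMap Y).ker := by
    ext x
    rw [mem_subgroupOf, ← hCV, ← holRep_eq_one_iff, MonoidHom.mem_ker, Subtype.ext_iff]
    rfl
  exact (QuotientGroup.quotientMulEquivOfEq hker).trans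
    (QuotientGroup.quotientKerEquivOfSurjective _ ((holRep V).subgroupMap_surjective Y))

end Cfsg.Agent.S4302
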