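import Mathlib
import Cfsg.Statements.S4303
import Cfsg.Agent.FGS.SylowNum2

set_option autoImplicit false
universe u
open Cfsg

namespace Cfsg.Agent.S4303

/-- For a finite group `G` and a prime `p`, the number of Sylow `p`-subgroups of `G` is a product of natural numbers each of which is either a prime power congruent to 1 modulo `p` or the number of Sylow `p`-subgroups of some finite simple group. -/
theorem result {G : Type u} [Group G] [Finite G]
    (p : ℕ) [Fact p.Prime] :
    ∃ l : List ℕ, l.prod = Nat.card (Sylow p G) ∧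
      ∀ m ∈ l, (IsPrimePow m ∧ m % p = 1) ∨
        ∃ (S : Type u) (_ : Group S) (_ : Finite S), IsSimpleGroup S ∧ m = Nat.card (Sylow p S) := by
  refine FGS.sylow_number_induction (p := p) (C := fun G _ => True)
    (fun G _ H h => trivial) (fun G _ N _ h => trivial)
    (Q := fun n => ∃ l : List ℕ, l.prod = n ∧ ∀ m ∈ l, (IsPrimePow m ∧ m % p = 1) ∨
        ∃ (S : Type u) (_ : Group S) (_ : Finite S), IsSimpleGroup S ∧ m = Nat.card (Sylow p S))
    ?_ ?_ ?_ G trivial
  · rintro a b ⟨l, rfl, hl⟩ ⟨l', rfl, hl'⟩
    refine ⟨l ++ l', List.prod_append, fun m hm => ?_⟩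
    exact (List.mem_append.mp hm).elim (hl m) (hl' m)
  · intro n h0 h
    refine ⟨n.primeFactors.toList.map fun l => l ^ n.factorization l, ?_, fun m hm => Or.inl ?_⟩
    · rw [Finset.prod_map_toList]
      exact Nat.prod_factorization_pow_eq_self h0
    · obtain ⟨l, hl, rfl⟩ := List.mem_map.mp hm
      rw [Finset.mem_toList] at hl
      have hl' := Nat.prime_of_mem_primeFactors hl
      refine ⟨hl'.isPrimePow.pow ?_, ?_⟩
      · exact (hl'.factorization_pos_of_dvd h0 (Nat.dvd_of_mem_primeFactors hl)).ne'
      · rw [h l hl', Nat.mod_eq_of_lt (Fact.out : p.Prime).one_lt]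
  · intro G _ _ _ _
    exact ⟨[Nat.card (Sylow p G)], by simp, fun m hm =>
      Or.inr ⟨G, inferInstance, inferInstance, inferInstance, by simpa using hm⟩⟩

end Cfsg.Agent.S4303
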