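import Mathlib
import Cfsg.Statements.S4331
import Cfsg.Agent.FGS.Casolo
import Cfsg.Agent.FGS.Basic2
import Cfsg.Agent.Core.Cores

set_option autoImplicit false
open Cfsg

namespace Cfsg.Agent.S4331

open Subgroup

/-- the semidihedral group of order 16 -/
def H : Type := ZMod 8 × ZMod 2

instance : DecidableEq H := inferInstanceAs (DecidableEq (ZMod 8 × ZMod 2))
instance : Fintype H := inferInstanceAs (Fintype (ZMod 8 × ZMod 2))
instance : Mul H := ⟨fun x y => ((x.1 + if x.2 = 0 then y.1 else 3 * y.1, x.2 + y.2) : ZMod 8 × ZMod 2)⟩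
instance : One H := ⟨((0, 0) : ZMod 8 × ZMod 2)⟩
instance : Inv H := ⟨fun x => ((if x.2 = 0 then -x.1 else -(3 * x.1), x.2) : ZMod 8 × ZMod 2)⟩
instance : Group H := Group.ofLeftAxioms (by decide +kernel) (by decide +kernel) (by decide +kernel)

/-- the additive group of the field with nine elements -/
abbrev N : Type := Multiplicative (ZMod 3 × ZMod 3)

/-- semilinear action -/
def act (h : H) (v : N) : N :=
  (fun w : N => Multiplicative.ofAdd (w.toAdd.1 - w.toAdd.2, w.toAdd.1 + w.toAdd.2))^[h.1.val]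
    (if h.2 = 0 then v else Multiplicative.ofAdd (v.toAdd.1, -v.toAdd.2))

theorem act1 : ∀ h v, act h⁻¹ (act h v) = v := by decide +kernel
theorem act2 : ∀ h v, act h (act h⁻¹ v) = v := by decide +kernel
theorem act3 : ∀ h v w, act h (v * w) = act h v * act h w := by decide +kernel
theorem act4 : ∀ v, act 1 v = v := by decide +kernel
theorem act5 : ∀ h k v, act (h * k) v = act h (act k v) := by decide +kernel

/-- the action as a homomorphism -/
def φ : H →* MulAut N where
  toFun h := ⟨⟨act h, act h⁻¹, act1 h, act2 h⟩, act3 h⟩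
  map_one' := MulEquiv.ext act4
  map_mul' h k := MulEquiv.ext (act5 h k)

/-- the Frobenius involution -/
def a : N ⋊[φ] H := ⟨1, ((0, 1) : ZMod 8 × ZMod 2)⟩

/-- a translation -/
def v : N ⋊[φ] H := ⟨Multiplicative.ofAdd (0, 1), 1⟩

theorem ord3 : (a * (v * a * v⁻¹)) ^ 3 = 1 ∧ a * (v * a * v⁻¹) ≠ 1 := by decide +kernel

theorem key : ∀ (n : N) (h : H), ∃ (m : N) (k : H),
    ((⟨m, k⟩ : N ⋊[φ] H) * ⟨n, h⟩ * (⟨m, k⟩ : N ⋊[φ] H)⁻¹).left = 1 ∨
    ((⟨m, k⟩ : N ⋊[φ] H) * ⟨n, h⟩ * (⟨m, k⟩ : N ⋊[φ] H)⁻¹) * a =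
      a * ((⟨m, k⟩ : N ⋊[φ] H) * ⟨n, h⟩ * (⟨m, k⟩ : N ⋊[φ] H)⁻¹) := by decide +kernel

/-- There is a finite solvable group G with a subgroup A of order 2 such that every conjugacy class of G contains an element g for which A is subnormal in the subgroup generated by A and g, and yet A is not contained in O_2(G). (So the corresponding criteria for odd primes fail at the prime 2, even for solvable groups.) -/
theorem result :
    ∃ (G : Type) (_ : Group G) (_ : Finite G) (A : Subgroup G), Group.IsSolvable G ∧ Nat.card A = 2 ∧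
      (∀ c : G, ∃ g : G, IsConj c g ∧ (A.subgroupOf (A ⊔ Subgroup.zpowers g)).IsSubnormal) ∧
      ¬ A ≤ Cfsg.pCore 2 G := by
  haveI := Fact.mk Nat.prime_two
  haveI := Fact.mk Nat.prime_three
  haveI : Finite (N ⋊[φ] H) := Finite.of_equiv _ SemidirectProduct.equivProd.symm
  haveI := Fintype.ofFinite (N ⋊[φ] H)
  have hH : IsPGroup 2 H := IsPGroup.of_card (n := 4) (by rw [Nat.card_eq_fintype_card]; rfl)
  have ha : orderOf a = 2 := orderOf_eq_prime (by decide +kernel) (by decide +kernel)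
  have hA : IsPGroup 2 (zpowers a) := FGS.isPGroup_zpowers (k := 1) (by rwa [pow_one])
  refine ⟨N ⋊[φ] H, inferInstance, inferInstance, zpowers a, ?_, by rw [Nat.card_zpowers, ha], ?_, fun h => ?_⟩
  · haveI := hH.isNilpotent
    haveI : Group.IsSolvable H := inferInstance
    haveI : Group.IsSolvable N := inferInstance
    exact Group.isSolvable_of_ker_le_range SemidirectProduct.inl SemidirectProduct.rightHom
      SemidirectProduct.range_inl_eq_ker_rightHom.ge
  · rintro ⟨n, h⟩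
    obtain ⟨m, k, hk⟩ := key n h
    refine ⟨_, isConj_iff.mpr ⟨⟨m, k⟩, rfl⟩, (FGS.isSubnormal_iff_exists hA _).mpr ?_⟩
    generalize (⟨m, k⟩ : N ⋊[φ] H) * ⟨n, h⟩ * (⟨m, k⟩ : N ⋊[φ] H)⁻¹ = g at hk
    rcases hk with hk | hk
    · refine ⟨SemidirectProduct.inr.range, ?_, zpowers_le.mpr ⟨_, rfl⟩, le_normalizer ⟨g.right, ?_⟩⟩
      · exact hH.of_surjective _ (MonoidHom.rangeRestrict_surjective _)
      · exact SemidirectProduct.ext hk.symm rfl
    · refine ⟨_, hA, le_rfl, centralizer_le_normalizer _ ?_⟩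
      rintro _ ⟨i, rfl⟩
      exact ((show Commute g a from hk).zpow_right i).symm
  · have h1 : a * (v * a * v⁻¹) ∈ Cfsg.pCore 2 (N ⋊[φ] H) :=
      mul_mem (h (mem_zpowers a)) (Normal.conj_mem inferInstance _ (h (mem_zpowers a)) v)
    have h3 : orderOf (a * (v * a * v⁻¹)) = 3 := orderOf_eq_prime ord3.1 ord3.2
    obtain ⟨k, hk⟩ := (Core.pCore_isPGroup 2).exists_orderOf_eq_pow ⟨_, h1⟩
    rw [orderOf_mk, h3] at hk
    exact absurd (Nat.prime_three.dvd_of_dvd_pow hk.dvd) (by decide)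

end Cfsg.Agent.S4331
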