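import Mathlib
import Cfsg.Statements.S4332
import Cfsg.Agent.FGS.SymN
import Cfsg.Agent.FGS.Basic2
import Cfsg.Agent.Core.Cores

set_option autoImplicit false
open Pointwise
open Cfsg

namespace Cfsg.Agent.S4332

open Equiv Equiv.Perm

theorem comb (c : Perm (Fin 8)) : ∃ a b d : Fin 8, a ≠ b ∧ a ≠ d ∧ b ≠ d ∧
    ((c a = a ∧ c b = b ∧ c d = d) ∨ (c a = b ∧ c b = d ∧ c d = a) ∨
      ∀ x ∈ ({a, b, d} : Finset (Fin 8)), c x ∉ ({a, b, d} : Finset (Fin 8))) := by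
  by_cases h6 : c.support.card ≤ 5
  · obtain ⟨a, b, d, ha, hb, hd, h1, h2, h3⟩ := Finset.two_lt_card_iff.mp
      (show 2 < c.supportᶜ.card by rw [Finset.card_compl, Fintype.card_fin]; omega)
    simp only [Finset.mem_compl, mem_support, not_not] at ha hb hd
    exact ⟨a, b, d, h1, h2, h3, Or.inl ⟨ha, hb, hd⟩⟩
  by_cases h3 : ∃ a, c a ≠ a ∧ c (c (c a)) = a
  · obtain ⟨a, h1, h2⟩ := h3
    refine ⟨a, c a, c (c a), h1.symm, fun h => h1 (by rw [← h] at h2; exact h2),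
      fun h => h1 (c.injective h).symm, Or.inr (Or.inl ⟨rfl, rfl, h2⟩)⟩
  push Not at h3
  have hex : ∀ E : Finset (Fin 8), E.card ≤ 5 → ∃ d, c d ≠ d ∧ d ∉ E := fun E hE => by
    obtain ⟨d, h1, h2⟩ := Finset.exists_mem_notMem_of_card_lt_card (show E.card < c.support.card by omega)
    exact ⟨d, mem_support.mp h1, h2⟩
  obtain ⟨a, ha, -⟩ := hex ∅ (by simp)
  have hfin : ∀ b u, c b ≠ b → a ≠ b → c a ≠ b → c b ≠ a → (c.symm a = u ∨ c.symm a = c a) →
      (c.symm b = u ∨ c.symm b = c a) → ∃ a b d : Fin 8, a ≠ b ∧ a ≠ d ∧ b ≠ d ∧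
      ((c a = a ∧ c b = b ∧ c d = d) ∨ (c a = b ∧ c b = d ∧ c d = a) ∨
      ∀ x ∈ ({a, b, d} : Finset (Fin 8)), c x ∉ ({a, b, d} : Finset (Fin 8))) := by
    intro b u h1 h2 h3 h4 h5 h6
    obtain ⟨d, hd, hd'⟩ := hex {a, c a, b, c b, u} Finset.card_le_five
    simp only [Finset.mem_insert, Finset.mem_singleton, not_or] at hd'
    obtain ⟨k1, k2, k3, k4, k5⟩ := hd'
    refine ⟨a, b, d, h2, Ne.symm k1, Ne.symm k3, Or.inr (Or.inr ?_)⟩
    simp only [Finset.mem_insert, Finset.mem_singleton, not_or, forall_eq_or_imp, forall_eq]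
    refine ⟨⟨ha, h3, Ne.symm k2⟩, ⟨h4, h1, Ne.symm k4⟩, fun h => ?_, fun h => ?_, hd⟩
    · rw [(symm_apply_eq c).mpr h.symm] at h5; tauto
    · rw [(symm_apply_eq c).mpr h.symm] at h6; tauto
  by_cases h2 : c (c a) = a
  · obtain ⟨b, hb, hb'⟩ := hex {a, c a} (Finset.card_le_two.trans (by norm_num))
    simp only [Finset.mem_insert, Finset.mem_singleton, not_or] at hb'
    exact hfin b _ hb (Ne.symm hb'.1) (Ne.symm hb'.2) (fun h => hb'.2 (c.injective (h.trans h2.symm)))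
      (Or.inr (by rw [symm_apply_eq, h2])) (Or.inl rfl)
  · exact hfin (c (c a)) _ (fun h => ha (c.injective (c.injective h))) (Ne.symm h2)
      (fun h => ha (c.injective h).symm) (h3 a ha) (Or.inl rfl) (Or.inr (by simp))

theorem comb2 (c : Perm (Fin 8)) : ∃ τ : Perm (Fin 8), τ.IsThreeCycle ∧ Commute τ (c * τ * c⁻¹) := by
  obtain ⟨a, b, d, h1, h2, h3, h⟩ := comb c
  refine ⟨swap a b * swap a d, isThreeCycle_swap_mul_swap_same h1 h2 h3, ?_⟩
  rw [← conj_mul, ← swap_apply_apply, ← swap_apply_apply]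
  rcases h with ⟨k1, k2, k3⟩ | ⟨k1, k2, k3⟩ | h
  · rw [k1, k2, k3]
  · rw [k1, k2, k3]
    clear k1 k2 k3
    unfold Commute SemiconjBy
    revert a b d
    decide +kernel
  · simp only [Finset.mem_insert, Finset.mem_singleton, not_or, forall_eq_or_imp, forall_eq] at h
    obtain ⟨⟨k1, k2, k3⟩, ⟨k4, k5, k6⟩, k7, k8, k9⟩ := h
    have h4 := c.injective.ne h1
    have h5 := c.injective.ne h2
    have hd : ∀ {x y z w : Fin 8}, x ≠ y → z ≠ w → z ≠ x → z ≠ y → w ≠ x → w ≠ y →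
        Commute (swap x y) (swap z w) := fun h1 h2 h3 h4 h5 h6 =>
      (disjoint_swap_swap (by simp [h1, h2, h3.symm, h4.symm, h5.symm, h6.symm])).commute
    exact ((hd h1 h4 k1 k2 k4 k5).mul_right (hd h1 h5 k1 k2 k7 k8)).mul_left
      ((hd h2 h4 k1 k3 k4 k6).mul_right (hd h2 h5 k1 k3 k7 k9))

/-- In the symmetric group of degree 8, let A be the subgroup generated by a 3-cycle. Then every conjugacy class contains an element g for which A is subnormal in the subgroup generated by A and its conjugate by g, although O_3 of the symmetric group of degree 8 is trivial. -/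
theorem result
    (σ : Equiv.Perm (Fin 8)) (hσ : σ.IsThreeCycle) :
    (∀ c : Equiv.Perm (Fin 8), ∃ g : Equiv.Perm (Fin 8), IsConj c g ∧
      ((Subgroup.zpowers σ).subgroupOf (Subgroup.zpowers σ ⊔ MulAut.conj g • Subgroup.zpowers σ)).IsSubnormal) ∧
    Cfsg.pCore 3 (Equiv.Perm (Fin 8)) = ⊥ := by
  refine ⟨fun c => ?_, Core.pCore_eq_bot_iff.mpr fun N _ hN => ?_⟩
  · obtain ⟨τ, hτ, hc⟩ := comb2 c
    obtain ⟨h, rfl⟩ := isConj_iff.mp (isConj_iff_cycleType_eq.mpr (hτ.cycleType.trans hσ.cycleType.symm))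
    refine ⟨h * c * h⁻¹, isConj_iff.mpr ⟨h, rfl⟩, Subgroup.Normal.isSubnormal ?_⟩
    refine (Subgroup.normal_subgroupOf_iff_le_normalizer le_sup_left).mpr (sup_le Subgroup.le_normalizer ?_)
    refine le_trans ?_ (Subgroup.centralizer_le_normalizer _)
    rintro _ ⟨_, ⟨i, rfl⟩, rfl⟩ _ ⟨j, rfl⟩
    have h1 : Commute (h * τ * h⁻¹) ((h * c * h⁻¹) * (h * τ * h⁻¹) * (h * c * h⁻¹)⁻¹) := by
      have := hc.map (MulAut.conj h)
      simpa [mul_assoc] using this
    have h2 := h1.zpow_zpow j i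
    rw [conj_zpow (a := h * c * h⁻¹)] at h2
    exact h2
  · by_contra h
    haveI := Fact.mk Nat.prime_three
    obtain ⟨k, hk⟩ := IsPGroup.iff_card.mp hN
    have := FGS.card_dvd_of_normal_perm N h
    rw [hk, Nat.card_fin] at this
    exact absurd (Nat.prime_two.dvd_of_dvd_pow ((by norm_num : 2 ∣ 8).trans this)) (by norm_num)

end Cfsg.Agent.S4332
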