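import Mathlib
import Cfsg.Statements.S4333
import Cfsg.Agent.H2.Subnormal

set_option autoImplicit false
open Pointwise
open Cfsg

namespace Cfsg.Agent.S4333

/-- Let A be a subgroup of a finite group G. If A is subnormal in the subgroup generated by A and its conjugate by g⁻¹ a g, for every a ∈ A and every g ∈ G, then A is subnormal in G. (A sharpening of Wielandt's subnormality criterion: only conjugates of A by conjugates of elements of A are needed.) -/
theorem result {G : Type*} [Group G] [Finite G]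
    (A : Subgroup G)
    (h : ∀ a ∈ A, ∀ g : G, (A.subgroupOf (A ⊔ MulAut.conj (g⁻¹ * a * g) • A)).IsSubnormal) :
    A.IsSubnormal := by
  have key : ∀ H : Subgroup G, A ≤ H → H2.SN H A := by
    intro H
    induction H using WellFoundedLT.induction with
    | ind H ih =>
    intro hAH
    by_contra hn
    obtain ⟨M, hMH, hM⟩ := H2.zipper hAH (fun K h1 h2 => ih K h2 h1) hn
    have hAne : A < H := lt_of_le_of_ne hAH fun h => hn (h ▸ H2.SN.top)
    have hAM : A ≤ M := hM A le_rfl hAne
    have hnn : ¬ H ≤ Subgroup.normalizer (M : Set G) := fun h1 =>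
      hn ((H2.SN.of_normal hMH.le h1).trans (ih M hMH hAM))
    have hNM : H ⊓ Subgroup.normalizer (M : Set G) ≤ M := by
      refine hM _ (le_inf hAH (hAM.trans Subgroup.le_normalizer)) ?_
      exact lt_of_le_of_ne inf_le_left fun h1 => hnn (h1 ▸ inf_le_right)
    have h1 : ∀ a ∈ A, ∀ g ∈ H, g⁻¹ * a * g ∈ M := by
      intro a ha g hg
      set x := g⁻¹ * a * g with hx
      have hxH : x ∈ H := H.mul_mem (H.mul_mem (H.inv_mem hg) (hAH ha)) hg
      have h2 : MulAut.conj x • A ≤ M := by
        refine le_sup_right.trans (hM (A ⊔ MulAut.conj x • A) le_sup_left ?_)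
        refine lt_of_le_of_ne (sup_le hAH (H2.conj_smul_le_of_mem hAH hxH)) fun h2 => hn ?_
        rw [← h2]
        exact H2.SN.of_subgroupOf le_sup_left (h a ha g)
      have h3 : A ≤ MulAut.conj x⁻¹ • M := by
        have := H2.conj_smul_mono x⁻¹ h2
        rwa [H2.conj_smul_conj_smul, inv_mul_cancel, H2.conj_one_smul] at this
      have h4 : MulAut.conj x⁻¹ • M < H := by
        refine lt_of_le_of_ne (H2.conj_smul_le_of_mem hMH.le (H.inv_mem hxH)) fun h4 => hMH.ne ?_
        refine Subgroup.eq_of_le_of_card_ge hMH.le ?_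
        rw [← H2.card_conj_smul x⁻¹ M, h4]
      have h5 := H2.mem_normalizer_of_conj_smul_le (hM _ h3 h4)
      exact hNM ⟨hxH, by simpa using Subgroup.inv_mem _ h5⟩
    set J : Subgroup G := sSup ((fun g => MulAut.conj g • A) '' (H : Set G)) with hJ
    have hJM : J ≤ M := by
      refine sSup_le ?_
      rintro _ ⟨g, hg, rfl⟩ y hy
      rw [H2.mem_conj_smul] at hy
      have := h1 _ hy g⁻¹ (H.inv_mem hg)
      simpa [mul_assoc] using this
    have hAJ : A ≤ J := le_sSup ⟨1, H.one_mem, H2.conj_one_smul A⟩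
    have hJn : H ≤ Subgroup.normalizer (J : Set G) := by
      intro x hx
      refine H2.mem_normalizer_of_conj_smul_le ?_
      rw [hJ, H2.conj_smul_sSup]
      refine sSup_le_sSup ?_
      rintro _ ⟨_, ⟨g, hg, rfl⟩, rfl⟩
      exact ⟨x * g, H.mul_mem hx hg, (H2.conj_smul_conj_smul x g A).symm⟩
    have hJH : J < H := lt_of_le_of_lt hJM hMH
    exact hn ((H2.SN.of_normal hJH.le hJn).trans (ih J hJH hAJ))
  exact H2.SN.top_iff.1 (key ⊤ le_top)

end Cfsg.Agent.S4333
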