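import Mathlib
import Cfsg.Statements.S4334
import Cfsg.Agent.FGS.DPi

set_option autoImplicit false
open Cfsg

namespace Cfsg.Agent.S4334

/-- Let σ and τ be disjoint sets of primes with union π. Suppose a finite group G has a Hall π-subgroup H which is the direct product of a nilpotent σ-subgroup and a τ-subgroup (two elementwise-commuting subgroups generating H), and that the maximal τ-subgroups of G are pairwise conjugate. Then the maximal π-subgroups of G are pairwise conjugate. -/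
theorem result {G : Type*} [Group G] [Finite G]
    (σ τ π : Set ℕ) (hπ : π = σ ∪ τ) (hd : Disjoint σ τ) (H Hs Ht : Subgroup G) (hH : Cfsg.IsPiHall π H)
    (hs : Cfsg.IsPiSubgroup σ Hs) (ht : Cfsg.IsPiSubgroup τ Ht) (hsn : Group.IsNilpotent Hs)
    (hjoin : Hs ⊔ Ht = H) (hcomm : ∀ a ∈ Hs, ∀ b ∈ Ht, a * b = b * a) (hD : Cfsg.IsDPiGroup τ G) :
    Cfsg.IsDPiGroup π G := by
  classical
  subst hπ
  have hn : Ht ≤ Subgroup.normalizer (Hs : Set G) :=
    fun b hb => Subgroup.centralizer_le_normalizer _ fun a ha => hcomm a ha b hb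
  have hn' : Hs ≤ Subgroup.normalizer (Ht : Set G) :=
    fun b hb => Subgroup.centralizer_le_normalizer _ fun a ha => (hcomm b hb a ha).symm
  have i1 : ∀ q : ℕ, q.Prime → q ∈ σ → ¬ q ∣ Hs.index := fun q hq h hd' => by
    rw [← Subgroup.relIndex_mul_index (hjoin ▸ le_sup_left : Hs ≤ H), ← hjoin,
      Core.relIndex_sup_of_le_normalizer hn, hjoin, hq.dvd_mul] at hd'
    exact hd'.elim (fun h1 => Set.disjoint_left.mp hd h (ht q hq (h1.trans (Core.relIndex_dvd_card' _ _))))
      (hH.2 q hq (Or.inl h))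
  have i2 : ∀ q : ℕ, q.Prime → q ∈ τ → ¬ q ∣ Ht.index := fun q hq h hd' => by
    rw [← Subgroup.relIndex_mul_index (hjoin ▸ le_sup_right : Ht ≤ H), ← hjoin, sup_comm,
      Core.relIndex_sup_of_le_normalizer hn', sup_comm, hjoin, hq.dvd_mul] at hd'
    exact hd'.elim (fun h1 => Set.disjoint_left.mp hd (hs q hq (h1.trans (Core.relIndex_dvd_card' _ _))) h)
      (hH.2 q hq (Or.inr h))
  have key : ∀ s : Finset ℕ, (∀ p ∈ s, p.Prime ∧ p ∈ σ) → ∃ T ≤ H,
      (∀ q : ℕ, q.Prime → q ∈ (s : Set ℕ) ∪ τ → ¬ q ∣ T.index) ∧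
      (∀ x ∈ Hs, (∀ q ∈ s, ¬ q ∣ orderOf x) → ∀ y ∈ T, x * y = y * x) ∧ FGS.Cov ((s : Set ℕ) ∪ τ) T := by
    intro s
    induction s using Finset.induction_on with
    | empty =>
      exact fun _ => ⟨Ht, hjoin ▸ le_sup_right, by simpa using i2, fun x hx _ y hy => hcomm x hx y hy,
        by simpa using FGS.cov_of_isDPiGroup hD ⟨ht, i2⟩⟩
    | insert p s hps ih =>
      intro h
      obtain ⟨T, h1, h2, h3, h4⟩ := ih fun q hq => h q (Finset.mem_insert_of_mem hq)
      obtain ⟨hp, hpσ⟩ := h p (Finset.mem_insert_self p s)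
      haveI := Fact.mk hp
      obtain ⟨P, hP⟩ := FGS.exists_sylow_le_of_not_dvd_index (i1 p hp hpσ)
      refine ⟨P ⊔ T, sup_le (hP.trans (hjoin ▸ le_sup_left)) h1, fun q hq hq' hd' => ?_,
        fun x hx hxs y hy => ?_, ?_⟩
      · rw [Finset.coe_insert, Set.insert_union] at hq'
        rcases hq' with rfl | hq'
        · exact FGS.not_dvd_index_of_sylow_le P le_sup_left hd'
        · exact h2 q hq hq' (hd'.trans (Subgroup.index_dvd_of_le le_sup_right))
      · refine Subgroup.mem_centralizer_singleton_iff.mp ((sup_le (fun z hz => ?_) fun z hz => ?_ :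
          (P : Subgroup G) ⊔ T ≤ Subgroup.centralizer {x}) hy) |>.symm
        · obtain ⟨k, hk⟩ := FGS.exists_orderOf_eq_of_mem P.isPGroup' hz
          exact Subgroup.mem_centralizer_singleton_iff.mpr (FGS.commute_of_nilpotent hsn (hP hz) hx hk
            ((Nat.Prime.coprime_iff_not_dvd hp).mpr (hxs p (Finset.mem_insert_self p s))).symm)
        · exact Subgroup.mem_centralizer_singleton_iff.mpr
            (h3 x hx (fun q hq => hxs q (Finset.mem_insert_of_mem hq)) z hz).symm
      · rw [Finset.coe_insert, Set.insert_union]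
        refine h4.step P (fun y hy x hx => h3 x (hP hx) (fun q hq hd' => ?_) y hy) h2
        obtain ⟨k, hk⟩ := FGS.exists_orderOf_eq_of_mem P.isPGroup' hx
        have hq' := (h q (Finset.mem_insert_of_mem hq)).1
        rw [hk] at hd'
        exact hps ((Nat.prime_dvd_prime_iff_eq hq' hp).mp (hq'.dvd_of_dvd_pow hd') ▸ hq)
  obtain ⟨T, h1, -, -, h4⟩ := key ((Nat.card G).primeFactors.filter (· ∈ σ)) fun p hp =>
    ⟨Nat.prime_of_mem_primeFactors (Finset.mem_filter.mp hp).1, (Finset.mem_filter.mp hp).2⟩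
  refine FGS.Cov.isDPiGroup (T := H) (fun K hK => ?_) hH.1
  obtain ⟨g, hg⟩ := h4 K fun q hq hd' => (hK q hq hd').imp_left fun h => Finset.mem_coe.mpr
    (Finset.mem_filter.mpr ⟨Nat.mem_primeFactors.mpr ⟨hq, hd'.trans (Subgroup.card_subgroup_dvd_card K),
      Nat.card_pos.ne'⟩, h⟩)
  exact ⟨g, hg.trans h1⟩

end Cfsg.Agent.S4334
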