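import Mathlib
import Cfsg.Statements.S4337
import Cfsg.Agent.Perm.SolvOrbit

set_option autoImplicit false
open Cfsg

namespace Cfsg.Agent.S4337


/-- In a finite symmetric group, any three transpositions generate a solvable subgroup. -/
theorem result (n : ℕ) (a b c : Equiv.Perm (Fin n))
    (ha : a.IsSwap) (hb : b.IsSwap) (hc : c.IsSwap) :
    Group.IsSolvable (Subgroup.closure ({a, b, c} : Set (Equiv.Perm (Fin n)))) := by
  obtain ⟨a1, a2, -, rfl⟩ := ha
  obtain ⟨b1, b2, -, rfl⟩ := hb
  obtain ⟨c1, c2, -, rfl⟩ := hc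
  refine Perm.isSolvable_of_invariant_sets (α := Fin n) fun x => ?_
  obtain ⟨S, h1, h2, h3⟩ := Perm.exists_closed_finset {(a1, a2), (b1, b2), (c1, c2)} {x}
  have hs : ∀ u v : Fin n, (u ∈ S ↔ v ∈ S) → ∀ y, y ∈ S ↔ Equiv.swap u v y ∈ S := fun u v h y => by
    rw [Equiv.swap_apply_def]
    split_ifs with h1 h2
    · rw [h1, h]
    · rw [h2, h]
    · rfl
  refine ⟨⟨S, fun g y hy => ?_⟩, h1 (by simp), Perm.isSolvable_perm_of_card_le_four _ ?_⟩
  · obtain ⟨g, hg⟩ := g
    suffices ∀ y, y ∈ S ↔ g y ∈ S from (this y).mp hy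
    induction hg using Subgroup.closure_induction with
    | mem g hg =>
      rcases hg with rfl | rfl | rfl
      · exact hs _ _ (h3 (a1, a2) (by simp))
      · exact hs _ _ (h3 (b1, b2) (by simp))
      · exact hs _ _ (h3 (c1, c2) (by simp))
    | one => exact fun _ => Iff.rfl
    | mul g h _ _ hg hh => exact fun y => (hh y).trans (hg _)
    | inv g _ hg => exact fun y => by simpa using (hg (g⁻¹ y)).symm
  · change Nat.card S ≤ 4
    have : ({(a1, a2), (b1, b2), (c1, c2)} : Finset (Fin n × Fin n)).card ≤ 3 := Finset.card_le_three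
    rw [Nat.card_eq_fintype_card, Fintype.card_coe]
    simp only [Finset.card_singleton] at h2
    omega

end Cfsg.Agent.S4337
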