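import Mathlib
import Cfsg.Statements.S4343
import Cfsg.Agent.FGS.SylowNum
import Cfsg.Agent.Core.Cores

set_option autoImplicit false
open Cfsg

namespace Cfsg.Agent.S4343

open Subgroup

/-- Let S be a finite non-abelian simple group and p a prime dividing its order. If S has fewer than p² Sylow p-subgroups, then its Sylow p-subgroups have order p. -/
theorem result {S : Type*} [Group S] [Finite S]
    [IsSimpleGroup S] (hS : ¬ IsMulCommutative S) (p : ℕ) [Fact p.Prime] (hp : p ∣ Nat.card S)
    (hn : Nat.card (Sylow p S) < p ^ 2) (P : Sylow p S) : Nat.card P = p := by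
  have h1 : pCore p S = ⊥ := by
    refine (IsSimpleGroup.eq_bot_or_eq_top_of_normal _ inferInstance).resolve_right fun h => hS ?_
    have := (Core.pCore_eq_top_iff.mp h).isNilpotent
    exact ⟨⟨(IsSimpleGroup.comm_iff_isSolvable).mpr inferInstance⟩⟩
  have h2 := FGS.card_sylow_dvd_of_lt_sq P (fun g hg => by
    rw [← mem_bot, ← h1, Core.pCore_eq_iInf_sylow, mem_iInf]; exact hg) hn
  exact Nat.dvd_antisymm h2 (P.dvd_card_of_dvd_card hp)

end Cfsg.Agent.S4343
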