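import Mathlib
import Cfsg.Statements.S4344
import Cfsg.Agent.FGS.SylowNum
import Cfsg.Agent.Core.Cores

set_option autoImplicit false
open Cfsg

namespace Cfsg.Agent.S4344

open Subgroup

/-- Let S be a finite non-abelian simple group, M a maximal subgroup of S and C a cyclic normal subgroup of M. If a Sylow p-subgroup P of S (for a prime p dividing the order of S) is contained in C, then the number of Sylow p-subgroups of S equals the index of M. -/
theorem result {S : Type*} [Group S] [Finite S]
    [IsSimpleGroup S] (hS : ¬ IsMulCommutative S) (p : ℕ) [Fact p.Prime] (hp : p ∣ Nat.card S)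
    (M : Subgroup S) (hM : IsCoatom M) (C : Subgroup S) (hCM : C ≤ M) (hCn : (C.subgroupOf M).Normal)
    (hC : IsCyclic C) (P : Sylow p S) (hP : (P : Subgroup S) ≤ C) :
    Nat.card (Sylow p S) = M.index := by
  have h1 : M ≤ normalizer ((P : Subgroup S) : Set S) := by
    obtain ⟨g, hg⟩ := (Subgroup.isCyclic_iff_exists_zpowers_eq_top C).mp hC
    have hn : M ≤ normalizer (C : Set S) := (normal_subgroupOf_iff_le_normalizer hCM).mp hCn
    rw [le_normalizer_iff]
    intro m hm x hx
    obtain ⟨a, ha⟩ := mem_zpowers_iff.mp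
      (hg ▸ Core.conj_mem_of_le_normalizer hn hm (hg ▸ mem_zpowers g) : m * g * m⁻¹ ∈ zpowers g)
    obtain ⟨k, rfl⟩ := mem_zpowers_iff.mp (hg ▸ hP hx : x ∈ zpowers g)
    have : m * g ^ k * m⁻¹ = (g ^ k) ^ a := by
      rw [← conj_zpow, ← ha, ← zpow_mul, ← zpow_mul, mul_comm]
    rw [this]; exact zpow_mem hx a
  rw [FGS.card_sylow_eq P]
  rcases eq_or_lt_of_le h1 with h | h
  · rw [← h]
  · exfalso
    have hn := normalizer_eq_top_iff.mp (hM.2 _ h)
    rcases hn.eq_bot_or_eq_top with h2 | h2
    · exact P.ne_bot_of_dvd_card hp h2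
    · exact hM.1 (top_le_iff.mp (h2 ▸ hP.trans hCM))

end Cfsg.Agent.S4344
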