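import Mathlib
import Cfsg.Statements.S4345
import Cfsg.Agent.FGS.SylowNum2

set_option autoImplicit false
open Cfsg

namespace Cfsg.Agent.S4345

open Subgroup

/-- Let G be a finite solvable group and p, ℓ primes. Then the largest power of ℓ dividing the number of Sylow p-subgroups of G is congruent to 1 modulo p. -/
theorem result {G : Type*} [Group G] [Finite G]
    (hG : Group.IsSolvable G) (p ℓ : ℕ) [Fact p.Prime] (hℓ : ℓ.Prime) :
    ℓ ^ (Nat.card (Sylow p G)).factorization ℓ ≡ 1 [MOD p] := by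
  refine (FGS.sylow_number_induction (p := p) (C := fun G _ => Group.IsSolvable G)
    (fun G _ H h => inferInstance) (fun G _ N _ h => inferInstance)
    (Q := fun n => n ≠ 0 ∧ ℓ ^ n.factorization ℓ ≡ 1 [MOD p]) ?_ (fun n h0 h => ⟨h0, h ℓ hℓ⟩) ?_ G hG).2
  · intro a b ha hb
    refine ⟨mul_ne_zero ha.1 hb.1, ?_⟩
    rw [Nat.factorization_mul ha.1 hb.1, Finsupp.add_apply, pow_add]
    simpa using ha.2.mul hb.2
  · intro G _ _ _ h
    obtain ⟨P⟩ : Nonempty (Sylow p G) := inferInstance
    have : IsMulCommutative G := ⟨⟨(IsSimpleGroup.comm_iff_isSolvable).mpr h⟩⟩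
    have : Nat.card (Sylow p G) = 1 := by
      rw [FGS.card_sylow_eq P, index_eq_one, normalizer_eq_top_iff]; infer_instance
    rw [this]
    simp [Nat.ModEq]

end Cfsg.Agent.S4345
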