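import Mathlib
import Cfsg.Statements.S4346
import Cfsg.Agent.Inv.W2p3
import Cfsg.Agent.FGS.SylowNum
import Cfsg.Agent.Perm.NormalSub

set_option autoImplicit false
open Cfsg

namespace Cfsg.Agent.S4346

open Subgroup MulAction
open scoped Pointwise

theorem card_orbit {G X : Type*} [Group G] [MulAction G X] (H : Subgroup G) (x : X) :
    (orbit H x).ncard * Nat.card (H ⊓ stabilizer G x : Subgroup G) = Nat.card H := by
  rw [← Perm.card_orbit_mul_card_stabilizer (G := H) x]
  congr 1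
  rw [← Nat.card_congr (subgroupOfEquivOfLe (inf_le_left : H ⊓ stabilizer G x ≤ H)).toEquiv,
    inf_subgroupOf_left]
  rfl
theorem arith1 (k : ℕ) (d1 : k - 1 ∣ 21) (d2 : k * (k - 1) ∣ 22 * 21) (d3 : k ≡ 1 [MOD 3])
    (d4 : 1 < k) : k = 22 := by
  have := Nat.le_of_dvd (by norm_num) d1
  have h6 : k ≤ 22 := by omega
  interval_cases k <;> simp_all [Nat.ModEq]

theorem arith2 (r i : ℕ) (h2 : r ≡ 1 [MOD 3]) (h3 : r * i = 22) (h4 : r ≠ 1) : i = 1 := by
  have h5 : r ∣ 22 := Dvd.intro _ h3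
  have h6 := Nat.le_of_dvd (by norm_num) h5
  unfold Nat.ModEq at h2
  interval_cases r <;> omega

/-- No finite group has exactly 22 Sylow 3-subgroups. -/
theorem result {G : Type*} [Group G] [Finite G] : Nat.card (Sylow 3 G) ≠ 22 := by
  classical
  haveI : Fact (Nat.Prime 3) := ⟨Nat.prime_three⟩
  refine FGS.card_sylow_ne_of_reduced (fun G _ _ _ _ hf _ h22 => ?_) G
  haveI : FaithfulSMul G (Sylow 3 G) := ⟨fun {g h} H => by
    rw [← mul_inv_eq_one]; exact hf _ fun P => by rw [mul_smul, H, smul_inv_smul]⟩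
  haveI := Fintype.ofFinite (Sylow 3 G)
  haveI : Nontrivial (Sylow 3 G) := Finite.one_lt_card_iff_nontrivial.mp (by omega)
  obtain ⟨P, Q, hPQ⟩ := exists_pair_ne (Sylow 3 G)
  have hst : ∀ R : Sylow 3 G, stabilizer G R = normalizer ((R : Subgroup G) : Set G) :=
    Sylow.stabilizer_eq_normalizer
  have hidx : (stabilizer G P).index = 22 := by rw [hst, ← FGS.card_sylow_eq, h22]
  haveI : IsPreprimitive G (Sylow 3 G) := by
    refine (isCoatom_stabilizer_iff_preprimitive G P).mp ⟨fun h => by simp [h] at hidx, fun M hM => ?_⟩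
    have h1 := FGS.card_sylow_of_le P (K := M) (le_normalizer.trans (hst P ▸ hM.le))
    have h2 := card_sylow_modEq_one 3 M
    have h3 := relIndex_mul_index hM.le
    rw [h1, ← hst] at h2
    rw [hidx] at h3
    have h4 : (stabilizer G P).relIndex M ≠ 1 := fun h => hM.not_ge (relIndex_eq_one.mp h)
    exact index_eq_one.mp (arith2 _ _ h2 h3 h4)
  have h2t : IsMultiplyPretransitive G (Sylow 3 G) 2 := by
    rcases Inv.W2p.wielandt (G := G) (p := 11) (by norm_num)
      (by rw [← Nat.card_eq_fintype_card, h22]) P with h | ⟨-, t, -, ht, -⟩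
    · exact h
    · have : t ≤ 2 := by nlinarith
      interval_cases t <;> omega
  have h21 : ({P}ᶜ : Set (Sylow 3 G)).ncard = 21 := by
    have := Set.ncard_add_ncard_compl ({P} : Set (Sylow 3 G))
    rw [Set.ncard_singleton, h22] at this
    omega
  have hP3 : Nat.card P ∣ 3 := by
    refine FGS.card_sylow_dvd_of_relIndex_dvd P (fun g hg => hf g fun R => ?_) fun R => ?_
    · exact mem_stabilizer_iff.mp (hst R ▸ le_normalizer (hg R))
    by_cases hR : R = P
    · simp [hR]
    have h1 := Perm.ncard_orbit_dvd (stabilizer G P) P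
      (fun g hg m hm => (mem_normalizer_iff.mp (hst P ▸ hg) m).mp hm) (hst P ▸ le_normalizer) {P}ᶜ
      (fun g hg x hx h => hx (smul_left_cancel g (h.trans (mem_stabilizer_iff.mp hg).symm)))
      (fun x hx y hy => by
        obtain ⟨g, h1, h2⟩ := Perm.two_trans h2t (Ne.symm hx) (Ne.symm hy)
        exact ⟨g, h1, h2⟩) (x := R) hR
    have h2 : (orbit (P : Subgroup G) R).ncard = (R : Subgroup G).relIndex P := by
      rw [← inf_relIndex_left, ← FGS.sylow_inf_normalizer, inf_relIndex_left, ← hst]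
      exact (index_stabilizer (P : Subgroup G) R).symm
    obtain ⟨k, hk⟩ := FGS.relIndex_sylow_eq_pow P R
    rw [h2, h21, hk] at h1
    rw [hk]
    rcases Nat.lt_or_ge k 2 with h | h
    · simpa using pow_dvd_pow 3 (show k ≤ 1 by omega)
    · have := (pow_dvd_pow 3 h).trans h1
      norm_num at this
  have hP3' : ∀ R : Sylow 3 G, Nat.card R = 3 := fun R => by
    rw [FGS.sylow_card_eq R P]
    refine ((Nat.dvd_prime Nat.prime_three).mp hP3).resolve_left fun h => hPQ (Sylow.ext ?_)
    rw [card_eq_one.mp h, card_eq_one.mp ((FGS.sylow_card_eq Q P).trans h)]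
  set c : Sylow 3 G → Subgroup G := fun R => centralizer ((R : Subgroup G) : Set G) with hc
  have hcs : ∀ R, c R ≤ stabilizer G R := fun R => hst R ▸ centralizer_le_normalizer _
  have hci : ∀ R, (c R).relIndex (stabilizer G R) ∣ 2 := fun R => by
    have := FGS.relIndex_centralizer_normalizer_dvd (R : Subgroup G)
    rwa [FGS.card_mulAut_of_prime (by rw [hP3']; exact Nat.prime_three), hP3', ← hst] at this
  have hcg : ∀ (g : G) (R : Sylow 3 G), c (g • R) = MulAut.conj g • c R := fun g R => by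
    ext y
    rw [FGS.mem_conj_iff]
    refine ⟨fun h z hz => ?_, fun h z hz => ?_⟩
    · have := h (g * z * g⁻¹) (smul_mem_pointwise_smul z (MulAut.conj g) (R : Subgroup G) hz)
      calc z * (g⁻¹ * y * g) = g⁻¹ * (g * z * g⁻¹ * y) * g := by group
        _ = _ := by rw [this]; group
    · have := h (g⁻¹ * z * g) (FGS.mem_conj_iff.mp hz)
      calc z * y = g * (g⁻¹ * z * g * (g⁻¹ * y * g)) * g⁻¹ := by group
        _ = _ := by rw [this]; group
  set L := c P ⊓ c Q with hL
  set B : Set (Sylow 3 G) := {R | L ≤ c R} with hB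
  set H := (stabilizer (MulAut G) L).comap MulAut.conj with hH
  have memH : ∀ g : G, g ∈ H ↔ MulAut.conj g • L = L := fun g => Iff.rfl
  have hBH : ∀ g ∈ H, ∀ R ∈ B, g • R ∈ B := fun g hg R hR => by
    change L ≤ c (g • R)
    rw [hcg, ← (memH g).mp hg]
    exact pointwise_smul_le_pointwise_smul_iff.mpr hR
  have hmem : ∀ g : G, g • P ∈ B → g • Q ∈ B → g ∈ H := fun g h1 h2 => by
    rw [memH]
    refine (eq_of_le_of_card_ge ?_ (FGS.card_conj L g).le).symm
    rw [hL, Subgroup.smul_inf, ← hcg, ← hcg]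
    exact le_inf h1 h2
  have hPB : P ∈ B := (inf_le_left : c P ⊓ c Q ≤ c P)
  have hQB : Q ∈ B := (inf_le_right : c P ⊓ c Q ≤ c Q)
  have o1 : orbit H P = B := by
    refine subset_antisymm (by rintro _ ⟨⟨g, hg⟩, rfl⟩; exact hBH g hg P hPB) fun R hR => ?_
    by_cases h : R = Q
    · obtain ⟨g, h1, h2⟩ := Perm.two_trans h2t hPQ hPQ.symm
      exact ⟨⟨g, hmem g (h1 ▸ hQB) (h2 ▸ hPB)⟩, h ▸ h1⟩
    · obtain ⟨g, h1, h2⟩ := Perm.two_trans h2t hPQ h
      exact ⟨⟨g, hmem g (by rwa [h1]) (by rwa [h2])⟩, h1⟩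
  have o2 : orbit (H ⊓ stabilizer G P : Subgroup G) Q = B \ {P} := by
    refine subset_antisymm ?_ fun R hR => ?_
    · rintro _ ⟨⟨g, hg⟩, rfl⟩
      exact ⟨hBH g hg.1 Q hQB, fun h => hPQ (smul_left_cancel g
        ((mem_stabilizer_iff.mp hg.2).trans h.symm))⟩
    · obtain ⟨g, h1, h2⟩ := Perm.two_trans h2t hPQ (Ne.symm hR.2)
      exact ⟨⟨g, hmem g (h1.symm ▸ hPB) (h2 ▸ hR.1), h1⟩, h2⟩
  have o3 : orbit (stabilizer G P) Q = {P}ᶜ := by
    refine subset_antisymm ?_ fun R hR => ?_
    · rintro _ ⟨⟨g, hg⟩, rfl⟩ h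
      exact hPQ (smul_left_cancel g ((mem_stabilizer_iff.mp hg).trans h.symm))
    · obtain ⟨g, h1, h2⟩ := Perm.two_trans h2t hPQ (Ne.symm hR)
      exact ⟨⟨g, h1⟩, h2⟩
  set T := stabilizer G P ⊓ stabilizer G Q with hT
  have hT0 : 0 < Nat.card T := Nat.card_pos
  have e1 := card_orbit H P
  have e2 := card_orbit (H ⊓ stabilizer G P) Q
  have e3 := card_orbit (stabilizer G P) Q
  have e4 := (stabilizer G P).index_mul_card
  rw [inf_assoc, inf_eq_right.mpr (show T ≤ H from fun g hg => hmem g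
    (by rw [mem_stabilizer_iff.mp hg.1]; exact hPB) (by rw [mem_stabilizer_iff.mp hg.2]; exact hQB)),
    o2, Set.ncard_sdiff_singleton_of_mem hPB] at e2
  rw [o1] at e1
  rw [o3, h21, ← hT] at e3
  rw [hidx, ← e3] at e4
  have d1 : B.ncard - 1 ∣ 21 := by
    have := card_dvd_of_le (inf_le_right : H ⊓ stabilizer G P ≤ _)
    rw [← e2, ← e3] at this
    exact Nat.dvd_of_mul_dvd_mul_right hT0 this
  have d2 : B.ncard * (B.ncard - 1) ∣ 22 * 21 := by
    have := card_subgroup_dvd_card H
    rw [← e1, ← e2, ← e4, ← mul_assoc, ← mul_assoc] at this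
    exact Nat.dvd_of_mul_dvd_mul_right hT0 this
  have d3 : B.ncard ≡ 1 [MOD 3] := by
    have hPH : (P : Subgroup G) ≤ H := fun g hg => by
      rw [memH]
      refine eq_of_le_of_card_ge ?_ (FGS.card_conj L g).ge
      rintro _ ⟨y, hy, rfl⟩
      have : g * y * g⁻¹ = y := mul_inv_eq_iff_eq_mul.mpr (hy.1 g hg)
      change g * y * g⁻¹ ∈ L
      rwa [this]
    have := FGS.ncard_modEq_of_invariant P.isPGroup' B fun g hg => hBH g (hPH hg)
    rwa [show {x | x ∈ B ∧ ∀ g ∈ (P : Subgroup G), g • x = x} = {P} from ?_, Set.ncard_singleton] at this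
    ext R
    refine ⟨fun h => ?_, fun h => ?_⟩
    · have h1 : (P : Subgroup G) ≤ R :=
        P.isPGroup'.sylow_mem_fixedPoints_iff.mp fun g => h.2 g g.2
      exact (Sylow.ext (eq_of_le_of_card_ge h1 (by rw [hP3', hP3']))).symm
    · rw [h]
      exact ⟨hPB, fun g hg => mem_stabilizer_iff.mp (hst P ▸ le_normalizer hg)⟩
  have d4 : 1 < B.ncard := (Set.one_lt_ncard).mpr ⟨P, hPB, Q, hQB, hPQ⟩
  have d5 : B.ncard = 22 := arith1 _ d1 d2 d3 d4
  have hBu : B = Set.univ := Set.eq_of_subset_of_ncard_le (Set.subset_univ _)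
    (by rw [Set.ncard_univ, h22, d5])
  have hL0 : L = ⊥ := eq_bot_iff.mpr fun g hg => hf g fun R =>
    hcs R ((show R ∈ B from hBu ▸ Set.mem_univ R) hg)
  have hT4 : Nat.card T ≤ 4 := by
    rw [← relIndex_bot_left, ← hL0]
    refine relIndex_inf_le.trans ((Nat.mul_le_mul ?_ ?_).trans (show 2 * 2 ≤ 4 from le_rfl))
    · exact (relIndex_le_of_le_right inf_le_left FiniteIndex.index_ne_zero).trans
        (Nat.le_of_dvd two_pos (hci P))
    · exact (relIndex_le_of_le_right inf_le_right FiniteIndex.index_ne_zero).trans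
        (Nat.le_of_dvd two_pos (hci Q))
  have hT3 : Nat.card T ≠ 3 := fun h => P.not_dvd_index (by
    have := (P : Subgroup G).index_mul_card
    rw [hP3', ← e4, h] at this
    omega)
  haveI : Fact (Nat.Prime 11) := ⟨by norm_num⟩
  obtain ⟨R⟩ : Nonempty (Sylow 11 G) := inferInstance
  have hR : Nat.card R = 11 := Perm.card_sylow_of_not_sq_dvd (by omega) (by omega) R
  have key : ∀ r : ℕ, r = 3 ∨ r = 7 → ¬ r ∣ Nat.card (normalizer ((R : Subgroup G) : Set G)) := by
    intro r hr hd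
    have hrp : r.Prime := by rcases hr with rfl | rfl <;> norm_num
    haveI := Fact.mk hrp
    have h1 := FGS.relIndex_centralizer_normalizer_dvd (R : Subgroup G)
    rw [FGS.card_mulAut_of_prime (by rw [hR]; norm_num), hR] at h1
    have h2 := relIndex_mul_relIndex ⊥ _ _ bot_le (centralizer_le_normalizer ((R : Subgroup G) : Set G))
    rw [relIndex_bot_left, relIndex_bot_left] at h2
    rw [← h2] at hd
    have h3 := ((Nat.Prime.dvd_mul hrp).mp hd).resolve_right fun h => by
      have := h.trans h1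
      rcases hr with rfl | rfl <;> norm_num at this
    obtain ⟨⟨z, hz⟩, hzo⟩ := exists_prime_orderOf_dvd_card' r h3
    rw [orderOf_mk] at hzo
    have h4 := FGS.ncard_modEq_of_invariant (X := Sylow 3 G)
      (FGS.isPGroup_zpowers (p := r) (k := 1) (x := z) (by rw [hzo, pow_one])) Set.univ
      fun _ _ _ _ => trivial
    set S := {x : Sylow 3 G | x ∈ Set.univ ∧ ∀ g ∈ zpowers z, g • x = x} with hS
    have h5 := FGS.ncard_modEq_of_invariant R.isPGroup' S fun g hg x hx => ⟨trivial, fun y hy => by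
      rw [← mul_smul, ← (zpowers_le.mpr hz hy) g hg, mul_smul, hx.2 y hy]⟩
    rw [show {x | x ∈ S ∧ ∀ g ∈ (R : Subgroup G), g • x = x} = ∅ from ?_, Set.ncard_empty] at h5
    · have h6 : S.ncard < 22 := by
        rw [← h22, ← Set.ncard_univ]
        refine Set.ncard_lt_ncard (Set.ssubset_univ_iff.mpr fun h => ?_)
        have := hf z fun x => (show x ∈ S from h ▸ Set.mem_univ x).2 z (mem_zpowers z)
        rw [this, orderOf_one] at hzo
        exact hrp.one_lt.ne hzo
      rw [Set.ncard_univ, h22] at h4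
      unfold Nat.ModEq at h4 h5
      rcases hr with rfl | rfl <;> omega
    · refine Set.eq_empty_of_forall_notMem fun x hx => ?_
      have h6 := card_dvd_of_le (show (R : Subgroup G) ≤ stabilizer G x from hx.2)
      have h7 := Perm.card_mul_card_stabilizer (G := G) x
      rw [hR] at h6
      rw [h22] at h7
      omega
  have f1 := card_sylow_modEq_one 11 G
  have f2 := (normalizer ((R : Subgroup G) : Set G)).index_mul_card
  obtain ⟨m, hm⟩ := card_dvd_of_le (le_normalizer (H := (R : Subgroup G)))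
  rw [← FGS.card_sylow_eq, ← e4] at f2
  have k3 := key 3 (Or.inl rfl)
  have k7 := key 7 (Or.inr rfl)
  rw [hR] at hm
  rw [hm] at f2 k3 k7
  generalize Nat.card (Sylow 11 G) = n at *
  generalize Nat.card T = t at *
  have f3 : n * m = 42 * t := by nlinarith
  have f4 : 21 ∣ n := by
    refine Nat.Coprime.dvd_of_dvd_mul_right (n := m) ?_ (by omega)
    exact Nat.Coprime.mul_left (m := 3) (n := 7)
      ((Nat.Prime.coprime_iff_not_dvd (by norm_num)).mpr fun h => k3 (h.mul_left _))
      ((Nat.Prime.coprime_iff_not_dvd (by norm_num)).mpr fun h => k7 (h.mul_left _))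
  have f5 : n ≤ 42 * t := Nat.le_of_dvd (by omega) (Dvd.intro _ f3)
  unfold Nat.ModEq at f1
  omega

end Cfsg.Agent.S4346
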