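import Mathlib
import Cfsg.Statements.S4354
import Cfsg.Agent.FGS.Sylow

set_option autoImplicit false
open Cfsg

namespace Cfsg.Agent.S4354

open Subgroup
open scoped Pointwise

/-- Let G be a finite group and p a prime such that the Sylow p-subgroups of G are non-abelian while every element of p-power order has conjugacy class size prime to p, and suppose no nontrivial proper normal subgroup N of G has this property and no quotient G/N by such an N has it. Then G is simple. -/
theorem result {G : Type*} [Group G] [Finite G]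
    (p : ℕ) [Fact p.Prime] (h : ((∃ P : Sylow p G, ¬ IsMulCommutative P) ∧ ∀ x : G, (∃ k : ℕ, orderOf x = p ^ k) → ¬ p ∣ (Subgroup.centralizer ({x} : Set G)).index))
    (hmin : ∀ (N : Subgroup G) [N.Normal], N ≠ ⊥ → N ≠ ⊤ →
      ¬ ((∃ P : Sylow p N, ¬ IsMulCommutative P) ∧ ∀ x : N, (∃ k : ℕ, orderOf x = p ^ k) → ¬ p ∣ (Subgroup.centralizer ({x} : Set N)).index) ∧
      ¬ ((∃ P : Sylow p (G ⧸ N), ¬ IsMulCommutative P) ∧ ∀ x : (G ⧸ N), (∃ k : ℕ, orderOf x = p ^ k) → ¬ p ∣ (Subgroup.centralizer ({x} : Set (G ⧸ N))).index)) :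
    IsSimpleGroup G := by
  obtain ⟨⟨P, hP⟩, hc⟩ := h
  have hnt : Nontrivial G := by
    by_contra hn
    rw [not_nontrivial_iff_subsingleton] at hn
    exact hP ⟨⟨fun a b => Subsingleton.elim _ _⟩⟩
  refine ⟨fun N hN => ?_⟩
  by_contra hne
  push Not at hne
  obtain ⟨h1, h2⟩ := hmin N hne.1 hne.2
  apply hP
  -- Sylow subgroups of `N` and `G / N` are abelian
  have hQ : IsMulCommutative (FGS.sylowInf P N) := by
    by_contra hq
    refine h1 ⟨⟨_, hq⟩, fun x hx hd => hc x ?_ (hd.trans (FGS.index_centralizer_normal_dvd N x))⟩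
    simpa using hx
  have hsurj := QuotientGroup.mk'_surjective N
  have hPbar : IsMulCommutative (P.mapSurjective hsurj) := by
    by_contra hq
    refine h2 ⟨⟨_, hq⟩, fun x ⟨k, hk⟩ hd => ?_⟩
    obtain ⟨y, rfl⟩ := hsurj x
    obtain ⟨a, -, ha, hj⟩ := FGS.exists_pElement_lift (QuotientGroup.mk' N) y hk
    rw [← ha] at hd
    exact hc a hj (hd.trans (FGS.index_centralizer_map_dvd hsurj a))
  have hcent : ∀ x ∈ P, ∃ R : Sylow p G, ∀ y ∈ R, y * x = x * y := fun x hx =>
    FGS.exists_sylow_le_centralizer (hc x (FGS.exists_orderOf_eq_of_mem P.isPGroup' hx))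
  -- Step 1: `P` centralises `Q = P ∩ N`
  let Q : Subgroup G := (P : Subgroup G) ⊓ N
  let C : Subgroup G := centralizer (Q : Set G)
  have hPM : (P : Subgroup G) ≤ C ⊔ N := by
    intro x hx
    obtain ⟨R, hR⟩ := hcent x hx
    obtain ⟨n, hn, hnR⟩ := FGS.exists_conj_sylow_inf R P N
    have hm : n * x * n⁻¹ ∈ C := by
      rw [mem_centralizer_iff]
      intro q hq
      have := hR _ ((hnR q hq.2).mp hq.1)
      calc q * (n * x * n⁻¹) = n * (n⁻¹ * q * n * x) * n⁻¹ := by group
        _ = n * x * n⁻¹ * q := by rw [this]; group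
    have hn' : n ∈ C ⊔ N := (le_sup_right : N ≤ C ⊔ N) hn
    have : x = n⁻¹ * (n * x * n⁻¹) * n := by group
    rw [this]
    exact mul_mem (mul_mem (inv_mem hn') ((le_sup_left : C ≤ C ⊔ N) hm)) hn'
  have hQC : Q ≤ C := by
    intro a ha
    rw [mem_centralizer_iff]
    intro b hb
    exact congrArg (fun z : FGS.sylowInf P N => ((z : N) : G))
      (hQ.is_comm.comm ⟨⟨b, hb.2⟩, hb.1⟩ ⟨⟨a, ha.2⟩, ha.1⟩)
  have hCi : ¬ p ∣ C.index := by
    rw [← relIndex_mul_index (le_sup_left : C ≤ C ⊔ N), FGS.relIndex_sup_normal]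
    refine (Fact.out : p.Prime).prime.not_dvd_mul (fun hd => ?_) (FGS.not_dvd_index_of_sylow_le P hPM)
    refine FGS.not_dvd_relIndex_sylow_normal P N ?_
    rw [← inf_relIndex_right]
    exact hd.trans (relIndex_dvd_of_le_left N hQC)
  have hPC : (P : Subgroup G) ≤ C :=
    FGS.le_of_isPGroup_of_le_normalizer P.isPGroup'
      (Core.le_normalizer_centralizer (Core.le_normalizer_inf le_normalizer le_normalizer_of_normal)) hCi
  -- Step 2
  refine FGS.isMulCommutative_iff_forall.mpr fun x hx b hb => ?_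
  obtain ⟨R, hR⟩ := hcent x hx
  let D : Subgroup G := (centralizer ({QuotientGroup.mk' N x} : Set (G ⧸ N))).comap (QuotientGroup.mk' N)
  have hPD : (P : Subgroup G) ≤ D := by
    intro y hy
    rw [mem_comap, mem_centralizer_singleton_iff]
    exact FGS.isMulCommutative_iff_forall.mp hPbar _ ⟨y, hy, rfl⟩ _ ⟨x, hx, rfl⟩
  have hRD : (R : Subgroup G) ≤ D := by
    intro y hy
    rw [mem_comap, mem_centralizer_singleton_iff, ← map_mul, ← map_mul, hR y hy]
  obtain ⟨d, hd, hdR⟩ := FGS.exists_smul_sylow_in R P hRD hPD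
  have hy : ∀ y ∈ P, y * (d * x * d⁻¹) = d * x * d⁻¹ * y := by
    intro y hy
    rw [← hdR, FGS.mem_smul_sylow_iff] at hy
    have := hR _ hy
    calc y * (d * x * d⁻¹) = d * (d⁻¹ * y * d * x) * d⁻¹ := by group
      _ = d * x * d⁻¹ * y := by rw [this]; group
  have hyP : d * x * d⁻¹ ∈ P := by
    obtain ⟨k, hk⟩ := FGS.exists_orderOf_eq_of_mem P.isPGroup' hx
    refine FGS.mem_sylow_of_commute P (k := k) ?_ hy
    rw [← hk]; simpa using (MulAut.conj d).orderOf_eq x
  have hq : (d * x * d⁻¹)⁻¹ * x ∈ Q := by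
    refine mem_inf.mpr ⟨mul_mem ((P : Subgroup G).inv_mem hyP) hx, ?_⟩
    rw [mem_comap, mem_centralizer_singleton_iff] at hd
    change _ ∈ N
    rw [← QuotientGroup.eq]
    change QuotientGroup.mk' N _ = QuotientGroup.mk' N _
    rw [map_mul, map_mul, hd, map_inv, mul_inv_cancel_right]
  have h3 := mem_centralizer_iff.mp (hPC hb) _ hq
  have h4 := hy b hb
  calc x * b = (d * x * d⁻¹) * ((d * x * d⁻¹)⁻¹ * x * b) := by group
    _ = (d * x * d⁻¹ * b) * ((d * x * d⁻¹)⁻¹ * x) := by rw [h3]; group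
    _ = b * x := by rw [← h4]; group

end Cfsg.Agent.S4354
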