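import Mathlib
import Cfsg.Statements.S4359
import Cfsg.Agent.H23.Sims
-- import your own Cfsg.Agent.* helpers here

set_option autoImplicit false
open Pointwise
open Cfsg

namespace Cfsg.Agent.S4359

/-- Let P be a subgroup of a finite group G and g an element such that P ∩ g⁻¹Pg is a normal subgroup of prime index p in g⁻¹Pg. Let n ≥ 1 and let K be the subgroup generated by P and its conjugates g⁻ⁱPgⁱ for i ≤ n. Suppose that g normalizes no non-identity normal subgroup of P and that P meets the center of K trivially. Then the order of P is pᵗ for some t with 1 ≤ t ≤ 3n and t ≠ 3n - 1. -/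
theorem result {G : Type*} [Group G] [Finite G]
    (P : Subgroup G) (g : G) (p : ℕ) (hp : p.Prime)
    (hN : ((P ⊓ MulAut.conj g⁻¹ • P).subgroupOf (MulAut.conj g⁻¹ • P)).Normal)
    (hidx : (P ⊓ MulAut.conj g⁻¹ • P).relIndex (MulAut.conj g⁻¹ • P) = p)
    (n : ℕ) (hn : 1 ≤ n) (K : Subgroup G) (hK : K = ⨆ i ∈ Finset.range (n + 1), MulAut.conj (g ^ i)⁻¹ • P)
    (h1 : ∀ Q : Subgroup G, Q ≤ P → (Q.subgroupOf P).Normal → MulAut.conj g • Q = Q → Q = ⊥)
    (h2 : P ⊓ (Subgroup.center K).map K.subtype = ⊥) :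
    ∃ t : ℕ, Nat.card P = p ^ t ∧ 1 ≤ t ∧ t ≤ 3 * n ∧ t ≠ 3 * n - 1 := by

  have := H23.Sims.main hp (α := MulAut.conj g⁻¹) (P := P)
    ((Subgroup.normal_subgroupOf_iff_le_normalizer inf_le_right).1 hN) hidx hn (fun Q h3 h4 h5 => h1 Q h3
      ((Subgroup.normal_subgroupOf_iff_le_normalizer h3).2 h4) (by
        rw [map_inv] at h5; exact (inv_smul_eq_iff.1 h5).symm)) fun y hy h => ?_
  · exact this
  have hyK : y ∈ K := by
    rw [hK]
    refine (le_iSup₂_of_le (f := fun i (_ : i ∈ Finset.range (n + 1)) => MulAut.conj (g ^ i)⁻¹ • P) 0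
      (by simp) ?_ : P ≤ _) hy
    simp
  have hK' : K ≤ Subgroup.centralizer {y} := by
    rw [hK]
    refine iSup₂_le fun i hi => ?_
    rw [← inv_pow, map_pow]
    exact h i (by simpa [Nat.lt_succ_iff] using hi)
  rw [← Subgroup.mem_bot, ← h2]
  exact ⟨hy, ⟨y, hyK⟩, Subgroup.mem_center_iff.2 fun k => Subtype.ext
    (Subgroup.mem_centralizer_singleton_iff.1 (hK' k.2)), rfl⟩

end Cfsg.Agent.S4359
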