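import Mathlib
import Cfsg.Statements.S4370
import Cfsg.Agent.PGrp.Sect2
import Cfsg.Agent.Transfer.Frobenius
import Cfsg.Agent.Block.Quat
-- import your own Cfsg.Agent.* helpers here

set_option autoImplicit false
open Cfsg

namespace Cfsg.Agent.S4370

/-- Let G be a finite non-abelian nilpotent group. Then the centralizer of every non-central element of G is cyclic if and only if G is isomorphic to the direct product of a generalized quaternion group and a cyclic group of odd order. -/
theorem result {G : Type*} [Group G] [Finite G] (hG : Group.IsNilpotent G)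
    (hna : ¬ IsMulCommutative G) :
    (∀ x : G, x ∉ Subgroup.center G → IsCyclic (Subgroup.centralizer ({x} : Set G))) ↔
      ∃ (k m : ℕ), 1 ≤ k ∧ Odd m ∧ Nonempty (G ≃* QuaternionGroup (2 ^ k) × Multiplicative (ZMod m)) := by
  have : Fact (Nat.Prime 2) := ⟨Nat.prime_two⟩
  constructor
  · intro h
    obtain ⟨x₀, hx₀⟩ : ∃ x, x ∉ Subgroup.center G := by
      by_contra hcon
      push Not at hcon
      exact hna ⟨⟨fun a b => Subgroup.mem_center_iff.mp (hcon b) a⟩⟩
    have hab : ∀ A : Subgroup G, IsMulCommutative A → IsCyclic A := by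
      intro A hA
      by_cases hAZ : A ≤ Subgroup.center G
      · exact PGrp.isCyclic_of_le (h x₀ hx₀) (hAZ.trans (Subgroup.center_le_centralizer _))
      · obtain ⟨x, hx, hxZ⟩ := SetLike.not_le_iff_exists.mp hAZ
        refine PGrp.isCyclic_of_le (h x hxZ) fun y hy => ?_
        exact Subgroup.mem_centralizer_singleton_iff.mpr
          (congrArg Subtype.val (hA.1.1 ⟨y, hy⟩ ⟨x, hx⟩))
    obtain ⟨P, N, hN, hPN⟩ := Transfer.hasNormalPComplement_of_isNilpotent (G := G) (p := 2)
    have hPn : (P : Subgroup G).Normal := inferInstance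
    have hodd : Odd (Nat.card N) := by
      rw [← Nat.not_even_iff_odd, even_iff_two_dvd, ← hPN.index_eq_card]
      exact P.not_dvd_index
    have hNc : IsCyclic N := by
      have : IsZGroup N := by
        refine ⟨fun q hq Q => ?_⟩
        have : Fact q.Prime := ⟨hq⟩
        by_cases hq2 : q = 2
        · subst hq2
          have h1 : Nat.card Q ∣ Nat.card N := Subgroup.card_subgroup_dvd_card _
          obtain ⟨k, hk⟩ := IsPGroup.iff_card.mp Q.isPGroup'
          rcases k with _ | k
          · rw [pow_zero] at hk
            have := Finite.card_le_one_iff_subsingleton.mp hk.le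
            infer_instance
          · exfalso
            rw [hk] at h1
            exact (Nat.not_even_iff_odd.mpr hodd)
              (even_iff_two_dvd.mpr ((dvd_pow_self 2 k.succ_ne_zero).trans h1))
        · by_contra hc
          obtain ⟨E, -, hE, hE2⟩ := PGrp.exists_elementary_sq_of_not_isCyclic hq2 Q.isPGroup' hc
          have h1 := hab (E.map N.subtype) (by have := hE.1; infer_instance)
          have h2 := PGrp.card_le_of_isCyclic_of_pow hq.ne_zero h1 (by
            rintro _ ⟨x, hx, rfl⟩
            rw [← map_pow, hE.2 x hx, map_one])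
          rw [Subgroup.card_subtype, hE2] at h2
          have := hq.one_lt
          nlinarith
      infer_instance
    obtain ⟨e⟩ := PGrp.nonempty_equiv_prod (P : Subgroup G) N hPN.disjoint.symm
      (by rw [sup_comm]; exact hPN.sup_eq_top)
    have hPc : ¬ IsCyclic P := by
      intro hc
      apply hna
      have h1 := PGrp.isMulCommutative_of_isCyclic hc
      have h2 := PGrp.isMulCommutative_of_isCyclic hNc
      refine ⟨⟨fun a b => e.injective ?_⟩⟩
      rw [map_mul, map_mul]
      exact Prod.ext (h1.1.1 _ _) (h2.1.1 _ _)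
    obtain ⟨a, b, m, hm, hmc⟩ := PGrp.mc_of_normal_abelian_cyclic P.isPGroup' (fun A _ hA => by
      have h1 := hab (A.map (P : Subgroup G).subtype) inferInstance
      exact isCyclic_of_surjective _ (A.equivMapOfInjective _
        (P : Subgroup G).subtype_injective).symm.surjective) hPc
    have hinv : ∀ t, t ∉ Subgroup.zpowers a → t * t ≠ 1 := by
      intro t ht h2
      have h3 := (hmc.change (Subgroup.mem_top t) ht).four h2
      have h4 := hab ((Subgroup.closure {a ^ 2 ^ m, t}).map (P : Subgroup G).subtype) (by
        have := IsKleinFour.isMulCommutative (G := Subgroup.closure {a ^ 2 ^ m, t})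
        infer_instance)
      exact IsKleinFour.not_isCyclic (isCyclic_of_surjective _
        ((Subgroup.closure {a ^ 2 ^ m, t}).equivMapOfInjective _
        (P : Subgroup G).subtype_injective).symm.surjective)
    have hb : b * b = a ^ 2 ^ m := hmc.y_sq.resolve_left (hinv b hmc.ny)
    have hact : b * a * b⁻¹ = a⁻¹ := by
      refine hmc.act.resolve_right fun h1 => hinv (a * b) (hmc.mul_not_mem (Subgroup.mem_zpowers a)) ?_
      have e2 : a * b * (a * b) = a * (b * a * b⁻¹) * (b * b) := by group
      rw [e2, h1.2, hb, mul_inv_cancel_left, hmc.zz]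
    obtain ⟨e1⟩ := PGrp.nonempty_equiv_quaternion_of_gens hmc.ord (PGrp.mc_index hmc) hmc.ny
      (by rw [pow_two, hb]) hact
    exact ⟨m, Nat.card N, hm, hodd, ⟨e.trans (e1.prodCongr (zmodCyclicMulEquiv hNc).symm)⟩⟩
  · rintro ⟨k, m, hk, hm, ⟨e⟩⟩ x hx
    have hm0 : NeZero m := ⟨hm.pos.ne'⟩
    obtain ⟨a, b, hq⟩ := Block.exists_qData (S := (⊤ : Subgroup (QuaternionGroup (2 ^ k))))
      (pow_ne_zero k two_ne_zero) Subgroup.topEquiv
    have hmc : Inv.MC ⊤ a b k := PGrp.mc_of_index_two (by rw [hq.ord, pow_succ'])
      (by rw [← Subgroup.relIndex_top_right]; exact hq.relIndex_eq) hq.notMem (Or.inl hq.conj)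
    have hx1 : (e x).1 ∉ Subgroup.center (QuaternionGroup (2 ^ k)) := by
      intro h
      apply hx
      rw [Subgroup.mem_center_iff] at h ⊢
      intro g
      apply e.injective
      rw [map_mul, map_mul]
      exact Prod.ext (h _) (mul_comm _ _)
    obtain ⟨c, hc⟩ : ∃ c, Subgroup.centralizer {(e x).1} ≤ Subgroup.zpowers c := by
      by_cases hxa : (e x).1 ∈ Subgroup.zpowers a
      · refine ⟨a, fun g hg => ?_⟩
        by_contra hga
        apply hx1
        rcases (hmc.change (Subgroup.mem_top g) hga).eq_of_commute hxa
          (Subgroup.mem_centralizer_singleton_iff.mp hg).symm with h | h <;> rw [h]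
        · exact Subgroup.one_mem _
        · exact Subgroup.mem_center_iff.mpr fun g => (hmc.commute_z (Subgroup.mem_top g)).eq
      · refine ⟨(e x).1, fun g hg => ?_⟩
        have h1 := hq.sq_of_notMem (Subgroup.mem_top _) hxa
        have h2 : a ^ 2 ^ k ∈ Subgroup.zpowers (e x).1 :=
          h1 ▸ Subgroup.mul_mem _ (Subgroup.mem_zpowers _) (Subgroup.mem_zpowers _)
        rcases (hmc.change (Subgroup.mem_top _) hxa).mem_of_commute (Subgroup.mem_top g)
          (Subgroup.mem_centralizer_singleton_iff.mp hg) with h | h | h | h <;> rw [h]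
        · exact Subgroup.one_mem _
        · exact h2
        · exact Subgroup.mem_zpowers _
        · exact Subgroup.mul_mem _ h2 (Subgroup.mem_zpowers _)
    have hcyc : IsCyclic (Subgroup.zpowers c × Multiplicative (ZMod m)) := by
      rw [Group.isCyclic_prod_iff]
      refine ⟨inferInstance, inferInstance, ?_⟩
      obtain ⟨j, hj⟩ := PGrp.exists_card_eq_pow (hmc.isPGroup.of_equiv Subgroup.topEquiv)
        (Subgroup.zpowers c)
      rw [hj, Nat.card_congr Multiplicative.toAdd, Nat.card_zmod]
      exact (Nat.coprime_two_left.mpr hm).pow_left j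
    let f : Subgroup.centralizer ({x} : Set G) →* Subgroup.zpowers c × Multiplicative (ZMod m) :=
      { toFun := fun g => (⟨(e g).1, hc (Subgroup.mem_centralizer_singleton_iff.mpr (by
          have := congrArg (fun y => (e y).1) (Subgroup.mem_centralizer_singleton_iff.mp g.2)
          simpa using this))⟩, (e g).2)
        map_one' := by simp
        map_mul' := fun g h => by simp }
    refine isCyclic_of_injective f fun g h hgh => Subtype.ext (e.injective ?_)
    exact Prod.ext (congrArg (fun y => (y.1 : QuaternionGroup (2 ^ k))) hgh) 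
      (congrArg (fun y : Subgroup.zpowers c × Multiplicative (ZMod m) => y.2) hgh)

end Cfsg.Agent.S4370
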