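import Mathlib
import Cfsg.Statements.S4375
import Cfsg.Agent.H23.B2f
import Cfsg.Agent.S0205
-- import your own Cfsg.Agent.* helpers here

set_option autoImplicit false
open Cfsg

namespace Cfsg.Agent.S4375

/-- Let the finite group A of odd order act faithfully on the finite additive group V by group automorphisms, completely reducibly (every A-invariant subgroup has an A-invariant complement). Then there are v, w ∈ V such that only the identity of A fixes both. -/
theorem result {A V : Type*} [Group A] [Finite A]
    [AddCommGroup V] [Finite V] [DistribMulAction A V] [FaithfulSMul A V] (hA : Odd (Nat.card A))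
    (hcr : (∀ U : AddSubgroup V, (∀ a : A, ∀ v ∈ U, a • v ∈ U) → ∃ W : AddSubgroup V, (∀ a : A, ∀ w ∈ W, a • w ∈ W) ∧ U ⊓ W = ⊥ ∧ U ⊔ W = ⊤)) :
    ∃ v w : V, ∀ a : A, a • v = v → a • w = w → a = 1 := by

  letI : MulDistribMulAction A (Multiplicative V) :=
    { smul := fun a v => Multiplicative.ofAdd (a • v.toAdd)
      one_smul := fun v => one_smul A v.toAdd
      mul_smul := fun a b v => mul_smul a b v.toAdd
      smul_mul := fun a v w => smul_add a v.toAdd w.toAdd
      smul_one := fun a => smul_zero (A := V) a }
  obtain ⟨v, w, h⟩ := H23.B2.odd_base (M := A) (V := Multiplicative V) hA (S0205.result hA) fun U hU => by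
    obtain ⟨W, h1, h2, h3⟩ := hcr U.toAddSubgroup' hU
    exact ⟨W.toSubgroup, h1, Subgroup.toAddSubgroup'.injective (by simpa using h2),
      Subgroup.toAddSubgroup'.injective (by simpa using h3)⟩
  exact ⟨v.toAdd, w.toAdd, fun a h1 h2 => eq_of_smul_eq_smul fun x : V =>
    (show a • x = x from h a h1 h2 x).trans (one_smul A x).symm⟩

end Cfsg.Agent.S4375
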