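import Mathlib
import Cfsg.Statements.S4377

set_option autoImplicit false
open Cfsg

namespace Cfsg.Agent.S4377

/-- Two finite groups have the same number of elements of each order if and only if, for every n, they have the same number of elements g with gⁿ = 1. -/
theorem result {G H : Type*} [Group G] [Finite G] [Group H] [Finite H] :
    (∀ n : ℕ, Nat.card {g : G // orderOf g = n} = Nat.card {h : H // orderOf h = n}) ↔
      ∀ n : ℕ, Nat.card {g : G // g ^ n = 1} = Nat.card {h : H // h ^ n = 1} := by
  classical
  refine ⟨fun h n => ?_, fun h n => ?_⟩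
  · have e : ∀ n : ℕ, {g : G // orderOf g = n} ≃ {g : H // orderOf g = n} := fun n =>
      (Finite.card_eq.mp (h n)).some
    refine Nat.card_congr ((Equiv.ofFiberEquiv e).subtypeEquiv fun g => ?_)
    rw [← orderOf_dvd_iff_pow_eq_one, ← orderOf_dvd_iff_pow_eq_one, Equiv.ofFiberEquiv_map e g]
  have := Fintype.ofFinite G
  have := Fintype.ofFinite H
  simp only [Nat.card_eq_fintype_card, Fintype.card_subtype] at h ⊢
  induction n using Nat.strong_induction_on with | _ n ih
  rcases n.eq_zero_or_pos with rfl | hn
  · simp [(orderOf_pos _).ne']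
  have := h n
  rw [← sum_card_orderOf_eq_card_pow_eq_one (G := G) hn.ne',
    ← sum_card_orderOf_eq_card_pow_eq_one (G := H) hn.ne',
    ← Nat.insert_self_properDivisors hn.ne', Finset.sum_insert Nat.self_notMem_properDivisors,
    Finset.sum_insert Nat.self_notMem_properDivisors,
    Finset.sum_congr rfl fun m hm => ih m (Nat.mem_properDivisors.mp hm).2] at this
  exact Nat.add_right_cancel this

end Cfsg.Agent.S4377
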