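import Mathlib
import Cfsg.Statements.S4381
import Cfsg.Agent.FGS.Basic2
import Cfsg.Agent.FGS.Semi
import Cfsg.Agent.Core.SylowOf
import Cfsg.Agent.Core.Fitting
import Cfsg.Agent.PLocal.Maschke
import Cfsg.Agent.PGrp.Aut

set_option autoImplicit false
open Pointwise
open Cfsg

namespace Cfsg.Agent.S4381

open Subgroup Cfsg.Agent.FGS SemidirectProduct
open scoped IsMulCommutative

/-- Let the finite group A act by automorphisms on the finite group G with the orders of A and G coprime, and assume that A or G is solvable. Call a proper A-invariant subgroup of G maximal A-invariant when no A-invariant subgroup lies strictly between it and G. Then all maximal A-invariant subgroups of G are conjugate under elements of the fixed-point subgroup C_G(A) if and only if G is a p-group for some prime p and A leaves invariant no subgroup strictly between the Frattini subgroup of G and G. In that case, if G is nontrivial,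 the Frattini subgroup is the only maximal A-invariant subgroup (a trivial G has none). -/
theorem result {A G : Type*} [Group A] [Finite A]
    [Group G] [Finite G] [MulDistribMulAction A G] (hcop : (Nat.card A).Coprime (Nat.card G)) (hsol : Group.IsSolvable A ∨ Group.IsSolvable G) :
    ((∀ M N : Subgroup G, (M ≠ ⊤ ∧ (∀ a : A, ∀ x ∈ M, a • x ∈ M) ∧ ∀ L : Subgroup G, M < L → (∀ a : A, ∀ x ∈ L, a • x ∈ L) → L = ⊤) → (N ≠ ⊤ ∧ (∀ a : A, ∀ x ∈ N, a • x ∈ N) ∧ ∀ L : Subgroup G, N < L → (∀ a : A, ∀ x ∈ L, a • x ∈ L) → L = ⊤) →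
        ∃ c : G, (∀ a : A, a • c = c) ∧ N = MulAut.conj c • M) ↔
      ((∃ p : ℕ, p.Prime ∧ IsPGroup p G) ∧ ∀ L : Subgroup G, frattini G < L → (∀ a : A, ∀ x ∈ L, a • x ∈ L) → L = ⊤)) ∧
    (((∃ p : ℕ, p.Prime ∧ IsPGroup p G) ∧ ∀ L : Subgroup G, frattini G < L → (∀ a : A, ∀ x ∈ L, a • x ∈ L) → L = ⊤) →
      ∀ M : Subgroup G, (M ≠ ⊤ ∧ (∀ a : A, ∀ x ∈ M, a • x ∈ M) ∧ ∀ L : Subgroup G, M < L → (∀ a : A, ∀ x ∈ L, a • x ∈ L) → L = ⊤) ↔ (M = frattini G ∧ M ≠ ⊤)) := by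
  let φ := MulDistribMulAction.toMulAut A G
  have hΦ : ∀ a : A, ∀ x ∈ frattini G, a • x ∈ frattini G := fun a x hx =>
    characteristic_iff_le_comap.mp inferInstance (φ a) hx
  have hsup : ∀ M N : Subgroup G, (∀ a : A, ∀ x ∈ M, a • x ∈ M) → (∀ a : A, ∀ x ∈ N, a • x ∈ N) →
      ∀ a : A, ∀ x ∈ M ⊔ N, a • x ∈ M ⊔ N := fun M N hM hN a =>
    (sup_le (fun x hx => mem_sup_left (hM a x hx)) (fun x hx => mem_sup_right (hN a x hx)) :
      M ⊔ N ≤ (M ⊔ N).comap (φ a).toMonoidHom)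
  have hΦM : ∀ M : Subgroup G, (M ≠ ⊤ ∧ (∀ a : A, ∀ x ∈ M, a • x ∈ M) ∧ ∀ L : Subgroup G, M < L → (∀ a : A, ∀ x ∈ L, a • x ∈ L) → L = ⊤) → frattini G ≤ M := by
    intro M hM
    by_contra h
    exact hM.1 (frattini_nongenerating (hM.2.2 _ (left_lt_sup.mpr h) (hsup _ _ hM.2.1 hΦ)))
  have hmax : ∀ H : Subgroup G, H ≠ ⊤ → (∀ a : A, ∀ x ∈ H, a • x ∈ H) → ∃ M : Subgroup G, H ≤ M ∧ (M ≠ ⊤ ∧ (∀ a : A, ∀ x ∈ M, a • x ∈ M) ∧ ∀ L : Subgroup G, M < L → (∀ a : A, ∀ x ∈ L, a • x ∈ L) → L = ⊤) := by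
    intro H h1 h2
    obtain ⟨M, hM, hm⟩ := exists_maximal_ge_of_wellFoundedGT
      (fun M : Subgroup G => M ≠ ⊤ ∧ ∀ a : A, ∀ x ∈ M, a • x ∈ M) H ⟨h1, h2⟩
    refine ⟨M, hM, hm.prop.1, hm.prop.2, fun L hL hL' => ?_⟩
    by_contra h
    exact hL.not_ge (hm.le_of_ge ⟨h, hL'⟩ hL.le)
  have h2 : ((∃ p : ℕ, p.Prime ∧ IsPGroup p G) ∧ ∀ L : Subgroup G, frattini G < L → (∀ a : A, ∀ x ∈ L, a • x ∈ L) → L = ⊤) →
      ∀ M : Subgroup G, (M ≠ ⊤ ∧ (∀ a : A, ∀ x ∈ M, a • x ∈ M) ∧ ∀ L : Subgroup G, M < L → (∀ a : A, ∀ x ∈ L, a • x ∈ L) → L = ⊤) ↔ (M = frattini G ∧ M ≠ ⊤) := by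
    rintro ⟨-, h⟩ M
    constructor
    · intro hM
      refine ⟨?_, hM.1⟩
      by_contra hne
      exact hM.1 (h M (lt_of_le_of_ne (hΦM M hM) (Ne.symm hne)) hM.2.1)
    · rintro ⟨rfl, hM⟩
      exact ⟨hM, hΦ, h⟩
  refine ⟨⟨fun h => ?_, fun h M N hM hN => ⟨1, fun a => smul_one a, ?_⟩⟩, h2⟩
  swap
  · rw [((h2 h M).mp hM).1, ((h2 h N).mp hN).1]; simp
  rcases subsingleton_or_nontrivial G with hG | hG
  · exact ⟨⟨2, Nat.prime_two, IsPGroup.of_subsingleton _ _⟩, fun L _ _ => Subsingleton.elim _ _⟩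
  obtain ⟨M, -, hM⟩ := hmax ⊥ bot_ne_top fun a x hx => by rw [mem_bot.mp hx, smul_one]; exact one_mem _
  obtain ⟨p, hp, hd⟩ := Nat.exists_prime_and_dvd (mt index_eq_one.mp hM.1)
  haveI := Fact.mk hp
  have hG : IsPGroup p G := by
    obtain ⟨P, hP, hAP⟩ := Core.exists_invariant_isSylowOf (sdA φ) (sdG φ)
      (by rw [normalizer_eq_top]; exact le_top) (sd_coprime φ hcop)
      (hsol.imp (Core.solvable_of_mulEquiv (sdEquivA φ)) (Core.solvable_of_mulEquiv (sdEquivG φ))) p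
    obtain ⟨P, rfl⟩ := exists_map_inl hP.le
    have h1 := hP.not_dvd
    rw [sdG, MonoidHom.range_eq_map, relIndex_map_map_of_injective _ _ inl_injective, relIndex_top_right] at h1
    have : P = ⊤ := by
      by_contra hne
      obtain ⟨N, hPN, hN⟩ := hmax P hne (sdA_le_normalizer_iff.mp hAP)
      obtain ⟨c, -, rfl⟩ := h M N hM hN
      exact h1 (((index_conj M c).symm ▸ hd).trans (index_dvd_of_le hPN))
    subst this
    exact (hP.isPGroup.of_equiv (mapInlEquiv ⊤).symm).of_equiv topEquiv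
  refine ⟨⟨p, hp, hG⟩, fun L hL hL' => ?_⟩
  have hMn : M.Normal := Normal.of_commutator_le _ ((PGrp.commutator_le_frattini hG).trans (hΦM M hM))
  have huniq : ∀ H : Subgroup G, H ≠ ⊤ → (∀ a : A, ∀ x ∈ H, a • x ∈ H) → H ≤ M := by
    intro H h1 h2
    obtain ⟨N, hHN, hN⟩ := hmax H h1 h2
    obtain ⟨c, -, rfl⟩ := h M N hM hN
    rwa [hMn.conj_smul_eq_self] at hHN
  let π := QuotientGroup.mk' (frattini G)
  have hs : Function.Surjective π := QuotientGroup.mk'_surjective _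
  haveI : IsMulCommutative (G ⧸ frattini G) :=
    Normal.quotient_commutative_iff_commutator_le.mpr (PGrp.commutator_le_frattini hG)
  have hE : IsElementaryAbelian p (⊤ : Subgroup (G ⧸ frattini G)) := by
    refine ⟨inferInstance, fun x _ => ?_⟩
    obtain ⟨x, rfl⟩ := hs x
    rw [← map_pow]
    exact (QuotientGroup.eq_one_iff _).mpr (PGrp.pow_mem_frattini hG x)
  obtain ⟨W, -, hW1, hW2⟩ := PLocal.exists_complement_of_elementary hE (le_top : M.map π ≤ ⊤)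
  obtain ⟨ρ, hρ1, hρ2⟩ := PLocal.exists_proj_of_compl (disjoint_iff.mpr hW1) hW2
  obtain ⟨W, hW, hW1, hW2⟩ := PLocal.exists_invariant_ker ((PGrp.autQuot (frattini G)).comp φ)
    (hcop.coprime_dvd_right (card_quotient_dvd_card _)) (U := M.map π) (by
      rintro a _ ⟨x, hx, rfl⟩
      exact ⟨a • x, hM.2.1 a x hx, rfl⟩) ρ hρ1 hρ2
  have hW3 : W.comap π = ⊤ := by
    by_contra hne
    have h3 := huniq _ hne fun a x hx => hW a _ hx
    have h4 : W ≤ M.map π := by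
      rw [← map_comap_eq_self_of_surjective hs W]; exact map_mono h3
    rw [sup_eq_left.mpr h4] at hW2
    apply hM.1
    rw [← comap_map_eq_self (f := π) (H := M) (by rw [QuotientGroup.ker_mk']; exact hΦM M hM), hW2, comap_top]
  by_contra hne
  refine hL.not_ge ((huniq L hne hL').trans fun x hx => (QuotientGroup.eq_one_iff x).mp ?_)
  exact hW1.le ⟨⟨x, hx, rfl⟩, hW3.ge (mem_top x)⟩

end Cfsg.Agent.S4381
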