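import Mathlib
import Cfsg.Statements.S4385
import Cfsg.Agent.Gp.Dh2
-- import your own Cfsg.Agent.* helpers here

set_option autoImplicit false
open Pointwise
open Cfsg

namespace Cfsg.Agent.S4385

/-- Let H be a subgroup of a finite group G whose largest normal 2-subgroup O_2(H) is nontrivial and such that H/O_2(H) is a dihedral group of order at least 4. Let P be a Sylow 2-subgroup of H and S a Sylow 2-subgroup of G containing P. Suppose y ∈ S lies outside P, normalizes P, has y² in the product of P with the centralizer of P in G, and normalizes no non-identity normal subgroup of H contained in P. Then P has order 4, 8 or 16, and H modulo its largest normal subgroup of odd order is isomorphic to the four-group, to the symmetric group of degree 4, or to the direct product of the symmetric group of degree 4 with a group of order 2. -/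
theorem result {G : Type*} [Group G] [Finite G]
    (H : Subgroup G) (hO : Cfsg.pCore 2 ↥H ≠ ⊥) (n : ℕ) (hn : 2 ≤ n) (hdih : Nonempty (↥H ⧸ Cfsg.pCore 2 ↥H ≃* DihedralGroup n))
    (P : Subgroup G) (hPH : P ≤ H) (hP : IsPGroup 2 P) (hPsyl : ¬ 2 ∣ P.relIndex H)
    (S : Sylow 2 G) (hPS : P ≤ (S : Subgroup G)) (y : G) (hyS : y ∈ (S : Subgroup G)) (hyP : y ∉ P)
    (hy2 : y ^ 2 ∈ P ⊔ Subgroup.centralizer (P : Set G)) (hyN : MulAut.conj y • P = P)
    (hyQ : ∀ Q : Subgroup G, Q ≤ P → (Q.subgroupOf H).Normal → MulAut.conj y • Q = Q → Q = ⊥) :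
    (Nat.card P = 4 ∨ Nat.card P = 8 ∨ Nat.card P = 16) ∧
    (Nonempty (↥H ⧸ Cfsg.oddCore ↥H ≃* Multiplicative (ZMod 2) × Multiplicative (ZMod 2)) ∨
     Nonempty (↥H ⧸ Cfsg.oddCore ↥H ≃* Equiv.Perm (Fin 4)) ∨
     Nonempty (↥H ⧸ Cfsg.oddCore ↥H ≃* Equiv.Perm (Fin 4) × Multiplicative (ZMod 2))) := by
  open Cfsg.Agent.Gp.Dh Subgroup BG BG.Amb LocalEven in
  obtain ⟨e⟩ := hdih
  obtain ⟨k, s, hD, hk, hPs⟩ := exists_dh hn e (P := P.subgroupOf H) hP.comap_subtype hPsyl
  have hPm : P = (pCore 2 H ⊔ zpowers s).map H.subtype := by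
    rw [← hPs, map_subgroupOf_eq_of_le hPH]
  set O := (pCore 2 H).map H.subtype with hOd
  have hOP : O ≤ P := hPm ▸ map_mono le_sup_left
  have hHO : H ≤ 𝐍(O) := le_normalizer_map_subtype _
  have hyN' : cj y P = P := hyN
  have hy : y ∈ 𝐍(P) := cj_eq_self_iff.mp hyN'
  have hcj : ∀ A : Subgroup H, (cj k A).map H.subtype = cj (k : G) (A.map H.subtype) := fun A => by
    rw [cj, cj, map_map, map_map]; rfl
  have hinf : P ⊓ cj (k : G) P = O := by
    rw [hPm, ← hcj, ← map_inf _ _ _ H.subtype_injective, hD.inf_cj hk]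
  have hsup : P ⊔ cj (k : G) P = H := by
    rw [hPm, ← hcj, ← Subgroup.map_sup, hD.supP, ← MonoidHom.range_eq_map, range_subtype]
  have hcard : Nat.card P = Nat.card O * 2 := by
    rw [hPm, hOd, card_map_of_injective H.subtype_injective,
      card_map_of_injective H.subtype_injective, hD.cardP]
  have hQ : ∀ U ≤ P, H ≤ 𝐍(U) → y ∈ 𝐍(U) → U = ⊥ := fun U h1 h2 h3 =>
    hyQ U h1 ((normal_subgroupOf_iff_le_normalizer (h1.trans hPH)).mpr h2) (cj_eq_self_iff.mpr h3)
  have Y1 : ∀ U ≤ P, P ≤ 𝐍(U) → cj y (cj y U) = U := fun U h1 h2 => by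
    rw [cj_cj, ← sq, cj_eq_self_iff]
    exact (sup_le h2 (le_norm_of_le_cent (cent_anti h1))) hy2
  have Y2 : ∀ U ≤ P, H ≤ 𝐍(U) → H ≤ 𝐍(cj y⁻¹ U) → U = ⊥ := fun U h1 h2 h3 => by
    have h4 : cj y U = cj y⁻¹ U := by
      conv_rhs => rw [← Y1 U h1 (hPH.trans h2), cj_inv_cj]
    refine le_bot_iff.mp (hQ (U ⊔ cj y U) (sup_le h1 (cj_le_of_mem_normalizer hy h1))
      (le_norm_sup h2 (h4 ▸ h3)) ?_ ▸ le_sup_left)
    rw [← cj_eq_self_iff, cj_sup, Y1 U h1 (hPH.trans h2), sup_comm]
  have hα : MulAut.conj ((k : G) * y) • P = cj (k : G) P := by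
    rw [← cj_eq_smul, cj_mul, hyN']
  obtain ⟨t, ht, -, ht6, -⟩ := H23.Sims.main (P := P) (α := MulAut.conj ((k : G) * y))
    Nat.prime_two (by
      rw [hα, hinf]; exact (cj_le_of_mem k.2 hPH).trans hHO) (by
      rw [hα, hinf, ← cj_eq_of_mem_normalizer (hHO k.2), relIndex_cj]
      have := PGrp.card_eq_card_mul_relIndex hOP
      rw [hcard] at this
      exact (Nat.eq_of_mul_eq_mul_left Nat.card_pos this).symm) (n := 2) (by norm_num)
    (fun U h1 h2 h3 => by
      have h4 : (k : G) * y ∈ 𝐍(U) := cj_eq_self_iff.mp h3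
      have h5 : H ≤ 𝐍(U) := by
        rw [← hsup, ← hα]
        exact sup_le h2 (cj_le_of_mem_normalizer (le_norm_norm le_rfl h4) h2)
      exact hQ U h1 h5 ((𝐍(U).mul_mem_cancel_left (h5 k.2)).mp h4))
    (fun z hz h => by
      have h0 := h 0 (by norm_num)
      have h1 := h 1 (by norm_num)
      have h2 := h 2 le_rfl
      rw [pow_zero, one_smul] at h0
      rw [pow_one] at h1
      rw [sq, mul_smul, hα] at h2
      have h3 : H ≤ 𝐂[z] := by rw [← hsup, ← hα]; exact sup_le h0 h1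
      have h4 : cj ((k : G) * y) H ≤ 𝐂[z] := by
        have h5 := cj_sup ((k : G) * y) P (cj (k : G) P)
        rw [hsup] at h5
        exact h5 ▸ sup_le h1 h2
      rw [cj_mul, cj_le_iff, cj_eq_of_mem_normalizer (inv_mem (le_normalizer (h3 k.2))),
        cj_le_iff, ← cent_zpowers, cj_centralizer] at h4
      rw [← cent_zpowers] at h3
      exact zpowers_eq_bot.mp (Y2 _ (zpowers_le.mpr hz) (le_norm_of_le_cent h3)
        (le_norm_of_le_cent h4)))
  have h32 : Nat.card O ≤ 32 := by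
    have : 2 ^ t ≤ 2 ^ 6 := Nat.pow_le_pow_right (by norm_num) ht6
    omega
  have hF := Core.pPrimeCore_coprime (G := H) 2
  have hD' := hD.map (oddCore H) hF
  let ι : P →* H ⧸ oddCore H := (QuotientGroup.mk' _).comp (inclusion hPH)
  have hι : Function.Injective ι := by
    rw [injective_iff_map_eq_one]
    intro a ha
    have h1 : inclusion hPH a ∈ oddCore H := (QuotientGroup.eq_one_iff _).mp ha
    have h2 := hF.coprime_dvd_left (orderOf_dvd_natCard _ h1)
    rw [orderOf_injective _ (inclusion_injective hPH), ← Subgroup.orderOf_coe] at h2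
    exact Subtype.ext (PGrp.eq_one_of_mem_of_isPGroup_of_coprime hP a.2 h2)
  have hr : ι.range = (pCore 2 H).map (QuotientGroup.mk' _) ⊔ zpowers (s : H ⧸ oddCore H) := by
    rw [← MonoidHom.map_range, inclusion_range, hPs, Subgroup.map_sup, MonoidHom.map_zpowers]
    rfl
  have e' := MonoidHom.ofInjective hι
  by_cases hk' : (k : H ⧸ oddCore H) = 1
  · have h1 : (k : G) ∈ 𝐂(O) := by
      rintro _ ⟨a, ha, rfl⟩
      exact congrArg Subtype.val (Core.pPrimeCore_le_centralizer_pCore 2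
        ((QuotientGroup.eq_one_iff _).mp hk') a ha)
    have hP' : P ≤ 𝐍(cj y O) := by
      rw [← cj_normalizer, ← hyN']; exact cj_mono y (hPH.trans hHO)
    have h2 : O ⊓ cj y O = ⊥ := by
      have h3 : P ≤ 𝐍(O ⊓ cj y O) := le_norm_inf (hPH.trans hHO) hP'
      refine hQ _ (inf_le_left.trans hOP) ?_ ?_
      · rw [← hsup]
        exact sup_le h3 (cj_le_of_mem (cent_le_norm _ (cent_anti inf_le_left h1)) h3)
      · rw [← cj_eq_self_iff, cj_inf, Y1 O hOP (hPH.trans hHO), inf_comm]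
    have hyO : cj y O ≤ P := cj_le_of_mem_normalizer hy hOP
    have h3 := PGrp.card_sup_mul_card_inf (hyO.trans (hPH.trans hHO))
    rw [h2, card_bot, mul_one, card_cj] at h3
    have h4 := card_le_of_le (sup_le hOP hyO)
    have h5 : O ≠ ⊥ := by rwa [hOd, Ne, map_eq_bot_iff_of_injective _ H.subtype_injective]
    have h6 := (one_lt_card_iff_ne_bot _).mpr h5
    have h7 : Nat.card O = 2 := by
      rw [h3, hcard] at h4
      have := Nat.le_of_mul_le_mul_left h4 (by omega)
      omega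
    have h8 : Nat.card P = 4 := by omega
    have h9 : ¬ IsCyclic P := fun h => h5 (by
      rw [← h2, eq_of_card_eq_of_cyclic h hyO hOP (card_cj _ _), inf_idem])
    have h10 : ι.range = ⊤ := by
      have := hD'.gen
      rwa [hk', zpowers_one_eq_bot, sup_bot_eq, ← hr] at this
    have : IsKleinFour P := ⟨h8, (not_isCyclic_iff_exponent_eq_prime Nat.prime_two h8).mp h9⟩
    have : IsKleinFour (Multiplicative (ZMod 2) × Multiplicative (ZMod 2)) :=
      ⟨by simp, by simp [Monoid.exponent_prod]⟩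
    obtain ⟨e2⟩ := IsKleinFour.nonempty_mulEquiv (G₁ := P)
      (G₂ := Multiplicative (ZMod 2) × Multiplicative (ZMod 2))
    exact ⟨.inl h8, .inl ⟨((e'.trans ((MulEquiv.subgroupCongr h10).trans topEquiv)).symm).trans e2⟩⟩
  have hs := hD'.solv
  have hc := Core.centralizer_pCore_le (G := H ⧸ oddCore H) 2
    (Core.pPrimeCore_quotient_pPrimeCore 2)
  rw [hD'.core hk'] at hc
  let c : P ≃* P := P.normalizerMonoidHom ⟨y, hy⟩
  have hc' : ∀ a : P, (c a : G) = y * a * y⁻¹ := fun a => rfl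
  let e1 := MonoidHom.ofInjective hι
  have he1 : ∀ a : P, (e1 a : H ⧸ oddCore H) = ι a := fun a => rfl
  have key : ∀ N : Subgroup ι.range, (N.map ι.range.subtype).Normal →
      H ≤ 𝐍((N.comap e1.toMonoidHom).map P.subtype) := fun N hN => by
    have h1 := hD'.le_Q hk' hN ((hD'.twoP.to_le (hr ▸ map_subtype_le N)))
    refine le_norm_of_conj_mem ?_
    rintro g hg _ ⟨a, ha, rfl⟩
    have h2 : ι a ∈ N.map ι.range.subtype := ⟨e1 a, ha, rfl⟩
    obtain ⟨o, ho, h3⟩ := h1 h2
    have h4 : (o : G) ∈ O := ⟨o, ho, rfl⟩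
    have h5 : (⟨o, hOP h4⟩ : P) = a := hι h3
    have h6 : g * a * g⁻¹ ∈ O := conj_mem_of_le_norm hHO hg (h5 ▸ h4)
    obtain ⟨b, hb, h7⟩ := hN.conj_mem _ h2 ((⟨g, hg⟩ : H) : H ⧸ oddCore H)
    refine ⟨⟨_, hOP h6⟩, ?_, rfl⟩
    have : e1 ⟨_, hOP h6⟩ = b := Subtype.ext h7.symm
    change e1 _ ∈ N
    rwa [this]
  obtain ⟨h1, h2⟩ := hD'.amalg hk' hc ((Nat.le_of_dvd Nat.card_pos (card_map_dvd _ _)).trans (by
    rwa [hOd, card_map_of_injective H.subtype_injective] at h32)) hr
    (e1.symm.trans (c.trans e1)) (fun N h1 h2 => by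
      have h3 := key _ h2
      have h4 : ((N.comap (e1.symm.trans (c.trans e1)).toMonoidHom).comap e1.toMonoidHom).map
          P.subtype = cj y⁻¹ ((N.comap e1.toMonoidHom).map P.subtype) := by
        ext a
        rw [mem_cj_inv]
        constructor
        · rintro ⟨a, ha, rfl⟩
          exact ⟨c a, by simpa using ha, rfl⟩
        · rintro ⟨b, hb, h⟩
          refine ⟨c.symm b, by simpa using hb, ?_⟩
          have := hc' (c.symm b)
          rw [MulEquiv.apply_symm_apply] at this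
          exact (MulAut.conj y).injective (this.symm.trans h)
      have h5 := Y2 _ (map_subtype_le _) (key N h1) (h4 ▸ h3)
      rw [map_eq_bot_iff_of_injective _ P.subtype_injective] at h5
      rw [eq_bot_iff]
      intro a ha
      obtain ⟨a, rfl⟩ := e1.surjective a
      have : a ∈ N.comap e1.toMonoidHom := ha
      rw [h5, mem_bot] at this
      rw [this, map_one]
      exact one_mem _)
  refine ⟨.inr ?_, .inr h2⟩
  rw [← Nat.card_congr e'.toEquiv] at h1
  rcases h2 with ⟨⟨e2⟩⟩ | ⟨⟨e2⟩⟩ <;> rw [Nat.card_congr e2.toEquiv] at h1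
  · left
    rw [Nat.card_perm, Nat.card_fin] at h1
    change 24 = _ at h1
    omega
  · right
    rw [Nat.card_prod, Nat.card_perm, Nat.card_fin, Nat.card_congr Multiplicative.toAdd,
      Nat.card_zmod] at h1
    change 48 = _ at h1
    omega

end Cfsg.Agent.S4385
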