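import Mathlib
import Cfsg.Statements.S4387
import Cfsg.Agent.FGS.Basic
import Cfsg.Agent.Core.SylowOf

set_option autoImplicit false
open Pointwise
open Cfsg

namespace Cfsg.Agent.S4387

/-- Let G be a non-trivial finite group in which any two maximal subgroups are conjugate. Then G is cyclic of prime-power order. -/
theorem result {G : Type*} [Group G] [Finite G] [Nontrivial G]
    (h : ∀ M N : Subgroup G, IsCoatom M → IsCoatom N → ∃ g : G, N = MulAut.conj g • M) :
    IsCyclic G ∧ IsPrimePow (Nat.card G) := by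
  obtain ⟨M, hM, -⟩ := (eq_top_or_exists_le_coatom (⊥ : Subgroup G)).resolve_left bot_ne_top
  obtain ⟨x, hx⟩ : ∃ x : G, ∀ g : G, g * x * g⁻¹ ∉ M := by
    by_contra! h
    exact hM.1 (FGS.eq_top_of_forall_conj_mem M h)
  have hc : IsCyclic G := isCyclic_iff_exists_zpowers_eq_top.mpr ⟨x, by
    by_contra hne
    obtain ⟨N, hN, hle⟩ := (eq_top_or_exists_le_coatom _).resolve_left hne
    obtain ⟨g, rfl⟩ := h M N hM hN
    exact hx g⁻¹ (by simpa using FGS.mem_conj_iff.mp (hle (Subgroup.mem_zpowers x)))⟩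
  refine ⟨hc, ?_⟩
  by_contra hn
  refine hM.1 (top_le_iff.mp (Core.le_of_forall_isSylowOf_le _ _ fun p hp _ => ?_))
  have := Fact.mk hp
  obtain ⟨P, hP⟩ := Core.exists_isSylowOf p (⊤ : Subgroup G)
  refine ⟨P, hP, ?_⟩
  rcases eq_top_or_exists_le_coatom P with rfl | ⟨N, hN, hle⟩
  · obtain ⟨k, hk⟩ := IsPGroup.iff_card.mp hP.isPGroup
    rw [Subgroup.card_top] at hk
    refine absurd ⟨p, k, hp.prime, Nat.pos_of_ne_zero ?_, hk.symm⟩ hn
    rintro rfl
    exact Finite.one_lt_card.ne' hk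
  · obtain ⟨g, rfl⟩ := h M N hM hN
    intro y hy
    have := FGS.mem_conj_iff.mp (hle hy)
    rwa [hc.isMulCommutative.is_comm.comm g⁻¹, inv_mul_cancel_right] at this

end Cfsg.Agent.S4387
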