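import Mathlib
import Cfsg.Statements.S4396
import Cfsg.Agent.Pres.FrB
import Cfsg.Agent.Perm.PermModule
import Cfsg.Agent.H2.Frobenius
import Cfsg.Agent.Core.Fitting
-- import your own Cfsg.Agent.* helpers here

set_option autoImplicit false
open Cfsg

namespace Cfsg.Agent.S4396

/-- Let the finite group A act faithfully and linearly on a finite-dimensional vector space V over a field k, and suppose A is a Frobenius group with nilpotent kernel F (every Frobenius kernel is nilpotent) and complement H such that F fixes no nonzero vector. Then V is free as a module for H: there is a subspace W with V the direct sum of the translates hW, h ∈ H. (No assumption on the characteristic of k.) -/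
theorem result {k V A : Type*} [Field k] [AddCommGroup V] [Module k V] [FiniteDimensional k V] [Group A] [Finite A] [DecidableEq A]
    (ρ : Representation k A V) (hρ : Function.Injective ρ)
    (Fk Hc : Subgroup A) [Fk.Normal] (hHc : Cfsg.IsFrobeniusComplement Hc) (hker : Cfsg.frobeniusKernel Hc = (Fk : Set A)) (hnil : Group.IsNilpotent ↥Fk)
    (hCF : ∀ v : V, (∀ f ∈ Fk, ρ f v = v) → v = 0) :
    ∃ W : Submodule k V, DirectSum.IsInternal (fun h : ↥Hc => W.map (ρ (h : A))) := by
  classical
  haveI := Fintype.ofFinite Hc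
  have hdis : ∀ f ∈ Fk, f ∈ Hc → f = 1 := by
    intro f hf hH
    have : f ∈ frobeniusKernel Hc := by rw [hker]; exact hf
    rcases this with h | h
    · exact h
    · exact absurd (by simpa using hH) (h 1)
  have hcomp : Subgroup.IsComplement' Fk Hc := by
    refine Subgroup.isComplement'_of_card_mul_and_disjoint ?_ ?_
    · have := H2.Frob.ncard_kernel hHc
      rw [hker] at this
      rw [← Hc.index_mul_card, ← this]
      rfl
    · rw [Subgroup.disjoint_def]
      exact fun h1 h2 => hdis _ h1 h2
  have hFH : ∀ a, ∃ f ∈ Fk, ∃ h ∈ Hc, a = f * h := by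
    intro a
    obtain ⟨⟨f, h⟩, e⟩ := hcomp.2 a
    exact ⟨f, f.2, h, h.2, e.symm⟩
  have hfpf : ∀ h ∈ Hc, h ≠ 1 → ∀ f ∈ Fk, h * f * h⁻¹ = f → f = 1 := by
    intro h hh h1 f hf e
    refine hdis f hf (H2.Frob.centralizer_le hHc h1 hh ?_)
    rw [Subgroup.mem_centralizer_singleton_iff]
    exact (mul_inv_eq_iff_eq_mul.1 e).symm
  obtain ⟨K, hKF, hK, hC⟩ : ∃ K : Subgroup A, K ≤ Fk ∧ (Nat.card K : k) ≠ 0 ∧
      ∀ v : V, (∀ f ∈ K, ρ f v = v) → v = 0 := by
    by_cases h : (Nat.card Fk : k) = 0
    swap
    · exact ⟨Fk, le_rfl, h, hCF⟩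
    obtain ⟨p, hp⟩ := CharP.exists k
    have hpp : p.Prime := by
      rcases CharP.char_is_prime_or_zero k p with h1 | h1
      · exact h1
      · subst h1
        rw [CharP.cast_eq_zero_iff k 0, zero_dvd_iff] at h
        exact absurd h Nat.card_pos.ne'
    haveI := Fact.mk hpp
    refine ⟨(pPrimeCore p Fk).map Fk.subtype, Subgroup.map_subtype_le _, ?_, ?_⟩
    · rw [Core.card_map_subtype, Ne, CharP.cast_eq_zero_iff k p]
      exact (Nat.Prime.coprime_iff_not_dvd hpp).1 (Core.pPrimeCore_coprime p).symm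
    · intro v hv
      by_contra hv0
      let W : Submodule k V := Representation.invariants
        (ρ.comp (Fk.subtype.comp (pPrimeCore p Fk).subtype))
      have hW : ∀ x, x ∈ W ↔ ∀ f ∈ pPrimeCore p Fk, ρ f x = x := fun x =>
        ⟨fun h f hf => h ⟨f, hf⟩, fun h f => h f f.2⟩
      obtain ⟨w, hw, hw0, hw1⟩ := Perm.exists_fixed_vector (Core.pCore_isPGroup (G := Fk) p)
        (ρ.comp (Fk.subtype.comp (pCore p Fk).subtype)) W (by
          intro g x hx
          rw [hW] at hx ⊢
          intro f hf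
          have := hx (g⁻¹ * f * g⁻¹⁻¹) (Subgroup.Normal.conj_mem inferInstance f hf _)
          show ρ f (ρ (g : Fk) x) = ρ (g : Fk) x
          conv_rhs => rw [← this]
          rw [← Module.End.mul_apply, ← Module.End.mul_apply, ← map_mul, ← map_mul]
          simp [mul_assoc]) ((Submodule.ne_bot_iff _).2 ⟨v, (hW v).2 fun f hf => hv _ ⟨f, hf, rfl⟩, hv0⟩)
      refine hw0 (hCF w fun f hf => ?_)
      have h1 : (⟨f, hf⟩ : Fk) ∈ pCore p Fk ⊔ pPrimeCore p Fk :=
        Core.fitting_le_pCore_sup_pPrimeCore p (by rw [Core.fitting_eq_top_iff.2 hnil]; trivial)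
      rw [← SetLike.mem_coe, Subgroup.mul_normal] at h1
      obtain ⟨a, ha, b, hb, e⟩ := h1
      have e' : f = (a : A) * b := (congrArg Subtype.val e).symm
      rw [e', map_mul, Module.End.mul_apply, (hW w).1 hw b hb]
      exact hw1 ⟨a, ha⟩
  exact (Pres.FrB.fr_all hnil hFH hfpf hKF hK _ V ρ rfl hC).isInternal

end Cfsg.Agent.S4396
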