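import Mathlib
import Cfsg.Statements.S4398
import Cfsg.Agent.PGrp.Sect2
-- import your own Cfsg.Agent.* helpers here

set_option autoImplicit false
open Cfsg

namespace Cfsg.Agent.S4398

/-- Let S be a finite 2-group of sectional 2-rank at most 2 that contains a subgroup isomorphic to the dihedral group of order 8 or to the quaternion group of order 8. Then S is dihedral of order at least 8, semidihedral of order at least 16 (order 2^(k+4) with an element a of order 2^(k+3) and an involution b with b a b⁻¹ = a^(2^(k+2)−1)), or generalized quaternion of order at least 8. -/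
theorem result {S : Type*} [Group S] [Finite S] (h2 : IsPGroup 2 S) (hr : Cfsg.SectionalPRankLE 2 2 S)
    (hsub : ∃ H : Subgroup S, Nonempty (↥H ≃* DihedralGroup 4) ∨ Nonempty (↥H ≃* QuaternionGroup 2)) :
    ((∃ k : ℕ, Nonempty (S ≃* DihedralGroup (2 ^ (k + 2)))) ∨
      (∃ k : ℕ, Nat.card S = 2 ^ (k + 4) ∧ ∃ a b : S, orderOf a = 2 ^ (k + 3) ∧ orderOf b = 2 ∧ b * a * b⁻¹ = a ^ (2 ^ (k + 2) - 1)) ∨
      (∃ k : ℕ, Nonempty (S ≃* QuaternionGroup (2 ^ (k + 1))))) := by
  have : Fact (Nat.Prime 2) := ⟨Nat.prime_two⟩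
  obtain ⟨H, hH⟩ := hsub
  have h1 : Nat.card H = 2 ^ 3 ∧ ¬ IsMulCommutative H := by
    rcases hH with ⟨⟨e⟩⟩ | ⟨⟨e⟩⟩
    · refine ⟨by rw [Nat.card_congr e.toEquiv, DihedralGroup.nat_card]; norm_num, fun h => ?_⟩
      have h3 := congrArg e (h.1.1 (e.symm (DihedralGroup.r 1)) (e.symm (DihedralGroup.sr 0)))
      simp only [map_mul, MulEquiv.apply_symm_apply] at h3
      revert h3
      decide
    · refine ⟨Inv.q8_card e, fun h => ?_⟩
      obtain ⟨a, ha, b, hb, hab⟩ := Inv.q8_exists e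
      exact hab (congrArg Subtype.val (h.1.1 ⟨a, ha⟩ ⟨b, hb⟩))
  obtain ⟨n, hn⟩ := IsPGroup.iff_card.mp h2
  have h3 := PGrp.nilpotencyClass_eq_of_centralizer_le_cube hn h1.1 h1.2
    (PGrp.centralizer_le_of_sect_two h2 (PGrp.sect_of_sectional hr) h1.1 h1.2)
  have hn3 : 3 ≤ n := by
    have := Subgroup.card_le_of_le (le_top : H ≤ ⊤)
    rw [h1.1, Subgroup.card_top, hn] at this
    exact (Nat.pow_le_pow_iff_right one_lt_two).mp this
  obtain ⟨a, b, h⟩ := PGrp.exists_mc_of_class hn3 hn h3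
  exact PGrp.mc_cases' (by omega) h

end Cfsg.Agent.S4398
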