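import Mathlib
import Cfsg.Statements.S4400
import Cfsg.Agent.FGS.Sect4

set_option autoImplicit false
open Cfsg

namespace Cfsg.Agent.S4400

/-- Let S be a finite 2-group of sectional 2-rank at most 4, and let P and Q be normal non-abelian subgroups of S whose centres have order 2 and are different. Then P and Q commute elementwise and intersect trivially, and PQ contains its own centralizer in S. -/
theorem result {S : Type*} [Group S] [Finite S] (h2 : IsPGroup 2 S) (hr : Cfsg.SectionalPRankLE 2 4 S)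
    (P Q : Subgroup S) [P.Normal] [Q.Normal] (hP : ¬ IsMulCommutative ↥P) (hQ : ¬ IsMulCommutative ↥Q)
    (hZP : Nat.card ↥(Subgroup.center ↥P) = 2) (hZQ : Nat.card ↥(Subgroup.center ↥Q) = 2)
    (hne : (Subgroup.center ↥P).map P.subtype ≠ (Subgroup.center ↥Q).map Q.subtype) :
    ⁅P, Q⁆ = ⊥ ∧ P ⊓ Q = ⊥ ∧ Subgroup.centralizer ((P ⊔ Q : Subgroup S) : Set S) ≤ P ⊔ Q := by
  have e : ∀ R : Subgroup S, Nat.card (Subgroup.center R) =
      Nat.card (R ⊓ Subgroup.centralizer (R : Set S) : Subgroup S) := fun R => by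
    rw [← Transfer.map_subtype_center, Core.card_map_subtype]
  rw [Transfer.map_subtype_center, Transfer.map_subtype_center] at hne
  obtain ⟨h1, h3, h4⟩ := FGS.sect4_two h2 (PGrp.sect_of_sectional hr) le_top le_top
    (Subgroup.normalizer_eq_top P).ge (Subgroup.normalizer_eq_top Q).ge hP hQ (e P ▸ hZP) (e Q ▸ hZQ) hne
  exact ⟨Core.le_centralizer_iff_commutator_eq_bot.mp h3, h1, fun c hc => (sup_le_sup inf_le_left inf_le_left : _ ≤ P ⊔ Q)
    (h4 c trivial (fun x hx => hc x (Subgroup.mem_sup_left hx)) (fun x hx => hc x (Subgroup.mem_sup_right hx)))⟩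

end Cfsg.Agent.S4400
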