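import Mathlib
import Cfsg.Statements.S4401
import Cfsg.Agent.FGS.Sect4
import Cfsg.Agent.Core.Hall

set_option autoImplicit false
open Cfsg

namespace Cfsg.Agent.S4401

open Subgroup
open scoped Pointwise

theorem conj_center {S : Type*} [Group S] (P : Subgroup S) (g : S) :
    (MulAut.conj g • P) ⊓ centralizer ((MulAut.conj g • P : Subgroup S) : Set S) =
      MulAut.conj g • (P ⊓ centralizer (P : Set S)) := by
  ext x
  simp only [mem_inf, FGS.mem_conj_iff, mem_centralizer_iff, SetLike.mem_coe]
  refine and_congr_right fun _ => ⟨fun h y hy => ?_, fun h y hy => ?_⟩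
  · have := h (g * y * g⁻¹) (by simpa [mul_assoc] using hy)
    calc y * (g⁻¹ * x * g) = g⁻¹ * (g * y * g⁻¹ * x) * g := by group
      _ = _ := by rw [this]; group
  · have := h _ hy
    calc y * x = g * (g⁻¹ * y * g * (g⁻¹ * x * g)) * g⁻¹ := by group
      _ = _ := by rw [this]; group

theorem conj_zpowers {S : Type*} [Group S] (z g : S) :
    MulAut.conj g • zpowers z = zpowers (g * z * g⁻¹) := by
  rw [H2.conj_smul_eq_map, MonoidHom.map_zpowers]; rfl

/-- Let S be a finite 2-group of sectional 2-rank at most 4 and P a proper non-abelian subgroup whose centre has order 2. Let S₀ be the centralizer in S of Z(P) and suppose P is normal in S₀. Then either S₀ = S, or P has sectional 2-rank at most 2 and S₀ has index 2 in S. -/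
theorem result {S : Type*} [Group S] [Finite S] (h2 : IsPGroup 2 S) (hr : Cfsg.SectionalPRankLE 2 4 S)
    (P : Subgroup S) (hPlt : P ≠ ⊤) (hP : ¬ IsMulCommutative ↥P) (hZP : Nat.card ↥(Subgroup.center ↥P) = 2)
    (S₀ : Subgroup S) (hS₀ : S₀ = Subgroup.centralizer (((Subgroup.center ↥P).map P.subtype : Subgroup S) : Set S))
    (hPn : ∀ s ∈ S₀, ∀ x ∈ P, s * x * s⁻¹ ∈ P) :
    S₀ = ⊤ ∨ (Cfsg.SectionalPRankLE 2 2 ↥P ∧ S₀.index = 2) := by
  haveI := Fact.mk Nat.prime_two
  haveI := h2.isNilpotent
  have hr' := PGrp.sect_of_sectional hr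
  rw [Transfer.map_subtype_center] at hS₀
  rw [← Core.card_map_subtype, Transfer.map_subtype_center] at hZP
  obtain ⟨z, hz, hz2⟩ := 
    FGS.exists_prime_orderOf_mem (H := P ⊓ centralizer (P : Set S)) Nat.prime_two hZP.symm.dvd
  have hZ : P ⊓ centralizer (P : Set S) = zpowers z :=
    (Core.eq_of_le_of_card_le (zpowers_le.mpr hz) (by rw [hZP, Nat.card_zpowers, hz2])).symm
  have hS : S₀ = centralizer {z} := by rw [hS₀, hZ, zpowers_eq_closure, centralizer_closure]
  clear hS₀
  subst hS
  rw [or_iff_not_imp_left]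
  intro hne
  set C := centralizer ({z} : Set S) with hC
  have hPC : P ≤ C := fun x hx => mem_centralizer_singleton_iff.mpr (hz.2 x hx)
  have hCP : C ≤ normalizer (P : Set S) := fun s hs => mem_normalizer_fintype (hPn s hs)
  have hfix : ∀ s ∈ normalizer (C : Set S), MulAut.conj s • C = C := fun s hs =>
    H2.mem_normalizer_iff_conj_smul.mp hs
  have k1 : ∀ s ∈ normalizer (C : Set S), MulAut.conj s • P ≤ C := fun s hs =>
    hfix s hs ▸ H2.conj_smul_mono s hPC
  have k2 : ∀ s ∈ normalizer (C : Set S), C ≤ normalizer ((MulAut.conj s • P : Subgroup S) : Set S) :=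
    fun s hs => by rw [H2.normalizer_conj_smul]; exact (hfix s hs).ge.trans (H2.conj_smul_mono s hCP)
  have k3 : ∀ s : S, ¬ IsMulCommutative (MulAut.conj s • P : Subgroup S) := fun s h =>
    hP (Core.isMulCommutative_of_forall fun x hx y hy => by
      simpa [conj_mul] using Core.comm_of_isMulCommutative h (H2.conj_mem_conj_smul s hx)
        (H2.conj_mem_conj_smul s hy))
  have k4 : ∀ s : S, (MulAut.conj s • P) ⊓ centralizer ((MulAut.conj s • P : Subgroup S) : Set S) =
      zpowers (s * z * s⁻¹) := fun s => by rw [conj_center, hZ, conj_zpowers]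
  have k5 : ∀ s : S, orderOf (s * z * s⁻¹) = 2 := fun s => hz2 ▸ (MulAut.conj s).orderOf_eq z
  have two := fun s (hs : s ∈ normalizer (C : Set S)) t (ht : t ∈ normalizer (C : Set S))
      (h : t⁻¹ * s ∉ C) => FGS.sect4_two h2 hr' (k1 s hs) (k1 t ht) (k2 s hs) (k2 t ht) (k3 s) (k3 t)
      (by rw [k4, Nat.card_zpowers, k5]) (by rw [k4, Nat.card_zpowers, k5]) (by
        rw [k4, k4]
        intro e
        rcases PGrp.eq_one_or_eq_of_mem_zpowers_two (k5 t) (e.le (mem_zpowers _)) with e | e
        · have := k5 s; rw [e] at this; simp at this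
        · exact h (mem_centralizer_singleton_iff.mpr (by
            calc t⁻¹ * s * z = t⁻¹ * (s * z * s⁻¹) * s := by group
              _ = _ := by rw [e]; group)))
  have k6 : ∀ s ∈ normalizer (C : Set S), C ≤ centralizer {s * z * s⁻¹} := fun s hs => by
    rw [FGS.centralizer_conj]; exact (hfix s hs).ge
  have k7 : ∀ s ∈ normalizer (C : Set S), ∀ t ∈ normalizer (C : Set S),
      zpowers (s * z * s⁻¹) ⊔ zpowers (t * z * t⁻¹) ≤ centralizer (C : Set S) := fun s hs t ht =>
    sup_le (zpowers_le.mpr fun y hy => mem_centralizer_singleton_iff.mp (k6 s hs hy))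
      (zpowers_le.mpr fun y hy => mem_centralizer_singleton_iff.mp (k6 t ht hy))
  have hA : ∀ s ∈ normalizer (C : Set S), ∀ t ∈ normalizer (C : Set S), s ∉ C → t ∉ C → t⁻¹ * s ∈ C := by
    intro s hs t ht h1 h3
    by_contra h4
    refine k3 t (Core.isMulCommutative_of_forall fun x hx y hy => ?_)
    have := (two 1 (one_mem _) s hs (by simpa using h1)).2.2 y (k1 t ht hy)
      ((two 1 (one_mem _) t ht (by simpa using h3)).2.1 hy) ((two s hs t ht h4).2.1 hy)
    rw [k4, k4] at this
    exact k7 1 (one_mem _) s hs this x (k1 t ht hx)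
  obtain ⟨s, hs, hsC⟩ := SetLike.exists_of_lt (normalizerCondition_of_isNilpotent C (lt_top_iff_ne_top.mpr hne))
  obtain ⟨t1, t2, t3⟩ := two 1 (one_mem _) s hs (by simpa using hsC)
  rw [k4, k4] at t3
  simp only [map_one, one_smul] at t1 t2 t3
  have hN : normalizer (C : Set S) = ⊤ := by
    by_contra hN
    obtain ⟨t, ht, htN⟩ := SetLike.exists_of_lt (normalizerCondition_of_isNilpotent _ (lt_top_iff_ne_top.mpr hN))
    have hB : ∀ a ∈ normalizer (C : Set S), ∀ b ∈ normalizer (C : Set S), a ∉ MulAut.conj t • C →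
        b ∉ MulAut.conj t • C → b⁻¹ * a ∈ MulAut.conj t • C := fun a ha b hb h1 h3 => by
      rw [FGS.mem_conj_iff] at h1 h3 ⊢
      have := hA _ ((mem_normalizer_iff''.mp ht a).mp ha) _ ((mem_normalizer_iff''.mp ht b).mp hb) h1 h3
      simpa [mul_assoc] using this
    have hle : MulAut.conj t • C ≤ normalizer (C : Set S) := H2.conj_smul_le_of_mem_normalizer le_normalizer ht
    have hneq : ¬ C ≤ MulAut.conj t • C := fun h => htN (H2.mem_normalizer_iff_conj_smul.mpr
      (Core.eq_of_le_of_card_le h (FGS.card_conj C t).le).symm)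
    obtain ⟨u, hu, huC⟩ : ∃ u ∈ MulAut.conj t • C, u ∉ C := by
      by_contra! h
      exact htN (H2.mem_normalizer_of_conj_smul_le h)
    have hu' : MulAut.conj u • P = MulAut.conj s • P := by
      rw [← mul_inv_cancel_left s u, ← H2.conj_smul_conj_smul,
        H2.mem_normalizer_iff_conj_smul.mp (hCP (hA u (hle hu) s hs huC hsC))]
    rw [← FGS.centralizer_conj] at hB hle hneq hu
    have hy : t * z * t⁻¹ ∈ normalizer (C : Set S) := hle (FGS.self_mem_centralizer _)
    generalize t * z * t⁻¹ = y at hB hle hneq hu hy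
    have hbot : ∀ x ∈ P, x ∈ MulAut.conj s • P → x = 1 := fun x h1 h3 =>
      mem_bot.mp (t1.le (mem_inf.mpr ⟨h1, h3⟩))
    by_cases hyC : y ∈ C
    · by_cases hPy : P ≤ centralizer {y}
      · have h1 : MulAut.conj s • P ≤ centralizer {y} := hu' ▸ H2.conj_smul_le_of_mem hPy hu
        have := k7 1 (one_mem _) s hs (t3 y hyC (fun x hx => mem_centralizer_singleton_iff.mp (hPy hx))
          (fun x hx => mem_centralizer_singleton_iff.mp (h1 hx)))
        exact hneq fun x hx => mem_centralizer_singleton_iff.mpr (this x hx)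
      obtain ⟨a, ha, hay⟩ := SetLike.not_le_iff_exists.mp hPy
      have hb : u * a * u⁻¹ ∈ MulAut.conj s • P := hu' ▸ H2.conj_mem_conj_smul u ha
      have hby : u * a * u⁻¹ ∉ centralizer {y} := fun h => hay (by
        simpa [mul_assoc] using mul_mem (mul_mem (inv_mem hu) h) hu)
      generalize u * a * u⁻¹ = b at hb hby
      have h1 := mem_centralizer_singleton_iff.mp (hB b (le_normalizer (k1 s hs hb)) a (le_normalizer (hPC ha)) hby hay)
      have h3 := hbot (a * (y * a⁻¹ * y⁻¹)) (mul_mem ha (Core.conj_mem_of_le_normalizer hCP hyC (inv_mem ha))) (by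
        have : a * (y * a⁻¹ * y⁻¹) = b * (y * b⁻¹ * y⁻¹) := by
          calc a * (y * a⁻¹ * y⁻¹) = a * (y * (a⁻¹ * b)) * b⁻¹ * y⁻¹ := by group
            _ = _ := by rw [← h1]; group
        rw [this]
        exact mul_mem hb (Core.conj_mem_of_le_normalizer (k2 s hs) hyC (inv_mem hb)))
      exact hay (mem_centralizer_singleton_iff.mpr (by
        calc a * y = a * (y * a⁻¹ * y⁻¹) * (y * a) := by group
          _ = _ := by rw [h3, one_mul]))
    · have hy' : MulAut.conj y • P = MulAut.conj s • P := by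
        rw [← mul_inv_cancel_left s y, ← H2.conj_smul_conj_smul,
          H2.mem_normalizer_iff_conj_smul.mp (hCP (hA y hy s hs hyC hsC))]
      have h1 : ∀ x ∈ P, x ∈ centralizer {y} → x = 1 := fun x hx h => hbot x hx (by
        rw [← hy', FGS.mem_conj_iff, mul_assoc, mem_centralizer_singleton_iff.mp h, inv_mul_cancel_left]
        exact hx)
      refine hP (Core.isMulCommutative_of_forall fun a ha b hb => ?_)
      by_cases h3 : a ∈ centralizer {y}
      · rw [h1 a ha h3, one_mul, mul_one]
      by_cases h4 : b ∈ centralizer {y}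
      · rw [h1 b hb h4, one_mul, mul_one]
      rw [inv_mul_eq_one.mp (h1 _ (mul_mem (inv_mem hb) ha)
        (hB a (le_normalizer (hPC ha)) b (le_normalizer (hPC hb)) h3 h4))]
  refine ⟨FGS.sectional_of_sq fun N K hK h => ?_, index_eq_two_iff_exists_notMem_and'.mpr ⟨s⁻¹, by simpa using hsC,
    fun b => or_iff_not_imp_right.mpr fun hb => hA b (hN.ge (mem_top b)) s hs hb hsC⟩⟩
  have hK' := H2.conj_smul_mono s hK
  have hc := hK'.trans (t2.trans (centralizer_le hK))
  have := (h.sup (h.conj s) hc).le hr'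
  rw [FGS.relIndex_sup_of_comm h.1 (h.conj s).1 hc ((disjoint_iff.mpr t1).mono hK hK'),
    Core.relIndex_conj_smul] at this
  nlinarith

end Cfsg.Agent.S4401
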