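import Mathlib
import Cfsg.Statements.S4402
import Cfsg.Agent.Fil.W8
import Cfsg.Agent.PGrp.Sect2
import Cfsg.Agent.Isaacs.HR1

set_option autoImplicit false
open Cfsg

namespace Cfsg.Agent.S4402

open Subgroup Cfsg.Agent.W8 Cfsg.Agent.LocalEven

variable {S : Type*} [Group S] [Finite S] {P : Subgroup S} (ι : W ≃* P)

def emb : W →* S := P.subtype.comp ι.toMonoidHom

def psi : normalizer (P : Set S) →* MulAut W :=
  (MulAut.congr ι.symm).toMonoidHom.comp P.normalizerMonoidHom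

theorem e_inj : Function.Injective (emb ι) := P.subtype_injective.comp ι.injective

theorem e_mem (w : W) : emb ι w ∈ P := (ι w).2

theorem e_surj {x : S} (hx : x ∈ P) : ∃ w, emb ι w = x :=
  ⟨ι.symm ⟨x, hx⟩, congrArg Subtype.val (ι.apply_symm_apply _)⟩

theorem e_psi (y : normalizer (P : Set S)) (w : W) : emb ι (psi ι y w) = y * emb ι w * (y : S)⁻¹ :=
  congrArg Subtype.val (ι.apply_symm_apply _)

theorem core (hr : SectionalPRankLE 2 4 S) (y : normalizer (P : Set S)) (h2 : (y : S) ^ 2 ∈ P)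
    (h : (∀ d ∈ D, psi ι y d * d⁻¹ ∈ Z) ∧ ∀ d ∈ D, psi ι y (psi ι y d) = d) : (y : S) ∈ P := by
  by_contra hy
  obtain ⟨p, hp⟩ := e_surj ι h2
  have c : ∀ d, (y : S) * emb ι d = emb ι (psi ι y d) * y := fun d => by rw [e_psi]; group
  have h3 : ∀ d ∈ D, p * d * p⁻¹ = d := fun d hd => e_inj ι (by
    conv_rhs => rw [← h.2 d hd]
    rw [e_psi, e_psi, map_mul, map_mul, map_inv, hp, sq]; group)
  have h4 := cent_D p (h3 _ (by decide)) (h3 _ (by decide)) (h3 _ (by decide)) (h3 _ (by decide))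
  have pD : p ∈ D := h4.1.1
  have a := aut_D (psi ι y)
  let K : Subgroup S :=
    { carrier := {g | ∃ d ∈ D, g = emb ι d ∨ g = emb ι d * y}
      one_mem' := ⟨1, one_mem _, Or.inl (map_one _).symm⟩
      mul_mem' := by
        rintro _ _ ⟨d, hd, rfl | rfl⟩ ⟨d', hd', rfl | rfl⟩
        · exact ⟨_, mul_mem hd hd', Or.inl (map_mul _ _ _).symm⟩
        · exact ⟨_, mul_mem hd hd', Or.inr (by rw [map_mul, mul_assoc])⟩
        · exact ⟨_, mul_mem hd (a _ hd'), Or.inr (by rw [map_mul, mul_assoc, c, mul_assoc])⟩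
        · exact ⟨_, mul_mem (mul_mem hd (a _ hd')) pD, Or.inl (by
            rw [map_mul, map_mul, hp, e_psi, sq]; group)⟩
      inv_mem' := by
        rintro _ ⟨d, hd, rfl | rfl⟩
        · exact ⟨_, inv_mem hd, Or.inl (map_inv _ _).symm⟩
        · exact ⟨_, a _ (inv_mem (mul_mem hd pD)), Or.inr (by
            rw [← c, map_inv, map_mul, hp, sq]; group)⟩ }
  have k1 : D.map (emb ι) ≤ K := by rintro _ ⟨d, hd, rfl⟩; exact ⟨d, hd, Or.inl rfl⟩
  have k2 : Z.map (emb ι) ≤ K := (map_mono fun _ (h : _ ∈ Z) => h.1.1).trans k1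
  have k3 : ∀ g ∈ K, g ^ 2 ∈ Z.map (emb ι) := by
    rintro _ ⟨d, hd, rfl | rfl⟩
    · exact ⟨_, sq_D d hd, by rw [map_mul, sq]⟩
    · refine ⟨_, mul_mem (mul_mem (h.1 d hd) (sq_D d hd)) h4, ?_⟩
      rw [Z_cent _ (h.1 d hd) _ (mul_mem hd hd), mul_assoc d d, ← Z_cent _ (h.1 d hd) _ hd,
        inv_mul_cancel_right, map_mul, map_mul, hp, e_psi, sq, sq]
      group
  have k4 := PGrp.sect_of_sectional hr _ K (Isaacs.HR.le_nz_of_sq k2 k3)
    (commutator_le.2 fun _ ha _ hb => Isaacs.HR.comm_mem k3 ha hb) k3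
  have k5 := relIndex_mul_relIndex ⊥ _ _ bot_le k2
  obtain ⟨m, hm⟩ := card_dvd_of_le k1
  rw [relIndex_bot_left, relIndex_bot_left, card_map_of_injective (e_inj ι), card_Z, hm,
    card_map_of_injective (e_inj ι), card_D] at k5
  have k6 := eq_of_le_of_card_le k1 (by
    rw [hm]; exact (Nat.mul_le_mul_left _ (by omega : m ≤ 1)).trans (mul_one _).le)
  obtain ⟨w, -, e⟩ := k6.ge (⟨1, one_mem _, Or.inr (by simp)⟩ : (y : S) ∈ K)
  exact hy (e ▸ e_mem ι w)

theorem core' (hr : SectionalPRankLE 2 4 S) (y : normalizer (P : Set S)) (h2 : (y : S) ^ 2 ∈ P)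
    {t : Bool} (h : ∀ v ∈ V t, psi ι y v ∈ V t) : (y : S) ∈ P := by
  have h1 := aut_of_V _ h
  have n : ∀ a b : W, psi ι y a * psi ι y b = psi ι y b * psi ι y a ↔ a * b = b * a := fun a b => by
    rw [← map_mul, ← map_mul, (psi ι y).injective.eq_iff]
  rcases four _ (h1 false a₁ (by decide)) _ (h1 true b₁ (by decide)) (mt (n _ _).1 (by decide)) _
    (h1 true b₂ (by decide)) ((n _ _).2 (by decide)) _ (h1 false a₂ (by decide))
    (mt (n _ _).1 (by decide)) ((n _ _).2 (by decide)) with k | k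
  · exact core ι hr y h2 (triv _ k.1 k.2.1 k.2.2.1 k.2.2.2)
  have m := e_mem ι s
  have e : ∀ w, psi ι (⟨_, le_normalizer m⟩ * y) w = s * psi ι y w * s⁻¹ := fun w => e_inj ι (by
    rw [e_psi, map_mul, map_mul, map_inv, e_psi, coe_mul]; group)
  refine (mul_mem_cancel_left m).1 (core ι hr (⟨_, le_normalizer m⟩ * y) ?_
    (triv _ ?_ ?_ ?_ ?_))
  · convert mul_mem (mul_mem m (conj_mem_of_mem_normalizer y.2 m)) h2 using 1
    rw [coe_mul, sq, sq]; group
  all_goals rw [e]; simp only [k]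

theorem norm_V (h2 : IsPGroup 2 S) (hr : SectionalPRankLE 2 4 S) (t : Bool) :
    normalizer (((V t).map (emb ι) : Subgroup S) : Set S) = P := by
  have h1 : P ≤ normalizer (((V t).map (emb ι) : Subgroup S) : Set S) := fun x hx => by
    obtain ⟨w, rfl⟩ := e_surj ι hx
    refine mem_normalizer_of_cj_le (cj_le_iff'.2 ?_)
    rintro _ ⟨v, hv, rfl⟩
    exact ⟨_, (by cases t <;> decide +kernel : ∀ v ∈ V t, ∀ w : W, w * v * w⁻¹ ∈ V t) v hv w,
      by simp⟩
  refine (h1.eq_or_lt.resolve_right fun h => ?_).symm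
  obtain ⟨g, g1, g2, g3, g4⟩ := Isaacs.HR.exists_nz (h2.to_subgroup _) h
  refine g3 (core' ι hr ⟨g, g2⟩ g4 (t := t) fun v hv => ?_)
  obtain ⟨w, hw, e⟩ := conj_mem_of_mem_normalizer g1 (mem_map_of_mem (emb ι) hv)
  rwa [e_inj ι ((e_psi ι ⟨g, g2⟩ v).trans e.symm)]

theorem mem_P (h2 : IsPGroup 2 S) (hr : SectionalPRankLE 2 4 S) (y : normalizer (P : Set S))
    (h : ∀ v ∈ V false, psi ι y v ∈ V false) : (y : S) ∈ P := by
  refine (norm_V ι h2 hr false).le (mem_normalizer_of_cj_le (cj_le_iff'.2 ?_))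
  rintro _ ⟨v, hv, rfl⟩
  exact ⟨_, h v hv, e_psi ι y v⟩

theorem swap (h2 : IsPGroup 2 S) (hr : SectionalPRankLE 2 4 S) (y : normalizer (P : Set S))
    (h : (y : S) ∉ P) : ∀ t, ∀ v ∈ V t, psi ι y v ∈ V (t ^^ true) := by
  obtain ⟨_ | _, hu⟩ := aut_two (psi ι y)
  · exact absurd (mem_P ι h2 hr y (hu false)) h
  · exact hu


/-- Let S be a finite 2-group of sectional 2-rank at most 4 and P a proper subgroup isomorphic to the wreath product of the dihedral group of order 8 by a group of order 2 (equivalently, to a Sylow 2-subgroup of the symmetric group of degree 8; order 128). Then Z(S) = Z(P) has order 2, P has index 2 in its normalizer N_S(P), N_S(P)/Z(S) is again isomorphic to that wreath product, and every elementary abelian subgroup V of order 16 that is normal in P satisfies N_S(V) = P. -/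
theorem result {S : Type*} [Group S] [Finite S] (h2 : IsPGroup 2 S) (hr : Cfsg.SectionalPRankLE 2 4 S)
    (P : Subgroup S) (hPlt : P ≠ ⊤) (hP : ∃ T : Sylow 2 (Equiv.Perm (Fin 8)), Nonempty (↥P ≃* ↥(T : Subgroup (Equiv.Perm (Fin 8))))) :
    Subgroup.center S = (Subgroup.center ↥P).map P.subtype ∧ Nat.card ↥(Subgroup.center S) = 2 ∧
    P.relIndex (Subgroup.normalizer (P : Set S)) = 2 ∧
    (∃ (_ : ((Subgroup.center S).subgroupOf (Subgroup.normalizer (P : Set S))).Normal) (T : Sylow 2 (Equiv.Perm (Fin 8))),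
      Nonempty (↥(Subgroup.normalizer (P : Set S)) ⧸ (Subgroup.center S).subgroupOf (Subgroup.normalizer (P : Set S)) ≃*
        ↥(T : Subgroup (Equiv.Perm (Fin 8))))) ∧
    ∀ V : Subgroup S, V ≤ P → (∀ g ∈ P, ∀ v ∈ V, g * v * g⁻¹ ∈ V) → Cfsg.IsElementaryAbelian 2 V → Nat.card ↥V = 16 →
      Subgroup.normalizer (V : Set S) = P := by
  obtain ⟨T, ⟨f⟩⟩ := hP
  obtain ⟨f'⟩ := syl_W T
  let ι : W ≃* P := f'.trans f.symm
  have cz : ∀ x ∈ P, (∀ p ∈ P, p * x = x * p) → x = 1 ∨ x = emb ι z := fun x hx h => by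
    obtain ⟨w, rfl⟩ := e_surj ι hx
    refine (cent_X w fun x => e_inj ι ?_).imp (fun e => by simp [e]) (congrArg _)
    rw [map_mul, map_mul, ← h _ (e_mem ι _), map_inv, mul_inv_cancel_right]
  have c1 : center S ≤ P := norm_V ι h2 hr false ▸ center_le_normalizer _
  have : Nontrivial S := by
    by_contra! k
    exact hPlt (Subsingleton.elim _ _)
  obtain ⟨⟨c, hc⟩, c2⟩ := ne_bot_iff_exists_ne_one.1
    ((center S).nontrivial_iff_ne_bot.1 h2.center_nontrivial)
  obtain rfl := (cz c (c1 hc) fun p _ => mem_center_iff.1 hc p).resolve_left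
    fun e => c2 (Subtype.ext e)
  have c3 : center S = zpowers (emb ι z) := le_antisymm (fun x hx => by
    rcases cz x (c1 hx) fun p _ => mem_center_iff.1 hx p with rfl | rfl
    exacts [one_mem _, mem_zpowers _]) (zpowers_le.2 hc)
  have c4 : Nat.card (center S) = 2 := by
    rw [c3, Nat.card_zpowers, orderOf_injective _ (e_inj ι)]
    exact orderOf_eq_prime (by decide) (by decide)
  obtain ⟨g, -, g2, g3, -⟩ := Isaacs.HR.exists_nz (h2.to_subgroup ⊤) (lt_top_iff_ne_top.2 hPlt)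
  have i2 : P.relIndex (normalizer (P : Set S)) = 2 := index_eq_two_iff.2 ⟨⟨g, g2⟩, fun b => by
    by_cases hb : (b : S) ∈ P
    · exact Or.inr ⟨hb, fun l => g3 ((mul_mem_cancel_left hb).1 l)⟩
    · have := mem_P ι h2 hr (b * ⟨g, g2⟩) fun v hv => by
        rw [map_mul]; exact swap ι h2 hr b hb _ _ (swap ι h2 hr ⟨g, g2⟩ g3 _ v hv)
      exact Or.inl ⟨mem_subgroupOf.2 this, hb⟩⟩
  refine ⟨le_antisymm (fun x hx => ⟨⟨x, c1 hx⟩, mem_center_iff.2 fun p =>
    Subtype.ext (mem_center_iff.1 hx p), rfl⟩) ?_, c4, i2, ⟨inferInstance, ?_⟩,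
    fun A h1 h3 h4 h5 => ?_⟩
  · rintro _ ⟨x, hx, rfl⟩
    rcases cz x x.2 fun p hp => congrArg Subtype.val (mem_center_iff.1 hx ⟨p, hp⟩) with e | e
    · exact (e ▸ one_mem _ : (x : S) ∈ center S)
    · exact (e ▸ hc : (x : S) ∈ center S)
  · let F := (MulAction.toPermHom (MulAut W) X).comp (psi ι)
    have k : (center S).subgroupOf (normalizer (P : Set S)) = F.ker := by
      ext y
      rw [mem_subgroupOf, MonoidHom.mem_ker]
      refine ⟨fun hy => Equiv.ext fun x => Subtype.ext (e_inj ι ((e_psi ι y x).trans ?_)),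
        fun hy => ?_⟩
      · rw [← mem_center_iff.1 hy, mul_inv_cancel_right]; rfl
      have h1 : ∀ x : X, psi ι y x = x := fun x => congrArg (fun σ : Equiv.Perm X => (σ x : W)) hy
      have h3 : (y : S) ∈ P := by_contra fun l => by
        have := swap ι h2 hr y l false (a₁ * a₂ * s * s) (by decide)
        rw [map_mul, h1 ⟨a₁ * a₂ * s, by decide⟩, h1 ⟨s, by decide⟩] at this
        exact absurd this (by decide)
      obtain ⟨w, hw⟩ := e_surj ι h3
      rcases cent_X w (fun x => e_inj ι (by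
        rw [map_mul, map_mul, map_inv, hw, ← e_psi, h1])) with rfl | rfl
      · rw [← hw, map_one]; exact one_mem _
      · rwa [← hw]
    refine syl ((QuotientGroup.kerLift F).comp (QuotientGroup.quotientMulEquivOfEq k).toMonoidHom)
      card_X ((QuotientGroup.kerLift_injective F).comp (MulEquiv.injective _)) ?_
    have k1 := relIndex_mul_relIndex _ _ _ c1 (le_normalizer (H := P))
    have k2 := relIndex_mul_relIndex ⊥ _ _ bot_le c1
    rw [relIndex_bot_left, relIndex_bot_left, c4, ← Nat.card_congr ι.toEquiv, card_W] at k2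
    rw [i2] at k1
    change (center S).relIndex _ = 128
    omega
  · obtain ⟨t, ht⟩ := le_V (A := A.comap (emb ι)) fun a ha => ⟨e_inj ι (by
      rw [map_mul, map_one, ← sq, h4.2 _ ha]), fun g => e_inj ι (by
        simp only [map_mul, map_inv]
        exact congrArg Subtype.val (h4.1.is_comm.comm (⟨_, ha⟩ : A) ⟨_, h3 _ (e_mem ι g) _ ha⟩))⟩
    rw [eq_of_le_of_card_le (H := A) (K := (V t).map (emb ι)) (fun x hx => by
      obtain ⟨w, rfl⟩ := e_surj ι (h1 hx)
      exact ⟨w, ht hx, rfl⟩) (by rw [card_map_of_injective (e_inj ι), card_V, h5])]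
    exact norm_V ι h2 hr t

end Cfsg.Agent.S4402
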