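import Mathlib
import Cfsg.Statements.S4403
import Cfsg.Agent.FGS.CycSyl
import Cfsg.Agent.Comp2.PComponent
import Cfsg.Agent.Comp2.MinNormal
import Cfsg.Agent.H2.FrobQuot
import Cfsg.Agent.Core.Fitting

set_option autoImplicit false
open Cfsg

namespace Cfsg.Agent.S4403

open Subgroup Cfsg.Agent.FGS

/-- Let K be a finite group, p a prime dividing its order with O_{p'}(K) = 1 (no nontrivial normal subgroup of order prime to p), and P a cyclic Sylow p-subgroup of K. Then either P is normal and self-centralizing in K with K/P cyclic of order dividing p − 1 (so K is the semidirect product of P by a group of automorphisms of P of order dividing p − 1), or the generalized Fitting subgroup F*(K) is a non-abelian simple group and p does not divide the index of F*(K) in K. -/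
theorem result {K : Type*} [Group K] [Finite K] (p : ℕ) [Fact p.Prime] (hp : p ∣ Nat.card K) (hO : Cfsg.pPrimeCore p K = ⊥)
    (P : Sylow p K) (hP : IsCyclic ↥(P : Subgroup K)) :
    ((P : Subgroup K).Normal ∧ Subgroup.centralizer ((P : Subgroup K) : Set K) = (P : Subgroup K) ∧
      (∀ (_ : (P : Subgroup K).Normal), IsCyclic (K ⧸ (P : Subgroup K))) ∧ (P : Subgroup K).index ∣ p - 1) ∨
    (IsSimpleGroup ↥(Cfsg.generalizedFittingSubgroup K) ∧ ¬ IsMulCommutative ↥(Cfsg.generalizedFittingSubgroup K) ∧
      ¬ p ∣ (Cfsg.generalizedFittingSubgroup K).index) := by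
  have hpp : p.Prime := Fact.out
  haveI : IsMulCommutative (P : Subgroup K) := hP.isMulCommutative
  by_cases h0 : pCore p K = ⊥
  · right
    have hF : fittingSubgroup K = ⊥ := by rw [Core.fitting_eq_pCore p hO, h0]
    haveI : Nontrivial K := Finite.one_lt_card_iff_nontrivial.mp
      (lt_of_lt_of_le hpp.one_lt (Nat.le_of_dvd Nat.card_pos hp))
    have hE := Comp2.genFitting_eq_layer_of_fitting_eq_bot hF
    obtain ⟨L, hL⟩ : ∃ L : Subgroup K, IsComponent L := by
      by_contra! h
      exact Comp2.genFitting_ne_bot (hE.trans (Comp2.layer_eq_bot_iff.mpr h))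
    have hd : ∀ M : Subgroup K, IsComponent M → (P : Subgroup K) ⊓ M ≠ ⊥ := fun M hM =>
      inf_ne_bot_of_isSubnormal P hM.1
        (Comp2.dvd_card_of_subnormal_of_pPrimeCore_eq_bot hO hM.1 (Comp2.component_ne_bot hM))
    have hZ : L ⊓ centralizer (L : Set K) = ⊥ :=
      eq_bot_iff.mpr (hF ▸ Comp2.component_inf_centralizer_le_fitting hL)
    have hEL : layer K = L := by
      refine le_antisymm (Comp2.layer_le_iff.mpr fun M hM => ?_) (Comp2.component_le_layer hL)
      by_contra hne
      have h1 := Comp2.component_commutator_eq_bot_of_ne hM hL fun h => hne h.le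
      refine inf_ne_bot_of_cyclic P hP (hd L hL) (hd M hM) (eq_bot_iff.mpr (hZ ▸ ?_))
      exact inf_le_inf_left L (commutator_eq_bot_iff_le_centralizer.mp h1)
    haveI : L.Normal := hEL ▸ Comp2.layer_normal
    rw [hE, hEL]
    have hs : IsSimpleGroup L := Comp2.isSimpleGroup_of_quasisimple hL.2 (eq_bot_iff.mpr fun x hx =>
      Subtype.ext (hZ.le ⟨x.2, mem_centralizer_iff.mpr fun y hy =>
        congrArg Subtype.val (mem_center_iff.mp hx ⟨y, hy⟩)⟩))
    refine ⟨hs, fun h => Comp2.component_ne_bot hL ?_, not_dvd_index_of_sylow_le P ?_⟩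
    · rw [← Comp2.component_commutator_self hL]
      exact Core.isMulCommutative_iff_commutator_eq_bot.mp h
    · have hle : (P : Subgroup K) ≤ L ⊔ P := le_sup_right
      rcases npc_or_le_commutator _ (isCyclic_sylow_subtype P hP hle) with h | h
      · exfalso
        obtain ⟨N, hn, h1, h2⟩ := Transfer.hasNormalPComplement_iff_exists_normal.mp
          (Transfer.hasNormalPComplement_of_le le_sup_left h)
        rcases hs.eq_bot_or_eq_top_of_normal N hn with rfl | rfl
        · exact Comp2.component_ne_bot hL (eq_bot_iff.mpr (h0 ▸ Core.le_pCore inferInstance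
            (h2.of_equiv QuotientGroup.quotientBot)))
        · rw [card_top] at h1
          exact h1 (Comp2.dvd_card_of_subnormal_of_pPrimeCore_eq_bot hO hL.1 (Comp2.component_ne_bot hL))
      · intro x hx
        have h1 : x ∈ ⁅L ⊔ (P : Subgroup K), L ⊔ (P : Subgroup K)⁆ := by
          rw [← Core.map_commutator_subtype]
          exact ⟨⟨x, hle hx⟩, h hx, rfl⟩
        refine commutator_sup_le (commutator_le_left _ _) ?_ h1
        rw [Subgroup.commutator_comm]
        refine commutator_sup_le (commutator_le_left _ _) ?_
        rw [Core.isMulCommutative_iff_commutator_eq_bot.mp inferInstance]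
        exact bot_le
  · left
    obtain ⟨z, hz, hzp⟩ := exists_prime_orderOf_mem hpp
      (Core.prime_dvd_card_of_isPGroup (Core.pCore_isPGroup p) h0)
    have hle := Core.pCore_le_sylow P
    haveI : (zpowers z).Normal := H2.normal_of_le_isCyclic (isCyclic_of_le hle) (zpowers_le.mpr hz)
    have hzP : zpowers z ≤ P := zpowers_le.mpr (hle hz)
    have hPC : (P : Subgroup K) ≤ centralizer (zpowers z : Set K) :=
      (P : Subgroup K).le_centralizer.trans (centralizer_le hzP)
    have hC : centralizer (zpowers z : Set K) = P := by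
      have h1 := npc_centralizer_of_cyclic P hP hzP (zpowers_ne_bot.mpr (ne_one_of_orderOf_prime hpp hzp))
      have h2 := Transfer.hasNormalPComplement_iff_not_dvd.mp h1
      haveI := Transfer.pResidual_characteristic (p := p) (G := centralizer (zpowers z : Set K))
      have h3 := Core.le_pPrimeCore (p := p)
        (N := (pResidual p (centralizer (zpowers z : Set K))).map (Subgroup.subtype _)) inferInstance
        (by rw [Core.card_map_subtype]; exact ((Nat.Prime.coprime_iff_not_dvd hpp).mpr h2).symm)
      rw [hO, le_bot_iff, Subgroup.map_eq_bot_iff_of_injective _ (subtype_injective _)] at h3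
      exact P.is_maximal' (Transfer.isPGroup_of_pResidual_eq_bot h3) hPC
    have hA : (⊤ : Subgroup K) ≤ normalizer (zpowers z : Set K) := (normalizer_eq_top _).ge
    let f : K →* MulAut (zpowers z) := (PGrp.actHom hA).comp topEquiv.symm.toMonoidHom
    have hf : f.ker = P := by
      ext x
      rw [← hC]
      exact PGrp.actHom_eq_one_iff hA
    obtain ⟨h1, h2⟩ := isCyclic_mulAut_of_card_prime (p := p) (Q := zpowers z) (by rw [Nat.card_zpowers, hzp])
    refine ⟨hf ▸ inferInstance, le_antisymm ((centralizer_le hzP).trans hC.le) (P : Subgroup K).le_centralizer,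
      fun _ => ?_, ?_⟩
    · exact isCyclic_of_surjective _ ((QuotientGroup.quotientMulEquivOfEq hf.symm).trans
        (QuotientGroup.quotientKerEquivRange f)).symm.surjective
    · rw [← hf, index_ker, ← h2]
      exact card_subgroup_dvd_card _

end Cfsg.Agent.S4403
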