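import Mathlib
import Cfsg.Statements.S4404
import Cfsg.Agent.Gp.Q4
import Cfsg.Agent.Core.Hall
-- import your own Cfsg.Agent.* helpers here

set_option autoImplicit false
open Cfsg

namespace Cfsg.Agent.S4404

open Subgroup Pointwise Cfsg.Agent.Gp.Q4

/-- Let S be a finite solvable group and M a normal elementary abelian 2-subgroup of S. Suppose S contains an elementary abelian subgroup of order p³ for some odd prime p, and a cyclic 3-subgroup Q such that the cubes of the elements of Q centralize M and the commutator subgroup [Q, M] has order 4 (a four-group inside M). Then S contains an elementary abelian subgroup F of order r³, for some odd prime r, whose centralizer of [Q, M] in F — the subgroup C_F([Q, M]) — is not cyclic. -/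
theorem result {S : Type*} [Group S] [Finite S]
    [Group.IsSolvable S] (M : Subgroup S) [M.Normal] (hM : Cfsg.IsElementaryAbelian 2 M)
    (p : ℕ) (hp : p.Prime) (hp2 : p ≠ 2) (E : Subgroup S) (hE : Cfsg.IsElementaryAbelian p E) (hE3 : Nat.card ↥E = p ^ 3)
    (Q : Subgroup S) (hQc : IsCyclic ↥Q) (hQ3 : IsPGroup 3 ↥Q)
    (hQ1 : ∀ x ∈ Q, x ^ 3 ∈ Subgroup.centralizer (M : Set S)) (hQM : Nat.card ↥⁅Q, M⁆ = 4) :
    ∃ (r : ℕ) (F : Subgroup S), r.Prime ∧ r ≠ 2 ∧ Cfsg.IsElementaryAbelian r F ∧ Nat.card ↥F = r ^ 3 ∧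
      ¬ IsCyclic ↥(F ⊓ Subgroup.centralizer ((⁅Q, M⁆ : Subgroup S) : Set S)) := by
  haveI := hM.1
  letI : CommGroup M := { (inferInstance : Group M) with mul_comm := mul_comm' }
  haveI : Fact (Nat.Prime 3) := ⟨Nat.prime_three⟩
  have h2 : ∀ v : M, v ^ 2 = 1 := fun v => Subtype.ext (hM.2 v v.2)
  obtain ⟨H, hH, hQH⟩ := Core.exists_isPiHall_ge (π := {3, p}) (K := Q) fun q h1 h3 => by
    obtain ⟨n, hn⟩ := IsPGroup.iff_card.1 hQ3
    rw [hn] at h3
    exact .inl ((Nat.prime_dvd_prime_iff_eq h1 Nat.prime_three).1 (h1.dvd_of_dvd_pow h3))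
  obtain ⟨g, hg⟩ := Core.IsPiHall.exists_conj_le hH (K := E) fun q h1 h3 => by
    rw [hE3] at h3
    exact .inr ((Nat.prime_dvd_prime_iff_eq h1 hp).1 (h1.dvd_of_dvd_pow h3))
  obtain ⟨x, rfl⟩ := Q.isCyclic_iff_exists_zpowers_eq_top.1 hQc
  let ψ : S →* MulAut M := MulAut.conjNormal
  have e : ⁅zpowers x, M⁆ = (W (ψ x)).map M.subtype := by
    refine le_antisymm (commutator_le.2 fun q hq m hm => ⟨_, W_le_of_mem (b := ψ q) (by
      obtain ⟨k, rfl⟩ := hq
      exact ⟨k, (map_zpow ψ x k).symm⟩) (cm_mem _ ⟨m, hm⟩), ?_⟩) ?_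
    · rw [mul_comm]; rfl
    · rintro _ ⟨_, ⟨v, rfl⟩, rfl⟩
      have := commutator_mem_commutator (mem_zpowers x) v.2
      change ((v⁻¹ * ψ x v : M) : S) ∈ _
      rw [mul_comm]; exact this
  haveI := hE.1
  obtain ⟨r, F, X, r1, r2, f1, f2, x1, x2, x3⟩ := main h2 (ψ.comp H.subtype) hp hp2 hH.1
    (E := (MulAut.conj g • E).subgroupOf H)
    ⟨⟨⟨fun x y => Subtype.ext (Subtype.ext ((MulAut.conj g⁻¹).injective (by
      simpa [mul_assoc, -map_mul] using congrArg Subtype.val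
        (mul_comm' (⟨_, Core.mem_conj_smul_iff.1 x.2⟩ : E) ⟨_, Core.mem_conj_smul_iff.1 y.2⟩))))⟩⟩,
      fun x hx => Subtype.ext ((MulAut.conj g⁻¹).injective (by
        rw [coe_pow, map_pow]
        simpa using hE.2 _ (Core.mem_conj_smul_iff.1 hx)))⟩
    (by rw [Nat.card_congr (subgroupOfEquivOfLe hg).toEquiv, Core.card_conj_smul, hE3])
    (x := ⟨x, hQH (mem_zpowers x)⟩) (by
      change ψ x ^ 3 = 1
      rw [← map_pow]
      refine MulEquiv.ext fun v => Subtype.ext ?_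
      change x ^ 3 * v * (x ^ 3)⁻¹ = v
      rw [← hQ1 x (mem_zpowers x) v v.2, mul_inv_cancel_right])
    (by rw [e, card_map_of_injective M.subtype_injective] at hQM; exact hQM)
  haveI := f1.1
  haveI := Fact.mk r1
  refine ⟨r, F.map H.subtype, r1, r2, ⟨inferInstance, ?_⟩,
    by rw [card_map_of_injective H.subtype_injective, f2], fun hc => ?_⟩
  · rintro _ ⟨a, ha, rfl⟩
    exact congrArg Subtype.val (f1.2 a ha)
  let ρ : F →* MulAut X :=
    (res X).comp (((ψ.comp H.subtype).comp F.subtype).codRestrict _ fun f => x3 f f.2)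
  obtain ⟨n, hn⟩ := card_pow h2 X
  have n3 : n ≤ 3 := by rwa [hn, Nat.pow_le_pow_iff_right (by norm_num)] at x2
  have d1 : ρ.ker.index ∣ 168 := by
    rw [index_ker]
    exact ρ.range.card_subgroup_dvd_card.trans ((card_aut h2 hn).trans
      (by interval_cases n <;> decide))
  obtain ⟨i, -, hi⟩ := (Nat.dvd_prime_pow r1).1 (f2 ▸ ρ.ker.index_dvd_card)
  have i1 : i ≤ 1 := by
    by_contra k
    have k2 : r ^ 2 ∣ 2 ^ 3 * 21 := (pow_dvd_pow r (by omega)).trans (hi ▸ d1)
    have k3 := (((Nat.coprime_primes r1 Nat.prime_two).2 r2).pow 2 3).dvd_of_dvd_mul_left k2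
    have : r ≤ 4 := by have := Nat.le_of_dvd (by norm_num) k3; nlinarith
    have := r1.two_le
    interval_cases r <;> omega
  have c1 : Nat.card ρ.ker ≤ Nat.card (F.map H.subtype ⊓ centralizer
      ((⁅zpowers x, M⁆ : Subgroup S) : Set S) : Subgroup S) := by
    rw [← card_map_of_injective (f := H.subtype.comp F.subtype)
      (H.subtype_injective.comp F.subtype_injective)]
    refine card_le_of_le ?_
    rintro _ ⟨f, hf, rfl⟩
    refine ⟨⟨f.1, f.2, rfl⟩, ?_⟩
    rw [e]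
    rintro _ ⟨v, hv, rfl⟩
    have := congrArg (fun y : X => (y.1 : S)) (DFunLike.congr_fun (MonoidHom.mem_ker.1 hf) ⟨v, x1 hv⟩)
    exact (mul_inv_eq_iff_eq_mul.1 this).symm
  have c2 : Nat.card (F.map H.subtype ⊓ centralizer
      ((⁅zpowers x, M⁆ : Subgroup S) : Set S) : Subgroup S) ∣ r := by
    rw [← IsCyclic.exponent_eq_card]
    refine Monoid.exponent_dvd_of_forall_pow_eq_one ?_
    rintro ⟨_, ⟨a, ha, rfl⟩, h⟩
    exact Subtype.ext (congrArg (fun y : H => (y : S)) (f1.2 a ha) :)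
  have c3 := ρ.ker.card_mul_index
  rw [hi, f2] at c3
  have c4 := Nat.mul_le_mul (c1.trans (Nat.le_of_dvd r1.pos c2)) (Nat.pow_le_pow_right r1.pos i1)
  rw [c3, ← pow_succ', Nat.pow_le_pow_iff_right r1.one_lt] at c4
  omega

end Cfsg.Agent.S4404
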