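import Mathlib
import Cfsg.Statements.S4406
import Cfsg.Agent.FGS.Basic2
import Cfsg.Agent.Core.Basic

set_option autoImplicit false
open Cfsg

namespace Cfsg.Agent.S4406

theorem l1 : ∀ u : Equiv.Perm (Fin 4), Equiv.Perm.sign u = 1 → u ^ 4 = 1 → u ^ 2 = 1 := by
  decide +kernel

set_option synthInstance.maxSize 2000 in
set_option synthInstance.maxHeartbeats 200000 in
theorem l2 : ∀ u : Equiv.Perm (Fin 4), Equiv.Perm.sign u = 1 → u ^ 2 = 1 → u ≠ 1 →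
    ∀ v : Equiv.Perm (Fin 4), Equiv.Perm.sign v = 1 → v ^ 2 = 1 → v ≠ 1 → u ≠ v →
    ∀ a : Equiv.Perm (Fin 4), (Equiv.Perm.sign a = 1 → a ^ 2 = 1 → a = 1 ∨ a = u ∨ a = v ∨ a = u * v) ∧
     (a ^ 3 = 1 → a ≠ 1 → (a * u * a⁻¹ = v ∧ a * v * a⁻¹ = u * v) ∨
      (a⁻¹ * u * a⁻¹⁻¹ = v ∧ a⁻¹ * v * a⁻¹⁻¹ = u * v)) := by
  decide +kernel

abbrev A := alternatingGroup (Fin 4)

theorem l3 {u v : A} (hu : u ^ 4 = 1) (hv : v ^ 4 = 1) (hu1 : u ≠ 1) (hv1 : v ≠ 1) (huv : u ≠ v) :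
    (∀ w : A, w ^ 4 = 1 → w = 1 ∨ w = u ∨ w = v ∨ w = u * v) ∧
    ∀ a : A, a ^ 3 = 1 → a ≠ 1 → ∃ b ∈ Subgroup.zpowers a, b ^ 3 = 1 ∧ b ≠ 1 ∧
      b * u * b⁻¹ = v ∧ b * v * b⁻¹ = u * v := by
  have h := l2 u u.2 (l1 u u.2 (congrArg Subtype.val hu)) (fun h => hu1 (Subtype.ext h))
    v v.2 (l1 v v.2 (congrArg Subtype.val hv)) (fun h => hv1 (Subtype.ext h)) (fun h => huv (Subtype.ext h))
  refine ⟨fun w hw => ?_, fun a ha ha1 => ?_⟩
  · simp only [Subtype.ext_iff]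
    exact (h w).1 w.2 (l1 w w.2 (congrArg Subtype.val hw))
  · rcases (h a).2 (congrArg Subtype.val ha) (fun h => ha1 (Subtype.ext h)) with h | h
    · exact ⟨a, Subgroup.mem_zpowers a, ha, ha1, Subtype.ext h.1, Subtype.ext h.2⟩
    · exact ⟨a⁻¹, Subgroup.inv_mem _ (Subgroup.mem_zpowers a), by rw [inv_pow, ha, inv_one],
        inv_ne_one.mpr ha1, Subtype.ext h.1, Subtype.ext h.2⟩

theorem cardA : Nat.card A = 12 := by
  have := two_mul_nat_card_alternatingGroup (α := Fin 4)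
  rw [Nat.card_perm, Nat.card_fin] at this
  have h : Nat.factorial 4 = 24 := rfl
  change 2 * Nat.card A = _ at this
  omega

theorem l4 (Q : Sylow 3 (A × A)) (N : Subgroup (A × A)) [N.Normal] (hN : Nat.card N = 12) :
    ∃ z ∈ (Q : Subgroup (A × A)) ⊓ N, orderOf z = 3 := by
  haveI := Fact.mk Nat.prime_three
  refine FGS.exists_prime_orderOf_mem Nat.prime_three ?_
  have h4 := Core.card_inf_mul_relIndex (Q : Subgroup (A × A)) N
  exact ((Nat.Prime.dvd_mul Nat.prime_three).mp (by rw [h4, hN]; norm_num)).resolve_right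
    (FGS.not_dvd_relIndex_sylow_normal Q N)

/-- In the direct product P = A₄ × A₄, let X be the Sylow 2-subgroup, X₁ and X₂ its intersections with the two direct factors, Q a Sylow 3-subgroup and Q₁, Q₂ its intersections with the two factors. Then every subgroup B of X of order 4 either meets X₁ or X₂ nontrivially, or is normalized by one of the two subgroups of Q of order 3 other than Q₁ and Q₂. -/
theorem result
    (X : Sylow 2 (↥(alternatingGroup (Fin 4)) × ↥(alternatingGroup (Fin 4))))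
    (Q : Sylow 3 (↥(alternatingGroup (Fin 4)) × ↥(alternatingGroup (Fin 4))))
    (B : Subgroup (↥(alternatingGroup (Fin 4)) × ↥(alternatingGroup (Fin 4)))) (hBX : B ≤ (X : Subgroup _)) (hB4 : Nat.card ↥B = 4) :
    B ⊓ ((X : Subgroup _) ⊓ Subgroup.prod ⊤ ⊥) ≠ ⊥ ∨ B ⊓ ((X : Subgroup _) ⊓ Subgroup.prod ⊥ ⊤) ≠ ⊥ ∨
      ∃ R : Subgroup (↥(alternatingGroup (Fin 4)) × ↥(alternatingGroup (Fin 4))), R ≤ (Q : Subgroup _) ∧ Nat.card ↥R = 3 ∧
        R ≠ (Q : Subgroup _) ⊓ Subgroup.prod ⊤ ⊥ ∧ R ≠ (Q : Subgroup _) ⊓ Subgroup.prod ⊥ ⊤ ∧ R ≤ Subgroup.normalizer (B : Set _) := by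
  by_contra! hc
  obtain ⟨h1, h2, h3⟩ := hc
  have e1 : ∀ b ∈ B, b.2 = 1 → b = 1 := fun b hb h => by
    rw [← Subgroup.mem_bot, ← h1]
    exact Subgroup.mem_inf.mpr ⟨hb, Subgroup.mem_inf.mpr ⟨hBX hb, trivial, h⟩⟩
  have e2 : ∀ b ∈ B, b.1 = 1 → b = 1 := fun b hb h => by
    rw [← Subgroup.mem_bot, ← h2]
    exact Subgroup.mem_inf.mpr ⟨hb, Subgroup.mem_inf.mpr ⟨hBX hb, h, trivial⟩⟩
  have i1 : ∀ b ∈ B, ∀ c ∈ B, b.2 = c.2 → b = c := fun b hb c hc h =>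
    mul_inv_eq_one.mp (e1 _ (B.mul_mem hb (B.inv_mem hc)) (mul_inv_eq_one.mpr h))
  have i2 : ∀ b ∈ B, ∀ c ∈ B, b.1 = c.1 → b = c := fun b hb c hc h =>
    mul_inv_eq_one.mp (e2 _ (B.mul_mem hb (B.inv_mem hc)) (mul_inv_eq_one.mpr h))
  have e4 : ∀ b ∈ B, b ^ 4 = 1 := fun b hb => by
    rw [← orderOf_dvd_iff_pow_eq_one]; exact (B.orderOf_dvd_natCard hb).trans hB4.dvd
  obtain ⟨u, hu, v, hv, hu1, hv1, huv⟩ : ∃ u ∈ B, ∃ v ∈ B, u ≠ 1 ∧ v ≠ 1 ∧ u ≠ v := by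
    haveI := Fintype.ofFinite B
    classical
    have : 1 < (Finset.univ.erase (1 : B)).card := by
      rw [Finset.card_erase_of_mem (Finset.mem_univ _), Finset.card_univ, ← Nat.card_eq_fintype_card, hB4]
      norm_num
    obtain ⟨u, hu, v, hv, huv⟩ := Finset.one_lt_card.mp this
    exact ⟨u, u.2, v, v.2, fun h => (Finset.mem_erase.mp hu).1 (Subtype.ext h),
      fun h => (Finset.mem_erase.mp hv).1 (Subtype.ext h), fun h => huv (Subtype.ext h)⟩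
  obtain ⟨k1, k2⟩ := l3 (congrArg Prod.fst (e4 u hu)) (congrArg Prod.fst (e4 v hv)) (mt (e2 u hu) hu1)
    (mt (e2 v hv) hv1) (mt (i2 u hu v hv) huv)
  obtain ⟨-, k3⟩ := l3 (congrArg Prod.snd (e4 u hu)) (congrArg Prod.snd (e4 v hv)) (mt (e1 u hu) hu1)
    (mt (e1 v hv) hv1) (mt (i1 u hu v hv) huv)
  obtain ⟨⟨a, a'⟩, ⟨ha, -, ha'⟩, ha3⟩ := l4 Q (Subgroup.prod ⊤ ⊥) (by
    rw [Nat.card_congr (Subgroup.prodEquiv _ _).toEquiv, Nat.card_prod, Subgroup.card_top, Subgroup.card_bot, cardA])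
  obtain ⟨⟨c', c⟩, ⟨hc, hc', -⟩, hc3⟩ := l4 Q (Subgroup.prod ⊥ ⊤) (by
    rw [Nat.card_congr (Subgroup.prodEquiv _ _).toEquiv, Nat.card_prod, Subgroup.card_top, Subgroup.card_bot, cardA])
  obtain rfl : a' = 1 := ha'
  obtain rfl : c' = 1 := hc'
  obtain ⟨b, ⟨i, rfl⟩, hb3, hb1, hbu, hbv⟩ := k2 a (congrArg Prod.fst (ha3 ▸ pow_orderOf_eq_one (a, (1 : A))))
    (by rintro rfl; simp [← Prod.one_eq_mk] at ha3)
  obtain ⟨d, ⟨j, rfl⟩, hd3, hd1, hdu, hdv⟩ := k3 c (congrArg Prod.snd (hc3 ▸ pow_orderOf_eq_one ((1 : A), c)))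
    (by rintro rfl; simp [← Prod.one_eq_mk] at hc3)
  simp only at hb3 hb1 hbu hbv hd3 hd1 hdu hdv
  haveI := Fact.mk Nat.prime_three
  have ru : (a ^ i, c ^ j) * u * (a ^ i, c ^ j)⁻¹ = v := Prod.ext hbu hdu
  have rv : (a ^ i, c ^ j) * v * (a ^ i, c ^ j)⁻¹ = u * v := Prod.ext hbv hdv
  refine h3 (Subgroup.zpowers (a ^ i, c ^ j)) (Subgroup.zpowers_le.mpr ?_) ?_ (fun h => hd1 ?_)
    (fun h => hb1 ?_) (Subgroup.zpowers_le.mpr (Subgroup.mem_normalizer_fintype fun w hw => ?_))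
  · have := (Q : Subgroup (A × A)).mul_mem ((Q : Subgroup (A × A)).zpow_mem ha i)
      ((Q : Subgroup (A × A)).zpow_mem hc j)
    simpa using this
  · rw [Nat.card_zpowers]
    exact orderOf_eq_prime (Prod.ext hb3 hd3) fun h => hb1 (congrArg Prod.fst h)
  · exact (h.le (Subgroup.mem_zpowers _)).2.2
  · exact (h.le (Subgroup.mem_zpowers _)).2.1
  · rcases k1 w.1 (congrArg Prod.fst (e4 w hw)) with h | h | h | h
    · rw [e2 w hw h, mul_one, mul_inv_cancel]; exact B.one_mem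
    · rw [i2 w hw u hu h, ru]; exact hv
    · rw [i2 w hw v hv h, rv]; exact B.mul_mem hu hv
    · rw [i2 w hw _ (B.mul_mem hu hv) h, ← conj_mul, ru, rv]; exact B.mul_mem hv (B.mul_mem hu hv)

end Cfsg.Agent.S4406
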