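import Mathlib
import Cfsg.Statements.S4407
import Cfsg.Agent.H23.WrMod
-- import your own Cfsg.Agent.* helpers here

set_option autoImplicit false
open Cfsg

namespace Cfsg.Agent.S4407

/-- Let S be a finite group with a normal elementary abelian subgroup A of order 9 that is self-centralizing (C_S(A) = A), and a dihedral subgroup X of order 8 with S = AX. Let M be a finite-dimensional module for S over the field with two elements that is faithful and irreducible. Then M has 16 elements, and X contains exactly one subgroup B of order 4 and exponent 2 whose fixed points on M form a subspace with exactly 2 elements (equivalently, M is free of rank one over the group algebra of B). -/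
theorem result {S : Type*} [Group S] [Finite S]
    (A : Subgroup S) [A.Normal] (hA : Cfsg.IsElementaryAbelian 3 A) (hA9 : Nat.card ↥A = 9)
    (hAC : Subgroup.centralizer (A : Set S) = A) (X : Subgroup S) (hX : Nonempty (↥X ≃* DihedralGroup 4)) (hAX : A ⊔ X = ⊤)
    {M : Type*} [AddCommGroup M] [Module (ZMod 2) M] [Finite M] (ρ : Representation (ZMod 2) S M)
    (hfaith : Function.Injective ρ)
    (hirr : ∀ N : Submodule (ZMod 2) M, (∀ s : S, ∀ m ∈ N, ρ s m ∈ N) → N = ⊥ ∨ N = ⊤) (hM : Nontrivial M) :
    Nat.card M = 16 ∧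
      ∃! B : Subgroup S, B ≤ X ∧ Nat.card ↥B = 4 ∧ (∀ b ∈ B, b ^ 2 = 1) ∧
        Nat.card {m : M // ∀ b ∈ B, ρ b m = m} = 2 := by

  obtain ⟨e⟩ := hX
  let φ : DihedralGroup 4 →* S := X.subtype.comp e.symm.toMonoidHom
  have hφ : Function.Injective φ := X.subtype_injective.comp e.symm.injective
  have hr : φ.range = X := by
    rw [MonoidHom.range_comp, MonoidHom.range_eq_top.mpr e.symm.surjective, ← MonoidHom.range_eq_map,
      Subgroup.range_subtype]
  obtain ⟨h16, i, j, hij, h4, h2⟩ := H23.WrMod.main A hA hA9 hAC φ hφ (by rw [hr, hAX]) ρ hfaith hirr hM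
  refine ⟨h16, (H23.WrMod.D j).map φ, ⟨hr ▸ Subgroup.map_le_range _ _, ?_, ?_, ?_⟩, ?_⟩
  · rw [Subgroup.card_map_of_injective hφ, H23.WrMod.card_D]
  · rintro _ ⟨g, hg, rfl⟩
    rw [← map_pow, H23.WrMod.sq_D j g hg, map_one]
  · rw [H23.WrMod.fix_D, h2]
  · rintro B ⟨hBX, hB4, hB2, hBf⟩
    have hB : (B.comap φ).map φ = B := Subgroup.map_comap_eq_self (hr ▸ hBX)
    have h := H23.WrMod.four_sub (B.comap φ) (by rw [← Subgroup.card_map_of_injective hφ, hB, hB4])
      fun g hg => hφ (by rw [map_pow, map_one]; exact hB2 _ hg)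
    have hi : B.comap φ ≠ H23.WrMod.D i := fun h => by
      rw [← hB, h, H23.WrMod.fix_D, h4] at hBf
      omega
    rw [← hB]
    rcases hij with ⟨rfl, rfl⟩ | ⟨rfl, rfl⟩
    · rw [h.resolve_left hi]
    · rw [h.resolve_right hi]

end Cfsg.Agent.S4407
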