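import Mathlib
import Cfsg.Statements.S4408
import Cfsg.Agent.FGS.Basic2
import Cfsg.Agent.Comp2.Sig1
import Cfsg.Agent.Core.Fitting

set_option autoImplicit false
open Cfsg

namespace Cfsg.Agent.S4408

open Subgroup

theorem step {G : Type*} [Group G] [Finite G] {F I J : Subgroup G} (hF : Group.IsNilpotent F)
    (ho : ¬ 2 ∣ Nat.card F) (hI : Cfsg.IsElementaryAbelian 2 I) (hIF : I ≤ normalizer (F : Set G))
    (hf : I ⊓ centralizer (F : Set G) = ⊥) (hJ : J ≤ I) (hJ1 : J ≠ ⊥) :
    ∃ x ∈ F, (orderOf x).Prime ∧ x ∈ centralizer ((F ⊓ centralizer (J : Set G) : Subgroup G) : Set G) ∧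
      I ≤ normalizer (zpowers x : Set G) ∧ (centralizer ({x} : Set G)).relIndex J = 2 := by
  haveI := Fact.mk Nat.prime_two
  have hIc : ∀ L ≤ I, I ≤ normalizer (L : Set G) := fun L hL x hx =>
    centralizer_le_normalizer _ fun y hy => Core.comm_of_isMulCommutative hI.1 (hL hy) hx
  have hD : I ≤ normalizer ((F ⊓ centralizer ((F ⊓ centralizer (J : Set G) : Subgroup G) : Set G) :
      Subgroup G) : Set G) := Core.le_normalizer_inf hIF (Core.le_normalizer_centralizer
        (Core.le_normalizer_inf hIF (Core.le_normalizer_centralizer (hIc J hJ))))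
  set D := F ⊓ centralizer ((F ⊓ centralizer (J : Set G) : Subgroup G) : Set G)
  have h1 : ¬ D ≤ centralizer (J : Set G) := fun h => hJ1 (eq_bot_iff.mpr (hf ▸ le_inf hJ
    (Core.le_centralizer_of_nilpotent_of_centralizer_le hF (hJ.trans hIF)
      (Core.coprime_of_le_left (Comp2.elem_coprime hI ho) hJ) h)))
  obtain ⟨H, hH, hH2, h2⟩ : ∃ H ≤ I, H.relIndex I = 2 ∧ ¬ D ⊓ centralizer (H : Set G) ≤ centralizer (J : Set G) := by
    by_contra! h
    exact h1 (Comp2.le_of_hyperplanes hI (ne_bot_of_le_ne_bot hJ1 hJ) hD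
      (fun h' => ho (h'.trans (card_dvd_of_le inf_le_left))) h)
  have hX := Core.le_normalizer_inf hD (Core.le_normalizer_centralizer (hIc H hH))
  obtain ⟨d, hd, h3⟩ := SetLike.not_le_iff_exists.mp h2
  obtain ⟨t, ht, h4⟩ : ∃ t ∈ J, t * d ≠ d * t := by
    by_contra! h
    exact h3 h
  have ht2 : t * t = 1 := by rw [← sq]; exact hI.2 t (hJ ht)
  have hy : d⁻¹ * (t * d * t⁻¹) ∈ D ⊓ centralizer (H : Set G) :=
    mul_mem (inv_mem hd) (Core.conj_mem_of_le_normalizer hX (hJ ht) hd)
  have hy1 : d⁻¹ * (t * d * t⁻¹) ≠ 1 := fun h => h4 (by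
    rw [inv_mul_eq_one, eq_mul_inv_iff_mul_eq] at h; exact h.symm)
  have hy2 : t * (d⁻¹ * (t * d * t⁻¹)) * t⁻¹ = (d⁻¹ * (t * d * t⁻¹))⁻¹ := by
    rw [inv_eq_of_mul_eq_one_right ht2]
    calc _ = t * d⁻¹ * t * d * (t * t) := by group
      _ = _ := by rw [ht2, mul_inv_rev, mul_inv_rev, mul_inv_rev, inv_eq_of_mul_eq_one_right ht2]; group
  generalize d⁻¹ * (t * d * t⁻¹) = y at hy hy1 hy2
  obtain ⟨q, j, hq, -, hj⟩ := FGS.exists_pow_orderOf_prime hy1
  have hx := pow_mem hy j
  have hx2 : t * y ^ j * t⁻¹ = (y ^ j)⁻¹ := by rw [← conj_pow, hy2, inv_pow]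
  generalize y ^ j = x at hj hx hx2
  have hHx : H ≤ centralizer {x} := fun s hs => mem_centralizer_singleton_iff.mpr (hx.2 s hs)
  have htx : t ∉ centralizer {x} := fun h => by
    rw [mem_centralizer_singleton_iff.mp h, mul_inv_cancel_right, eq_inv_iff_mul_eq_one, ← sq,
      ← orderOf_dvd_iff_pow_eq_one, hj, Nat.prime_dvd_prime_iff_eq hq Nat.prime_two] at hx2
    exact ho (hx2 ▸ hj ▸ F.orderOf_dvd_natCard hx.1.1)
  refine ⟨x, hx.1.1, hj ▸ hq, hx.1.2, ?_, le_antisymm ?_ ?_⟩
  · have h5 : H ⊔ zpowers t = I := (Core.eq_or_eq_of_relIndex_prime (hH2 ▸ Nat.prime_two) le_sup_left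
      (sup_le hH (zpowers_le.mpr (hJ ht)))).resolve_left fun h => htx (hHx (h.le (mem_sup_right (mem_zpowers t))))
    rw [← h5]
    refine sup_le (hHx.trans ?_) (zpowers_le.mpr (mem_normalizer_fintype ?_))
    · rw [← centralizer_closure, ← zpowers_eq_closure]; exact centralizer_le_normalizer _
    · rintro _ ⟨i, rfl⟩
      rw [← conj_zpow, hx2]
      exact zpow_mem (inv_mem (mem_zpowers x)) i
  · exact (relIndex_le_of_le_left hHx index_ne_zero_of_finite).trans
      (hH2 ▸ relIndex_le_of_le_right hJ index_ne_zero_of_finite)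
  · have := mt relIndex_eq_one.mp fun h : J ≤ centralizer {x} => htx (h ht)
    have h0 : (centralizer ({x} : Set G)).relIndex J ≠ 0 := index_ne_zero_of_finite
    omega

/-- Let S be a finite solvable group whose Fitting subgroup F(S) has odd order, and let I be an elementary abelian 2-subgroup of S of order 2ⁿ with n ≥ 1. Then F(S) contains subgroups A₁, …, Aₙ of prime order, each normalized by I, pairwise commuting and generating a subgroup A of order |A₁|⋯|Aₙ| (their internal direct product), such that no non-identity element of I centralizes A. -/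
theorem result {S : Type*} [Group S] [Finite S]
    [Group.IsSolvable S] (hF : Odd (Nat.card ↥(Cfsg.fittingSubgroup S)))
    (I : Subgroup S) (hI : Cfsg.IsElementaryAbelian 2 I) (n : ℕ) (hn : 1 ≤ n) (hIn : Nat.card ↥I = 2 ^ n) :
    ∃ f : Fin n → Subgroup S, (∀ i, (Nat.card ↥(f i)).Prime) ∧ (∀ i, f i ≤ Cfsg.fittingSubgroup S) ∧
      (∀ i, I ≤ Subgroup.normalizer ((f i) : Set S)) ∧ (∀ i j, i ≠ j → ∀ a ∈ f i, ∀ b ∈ f j, a * b = b * a) ∧
      Nat.card ↥(⨆ i, f i) = ∏ i, Nat.card ↥(f i) ∧ I ⊓ Subgroup.centralizer ((⨆ i, f i : Subgroup S) : Set S) = ⊥ := by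
  have ho : ¬ 2 ∣ Nat.card (Cfsg.fittingSubgroup S) := by rw [Nat.odd_iff] at hF; omega
  haveI := Core.fitting_normal (G := S)
  have hf : I ⊓ centralizer (Cfsg.fittingSubgroup S : Set S) = ⊥ := by
    haveI := Fact.mk Nat.prime_two
    exact eq_bot_iff.mpr ((inf_le_inf_left I Core.centralizer_fitting_le).trans
      (Core.disjoint_of_coprime (Comp2.elem_coprime hI ho)).eq_bot.le)
  have key : ∀ k ≤ n, ∃ f : Fin k → Subgroup S, (∀ i, (Nat.card ↥(f i)).Prime) ∧
      (∀ i, f i ≤ Cfsg.fittingSubgroup S) ∧ (∀ i, I ≤ Subgroup.normalizer ((f i) : Set S)) ∧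
      (∀ i j, i ≠ j → ∀ a ∈ f i, ∀ b ∈ f j, a * b = b * a) ∧ Nat.card ↥(⨆ i, f i) = ∏ i, Nat.card ↥(f i) ∧
      Nat.card (I ⊓ Subgroup.centralizer ((⨆ i, f i : Subgroup S) : Set S) : Subgroup S) = 2 ^ (n - k) := by
    intro k
    induction k with
    | zero => exact fun _ => ⟨Fin.elim0, by simp, by simp, by simp, by simp, by simp, by
      rw [iSup_of_empty, inf_eq_left.mpr (Core.le_centralizer_bot I), hIn, Nat.sub_zero]⟩
    | succ k ih =>
      intro hk
      obtain ⟨f, h1, h2, h3, h4, h5, h6⟩ := ih (by omega)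
      set A := ⨆ i, f i with hA
      obtain ⟨x, x1, x2, x3, x4, x5⟩ := step Core.fitting_nilpotent ho hI (le_top.trans (normalizer_eq_top _).ge) hf
        (inf_le_left (b := centralizer (A : Set S))) (by
          rw [← one_lt_card_iff_ne_bot, h6]; exact Nat.one_lt_two_pow (by omega))
      have hxA : zpowers x ≤ centralizer (A : Set S) := zpowers_le.mpr fun a ha =>
        x3 a (mem_inf.mpr ⟨iSup_le h2 ha, fun s hs => (hs.2 a ha).symm⟩)
      have hs : ⨆ i, (Fin.cons (zpowers x) f : Fin (k + 1) → Subgroup S) i = A ⊔ zpowers x := by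
        rw [sup_comm]
        refine le_antisymm (iSup_le fun i => ?_) (sup_le (le_iSup_of_le 0 le_rfl)
          (iSup_le fun i => le_iSup_of_le i.succ le_rfl))
        exact Fin.cases le_sup_left (fun i => le_sup_of_le_right (le_iSup f i)) i
      have hd : Disjoint A (zpowers x) := by
        haveI := Fact.mk (show (Nat.card (zpowers x)).Prime by rwa [Nat.card_zpowers])
        rcases (A.subgroupOf (zpowers x)).eq_bot_or_eq_top_of_prime_card with h | h
        · exact subgroupOf_eq_bot.mp h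
        · have := relIndex_eq_one.mpr (show I ⊓ centralizer (A : Set S) ≤ centralizer {x} from fun s hs =>
            mem_centralizer_singleton_iff.mpr (hs.2 x (subgroupOf_eq_top.mp h (mem_zpowers x))).symm)
          omega
      refine ⟨Fin.cons (zpowers x) f, Fin.cases (by rwa [Fin.cons_zero, Nat.card_zpowers]) h1,
        Fin.cases (zpowers_le.mpr x1) h2, Fin.cases x4 h3, fun i j => ?_, ?_, ?_⟩
      · refine Fin.cases ?_ (fun i => ?_) i <;> refine Fin.cases ?_ (fun j => ?_) j
        · exact fun h => absurd rfl h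
        · exact fun _ a ha b hb => (hxA ha b (le_iSup f j hb)).symm
        · exact fun _ a ha b hb => hxA hb a (le_iSup f i ha)
        · exact fun h => h4 i j fun e => h (e ▸ rfl)
      · rw [hs, Fin.prod_univ_succ, Core.card_sup_of_disjoint (hxA.trans (centralizer_le_normalizer _)) hd, h5,
          mul_comm]
        rfl
      · have e : I ⊓ centralizer ((A ⊔ zpowers x : Subgroup S) : Set S) =
            centralizer {x} ⊓ (I ⊓ centralizer (A : Set S)) := by
          refine le_antisymm (le_inf (inf_le_right.trans (centralizer_le ?_))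
            (inf_le_inf_left I (centralizer_le (show A ≤ A ⊔ zpowers x from le_sup_left)))) (le_inf (inf_le_right.trans inf_le_left)
              (le_centralizer_iff.mp (sup_le (le_centralizer_iff.mp (inf_le_right.trans inf_le_right))
                (zpowers_le.mpr fun s hs => mem_centralizer_singleton_iff.mp hs.1))))
          exact Set.singleton_subset_iff.mpr (mem_sup_right (mem_zpowers x))
        have := Core.card_inf_mul_relIndex (centralizer {x}) (I ⊓ centralizer (A : Set S))
        rw [x5, h6, show n - k = n - (k + 1) + 1 by omega, pow_succ] at this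
        rw [hs, e]
        exact Nat.eq_of_mul_eq_mul_right two_pos this
  obtain ⟨f, h1, h2, h3, h4, h5, h6⟩ := key n le_rfl
  exact ⟨f, h1, h2, h3, h4, h5, card_eq_one.mp (by simpa using h6)⟩

end Cfsg.Agent.S4408
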