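import Mathlib
import Cfsg.Statements.S4409
import Cfsg.Agent.Gp.Big8
-- import your own Cfsg.Agent.* helpers here

set_option autoImplicit false
open Cfsg

namespace Cfsg.Agent.S4409

/-- Let S be a finite solvable group with O_{2'}(S) = 1 that contains a non-cyclic abelian subgroup of order 8, while no proper subgroup of S of 2-power index contains one. Then a Sylow 2-subgroup X of S is normal in S, and one of the following holds: X is abelian; X is extraspecial of order at least 32; X has a generalized quaternion subgroup X₀ of index 2 with X = X₀·C_X(X₀); or X is special with centre of order 4. -/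
theorem result {S : Type*} [Group S] [Finite S]
    [Group.IsSolvable S] (hO : Cfsg.pPrimeCore 2 S = ⊥)
    (h8 : ∃ A : Subgroup S, IsMulCommutative ↥A ∧ ¬ IsCyclic ↥A ∧ Nat.card ↥A = 8)
    (hmin : ∀ R : Subgroup S, R ≠ ⊤ → (∃ k : ℕ, R.index = 2 ^ k) →
      ¬ ∃ A : Subgroup S, A ≤ R ∧ IsMulCommutative ↥A ∧ ¬ IsCyclic ↥A ∧ Nat.card ↥A = 8)
    (X : Sylow 2 S) :
    (X : Subgroup S).Normal ∧
      (IsMulCommutative ↥X ∨
        (Cfsg.IsExtraspecial 2 ↥X ∧ 32 ≤ Nat.card ↥X) ∨
        (∃ (X₀ : Subgroup S) (k : ℕ), X₀ ≤ (X : Subgroup S) ∧ X₀.relIndex (X : Subgroup S) = 2 ∧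
          Nonempty (↥X₀ ≃* QuaternionGroup (2 ^ (k + 1))) ∧ X₀ ⊔ ((X : Subgroup S) ⊓ Subgroup.centralizer (X₀ : Set S)) = (X : Subgroup S)) ∨
        (Cfsg.IsSpecial 2 ↥X ∧ Nat.card ↥(Subgroup.center ↥X) = 4)) := by
  open Cfsg.Agent.Gp.Big8 Subgroup in
  obtain ⟨H, hH1, hH2⟩ := Core.exists_isPiHall (G := S) {p | p ≠ 2}
  have hodd : (Nat.card H).Coprime 2 := by
    rw [Nat.coprime_comm, Nat.Prime.coprime_iff_not_dvd Nat.prime_two]
    exact fun h => hH1 2 Nat.prime_two h rfl
  have hidx : H.index = 2 ^ H.index.primeFactorsList.length :=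
    Nat.eq_prime_pow_of_unique_prime_dvd index_ne_zero_of_finite fun {d} hd hdv => by
      by_contra h
      exact hH2 d hd h hdv
  have key : ∀ Y : Subgroup S, Y ≤ X → H ≤ normalizer (Y : Set S) → Big Y → Y = X := by
    intro Y hY hN hb
    refine le_of_sup X.isPGroup' hodd hY hN ?_
    by_contra h
    obtain ⟨A, h1, h2⟩ := hb
    refine hmin _ h ?_ ⟨A, h1.trans le_sup_left, h2⟩
    have := index_dvd_of_le (le_sup_right : H ≤ Y ⊔ H)
    rw [hidx] at this
    obtain ⟨k, -, hk⟩ := (Nat.dvd_prime_pow Nat.prime_two).mp this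
    exact ⟨k, hk⟩
  have hC := Core.centralizer_pCore_le 2 hO
  have hOp := Core.pCore_isPGroup (G := S) 2
  have hOn : (pCore 2 S).Normal := inferInstance
  have hHO : H ≤ normalizer (pCore 2 S : Set S) := by rw [normalizer_eq_top]; exact le_top
  obtain ⟨A, hA1, hA2, hA3⟩ := h8
  have hb : Big (pCore 2 S) := by
    by_contra hb
    by_cases hc : H ≤ centralizer (pCore 2 S : Set S)
    · have h1 : H = ⊥ := by
        rw [eq_bot_iff]
        intro x hx
        exact PGrp.eq_one_of_mem_of_isPGroup_of_coprime hOp (hC (hc hx))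
          (hodd.coprime_dvd_left (orderOf_dvd_natCard H hx))
      rw [h1, index_bot] at hidx
      have h2 : IsPGroup 2 (⊤ : Subgroup S) := (IsPGroup.of_card hidx).to_subgroup ⊤
      exact hb ⟨A, le_top.trans (Core.le_pCore inferInstance h2), hA1, hA2, hA3⟩
    · exact big_le hOp hC (vq hOp hb hodd hHO hc) hA1 hA2 hA3
  have hX := key _ (Core.pCore_le_sylow X) hHO hb
  refine ⟨hX ▸ hOn, ?_⟩
  by_cases hna : IsMulCommutative X
  · exact .inl hna
  right
  have h : St (X : Subgroup S) H := ⟨X.isPGroup', hodd, hX ▸ hHO, hX ▸ hb,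
    fun Y hY hN hb => hY.ne (key Y hY.le hN hb), hna⟩
  by_cases hY : ⁅(X : Subgroup S), H⁆ = X
  · rcases h.caseB hY with h1 | h1
    · exact .inl h1
    · exact .inr (.inr h1)
  · obtain ⟨X₀, h1, h2, h3, h4⟩ := h.caseA hY
    exact .inr (.inl ⟨X₀, 0, h1, h2, h3, h4⟩)

end Cfsg.Agent.S4409
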