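import Mathlib
import Cfsg.Statements.S4410
import Cfsg.Agent.FGS.Basic2
import Cfsg.Agent.Core.Fitting
import Cfsg.Agent.Herm.Iso

set_option autoImplicit false
open Cfsg

namespace Cfsg.Agent.S4410

open Subgroup

theorem exists_inv {G : Type*} [Group G] [Finite G] [Group.IsSolvable G] (h : Cfsg.pCore 2 G = ⊥) {t : G}
    (ht : orderOf t = 2) : ∃ (r : ℕ) (a : G), r.Prime ∧ r ≠ 2 ∧ orderOf a = r ∧ a ∈ Cfsg.pCore r G ∧
      t * a * t⁻¹ = a⁻¹ := by
  haveI := Fact.mk Nat.prime_two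
  haveI := Core.fitting_normal (G := G)
  have h2 : ∀ x ∈ Cfsg.fittingSubgroup G, orderOf x ≠ 2 := fun x hx e => by
    have := Core.le_pCore_of_le_fitting (FGS.isPGroup_zpowers (p := 2) (k := 1) (by rwa [pow_one]))
      (zpowers_le.mpr hx) (mem_zpowers x)
    rw [h, mem_bot] at this
    simp [this] at e
  obtain ⟨d, hd, h4⟩ : ∃ d ∈ Cfsg.fittingSubgroup G, d * t ≠ t * d := by
    by_contra! h'
    exact h2 t (Core.centralizer_fitting_le h') ht
  have ht2 : t * t = 1 := by rw [← sq, ← ht, pow_orderOf_eq_one]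
  have hy : d⁻¹ * (t * d * t⁻¹) ∈ Cfsg.fittingSubgroup G :=
    mul_mem (inv_mem hd) (Normal.conj_mem inferInstance _ hd t)
  have hy1 : d⁻¹ * (t * d * t⁻¹) ≠ 1 := fun h => h4 (by
    rwa [inv_mul_eq_one, eq_mul_inv_iff_mul_eq] at h)
  have hy2 : t * (d⁻¹ * (t * d * t⁻¹)) * t⁻¹ = (d⁻¹ * (t * d * t⁻¹))⁻¹ := by
    rw [inv_eq_of_mul_eq_one_right ht2]
    calc _ = t * d⁻¹ * t * d * (t * t) := by group
      _ = _ := by rw [ht2, mul_inv_rev, mul_inv_rev, mul_inv_rev, inv_eq_of_mul_eq_one_right ht2]; group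
  generalize d⁻¹ * (t * d * t⁻¹) = y at hy hy1 hy2
  obtain ⟨q, j, hq, -, hj⟩ := FGS.exists_pow_orderOf_prime hy1
  haveI := Fact.mk hq
  exact ⟨q, y ^ j, hq, hj ▸ h2 _ (pow_mem hy j), hj, Core.le_pCore_of_le_fitting
    (FGS.isPGroup_zpowers (k := 1) (by rwa [pow_one])) (zpowers_le.mpr (pow_mem hy j)) (mem_zpowers _),
    by rw [← conj_pow, hy2, inv_pow]⟩

/-- Let V be a finite-dimensional vector space over the field with two elements and S a solvable group of linear automorphisms of V with O₂(S) = 1. If P ∈ S has order 4 and (P − 1)³ = 0 on V, then the image of (P − 1)² has at least 4 elements; equivalently, in the decomposition of V into indecomposable modules for the cyclic group generated by P, at least two summands have dimension 3. -/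
theorem result
    {V : Type*} [AddCommGroup V] [Module (ZMod 2) V] [Finite V]
    (S : Subgroup (V ≃ₗ[ZMod 2] V)) (hS : Group.IsSolvable ↥S) (hO2 : Cfsg.pCore 2 ↥S = ⊥)
    (P : V ≃ₗ[ZMod 2] V) (hPS : P ∈ S) (hP4 : orderOf P = 4)
    (hcub : ((P : V →ₗ[ZMod 2] V) - LinearMap.id) ^ 3 = 0) :
    4 ≤ Nat.card ↥(LinearMap.range (((P : V →ₗ[ZMod 2] V) - LinearMap.id) ^ 2)) := by
  classical
  by_contra! hlt
  haveI : Finite (V ≃ₗ[ZMod 2] V) := Finite.of_injective _ DFunLike.coe_injective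
  haveI := Fact.mk Nat.prime_two
  have h2v : ∀ v : V, v + v = 0 := fun v => by
    rw [← two_smul (ZMod 2) v, show (2 : ZMod 2) = 0 from rfl, zero_smul]
  obtain ⟨u, hu⟩ : ∃ u : V, ∀ v, P (P v) - v ∈ Submodule.span (ZMod 2) {u} := by
    rw [Module.natCard_eq_pow_finrank (K := ZMod 2), Nat.card_zmod] at hlt
    obtain ⟨u, hu⟩ := finrank_le_one_iff.mp (Nat.lt_succ_iff.mp
      ((Nat.pow_lt_pow_iff_right (a := 2) (m := 2) one_lt_two).mp hlt))
    refine ⟨u, fun v => ?_⟩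
    obtain ⟨c, hc⟩ := hu ⟨_, v, rfl⟩
    refine Submodule.mem_span_singleton.mpr ⟨c, (congrArg Subtype.val hc).trans ?_⟩
    simp only [sq, Module.End.mul_apply, LinearMap.sub_apply, LinearMap.id_apply, map_sub, LinearEquiv.coe_coe]
    rw [← sub_eq_zero]
    have := h2v (v - P v)
    rw [← this]; abel
  set p : S := ⟨P, hPS⟩ with hp
  have hp4 : orderOf p = 4 := by rw [← hP4, hp, orderOf_mk]
  obtain ⟨r, a, hr, hr2, ha, haO, hta⟩ := exists_inv hO2 (t := p ^ 2) (by rw [orderOf_pow' _ two_ne_zero, hp4]; rfl)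
  haveI := Fact.mk hr
  have hodd := hr.odd_of_ne_two hr2
  have key : ∀ g : S, orderOf g = r → p ^ 2 * g * (p ^ 2)⁻¹ = g⁻¹ → ∃ w : V, ∀ v,
      (g : V ≃ₗ[ZMod 2] V) v - v ∈ Submodule.span (ZMod 2) {u, w} := fun g hg htg => by
    obtain ⟨m, hm⟩ := hodd
    have e1 : p ^ 2 * g ^ (m + 1) * (p ^ 2)⁻¹ = (g ^ (m + 1))⁻¹ := by rw [← conj_pow, htg, inv_pow]
    have e2 : g ^ (m + 1) * g ^ (m + 1) = g := by
      rw [← pow_add, show m + 1 + (m + 1) = r + 1 by omega, pow_succ, ← hg, pow_orderOf_eq_one, one_mul]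
    have e3 : p ^ 2 * p ^ 2 = 1 := by rw [← pow_add, show 2 + 2 = orderOf p from hp4.symm, pow_orderOf_eq_one]
    generalize g ^ (m + 1) = c at e1 e2
    have e4 : g = c * (p ^ 2 * (c⁻¹ * p ^ 2)) := by
      rw [← e1, mul_assoc (p ^ 2 * c), inv_mul_cancel, mul_one, ← mul_assoc (p ^ 2), e3, one_mul, e2]
    refine ⟨(c : V ≃ₗ[ZMod 2] V) u, fun v => ?_⟩
    obtain ⟨k, hk⟩ := Submodule.mem_span_singleton.mp (hu v)
    obtain ⟨l, hl⟩ := Submodule.mem_span_singleton.mp (hu ((c : V ≃ₗ[ZMod 2] V).symm (P (P v))))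
    refine Submodule.mem_span_pair.mpr ⟨k, l, ?_⟩
    rw [← map_smul, hk, hl, map_sub, LinearEquiv.apply_symm_apply, e4, add_comm, sub_add_sub_cancel, sq]
    rfl
  have hb : orderOf (p * a * p⁻¹) = r := ha ▸ (MulAut.conj p).orderOf_eq a
  have htb : p ^ 2 * (p * a * p⁻¹) * (p ^ 2)⁻¹ = (p * a * p⁻¹)⁻¹ := by
    calc _ = p * (p ^ 2 * a * (p ^ 2)⁻¹) * p⁻¹ := by group
      _ = _ := by rw [hta]; group
  obtain ⟨w₁, hw₁⟩ := key a ha hta
  obtain ⟨w₂, hw₂⟩ := key _ hb htb
  let W := Submodule.span (ZMod 2) ({u, w₁, w₂} : Set V)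
  let X : Subgroup S :=
    { carrier := {g | ∀ v, (g : V ≃ₗ[ZMod 2] V) v - v ∈ W}
      one_mem' := fun v => by simp
      mul_mem' := fun {g h} hg hh v => by
        simpa using W.add_mem (hg ((h : V ≃ₗ[ZMod 2] V) v)) (hh v)
      inv_mem' := fun {g} hg v => by
        simpa using W.neg_mem (hg ((g : V ≃ₗ[ZMod 2] V).symm v)) }
  set K := X ⊓ Cfsg.pCore r S with hK
  have haK : a ∈ K := mem_inf.mpr ⟨fun v => Submodule.span_mono (by simp [Set.subset_def]) (hw₁ v), haO⟩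
  have hbK : p * a * p⁻¹ ∈ K := mem_inf.mpr ⟨fun v => Submodule.span_mono (by
    simp [Set.subset_def]) (hw₂ v), Normal.conj_mem inferInstance _ haO p⟩
  have hW : ∀ g : K, ∀ v ∈ W, ((g : S) : V ≃ₗ[ZMod 2] V).toLinearMap v ∈ W := fun g v hv => by
    simpa using W.add_mem (g.2.1 v) hv
  let ψ : K →* Module.End (ZMod 2) W :=
    { toFun := fun g => LinearMap.restrict _ (hW g)
      map_one' := by ext; rfl
      map_mul' := fun _ _ => by ext; rfl }
  obtain ⟨k, hk⟩ := IsPGroup.iff_card.mp ((Core.pCore_isPGroup r).to_le (inf_le_right : K ≤ _))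
  have hψ : Function.Injective ψ.toHomUnits := by
    refine (injective_iff_map_eq_one _).mpr fun g hg => ?_
    have h1 : ∀ v ∈ W, ((g : S) : V ≃ₗ[ZMod 2] V) v = v := fun v hv =>
      congrArg Subtype.val (LinearMap.congr_fun (congrArg Units.val hg) ⟨v, hv⟩)
    have h2 : g ^ 2 = 1 := Subtype.ext (Subtype.ext (LinearEquiv.ext fun v => by
      have := h1 _ (g.2.1 v)
      rw [map_sub, sub_eq_iff_eq_add] at this
      rw [sq]
      refine this.trans ?_
      rw [sub_add_eq_add_sub, h2v, zero_sub, neg_eq_iff_add_eq_zero]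
      exact h2v v))
    refine orderOf_eq_one_iff.mp (Nat.eq_one_of_dvd_coprimes (a := 2) (b := r ^ k)
      (Nat.Coprime.pow_right k ((Nat.coprime_primes Nat.prime_two hr).mpr hr2.symm))
      (orderOf_dvd_of_pow_eq_one h2) (hk ▸ orderOf_dvd_natCard g))
  have h168 : r ^ k ∣ 168 := by
    rw [← hk]
    refine (card_dvd_of_injective _ hψ).trans ?_
    have h3 : Module.finrank (ZMod 2) W ≤ 3 := (finrank_span_le_card _).trans (by
      rw [Set.toFinset_insert, Set.toFinset_insert, Set.toFinset_singleton]; exact Finset.card_le_three)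
    rw [Nat.card_congr (LinearMap.GeneralLinearGroup.generalLinearEquiv (ZMod 2) W).toEquiv,
      Herm.card_linearEquiv rfl, Nat.card_zmod]
    generalize Module.finrank (ZMod 2) W = n at h3
    interval_cases n <;> decide
  have hk1 : 1 ≤ k := by
    have := K.orderOf_dvd_natCard haK
    rw [ha, hk] at this
    exact Nat.pos_of_ne_zero fun h => hr.one_lt.ne' (by simpa [h] using this)
  have hr37 : r = 3 ∨ r = 7 := by
    have h1 : r ∣ 2 ^ 3 * (3 * 7) := (dvd_pow_self r (by omega)).trans h168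
    rcases (Nat.Prime.dvd_mul hr).mp h1 with h | h
    · exact absurd ((Nat.prime_dvd_prime_iff_eq hr Nat.prime_two).mp (hr.dvd_of_dvd_pow h)) hr2
    · exact ((Nat.Prime.dvd_mul hr).mp h).imp (Nat.prime_dvd_prime_iff_eq hr Nat.prime_three).mp
        (Nat.prime_dvd_prime_iff_eq hr (by norm_num)).mp
  have hk2 : k = 1 := by
    by_contra h
    have := (pow_dvd_pow r (show 2 ≤ k by omega)).trans h168
    rcases hr37 with rfl | rfl <;> norm_num at this
  have hz : zpowers a = K := Core.eq_of_le_of_card_le (zpowers_le.mpr haK) (by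
    rw [hk, hk2, Nat.card_zpowers, ha, pow_one])
  obtain ⟨i, hi⟩ := mem_powers_iff_mem_zpowers.mpr (hz.ge hbK)
  simp only at hi
  have h5 : a ^ (i * i + 1) = 1 := by
    rw [pow_succ, pow_mul, hi, conj_pow, hi, mul_eq_one_iff_eq_inv, ← hta]; simp only [sq]; group
  rw [← orderOf_dvd_iff_pow_eq_one, ha, Nat.dvd_iff_mod_eq_zero, Nat.add_mod, Nat.mul_mod] at h5
  have := Nat.mod_lt i hr.pos
  generalize i % r = j at h5 this
  rcases hr37 with rfl | rfl <;> interval_cases j <;> simp at h5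

end Cfsg.Agent.S4410
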