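import Mathlib
import Cfsg.Agent.Core.CoprimeGen
import Cfsg.Agent.Core.MinNormal
import Cfsg.Agent.Core.Cores
import Cfsg.Agent.PGrp.Frattini
import Cfsg.Statements.S4412
-- import your own Cfsg.Agent.* helpers here

set_option autoImplicit false
open Cfsg

namespace Cfsg.Agent.S4412

open Subgroup Cfsg.Agent.Core
open scoped Pointwise commutatorElement

section
variable {P : Type*} [Group P] [Finite P]

def fix (T : MulAut P) : Subgroup P := T.toMonoidHom.eqLocus (MonoidHom.id P)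

theorem mem_fix {T : MulAut P} {x : P} : x ∈ fix T ↔ T x = x := Iff.rfl

theorem gen (J : Subgroup (MulAut P)) (hJ : IsMulCommutative J) (hnc : ¬ IsCyclic J)
    (hcop : (Nat.card J).Coprime (Nat.card P)) (K L : Subgroup P)
    (hK : ∀ T ∈ J, ∀ x ∈ K, T x ∈ K) (h : ∀ T ∈ J, T ≠ 1 → ∀ x ∈ K, T x = x → x ∈ L) : K ≤ L := by
  let G := P ⋊[MonoidHom.id (MulAut P)] MulAut P
  haveI : Finite G := Finite.of_equiv _ SemidirectProduct.equivProd.symm
  let i : P →* G := SemidirectProduct.inl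
  let j : MulAut P →* G := SemidirectProduct.inr
  have hi : Function.Injective i := SemidirectProduct.inl_injective
  have hj : Function.Injective j := SemidirectProduct.inr_injective
  have hij : ∀ T x, j T * i x * (j T)⁻¹ = i (T x) := fun T x => by
    rw [← map_inv]; exact (SemidirectProduct.inl_aut (φ := MonoidHom.id (MulAut P)) T x).symm
  have := le_of_centralizers (A := J.map j) (K := K.map i) (L := L.map i)
    (by infer_instance) (fun hc => hnc (isCyclic_of_injective (J.equivMapOfInjective j hj).toMonoidHom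
      (J.equivMapOfInjective j hj).injective)) (by
      rintro _ ⟨T, hT, rfl⟩
      apply mem_normalizer_fintype
      rintro _ ⟨x, hx, rfl⟩
      exact ⟨T x, hK T hT x hx, (hij T x).symm⟩) (by
      rw [Subgroup.card_map_of_injective hj, Subgroup.card_map_of_injective hi]
      exact hcop.coprime_dvd_right (card_subgroup_dvd_card K)) (by
      rintro _ ⟨T, hT, rfl⟩ h1 _ ⟨⟨x, hx, rfl⟩, hc⟩
      refine ⟨x, h T hT (fun e => h1 (by rw [e, map_one])) x hx (hi ?_), rfl⟩
      have := mem_centralizer_singleton_iff.1 hc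
      rw [← hij, ← this, mul_inv_cancel_right])
  exact (map_le_map_iff_of_injective hi).1 this

theorem sign {p : ℕ} (hp : p.Prime) (hp2 : p ≠ 2) (hP : IsPGroup p P) {T : MulAut P}
    (hT : T ^ 2 = 1) {g : P} (h : T g ∈ zpowers g) : T g = g ∨ T g = g⁻¹ := by
  haveI : Fact p.Prime := ⟨hp⟩
  obtain ⟨k, hk⟩ := mem_zpowers_iff.1 h
  obtain ⟨m, hm⟩ := IsPGroup.iff_orderOf.1 hP g
  have h1 : g ^ (k * k) = g := by
    have : T (T g) = g := by rw [← MulAut.mul_apply, ← sq, hT]; rfl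
    rw [zpow_mul, hk, ← map_zpow, hk, this]
  have h2 : ((p : ℤ)) ^ m ∣ (k - 1) * (k + 1) := by
    have : g ^ ((k - 1) * (k + 1)) = 1 := by
      rw [show (k - 1) * (k + 1) = k * k - 1 by ring, zpow_sub, h1, zpow_one, mul_inv_cancel]
    have := orderOf_dvd_iff_zpow_eq_one.2 this
    rwa [hm, Nat.cast_pow] at this
  have hpz : Prime (p : ℤ) := Nat.prime_iff_prime_int.1 hp
  have key : ∀ n : ℤ, (p : ℤ) ^ m ∣ n → g ^ n = 1 := fun n hn =>
    orderOf_dvd_iff_zpow_eq_one.1 (by rwa [hm, Nat.cast_pow])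
  by_cases hd : (p : ℤ) ∣ k - 1
  · have hd2 : ¬ (p : ℤ) ∣ k + 1 := fun h' => by
      have : (p : ℤ) ∣ 2 := by
        have := dvd_sub h' hd
        rwa [show k + 1 - (k - 1) = 2 by ring] at this
      have : p ∣ 2 := by exact_mod_cast this
      exact hp2 ((Nat.prime_dvd_prime_iff_eq hp Nat.prime_two).1 this)
    left
    have := key _ (hpz.pow_dvd_of_dvd_mul_right m hd2 h2)
    rw [zpow_sub, zpow_one, mul_inv_eq_one] at this
    exact hk ▸ this
  · right
    have := key _ (hpz.pow_dvd_of_dvd_mul_left m hd h2)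
    rw [zpow_add, zpow_one, mul_eq_one_iff_eq_inv] at this
    exact hk ▸ this

theorem exists_J {G : Type*} [Group G] [Finite G] (I I₀ : Subgroup G)
    (hI : IsElementaryAbelian 2 I) (hI8 : Nat.card I = 8) (hle : I₀ ≤ I) {s : G} (hs : s ∈ I)
    (hs0 : s ∉ I₀) : ∃ J : Subgroup G, I₀ ≤ J ∧ J ≤ I ∧ s ∉ J ∧ Nat.card J = 4 := by
  obtain ⟨J, ⟨h1, h2, h3⟩, hmax⟩ := (Set.toFinite {J : Subgroup G | I₀ ≤ J ∧ J ≤ I ∧ s ∉ J}).exists_maximal
    ⟨I₀, le_rfl, hle, hs0⟩
  have hn : ∀ t ∈ I, zpowers t ≤ normalizer (J : Set G) := fun t ht =>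
    ((zpowers_le.2 ht).trans ((le_centralizer_iff_isMulCommutative.2 hI.1).trans
      (centralizer_le (SetLike.coe_subset_coe.2 h2)))).trans (centralizer_le_normalizer _)
  have hz : ∀ t ∈ I, ∀ u ∈ zpowers t, u = 1 ∨ u = t := by
    intro t ht u hu
    obtain ⟨k, rfl⟩ := mem_zpowers_iff.1 hu
    have h2 : t ^ (2 : ℤ) = 1 := by exact_mod_cast hI.2 t ht
    rcases Int.even_or_odd' k with ⟨m, rfl | rfl⟩
    · left; rw [zpow_mul, h2, one_zpow]
    · right; rw [zpow_add, zpow_mul, h2, one_zpow, one_mul, zpow_one]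
  have hsup : J ⊔ zpowers s = I := by
    refine le_antisymm (sup_le h2 (zpowers_le.2 hs)) fun t ht => ?_
    by_cases hst : s ∈ J ⊔ zpowers t
    · obtain ⟨a, ha, u, hu, e⟩ := (mem_sup_of_le_normalizer (hn t ht)).1 hst
      rcases hz t ht u hu with rfl | rfl
      · exact absurd (by rw [e, mul_one]; exact ha) h3
      · have : u = a⁻¹ * s := by rw [e, inv_mul_cancel_left]
        rw [this]
        exact mul_mem (inv_mem (mem_sup_left ha)) (mem_sup_right (mem_zpowers s))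
    · exact mem_sup_left (hmax ⟨h1.trans le_sup_left, sup_le h2 (zpowers_le.2 ht), hst⟩ le_sup_left
        (mem_sup_right (mem_zpowers t)))
  have hs1 : s ≠ 1 := fun e => h3 (e ▸ J.one_mem)
  have hc := card_sup_of_disjoint (hn s hs) (by
    rw [disjoint_iff, eq_bot_iff]
    intro u hu
    rcases hz s hs u hu.2 with e | e
    · exact e
    · exact absurd (e ▸ hu.1) h3)
  rw [hsup, hI8, Nat.card_zpowers, orderOf_eq_prime (hI.2 s hs) hs1] at hc
  exact ⟨J, h1, h2, h3, by omega⟩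

theorem exists_three {G : Type*} [Group G] [Finite G] (J : Subgroup G) (h : Nat.card J = 4) :
    ∃ T : Fin 3 → G, (∀ i, T i ∈ J ∧ T i ≠ 1) ∧ ∀ t ∈ J, t ≠ 1 → ∃ i, t = T i := by
  have h1 : Nat.card ((J : Set G) \ {1} : Set G) = 3 := by
    rw [Nat.card_coe_set_eq, Set.ncard_diff_singleton_of_mem J.one_mem, ← Nat.card_coe_set_eq]
    have : Nat.card (J : Set G) = 4 := h
    rw [this]
  let e := Finite.equivFinOfCardEq h1
  refine ⟨fun i => (e.symm i).1, fun i => (e.symm i).2, fun t ht h1 => ⟨e ⟨t, ht, h1⟩, by simp⟩⟩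

end

/-- Let p be an odd prime, P a finite p-group and I an elementary abelian subgroup of order 8 of Aut(P). Call T ∈ I, T ≠ 1, broad when its fixed-point subgroup C_P(T) is not cyclic. Suppose I has a proper subgroup I₀ containing no broad element such that the product of any two broad elements lies in I₀. Then P is abelian of rank exactly 3 (generated by three elements but not by two), there are exactly three broad elements and they generate I, and I₀ is exactly the set of products of two broad elements. -/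
theorem result
    {P : Type*} [Group P] [Finite P] (p : ℕ) (hp : p.Prime) (hp2 : p ≠ 2) (hP : IsPGroup p P)
    (I : Subgroup (MulAut P)) (hI : Cfsg.IsElementaryAbelian 2 I) (hI8 : Nat.card ↥I = 8)
    (I₀ : Subgroup (MulAut P)) (hI₀ : I₀ < I)
    (hdisj : ∀ T ∈ I₀, T ≠ 1 → ∃ g : P, ∀ x : P, (T x = x ↔ x ∈ Subgroup.zpowers g))
    (hprod : ∀ T ∈ I, ∀ T' ∈ I, T ≠ 1 → T' ≠ 1 → (¬ ∃ g : P, ∀ x : P, (T x = x ↔ x ∈ Subgroup.zpowers g)) →
      (¬ ∃ g : P, ∀ x : P, (T' x = x ↔ x ∈ Subgroup.zpowers g)) → T * T' ∈ I₀) :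
    IsMulCommutative P ∧ (∃ a b c : P, Subgroup.closure {a, b, c} = ⊤) ∧ (¬ ∃ a b : P, Subgroup.closure {a, b} = ⊤) ∧
      Nat.card {T : MulAut P // T ∈ I ∧ T ≠ 1 ∧ ¬ ∃ g : P, ∀ x : P, (T x = x ↔ x ∈ Subgroup.zpowers g)} = 3 ∧
      Subgroup.closure {T : MulAut P | T ∈ I ∧ T ≠ 1 ∧ ¬ ∃ g : P, ∀ x : P, (T x = x ↔ x ∈ Subgroup.zpowers g)} = I ∧
      (I₀ : Set (MulAut P)) = {S : MulAut P | ∃ T T' : MulAut P, T ∈ I ∧ T' ∈ I ∧ T ≠ 1 ∧ T' ≠ 1 ∧
        (¬ ∃ g : P, ∀ x : P, (T x = x ↔ x ∈ Subgroup.zpowers g)) ∧ (¬ ∃ g : P, ∀ x : P, (T' x = x ↔ x ∈ Subgroup.zpowers g)) ∧ S = T * T'} := by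
  classical
  haveI : Fact p.Prime := ⟨hp⟩
  let nb : MulAut P → Prop := fun T => ∃ g : P, ∀ x : P, (T x = x ↔ x ∈ Subgroup.zpowers g)
  obtain ⟨s, hsI, hs0, hs⟩ : ∃ s ∈ I, s ∉ I₀ ∧ ∀ T ∈ I, T ≠ 1 → ¬ nb T → s * T ∈ I₀ := by
    by_cases h : ∃ s ∈ I, s ≠ 1 ∧ ¬ nb s
    · obtain ⟨s, h1, h2, h3⟩ := h
      exact ⟨s, h1, fun h => h3 (hdisj s h h2), fun T hT h4 h5 => hprod s h1 T hT h2 h4 h3 h5⟩
    · obtain ⟨s, h1, h2⟩ := SetLike.exists_of_lt hI₀
      exact ⟨s, h1, h2, fun T hT h4 h5 => absurd ⟨T, hT, h4, h5⟩ h⟩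
  obtain ⟨J, hJ0, hJI, hsJ, hJ4⟩ := exists_J I I₀ hI hI8 hI₀.le hsI hs0
  obtain ⟨T, hT, hTall⟩ := exists_three J hJ4
  have hTnb : ∀ i, nb (T i) := fun i => by
    by_contra h
    exact hsJ ((mul_mem_cancel_right (hT i).1).1 (hJ0 (hs _ (hJI (hT i).1) (hT i).2 h)))
  choose g hg using hTnb
  have hcomm : ∀ a ∈ I, ∀ b ∈ I, ∀ x, a (b x) = b (a x) := fun a ha b hb x => by
    rw [← MulAut.mul_apply, comm_of_isMulCommutative hI.1 ha hb, MulAut.mul_apply]
  have hodd : ∀ x : P, x = x⁻¹ → x = 1 := by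
    intro x hx
    obtain ⟨m, hm⟩ := IsPGroup.iff_orderOf.1 hP x
    have h2 : orderOf x ∣ 2 := orderOf_dvd_of_pow_eq_one (by rw [sq]; nth_rewrite 1 [hx]; simp)
    have hc : Nat.Coprime (p ^ m) 2 :=
      Nat.Coprime.pow_left m ((Nat.coprime_primes hp Nat.prime_two).2 hp2)
    exact orderOf_eq_one_iff.1 (Nat.eq_one_of_dvd_coprimes hc (hm ▸ dvd_rfl) h2)
  have hsign : ∀ a ∈ I, ∀ b ∈ I, ∀ y : P, (∀ x : P, (b x = x ↔ x ∈ Subgroup.zpowers y)) →
      a y = y ∨ a y = y⁻¹ := by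
    intro a ha b hb y hy
    apply sign hp hp2 hP (hI.2 a ha)
    rw [← hy, hcomm b hb a ha, (hy y).2 (mem_zpowers y)]
  have hsg : ∀ a ∈ I, ∀ i, a (g i) = g i ∨ a (g i) = (g i)⁻¹ := fun a ha i =>
    hsign a ha (T i) (hJI (hT i).1) (g i) (hg i)
  have hnc : ¬ IsCyclic J := by
    intro hc
    have h1 := IsCyclic.exponent_eq_card (α := J)
    have h2 : Monoid.exponent J ∣ 2 :=
      Monoid.exponent_dvd_of_forall_pow_eq_one fun a => Subtype.ext (hI.2 _ (hJI a.2))
    rw [h1, hJ4] at h2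
    norm_num at h2
  have hcop : (Nat.card J).Coprime (Nat.card P) := by
    apply coprime_of_isPGroup hP
    rw [hJ4]
    exact Nat.Coprime.pow_left 2 ((Nat.coprime_primes Nat.prime_two hp).2 hp2.symm)
  have hgen : ∀ K L : Subgroup P, (∀ a ∈ J, ∀ x ∈ K, a x ∈ K) →
      (∀ i, ∀ x ∈ K, x ∈ zpowers (g i) → x ∈ L) → K ≤ L := by
    intro K L h1 h2
    apply gen J (isMulCommutative_of_le hI.1 hJI) hnc hcop K L h1
    intro a ha ha1 x hx hax
    obtain ⟨i, rfl⟩ := hTall a ha ha1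
    exact h2 i x hx ((hg i x).1 hax)
  have hcl : Subgroup.closure (Set.range g) = ⊤ := by
    rw [eq_top_iff]
    exact hgen _ _ (fun _ _ _ _ => mem_top _) fun i x _ hx =>
      (zpowers_le.2 (Subgroup.subset_closure (k := Set.range g) ⟨i, rfl⟩)) hx
  have hext : ∀ a ∈ I, ∀ b ∈ I, (∀ i, a (g i) = g i ↔ b (g i) = g i) → a = b := by
    intro a ha b hb h
    apply MulEquiv.toMonoidHom_injective
    apply MonoidHom.eq_of_eqOn_dense hcl
    rintro _ ⟨i, rfl⟩
    show a (g i) = b (g i)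
    by_cases h1 : a (g i) = g i
    · rw [h1, (h i).1 h1]
    · rw [(hsg a ha i).resolve_left h1, (hsg b hb i).resolve_left (fun h2 => h1 ((h i).2 h2))]
  have hsurj : ∀ ε : Fin 3 → Prop, ∃ a ∈ I, ∀ i, a (g i) = g i ↔ ε i := by
    intro ε
    let χ : I → (Fin 3 → Prop) := fun a i => a.1 (g i) = g i
    have hχ : Function.Injective χ := fun a b h =>
      Subtype.ext (hext _ a.2 _ b.2 fun i => iff_of_eq (congrFun h i))
    have := (Nat.bijective_iff_injective_and_card χ).2 ⟨hχ, by simp [hI8]⟩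
    obtain ⟨a, ha⟩ := this.2 ε
    exact ⟨a, a.2, fun i => iff_of_eq (congrFun ha i)⟩
  obtain ⟨w, hwI, hw⟩ := hsurj fun _ => False
  have hw' : ∀ i, w (g i) = (g i)⁻¹ := fun i => (hsg w hwI i).resolve_left (hw i).1
  have hinv : ∀ (a : MulAut P) (y : P), a y = y⁻¹ → ∀ x ∈ zpowers y, a x = x → x = 1 := by
    intro a y hy x hx hax
    obtain ⟨k, rfl⟩ := mem_zpowers_iff.1 hx
    apply hodd
    rw [← inv_zpow, ← hy, ← map_zpow, hax]
  have hfixz : ∀ (a : MulAut P) (y : P), a y = y → ∀ x ∈ zpowers y, a x = x := fun a y hy x hx =>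
    (zpowers_le.2 (show y ∈ fix a from hy)) hx
  have hwf : ∀ x, w x = x → x = 1 := by
    intro x hx
    have := hgen (fix w) ⊥ (fun a ha y hy => by
      rw [mem_fix] at hy ⊢; rw [hcomm w hwI a (hJI ha), hy])
      (fun i y hy h => hinv w _ (hw' i) y h hy)
    exact this hx
  have hPc : ∀ x y : P, Commute x y := by
    have h1 : MonoidHom.FixedPointFree w := hwf
    exact h1.commute_all_of_involutive (fun x => by
      rw [← MulAut.mul_apply, ← sq, hI.2 w hwI]; rfl)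
  choose σ hσI hσ using fun j : Fin 3 => hsurj fun i => i ≠ j
  have hg1 : ∀ i, g i ≠ 1 := fun i e => (hw i).1 (by rw [e, map_one])
  have hσ1 : ∀ i, σ i (g i) = (g i)⁻¹ := fun i =>
    (hsg _ (hσI i) i).resolve_left fun h => (hσ i i).1 h rfl
  have hσ2 : ∀ i j, i ≠ j → σ j (g i) = g i := fun i j h => (hσ j i).2 h
  have hbroad : ∀ a ∈ I, ∀ i j, i ≠ j → a (g i) = g i → a (g j) = g j → ¬ nb a := by
    rintro a ha i j hij h1 h2 ⟨y, hy⟩
    rcases hsign _ (hσI i) a ha y hy with h | h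
    · exact hg1 i (hodd _ ((hfixz _ _ h _ ((hy _).1 h1)).symm.trans (hσ1 i)))
    · exact hg1 j (hinv _ _ h _ ((hy _).1 h2) (hσ2 j i hij.symm))
  have hσne : ∀ i, σ i ≠ 1 := fun i e => (hσ i i).1 (by rw [e]; rfl) rfl
  have hσb : ∀ i, ¬ nb (σ i) := fun i =>
    hbroad _ (hσI i) (i + 1) (i + 2) (by fin_cases i <;> decide)
      (hσ2 _ _ (by fin_cases i <;> decide)) (hσ2 _ _ (by fin_cases i <;> decide))
  have hTs : ∀ i j, T i (g j) = g j ↔ j = i := by
    intro i j
    constructor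
    · intro h
      by_contra hne
      exact hbroad _ (hJI (hT i).1) j i hne h ((hg i _).2 (mem_zpowers _)) ⟨_, hg i⟩
    · rintro rfl; exact (hg j _).2 (mem_zpowers _)
  have hne' : ∀ i, ¬ (g i)⁻¹ = g i := fun i e => hg1 i (hodd _ e.symm)
  have hTσ : ∀ i, T i = σ (i + 1) * σ (i + 2) := by
    intro i
    apply hext _ (hJI (hT i).1) _ (mul_mem (hσI _) (hσI _))
    intro j
    rw [hTs, MulAut.mul_apply]
    by_cases h1 : j = i
    · subst h1
      rw [hσ2 j (j + 2) (by fin_cases j <;> decide), hσ2 j (j + 1) (by fin_cases j <;> decide)]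
      simp
    by_cases h2 : j = i + 1
    · subst h2
      rw [hσ2 _ (i + 2) (by fin_cases i <;> decide), hσ1]
      simp [h1, hne']
    · have h3 : j = i + 2 := by
        revert h1 h2; fin_cases i <;> fin_cases j <;> decide
      subst h3
      rw [hσ1, map_inv, hσ2 _ (i + 1) h2]
      simp [h1, hne']
  have hall : ∀ a ∈ I, a = 1 ∨ (∃ i, a = σ i) ∨ (∃ i, a = T i) ∨ a = w := by
    intro a ha
    have e1 : (∀ i, a (g i) = g i) → a = 1 := fun h =>
      hext a ha 1 I.one_mem fun i => iff_of_true (h i) rfl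
    have e2 : ∀ j, (∀ i, a (g i) = g i ↔ i ≠ j) → a = σ j := fun j h =>
      hext a ha _ (hσI j) fun i => (h i).trans (hσ j i).symm
    have e3 : ∀ j, (∀ i, a (g i) = g i ↔ i = j) → a = T j := fun j h =>
      hext a ha _ (hJI (hT j).1) fun i => (h i).trans (hTs j i).symm
    have e4 : (∀ i, ¬ a (g i) = g i) → a = w := fun h =>
      hext a ha _ hwI fun i => iff_of_false (h i) (hw i).1
    by_cases h0 : a (g 0) = g 0 <;> by_cases h1 : a (g 1) = g 1 <;> by_cases h2 : a (g 2) = g 2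
    · exact Or.inl (e1 fun i => by fin_cases i <;> simp [h0, h1, h2])
    · exact Or.inr (Or.inl ⟨2, e2 2 fun i => by fin_cases i <;> simp [h0, h1, h2]⟩)
    · exact Or.inr (Or.inl ⟨1, e2 1 fun i => by fin_cases i <;> simp [h0, h1, h2]⟩)
    · exact Or.inr (Or.inr (Or.inl ⟨0, e3 0 fun i => by fin_cases i <;> simp [h0, h1, h2]⟩))
    · exact Or.inr (Or.inl ⟨0, e2 0 fun i => by fin_cases i <;> simp [h0, h1, h2]⟩)
    · exact Or.inr (Or.inr (Or.inl ⟨1, e3 1 fun i => by fin_cases i <;> simp [h0, h1, h2]⟩))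
    · exact Or.inr (Or.inr (Or.inl ⟨2, e3 2 fun i => by fin_cases i <;> simp [h0, h1, h2]⟩))
    · exact Or.inr (Or.inr (Or.inr (e4 fun i => by fin_cases i <;> simp [h0, h1, h2])))
  have hset : {T : MulAut P | T ∈ I ∧ T ≠ 1 ∧ ¬ nb T} = Set.range σ := by
    ext a
    constructor
    · rintro ⟨h1, h2, h3⟩
      rcases hall a h1 with h | ⟨i, h⟩ | ⟨i, h⟩ | h
      · exact absurd h h2
      · exact ⟨i, h.symm⟩
      · exact absurd ⟨_, h ▸ hg i⟩ h3
      · refine absurd ⟨1, fun x => ?_⟩ h3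
        rw [h, zpowers_one_eq_bot, mem_bot]
        exact ⟨hwf x, fun e => by rw [e, map_one]⟩
    · rintro ⟨i, rfl⟩
      exact ⟨hσI i, hσne i, hσb i⟩
  have hσinj : Function.Injective σ := by
    intro i j h
    by_contra hne
    exact (hσ i i).1 (h ▸ hσ2 i j hne) rfl
  refine ⟨⟨⟨fun x y => (hPc x y).eq⟩⟩, ⟨g 0, g 1, g 2, ?_⟩, ?_, ?_, ?_, ?_⟩
  · rw [← hcl]
    congr 1
    ext x
    simp [Fin.exists_fin_succ, eq_comm]
  · rintro ⟨a, b, hab⟩
    letI : CommGroup P := { (inferInstance : Group P) with mul_comm := fun x y => (hPc x y).eq }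
    have h1 := PGrp.index_frattini_le_pow_card hP {a, b} (by simpa using hab)
    have h2 : (frattini P).index ≤ p ^ 2 :=
      h1.trans (Nat.pow_le_pow_right hp.pos Finset.card_le_two)
    let φ : P →* P := powMonoidHom p
    have h3 : frattini P ≤ φ.range := PGrp.frattini_le_of_commutator_le_of_pow_mem hp
      (by rw [commutator_eq_bot]; exact bot_le) (fun x => ⟨x, rfl⟩)
    have h4 : φ.range.index = Nat.card φ.ker := by
      have e1 := φ.range.card_mul_index
      have e2 := φ.ker.card_mul_index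
      rw [index_ker, mul_comm] at e2
      exact Nat.eq_of_mul_eq_mul_left Nat.card_pos (e1.trans e2.symm)
    have h5 : Nat.card φ.ker ≤ p ^ 2 := h4 ▸ (Nat.le_of_dvd
      (Nat.pos_of_ne_zero index_ne_zero_of_finite) (index_dvd_of_le h3)).trans h2
    have hh : ∀ i, ∃ h ∈ zpowers (g i), orderOf h = p := fun i => by
      obtain ⟨⟨h, hh⟩, h2⟩ := exists_prime_orderOf_dvd_card' (G := zpowers (g i)) p
        (prime_dvd_card_of_isPGroup (hP.to_subgroup _) (zpowers_ne_bot.2 (hg1 i)))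
      exact ⟨h, hh, by rw [← h2, Subgroup.orderOf_mk]⟩
    choose h hh ho using hh
    have hz : ∀ i, zpowers (h i) ≤ zpowers (g i) := fun i => zpowers_le.2 (hh i)
    have hf : ∀ i j, i ≠ j → zpowers (h i) ≤ fix (σ j) := fun i j hij x hx =>
      hfixz _ _ (hσ2 i j hij) x (hz i hx)
    have hd : ∀ j (K : Subgroup P), K ≤ fix (σ j) → Disjoint K (zpowers (h j)) := by
      intro j K hK
      rw [disjoint_iff, eq_bot_iff]
      intro x hx
      exact hinv _ _ (hσ1 j) x (hz j hx.2) (hK hx.1)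
    have c1 := card_sup_of_disjoint (N := zpowers (h 0)) (H := zpowers (h 1))
      le_normalizer_of_normal (hd 1 _ (hf 0 1 (by decide)))
    have c2 := card_sup_of_disjoint (N := zpowers (h 0) ⊔ zpowers (h 1)) (H := zpowers (h 2))
      le_normalizer_of_normal (hd 2 _ (sup_le (hf 0 2 (by decide)) (hf 1 2 (by decide))))
    rw [c1, Nat.card_zpowers, Nat.card_zpowers, Nat.card_zpowers, ho, ho, ho] at c2
    have hk : ∀ i, zpowers (h i) ≤ φ.ker := fun i => zpowers_le.2 (by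
      show h i ^ p = 1
      rw [← ho i, pow_orderOf_eq_one])
    have c3 := card_le_of_le (sup_le (sup_le (hk 0) (hk 1)) (hk 2))
    rw [c2] at c3
    have := hp.one_lt
    nlinarith [Nat.mul_pos hp.pos hp.pos]
  · exact (congrArg (fun S : Set (MulAut P) => Nat.card S) hset).trans
      (by rw [Nat.card_range_of_injective hσinj]; simp)
  · refine (congrArg Subgroup.closure hset).trans (le_antisymm ?_ fun a ha => ?_)
    · rw [Subgroup.closure_le]; rintro _ ⟨i, rfl⟩; exact hσI i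
    · have m : ∀ i, σ i ∈ Subgroup.closure (Set.range σ) := fun i => Subgroup.subset_closure ⟨i, rfl⟩
      rcases hall a ha with h | ⟨i, h⟩ | ⟨i, h⟩ | h
      · exact h ▸ one_mem _
      · exact h ▸ m i
      · rw [h, hTσ]; exact mul_mem (m _) (m _)
      · have : w = σ 0 * T 0 := by
          apply hext _ hwI _ (mul_mem (hσI _) (hJI (hT 0).1))
          intro j
          rw [hw, MulAut.mul_apply, false_iff]
          by_cases hj : j = 0
          · subst hj; rw [(hTs 0 0).2 rfl, hσ1]; exact hne' 0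
          · rw [(hsg _ (hJI (hT 0).1) j).resolve_left (fun e => hj ((hTs 0 j).1 e)), map_inv,
              hσ2 j 0 hj]
            exact hne' j
        rw [h, this, hTσ]; exact mul_mem (m _) (mul_mem (m _) (m _))
  · ext a
    constructor
    · intro ha
      by_cases h1 : a = 1
      · exact ⟨σ 0, σ 0, hσI 0, hσI 0, hσne 0, hσne 0, hσb 0, hσb 0, by
          rw [h1, ← sq, hI.2 _ (hσI 0)]⟩
      · obtain ⟨i, rfl⟩ := hTall a (hJ0 ha) h1
        exact ⟨_, _, hσI _, hσI _, hσne _, hσne _, hσb _, hσb _, hTσ i⟩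
    · rintro ⟨a, b, h1, h2, h3, h4, h5, h6, rfl⟩
      exact hprod a h1 b h2 h3 h4 h5 h6

end Cfsg.Agent.S4412
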