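import Mathlib
import Cfsg.Statements.S4413
import Cfsg.Agent.PGrp.Extra2
import Cfsg.Agent.Orth.SymO2
-- import your own Cfsg.Agent.* helpers here

set_option autoImplicit false
open Cfsg

namespace Cfsg.Agent.S4413

/-- Let P be an extraspecial 2-group of order 32 with no elementary abelian subgroup of order 8 (the central product of a dihedral and a quaternion group of order 8). Then the inner automorphism group of P has order 16 and the outer automorphism group Aut(P)/Inn(P) is isomorphic to the symmetric group of degree 5; in particular Aut(P) has order 1920. -/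
theorem result {P : Type*} [Group P] [Finite P]
    (hex : Cfsg.IsExtraspecial 2 P) (h32 : Nat.card P = 32)
    (hminus : ∀ A : Subgroup P, Cfsg.IsElementaryAbelian 2 A → Nat.card ↥A ≤ 4)
    [(MulAut.conj : P →* MulAut P).range.Normal] :
    Nat.card ↥(MulAut.conj : P →* MulAut P).range = 16 ∧ Nat.card (MulAut P) = 1920 ∧
      Nonempty ((MulAut P ⧸ (MulAut.conj : P →* MulAut P).range) ≃* Equiv.Perm (Fin 5)) := by

  obtain ⟨m, D, hQ, hZ, hc⟩ := PGrp.exists_cext_two hex
  obtain rfl : m = 1 := by
    rw [h32, show 32 = 2 ^ 5 from rfl] at hc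
    have := Nat.pow_right_injective le_rfl hc
    omega
  have hn : Module.finrank (ZMod 2) (Fin (2 * (1 + 1)) → ZMod 2) = 2 * (1 + 1) := by simp
  have hp : ¬ Orth.IsPlus D.Q := fun h => by
    obtain ⟨A, h1, h2⟩ := (D.isPlus_iff_exists hn hQ).1 h
    have := hminus A h1
    omega
  obtain ⟨e1⟩ := D.nonempty_out_equiv hZ
  obtain ⟨e3⟩ := Orth.minus4_equiv (F := ZMod 2) (by simp)
  obtain ⟨σ⟩ := hQ.iso_minusQ hp (m := 1) hn PGrp.aniso_two
  have e := (e1.trans (Orth.ogCongr σ).symm).trans e3
  have h1 : Nat.card ↥(MulAut.conj : P →* MulAut P).range = 16 := by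
    have := (MulAut.conj : P →* MulAut P).ker.index_mul_card
    rw [Subgroup.index_ker, h32, show (MulAut.conj : P →* MulAut P).ker = Subgroup.center P from by
      ext x; simp [MonoidHom.mem_ker, Subgroup.mem_center_iff, MulEquiv.ext_iff,
        eq_mul_inv_iff_mul_eq, eq_comm], hZ, D.card_Z] at this
    omega
  refine ⟨h1, ?_, ⟨e⟩⟩
  rw [Subgroup.card_eq_card_quotient_mul_card_subgroup (MulAut.conj : P →* MulAut P).range, h1,
    Nat.card_congr e.toEquiv]
  simp [Fintype.card_perm, Nat.factorial]

end Cfsg.Agent.S4413
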