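import Mathlib
import Cfsg.Agent.BG.RepWeight
import Cfsg.Agent.Perm.PermModule
import Cfsg.Agent.Perm.PFixed
import Cfsg.Agent.Core.Basic
import Cfsg.Agent.Core.MinNormal
import Cfsg.Statements.S4414
-- import your own Cfsg.Agent.* helpers here

set_option autoImplicit false
open Cfsg

namespace Cfsg.Agent.S4414

open Module MulAction Cfsg.Agent.BG.RepGlue Cfsg.Agent.BG.RepWeight
open scoped commutatorElement

theorem base {F S E : Type*} [Field F] [Group S] [AddCommGroup E] [Module F E]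
    [FiniteDimensional F E] (ρ : Representation F S E) (k : Type*) [Field k] [Algebra F k] :
    ∃ (n : ℕ) (σ : Representation k S (Fin n → k)),
      ∀ T : Set S, finrank k (fixSub σ T) = finrank F (fixSub ρ T) := by
  let b := Module.finBasis F E
  let φ : S →* Matrix (Fin (finrank F E)) (Fin (finrank F E)) F :=
    (LinearMap.toMatrixAlgEquiv b).toAlgHom.toMonoidHom.comp ρ
  let σ : Representation k S (Fin (finrank F E) → k) :=
    (Matrix.toLinAlgEquiv' (R := k) (n := Fin (finrank F E))).toAlgHom.toMonoidHom.comp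
      (((algebraMap F k).mapMatrix (m := Fin (finrank F E))).toMonoidHom.comp φ)
  refine ⟨_, σ, fun T => ?_⟩
  have h1 : matFix (fun g : T => (φ g).map (algebraMap F k)) = fixSub σ T := by
    ext v
    exact ⟨fun hv g hg => hv ⟨g, hg⟩, fun hv g => hv g g.2⟩
  rw [← h1, finrank_matFix_map]
  have h2 : (fixSub ρ T).map b.equivFun.toLinearMap = matFix (fun g : T => φ g) := by
    have e : ∀ g v, (φ g).mulVec (b.equivFun v) = b.equivFun (ρ g v) := fun g v =>
      LinearMap.toMatrix_mulVec_repr b b (ρ g) v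
    ext w
    obtain ⟨v, rfl⟩ := b.equivFun.surjective w
    constructor
    · rintro ⟨u, hu, h⟩ g
      have : u = v := b.equivFun.injective h
      rw [e, ← this, hu g g.2]
    · intro h
      exact ⟨v, fun g hg => b.equivFun.injective ((e g v).symm.trans (h ⟨g, hg⟩)), rfl⟩
  rw [← h2, LinearEquiv.finrank_map_eq]

section
variable {k S W : Type*} [Field k] [Group S] [Finite S] [AddCommGroup W] [Module k W]
  [FiniteDimensional k W]

@[reducible] def act (k : Type*) [Field k] (A : Subgroup S) [A.Normal] : MulAction S (A →* kˣ) where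
  smul g χ := cchar ⟨g, Subgroup.le_normalizer_of_normal (Subgroup.mem_top g)⟩ χ
  one_smul χ := cchar_one χ
  mul_smul g h χ := cchar_mul ⟨g, _⟩ ⟨h, _⟩ χ

theorem core [IsAlgClosed k] [CharP k 2] (σ : Representation k S W) [Nontrivial W] (A : Subgroup S)
    [hA : A.Normal] (hAc : IsMulCommutative A) (hodd : Odd (Nat.card A)) (h0 : fixSub σ A = ⊥)
    (T : Subgroup S) (hT : IsPGroup 2 T) {q : ℕ} (hq : q.Prime) (hq2 : q ≠ 2) (Y : Subgroup S)
    (hY : Nat.card Y = q) (hAY : ⁅A, Y⁆ = A) :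
    2 ≤ finrank k (fixSub σ T) ∧ ((∀ x ∈ Y, ∀ v ∈ fixSub σ T, σ x v ∈ fixSub σ T) →
      3 ≤ finrank k (fixSub σ T)) := by
  classical
  haveI : Fact q.Prime := ⟨hq⟩
  letI := act k A
  haveI : Fintype (A →* kˣ) := Fintype.ofFinite _
  obtain ⟨π, hπ⟩ := exists_isWtProj σ A (by
    obtain ⟨m, hm⟩ := hodd
    rw [hm]; push_cast
    rw [show (2 : k) = 0 from CharP.cast_eq_zero k 2]; simp) (fun a ha b hb => by
      rw [← map_mul, ← map_mul, Core.comm_of_isMulCommutative hAc ha hb])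
  have heq : ∀ (g : S) χ v, π (g • χ) (σ g v) = σ g (π χ v) := fun g χ v =>
    hπ.equivariant ⟨g, _⟩ χ v
  have hσ0 : ∀ (g : S) v, σ g v = 0 → v = 0 := fun g v h => by
    rw [← σ.inv_self_apply g v, h, map_zero]
  have hsupp : ∀ v : W, v ≠ 0 → ∃ χ, π χ v ≠ 0 := fun v hv => by
    by_contra h
    push Not at h
    exact hv (by rw [← hπ.sum v]; simp [h])
  let occ : (A →* kˣ) → Prop := fun χ => ∃ v, π χ v ≠ 0
  have occ_smul : ∀ (g : S) χ, occ χ → occ (g • χ) := fun g χ ⟨v, hv⟩ =>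
    ⟨σ g v, by rw [heq]; exact fun h => hv (hσ0 _ _ h)⟩
  have occ_ne : ∀ χ, occ χ → χ ≠ 1 := by
    rintro χ ⟨v, hv⟩ rfl
    have := hπ.mem 1 v
    rw [wt_one, h0] at this
    exact hv this
  have K1 : ∀ χ : A →* kˣ, (∀ x ∈ Y, x • χ = χ) → χ = 1 := by
    intro χ h
    have : ⁅A, Y⁆ ≤ χ.ker.map A.subtype := by
      rw [Subgroup.commutator_le]
      intro a ha x hx
      have e : (x⁻¹ • χ) ⟨a, ha⟩ = χ ⟨x * a * x⁻¹, hA.conj_mem a ha x⟩ :=
        cchar_apply _ χ _ _ (by simp)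
      rw [h _ (Y.inv_mem hx)] at e
      refine ⟨⟨a, ha⟩ * ⟨x * a * x⁻¹, hA.conj_mem a ha x⟩⁻¹, ?_, ?_⟩
      · show χ _ = 1
        rw [map_mul, map_inv, e, mul_inv_cancel]
      · simp [commutatorElement_def, mul_assoc]
    rw [hAY] at this
    ext a
    obtain ⟨b, hb, e⟩ := this a.2
    have : b = a := Subtype.ext e
    rw [← this, show χ b = 1 from hb]; rfl
  have K2 : ∀ χ, occ χ → ∀ x ∈ Y, x ≠ 1 → ¬ ∀ ψ ∈ orbit T χ, x • ψ ∈ orbit T χ := by
    intro χ hχ x hx hx1 h
    have hz : Subgroup.zpowers x = Y := Core.eq_of_le_of_card_le (Subgroup.zpowers_le.2 hx) (by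
      rw [hY, Nat.card_zpowers, orderOf_eq_prime (p := q) (by
        have : (⟨x, hx⟩ : Y) ^ Nat.card Y = 1 := pow_card_eq_one'
        rw [hY] at this; exact congrArg Subtype.val this) hx1])
    have hinv : ∀ y ∈ Y, ∀ ψ ∈ orbit T χ, y • ψ ∈ orbit T χ := by
      intro y hy
      rw [← hz, mem_zpowers_iff_mem_range_orderOf, Finset.mem_image] at hy
      obtain ⟨n, -, rfl⟩ := hy
      induction n with
      | zero => simp
      | succ n ih => intro ψ hψ; rw [pow_succ, mul_smul]; exact ih _ (h ψ hψ)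
    obtain ⟨ψ, ⟨t, rfl⟩, h2⟩ := Perm.exists_fixed_of_not_dvd Y (IsPGroup.of_card (n := 1)
      (by rw [hY, pow_one])) (orbit T χ) hinv (by
        obtain ⟨m, hm⟩ := hT.card_orbit χ
        rw [← Nat.card_coe_set_eq, hm]
        intro hd
        exact hq2 ((Nat.prime_dvd_prime_iff_eq hq Nat.prime_two).1 (hq.dvd_of_dvd_pow hd)))
    exact occ_ne _ (occ_smul t χ hχ) (K1 _ h2)
  have fixv : ∀ χ, occ χ → ∃ v ∈ fixSub σ T, v ≠ 0 ∧ ∀ ψ, π ψ v ≠ 0 → ψ ∈ orbit T χ := by
    rintro χ ⟨u, hu⟩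
    let M : Submodule k W := ⨅ ψ : {ψ // ψ ∉ orbit T χ}, LinearMap.ker (π ψ)
    have hM : ∀ v, v ∈ M ↔ ∀ ψ, ψ ∉ orbit T χ → π ψ v = 0 := fun v => by
      simp [M, Submodule.mem_iInf]
    obtain ⟨v, h1, h2, h3⟩ := Perm.exists_fixed_vector hT (σ.comp T.subtype) M (by
      intro t v hv
      rw [hM] at hv ⊢
      intro ψ hψ
      have := heq t ((t : S)⁻¹ • ψ) v
      rw [smul_inv_smul, hv _ (fun h => hψ (by
        obtain ⟨s, hs⟩ := h
        exact ⟨t * s, by
          show ((t : S) * s) • χ = ψ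
          rw [mul_smul, show (s : S) • χ = (t : S)⁻¹ • ψ from hs, smul_inv_smul]⟩)), map_zero] at this
      exact this) (by
      rw [Submodule.ne_bot_iff]
      exact ⟨π χ u, (hM _).2 fun ψ hψ => hπ.other _ _ _ (fun e => hψ (e ▸ mem_orbit_self _))
        (hπ.mem χ u), hu⟩)
    exact ⟨v, fun g hg => h3 ⟨g, hg⟩, h2, fun ψ hψ => by_contra fun h => hψ ((hM v).1 h1 ψ h)⟩
  have indep : ∀ (n : ℕ) (χ : Fin n → (A →* kˣ)), (∀ i, occ (χ i)) →
      (∀ i j, χ i ∈ orbit T (χ j) → i = j) → n ≤ finrank k (fixSub σ T) := by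
    intro n χ h1 h2
    choose v hv1 hv2 hv3 using fun i => fixv _ (h1 i)
    have : LinearIndependent k (fun i => (⟨v i, hv1 i⟩ : fixSub σ T)) := by
      rw [Fintype.linearIndependent_iff]
      intro c hc j
      obtain ⟨ψ, hψ⟩ := hsupp _ (hv2 j)
      have e : ∑ i, c i • v i = 0 := by simpa using congrArg Subtype.val hc
      have e2 := congrArg (π ψ) e
      rw [map_sum, map_zero, Finset.sum_eq_single j (fun i _ hij => ?_) (by simp), map_smul] at e2
      · exact (smul_eq_zero.1 e2).resolve_right hψ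
      · rw [map_smul]
        by_contra h
        have a1 := hv3 i ψ (fun e => h (by rw [e, smul_zero]))
        have a2 := hv3 j ψ hψ
        exact hij (h2 i j (orbit_eq_iff.1 ((orbit_eq_iff.2 a1).symm.trans (orbit_eq_iff.2 a2))))
    simpa using this.fintype_card_le_finrank
  obtain ⟨w, hw⟩ := exists_ne (0 : W)
  obtain ⟨χ, hχ⟩ := hsupp w hw
  have hocc : occ χ := ⟨w, hχ⟩
  obtain ⟨⟨y, hy⟩, hyo⟩ := exists_prime_orderOf_dvd_card' (G := Y) q (by rw [hY])
  rw [Subgroup.orderOf_mk] at hyo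
  have hy1 : y ≠ 1 := fun e => hq.one_lt.ne (by rw [← hyo, e, orderOf_one])
  constructor
  · have := K2 χ hocc y hy hy1
    push Not at this
    obtain ⟨ψ, ⟨t, rfl⟩, h⟩ := this
    apply indep 2 ![χ, y • (t : S) • χ]
    · intro i; fin_cases i
      · exact hocc
      · exact occ_smul _ _ (occ_smul _ _ hocc)
    · intro i j hij
      fin_cases i <;> fin_cases j
      · rfl
      · exact absurd (mem_orbit_symm.1 hij) h
      · exact absurd hij h
      · rfl
  · intro hinv
    have star : ∀ x ∈ Y, ∀ χ, occ χ → ∀ t : T, x⁻¹ • (t : S) • x • χ ∈ orbit T χ := by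
      intro x hx χ hχ t
      obtain ⟨v, h1, h2, h3⟩ := fixv χ hχ
      obtain ⟨ψ, hψ⟩ := hsupp v h2
      obtain ⟨s, hs⟩ := mem_orbit_symm.1 (h3 ψ hψ)
      have a1 : π χ v ≠ 0 := by
        have := heq s ψ v
        rw [h1 s s.2, show (s : S) • ψ = χ from hs] at this
        rw [this]; exact fun h => hψ (hσ0 _ _ h)
      apply h3
      intro h
      have a2 := heq x (x⁻¹ • (t : S) • x • χ) v
      rw [h, map_zero, smul_inv_smul, ← hinv x hx v h1 t t.2, heq, heq] at a2
      exact a1 (hσ0 _ _ (hσ0 _ _ a2))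
    have K3 : ∀ χ, occ χ → ∀ x ∈ Y, x ≠ 1 → x • χ ∉ orbit T χ := by
      intro χ hχ x hx hx1 h
      apply K2 χ hχ x hx hx1
      rintro _ ⟨t, rfl⟩
      have := star x⁻¹ (Y.inv_mem hx) (x • χ) (occ_smul _ _ hχ) t
      rw [inv_inv, inv_smul_smul, orbit_eq_iff.2 h] at this
      exact this
    have hy2 : y * y ≠ 1 := fun e => hq2 ((Nat.prime_dvd_prime_iff_eq hq Nat.prime_two).1
      (hyo ▸ orderOf_dvd_of_pow_eq_one (by rw [sq, e])))
    have b1 := K3 χ hocc y hy hy1
    have b2 := K3 χ hocc (y * y) (mul_mem hy hy) hy2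
    have b3 := K3 (y • χ) (occ_smul _ _ hocc) y hy hy1
    rw [← mul_smul] at b3
    apply indep 3 ![χ, y • χ, (y * y) • χ]
    · intro i; fin_cases i
      · exact hocc
      · exact occ_smul _ _ hocc
      · exact occ_smul _ _ hocc
    · intro i j hij
      fin_cases i <;> fin_cases j
      · rfl
      · exact absurd (mem_orbit_symm.1 hij) b1
      · exact absurd (mem_orbit_symm.1 hij) b2
      · exact absurd hij b1
      · rfl
      · exact absurd (mem_orbit_symm.1 hij) b3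
      · exact absurd hij b2
      · exact absurd hij b3
      · rfl

end

/-- Let S be a finite solvable group whose order is divisible only by the primes 2, p, q (p, q distinct odd primes), with a Sylow system S₂, S_p, S_q (pairwise permutable Sylow subgroups) such that: S_p is a minimal normal subgroup of S of order p or p²; S_q has order q and [S_p, S_q] = S_p; and O₂(S) = 1. Let E be an irreducible module for S over the field with two elements on which S_p acts faithfully, and E₀ the subspace of fixed points of S₂. Then either E₀ has at least 8 elements, or E₀ has exactly 4 elements and S_q does not leave E₀ invariant. -/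
theorem result {S : Type*} [Group S] [Finite S]
    [Group.IsSolvable S] (p q : ℕ) (hp : p.Prime) (hq : q.Prime) (hp2 : p ≠ 2) (hq2 : q ≠ 2) (hpq : p ≠ q)
    (hπ : ∀ r : ℕ, r.Prime → r ∣ Nat.card S → r = 2 ∨ r = p ∨ r = q)
    (S₂ : Sylow 2 S) (Sp : Sylow p S) (Sq : Sylow q S)
    (h2q : Nat.card ↥((S₂ : Subgroup S) ⊔ (Sq : Subgroup S)) = Nat.card ↥S₂ * Nat.card ↥Sq)
    (h2p : Nat.card ↥((S₂ : Subgroup S) ⊔ (Sp : Subgroup S)) = Nat.card ↥S₂ * Nat.card ↥Sp)
    (hpq' : Nat.card ↥((Sp : Subgroup S) ⊔ (Sq : Subgroup S)) = Nat.card ↥Sp * Nat.card ↥Sq)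
    (hSpN : (Sp : Subgroup S).Normal) (hSpmin : ∀ N : Subgroup S, N.Normal → N ≤ (Sp : Subgroup S) → N = ⊥ ∨ N = (Sp : Subgroup S))
    (hSpcard : Nat.card ↥Sp = p ∨ Nat.card ↥Sp = p ^ 2)
    (hSq : Nat.card ↥Sq = q) (hcomm : ⁅(Sp : Subgroup S), (Sq : Subgroup S)⁆ = (Sp : Subgroup S))
    (hO2 : Cfsg.pCore 2 S = ⊥)
    {E : Type*} [AddCommGroup E] [Module (ZMod 2) E] [Finite E] (ρ : Representation (ZMod 2) S E) (hE : Nontrivial E)
    (hirr : ∀ N : Submodule (ZMod 2) E, (∀ s : S, ∀ m ∈ N, ρ s m ∈ N) → N = ⊥ ∨ N = ⊤)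
    (hfaith : ∀ x ∈ (Sp : Subgroup S), ρ x = 1 → x = 1) :
    8 ≤ Nat.card {v : E // ∀ s ∈ (S₂ : Subgroup S), ρ s v = v} ∨
      (Nat.card {v : E // ∀ s ∈ (S₂ : Subgroup S), ρ s v = v} = 4 ∧
        ∃ x ∈ (Sq : Subgroup S), ∃ v : E, (∀ s ∈ (S₂ : Subgroup S), ρ s v = v) ∧ ¬ ∀ s ∈ (S₂ : Subgroup S), ρ s (ρ x v) = ρ x v) := by
  haveI : Fact p.Prime := ⟨hp⟩
  haveI : Module.Finite (ZMod 2) E := Module.Finite.of_finite
  obtain ⟨n, σ, hσ⟩ := base ρ (AlgebraicClosure (ZMod 2))
  have hA0 : fixSub ρ (Sp : Subgroup S) = ⊥ := by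
    refine (hirr (fixSub ρ (Sp : Subgroup S)) fun s m hm a ha => ?_).resolve_right fun h => ?_
    · have := hm _ (hSpN.conj_mem a ha s⁻¹)
      calc ρ a (ρ s m) = ρ s (ρ (s⁻¹ * a * s⁻¹⁻¹) m) := by
            rw [← Module.End.mul_apply, ← map_mul, ← Module.End.mul_apply, ← map_mul]
            congr 2; group
        _ = _ := by rw [this]
    · have h1 : (Sp : Subgroup S) = ⊥ := eq_bot_iff.2 fun x hx =>
        hfaith x hx (fixSub_eq_top_iff.1 h x hx)
      have h2 : Nat.card (Sp : Subgroup S) = 1 := by rw [h1]; simp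
      have := hp.one_lt
      rcases hSpcard with e | e
      · exact this.ne (h2.symm.trans e)
      · exact (Nat.one_lt_pow two_ne_zero this).ne (h2.symm.trans e)
  haveI : Nontrivial (Fin n → AlgebraicClosure (ZMod 2)) := by
    have h1 := hσ ∅
    rw [fixSub_eq_top_iff.2 (by simp), fixSub_eq_top_iff.2 (by simp), finrank_top, finrank_top] at h1
    exact Module.nontrivial_of_finrank_pos (R := AlgebraicClosure (ZMod 2)) (h1 ▸ finrank_pos)
  have hAc : IsMulCommutative (Sp : Subgroup S) := by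
    rcases hSpcard with e | e
    · exact (isCyclic_of_prime_card (α := (Sp : Subgroup S)) e).isMulCommutative
    · exact ⟨⟨(IsPGroup.commGroupOfCardEqPrimeSq (G := (Sp : Subgroup S)) e).mul_comm⟩⟩
  have hodd : Odd (Nat.card (Sp : Subgroup S)) := by
    rcases hSpcard with e | e
    · rw [show Nat.card (Sp : Subgroup S) = p from e]; exact hp.odd_of_ne_two hp2
    · rw [show Nat.card (Sp : Subgroup S) = p ^ 2 from e]; exact (hp.odd_of_ne_two hp2).pow
  obtain ⟨h2, h3⟩ := core σ (Sp : Subgroup S) hAc hodd (by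
    rw [← Submodule.finrank_eq_zero, hσ, hA0, finrank_bot]) (S₂ : Subgroup S) S₂.2 hq hq2
    (Sq : Subgroup S) hSq hcomm
  have hc : Nat.card {v : E // ∀ s ∈ (S₂ : Subgroup S), ρ s v = v} =
      2 ^ finrank (ZMod 2) (fixSub ρ (S₂ : Subgroup S)) := by
    have := Module.natCard_eq_pow_finrank (K := ZMod 2) (V := fixSub ρ (S₂ : Subgroup S))
    rw [Nat.card_zmod] at this
    exact this
  rw [hσ] at h2 h3
  rw [hc]
  by_cases h : 3 ≤ finrank (ZMod 2) (fixSub ρ (S₂ : Subgroup S))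
  · exact Or.inl (Nat.pow_le_pow_right (by norm_num) h : 2 ^ 3 ≤ _)
  refine Or.inr ⟨by rw [show finrank (ZMod 2) (fixSub ρ (S₂ : Subgroup S)) = 2 by omega]; rfl, ?_⟩
  by_contra hne
  push Not at hne
  apply h
  apply h3
  intro x hx v hv s hs
  let U : Set S := (S₂ : Subgroup S) ∪ {x⁻¹ * s * x}
  have e1 : fixSub ρ U = fixSub ρ (S₂ : Subgroup S) := by
    refine le_antisymm (fixSub_anti ρ Set.subset_union_left) fun u hu g hg => ?_
    rcases hg with hg | rfl
    · exact hu g hg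
    · rw [map_mul, map_mul, Module.End.mul_apply, Module.End.mul_apply, hne x hx u hu s hs,
        ρ.inv_self_apply]
  have e2 : fixSub σ U = fixSub σ (S₂ : Subgroup S) :=
    Submodule.eq_of_le_of_finrank_eq (fixSub_anti σ Set.subset_union_left) (by rw [hσ, hσ, e1])
  have := (e2.ge hv) (x⁻¹ * s * x) (Or.inr rfl)
  rw [map_mul, map_mul, Module.End.mul_apply, Module.End.mul_apply] at this
  conv_rhs => rw [← this]
  rw [σ.self_inv_apply]

end Cfsg.Agent.S4414
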