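import Mathlib
import Cfsg.Statements.S4420
import Cfsg.Agent.FGS.Basic2

set_option autoImplicit false
open Cfsg

namespace Cfsg.Agent.S4420

open Subgroup

/-- Structure of groups in which every element outside some proper subgroup has square 1. Let H be a finite group with a proper subgroup A such that every element outside A has square 1. Then H has an abelian normal subgroup B of index 2 such that every element outside B is an involution inverting every element of B; and if H is not an elementary abelian 2-group, B is the only abelian normal subgroup of index 2 with this property. -/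
theorem result {H : Type*} [Group H] [Finite H] (A : Subgroup H) (hA : A ≠ ⊤) (hD : ∀ x : H, x ∉ A → x ^ 2 = 1) :
    ∃ B : Subgroup H, B.Normal ∧ IsMulCommutative ↥B ∧ B.index = 2 ∧
      (∀ x : H, x ∉ B → x ^ 2 = 1 ∧ ∀ b ∈ B, x * b * x⁻¹ = b⁻¹) ∧
      (¬ (IsMulCommutative H ∧ ∀ x : H, x ^ 2 = 1) →
        ∀ B' : Subgroup H, B'.Normal → IsMulCommutative ↥B' → B'.index = 2 →
          (∀ x : H, x ∉ B' → x ^ 2 = 1 ∧ ∀ b ∈ B', x * b * x⁻¹ = b⁻¹) → B' = B) := by
  obtain ⟨B, hB, hle⟩ := (eq_top_or_exists_le_coatom A).resolve_left hA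
  have h1 : ∀ x, x ∉ B → x⁻¹ = x := fun x hx =>
    inv_eq_of_mul_eq_one_right (by rw [← pow_two, hD x fun h => hx (hle h)])
  have h2 : ∀ x, x ∉ B → ∀ b ∈ B, x * b * x⁻¹ = b⁻¹ := fun x hx b hb => by
    have := h1 (x * b) (by rwa [B.mul_mem_cancel_right hb])
    rw [← this, mul_inv_rev, mul_assoc, h1 x hx, ← pow_two, hD x fun h => hx (hle h), mul_one]
  have hn : B.Normal := ⟨fun b hb x => by
    by_cases hx : x ∈ B
    · exact mul_mem (mul_mem hx hb) (inv_mem hx)
    · exact h2 x hx b hb ▸ inv_mem hb⟩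
  obtain ⟨t, ht⟩ := FGS.exists_not_mem_of_ne_top hB.1
  have hc : ∀ a ∈ B, ∀ b ∈ B, a * b = b * a := fun a ha b hb => by
    have := h2 t ht _ (mul_mem ha hb)
    rw [← conj_mul, h2 t ht a ha, h2 t ht b hb, ← mul_inv_rev, inv_inj] at this
    exact this.symm
  have hi : B.index = 2 := by
    refine ((Nat.prime_dvd_prime_iff_eq Nat.prime_two (FGS.index_prime_of_normal_isCoatom hB)).mp
      ?_).symm
    rw [← orderOf_eq_prime (x := QuotientGroup.mk' B t) (p := 2) (by
      rw [← map_pow, hD t fun h => ht (hle h), map_one]) (mt (QuotientGroup.eq_one_iff t).mp ht)]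
    exact orderOf_dvd_natCard _
  refine ⟨B, hn, FGS.isMulCommutative_iff_forall.mpr hc, hi,
    fun x hx => ⟨hD x fun h => hx (hle h), h2 x hx⟩, fun hne B' _ hc' hi' h' => ?_⟩
  by_contra e
  obtain ⟨y, hy, hy'⟩ := SetLike.not_le_iff_exists.mp (show ¬ B ≤ B' from fun h => by
    rcases h.eq_or_lt with h | h
    · exact e h.symm
    · rw [hB.2 _ h, index_top] at hi'
      omega)
  have h3 : ∀ x : H, x⁻¹ = x := fun x => by
    by_cases hx : x ∈ B
    · by_cases hx' : x ∈ B'
      · rw [← (h' y hy').2 x hx', hc y hy x hx, mul_inv_cancel_right]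
      · exact inv_eq_of_mul_eq_one_right (by rw [← pow_two, (h' x hx').1])
    · exact h1 x hx
  exact hne ⟨⟨⟨fun a b => by rw [← h3 (a * b), mul_inv_rev, h3, h3]⟩⟩, fun x => by
    rw [pow_two, ← mul_inv_cancel x, h3]⟩

end Cfsg.Agent.S4420
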