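import Mathlib
import Cfsg.Statements.S4472
import Cfsg.Agent.Isaacs.PSchur
-- import your own Cfsg.Agent.* helpers here

set_option autoImplicit false
open Cfsg

namespace Cfsg.Agent.S4472

open Cfsg.Agent.Char Cfsg.Agent.Isaacs Subgroup

/-- Let the finite p-solvable group G have a faithful character of degree n, and let p^a be the index of O_p(G) in a Sylow p-subgroup of G (the p-part of [G : O_p(G)]). Then a ≤ Σ_{i ≥ 0} ⌊n / ((p − 1) p^i)⌋ (a finite sum; the terms vanish for p^i > n). -/
theorem result {G : Type*} [Group G] [Finite G] (χ : G → ℂ) (hχ : Cfsg.IsCharacter G χ) (hfaith : ∀ g : G, χ g = χ 1 → g = 1) (n : ℕ) (hn : Cfsg.charDegree χ = n) (p : ℕ) (hp : p.Prime) (hsolv : Cfsg.IsPSolvable p G) : ((Cfsg.pCore p G).index).factorization p ≤ ∑ i ∈ Finset.range (n + 1), n / ((p - 1) * p ^ i) := by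
  have := Fact.mk hp
  obtain ⟨m, a, b⟩ := psolv_schur hsolv (chr_top.mpr hχ) hfaith (n := n) (hn ▸ (Block.charDegree_cast hχ).symm)
  have c := (Nat.factorization_le_iff_dvd (pow_ne_zero _ hp.ne_zero) (mul_ne_zero (pow_ne_zero _ hp.ne_zero)
    (Nat.factorial_ne_zero _))).mpr (b.trans (mul_dvd_mul (pow_dvd_pow p (Nat.div_le_div_right a))
      (Nat.factorial_dvd_factorial (Nat.div_le_div_right a)))) p
  rw [Nat.factorization_mul (pow_ne_zero _ hp.ne_zero) (Nat.factorial_ne_zero _), Finsupp.add_apply,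
    Nat.factorization_pow_self hp, Nat.factorization_pow_self hp, Nat.factorization_factorial hp (b := n + 1)
    (Nat.lt_succ_of_le ((Nat.log_le_self _ _).trans (Nat.div_le_self _ _)))] at c
  rw [Finset.range_eq_Ico, Finset.sum_eq_sum_Ico_succ_bot n.succ_pos]
  simpa [Nat.div_div_eq_div_mul] using c

end Cfsg.Agent.S4472
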