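import Mathlib
import Cfsg.Statements.S4483
import Cfsg.Agent.Block.Rank

set_option autoImplicit false
open Cfsg

namespace Cfsg.Agent.S4483

open Cfsg.Agent.Block Cfsg.Agent.Char

/-- Let G be a finite group of order 2^n·g₀ with g₀ odd, and M a maximal ideal of the algebraic integers containing 2. Every real-valued irreducible character of G of odd degree lies in the principal 2-block; consequently G has at most 2^(2n) real-valued irreducible characters of odd degree. -/
theorem result {G : Type*} [Group G] [Finite G] (M : Ideal Cfsg.AlgInt) (hM : Cfsg.IsPModular 2 M) : (∀ χ : Cfsg.IrrCharacter G, (∀ g : G, ((χ : G → ℂ) g).im = 0) → Odd (Cfsg.charDegree (χ : G → ℂ)) → χ ∈ Cfsg.principalBlock M G) ∧ Nat.card {χ : Cfsg.IrrCharacter G // (∀ g : G, ((χ : G → ℂ) g).im = 0) ∧ Odd (Cfsg.charDegree (χ : G → ℂ))} ≤ 2 ^ (2 * (Nat.card G).factorization 2) := by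
  have key : ∀ χ : IrrCharacter G, (∀ g : G, ((χ : G → ℂ) g).im = 0) →
      Odd (charDegree (χ : G → ℂ)) → χ ∈ principalBlock M G := by
    intro χ hre hodd
    have hB := isPBlock_blockOf (M := M) χ
    have hχ := self_mem_blockOf hM χ
    have h1 := oneIrr_mem_of_two hM hB hχ hχ (by
      rw [← even_iff_two_dvd, Nat.not_even_iff_odd]; exact hodd) fun x _ => by
        rw [isChar_inv (irr_isChar χ), eq_comm, Complex.conj_eq_iff_im]; exact hre x
    rw [← block_eq_of_mem hM hB isPBlock_principalBlock h1 (oneIrr_mem_principalBlock hM)]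
    exact hχ
  refine ⟨key, ?_⟩
  have h1 : Nat.card {χ : IrrCharacter G // (∀ g : G, ((χ : G → ℂ) g).im = 0) ∧
      Odd (charDegree (χ : G → ℂ))} ≤ Nat.card (principalBlock M G) :=
    Nat.card_le_card_of_injective (fun χ => ⟨χ.1, key χ.1 χ.2.1 χ.2.2⟩)
      fun a b h => Subtype.ext (Subtype.mk.inj h)
  have h2 := brauer_feit hM (isPBlock_principalBlock (G := G))
  have h3 : 2 ^ (2 * blockDefect 2 (principalBlock M G)) ≤ 2 ^ (2 * (Nat.card G).factorization 2) :=
    Nat.pow_le_pow_right two_pos (Nat.mul_le_mul_left 2 (blockDefect_le _))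
  have h4 : 1 ≤ 2 ^ (2 * (Nat.card G).factorization 2) := Nat.one_le_two_pow
  omega

end Cfsg.Agent.S4483
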