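import Mathlib
import Cfsg.Statements.S4488
import Cfsg.Agent.Perm.SieveChar

set_option autoImplicit false
open Cfsg

namespace Cfsg.Agent.S4488


/-- Let the finite group G have a faithful p-rational character χ of degree n (all values of χ lie in the field generated over ℚ by a root of unity of order prime to p), and let p^a be the order of a Sylow p-subgroup of G. Then a ≤ Σ_{i ≥ 0} ⌊n / ((p − 1)·p^i)⌋ (a finite sum; the terms vanish once (p − 1)p^i > n). -/
theorem result {G : Type*} [Group G] [Finite G] (p : ℕ) (hp : p.Prime) (χ : G → ℂ) (hχ : Cfsg.IsCharacter G χ) (hfaith : ∀ g : G, χ g = χ 1 → g = 1) (hrat : (∃ r : ℕ, 0 < r ∧ ¬ p ∣ r ∧ ∀ g : G, χ g ∈ IntermediateField.adjoin ℚ ({Complex.exp (2 * Real.pi * Complex.I / r)} : Set ℂ))) (n : ℕ) (hn : Cfsg.charDegree χ = n) : (Nat.card G).factorization p ≤ ∑ i ∈ Finset.range (n + 1), n / ((p - 1) * p ^ i) := by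
  have := Fact.mk hp
  obtain ⟨R⟩ : Nonempty (Sylow p G) := inferInstance
  obtain ⟨r, hr, hpr, hrat⟩ := hrat
  have h1 := Perm.schur_dvd hχ (N := n) (hn ▸ (Block.charDegree_cast hχ).symm) hp R.isPGroup'
    (fun g _ => hfaith g) fun g hg => by
      obtain ⟨a, ha⟩ := Block.exists_orderOf_eq_pow_of_mem hp R.isPGroup' hg
      refine Char.Galois.exists_int_of_forall_pow (Char.isChar_isGenChar hχ) fun k hk => ?_
      have hc : (orderOf g).Coprime r := ha ▸ (hp.coprime_iff_not_dvd.mpr hpr).pow_left a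
      obtain ⟨j, h1, h2⟩ := Nat.chineseRemainder hc k 1
      obtain ⟨σ, hσ⟩ := Char.GaloisAut.exists_aut_pow (n := orderOf g * r) (k := j)
        (mul_ne_zero (Char.orderOf_ne_zero g) hr.ne') (Nat.Coprime.mul_right
          ((Nat.ModEq.gcd_eq h1).trans hk) ((Nat.ModEq.gcd_eq h2).trans (Nat.coprime_one_left r)))
      rw [← pow_eq_pow_iff_modEq.mpr h1, ← Char.Galois.isGenChar_map_eq_pow_of_dvd σ.toRingHom
        (Char.isChar_isGenChar hχ) hσ (dvd_mul_right _ _)]
      refine IntermediateField.adjoin_induction ℚ (p := fun x _ => σ.toRingHom x = x) ?_ (by simp)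
        (fun x y _ _ hx hy => by rw [map_add, hx, hy]) (fun x _ hx => by rw [map_inv₀, hx])
        (fun x y _ _ hx hy => by rw [map_mul, hx, hy]) (hrat g)
      rintro _ rfl
      have h3 := (Complex.isPrimitiveRoot_exp r hr.ne').pow_eq_one
      refine (hσ _ (by rw [pow_mul', h3, one_pow])).trans ?_
      exact (pow_eq_pow_of_modEq h2 h3).trans (pow_one _)
  have h2 := (Nat.factorization_le_iff_dvd Nat.card_pos.ne' (mul_ne_zero (pow_ne_zero _ hp.ne_zero)
    (Nat.factorial_ne_zero _))).mpr h1 p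
  rw [R.card_eq_multiplicity, Nat.factorization_mul (pow_ne_zero _ hp.ne_zero)
    (Nat.factorial_ne_zero _), Finsupp.add_apply, Nat.factorization_pow_self hp,
    Nat.factorization_pow_self hp, Nat.factorization_factorial hp (b := n + 1)
    (Nat.lt_succ_of_le ((Nat.log_le_self _ _).trans (Nat.div_le_self _ _)))] at h2
  rw [Finset.range_eq_Ico, Finset.sum_eq_sum_Ico_succ_bot n.succ_pos]
  simpa [Nat.div_div_eq_div_mul] using h2

end Cfsg.Agent.S4488
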