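import Mathlib
import Cfsg.Statements.S4493
import Cfsg.Agent.Isaacs.CD
-- import your own Cfsg.Agent.* helpers here

set_option autoImplicit false
open Cfsg

namespace Cfsg.Agent.S4493

open Cfsg.Agent.Char Cfsg.Agent.Isaacs Subgroup

/-- Let G be a finite solvable group and p a prime. Then G has a normal abelian Sylow p-subgroup if and only if no irreducible character degree of G is divisible by p. -/
theorem result {G : Type*} [Group G] [Finite G] (hsolv : Group.IsSolvable G) (p : ℕ) (hp : p.Prime) : (∃ P : Subgroup G, P.Normal ∧ (∀ x ∈ P, ∀ y ∈ P, x * y = y * x) ∧ IsPGroup p P ∧ ¬ p ∣ P.index) ↔ ∀ χ : Cfsg.IrrCharacter G, ¬ p ∣ Cfsg.charDegree (χ : G → ℂ) := by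
  have := Fact.mk hp
  obtain ⟨P⟩ := (inferInstance : Nonempty (Sylow p G))
  rw [← cd_iff (R := (¬ p ∣ ·))]
  refine ⟨fun ⟨Q, _, h, _, b⟩ χ a _ d c e => b (e.trans ?_), fun h => ?_⟩
  · simpa using a.deg_dvd_of_comm norm_top le_top h c
  · obtain ⟨a, b⟩ := (ito_iff (Core.isPSolvable_of_solvable p hsolv) P).mpr h
    exact ⟨P, a, b, P.isPGroup', P.not_dvd_index⟩

end Cfsg.Agent.S4493
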