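import Mathlib
import Cfsg.Statements.S4519
import Cfsg.Agent.Isaacs.GalFix
import Cfsg.Agent.Isaacs.GlS
import Cfsg.Agent.S0205
-- import your own Cfsg.Agent.* helpers here

set_option autoImplicit false
open Cfsg

namespace Cfsg.Agent.S4519

open Cfsg.Agent.Char Cfsg.Agent.Isaacs Subgroup
open scoped ComplexConjugate commutatorElement

/-- Let N be a normal subgroup of odd index in the finite group G, and let k be coprime to the order of G with k ^ (2 ^ e) ≡ 1 modulo the order of G for some e and g ^ k = g⁻¹ for every element g of odd order (so g ↦ g ^ k induces a field automorphism of 2-power order inverting the roots of unity of odd order). If an irreducible character θ of N satisfies θ (n ^ k) = θ n for all n, then there is exactly one irreducible character χ of G with θ a constituent of its restriction to N and χ (g ^ k) = χ g for all g; moreover, if θ is invariant under conjugation by G, that χ restricts to θ. -/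
theorem result {G : Type*} [Group G] [Fintype G] (N : Subgroup G) [hN : N.Normal] [Fintype N] (hidx : Odd N.index) (k e : ℕ) (hk : Nat.Coprime k (Nat.card G)) (hke : k ^ (2 ^ e) ≡ 1 [MOD Nat.card G]) (hk₂ : ∀ g : G, Odd (orderOf g) → g ^ k = g⁻¹) (θ : Cfsg.IrrCharacter N) (hθ : ∀ n : N, (θ : N → ℂ) (n ^ k) = (θ : N → ℂ) n) : ∃ χ : Cfsg.IrrCharacter G, (Cfsg.classInner (fun n : N => (χ : G → ℂ) n) (θ : N → ℂ) ≠ 0 ∧ (∀ g : G, (χ : G → ℂ) (g ^ k) = (χ : G → ℂ) g) ∧ ((∀ g : G, ∀ n : N, (θ : N → ℂ) ⟨g * n * g⁻¹, hN.conj_mem n n.2 g⟩ = (θ : N → ℂ) n) → ∀ n : N, (χ : G → ℂ) n = (θ : N → ℂ) n)) ∧ ∀ χ' : Cfsg.IrrCharacter G, Cfsg.classInner (fun n : N => (χ' : G → ℂ) n) (θ : N → ℂ) ≠ 0 → (∀ g : G, (χ' : G → ℂ) (g ^ k) = (χ' : G → ℂ) g) → χ' = χ := by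
  obtain ⟨χ, a1, a2, a3, a4, a5⟩ := (irr_ez.mpr θ.2).fix_over hk hke (fun r hr ho hd => by
      have := Fact.mk hr
      obtain ⟨g, rfl⟩ := exists_prime_orderOf_dvd_card' r hd
      exact orderOf_dvd_of_pow_eq_one (by rw [pow_succ, hk₂ g ho, inv_mul_cancel])) ⊤ le_top norm_top
    (solvMod_of_quot (S0205.result hidx)) (by rwa [relIndex_top_right]) fun n hn => by
      rw [pw, ez_mem _ (pow_mem hn k), ez_mem _ hn]; exact hθ ⟨n, hn⟩
  refine ⟨⟨χ, irr_top.mp a1⟩, ⟨by rwa [inn_eq, ez_res] at a2, fun g => a3 g trivial, fun h n => ?_⟩,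
    fun η b c => Subtype.ext (eqv_top.mp (a5 _ (irr_top.mpr η.2) (by rwa [inn_eq, ez_res]) fun g _ => c g))⟩
  refine (a4 (fun g _ x hx => ?_) n n.2).trans (ez_coe _ _)
  rw [ez_mem _ (hN.conj_mem x hx g), ez_mem _ hx]; exact h g ⟨x, hx⟩

end Cfsg.Agent.S4519
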