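import Mathlib
import Cfsg.Statements.S4521
import Cfsg.Agent.Block.Rank
import Cfsg.Agent.Block.Cover
import Cfsg.Agent.Core.Basic

set_option autoImplicit false
open Cfsg

namespace Cfsg.Agent.S4521

open Cfsg.Agent.Block Cfsg.Agent.Char Subgroup

variable {G : Type*} [Group G] [Finite G] {p : ℕ} {U₁ U₂ : Subgroup G}

theorem decomp (hcomm : ∀ u ∈ U₁, ∀ v ∈ U₂, u * v = v * u) (hgen : U₁ ⊔ U₂ = ⊤) (g : G) :
    ∃ u ∈ U₁, ∃ v ∈ U₂, g = u * v := by
  refine (Core.mem_sup_of_le_normalizer (N := U₁) (H := U₂) fun v hv => ?_).1 (hgen ▸ mem_top g)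
  refine centralizer_le_normalizer _ ?_
  exact fun u hu => hcomm u hu v hv

theorem isConj_iff (hcomm : ∀ u ∈ U₁, ∀ v ∈ U₂, u * v = v * u) (hgen : U₁ ⊔ U₂ = ⊤) {u : G}
    (hu : u ∈ U₁) {h : G} : IsConj u h ↔ ∃ a ∈ U₁, a * u * a⁻¹ = h := by
  rw [_root_.isConj_iff]
  constructor
  · rintro ⟨c, rfl⟩
    obtain ⟨a, ha, b, hb, rfl⟩ := decomp hcomm hgen c
    refine ⟨a, ha, ?_⟩
    rw [mul_assoc a b u, ← hcomm u hu b hb]
    group
  · rintro ⟨a, -, h⟩
    exact ⟨a, h⟩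

theorem incl_classSum {R : Type*} [CommRing R] (hcomm : ∀ u ∈ U₁, ∀ v ∈ U₂, u * v = v * u)
    (hgen : U₁ ⊔ U₂ = ⊤) (u : U₁) : incl U₁ (classSum R u) = classSum R (u : G) := by
  classical
  refine ga_ext fun g => ?_
  by_cases hg : g ∈ U₁
  · rw [coeff_incl_of_mem _ _ hg, coeff_classSum, coeff_classSum, isConj_iff hcomm hgen u.2,
      _root_.isConj_iff]
    congr 1
    refine propext ⟨?_, ?_⟩
    · rintro ⟨c, hc⟩
      exact ⟨c, c.2, congrArg Subtype.val hc⟩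
    · rintro ⟨c, hc, h⟩
      exact ⟨⟨c, hc⟩, Subtype.ext h⟩
  · rw [coeff_incl_of_notMem _ _ hg, coeff_classSum_of_not]
    rw [isConj_iff hcomm hgen u.2]
    rintro ⟨a, ha, rfl⟩
    exact hg (mul_mem (mul_mem ha u.2) (inv_mem ha))

theorem classSum_mul {R : Type*} [CommRing R] (hp : p.Prime)
    (hcomm : ∀ u ∈ U₁, ∀ v ∈ U₂, u * v = v * u) (hgen : U₁ ⊔ U₂ = ⊤)
    (hZ : IsPGroup p ↥(U₁ ⊓ U₂)) {u v : G} (hu : u ∈ U₁) (hv : v ∈ U₂) (hu' : ¬ p ∣ orderOf u) :
    classSum R u * classSum R v = classSum R (u * v) := by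
  classical
  have := Fintype.ofFinite G
  have hcomm' : ∀ u ∈ U₂, ∀ v ∈ U₁, u * v = v * u := fun u hu v hv => (hcomm v hv u hu).symm
  have hgen' : U₂ ⊔ U₁ = ⊤ := by rw [sup_comm, hgen]
  refine ga_ext fun g => ?_
  rw [coeff_mul_left]
  by_cases hg : IsConj (u * v) g
  · rw [coeff_classSum_of_isConj hg]
    obtain ⟨c, rfl⟩ := _root_.isConj_iff.1 hg
    have k1 : IsConj u (c * u * c⁻¹) := _root_.isConj_iff.2 ⟨c, rfl⟩
    have k2 : IsConj v (c * v * c⁻¹) := _root_.isConj_iff.2 ⟨c, rfl⟩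
    rw [Finset.sum_eq_single (c * u * c⁻¹), coeff_classSum_of_isConj k1, one_mul,
      coeff_classSum_of_isConj (by convert k2 using 1; group)]
    · intro h _ hne
      by_cases h1 : IsConj u h
      · rw [coeff_classSum_of_not (g := v), mul_zero]
        intro h2
        apply hne
        obtain ⟨a, ha, e1⟩ := (isConj_iff hcomm hgen hu).1 h1
        obtain ⟨a', ha', e2⟩ := (isConj_iff hcomm hgen hu).1 k1
        obtain ⟨b, hb, e3⟩ := (isConj_iff hcomm' hgen' hv).1 h2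
        obtain ⟨b', hb', e4⟩ := (isConj_iff hcomm' hgen' hv).1 k2
        have m1 : h ∈ U₁ := e1 ▸ mul_mem (mul_mem ha hu) (inv_mem ha)
        have m2 : c * u * c⁻¹ ∈ U₁ := e2 ▸ mul_mem (mul_mem ha' hu) (inv_mem ha')
        have m3 : h⁻¹ * (c * (u * v) * c⁻¹) ∈ U₂ := e3 ▸ mul_mem (mul_mem hb hv) (inv_mem hb)
        have m4 : c * v * c⁻¹ ∈ U₂ := e4 ▸ mul_mem (mul_mem hb' hv) (inv_mem hb')
        have z1 : h⁻¹ * (c * u * c⁻¹) ∈ U₁ := mul_mem (inv_mem m1) m2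
        have z2 : h⁻¹ * (c * u * c⁻¹) ∈ U₂ := by
          convert mul_mem m3 (inv_mem m4) using 1
          group
        have z3 := exists_orderOf_eq_pow_of_mem hp hZ (mem_inf.2 ⟨z1, z2⟩)
        have r1 : ¬ p ∣ orderOf h := by rw [← e1, orderOf_conj']; exact hu'
        have r2 : ¬ p ∣ orderOf (c * u * c⁻¹) := by rw [orderOf_conj']; exact hu'
        have e5 := pr_mul hp z3 r1 (hcomm' _ z2 _ m1)
        rw [← hcomm _ m1 _ z2, mul_inv_cancel_left, pr_of_regular hp r2] at e5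
        exact e5.symm
      · rw [coeff_classSum_of_not h1, zero_mul]
    · simp
  · rw [coeff_classSum_of_not hg]
    refine Finset.sum_eq_zero fun h _ => ?_
    by_cases h1 : IsConj u h
    · rw [coeff_classSum_of_not (g := v), mul_zero]
      intro h2
      apply hg
      obtain ⟨a, ha, e1⟩ := (isConj_iff hcomm hgen hu).1 h1
      obtain ⟨b, hb, e3⟩ := (isConj_iff hcomm' hgen' hv).1 h2
      refine _root_.isConj_iff.2 ⟨a * b, ?_⟩
      have e4 : g = (a * u * a⁻¹) * (b * v * b⁻¹) := by rw [e1, e3]; group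
      have c1 := hcomm u hu b hb
      have c2 := hcomm _ (inv_mem ha) _ (mul_mem (mul_mem hb hv) (inv_mem hb))
      rw [e4, mul_assoc (a * u), c2]
      calc a * b * (u * v) * (a * b)⁻¹ = a * (b * u) * v * b⁻¹ * a⁻¹ := by group
        _ = _ := by rw [← c1]; group
    · rw [coeff_classSum_of_not h1, zero_mul]

theorem lam_incl {M : Ideal AlgInt} {H : Subgroup G} [Fintype H] {χ : IrrCharacter G}
    {θ : IrrCharacter H} (h : classInner (fun n : H => (χ : G → ℂ) n) (θ : H → ℂ) ≠ 0) (u : H)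
    (hu : incl H (classSum ℂ u) = classSum ℂ (u : G)) :
    lam M (χ : G → ℂ) (classSum (F M) (u : G)) = lam M (θ : H → ℂ) (classSum (F M) u) := by
  rw [lam_classSum, lam_classSum, ← omega_irr_classSum, ← omega_irr_classSum, ← hu,
    omega_incl_eq_of_over h (hu ▸ isCentral_classSum _)]

/-- Let the finite group G be generated by subgroups U₁ and U₂ that commute elementwise and whose intersection is a p-group, and let M be a maximal ideal of the algebraic integers containing the prime p. If the irreducible character χ of G has the irreducible constituents ψ₁ on U₁ and ψ₂ on U₂, then χ lies in the principal block of G if and only if ψ₁ and ψ₂ lie in the principal blocks of U₁ and U₂. -/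
theorem result {G : Type*} [Group G] [Fintype G] (p : ℕ) [Fact p.Prime] (M : Ideal Cfsg.AlgInt) (hM : Cfsg.IsPModular p M) (U₁ U₂ : Subgroup G) [Fintype U₁] [Fintype U₂] (hcomm : ∀ u ∈ U₁, ∀ v ∈ U₂, u * v = v * u) (hgen : U₁ ⊔ U₂ = ⊤) (hZ : IsPGroup p ↥(U₁ ⊓ U₂)) (χ : Cfsg.IrrCharacter G) (ψ₁ : Cfsg.IrrCharacter U₁) (ψ₂ : Cfsg.IrrCharacter U₂) (h₁ : Cfsg.classInner (fun u : U₁ => (χ : G → ℂ) u) (ψ₁ : U₁ → ℂ) ≠ 0) (h₂ : Cfsg.classInner (fun u : U₂ => (χ : G → ℂ) u) (ψ₂ : U₂ → ℂ) ≠ 0) : χ ∈ Cfsg.principalBlock M G ↔ (ψ₁ ∈ Cfsg.principalBlock M U₁ ∧ ψ₂ ∈ Cfsg.principalBlock M U₂) := by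
  classical
  have hp := hM.1
  have hcomm' : ∀ u ∈ U₂, ∀ v ∈ U₁, u * v = v * u := fun u hu v hv => (hcomm v hv u hu).symm
  have hgen' : U₂ ⊔ U₁ = ⊤ := by rw [sup_comm, hgen]
  have nrm : ∀ {U₁ U₂ : Subgroup G}, (∀ u ∈ U₁, ∀ v ∈ U₂, u * v = v * u) → U₁ ⊔ U₂ = ⊤ →
      U₁.Normal := fun hc hg => ⟨fun n hn g => by
    obtain ⟨a, ha, e⟩ := (isConj_iff hc hg hn).1 (_root_.isConj_iff.2 ⟨g, rfl⟩)
    exact e ▸ mul_mem (mul_mem ha hn) (inv_mem ha)⟩
  have := nrm hcomm hgen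
  have := nrm hcomm' hgen'
  refine ⟨fun h => ⟨mem_principal_of_under hM h h₁, mem_principal_of_under hM h h₂⟩, ?_⟩
  rintro ⟨k1, k2⟩
  have hV := isV_blockIdem hM (isPBlock_principalBlock (G := G))
  have o1 : classInner (fun n : U₁ => (oneIrr G : G → ℂ) n) (oneIrr U₁ : U₁ → ℂ) ≠ 0 := by
    have := classInner_irr_self (oneIrr U₁)
    exact fun h => one_ne_zero (this.symm.trans h)
  have o2 : classInner (fun n : U₂ => (oneIrr G : G → ℂ) n) (oneIrr U₂ : U₂ → ℂ) ≠ 0 := by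
    have := classInner_irr_self (oneIrr U₂)
    exact fun h => one_ne_zero (this.symm.trans h)
  rw [mem_iff_lam_eB hV, linear_eq_of_classSum (lam M (χ : G → ℂ)) (lam M (oneIrr G : G → ℂ))
    (isCentral_eB _), lam_eB_of_mem hV (oneIrr_mem_principalBlock hM)]
  · exact one_ne_zero
  intro g hg
  have hg := regular_of_coeff_eB hM hV hg
  obtain ⟨u, hu, v, hv, e⟩ := decomp hcomm hgen g
  have hu1 : pp p u ∈ U₁ := pPart_mem hp (isPPart_pp hp u) hu
  have hu2 : pr p u ∈ U₁ := by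
    have : pr p u = (pp p u)⁻¹ * u := by rw [eq_inv_mul_iff_mul_eq, pp_mul_pr]
    exact this ▸ mul_mem (inv_mem hu1) hu
  have hv1 : pp p v ∈ U₂ := pPart_mem hp (isPPart_pp hp v) hv
  have hv2 : pr p v ∈ U₂ := by
    have : pr p v = (pp p v)⁻¹ * v := by rw [eq_inv_mul_iff_mul_eq, pp_mul_pr]
    exact this ▸ mul_mem (inv_mem hv1) hv
  have c1 : Commute (pp p u) (pp p v) := hcomm _ hu1 _ hv1
  have c2 : Commute (pr p u) (pr p v) := hcomm _ hu2 _ hv2
  have c3 : Commute (pp p u) (pr p v) := hcomm _ hu1 _ hv2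
  have c4 : Commute (pr p u) (pp p v) := hcomm _ hu2 _ hv1
  have e2 : g = pr p u * pr p v := by
    have o3 : ∃ k, orderOf (pp p u * pp p v) = p ^ k := by
      obtain ⟨a, ha⟩ := pp_order hp u
      obtain ⟨b, hb⟩ := pp_order hp v
      have := c1.orderOf_mul_dvd_mul_orderOf
      rw [ha, hb, ← pow_add] at this
      obtain ⟨k, -, hk⟩ := (Nat.dvd_prime_pow hp).1 this
      exact ⟨k, hk⟩
    have o4 : ¬ p ∣ orderOf (pr p u * pr p v) := fun h =>
      ((Nat.Prime.dvd_mul hp).1 (h.trans c2.orderOf_mul_dvd_mul_orderOf)).elim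
        (pr_regular hp u) (pr_regular hp v)
    have := pr_mul hp o3 o4 (((commute_pp_pr hp u).mul_right c3).mul_left
      (c4.symm.mul_right (commute_pp_pr hp v)))
    rw [← this, ← pr_of_regular hp hg, e]
    congr 1
    rw [mul_assoc, ← mul_assoc (pp p v), ← c4.eq, mul_assoc, ← mul_assoc, pp_mul_pr, pp_mul_pr]
  rw [e2, ← classSum_mul hp hcomm hgen hZ hu2 hv2 (pr_regular hp u),
    lam_mul _ (isCentral_classSum _) (isCentral_classSum _),
    lam_mul _ (isCentral_classSum _) (isCentral_classSum _),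
    lam_incl h₁ ⟨_, hu2⟩ (incl_classSum hcomm hgen _),
    lam_incl h₂ ⟨_, hv2⟩ (incl_classSum hcomm' hgen' _),
    lam_incl o1 ⟨_, hu2⟩ (incl_classSum hcomm hgen _),
    lam_incl o2 ⟨_, hv2⟩ (incl_classSum hcomm' hgen' _),
    lam_eq_of_mem hM isPBlock_principalBlock k1 (oneIrr_mem_principalBlock hM),
    lam_eq_of_mem hM isPBlock_principalBlock k2 (oneIrr_mem_principalBlock hM)]

end Cfsg.Agent.S4521
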