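import Mathlib
import Cfsg.Statements.S4541
import Cfsg.Agent.Block.QF3

set_option autoImplicit false
open Cfsg

namespace Cfsg.Agent.S4541

open Cfsg.Agent.Block Cfsg.Agent.Char Subgroup

/-- Let B be a 2-block of the finite group G (relative to a maximal ideal M of the algebraic integers containing 2), u a 2-element, and b a block of the centralizer of u inducing B (a subsection (u, b)), of defect q and 2-regular rank l; write s for the integer square root of l and k₀(B) for the number of members of B of height zero. If s is odd then k₀(B) ≤ s·2 ^ q, and otherwise (s + 1)·k₀(B) ≤ l·2 ^ q; in particular k₀(B) ≤ 2 ^ q when l ≤ 3. -/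
theorem result {G : Type*} [Group G] [Finite G] (M : Ideal Cfsg.AlgInt) (hM : Cfsg.IsPModular 2 M) (B : Set (Cfsg.IrrCharacter G)) (hB : Cfsg.IsPBlock M B) (u : G) (hu : ∃ j : ℕ, orderOf u = 2 ^ j) (b : Set (Cfsg.IrrCharacter ↥(Subgroup.centralizer ({u} : Set G)))) (hb : Cfsg.IsInducedBlock M (Subgroup.centralizer ({u} : Set G)) b B) : (Odd (Nat.sqrt (Cfsg.blockRank 2 b)) → Nat.card {χ : Cfsg.IrrCharacter G // χ ∈ B ∧ Cfsg.blockHeight 2 B (χ : G → ℂ) = 0} ≤ Nat.sqrt (Cfsg.blockRank 2 b) * 2 ^ Cfsg.blockDefect 2 b) ∧ (¬ Odd (Nat.sqrt (Cfsg.blockRank 2 b)) → (Nat.sqrt (Cfsg.blockRank 2 b) + 1) * Nat.card {χ : Cfsg.IrrCharacter G // χ ∈ B ∧ Cfsg.blockHeight 2 B (χ : G → ℂ) = 0} ≤ Cfsg.blockRank 2 b * 2 ^ Cfsg.blockDefect 2 b) ∧ (Cfsg.blockRank 2 b ≤ 3 → Nat.card {χ : Cfsg.IrrCharacter G // χ ∈ B ∧ Cfsg.blockHeight 2 B (χ : G → ℂ) = 0} ≤ 2 ^ Cfsg.blockDefect 2 b) := by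
  obtain ⟨σ, -, h1, h2, h3, h4⟩ := exists_subs_of_induced hM hu hb
  obtain ⟨m, hm, h5, h6⟩ := exists_odd_min hM h1 h2
  rw [h3] at h5 h6
  rw [h4] at h6
  generalize Nat.card {χ : IrrCharacter G // χ ∈ B ∧ blockHeight 2 B (χ : G → ℂ) = 0} = k at h5 h6 ⊢
  generalize 2 ^ blockDefect 2 b = q at h5 h6 ⊢
  have h7 := Nat.sqrt_le (blockRank 2 b)
  have h8 := Nat.lt_succ_sqrt (blockRank 2 b)
  generalize Nat.sqrt (blockRank 2 b) = s at h7 h8 ⊢
  generalize blockRank 2 b = l at h6 h7 h8 ⊢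
  refine ⟨fun hs => ?_, fun hs => ?_, fun hl => ?_⟩
  · rcases le_or_gt m s with h | h
    · nlinarith
    · have : s + 2 ≤ m := by obtain ⟨t, ht⟩ := hs; omega
      have h9 : k * (s + 2) ≤ s * q * (s + 2) :=
        ((Nat.mul_le_mul_left k this).trans h6).trans
          ((Nat.mul_le_mul_left q (show l ≤ s * (s + 2) by rw [Nat.succ_eq_add_one] at h8; nlinarith)).trans_eq (by ring))
      exact Nat.le_of_mul_le_mul_right h9 (by omega)
  · rcases le_or_gt m s with h | h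
    · obtain ⟨t, rfl⟩ : ∃ t, s = m + t + 1 :=
        ⟨s - m - 1, by rw [Nat.not_odd_iff_even, even_iff_two_dvd] at hs; omega⟩
      calc (m + t + 1 + 1) * k ≤ (m + t + 1 + 1) * (q * m) := Nat.mul_le_mul_left _ h5
        _ = ((m + t + 1 + 1) * m) * q := by ring
        _ ≤ l * q := Nat.mul_le_mul_right _ (le_trans (by nlinarith) h7)
    · nlinarith
  · rcases le_or_gt m 1 with h | h
    · nlinarith
    · have : 3 ≤ m := by omega
      nlinarith

end Cfsg.Agent.S4541
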