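import Mathlib
import Cfsg.Statements.S4550
import Cfsg.Agent.Block.PIdx
import Cfsg.Agent.Char.Galois

set_option autoImplicit false
open Cfsg

namespace Cfsg.Agent.S4550

open Cfsg.Agent.Block Cfsg.Agent.Char Subgroup
open scoped ComplexConjugate

theorem even_odd_deg {G : Type*} [Group G] [Finite G] {M : Ideal AlgInt} (hM : IsPModular 2 M)
    (hev : Even (Nat.card G)) {B : Set (IrrCharacter G)} (hB : IsPBlock M B) :
    Even (Nat.card {χ : IrrCharacter G // χ ∈ B ∧ Odd (charDegree (χ : G → ℂ))}) := by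
  classical
  have h1 : ((∑ χ : IrrCharacter G with χ ∈ B, charDegree (χ : G → ℂ) ^ 2 : ℕ) : ℂ) =
      Nat.card G * blockCoeff B 1 := by
    rw [blockCoeff_eq_sum, mul_inv_cancel_left₀ (by exact_mod_cast Nat.card_pos.ne')]
    push_cast
    exact Finset.sum_congr rfl fun χ _ => by rw [← irr_degree_cast, map_natCast, sq]
  have h2 : 2 ∣ ∑ χ : IrrCharacter G with χ ∈ B, charDegree (χ : G → ℂ) ^ 2 := by
    rw [← val_natCast_lt_one_iff hM, h1, map_mul]
    exact mul_lt_one_of_lt_of_le ((val_natCast_lt_one_iff hM _).2 hev.two_dvd)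
      (mem_V_iff.1 (blockCoeff_mem_V hM hB 1))
  rw [← even_iff_two_dvd, Finset.even_sum_iff_even_card_odd] at h2
  rw [Nat.card_eq_fintype_card, Fintype.card_subtype]
  convert h2 using 2
  ext χ
  simp [Nat.odd_pow_iff]

/-- Let G be a finite group of even order and M a maximal ideal of the algebraic integers containing 2. Let k be a natural number with g ^ k = g ^ 3 for every 2-element g and g ^ k = g for every element g of odd order (such k exist); an irreducible character χ is unchanged by g ↦ g ^ k exactly when it is fixed by the field automorphism that cubes the 2-power roots of unity and fixes the roots of unity of odd order. Then the number of members χ of the principal 2-block of odd degree with χ (g ^ k) = χ g for all g is even. -/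
theorem result {G : Type*} [Group G] [Finite G] (M : Ideal Cfsg.AlgInt) (hM : Cfsg.IsPModular 2 M) (hev : Even (Nat.card G)) (k : ℕ) (hk₁ : ∀ g : G, (∃ j : ℕ, orderOf g = 2 ^ j) → g ^ k = g ^ 3) (hk₂ : ∀ g : G, Odd (orderOf g) → g ^ k = g) : Even (Nat.card {χ : Cfsg.IrrCharacter G // χ ∈ Cfsg.principalBlock M G ∧ Odd (Cfsg.charDegree (χ : G → ℂ)) ∧ ∀ g : G, (χ : G → ℂ) (g ^ k) = (χ : G → ℂ) g}) := by
  classical
  have hk : k.Coprime (Nat.card G) := by
    rw [Nat.coprime_comm, Nat.Coprime, Nat.eq_one_iff_not_exists_prime_dvd]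
    intro q hq hd
    have : Fact q.Prime := ⟨hq⟩
    obtain ⟨g, hg⟩ := exists_prime_orderOf_dvd_card' q (hd.trans (Nat.gcd_dvd_left _ _))
    have h1 : g ^ k = 1 := orderOf_dvd_iff_pow_eq_one.1 (hg ▸ hd.trans (Nat.gcd_dvd_right _ _))
    rcases hq.eq_two_or_odd' with rfl | ho
    · rw [hk₁ g ⟨1, by simpa using hg⟩, ← orderOf_dvd_iff_pow_eq_one, hg] at h1
      omega
    · rw [hk₂ g (hg ▸ ho)] at h1
      rw [h1, orderOf_one] at hg
      exact hq.one_lt.ne hg
  have hk2 : k.Coprime 2 := hk.coprime_dvd_right hev.two_dvd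
  have hpow : ∀ g : G, g ^ k ^ 2 ^ Nat.card G = g := fun g => by
    obtain ⟨x, hx⟩ := exists_isPPart Nat.prime_two g
    obtain ⟨j, hj⟩ := pPart_orderOf hx
    have hy : ∀ n, (x⁻¹ * g) ^ k ^ n = x⁻¹ * g := fun n => by
      induction n with
      | zero => simp
      | succ n ih =>
        rw [pow_succ, pow_mul, ih]
        exact hk₂ _ (Nat.not_even_iff_odd.1 fun h => pPart_regular hx h.two_dvd)
    have hx2 : x ^ k ^ 2 ^ Nat.card G = x := by
      have h1 : j ≤ Nat.card G := (Nat.lt_pow_self Nat.one_lt_two).le.trans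
        (hj ▸ Nat.le_of_dvd Nat.card_pos (orderOf_dvd_natCard x))
      have h2 : (2 ^ j).totient ∣ 2 ^ Nat.card G := by
        rcases j.eq_zero_or_pos with rfl | h0
        · simp
        · rw [Nat.totient_prime_pow Nat.prime_two h0]
          simpa using pow_dvd_pow 2 (by omega)
      obtain ⟨c, hc⟩ := h2
      have h3 := (Nat.ModEq.pow_totient (hk2.pow_right j)).pow c
      rw [← pow_mul, ← hc, one_pow, ← hj] at h3
      rw [pow_eq_pow_iff_modEq.2 h3, pow_one]
    have hc : Commute x (x⁻¹ * g) := (Commute.refl x).inv_right.mul_right (pPart_commute hx)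
    calc _ = (x * (x⁻¹ * g)) ^ k ^ 2 ^ Nat.card G := by rw [mul_inv_cancel_left]
      _ = _ := by rw [hc.mul_pow, hx2, hy, mul_inv_cancel_left]
  let S := {χ : IrrCharacter G // χ ∈ principalBlock M G ∧ Odd (charDegree (χ : G → ℂ))}
  let T : Function.End S := fun χ => ⟨⟨fun g => (χ.1 : G → ℂ) (g ^ k),
    Galois.isIrr_pow_arg χ.1.2 hk⟩, block_mem_of_sameBlock hM isPBlock_principalBlock χ.2.1
      (sameBlock_of_eq_regular hM fun g hg => by
        simp only [hk₂ g (Nat.not_even_iff_odd.1 fun h => hg h.two_dvd)]),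
      by simpa only [charDegree, one_pow] using χ.2.2⟩
  have hT : ∀ (n : ℕ) (χ : S) (g : G), (((T ^ n) χ).1 : G → ℂ) g = (χ.1 : G → ℂ) (g ^ k ^ n) := by
    intro n
    induction n with
    | zero => intro χ g; simp only [pow_zero, pow_one]; rfl
    | succ n ih =>
      intro χ g
      rw [pow_succ', pow_succ', pow_mul, ← ih]
      rfl
  have h1 : T ^ 2 ^ Nat.card G = 1 := by
    funext χ
    refine Subtype.ext (Subtype.ext (funext fun g => ?_))
    rw [hT, hpow]
    rfl
  have h2 := Equiv.Perm.card_fixedPoints_modEq h1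
  have h3 := even_odd_deg hM hev isPBlock_principalBlock
  rw [← Nat.card_eq_fintype_card, ← Nat.card_eq_fintype_card] at h2
  have h4 : Nat.card T.fixedPoints = Nat.card {χ : IrrCharacter G // χ ∈ principalBlock M G ∧
      Odd (charDegree (χ : G → ℂ)) ∧ ∀ g : G, (χ : G → ℂ) (g ^ k) = (χ : G → ℂ) g} :=
    Nat.card_congr
      { toFun := fun χ => ⟨χ.1.1, χ.1.2.1, χ.1.2.2, fun g =>
          congrFun (congrArg (fun ψ : S => (ψ.1 : G → ℂ)) χ.2) g⟩
        invFun := fun χ => ⟨⟨χ.1, χ.2.1, χ.2.2.1⟩, Subtype.ext (Subtype.ext (funext χ.2.2.2))⟩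
        left_inv := fun _ => rfl
        right_inv := fun _ => rfl }
  rw [← h4, even_iff_two_dvd, ← h2.dvd_iff dvd_rfl]
  exact h3.two_dvd

end Cfsg.Agent.S4550
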