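import Mathlib
import Cfsg.Statements.S4552
import Cfsg.Agent.Block.LocSys3

set_option autoImplicit false
open Cfsg

namespace Cfsg.Agent.S4552

open Cfsg.Agent.Block Cfsg.Agent.Char Subgroup

theorem card_le (n : ℕ) [NeZero n] : Nat.card {x : ZMod n // x + x = 0} ≤ 2 := by
  classical
  rw [Nat.subtype_card (Finset.univ.filter fun x : ZMod n => 2 • x = 0) (by simp [two_mul])]
  exact IsAddCyclic.card_nsmul_eq_zero_le two_pos

/-- Let B be a 2-block of the finite group G (relative to a maximal ideal M of the algebraic integers containing 2) whose defect group D is the direct product of two cyclic groups of the same order 2 ^ m, m ≥ 2. Then either B has 2-regular rank one and exactly 4 ^ m irreducible characters, or B has 2-regular rank three and exactly (4 ^ m + 8) / 3 irreducible characters. -/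
theorem result {G : Type*} [Group G] [Finite G] (M : Ideal Cfsg.AlgInt) (hM : Cfsg.IsPModular 2 M) (B : Set (Cfsg.IrrCharacter G)) (hB : Cfsg.IsPBlock M B) (D : Subgroup G) (hD : Cfsg.IsDefectGroup 2 M B D) (m : ℕ) (hm : 2 ≤ m) (hiso : Nonempty (D ≃* Multiplicative (ZMod (2 ^ m) × ZMod (2 ^ m)))) : (Cfsg.blockRank 2 B = 1 ∧ Nat.card B = 4 ^ m) ∨ (Cfsg.blockRank 2 B = 3 ∧ 3 * Nat.card B = 4 ^ m + 8) := by
  obtain ⟨d, rfl, hd⟩ := exists_isMaxBP hM hB hD
  obtain ⟨f⟩ := hiso
  have h4 : Nat.card d.1 = 4 ^ m := by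
    rw [Nat.card_congr f.toEquiv]
    simp [← mul_pow]
  obtain ⟨h1, h2⟩ := hd.abFree_two hM ⟨⟨fun x y => f.injective (by
    rw [map_mul, map_mul, mul_comm])⟩⟩ (by
      refine (Nat.card_le_card_of_injective (fun x => ((⟨(f x.1).toAdd.1, congrArg
        (·.toAdd.1) ((map_mul f _ _).symm.trans ((congrArg f x.2).trans (map_one f)))⟩,
        ⟨(f x.1).toAdd.2, congrArg (·.toAdd.2) ((map_mul f _ _).symm.trans
          ((congrArg f x.2).trans (map_one f)))⟩) : {x : ZMod (2 ^ m) // x + x = 0} ×
          {x : ZMod (2 ^ m) // x + x = 0})) fun x y e => Subtype.ext (f.injective ?_)).trans ?_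
      · exact Prod.ext (congrArg (·.1.1) e) (congrArg (·.2.1) e)
      · rw [Nat.card_prod]
        exact Nat.mul_le_mul (card_le _) (card_le _))
  have h3 := h1.rank_eq hM hd (fun e => by
    rw [e, card_bot] at h4
    exact (Nat.one_lt_pow (by omega) (by omega)).ne h4) (by omega)
  have h5 := h1.card_eq hM hd
  rw [h3, h4] at h5
  rw [h3]
  rcases h2 with h | h <;> rw [h] at h5 ⊢ <;> omega

end Cfsg.Agent.S4552
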