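import Mathlib
import Cfsg.Statements.S4553
import Cfsg.Agent.Block.Cover
import Cfsg.Agent.Block.PPart
import Cfsg.Agent.Isaacs.GalFix
import Cfsg.Agent.Isaacs.Deg
import Cfsg.Agent.Isaacs.Canon
import Cfsg.Agent.Transfer.Residual
-- import your own Cfsg.Agent.* helpers here

set_option autoImplicit false
open Cfsg

namespace Cfsg.Agent.S4553

open Cfsg.Agent.Char Cfsg.Agent.Isaacs Subgroup

theorem card_mul {α β : Type*} [Finite α] [Finite β] (X : α → Prop) (Y : β → Prop) (R : α → β → Prop) {p : ℕ}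
    (h1 : ∀ a, X a → ∃ b, Y b ∧ ∀ c, R a c ↔ c = b) (h2 : ∀ b, Y b → Nat.card {a // X a ∧ R a b} = p) :
    Nat.card {a // X a} = p * Nat.card {b // Y b} := by
  classical
  have := Fintype.ofFinite α
  have := Fintype.ofFinite β
  rw [Nat.subtype_card (Finset.univ.filter X) (by simp), Nat.subtype_card (Finset.univ.filter Y) (by simp),
    mul_comm, ← Finset.card_mul_eq_card_mul R (m := 1) (fun a ha => ?_) fun b hb => ?_, mul_one]
  · obtain ⟨b, hb, e⟩ := h1 a (by simpa using ha)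
    refine Finset.card_eq_one.2 ⟨b, ?_⟩
    ext c
    simp only [Finset.mem_bipartiteAbove, Finset.mem_filter, Finset.mem_univ, true_and, e, Finset.mem_singleton]
    exact ⟨fun h => h.2, fun h => ⟨h ▸ hb, h⟩⟩
  · rw [← h2 b (by simpa using hb)]
    exact (Nat.subtype_card _ (by simp)).symm

variable {G : Type*} [Group G] [Finite G] {p k : ℕ} [hp : Fact p.Prime] {N : Subgroup G} [hN : N.Normal]

theorem cop (hk₁ : ∀ g : G, (∃ j : ℕ, orderOf g = p ^ j) → g ^ k = g ^ (1 + p))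
    (hk₂ : ∀ g : G, Nat.Coprime (orderOf g) p → g ^ k = g) : k.Coprime (Nat.card G) := by
  refine Nat.coprime_of_dvd fun q hq h1 h2 => ?_
  have := Fact.mk hq
  obtain ⟨g, hg⟩ := exists_prime_orderOf_dvd_card' q h2
  have e : g ^ k = g := by
    by_cases h : q = p
    · subst h
      rw [hk₁ g ⟨1, by rw [hg, pow_one]⟩, pow_add, pow_one, ← hg, pow_orderOf_eq_one, mul_one]
    · exact hk₂ g (hg ▸ (Nat.coprime_primes hq hp.out).2 h)
  rw [orderOf_dvd_iff_pow_eq_one.1 (hg ▸ h1)] at e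
  rw [← e, orderOf_one] at hg
  exact hq.one_lt.ne hg

theorem card_fix (hN' : N = pResidual p G) (hcyc : IsCyclic (G ⧸ N)) (hnt : N ≠ ⊤)
    (hk₁ : ∀ g : G, (∃ j : ℕ, orderOf g = p ^ j) → g ^ k = g ^ (1 + p)) :
    Nat.card {β : IrrCharacter G // Ker N β.1 ∧ ∀ g, β.1 (g ^ k) = β.1 g} = p := by
  letI : CommGroup (G ⧸ N) := IsCyclic.commGroup
  have hq : ∀ g : G, ((g ^ k : G) : G ⧸ N) = (g ^ (1 + p) : G) := fun g => by
    obtain ⟨x, y, rfl, -, hx, hy⟩ := Block.exists_isPPart hp.out g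
    have : (y : G ⧸ N) = 1 := (QuotientGroup.eq_one_iff y).2 (by
      rw [hN']; exact Transfer.mem_pResidual_of_coprime ((Nat.coprime_comm.1 (hp.out.coprime_iff_not_dvd.2 hy))))
    rw [QuotientGroup.mk_pow, QuotientGroup.mk_pow, QuotientGroup.mk_mul, this, mul_one, ← QuotientGroup.mk_pow,
      hk₁ x hx, QuotientGroup.mk_pow]
  let R := (powMonoidHom p : G ⧸ N →* G ⧸ N).range
  let f : G →* (G ⧸ N) ⧸ R := (QuotientGroup.mk' R).comp (QuotientGroup.mk' N)
  have hf : Function.Surjective f := (QuotientGroup.mk'_surjective R).comp (QuotientGroup.mk'_surjective N)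
  have hm : ∀ z, z ∈ f.ker ↔ ∃ g : G, ((g ^ p : G) : G ⧸ N) = z := fun z => by
    rw [MonoidHom.mem_ker]
    change (((z : G ⧸ N) : (G ⧸ N) ⧸ R)) = 1 ↔ _
    rw [QuotientGroup.eq_one_iff]
    constructor
    · rintro ⟨a, ha⟩
      obtain ⟨g, rfl⟩ := QuotientGroup.mk_surjective a
      exact ⟨g, ha⟩
    · rintro ⟨g, hg⟩
      exact ⟨g, hg⟩
  have hc : Nat.card ((G ⧸ N) ⧸ R) = p := by
    change R.index = p
    rw [IsCyclic.index_powMonoidHom_range]
    refine Nat.gcd_eq_right ?_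
    obtain ⟨j, hj⟩ := Transfer.exists_index_pResidual_eq_pow (p := p) (G := G)
    rw [← hN'] at hj
    change p ∣ N.index
    rw [hj]
    refine dvd_pow_self p ?_
    rintro rfl
    exact hnt (index_eq_one.1 hj)
  refine Eq.trans ?_ hc
  rw [← card_irr_of_comm (G := (G ⧸ N) ⧸ R), Nat.card_congr (irrEquivOfSurjective f hf)]
  refine Nat.card_congr (Equiv.subtypeEquivRight fun β => ?_)
  have hβ := isIrr_isChar β.2
  have hco : ∀ {a b : G}, N ≤ charKer β.1 → (a : G ⧸ N) = b → β.1 a = β.1 b := fun {a b} h e => by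
    have := mem_charKer.1 (h (QuotientGroup.eq_iff_div_mem.1 e)) b
    rw [← this, div_mul_cancel]
  rw [← ker_iff hβ]
  constructor
  · rintro ⟨h1, h2⟩ z hz
    obtain ⟨g, hg⟩ := (hm z).1 hz
    have l : β.1 1 = 1 := (isIrr_degree_one_iff β.2).2
      ((Normal.quotient_commutative_iff_commutator_le.1 inferInstance).trans h1)
    have m := (chr_top.2 hβ).map_mul l (mem_top g) (mem_top (g ^ p))
    rw [← pow_succ', add_comm, ← hco h1 (hq g), h2] at m
    rw [mem_charKer_iff hβ, ← hco h1 hg, l]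
    exact (mul_eq_left₀ ((chr_top.2 hβ).ne_zero l (mem_top g))).1 m.symm
  · intro h
    have h1 : N ≤ charKer β.1 := fun z hz => h ((hm z).2 ⟨1, by
      rw [one_pow, QuotientGroup.mk_one, eq_comm, QuotientGroup.eq_one_iff]; exact hz⟩)
    refine ⟨h1, fun g => ?_⟩
    rw [hco h1 (hq g), add_comm, pow_succ]
    exact mem_charKer.1 (h ((hm _).2 ⟨g, rfl⟩)) g

/-- Let G be a finite group, p a prime, P a Sylow p-subgroup, N the p-residual of G (the subgroup generated by the elements of order prime to p, the smallest normal subgroup with G/N a p-group), and M a maximal ideal of the algebraic integers containing p; suppose G/N is cyclic and nontrivial. Let k be a natural number with g ^ k = g ^ (1 + p) for every p-element g and g ^ k = g for every element g of order prime to p (so that χ (g ^ k) is the image of χ g under the field automorphism that raises p-power roots of unity to the power 1 + p and fixes the roots of unity of order prime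 to p). Then the number of members χ of the principal block of G of degree prime to p with χ (g ^ k) = χ g for all g equals p times the number of members θ of the principal block of N of degree prime to p that are invariant under conjugation by P and satisfy θ (n ^ k) = θ n for all n. -/
theorem result {G : Type*} [Group G] [Finite G] (p : ℕ) [Fact p.Prime] (M : Ideal Cfsg.AlgInt) (hM : Cfsg.IsPModular p M) (P : Sylow p G) (N : Subgroup G) [hN : N.Normal] (hNres : N = Cfsg.pResidual p G) (hcyc : IsCyclic (G ⧸ N)) (hnt : N ≠ ⊤) (k : ℕ) (hk₁ : ∀ g : G, (∃ j : ℕ, orderOf g = p ^ j) → g ^ k = g ^ (1 + p)) (hk₂ : ∀ g : G, Nat.Coprime (orderOf g) p → g ^ k = g) : Nat.card {χ : Cfsg.IrrCharacter G // χ ∈ Cfsg.principalBlock M G ∧ ¬ p ∣ Cfsg.charDegree (χ : G → ℂ) ∧ ∀ g : G, (χ : G → ℂ) (g ^ k) = (χ : G → ℂ) g} = p * Nat.card {θ : Cfsg.IrrCharacter ↥N // θ ∈ Cfsg.principalBlock M ↥N ∧ ¬ p ∣ Cfsg.charDegree (θ : ↥N → ℂ) ∧ (∀ x ∈ (P : Subgroup G),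 ∀ n : ↥N, (θ : ↥N → ℂ) ⟨x * n * x⁻¹, hN.conj_mem n n.2 x⟩ = (θ : ↥N → ℂ) n) ∧ ∀ n : ↥N, (θ : ↥N → ℂ) (n ^ k) = (θ : ↥N → ℂ) n} := by
  classical
  have hp : Fact p.Prime := inferInstance
  have := Fintype.ofFinite N
  have hk := cop hk₁ hk₂
  obtain ⟨j, hj⟩ := Transfer.exists_index_pResidual_eq_pow (p := p) (G := G)
  have hsup := Transfer.pResidual_sup_sylow P
  rw [← hNres] at hj hsup
  have hn : (⊤ : Subgroup G) ≤ normalizer (N : Set G) := by rw [normalizer_eq_top]
  have hcp : ∀ {d : ℕ}, ¬ p ∣ d → (N.relIndex ⊤).Coprime d := fun h => by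
    rw [relIndex_top_right, hj]; exact (hp.out.coprime_iff_not_dvd.2 h).pow_left _
  refine card_mul _ _ (fun χ θ => (fun n : N => χ.1 n) = θ.1) (fun χ ⟨h1, h2, h3⟩ => ?_) fun θ ⟨h1, h2, h3, h4⟩ => ?_
  · have hr : Irr N χ.1 := (irr_top.2 χ.2).res_of_coprime hn le_top (Block.irr_degree_cast χ).symm (hcp h2).symm
    refine ⟨⟨_, hr⟩, ⟨Block.mem_principal_of_under hM h1 ?_, h2, fun x _ n => ?_, fun n => h3 n⟩, fun c => ?_⟩
    · rw [← inn_eq]; exact hr.inn_self_ne
    · exact irr_classFun χ n x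
    · exact ⟨fun h => Subtype.ext h.symm, fun h => by rw [h]⟩
  have hθ : Irr N (ez N θ.1) := irr_ez.2 θ.2
  have hi : Inv ⊤ N (ez N θ.1) := by
    rw [← le_stab hn, ← hsup]
    refine sup_le hθ.inv.le_stab ((le_stab (le_top.trans hn)).2 fun a ha x hx => ?_)
    rw [ez_mem _ (hN.conj_mem x hx a), ez_mem _ hx]
    exact h3 a ha ⟨x, hx⟩
  have hd : ¬ p ∣ dord N (ez N θ.1) := by
    rw [dord_ez]
    refine not_dvd_detOrder hp.out ?_ (isIrr_isChar θ.2)
    subst hNres
    exact Transfer.pResidual_pResidual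
  obtain ⟨χ, hχ, e, e1, e2⟩ := hθ.exists_canon' hn le_top hi ((ez_one _).trans (Block.irr_degree_cast θ).symm)
    (hcp (hp.out.not_dvd_mul hd h2))
  have hχN : Irr N χ := hθ.congr e.symm
  have hf : Eqv ⊤ (pw k χ) χ := by
    obtain ⟨σ, hσ⟩ := exists_aut_pw (G := G) hk
    refine e2 _ (hχ.chr.pw hk) (e.pw.trans fun x hx => ?_) ?_
    · rw [pw, ez_mem _ (pow_mem hx k), ez_mem _ hx]
      exact h4 ⟨x, hx⟩
    · rw [← dord_congr (hσ hχ.gen), hχ.chr.dord_map, e1]
      exact hcp hd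
  have hab : ⁅(⊤ : Subgroup G), ⊤⁆ ≤ N := by
    letI : CommGroup (G ⧸ N) := IsCyclic.commGroup
    exact Normal.quotient_commutative_iff_commutator_le.1 inferInstance
  refine Eq.trans (Eq.symm ?_) (card_fix hNres hcyc hnt hk₁)
  have res : ∀ β : IrrCharacter G, Ker N β.1 → (fun n : N => (β.1 * χ) n) = θ.1 := fun β h => by
    ext n
    rw [Pi.mul_apply, h n n.2, (irr_top.2 β.2).one_of_ker (h.mono hab), one_mul, e n n.2, ez_coe]
  refine Nat.card_congr (Equiv.ofBijective (fun β => ⟨⟨β.1.1 * χ, irr_top.1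
    ((irr_top.2 β.1.2).mul_of_ker hn le_top β.2.1 hχ.chr hχN)⟩, ⟨?_, ?_, fun g => ?_⟩, res _ β.2.1⟩) ⟨?_, ?_⟩)
  · set ψ : IrrCharacter G := ⟨β.1.1 * χ, irr_top.1 ((irr_top.2 β.1.2).mul_of_ker hn le_top β.2.1 hχ.chr hχN)⟩
    have := Block.Covers.unique_of_index hM ⟨j, hj⟩ (B := blockOf M ψ.1) ⟨ψ, rfl⟩ Block.isPBlock_principalBlock
      Block.isPBlock_principalBlock ⟨ψ, Block.self_mem_blockOf hM ψ, θ, h1, by
        rw [show (fun n : N => ψ.1 n) = θ.1 from res _ β.2.1, ← inn_ez]; exact hθ.inn_self_ne⟩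
      (Block.covers_principal hM)
    rw [← this]
    exact Block.self_mem_blockOf hM ψ
  · have := congrFun (res _ β.2.1) 1
    rwa [Block.charDegree_of_eq (this.trans (Block.irr_degree_cast θ).symm)]
  · exact congrArg₂ (· * ·) (β.2.2 g) (hf g trivial)
  · intro β γ h
    exact Subtype.ext (Subtype.ext (eqv_top.1 ((irr_top.2 β.1.2).eqv_of_mul hn le_top β.2.1 (irr_top.2 γ.1.2) γ.2.1
      hχ.chr hχN (eqv_top.2 (congrArg (fun x => x.1.1) h)))))
  · rintro ⟨ψ, ⟨-, -, a3⟩, a4⟩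
    obtain ⟨β, hβ, b1, b2, b3⟩ := (irr_top.2 ψ.2).chr.exists_lin hn le_top hχ.chr hχN
      (Eqv.trans (fun x hx => (congrFun a4 ⟨x, hx⟩).trans (ez_mem _ hx).symm) e.symm)
    refine ⟨⟨⟨β, irr_top.1 hβ⟩, b2, fun g => ?_⟩, Subtype.ext (Subtype.ext (eqv_top.1 b3).symm)⟩
    have b4 : Ker N (pw k β) := fun x hx => by
      rw [pw, pw, one_pow]; exact b2 _ (pow_mem hx k)
    refine (hβ.pw hk).eqv_of_mul hn le_top b4 hβ b2 hχ.chr hχN (fun x _ => ?_) g trivial
    rw [← b3 x trivial, ← a3, b3 _ trivial, Pi.mul_apply, Pi.mul_apply, ← hf x trivial]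
    rfl

end Cfsg.Agent.S4553
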