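import Mathlib
import Cfsg.Statements.S4561
import Cfsg.Agent.Isaacs.Wreath
import Cfsg.Agent.Char.Clifford
import Cfsg.Agent.Char.Kernel
import Cfsg.Agent.Block.Omega

set_option autoImplicit false
universe u
open Cfsg

namespace Cfsg.Agent.S4561

open Subgroup Cfsg.Agent.Char Cfsg.Agent.Char.Clifford

/-- A normalized nondegenerate cocycle. -/
structure Coc (A : Type) [CommGroup A] (K : Type u) [Group K] where
  a : K → K → A
  one_l : ∀ x, a 1 x = 1
  one_r : ∀ x, a x 1 = 1
  coc : ∀ x y z, a x y * a (x * y) z = a y z * a x (y * z)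
  nd : ∀ x, x ≠ 1 → ∃ c, x * c = c * x ∧ a x c ≠ a c x

/-- The group `(K ≀ C_p) × C_p`. -/
@[ext] structure Wr (p : ℕ) (K : Type u) where
  f : ZMod p → K
  i : ZMod p
  j : ZMod p

section
variable {p : ℕ} {K : Type u} [Group K]

instance : Mul (Wr p K) := ⟨fun x y => ⟨fun t => x.f t * y.f (t + x.i), x.i + y.i, x.j + y.j⟩⟩
instance : One (Wr p K) := ⟨⟨1, 0, 0⟩⟩
instance : Inv (Wr p K) := ⟨fun x => ⟨fun t => (x.f (t - x.i))⁻¹, -x.i, -x.j⟩⟩

@[simp] theorem Wr.mul_f (x y : Wr p K) (t : ZMod p) : (x * y).f t = x.f t * y.f (t + x.i) := rfl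
@[simp] theorem Wr.mul_i (x y : Wr p K) : (x * y).i = x.i + y.i := rfl
@[simp] theorem Wr.mul_j (x y : Wr p K) : (x * y).j = x.j + y.j := rfl
@[simp] theorem Wr.one_f (t : ZMod p) : (1 : Wr p K).f t = 1 := rfl
@[simp] theorem Wr.one_i : (1 : Wr p K).i = 0 := rfl
@[simp] theorem Wr.one_j : (1 : Wr p K).j = 0 := rfl
@[simp] theorem Wr.inv_f (x : Wr p K) (t : ZMod p) : (x⁻¹).f t = (x.f (t - x.i))⁻¹ := rfl
@[simp] theorem Wr.inv_i (x : Wr p K) : (x⁻¹).i = -x.i := rfl
@[simp] theorem Wr.inv_j (x : Wr p K) : (x⁻¹).j = -x.j := rfl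

instance : Group (Wr p K) := Group.ofLeftAxioms
  (fun x y z => by ext <;> simp [mul_assoc, add_assoc])
  (fun x => by ext <;> simp)
  (fun x => by ext <;> simp [sub_eq_add_neg])

/-- Coordinates. -/
def Wr.equiv (p : ℕ) (K : Type u) : Wr p K ≃ (ZMod p → K) × ZMod p × ZMod p where
  toFun x := (x.f, x.i, x.j)
  invFun x := ⟨x.1, x.2.1, x.2.2⟩
  left_inv _ := rfl
  right_inv _ := rfl

instance [NeZero p] [Finite K] : Finite (Wr p K) := Finite.of_equiv _ (Wr.equiv p K).symm

theorem Wr.card [NeZero p] [Finite K] : Nat.card (Wr p K) = Nat.card K ^ p * (p * p) := by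
  rw [Nat.card_congr (Wr.equiv p K), Nat.card_prod, Nat.card_prod, Nat.card_fun, Nat.card_zmod]

variable {A : Type} [CommGroup A]

/-- The cocycle on the wreath product. -/
noncomputable def Coc.wr [Fact p.Prime] (c : Coc A K) (ζ : ZMod p → A)
    (h1 : ∀ i j, ζ (i + j) = ζ i * ζ j) (h0 : ζ 0 = 1) (h2 : ∀ i, ζ i = 1 → i = 0) :
    Coc A (Wr p K) where
  a x y := (∏ t, c.a (x.f t) (y.f (t + x.i))) * ζ (x.i * y.j)
  one_l x := by simp [c.one_l, h0]
  one_r x := by simp [c.one_r, h0]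
  coc x y z := by
    have e : ∏ t, c.a (y.f t) (z.f (t + y.i)) = ∏ t, c.a (y.f (t + x.i)) (z.f (t + x.i + y.i)) :=
      (Equiv.prod_comp (Equiv.addRight x.i) fun t => c.a (y.f t) (z.f (t + y.i))).symm
    simp only [Wr.mul_f, Wr.mul_i, Wr.mul_j]
    rw [mul_mul_mul_comm, mul_mul_mul_comm _ (ζ _), ← h1, ← h1, e, ← Finset.prod_mul_distrib,
      ← Finset.prod_mul_distrib]
    congr 1
    · exact Finset.prod_congr rfl fun t _ => by rw [← add_assoc, c.coc]
    · congr 1; ring
  nd x hx := by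
    classical
    by_cases hi : x.i = 0
    · by_cases hf : x.f = 1
      · have hj : x.j ≠ 0 := fun hj => hx (Wr.ext hf hi hj)
        refine ⟨⟨1, 1, 0⟩, by ext <;> simp [hf, hi], ?_⟩
        simp only [hf, hi, Pi.one_apply, c.one_l, Finset.prod_const_one, zero_mul, one_mul, h0]
        exact fun h => hj (h2 _ h.symm)
      · obtain ⟨t, ht⟩ := Function.ne_iff.1 hf
        obtain ⟨d, hd, hd'⟩ := c.nd _ ht
        refine ⟨⟨Pi.mulSingle t d, 0, 0⟩, ?_, ?_⟩
        · ext s
          · by_cases hs : s = t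
            · subst hs; simp [hi, hd]
            · simp [hi, Pi.mulSingle_eq_of_ne hs]
          · simp
          · simp
        · simp only [hi, add_zero, zero_mul, h0, mul_one]
          rw [Finset.prod_eq_single t, Finset.prod_eq_single t]
          · simpa using hd'
          · intro s _ hs; rw [Pi.mulSingle_eq_of_ne hs, c.one_l]
          · simp
          · intro s _ hs; rw [Pi.mulSingle_eq_of_ne hs, c.one_r]
          · simp
    · refine ⟨⟨1, 0, 1⟩, by ext <;> simp [add_comm], ?_⟩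
      simp only [Pi.one_apply, c.one_l, c.one_r, Finset.prod_const_one, zero_mul, one_mul, mul_one, h0]
      exact fun h => hi (h2 _ h)

/-- The central extension given by a cocycle. -/
@[ext] structure Tw (c : Coc A K) where
  a : A
  k : K

variable {c : Coc A K}

instance : Mul (Tw c) := ⟨fun x y => ⟨x.a * y.a * c.a x.k y.k, x.k * y.k⟩⟩
instance : One (Tw c) := ⟨⟨1, 1⟩⟩
instance : Inv (Tw c) := ⟨fun x => ⟨x.a⁻¹ * (c.a x.k⁻¹ x.k)⁻¹, x.k⁻¹⟩⟩

@[simp] theorem Tw.mul_a (x y : Tw c) : (x * y).a = x.a * y.a * c.a x.k y.k := rfl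
@[simp] theorem Tw.mul_k (x y : Tw c) : (x * y).k = x.k * y.k := rfl
@[simp] theorem Tw.one_a : (1 : Tw c).a = 1 := rfl
@[simp] theorem Tw.one_k : (1 : Tw c).k = 1 := rfl
@[simp] theorem Tw.inv_a (x : Tw c) : (x⁻¹).a = x.a⁻¹ * (c.a x.k⁻¹ x.k)⁻¹ := rfl
@[simp] theorem Tw.inv_k (x : Tw c) : (x⁻¹).k = x.k⁻¹ := rfl

instance : Group (Tw c) := Group.ofLeftAxioms
  (fun x y z => by
    ext
    · simp only [Tw.mul_a, Tw.mul_k]
      calc _ = x.a * y.a * z.a * (c.a x.k y.k * c.a (x.k * y.k) z.k) := by ac_rfl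
        _ = _ := by rw [c.coc]; ac_rfl
    · simp [mul_assoc])
  (fun x => by ext <;> simp [c.one_l])
  (fun x => by
    ext
    · simp only [Tw.mul_a, Tw.inv_a, Tw.inv_k, Tw.one_a]
      rw [mul_right_comm x.a⁻¹, inv_mul_cancel, one_mul, inv_mul_cancel]
    · simp)

/-- Coordinates. -/
def Tw.equiv (c : Coc A K) : Tw c ≃ A × K where
  toFun x := (x.a, x.k)
  invFun x := ⟨x.1, x.2⟩
  left_inv _ := rfl
  right_inv _ := rfl

instance [Finite A] [Finite K] : Finite (Tw c) := Finite.of_equiv _ (Tw.equiv c).symm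

/-- Projection. -/
def Tw.pr (c : Coc A K) : Tw c →* K := MonoidHom.mk' (fun x => x.k) fun _ _ => rfl

theorem Tw.conj {x : Tw c} (hx : x.k ≠ 1) : ∃ y z : Tw c, z.k = 1 ∧ z.a ≠ 1 ∧ y * x = z * (x * y) := by
  obtain ⟨d, hd, hd'⟩ := c.nd _ hx
  refine ⟨⟨1, d⟩, ⟨c.a d x.k * (c.a x.k d)⁻¹, 1⟩, rfl, fun h => hd' (mul_inv_eq_one.1 h).symm, ?_⟩
  ext
  · simp [c.one_l, mul_comm, mul_left_comm]
  · simp [hd]

theorem Tw.mem_center {x : Tw c} : x ∈ center (Tw c) ↔ x.k = 1 := by
  constructor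
  · intro h
    by_contra hx
    obtain ⟨y, z, -, h2, h3⟩ := Tw.conj hx
    rw [mem_center_iff.1 h y, eq_comm, mul_eq_right] at h3
    exact h2 (by rw [h3]; rfl)
  · intro h
    rw [mem_center_iff]
    intro y
    ext
    · simp [h, c.one_l, c.one_r, mul_comm]
    · simp [h]

theorem Tw.card_center : Nat.card (center (Tw c)) = Nat.card A :=
  Nat.card_congr
    { toFun := fun x => x.1.a
      invFun := fun a => ⟨⟨a, 1⟩, Tw.mem_center.2 rfl⟩
      left_inv := fun x => Subtype.ext (Tw.ext rfl (Tw.mem_center.1 x.2).symm)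
      right_inv := fun _ => rfl }

theorem Tw.char [Finite A] [Finite K] (l : A →* ℂˣ) (hl : Function.Injective l) :
    ∃ χ : IrrCharacter (Tw c), (∀ h, (χ : Tw c → ℂ) h = (χ : Tw c → ℂ) 1 → h = 1) ∧
      charDegree (χ : Tw c → ℂ) ^ 2 = (center (Tw c)).index := by
  classical
  letI := Fintype.ofFinite (Tw c)
  let m : center (Tw c) →* ℂˣ := MonoidHom.mk' (fun x => l x.1.a) fun x y => by
    simp [Tw.mem_center.1 x.2, c.one_l]
  obtain ⟨χ, hχ, hne⟩ := exists_over (N := center (Tw c)) (isIrr_linear m)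
  obtain ⟨e, he, -, hr⟩ := exists_res_eq_smul_of_invariant hχ (isIrr_linear m)
    (inertia_eq_top.2 fun g n => by
      congr 2
      exact Subtype.ext (by
        show g * n * g⁻¹ = n
        rw [mem_center_iff.1 n.2 g, mul_inv_cancel_right])) hne
  have hz : ∀ z : Tw c, z.k = 1 → χ z = e * l z.a := fun z hz =>
    congrFun hr ⟨z, Tw.mem_center.2 hz⟩
  have h1 : χ 1 = e := by rw [hz 1 rfl]; simp
  have he' : (e : ℂ) ≠ 0 := Nat.cast_ne_zero.2 he.ne'
  have h0 : ∀ x : Tw c, x.k ≠ 1 → χ x = 0 := fun x hx => by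
    obtain ⟨y, z, h2, h3, h4⟩ := Tw.conj hx
    have h5 := mul_of_mem_charCenter (isIrr_isChar hχ)
      (center_le_charCenter hχ (Tw.mem_center.2 h2)) x
    have h6 : z * x = y * x * y⁻¹ := by rw [h4]; group
    rw [h6, isIrr_classFun hχ, h1, hz z h2, mul_comm, mul_assoc] at h5
    have h7 := mul_left_cancel₀ he' h5
    by_contra h8
    have h9 : (l z.a : ℂ) = 1 := mul_right_cancel₀ h8 (by rw [← h7, one_mul])
    exact h3 (hl (by rw [map_one]; exact Units.ext h9))
  refine ⟨⟨χ, hχ⟩, fun h hh => ?_, ?_⟩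
  · by_cases hk : h.k = 1
    · refine Tw.ext (hl ?_) hk
      have : χ h = χ 1 := hh
      rw [hz h hk, h1, mul_eq_left₀ he'] at this
      simpa using this
    · have : χ h = χ 1 := hh
      rw [h0 h hk, h1] at this
      exact absurd this.symm he'
  · show charDegree χ ^ 2 = _
    rw [Block.charDegree_of_eq h1]
    have h2 := isIrr_sum_norm_sq hχ
    rw [← Finset.sum_subset (Finset.subset_univ (Finset.univ.filter (· ∈ center (Tw c))))
      (fun x _ hx => by rw [h0 x (fun h => hx (by simpa using Tw.mem_center.2 h))]; simp),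
      Finset.sum_congr rfl (g := fun _ => (e : ℝ) ^ 2) (fun x hx => by
        rw [hz x (Tw.mem_center.1 (by simpa using hx)), norm_mul, linear_norm]; simp),
      Finset.sum_const, ← (center (Tw c)).card_mul_index, Nat.card_eq_fintype_card,
      Fintype.card_subtype, nsmul_eq_mul, Nat.cast_mul] at h2
    have h3 : ((Finset.univ.filter (· ∈ center (Tw c))).card : ℝ) ≠ 0 :=
      Nat.cast_ne_zero.2 (Finset.card_pos.2 ⟨1, by simp⟩).ne'
    exact_mod_cast mul_left_cancel₀ h3 h2

end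

theorem emb (A : Type) [CommGroup A] [Finite A] (n : ℕ) : ∀ (G : Type u) [Group G] [Finite G],
    Nat.card G = n → Group.IsSolvable G → (∀ p : ℕ, p.Prime → p ∣ Nat.card G → p ∣ Nat.card A) →
    ∃ (K : Type u) (_ : Group K) (_ : Finite K) (_ : Coc A K) (f : G →* K), Function.Injective f ∧
      ∀ p : ℕ, p.Prime → p ∣ Nat.card K → p ∣ Nat.card G := by
  induction n using Nat.strong_induction_on with
  | _ n ih =>
  intro G _ _ hn hs hA
  cases subsingleton_or_nontrivial G with
  | inl h =>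
    exact ⟨G, inferInstance, inferInstance, ⟨fun _ _ => 1, fun _ => rfl, fun _ => rfl,
      fun _ _ _ => rfl, fun x hx => absurd (Subsingleton.elim _ _) hx⟩, MonoidHom.id G,
      fun _ _ h => h, fun _ _ h => h⟩
  | inr h =>
    obtain ⟨N, hN, hp⟩ := Isaacs.Wr.exists_prime_index hs
    set p := N.index with hpd
    haveI : Fact p.Prime := ⟨hp⟩
    have hlt : Nat.card N < n := by
      rw [← hn, ← N.card_mul_index]
      exact lt_mul_of_one_lt_right Nat.card_pos hp.one_lt
    obtain ⟨K, _, _, c, f, hf, hK⟩ := ih _ hlt N rfl inferInstance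
      fun q hq h => hA q hq (h.trans (card_subgroup_dvd_card N))
    obtain ⟨a, ha⟩ := exists_prime_orderOf_dvd_card' p (hA p hp N.index_dvd_card)
    let e : (G ⧸ N) ≃* Multiplicative (ZMod p) := mulEquivOfPrimeCardEq (p := p) rfl (by simp)
    let φ : G → ZMod p := fun g => Multiplicative.toAdd (e g)
    have φm : ∀ g h, φ (g * h) = φ g + φ h := fun g h => by simp [φ]
    have φi : ∀ g, φ g⁻¹ = -φ g := fun g => by simp [φ]
    have φk : ∀ g, φ g = 0 → g ∈ N := fun g hg => by
      rw [← QuotientGroup.eq_one_iff, ← e.map_eq_one_iff]; exact hg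
    let s : ZMod p → G := fun t => (e.symm (Multiplicative.ofAdd t)).out
    have hs : ∀ t, φ (s t) = t := fun t => by simp [φ, s]
    have hm : ∀ g t, s t * g * (s (t + φ g))⁻¹ ∈ N := fun g t =>
      φk _ (by rw [φm, φm, φi, hs, hs, add_neg_cancel])
    let F : G →* Wr p K := MonoidHom.mk' (fun g => ⟨fun t => f ⟨_, hm g t⟩, φ g, 0⟩) fun g h => by
      ext t
      · simp only [Wr.mul_f, ← map_mul]
        congr 1
        ext
        simp [φm, add_assoc, mul_assoc]
      · exact φm g h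
      · simp
    refine ⟨Wr p K, inferInstance, inferInstance, c.wr (fun i => a ^ i.val) (fun i j => ?_)
      (by simp) (fun i hi => ?_), F, (injective_iff_map_eq_one F).2 fun g hg => ?_, fun q hq h => ?_⟩
    · rw [ZMod.val_add, ← pow_add]
      have := pow_mod_orderOf a (i.val + j.val)
      rwa [ha] at this
    · have := orderOf_dvd_of_pow_eq_one hi
      rw [ha] at this
      exact (ZMod.val_eq_zero i).1 (Nat.eq_zero_of_dvd_of_lt this (ZMod.val_lt i))
    · have h1 : φ g = 0 := congrArg Wr.i hg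
      have h2 : f ⟨_, hm g 0⟩ = 1 := congrFun (congrArg Wr.f hg) 0
      have h3 : s 0 * g * (s (0 + φ g))⁻¹ = 1 := congrArg Subtype.val (hf (h2.trans (map_one f).symm))
      rw [h1, add_zero] at h3
      simpa using h3
    · rw [Wr.card] at h
      rcases (Nat.Prime.dvd_mul hq).1 h with h | h
      · exact (hK q hq (hq.dvd_of_dvd_pow h)).trans (card_subgroup_dvd_card N)
      · exact (((Nat.Prime.dvd_mul hq).1 h).elim id id).trans N.index_dvd_card

/-- For every finite solvable group G there is a finite group H with a faithful irreducible character χ whose degree squared equals the index of the centre Z(H) (so χ is fully ramified over the centre), such that G is isomorphic to a subgroup of H/Z(H), the primes dividing the orders of H, of Z(H) and of G are the same, and the order of Z(H) is squarefree. -/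
theorem result {G : Type u} [Group G] [Finite G] (hsolv : Group.IsSolvable G) : ∃ (H : Type u) (_ : Group H) (_ : Finite H) (χ : Cfsg.IrrCharacter H), (∀ h : H, (χ : H → ℂ) h = (χ : H → ℂ) 1 → h = 1) ∧ (Cfsg.charDegree (χ : H → ℂ)) ^ 2 = (Subgroup.center H).index ∧ (∃ f : G →* H ⧸ Subgroup.center H, Function.Injective f) ∧ (∀ p : ℕ, p.Prime → ((p ∣ Nat.card H ↔ p ∣ Nat.card G) ∧ (p ∣ Nat.card (Subgroup.center H) ↔ p ∣ Nat.card G))) ∧ Squarefree (Nat.card (Subgroup.center H)) := by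
  set n := ∏ q ∈ (Nat.card G).primeFactors, q with hn
  have hsq : Squarefree n := by
    rw [hn]
    exact Finset.squarefree_prod_of_pairwise_isCoprime
      (fun a ha b hb hab => Nat.coprime_iff_isRelPrime.1 ((Nat.coprime_primes
        (Nat.prime_of_mem_primeFactors ha) (Nat.prime_of_mem_primeFactors hb)).2 hab))
      fun q hq => (Nat.prime_of_mem_primeFactors hq).prime.squarefree
  have hd : ∀ p : ℕ, p.Prime → (p ∣ n ↔ p ∣ Nat.card G) := fun p hp =>
    ⟨fun h => h.trans (Nat.prod_primeFactors_dvd _), fun h =>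
      Finset.dvd_prod_of_mem _ (Nat.mem_primeFactors.2 ⟨hp, h, Nat.card_pos.ne'⟩)⟩
  haveI : NeZero n := ⟨hsq.ne_zero⟩
  have hc : Nat.card (rootsOfUnity n ℂ) = n := Complex.card_rootsOfUnity n
  obtain ⟨K, _, _, c, f, hf, hK⟩ := emb (rootsOfUnity n ℂ) _ G rfl hsolv
    fun p hp h => by rw [hc]; exact (hd p hp).2 h
  obtain ⟨χ, h1, h2⟩ := Tw.char (c := c) (rootsOfUnity n ℂ).subtype (subtype_injective _)
  have hk : (Tw.pr c).ker = center (Tw c) := by
    ext x; rw [Tw.mem_center]; rfl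
  let e : (Tw c ⧸ center (Tw c)) ≃* K := (QuotientGroup.quotientMulEquivOfEq hk.symm).trans
    (QuotientGroup.quotientKerEquivOfSurjective _ fun k => ⟨⟨1, k⟩, rfl⟩)
  refine ⟨Tw c, inferInstance, inferInstance, χ, h1, h2, ⟨e.symm.toMonoidHom.comp f,
    e.symm.injective.comp hf⟩, fun p hp => ⟨?_, by rw [Tw.card_center, hc, hd p hp]⟩,
    by rw [Tw.card_center, hc]; exact hsq⟩
  rw [Nat.card_congr (Tw.equiv c), Nat.card_prod, hc, hp.dvd_mul, hd p hp]
  exact ⟨fun h => h.elim id (hK p hp), Or.inl⟩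

end Cfsg.Agent.S4561
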