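import Mathlib
import Cfsg.Statements.S4563
import Cfsg.Agent.Isaacs.FRam
import Cfsg.Agent.S0006
-- import your own Cfsg.Agent.* helpers here

set_option autoImplicit false
open Cfsg

namespace Cfsg.Agent.S4563

open Cfsg.Agent.Char Cfsg.Agent.Isaacs Cfsg.Agent.Core Subgroup

/-- Let χ be an irreducible character of the finite group H that is fully ramified over the normal subgroup Z: the restriction of χ to Z is e times an irreducible character of Z with e ^ 2 equal to the index of Z. If K is a proper normal subgroup of H containing Z and χ is induced from a character of K, then H/K is solvable; in particular, if K is solvable then so is H. -/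
theorem result {H : Type*} [Group H] [Fintype H] (Z : Subgroup H) [Z.Normal] (χ : Cfsg.IrrCharacter H) (hfr : ∃ (θ : Cfsg.IrrCharacter ↥Z) (e : ℕ), e ^ 2 = Z.index ∧ ∀ z : ↥Z, (χ : H → ℂ) z = (e : ℂ) * (θ : ↥Z → ℂ) z) (K : Subgroup H) [K.Normal] [Fintype K] (hZK : Z ≤ K) (hK : K ≠ ⊤) (φ : ↥K → ℂ) (hφ : Cfsg.IsCharacter ↥K φ) (hind : Cfsg.indFun K φ = (χ : H → ℂ)) : Group.IsSolvable (H ⧸ K) ∧ (Group.IsSolvable ↥K → Group.IsSolvable H) := by
  obtain ⟨θ, e, h⟩ := fr_of hfr
  have s := QuotientGroup.mk'_surjective K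
  have a1 : ind K ⊤ (ez K φ) = χ.1 := ind_top_ez φ ▸ hind
  have a2 := (chr_ez.mpr hφ).irr_of_ind le_top (a1 ▸ h.irr)
  have a3 : inn K χ.1 (ez K φ) ≠ 0 := by rw [← inn_ind_right le_top h.irr.inv, a1]; exact h.irr.inn_self_ne
  obtain ⟨f, f0, -, a4⟩ := a2.ram norm_top hZK h.irr' (h.inv.mono le_top le_rfl) ((h.over_iff hZK le_top a2.chr).mp a3)
  have a5 := h.count hZK le_top norm_top a2 f0 a4
  rw [le_antisymm (le_inf le_rfl le_top |>.trans ((a2.ind_iff norm_top le_top).mp (a1 ▸ h.irr))) a2.inv.le_stab, relIndex_top_right] at a5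
  obtain ⟨n, n0, a6⟩ := h.irr'.deg
  have : Group.IsSolvable (H ⧸ K) := S0006.result fun p hp => by
    have := Fact.mk hp
    obtain ⟨S, a⟩ := exists_isSylowOf p (⊤ : Subgroup H)
    have l : Z ≤ (Z ⊔ S) ⊓ K := le_inf le_sup_left hZK
    obtain ⟨ψ, b, c⟩ := h.irr'.exists_over l
    refine ⟨_, (index_map_eq _ s ((QuotientGroup.ker_mk' K).trans_le le_sup_left)).trans ((h.index_stab a hZK rfl b c).trans ?_)⟩
    obtain ⟨ξ, _, r⟩ := h.sylow a
    set Q := (Z ⊔ S) ⊓ K
    have m : Z ⊔ S ≤ normalizer (Q : Set H) := le_normalizer_inf le_normalizer norm_top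
    obtain ⟨g, g0, -, d⟩ := b.ram norm_top l h.irr' (h.inv.mono le_top le_rfl) c
    have i := r.count l inf_le_left m b g0 d
    have k : ∀ {X L χ e ψ ξ}, FR X Z χ θ e → Z ≤ L → L ≤ X → X ≤ normalizer (L : Set H) → Irr L ψ → inn Z ψ θ ≠ 0 → Chr L ξ →
        (∀ η, Irr L η → inn L ξ η ≠ 0 → inn Z η θ ≠ 0) → ∀ a b : ℕ, ψ 1 = (a * n : ℕ) → ξ 1 = (b * n : ℕ) → a ∣ b :=
      fun r i j m u v w y a b c d => by
        obtain ⟨s, t, o⟩ := Chr.split (m := a * n) (n := a * n) _ _ w d fun η z o =>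
          have ⟨_, _, q⟩ := r.exists_cj i j m u z v (y η z o); .inl (q.one.trans ((cj_at_one _).trans c))
        exact ⟨s + t, Nat.eq_of_mul_eq_mul_right n0 (by rw [o]; ring)⟩
    obtain ⟨u, rfl⟩ := k r l inf_le_left m b c (a2.chr.res inf_le_right) (fun η u v => (h.over_iff l le_top u.chr).mp
      ((h.irr.chr.res le_top).over_trans inf_le_right a2 u.chr a3 v)) g f (by simp [d.one, a6]) (by simp [a4.one, a6])
    have j := Nat.dvd_of_mul_dvd_mul_left g0 (k h hZK le_top norm_top a2 ((h.over_iff hZK le_top a2.chr).mp a3)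
      (b.chr.indc inf_le_right) (fun η u v => (u.chr.res inf_le_right).over_trans l b h.irr'.chr (by
        rwa [← inn_ind_right inf_le_right u.inv, ← inn_conj, map_ne_zero]) c) (g * u) (g * Q.relIndex K) (by simp [a4.one, a6])
          (by simp [ind_one, d.one, a6]; ring))
    have o : ¬ p ∣ Q.relIndex K := fun o => (a.inf_of_normal le_top norm_top).not_dvd
      (o.trans (relIndex_dvd_of_le_left _ (inf_le_inf_right _ le_sup_right)))
    obtain ⟨w, y⟩ := relIndex_sup_pow hp a.isPGroup (a.le.trans h.nm)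
    obtain ⟨z, -, t⟩ := (Nat.dvd_prime_pow hp).mp (y ▸ relIndex_dvd_of_le_left (Z ⊔ S) (l.trans b.inv.le_stab))
    rw [← relIndex_mul_relIndex Z Q K l inf_le_right, ← i, t, mul_pow, mul_left_comm, mul_right_comm, mul_comm,
      Nat.mul_left_inj (pow_pos g0 2).ne'] at a5
    have q := congrArg (·.factorization p) a5
    have u0 : u ≠ 0 := by rintro rfl; simp at f0
    simp only [Nat.factorization_mul index_ne_zero_of_finite (pow_ne_zero 2 u0), Nat.factorization_mul (pow_ne_zero z hp.ne_zero)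
      (fun i : Q.relIndex K = 0 => o (i ▸ dvd_zero p)), Nat.factorization_pow, Finsupp.add_apply, Finsupp.smul_apply,
      Nat.factorization_eq_zero_of_not_dvd o, Nat.factorization_eq_zero_of_not_dvd fun i => o (i.trans j), hp.factorization_self] at q
    rw [t, ← index_eq_card, show K.index.factorization p = z by simpa using q]
  exact ⟨this, fun _ => Group.isSolvable_of_ker_le_range K.subtype (QuotientGroup.mk' K) (by simp)⟩

end Cfsg.Agent.S4563
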