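import Mathlib
import Cfsg.Statements.S4564
import Cfsg.Agent.Isaacs.FRam
-- import your own Cfsg.Agent.* helpers here

set_option autoImplicit false
open Cfsg

namespace Cfsg.Agent.S4564

open Cfsg.Agent.Char Cfsg.Agent.Isaacs Cfsg.Agent.Core Subgroup

/-- Let χ be an irreducible character of the finite group H that is fully ramified over the normal subgroup Z: the restriction of χ to Z is e times an irreducible character of Z with e ^ 2 equal to the index of Z. Let K be a normal subgroup of H containing Z and P a cyclic Sylow p-subgroup of H/K. Then P has a complement in H/K: a subgroup meeting P trivially whose product with P is the whole group. -/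
theorem result {H : Type*} [Group H] [Finite H] (Z : Subgroup H) [Z.Normal] (χ : Cfsg.IrrCharacter H) (hfr : ∃ (θ : Cfsg.IrrCharacter ↥Z) (e : ℕ), e ^ 2 = Z.index ∧ ∀ z : ↥Z, (χ : H → ℂ) z = (e : ℂ) * (θ : ↥Z → ℂ) z) (K : Subgroup H) [K.Normal] (hZK : Z ≤ K) (p : ℕ) [Fact p.Prime] (P : Sylow p (H ⧸ K)) (hcyc : IsCyclic P) : ∃ M : Subgroup (H ⧸ K), M.IsComplement' (P : Subgroup (H ⧸ K)) := by
  obtain ⟨θ, e, h⟩ := fr_of hfr
  have s := QuotientGroup.mk'_surjective K
  obtain ⟨S, rfl⟩ := Sylow.mapSurjective_surjective s p P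
  have a := isSylowOf_top S
  have l : Z ≤ (Z ⊔ S) ⊓ K := le_inf le_sup_left hZK
  obtain ⟨ψ, b, c⟩ := h.irr'.exists_over l
  have d := h.index_stab a hZK rfl b c
  obtain ⟨ξ, f, r⟩ := h.sylow a
  set Q := (Z ⊔ S) ⊓ K
  have m : (Z ⊔ S : Subgroup H).map (QuotientGroup.mk' K) = (S : Subgroup H).map (QuotientGroup.mk' K) := by
    rw [Subgroup.map_sup, (Subgroup.map_eq_bot_iff _).mpr (hZK.trans (QuotientGroup.ker_mk' K).ge), bot_sup_eq]
  have : IsCyclic ((stab Q ψ ⊓ (Z ⊔ S)).map (QuotientGroup.mk' K)) :=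
    Subgroup.isCyclic_of_le (H' := (S.mapSurjective s : Subgroup _)) ((map_mono inf_le_right).trans m.le)
  obtain ⟨_, g⟩ := (Subgroup.isCyclic_iff_exists_zpowers_eq_top _).mp this
  obtain ⟨u, i, rfl⟩ := g.le (mem_zpowers _)
  have j : stab Q ψ ⊓ (Z ⊔ S) ≤ Q ⊔ zpowers u := fun x o => by
    obtain ⟨n, v⟩ := mem_zpowers_iff.mp (g.ge (mem_map_of_mem _ o))
    rw [← map_zpow, QuotientGroup.mk'_eq_mk'] at v
    obtain ⟨k, v, rfl⟩ := v
    exact mul_mem (mem_sup_right (zpow_mem_zpowers u n)) (mem_sup_left ⟨((Z ⊔ S : Subgroup H).mul_mem_cancel_left ((Z ⊔ S : Subgroup H).zpow_mem i.2 n)).mp o.2, v⟩)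
  have k := r.stab_le_of_cyc l inf_le_left (le_normalizer_inf le_normalizer norm_top) b c i j
  rw [← inf_relIndex_right, le_antisymm (j.trans (sup_le le_rfl (zpowers_le.mpr k))) (le_inf b.inv.le_stab inf_le_left),
    inf_relIndex_left, ← QuotientGroup.ker_mk' K, relIndex_ker, m, QuotientGroup.ker_mk',
    ← index_map_eq _ s ((QuotientGroup.ker_mk' K).trans_le le_sup_left)] at d
  have v := d ▸ ((K ⊔ stab Q ψ).map (QuotientGroup.mk' K)).card_mul_index
  have w := Sylow.card_coprime_index (p := p) (S.mapSurjective s)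
  rw [Nat.eq_of_mul_eq_mul_left Nat.card_pos ((S.mapSurjective s).toSubgroup.card_mul_index.trans (v.symm.trans (mul_comm _ _)))] at w
  exact ⟨_, isComplement'_of_coprime v w.symm⟩

end Cfsg.Agent.S4564
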