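import Mathlib
import Cfsg.Statements.S4565
import Cfsg.Agent.Isaacs.FRam
-- import your own Cfsg.Agent.* helpers here

set_option autoImplicit false
open Cfsg

namespace Cfsg.Agent.S4565

open Cfsg.Agent.Char Cfsg.Agent.Isaacs Cfsg.Agent.Core Subgroup

/-- Let χ be an irreducible character of the finite group H that is fully ramified over the normal subgroup Z: the restriction of χ to Z is e times an irreducible character of Z with e ^ 2 equal to the index of Z. If Z ≠ H, then H/Z has no cyclic subgroup that is its own centralizer. -/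
theorem result {H : Type*} [Group H] [Finite H] (Z : Subgroup H) [Z.Normal] (χ : Cfsg.IrrCharacter H) (hfr : ∃ (θ : Cfsg.IrrCharacter ↥Z) (e : ℕ), e ^ 2 = Z.index ∧ ∀ z : ↥Z, (χ : H → ℂ) z = (e : ℂ) * (θ : ↥Z → ℂ) z) (hZ : Z ≠ ⊤) (C : Subgroup (H ⧸ Z)) (hC : IsCyclic C) : Subgroup.centralizer (C : Set (H ⧸ Z)) ≠ C := by
  obtain ⟨θ, e, h⟩ := fr_of hfr
  obtain ⟨c, rfl⟩ := (Subgroup.isCyclic_iff_exists_zpowers_eq_top C).mp hC
  obtain ⟨c, rfl⟩ := QuotientGroup.mk'_surjective Z c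
  intro i
  have k : ∀ g, g * c * g⁻¹ * c⁻¹ ∈ Z → g ∈ Z ⊔ zpowers c := fun g j => by
    rw [← QuotientGroup.ker_mk' Z, sup_comm, ← comap_map_eq, MonoidHom.map_zpowers, mem_comap, ← i, zpowers_eq_closure,
      centralizer_closure, mem_centralizer_singleton_iff]
    exact mul_inv_eq_iff_eq_mul.mp (mul_inv_eq_one.mp ((QuotientGroup.eq_one_iff _).mpr j))
  by_cases j : c ∈ Z
  · exact hZ (eq_top_iff.mpr fun g _ => sup_le le_rfl (zpowers_le.mpr j) (k g (Z.mul_mem (‹Z.Normal›.conj_mem c j g) (Z.inv_mem j))))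
  obtain ⟨g, u, v⟩ := h.exists_cent j
  exact v (k g u)

end Cfsg.Agent.S4565
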