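import Mathlib
import Cfsg.Statements.S4566
import Cfsg.Agent.Isaacs.Berger
import Cfsg.Agent.Isaacs.Cent
-- import your own Cfsg.Agent.* helpers here

set_option autoImplicit false
open Cfsg

namespace Cfsg.Agent.S4566

open Cfsg.Agent.Char Cfsg.Agent.Isaacs Subgroup
open scoped ComplexConjugate commutatorElement

/-- Let N be a central subgroup of the finite group G, ψ a faithful irreducible (hence degree-one) character of N, and χ an irreducible character of G whose restriction to N contains ψ. If g ∈ G and some x ∈ G has commutator x⁻¹ g⁻¹ x g in N but different from 1, then χ g = 0. -/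
theorem result {G : Type*} [Group G] [Fintype G] (N : Subgroup G) [Fintype N] (hN : N ≤ Subgroup.center G) (ψ : Cfsg.IrrCharacter ↥N) (hfaith : ∀ n : ↥N, (ψ : ↥N → ℂ) n = (ψ : ↥N → ℂ) 1 → n = 1) (χ : Cfsg.IrrCharacter G) (hover : Cfsg.classInner (fun n : ↥N => (χ : G → ℂ) n) (ψ : ↥N → ℂ) ≠ 0) (g x : G) (hcomm : x⁻¹ * g⁻¹ * x * g ∈ N) (hne : x⁻¹ * g⁻¹ * x * g ≠ 1) : (χ : G → ℂ) g = 0 := by
  have h := irr_top.mpr χ.2
  have h1 := irr_ez.mpr ψ.2
  have h2 := h.res_smul (norm_of_le_center hN) le_top h1 (inv_of_le_center hN)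
    (by rwa [inn_eq, ez_res])
  have h3 := h.chr.vanish_of_comm (mem_top g⁻¹) (mem_top x⁻¹) (h.norm_of_center (mem_top _)
    (hN (by simpa [commutatorElement_def] using hcomm))) fun e => hne (by
      rw [commutatorElement_def, inv_inv, inv_inv, h2 _ hcomm, h2.one, Pi.smul_apply, Pi.smul_apply,
        ez_mem _ hcomm, ez_one] at e
      exact congrArg Subtype.val (hfaith _ (smul_right_injective ℂ (by rwa [inn_eq, ez_res]) e)))
  rwa [isIrr_inv χ.2, map_eq_zero] at h3

end Cfsg.Agent.S4566
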