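import Mathlib
import Cfsg.Statements.S4567
import Cfsg.Agent.Isaacs.PmOne
import Cfsg.Agent.S4566
import Cfsg.Agent.Char.IndTI
-- import your own Cfsg.Agent.* helpers here

set_option autoImplicit false
open Cfsg

namespace Cfsg.Agent.S4567

open Cfsg.Agent.Char Cfsg.Agent.Isaacs Subgroup
open scoped ComplexConjugate commutatorElement

/-- Let N be a central subgroup of the finite group G and ψ a faithful irreducible (hence degree-one) character of N. Call a coset g N special when every x ∈ G whose commutator x⁻¹ g⁻¹ x g lies in N actually commutes with g (this depends only on the coset). Then the number of irreducible characters of G whose restriction to N contains ψ equals the number of conjugacy classes of G/N consisting of special cosets. -/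
theorem result {G : Type*} [Group G] [Fintype G] (N : Subgroup G) [N.Normal] [Fintype N] (hN : N ≤ Subgroup.center G) (ψ : Cfsg.IrrCharacter ↥N) (hfaith : ∀ n : ↥N, (ψ : ↥N → ℂ) n = (ψ : ↥N → ℂ) 1 → n = 1) : Nat.card {χ : Cfsg.IrrCharacter G // Cfsg.classInner (fun n : ↥N => (χ : G → ℂ) n) (ψ : ↥N → ℂ) ≠ 0} = Nat.card {C : ConjClasses (G ⧸ N) // ∃ g : G, ConjClasses.mk (g : G ⧸ N) = C ∧ ∀ x : G, x⁻¹ * g⁻¹ * x * g ∈ N → x * g = g * x} := by
  classical
  have hψ := irr_ez.mpr ψ.2
  have cm : ∀ a ∈ N, ∀ b ∈ N, a * b = b * a := fun a _ b hb => mem_center_iff.mp (hN hb) a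
  have h1 := hψ.one_of_comm cm
  let O : IrrCharacter G → Prop := fun χ => classInner (fun n : N => (χ : G → ℂ) n) (ψ : N → ℂ) ≠ 0
  let P : G → Prop := fun g => ∀ x : G, x⁻¹ * g⁻¹ * x * g ∈ N → x * g = g * x
  have h2 : ∀ (χ : IrrCharacter G) g, ∑ z : N, (χ : G → ℂ) (z * g) * conj (ψ.1 z) =
      if O χ then Nat.card N * χ.1 g else 0 := fun χ g => by
    have a := irr_top.mpr χ.2
    obtain ⟨θ, b, c⟩ := a.exists_under (le_top : N ≤ ⊤)
    have d := a.res_smul (norm_of_le_center hN) le_top b (inv_of_le_center hN) c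
    have e : O χ ↔ inn N θ (ez N ψ) ≠ 0 := by
      rw [show O χ ↔ inn N χ (ez N ψ) ≠ 0 by rw [inn_eq, ez_res], d.inn_left, inn_smul_left, mul_ne_zero_iff,
        and_iff_right c]
    rw [Finset.sum_congr rfl fun z _ => by rw [a.chr.mul_of_smul le_top b.chr (b.one_of_comm cm) d z.2
      (mem_top g), mul_right_comm, ← ez_coe ψ.1 z], ← Finset.sum_mul, ← card_mul_inn]
    split_ifs with f
    · rw [b.inn_of_eqv (b.eqv hψ (e.mp f)), mul_one]
    · rw [not_not.mp (mt e.mpr f), mul_zero, zero_mul]
  have h3 : ∀ g, ∑ χ with O χ, Nat.card N * (χ.1 g * conj (χ.1 g)) =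
      if P g then (Nat.card (centralizer {g}) : ℂ) else 0 := fun g => by
    split_ifs with f
    · rw [Finset.sum_filter, Finset.sum_congr rfl (g := fun χ : IrrCharacter G =>
        ∑ z : N, χ.1 (z * g) * conj (χ.1 g) * conj (ψ.1 z)) fun χ _ => by
          simp only [mul_right_comm _ (conj (χ.1 g)), ← Finset.sum_mul, h2]; split_ifs <;> simp [mul_assoc],
        Finset.sum_comm, Finset.sum_eq_single 1 (fun z _ hz => ?_) (by simp), ← Finset.sum_mul, OneMemClass.coe_one,
        one_mul, sum_irr_mul_conj_of_isConj (IsConj.refl g), ← ez_one ψ.1, h1, map_one, mul_one]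
      rw [← Finset.sum_mul, sum_irr_mul_conj_of_not_isConj, zero_mul]
      intro e
      obtain ⟨c, hc⟩ := isConj_iff.mp e.symm
      have e1 : c * g * c⁻¹ = g * z := hc.trans (mem_center_iff.mp (hN z.2) g).symm
      have := f c⁻¹ (by
        rw [show c⁻¹⁻¹ * g⁻¹ * c⁻¹ * g = (c * g * c⁻¹)⁻¹ * g by group, e1]; simp)
      rw [mul_assoc, ← this, mul_inv_cancel_left, left_eq_mul] at e1
      exact hz (Subtype.ext e1)
    · simp only [P, not_forall] at f
      obtain ⟨x, a, b⟩ := f
      exact Finset.sum_eq_zero fun χ h => by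
        rw [S4566.result N hN ψ hfaith χ (Finset.mem_filter.mp h).2 g x a fun e => b (by
          rw [← mul_one (g * x), ← e]; group), zero_mul, mul_zero]
  have h4 : ∑ g, ∑ χ with O χ, Nat.card N * (χ.1 g * conj (χ.1 g)) =
      (Nat.card N : ℂ) * Nat.card G * Nat.card {χ // O χ} := by
    rw [Finset.sum_comm, Finset.sum_congr rfl fun χ _ => by
      rw [← Finset.mul_sum, ← card_mul_classInner, classInner_irr_self, mul_one], Finset.sum_const, nsmul_eq_mul,
      Nat.card_eq_fintype_card (α := {χ // O χ}), Fintype.card_subtype, mul_comm]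
  let R : ConjClasses (G ⧸ N) → Prop := fun C => ∃ g : G, ConjClasses.mk (g : G ⧸ N) = C ∧ P g
  have h5 : ∀ g : G, R (ConjClasses.mk (g : G ⧸ N)) ↔ P g := fun g => ⟨?_, fun h => ⟨g, rfl, h⟩⟩
  · have := Fintype.ofFinite (G ⧸ N)
    have := Fintype.ofFinite (ConjClasses (G ⧸ N))
    have h6 := sum_card_centralizer_mul (G := G ⧸ N) (f := fun q => if R (ConjClasses.mk q) then 1 else 0)
      fun a b => by
        simp only [← ConjClasses.mk_eq_mk_iff_isConj.mpr (isConj_iff.mpr ⟨b, rfl⟩ : IsConj a _)]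
    have h7 := IndTI.sum_comp_surjective (QuotientGroup.mk' N) (QuotientGroup.mk'_surjective N) fun q =>
      (Nat.card (centralizer {q}) : ℂ) * if R (ConjClasses.mk q) then 1 else 0
    rw [h6, QuotientGroup.ker_mk', Finset.sum_congr rfl (g := fun C => if R C then (1 : ℂ) else 0)
      (f := fun C : ConjClasses (G ⧸ N) => if R (ConjClasses.mk C.out) then 1 else 0) fun C _ => by
        rw [show ConjClasses.mk C.out = C from Quotient.out_eq C], Finset.sum_boole, ← Fintype.card_subtype,
      ← Nat.card_eq_fintype_card (α := {C // R C}), ← mul_assoc, mul_comm (Nat.card N : ℂ), ← Nat.cast_mul,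
      ← card_eq_card_quotient_mul_card_subgroup] at h7
    rw [Finset.sum_congr rfl fun g _ => h3 g, Finset.sum_congr rfl (g := fun g => (Nat.card N : ℂ) *
      ((Nat.card (centralizer {QuotientGroup.mk' N g}) : ℂ) *
        if R (ConjClasses.mk (QuotientGroup.mk' N g)) then 1 else 0)) fun g _ => ?_, ← Finset.mul_sum, h7,
      mul_assoc] at h4
    · exact_mod_cast (mul_left_cancel₀ card_ne_zero (mul_left_cancel₀ card_ne_zero h4)).symm
    · simp only [QuotientGroup.mk'_apply, h5]
      split_ifs with f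
      · rw [mul_one, ← Nat.cast_mul, ← Core.card_comap_mk']
        congr 3
        ext x
        rw [mem_comap, mem_centralizer_singleton_iff, mem_centralizer_singleton_iff, QuotientGroup.mk'_apply,
          ← QuotientGroup.mk_mul, ← QuotientGroup.mk_mul, eq_comm, eq_comm (a := (_ : G ⧸ N)), QuotientGroup.eq,
          mul_inv_rev, ← mul_assoc]
        exact ⟨fun e => by rw [mul_assoc, ← e]; simpa using one_mem N, fun e => (f x e).symm⟩
      · simp
  · rintro ⟨u, a, b⟩ x hx
    obtain ⟨c, hc⟩ := isConj_iff.mp (ConjClasses.mk_eq_mk_iff_isConj.mp a)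
    obtain ⟨c, rfl⟩ := QuotientGroup.mk_surjective c
    obtain ⟨z, hz, rfl⟩ : ∃ z ∈ N, g = c * u * c⁻¹ * z :=
      ⟨_, QuotientGroup.eq.mp hc, (mul_inv_cancel_left _ _).symm⟩
    have e := mem_center_iff.mp (hN hz)
    have := b (c⁻¹ * x * c) (by
      have := Normal.conj_mem ‹N.Normal› _ hx c⁻¹
      rw [e, mul_assoc _ x, ← mul_assoc x, e x] at this
      simpa [mul_assoc] using this)
    rw [mul_assoc _ z, ← e x, ← mul_assoc, ← mul_assoc _ x z, mul_left_inj]
    calc _ = c * (c⁻¹ * x * c * u) * c⁻¹ := by group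
      _ = _ := by rw [this]; group

end Cfsg.Agent.S4567
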