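import Mathlib
import Cfsg.Statements.S4574
import Cfsg.Agent.Isaacs.Zero2
-- import your own Cfsg.Agent.* helpers here

set_option autoImplicit false
open Cfsg

namespace Cfsg.Agent.S4574

open Cfsg.Agent.Char Cfsg.Agent.Isaacs Subgroup
open scoped ComplexConjugate commutatorElement

/-- Let χ be an irreducible character of the finite group G, of degree d, and let Z(χ) be the set of elements g with |χ g| = d (the centre of χ). Then χ vanishes on at least (d ^ 2 - 1) · |Z(χ)| elements of G, with equality when every value |χ g| is 0, 1 or d. -/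
theorem result {G : Type*} [Group G] [Fintype G] [DecidableEq G] (χ : G → ℂ) (hχ : Cfsg.IsIrrCharacter G χ) : (Cfsg.charDegree χ ^ 2 - 1) * (Finset.univ.filter (fun g : G => ‖χ g‖ = (Cfsg.charDegree χ : ℝ))).card ≤ (Finset.univ.filter (fun g : G => χ g = 0)).card ∧ ((∀ g : G, ‖χ g‖ = 0 ∨ ‖χ g‖ = 1 ∨ ‖χ g‖ = (Cfsg.charDegree χ : ℝ)) → (Cfsg.charDegree χ ^ 2 - 1) * (Finset.univ.filter (fun g : G => ‖χ g‖ = (Cfsg.charDegree χ : ℝ))).card = (Finset.univ.filter (fun g : G => χ g = 0)).card) := by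
  have hd := Block.charDegree_cast (isIrr_isChar hχ)
  have h0 := Block.isIrr_charDegree_ne_zero hχ
  set d := charDegree χ
  have h1 := isIrr_sum_norm_sq hχ
  have e1 : ∀ g, ‖χ g‖ = d ↔ g ∈ charCenter χ := fun g => by
    rw [mem_charCenter_iff (isIrr_isChar hχ), ← hd, Complex.norm_natCast]
  set R := Finset.univ.filter fun g => ¬ ‖χ g‖ = d ∧ ¬ χ g = 0
  have h2 := card_le_sum_norm_sq (isIrr_isGenChar hχ) R (fun k hk g hg => by
      simp only [R, Finset.mem_filter, Finset.mem_univ, true_and, e1] at hg ⊢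
      exact ⟨fun e => hg.1 (mem_of_pow_coprime hk e), fun e => hg.2 ((Galois.apply_pow_eq_zero_iff
        (isIrr_isGenChar hχ) (hk.coprime_dvd_right (orderOf_dvd_natCard g))).mp e)⟩)
    fun g hg => (Finset.mem_filter.mp hg).2.2
  have h3 : ∀ f : G → ℝ, ∑ g, f g = ∑ g with ‖χ g‖ = d, f g + (∑ g with χ g = 0, f g + ∑ g ∈ R, f g) := fun f => by
    rw [← Finset.sum_filter_add_sum_filter_not _ fun g => ‖χ g‖ = d,
      ← Finset.sum_filter_add_sum_filter_not (Finset.univ.filter fun g => ¬ ‖χ g‖ = d) fun g => χ g = 0,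
      Finset.filter_filter, Finset.filter_filter]
    congr 3
    ext g
    simp only [Finset.mem_filter, Finset.mem_univ, true_and, and_iff_right_iff_imp]
    intro e; rw [e, norm_zero]; exact_mod_cast h0.symm
  have h4 := h3 fun _ => 1
  rw [h3, Finset.sum_congr rfl (g := fun _ => (d : ℝ) ^ 2) fun g hg => by rw [(Finset.mem_filter.mp hg).2],
    Finset.sum_eq_zero (s := Finset.univ.filter fun g => χ g = 0) fun g hg => by
      rw [(Finset.mem_filter.mp hg).2, norm_zero, zero_pow two_ne_zero], Nat.card_eq_fintype_card] at h1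
  simp only [Finset.sum_const, nsmul_eq_mul, mul_one, Finset.card_univ] at h1 h4
  have h5 : ((d ^ 2 - 1 : ℕ) : ℝ) = d ^ 2 - 1 := by
    rw [Nat.cast_sub (Nat.one_le_pow _ _ (Nat.pos_of_ne_zero h0))]; simp
  refine ⟨?_, fun h => ?_⟩
  · rw [← Nat.cast_le (α := ℝ), Nat.cast_mul, h5]; linarith
  · rw [Finset.sum_congr rfl (g := fun _ => (1 : ℝ)) fun g hg => by
      have := (Finset.mem_filter.mp hg).2
      rw [((h g).resolve_left (norm_ne_zero_iff.mpr this.2)).resolve_right this.1, one_pow],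
      Finset.sum_const, nsmul_eq_mul, mul_one] at h1
    rw [← Nat.cast_inj (R := ℝ), Nat.cast_mul, h5]; linarith

end Cfsg.Agent.S4574
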