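import Mathlib
import Cfsg.Statements.S4580
import Cfsg.Agent.Block.PIdx

set_option autoImplicit false
open Cfsg

namespace Cfsg.Agent.S4580

open Cfsg.Agent.Block Cfsg.Agent.Char Subgroup

/-- Let N be a normal subgroup of the finite group G, M a maximal ideal of the algebraic integers containing 2, and θ a real-valued irreducible character of N of odd degree that extends to G (some irreducible character of G restricts to θ). Then θ has an extension to G lying in the principal 2-block of G. -/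
theorem result {G : Type*} [Group G] [Finite G] (N : Subgroup G) [N.Normal] (M : Ideal Cfsg.AlgInt) (hM : Cfsg.IsPModular 2 M) (θ : Cfsg.IrrCharacter N) (hreal : ∀ n : N, ((θ : N → ℂ) n).im = 0) (hodd : Odd (Cfsg.charDegree (θ : N → ℂ))) (hext : ∃ η : Cfsg.IrrCharacter G, ∀ n : N, (η : G → ℂ) n = (θ : N → ℂ) n) :
    ∃ η : Cfsg.IrrCharacter G, (∀ n : N, (η : G → ℂ) n = (θ : N → ℂ) n) ∧ η ∈ Cfsg.principalBlock M G := by
  have := Fintype.ofFinite G
  obtain ⟨η, hη⟩ := hext
  have hN : IsIrrCharacter N fun n : N => (η : G → ℂ) n := by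
    rw [show (fun n : N => (η : G → ℂ) n) = θ from funext hη]; exact θ.2
  obtain ⟨l, hl, e⟩ := Gallagher.exists_linear_of_res_eq (isIrr_isChar η.2) hN
    (isIrr_isChar (dualIrr η).2) fun n => by
      rw [dualIrr_apply, isIrr_inv η.2, hη, Complex.conj_eq_iff_im.2 (hreal n)]
  obtain ⟨j, hj⟩ : Odd (ordCompl[2] (Nat.card G)) :=
    Nat.odd_iff.2 (Nat.two_dvd_ne_zero.1 (Nat.not_dvd_ordCompl Nat.prime_two Nat.card_pos.ne'))
  have h1 : ∀ n : N, ((l ^ (j + 1)) n : ℂ) = 1 := fun n => by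
    simp [MonoidHom.mem_ker.1 (hl n.2)]
  refine ⟨⟨_, isIrr_linear_mul η.2 (l ^ (j + 1))⟩, fun n => by
    change ((l ^ (j + 1)) n : ℂ) * _ = _
    rw [h1, one_mul, hη], mem_principal_of_real_regular hM ?_ fun g hg => ?_⟩
  · have h2 := hη 1
    rw [OneMemClass.coe_one] at h2
    simpa [charDegree, h2, Nat.odd_iff] using hodd
  · have h2 : g ^ (2 * j + 1) = 1 := by
      rw [← hj]
      refine orderOf_dvd_iff_pow_eq_one.1 (Nat.Coprime.dvd_of_dvd_mul_left
        ((Nat.prime_two.coprime_iff_not_dvd.2 hg).symm.pow_right ((Nat.card G).factorization 2)) ?_)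
      rw [Nat.ordProj_mul_ordCompl_eq_self]
      exact _root_.orderOf_dvd_natCard g
    have h3 : (l g : ℂ) ^ (2 * j + 1) = 1 := by
      rw [← Units.val_pow_eq_pow_val, ← map_pow, h2, map_one, Units.val_one]
    have h4 := congrFun e g
    rw [dualIrr_apply] at h4
    change ((l ^ (j + 1)) g⁻¹ : ℂ) * (η : G → ℂ) g⁻¹ = ((l ^ (j + 1)) g : ℂ) * (η : G → ℂ) g
    rw [h4, MonoidHom.pow_apply, MonoidHom.pow_apply, map_inv, Units.val_pow_eq_pow_val,
      Units.val_pow_eq_pow_val, Units.val_inv_eq_inv_val, ← mul_assoc]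
    congr 1
    have h5 : (l g : ℂ) ≠ 0 := Units.ne_zero _
    rw [inv_pow, inv_mul_eq_iff_eq_mul₀ (pow_ne_zero _ h5), ← pow_add,
      show j + 1 + (j + 1) = 2 * j + 1 + 1 by ring, pow_succ, h3, one_mul]

end Cfsg.Agent.S4580
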