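import Mathlib
import Cfsg.Statements.S4581
import Cfsg.Agent.Isaacs.Real2
import Cfsg.Agent.PGrp.Frattini
import Cfsg.Agent.Block.Omega
-- import your own Cfsg.Agent.* helpers here

set_option autoImplicit false
open Cfsg

namespace Cfsg.Agent.S4581

open Cfsg.Agent.Char Cfsg.Agent.Isaacs Cfsg.Agent.Core Subgroup

/-- Let G be a finite solvable group, P a Sylow 2-subgroup and N its normalizer. Then G and N have the same number of real-valued irreducible characters of odd degree; and every odd-degree irreducible character of G is real-valued exactly when the derived subgroup of P equals the Frattini subgroup of P and P is its own normalizer in G. -/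
theorem result {G : Type*} [Group G] [Finite G] [Group.IsSolvable G] (P : Sylow 2 G) :
    Nat.card {χ : Cfsg.IrrCharacter G // (∀ g : G, ((χ : G → ℂ) g).im = 0) ∧ Odd (Cfsg.charDegree (χ : G → ℂ))} =
      Nat.card {ψ : Cfsg.IrrCharacter (Subgroup.normalizer ((P : Subgroup G) : Set G)) // (∀ g, ((ψ : Subgroup.normalizer ((P : Subgroup G) : Set G) → ℂ) g).im = 0) ∧ Odd (Cfsg.charDegree (ψ : Subgroup.normalizer ((P : Subgroup G) : Set G) → ℂ))} ∧
    ((∀ χ : Cfsg.IrrCharacter G, Odd (Cfsg.charDegree (χ : G → ℂ)) → ∀ g : G, ((χ : G → ℂ) g).im = 0) ↔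
      (commutator (P : Subgroup G) = frattini (P : Subgroup G) ∧ Subgroup.normalizer ((P : Subgroup G) : Set G) = (P : Subgroup G))) := by
  have hP := isSylowOf_top P
  have hN := hP.of_le le_normalizer le_top
  have k : ∀ χ : IrrCharacter G, PD 2 χ.1 ↔ Odd (charDegree χ.1) := fun χ =>
    ⟨fun ⟨d, a, b⟩ => Block.charDegree_of_eq b ▸ Nat.odd_iff.mpr (Nat.two_dvd_ne_zero.mp a), fun a =>
      ⟨_, a.not_two_dvd_nat, (Block.charDegree_cast (isIrr_isChar χ.2)).symm⟩⟩
  constructor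
  · simp only [← ro_ez]
    rw [← card_ro (rs_of_solv ⊤ inferInstance _ hP) (rs_of_solv _ inferInstance _ hN) hP hN (by simp)]
    refine card_eq_of_rel (fun χ ψ => Eqv ⊤ χ.1.1 (ez ⊤ ψ.1)) (fun χ => ?_) (fun ψ => ?_)
      (fun _ _ _ a b => Subtype.ext (irr_ez_eq (a.symm.trans b))) fun _ _ _ a b =>
        Subtype.ext (Subtype.ext (eqv_top.mp (a.trans b.symm)))
    · have a := irr_top.mpr χ.1.2
      exact ⟨⟨⟨_, a⟩, RO.congr ⟨a, fun x _ => Complex.conj_eq_iff_im.mpr (χ.2.1 x), (k _).mpr χ.2.2⟩ eqv_ez.symm⟩, eqv_ez.symm⟩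
    exact ⟨⟨⟨_, irr_top.mp ψ.2.irr⟩, fun x => Complex.conj_eq_iff_im.mp (ψ.2.rl x trivial),
      (k ⟨_, irr_top.mp ψ.2.irr⟩).mp ψ.2.od⟩, .refl _ _⟩
  refine .trans ⟨fun h χ a b x _ => Complex.conj_eq_iff_im.mpr (h ⟨χ, irr_top.mp a⟩ ((k _).mp b) x), fun h χ a x =>
    Complex.conj_eq_iff_im.mp (h _ (irr_top.mpr χ.2) ((k _).mpr a) x trivial)⟩ ((all_rl_iff hP).trans (and_congr_left' ?_))
  rw [← map_commutator_subtype]
  exact ⟨fun h => le_antisymm (PGrp.commutator_le_frattini P.isPGroup') ((PGrp.frattini_le_iff P.isPGroup').mpr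
    ⟨le_rfl, fun x => (mem_map_iff_mem (subtype_injective _)).mp (h x x.2)⟩), fun h x i =>
      mem_map_of_mem _ (x := ⟨x, i⟩ ^ 2) (h ▸ PGrp.pow_mem_frattini P.isPGroup' _)⟩

end Cfsg.Agent.S4581
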