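import Mathlib
import Cfsg.Statements.S4582
import Cfsg.Agent.Transfer.Abelian
import Cfsg.Agent.Core.Basic
-- import your own Cfsg.Agent.* helpers here

set_option autoImplicit false
open Cfsg

namespace Cfsg.Agent.S4582

open Subgroup
open scoped commutatorElement

/-- Let N be a normal subgroup of the finite group G, P a Sylow 2-subgroup of G and Q = P ∩ N. Suppose that P/QP' and Q/Q' are elementary abelian (every square of an element of P lies in the subgroup generated by Q and the derived subgroup of P, and every square of an element of Q lies in the derived subgroup of Q), and that the commutator factor group N/N' has odd order. Then P/P' is elementary abelian. -/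
theorem result {G : Type*} [Group G] [Finite G] (N : Subgroup G) [N.Normal] (P : Sylow 2 G)
    (hP : ∀ x ∈ (P : Subgroup G), x ^ 2 ∈ ((P : Subgroup G) ⊓ N) ⊔ ⁅(P : Subgroup G), (P : Subgroup G)⁆)
    (hQ : ∀ x ∈ (P : Subgroup G) ⊓ N, x ^ 2 ∈ ⁅(P : Subgroup G) ⊓ N, (P : Subgroup G) ⊓ N⁆)
    (hodd : Odd (Nat.card (Abelianization N))) :
    ∀ x ∈ (P : Subgroup G), x ^ 2 ∈ ⁅(P : Subgroup G), (P : Subgroup G)⁆ := by
  intro x hx
  set L := (P : Subgroup G) ⊔ N
  have hl : (P : Subgroup G) ≤ L := le_sup_left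
  have hA : IsPGroup 2 (Abelianization P) := P.isPGroup'.of_surjective _ (QuotientGroup.mk'_surjective _)
  have hm : ∀ y : P, Abelianization.of y = 1 ↔ (y : G) ∈ ⁅(P : Subgroup G), (P : Subgroup G)⁆ := fun y => by
    rw [← Core.map_commutator_subtype, ← MonoidHom.mem_ker, Abelianization.ker_of]
    exact (mem_map_iff_mem (subtype_injective _)).symm
  let φ : (P : Subgroup G).subgroupOf L →* Abelianization P := Abelianization.of.comp (subgroupOfEquivOfLe hl).toMonoidHom
  have h1 : MonoidHom.transfer ((powMonoidHom 2).comp φ) ⟨x, hl hx⟩ = MonoidHom.transfer φ (⟨x, hl hx⟩ ^ 2) := by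
    rw [map_pow, MonoidHom.transfer_def _ default, MonoidHom.transfer_def _ default, leftTransversals.diff,
      leftTransversals.diff, ← Finset.prod_pow]; rfl
  have h2 : N.subgroupOf L ≤ (MonoidHom.transfer φ).ker := fun n hn => by
    have : ∀ (f : Abelianization N →* Abelianization P) y, f y = 1 := fun f y => by
      obtain ⟨k, hk⟩ := IsPGroup.iff_orderOf.mp hA (f y)
      exact orderOf_eq_one_iff.mp (Nat.eq_one_of_dvd_coprimes ((Nat.coprime_two_left.mpr hodd).pow_left k) hk.dvd
        ((orderOf_map_dvd f _).trans (orderOf_dvd_natCard _)))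
    exact (Abelianization.lift_apply_of ((MonoidHom.transfer φ).comp (inclusion (le_sup_right : N ≤ L)))
      ⟨n, hn⟩).symm.trans (this _ _)
  have h3 : (⟨x, hl hx⟩ : L) ^ 2 ∈ (MonoidHom.transfer φ).ker := by
    have : (P : Subgroup G) ⊓ N ⊔ ⁅(P : Subgroup G), (P : Subgroup G)⁆ ≤ (MonoidHom.transfer φ).ker.map L.subtype :=
      sup_le (fun y hy => ⟨⟨y, hl hy.1⟩, h2 hy.2, rfl⟩) ((commutator_mono hl hl).trans (by
        rw [← Core.map_commutator_subtype]; exact map_mono (Abelianization.commutator_subset_ker _)))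
    exact (mem_map_iff_mem (subtype_injective _)).mp (this (hP x hx))
  rw [MonoidHom.mem_ker.mp h3, Transfer.transfer_eq_pow_of_forall _ _ (Abelianization.of ⟨x, hx⟩ ^ 2)] at h1
  · refine (hm (⟨x, hx⟩ ^ 2)).mp ?_
    rw [map_pow]
    exact (hA.powEquiv' (P.subtype hl).not_dvd_index).injective (h1.trans (one_pow _).symm)
  · intro k g hg _ _
    obtain ⟨u, hu, n, hn, e⟩ := (Core.mem_sup_of_le_normalizer' (le_normalizer_of_normal (H := N))).mp g.2
    have hy : u⁻¹ * x ^ k * u ∈ (P : Subgroup G) := mul_mem (mul_mem (inv_mem hu) (pow_mem hx k)) hu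
    have hg' : (g : G)⁻¹ * x ^ k * g ∈ (P : Subgroup G) := hg
    have := (hm (((⟨u, hu⟩⁻¹ * ⟨x, hx⟩ ^ k * ⟨u, hu⟩)⁻¹ * ⟨_, hg'⟩) ^ 2)).mpr (commutator_mono inf_le_left inf_le_left
      (hQ _ <| mem_inf.mpr ⟨mul_mem (inv_mem hy) hg', by
        have := N.mul_mem (‹N.Normal›.conj_mem _ (N.inv_mem hn) (u⁻¹ * x ^ k * u)⁻¹) hn
        simpa [e, mul_assoc] using this⟩))
    simp only [map_pow, map_mul, map_inv, inv_mul_cancel_comm, mul_pow, inv_pow, inv_mul_eq_one] at this
    rw [pow_right_comm, this]; rfl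

end Cfsg.Agent.S4582
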