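import Mathlib
import Cfsg.Statements.S4583
import Cfsg.Agent.Block.Dade

set_option autoImplicit false
open Cfsg

namespace Cfsg.Agent.S4583

open Cfsg.Agent.Block Cfsg.Agent.Char Subgroup MonoidAlgebra

theorem sum_eB_ne_zero {G : Type*} [Group G] [Finite G] {p : ℕ} [Fact p.Prime] {M : Ideal AlgInt}
    (hM : IsPModular p M) (P : Sylow p G) {H : Subgroup G} [Fintype H]
    (hP : (P : Subgroup G) ≤ H) : ∑ h : H, (eB M (principalBlock M G)).coeff h ≠ 0 := by
  classical
  have := Fintype.ofFinite G
  have := charP_F hM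
  let C := centralizer ((P : Subgroup G) : Set G)
  let K := pPrimeCore p C
  have hC := hasNormalPComplement_centralizer_sylow P
  have hK : ¬ p ∣ Nat.card K := Core.not_dvd_card_pPrimeCore hM.1
  have h1 : br P (eB M (principalBlock M G)) = redG M (avg K) := by
    rw [br_eB hM P.isPGroup' (isV_blockIdem hM isPBlock_principalBlock),
      indSet_principal hM (exists_induced_centralizer hM P.isPGroup' isPBlock_principalBlock),
      principalBlock_eq_of_normal_complement hM hK ⟨_, index_pPrimeCore_of_complement hM.1 hC⟩,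
      avg_eq_blockIdem]
    rfl
  have h2 : ∀ c : C, (eB M (principalBlock M G)).coeff c =
      if c ∈ K then (Nat.card K : F M)⁻¹ else 0 := fun c => by
    rw [← coeff_resTo C, h1, coeff_redG, coeff_avg]
    split_ifs
    · rw [red_inv ((val_natCast_eq_one_iff hM _).2 hK), red_natCast]
    · exact red_zero
  have h3 : ∑ h : H, (eB M (principalBlock M G)).coeff h =
      ∑ g : G, if g ∈ H then (eB M (principalBlock M G)).coeff g else 0 := by
    rw [← Finset.sum_filter]
    exact (Finset.sum_subtype _ (by simp) _).symm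
  rw [h3, sum_eq_sum_centralizer (pF_eq_zero hM) P.isPGroup' _ fun q hq g => by
    rw [isCentral_eB _ g q]
    refine if_congr ?_ rfl rfl
    rw [H.mul_mem_cancel_right (inv_mem (hP hq)), H.mul_mem_cancel_left (hP hq)]]
  simp only [h2, ← ite_and]
  rw [← Finset.sum_filter, Finset.sum_const, nsmul_eq_mul]
  have h4 : (Finset.univ.filter fun c : C => (c : G) ∈ H ∧ c ∈ K).card =
      Nat.card (H.subgroupOf C ⊓ K : Subgroup C) := by
    rw [Nat.card_eq_fintype_card, Fintype.card_subtype]
    congr 1
    ext c
    simp [mem_subgroupOf]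
  refine mul_ne_zero ?_ (inv_ne_zero fun e => hK ((CharP.cast_eq_zero_iff _ p _).1 e))
  rw [h4]
  exact fun e => hK (((CharP.cast_eq_zero_iff _ p _).1 e).trans (card_dvd_of_le inf_le_right))

/-- Let N be a normal subgroup of the finite group G, p a prime, M a maximal ideal of the algebraic integers containing p, and P a Sylow p-subgroup of G. Let θ be an irreducible character of N of degree prime to p lying in the principal p-block of N, and suppose θ extends to the subgroup NP (some irreducible character of NP restricts to θ). Then some irreducible character χ of G of degree prime to p in the principal p-block of G lies over θ (θ is a constituent of the restriction of χ to N). -/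
theorem result {G : Type*} [Group G] [Finite G] (N : Subgroup G) [N.Normal] (p : ℕ) [Fact p.Prime] (M : Ideal Cfsg.AlgInt) (hM : Cfsg.IsPModular p M) (P : Sylow p G)
    (θ : Cfsg.IrrCharacter N) (hθ : θ ∈ Cfsg.principalBlock M N) (hdeg : ¬ p ∣ Cfsg.charDegree (θ : N → ℂ))
    (hext : ∃ η : Cfsg.IrrCharacter ↥(N ⊔ (P : Subgroup G)), ∀ n : N, (η : ↥(N ⊔ (P : Subgroup G)) → ℂ) (Subgroup.inclusion le_sup_left n) = (θ : N → ℂ) n) :
    ∃ χ : Cfsg.IrrCharacter G, χ ∈ Cfsg.principalBlock M G ∧ ¬ p ∣ Cfsg.charDegree (χ : G → ℂ) ∧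
      haveI := Fintype.ofFinite N; Cfsg.classInner (fun n : N => (χ : G → ℂ) n) (θ : N → ℂ) ≠ 0 := by
  classical
  have hp : p.Prime := Fact.out
  have := Fintype.ofFinite G
  let H := N ⊔ (P : Subgroup G)
  obtain ⟨η : IrrCharacter H, he⟩ := hext
  have hl : N ≤ H := le_sup_left
  let θ' := irrComp (subgroupOfEquivOfLe hl) θ
  have h1 : θ' ∈ principalBlock M (N.subgroupOf H) := by
    rw [← compSet_principalBlock (subgroupOfEquivOfLe hl)]
    exact irrComp_mem_compSet.2 hθ
  have h2 : (fun n : N.subgroupOf H => (η : H → ℂ) n) = θ' := funext fun n => he ⟨_, n.2⟩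
  have hη : η ∈ principalBlock M H := by
    rw [← Covers.unique_of_index (N := N.subgroupOf H) hM ?_ (isPBlock_blockOf η)
      isPBlock_principalBlock isPBlock_principalBlock
      ⟨η, self_mem_blockOf hM η, θ', h1, by rw [h2, classInner_irr_self]; exact one_ne_zero⟩
      (covers_principal hM)]
    · exact self_mem_blockOf hM η
    · obtain ⟨k, -, hk⟩ := (Nat.dvd_prime_pow hp).1
        (P.card_eq_multiplicity ▸ relIndex_dvd_card N (P : Subgroup G))
      exact ⟨k, (relIndex_sup_left _ _).trans hk⟩
  have hc := (isCentral_blockIdem (principalBlock M G)).resTo H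
  have hV := (isV_blockIdem hM (isPBlock_principalBlock (G := G))).resTo H
  have h3 := red_omega_eq_of_sameBlock hM (block_sameBlock hM isPBlock_principalBlock hη
    (oneIrr_mem_principalBlock hM)) hc hV
  have h4 := sum_eB_ne_zero hM P (H := H) le_sup_right
  rw [omega_eq_sum (oneIrr H : H → ℂ), red_sum _ fun h _ => by simpa [coe_oneIrr] using hV h] at h3
  simp only [coe_oneIrr, mul_one, div_one, coeff_resTo, coeff_blockIdem, ← coeff_eB] at h3
  rw [← h3, red_ne_zero_iff (omega_mem_V η hc hV), omega_resTo_blockIdem] at h4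
  have h5 : val M ((H.index : ℂ) * (η : H → ℂ) 1) = 1 := by
    rw [map_mul, (val_natCast_eq_one_iff hM _).2 fun h =>
      P.not_dvd_index (h.trans (index_dvd_of_le le_sup_right)), one_mul,
      show (η : H → ℂ) 1 = _ from he 1, ← irr_degree_cast, (val_natCast_eq_one_iff hM _).2 hdeg]
  by_contra hcon
  push Not at hcon
  refine h4.not_lt (val_sum_lt_one _ fun χ hχ => ?_)
  rw [map_div₀, h5, div_one]
  obtain ⟨n, hn⟩ := classInner_isChar_nat (isChar_res H (irr_isChar χ)) (irr_isChar η)
  by_cases hd : p ∣ charDegree (χ : G → ℂ)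
  · rw [hn, ← irr_degree_cast]
    exact val_mul_lt_one_left ((val_natCast_lt_one_iff hM _).2 hd)
      (mem_V_iff.2 (val_natCast_le_one M n))
  suffices h : classInner (fun h : H => (χ : G → ℂ) h) (η : H → ℂ) = 0 by simp [h]
  by_contra h0
  obtain ⟨ρ, hρ, e⟩ := Constit.exists_add_of_inner_ne_zero (isChar_res H (irr_isChar χ)) η.2 h0
  have h6 := hcon χ (Finset.mem_filter.1 hχ).2 hd
  have h7 : (fun n : N => (χ : G → ℂ) n) = (θ : N → ℂ) + fun n => ρ (inclusion hl n) :=
    funext fun n => by
      rw [Pi.add_apply, ← he]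
      exact congrFun e (inclusion hl n)
  let _ := Fintype.ofFinite N
  obtain ⟨k, hk⟩ := classInner_isChar_nat (isChar_comp (inclusion hl) hρ) (irr_isChar θ)
  rw [h7, classInner_add_left, classInner_irr_self, hk] at h6
  have : 1 + k = 0 := by exact_mod_cast h6
  omega

end Cfsg.Agent.S4583
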