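import Mathlib
import Cfsg.Statements.S4584
import Cfsg.Agent.Isaacs.PFour
-- import your own Cfsg.Agent.* helpers here

set_option autoImplicit false
open Cfsg

namespace Cfsg.Agent.S4584

open Cfsg.Agent.Isaacs Subgroup

/-- Let p be a prime and P a group of order p^4. Then the derived subgroup P' has order p if and only if the centre Z(P) has index p^2 in P. -/
theorem result {P : Type*} [Group P] [Finite P] (p : ℕ) [Fact p.Prime] (hP : Nat.card P = p ^ 4) :
    Nat.card (commutator P) = p ↔ (Subgroup.center P).index = p ^ 2 := by
  have hp : p.Prime := Fact.out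
  by_cases h : IsMulCommutative P
  · rw [commutator_eq_bot, center_eq_top, card_bot, index_top]
    exact iff_of_false hp.ne_one.symm (Nat.one_lt_pow two_ne_zero hp.one_lt).ne
  · rw [index_center_of_four hP h, sq, Nat.mul_right_inj hp.ne_zero]

end Cfsg.Agent.S4584
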