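import Mathlib
import Cfsg.Statements.S4585
import Cfsg.Agent.Isaacs.PFour
-- import your own Cfsg.Agent.* helpers here

set_option autoImplicit false
open Cfsg

namespace Cfsg.Agent.S4585

open Cfsg.Agent.Isaacs Subgroup

/-- Let p be a prime and P a group of order p^4. Then P' has index p^2 in P if and only if P has maximal nilpotency class, that is, nilpotency class exactly 3. -/
theorem result {P : Type*} [Group P] [Finite P] (p : ℕ) [Fact p.Prime] (hP : Nat.card P = p ^ 4) :
    (commutator P).index = p ^ 2 ↔ Group.nilpotencyClass P = 3 := by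
  have hp : p.Prime := Fact.out
  refine ⟨fun h => le_antisymm (PGrp.nilpotencyClass_le_of_card hP (by norm_num)) (not_lt.mp fun h2 => ?_),
    fun h => PGrp.index_commutator_of_maximal_class hP h (by norm_num)⟩
  have := (IsPGroup.of_card hP).isNilpotent
  have h3 : Nat.card (commutator P) = p ^ 2 := Nat.eq_of_mul_eq_mul_right (pow_pos hp.pos 2) (by
    rw [← h, card_mul_index, hP, h]; ring)
  have h4 := index_center_of_four hP fun a => by
    rw [commutator_eq_bot, card_bot] at h3; exact (Nat.one_lt_pow two_ne_zero hp.one_lt).ne h3
  have h5 : commutator P ≤ center P := by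
    rw [← centralizer_univ, ← coe_top]
    exact commutator_eq_bot_iff_le_centralizer.mp
      (Subgroup.lowerCentralSeries_eq_bot_iff_nilpotencyClass_le.mpr (Nat.lt_succ_iff.mp h2))
  have h6 := Nat.mul_le_mul_right (center P).index (card_le_of_le h5)
  rw [card_mul_index, hP, h4, h3, ← pow_succ', ← pow_add] at h6
  exact absurd ((Nat.pow_le_pow_iff_right hp.one_lt).mp h6) (by norm_num)

end Cfsg.Agent.S4585
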