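import Mathlib
import Cfsg.Statements.S4586
import Cfsg.Agent.PGrp.MaxClass2
import Cfsg.Agent.PGrp.IndexP
import Cfsg.Agent.PGrp.Class
import Cfsg.Agent.Core.Basic
-- import your own Cfsg.Agent.* helpers here

set_option autoImplicit false
open Cfsg

namespace Cfsg.Agent.S4586

open Subgroup
open scoped commutatorElement

/-- Let p be a prime, P a finite p-group and N a normal subgroup of P of index p. For x ∈ P write c(x) for the number of elements n of N whose commutator x n x⁻¹ n⁻¹ lies in the derived subgroup N' (so c(x)/#N' is the order of the centralizer of x acting on N/N'). Then [P : P'] = p² if and only if c(x) = p·#N' for every x ∈ P outside N, and also if and only if c(x) = p·#N' for some x ∈ P outside N. -/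
theorem result {P : Type*} [Group P] [Finite P] (p : ℕ) [Fact p.Prime] (hP : IsPGroup p P) (N : Subgroup P) [N.Normal] (hN : N.index = p) :
    ((commutator P).index = p ^ 2 ↔ ∀ x : P, x ∉ N →
        Nat.card {n : N // x * n * x⁻¹ * (n : P)⁻¹ ∈ (commutator N).map N.subtype} = p * Nat.card (commutator N)) ∧
    ((commutator P).index = p ^ 2 ↔ ∃ x : P, x ∉ N ∧
        Nat.card {n : N // x * n * x⁻¹ * (n : P)⁻¹ ∈ (commutator N).map N.subtype} = p * Nat.card (commutator N)) := by
  have hp : p.Prime := Fact.out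
  rw [← Core.card_map_subtype (commutator N), Core.map_commutator_subtype]
  have key : ∀ x : P, x ∉ N → ((commutator P).index = p ^ 2 ↔
      Nat.card {n : N // x * n * x⁻¹ * (n : P)⁻¹ ∈ ⁅N, N⁆} = p * Nat.card (⁅N, N⁆ : Subgroup P)) := fun x hx => by
    set f := QuotientGroup.mk' ⁅N, N⁆
    have hs : Function.Surjective f := QuotientGroup.mk'_surjective _
    have hl : ⁅N, N⁆ ≤ N := commutator_le_left N N
    have h0 := PGrp.sup_zpowers_eq_top_of_index_prime hp hN hx
    have := (inferInstance : N.Normal).map f hs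
    have hc : ∀ a ∈ N.map f, ∀ b ∈ N.map f, a * b = b * a := by
      rintro _ ⟨a, ha, rfl⟩ _ ⟨b, hb, rfl⟩
      rw [← commutatorElement_eq_one_iff_mul_comm, ← map_commutatorElement]
      exact (QuotientGroup.eq_one_iff _).mpr (commutator_mem_commutator ha hb)
    have h1 : N.map f ⊔ zpowers (f x) = ⊤ := by
      rw [← MonoidHom.map_zpowers, ← Subgroup.map_sup, h0, map_top_of_surjective _ hs]
    have h2 := PGrp.card_eq_card_centralizer_mul_card_commutator (PGrp.isMulCommutative_iff_forall.mpr hc) h1
    have h3 : Nat.card {n : N // x * n * x⁻¹ * (n : P)⁻¹ ∈ ⁅N, N⁆} =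
        Nat.card ((N.map f ⊓ center _).comap f) := Nat.card_congr ((Equiv.subtypeSubtypeEquivSubtypeInter _
          fun n : P => x * n * x⁻¹ * n⁻¹ ∈ ⁅N, N⁆).trans (Equiv.subtypeEquivRight fun n => by
      rw [comap_inf, comap_map_eq_self (by rwa [QuotientGroup.ker_mk']), mem_inf, mem_comap, and_congr_right_iff,
        ← commutatorElement_def, ← QuotientGroup.eq_one_iff ⁅x, n⁆, ← QuotientGroup.mk'_apply, map_commutatorElement,
        commutatorElement_eq_one_iff_mul_comm]
      refine fun hn => ⟨fun e => mem_center_iff.mpr fun g => ?_, fun e => mem_center_iff.mp e _⟩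
      exact mem_centralizer_singleton_iff.mp ((h1.ge.trans (sup_le (fun a ha => mem_centralizer_singleton_iff.mpr
        (hc a ha _ (mem_map_of_mem f hn))) (zpowers_le.mpr (mem_centralizer_singleton_iff.mpr e)))) (mem_top g))))
    have h4 := (N.map f).card_mul_index
    rw [index_map_eq _ hs (by rwa [QuotientGroup.ker_mk']), hN, h2, ← (commutator (P ⧸ ⁅N, N⁆)).card_mul_index,
      mul_comm _ p, ← mul_assoc, mul_comm, Nat.mul_right_inj Nat.card_pos.ne'] at h4
    rw [h3, PGrp.card_comap_mk', ← PGrp.index_commutator_quotient ⁅N, N⁆ (commutator_mono le_top le_top), ← h4, sq,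
      Nat.mul_right_inj hp.ne_zero, mul_comm p, Nat.mul_right_inj Nat.card_pos.ne']
  obtain ⟨x, hx⟩ : ∃ x, x ∉ N := by
    by_contra! h; exact hp.ne_one (hN.symm.trans (index_eq_one.mpr (eq_top_iff.mpr fun x _ => h x)))
  exact ⟨⟨fun h y hy => (key y hy).mp h, fun h => (key x hx).mpr (h x hx)⟩,
    fun h => ⟨x, hx, (key x hx).mp h⟩, fun ⟨y, hy, h⟩ => (key y hy).mpr h⟩

end Cfsg.Agent.S4586
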