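import Mathlib
import Cfsg.Statements.S4588
import Cfsg.Agent.Block.KB

set_option autoImplicit false
open Cfsg

namespace Cfsg.Agent.S4588

open Cfsg.Agent.Block Cfsg.Agent.Char Subgroup

/-- Let G be a finite group, p a prime and M a maximal ideal of the algebraic integers containing p. If some p-element x of G (possibly x = 1) has centralizer whose order has p-part at most p², then the principal p-block of G contains at most p² irreducible characters of degree prime to p. -/
theorem result {G : Type*} [Group G] [Finite G] (p : ℕ) [Fact p.Prime] (M : Ideal Cfsg.AlgInt) (hM : Cfsg.IsPModular p M)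
    (hx : ∃ x : G, (∃ k : ℕ, orderOf x = p ^ k) ∧ (Nat.card (Subgroup.centralizer ({x} : Set G))).factorization p ≤ 2) :
    Nat.card {χ : Cfsg.IrrCharacter G // χ ∈ Cfsg.principalBlock M G ∧ ¬ p ∣ Cfsg.charDegree (χ : G → ℂ)} ≤ p ^ 2 := by
  obtain ⟨x, ⟨k, hk⟩, hx⟩ := hx
  have h1 : ∀ {n}, n ≤ 2 → p ^ n ≤ p ^ 2 := Nat.pow_le_pow_right hM.1.pos
  by_cases h0 : k = 0
  · rw [h0, pow_zero, orderOf_eq_one_iff] at hk
    rw [show centralizer ({x} : Set G) = ⊤ from eq_top_iff.2 fun g _ =>
      mem_centralizer_singleton_iff.2 (by simp [hk]), card_top] at hx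
    have h2 : blockDefect p (principalBlock M G) ≤ 2 := (Nat.sub_le _ _).trans hx
    exact (Nat.card_le_card_of_injective (fun χ => (⟨χ.1, χ.2.1⟩ : principalBlock M G))
      fun _ _ e => Subtype.ext (congrArg (·.1) e)).trans
        ((card_le_of_defect_le_two hM isPBlock_principalBlock h2).trans (h1 h2))
  have hok : (⟨x, zpowers x, principalBlock M _⟩ : Subs G).Ok p M :=
    ⟨rfl, isPGroup_zpowers_of_orderOf ⟨k, hk⟩, isPBlock_principalBlock⟩
  obtain ⟨D, hD⟩ := exists_isDefectGroup hM hok.bp.2
  obtain ⟨Q, _, _, f, c, -, f2, f3, f4, -, f5⟩ := hok.exists_quot hM hD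
  rw [hok.cent] at hx
  have h2 : blockDefect p (principalBlock M (centralizer (zpowers x : Set G))) ≤ 2 :=
    (Nat.sub_le _ _).trans hx
  rw [card_defectGroup hM f2 f3, card_defectGroup hM hok.bp.2 hD, hk, ← pow_add] at f4
  have h3 := Nat.pow_right_injective hM.1.two_le f4
  have h4 := Nat.le_of_mul_le_mul_right (card_height_zero_mul_le hM hok
    ((isBPOf_principal_iff hM hok.bp).2 rfl) fun y hy n hn h => f5 (qMin_of_defect_le_one hM f2
      (by dsimp only at h2 h3; omega)) y hy n hn (by rintro rfl; simp at h))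
    (blockRank_pos hM.1 (block_nonempty hM hok.bp.2))
  exact (Nat.card_le_card_of_injective (fun χ => (⟨χ.1, χ.2.1, blockHeight_eq_zero_of_not_dvd
    χ.2.2⟩ : {χ // χ ∈ principalBlock M G ∧ blockHeight p (principalBlock M G) χ.1 = 0}))
      fun _ _ e => Subtype.ext (congrArg (·.1) e)).trans (h4.trans (h1 h2))

end Cfsg.Agent.S4588
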