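import Mathlib
import Cfsg.Statements.S4601
import Cfsg.Agent.Core.SylowOf
import Cfsg.Agent.Core.Product
import Cfsg.Agent.Core.PSolvable
import Cfsg.Agent.Core.MinNormal
import Cfsg.Agent.FGS.Basic
import Cfsg.Agent.Isaacs.Prim
-- import your own Cfsg.Agent.* helpers here

set_option autoImplicit false
open Cfsg

namespace Cfsg.Agent.S4601

open Cfsg.Agent.Isaacs Cfsg.Agent.Core Subgroup

/-- Let p and q be primes and G a finite group that is p-solvable or q-solvable, in which no q-element has conjugacy class size divisible by p. Then some Sylow p-subgroup of G normalizes some Sylow q-subgroup of G. -/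
theorem result {G : Type*} [Group G] [Finite G] (p q : ℕ) [Fact p.Prime] [Fact q.Prime] (hsolv : Cfsg.IsPSolvable p G ∨ Cfsg.IsPSolvable q G)
    (h : ∀ y : G, (∃ k : ℕ, orderOf y = q ^ k) → ¬ p ∣ (Subgroup.centralizer ({y} : Set G)).index) :
    ∃ (P : Sylow p G) (Q : Sylow q G), (P : Subgroup G) ≤ Subgroup.normalizer ((Q : Subgroup G) : Set G) := by
  have hp : p.Prime := Fact.out
  have hq : q.Prime := Fact.out
  by_cases hpq : p = q
  · subst hpq
    exact (inferInstance : Nonempty (Sylow p G)).elim fun P => ⟨P, P, le_normalizer⟩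
  revert hsolv h
  refine induction_on_card (P := fun G _ _ => IsPSolvable p G ∨ IsPSolvable q G →
    (∀ y : G, (∃ k : ℕ, orderOf y = q ^ k) → ¬ p ∣ (centralizer ({y} : Set G)).index) →
    ∃ (P : Sylow p G) (Q : Sylow q G), (P : Subgroup G) ≤ normalizer ((Q : Subgroup G) : Set G)) (fun G _ _ ih hs h => ?_) G
  rcases subsingleton_or_nontrivial G with _ | _
  · exact ⟨default, default, fun x _ => by rw [Subsingleton.elim x 1]; exact one_mem _⟩
  obtain ⟨N, _, h1, h2⟩ : ∃ N : Subgroup G, N.Normal ∧ N ≠ ⊥ ∧ ((Nat.card N).Coprime p ∨ (Nat.card N).Coprime q) := by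
    have c := (Nat.coprime_primes hp hq).mpr hpq
    rcases hs with hs | hs <;> obtain ⟨N, a, b, d | d⟩ := Core.IsPSolvable.exists_normal hs
    · exact ⟨N, a, b, .inr (d.exists_card_eq.elim fun k e => e ▸ c.pow_left k)⟩
    · exact ⟨N, a, b, .inl d⟩
    · exact ⟨N, a, b, .inl (d.exists_card_eq.elim fun k e => e ▸ c.symm.pow_left k)⟩
    · exact ⟨N, a, b, .inr d⟩
  have s := QuotientGroup.mk'_surjective N
  obtain ⟨P, Q, e⟩ := ih _ (card_quotient_lt N h1) (hs.imp (Core.IsPSolvable.quotient · N) (Core.IsPSolvable.quotient · N)) fun y ⟨k, hk⟩ c => by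
    obtain ⟨y, rfl⟩ := s y
    obtain ⟨x, -, a, b⟩ := FGS.exists_pElement_lift _ y hk
    rw [← a, ← index_comap_of_surjective _ s] at c
    exact h x b (c.trans (index_dvd_of_le fun g i => mem_centralizer_singleton_iff.mpr (by
      rw [← map_mul, mem_centralizer_singleton_iff.mp i, map_mul])))
  obtain ⟨P, rfl⟩ := Sylow.mapSurjective_surjective s p P
  obtain ⟨Q, rfl⟩ := Sylow.mapSurjective_surjective s q Q
  set K := N ⊔ (Q : Subgroup G) with hK
  have e1 : (P : Subgroup G) ≤ normalizer (K : Set G) := by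
    have := (map_le_iff_le_comap.mp e).trans (le_normalizer_comap _)
    rwa [Sylow.coe_mapSurjective, comap_map_eq, QuotientGroup.ker_mk', sup_comm] at this
  set T := normalizer (K : Set G) ⊓ normalizer ((Q : Subgroup G) : Set G)
  have e2 : N ⊔ T = normalizer (K : Set G) := by
    refine Eq.trans ?_ ((isSylowOf_sylow_of_le Q (le_sup_right : _ ≤ K)).frattini le_normalizer le_rfl)
    exact le_antisymm (sup_le_sup_right le_sup_left _) (sup_le (sup_le le_sup_left (le_sup_of_le_right
      (le_inf (le_sup_right.trans le_normalizer) le_normalizer))) le_sup_right)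
  have e3 : ¬ p ∣ T.relIndex N := by
    rcases h2 with h2 | h2
    · exact fun c => hp.coprime_iff_not_dvd.mp h2.symm (c.trans (relIndex_dvd_card _ _))
    obtain ⟨k, hk⟩ := Q.isPGroup'.exists_card_eq
    have c : (Nat.card Q).Coprime (Nat.card N) := hk ▸ h2.symm.pow_left k
    obtain ⟨R, a, b⟩ := exists_invariant_isSylowOf Q N norm_top c (.inl (have := Q.isPGroup'.isNilpotent; inferInstance)) p
    refine fun d => a.not_dvd (d.trans (relIndex_dvd_of_le_left _ (le_inf (a.le.trans (le_sup_left.trans le_normalizer))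
      (fun x i => centralizer_le_normalizer _ fun y j => ?_))))
    obtain ⟨S, hS⟩ := FGS.exists_sylow_le_of_not_dvd_index (h y (by
      rw [← orderOf_mk y j]; exact IsPGroup.iff_orderOf.mp Q.isPGroup' _))
    have f := IsSylowOf.inf_centralizer (zpowers y) N norm_top (c.coprime_dvd_left (card_dvd_of_le (zpowers_le.mpr j)))
      (.inl inferInstance) a ((zpowers_le.mpr j).trans b)
    have g := isSylowOf_sylow_inf_normal S N
    have l := f.card_dvd g.isPGroup (le_inf inf_le_right (inf_le_left.trans (hS.trans (le_centralizer_iff.mp (zpowers_le.mpr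
      fun z w => mem_centralizer_singleton_iff.mp w)))))
    rw [g.card_eq a] at l
    exact ((eq_of_le_of_card_le inf_le_left (Nat.le_of_dvd Nat.card_pos l)).ge i).2 y (mem_zpowers y)
  obtain ⟨S, hS⟩ := FGS.exists_sylow_le_of_not_dvd_index (H := T) (p := p) fun c => by
    rw [← relIndex_mul_index (inf_le_left : T ≤ _)] at c
    refine (hp.dvd_mul.mp c).elim (fun d => e3 ?_) (FGS.not_dvd_index_of_sylow_le P e1)
    rwa [← relIndex_sup_eq_relIndex norm_top, e2]
  exact ⟨S, Q, hS.trans inf_le_right⟩

end Cfsg.Agent.S4601
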