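import Mathlib
import Cfsg.Statements.S4604
import Cfsg.Agent.Block.Rank

set_option autoImplicit false
open Cfsg

namespace Cfsg.Agent.S4604

open Cfsg.Agent.Block Cfsg.Agent.Char Subgroup

theorem multiset_pow {p : ℕ} (hp : p.Prime) (k : ℕ) (s : Multiset ℂ)
    (hs : ∀ z ∈ s, IsIntegral ℤ z) :
    ∃ γ : ℂ, IsIntegral ℤ γ ∧ s.sum ^ p ^ k - (s.map fun z => z ^ p ^ k).sum = p * γ := by
  induction s using Multiset.induction_on with
  | empty =>
    exact ⟨0, isIntegral_zero, by simp [hp.ne_zero]⟩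
  | cons a s ih =>
    obtain ⟨γ, h1, h2⟩ := ih fun z hz => hs z (Multiset.mem_cons_of_mem hz)
    have ha := hs a (Multiset.mem_cons_self _ _)
    have hsum : IsIntegral ℤ s.sum :=
      (integralClosure ℤ ℂ).toSubring.multiset_sum_mem s fun z hz =>
        hs z (Multiset.mem_cons_of_mem hz)
    obtain ⟨r, hr⟩ := exists_add_pow_prime_pow_eq hp (⟨a, ha⟩ : AlgInt) ⟨s.sum, hsum⟩ k
    have hr' := congrArg (fun x : AlgInt => (x : ℂ)) hr
    simp only [Subalgebra.coe_pow, Subalgebra.coe_add, Subalgebra.coe_mul,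
      SubringClass.coe_natCast] at hr'
    refine ⟨γ + a * s.sum * r, h1.add ((ha.mul hsum).mul r.2), ?_⟩
    rw [Multiset.sum_cons, Multiset.map_cons, Multiset.sum_cons, hr']
    linear_combination h2

theorem char_pow {G : Type*} [Group G] [Finite G] {p : ℕ} (hp : p.Prime) (k : ℕ) {χ : G → ℂ}
    (hχ : IsCharacter G χ) (g : G) :
    ∃ γ : ℂ, IsIntegral ℤ γ ∧ χ g ^ p ^ k - χ (g ^ p ^ k) = p * γ := by
  obtain ⟨s, h1, -, h2, h3⟩ := isChar_eigen_nat hχ g
  rw [h2, h3]
  exact multiset_pow hp k s fun z hz => isIntegral_of_pow_eq_one (orderOf_pos g).ne' (h1 z hz)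

theorem pow_eq {G : Type*} [Group G] [Finite G] {p : ℕ} (hp : p.Prime) {x x' : G}
    (h1 : ∃ k : ℕ, orderOf (x * x'⁻¹) = p ^ k) (h2 : Commute (x * x'⁻¹) x') :
    x ^ p ^ (Nat.card G).factorization p = x' ^ p ^ (Nat.card G).factorization p := by
  obtain ⟨k, hk⟩ := h1
  have hd : orderOf (x * x'⁻¹) ∣ p ^ (Nat.card G).factorization p := by
    rw [hk]
    exact pow_dvd_pow _ ((hp.pow_dvd_iff_le_factorization Nat.card_pos.ne').1
      (hk ▸ orderOf_dvd_natCard _))
  have := h2.mul_pow (p ^ (Nat.card G).factorization p)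
  rw [inv_mul_cancel_right, orderOf_dvd_iff_pow_eq_one.1 hd, one_mul] at this
  exact this

/-- Let G be a finite group, p a prime and p^a the p-part of the order of G. Let x, y ∈ G and let x′, y′ be their p-regular parts: x′ has order prime to p, commutes with x·x′⁻¹, and x·x′⁻¹ has p-power order (likewise for y). Then x′ and y′ are conjugate in G if and only if for every irreducible character χ of G the algebraic integer χ(x)^(p^a) − χ(y)^(p^a) is p times an algebraic integer. -/
theorem result {G : Type*} [Group G] [Finite G] (p : ℕ) [Fact p.Prime] (x y x' y' : G)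
    (hx : (∃ k : ℕ, orderOf (x * x'⁻¹) = p ^ k) ∧ Commute (x * x'⁻¹) x' ∧ ¬ p ∣ orderOf x')
    (hy : (∃ k : ℕ, orderOf (y * y'⁻¹) = p ^ k) ∧ Commute (y * y'⁻¹) y' ∧ ¬ p ∣ orderOf y') :
    IsConj x' y' ↔ ∀ χ : Cfsg.IrrCharacter G, ∃ γ : Cfsg.AlgInt,
      (χ : G → ℂ) x ^ (p ^ (Nat.card G).factorization p) - (χ : G → ℂ) y ^ (p ^ (Nat.card G).factorization p) = (p : ℂ) * (γ : ℂ) := by
  classical
  have hp : p.Prime := Fact.out
  have := Fintype.ofFinite G
  constructor
  · intro h χ
    obtain ⟨γ, h1, h2⟩ := char_pow hp ((Nat.card G).factorization p) (irr_isChar χ) x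
    obtain ⟨δ, h3, h4⟩ := char_pow hp ((Nat.card G).factorization p) (irr_isChar χ) y
    refine ⟨⟨γ - δ, h1.sub h3⟩, ?_⟩
    rw [pow_eq hp hx.1 hx.2.1] at h2
    rw [pow_eq hp hy.1 hy.2.1] at h4
    have := classFun_isConj (irr_classFun χ) (h.pow (p ^ (Nat.card G).factorization p))
    change _ = (p : ℂ) * (γ - δ)
    linear_combination h2 - h4 + this
  · intro h
    obtain ⟨M, hM⟩ := exists_isPModular hp
    have := charP_F hM
    have hr : ∀ χ : IrrCharacter G, red M ((χ : G → ℂ) x') = red M ((χ : G → ℂ) y') := by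
      intro χ
      obtain ⟨γ, hγ⟩ := h χ
      have e1 := red_char_mul hM (irr_isChar χ) hx.1 hx.2.1
      have e2 := red_char_mul hM (irr_isChar χ) hy.1 hy.2.1
      rw [inv_mul_cancel_right] at e1 e2
      rw [← e1, ← e2]
      have e3 := congrArg (red M) hγ
      rw [red_sub (pow_mem (irr_mem_V χ x) _) (pow_mem (irr_mem_V χ y) _),
        red_pow (irr_mem_V χ x), red_pow (irr_mem_V χ y),
        red_mul (natCast_mem _ p) (algInt_mem_V M γ), red_natCast, p_eq_zero_F hM, zero_mul,
        ← sub_pow_char_pow] at e3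
      exact sub_eq_zero.1 (pow_eq_zero_iff (pow_ne_zero _ hp.ne_zero) |>.1 e3)
    have hf : (fun g => classInd x' (pr p g)) ∈ VC M G :=
      comp_pr_mem_VC hM (classFun_classInd x') fun g _ => by
        rw [classInd_apply]
        split_ifs
        · exact one_mem _
        · exact zero_mem _
    have hc := classFun_of_mem_VC hf
    have e : ∀ g, red M (classInd x' (pr p g)) = ∑ χ : IrrCharacter G,
        red M (classInner (fun g => classInd x' (pr p g)) χ) * red M ((χ : G → ℂ) g) := by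
      intro g
      have := classFun_apply_eq_sum hc g
      rw [this, red_sum _ fun χ _ =>
        mul_mem (inner_mem_V_of_mem_VC hf (irr_isChar χ)) (irr_mem_V χ g)]
      exact Finset.sum_congr rfl fun χ _ =>
        red_mul (inner_mem_V_of_mem_VC hf (irr_isChar χ)) (irr_mem_V χ g)
    have e1 := e x'
    have e2 := e y'
    simp only [hr] at e1
    rw [← e2, pr_of_regular hp hx.2.2, pr_of_regular hp hy.2.2, classInd_apply, classInd_apply,
      if_pos (IsConj.refl _)] at e1
    by_contra hn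
    rw [if_neg hn, red_one, red_zero] at e1
    exact one_ne_zero e1

end Cfsg.Agent.S4604
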