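import Mathlib
import Cfsg.Statements.S4606
import Cfsg.Agent.Block.OneCl
-- import your own Cfsg.Agent.* helpers here

set_option autoImplicit false
open Cfsg

namespace Cfsg.Agent.S4606

open Cfsg.Agent.Block Subgroup in

/-- Let G be a finite group, p a prime, M a maximal ideal of the algebraic integers containing p, and B a p-block of G with defect group D. Suppose the number of irreducible characters in B exceeds the p-regular rank of B (the number of irreducible Brauer characters in B) by exactly one. If B is the principal block, or if G is p-solvable, then D is elementary abelian. -/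
theorem result {G : Type*} [Group G] [Finite G] (p : ℕ) [Fact p.Prime] (M : Ideal Cfsg.AlgInt) (hM : Cfsg.IsPModular p M) (B : Set (Cfsg.IrrCharacter G)) (hB : Cfsg.IsPBlock M B) (D : Subgroup G) (hD : Cfsg.IsDefectGroup p M B D)
    (hk : Nat.card B = Cfsg.blockRank p B + 1) (hB0 : B = Cfsg.principalBlock M G ∨ Cfsg.IsPSolvable p G) :
    Cfsg.IsElementaryAbelian p D := by
  have hD' := isDefectGroup_isPGroup hD
  rcases hB0 with rfl | h
  · exact elemAb_of_card_principal hM hk hD'
  · exact elemAb_of_isPSolvable h hD' fun u hu v hv e e' => (isConj_of_card_eq hM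
      (isV_blockIdem hM hB) hk (exists_orderOf_eq_pow_of_mem hM.1 hD' hu)
      (exists_orderOf_eq_pow_of_mem hM.1 hD' hv) e e' (indSet_nonempty hM hB hD hu)
      (indSet_nonempty hM hB hD hv)).1

end Cfsg.Agent.S4606
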