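import Mathlib
import Cfsg.Statements.S4607
import Cfsg.Agent.Block.BasicAlg
import Cfsg.Agent.Block.Src2

set_option autoImplicit false
open Cfsg

namespace Cfsg.Agent.S4607

open Cfsg.Agent.Block Cfsg.Agent.Char Subgroup

/-- Let G be a finite group, p a prime, M a maximal ideal of the algebraic integers containing p, and B a p-block of G with defect group D. Then B contains exactly two irreducible characters if and only if D has order 2. -/
theorem result {G : Type*} [Group G] [Finite G] (p : ℕ) [Fact p.Prime] (M : Ideal Cfsg.AlgInt) (hM : Cfsg.IsPModular p M) (B : Set (Cfsg.IrrCharacter G)) (hB : Cfsg.IsPBlock M B) (D : Subgroup G) (hD : Cfsg.IsDefectGroup p M B D) : Nat.card B = 2 ↔ Nat.card D = 2 := by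
  constructor
  · intro h
    have h1 := blockRank_pos hM.1 (block_nonempty hM hB)
    have h2 := blockRank_le_card (p := p) B
    have h3 : Nat.card B ≠ blockRank p B := fun e => by
      obtain ⟨χ, hχ⟩ := block_nonempty hM hB
      rw [(eq_singleton_of_defect_zero hM hB
        ((defect_eq_zero_iff_card_eq_blockRank hM hB).2 e) hχ).1] at h
      simp at h
    rw [card_defectGroup hM hB hD, ← (unif_of_card_le_four hM hB (by omega) (by omega)).card_eq
      hM hB, h]
  · intro h
    obtain ⟨d, rfl, hd⟩ := exists_isMaxBP hM hB hD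
    obtain ⟨t, ht, h1⟩ := (Nat.card_eq_two_iff' (1 : d.1)).1 h
    have hs : MulAction.stabilizer G d ≤ centralizer (d.1 : Set G) := fun x hx =>
      mem_centralizer_iff.2 fun y hy => by
        by_cases h0 : y = 1
        · simp [h0]
        have h2 := (mem_normalizer_iff.1 (stabilizer_le_normalizer d hx) y).1 hy
        have h3 := (h1 ⟨_, h2⟩ (by simpa using h0)).trans (h1 ⟨y, hy⟩ (by simpa using h0)).symm
        rw [← mul_inv_eq_iff_eq_mul.1 (congrArg Subtype.val h3)]
    have hab : d.1 ≤ centralizer (d.1 : Set G) := fun x hx => hs (smul_eq_of_mem hx)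
    rw [← h]
    exact (hd.unif hM hab ((hd.nilpotent_iff_of_abelian hM hab).2 hs)).2

end Cfsg.Agent.S4607
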