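import Mathlib
import Cfsg.Statements.S4620
import Cfsg.Agent.Core.SylowOf
import Cfsg.Agent.Core.MinNormal
import Cfsg.Agent.FGS.Basic

set_option autoImplicit false
open scoped Pointwise
open Cfsg

namespace Cfsg.Agent.S4620

open Subgroup Core in
/-- The trivial intersection property, elementwise. -/
def TI (p : ℕ) (G : Type*) [Group G] : Prop :=
  ∀ (P : Sylow p G) (g x : G), x ≠ 1 → x ∈ (P : Subgroup G) → g⁻¹ * x * g ∈ (P : Subgroup G) →
    g ∈ normalizer ((P : Subgroup G) : Set G)

open Subgroup Core in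
theorem key {G : Type*} [Group G] [Finite G] {p : ℕ} [hp : Fact p.Prime] (h1 : pCore p G = ⊥)
    (h2 : pPrimeCore p G = ⊥) (h3 : TI p G) {A B : Subgroup G} [hA : A.Normal] [hB : B.Normal]
    (h : A ≤ centralizer (B : Set G)) (h0 : B ≠ ⊥) : A = ⊥ := by
  obtain ⟨P⟩ : Nonempty (Sylow p G) := inferInstance
  have k : ∀ N : Subgroup G, N.Normal → N ≠ ⊥ → (P : Subgroup G) ⊓ N ≠ ⊥ := fun N hN e => by
    refine (isSylowOf_sylow_inf_normal P N).ne_bot ?_
    by_contra hd
    exact e (eq_bot_iff.2 (h2 ▸ le_pPrimeCore hN (hp.out.coprime_iff_not_dvd.2 hd).symm))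
  by_contra e
  obtain ⟨⟨x, hx⟩, hx1⟩ := ne_bot_iff_exists_ne_one.1 (k B hB h0)
  have h4 : A ≤ normalizer ((P : Subgroup G) : Set G) := fun a ha =>
    h3 P a x (fun e => hx1 (Subtype.ext e)) hx.1 (by
      rw [mul_assoc, h ha x hx.2, inv_mul_cancel_left]; exact hx.1)
  have hs := isSylowOf_sylow_inf_normal P A
  have h5 := hs.frattini_top
  rw [sup_eq_right.2 (le_normalizer_inf h4 le_normalizer)] at h5
  exact k A hA e (eq_bot_iff.2 (h1 ▸ le_pCore (normalizer_eq_top_iff.1 h5) hs.isPGroup))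

open Subgroup Core in
theorem TI.sub {G : Type*} [Group G] [Finite G] {p : ℕ} [hp : Fact p.Prime] (h : TI p G)
    (N : Subgroup G) : TI p N := fun Q g x hx h1 h2 => by
  obtain ⟨P, hP⟩ := Q.exists_comap_subtype_eq
  rw [← hP] at h1 h2 ⊢
  have h3 := h P g x (fun e => hx (Subtype.ext e)) h1 h2
  exact mem_normalizer_iff.2 fun y => mem_normalizer_iff.1 h3 y

/-- Let H be a finite group with no nontrivial normal p-subgroup and no nontrivial normal subgroup of order prime to p, whose Sylow p-subgroup P is nontrivial and a trivial-intersection set (P meets its conjugates by elements outside N_H(P) trivially). Then H has a unique minimal normal subgroup N; N is non-abelian simple with trivial centralizer in H (so H embeds in Aut(N)), and a Sylow p-subgroup of N is again a nontrivial trivial-intersection set in N. -/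
theorem result {H : Type*} [Group H] [Finite H] (p : ℕ) [Fact p.Prime] (hOp : Cfsg.pCore p H = ⊥) (hOp' : Cfsg.pPrimeCore p H = ⊥) (P : Sylow p H) (hP1 : (P : Subgroup H) ≠ ⊥)
    (hTI : ∀ g : H, g ∉ Subgroup.normalizer ((P : Subgroup H) : Set H) → (P : Subgroup H) ⊓ (MulAut.conj g • (P : Subgroup H)) = ⊥) :
    ∃ N : Subgroup H, N.Normal ∧ N ≠ ⊥ ∧ (∀ K : Subgroup H, K.Normal → K ≠ ⊥ → N ≤ K) ∧
      IsSimpleGroup N ∧ ¬ IsMulCommutative N ∧ Subgroup.centralizer (N : Set H) = ⊥ ∧
      ∀ Q : Sylow p N, (Q : Subgroup N) ≠ ⊥ ∧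
        ∀ n : N, n ∉ Subgroup.normalizer ((Q : Subgroup N) : Set N) → (Q : Subgroup N) ⊓ (MulAut.conj n • (Q : Subgroup N)) = ⊥ := by
  open Subgroup Core in
  have hT : TI p H := fun Q g x hx h1 h2 => by
    obtain ⟨k, rfl⟩ := MulAction.exists_smul_eq H P Q
    rw [Sylow.coe_subgroup_smul] at h1 h2 ⊢
    rw [FGS.mem_conj_iff] at h1 h2
    have h3 : k⁻¹ * g * k ∈ normalizer ((P : Subgroup H) : Set H) := by
      by_contra e
      have h4 : k⁻¹ * x * k ∈ (⊥ : Subgroup H) := hTI _ e ▸ ⟨h1, FGS.mem_conj_iff.2 (by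
        convert h2 using 1; group)⟩
      exact hx (by simpa [mul_assoc, mul_eq_one_iff_eq_inv] using h4)
    refine mem_normalizer_iff.2 fun y => ?_
    rw [FGS.mem_conj_iff, FGS.mem_conj_iff, mem_normalizer_iff.1 h3]
    congr! 1; group
  open Subgroup Core in
  obtain ⟨N, hN, h0, -, hmin⟩ := exists_minimal_normal_le (⊤ : Subgroup H)
    fun e => hP1 (eq_bot_iff.2 (e ▸ le_top))
  open Subgroup Core in
  have hC : centralizer (N : Set H) = ⊥ := key hOp hOp' hT le_rfl h0
  open Subgroup Core in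
  have h1 : pCore p N = ⊥ := by rw [pCore_eq_subgroupOf, hOp, bot_subgroupOf]
  open Subgroup Core in
  have h2 : pPrimeCore p N = ⊥ := by rw [pPrimeCore_eq_subgroupOf, hOp', bot_subgroupOf]
  have : Nontrivial N := (Subgroup.nontrivial_iff_ne_bot N).2 h0
  open Subgroup Core in
  refine ⟨N, hN, h0, fun K hK e => ?_, ⟨fun L hL => ?_⟩, fun h => h0 (eq_bot_iff.2 (hC ▸ fun x hx y hy =>
    comm_of_isMulCommutative h hy hx)), hC, fun Q => ⟨fun e => ?_, fun n hn => ?_⟩⟩
  · rcases hmin (N ⊓ K) inferInstance inf_le_left with h | h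
    · exact absurd (key hOp hOp' hT (Core.le_centralizer_of_disjoint (disjoint_iff.2 h)) e) h0
    · exact inf_eq_left.1 h
  · open Subgroup Core in
    by_contra hne
    push Not at hne
    obtain ⟨M, hM, hM0, hML, hMm⟩ := Core.exists_minimal_normal_le L hne.1
    have hn : (M.map N.subtype).Normal := ⟨fun x hx g => by
      let M' : Subgroup N := M.map (MulAut.conjNormal g).toMonoidHom
      have : M'.Normal := hM.map _ (MulAut.conjNormal g).surjective
      rcases hMm (M ⊓ M') inferInstance inf_le_left with h | h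
      · have h3 := key h1 h2 (hT.sub N) (Core.le_centralizer_of_disjoint (disjoint_iff.2 h).symm) hM0
        exact absurd ((Subgroup.map_eq_bot_iff_of_injective _ (MulAut.conjNormal g).injective).1 h3) hM0
      · have h3 : M = M' := Subgroup.eq_of_le_of_card_ge (inf_eq_left.1 h)
          (Subgroup.card_map_of_injective (MulAut.conjNormal g).injective).le
        obtain ⟨y, hy, rfl⟩ := hx
        exact ⟨MulAut.conjNormal g y, h3.ge ⟨y, hy, rfl⟩, rfl⟩⟩
    rcases hmin _ hn (Subgroup.map_subtype_le M) with h | h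
    · exact hM0 ((Subgroup.map_eq_bot_iff_of_injective _ N.subtype_injective).1 h)
    · refine hne.2 (eq_top_iff.2 fun x _ => hML ?_)
      obtain ⟨y, hy, e⟩ := h.ge x.2
      exact (Subtype.ext e : y = x) ▸ hy
  · have h3 := Q.not_dvd_index
    rw [e, Subgroup.index_bot] at h3
    have h4 := Core.le_pPrimeCore (N := (⊤ : Subgroup N)) inferInstance (by
      rw [Subgroup.card_top]; exact ((Fact.out : p.Prime).coprime_iff_not_dvd.2 h3).symm)
    rw [h2] at h4
    exact top_ne_bot (le_bot_iff.1 h4)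
  · refine eq_bot_iff.2 fun x hx => ?_
    by_contra e
    exact hn (hT.sub N Q n x e hx.1 (FGS.mem_conj_iff.1 hx.2))

end Cfsg.Agent.S4620
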