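import Mathlib
import Cfsg.Statements.S4711
import Cfsg.Agent.Isaacs.PrB
import Cfsg.Agent.Isaacs.CD6
-- import your own Cfsg.Agent.* helpers here

set_option autoImplicit false
open Cfsg

namespace Cfsg.Agent.S4711

open Cfsg.Agent.Char Cfsg.Agent.Isaacs Cfsg.Agent.Core Subgroup

/-- Let p be a prime, M a maximal ideal of the algebraic integers containing p, G a finite group, P a Sylow p-subgroup and N = N_G(P). Then G has p-length 1 (G = O_{p',p,p'}(G)) if and only if every irreducible character in the principal p-block of G restricts to an irreducible character of N. -/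
theorem result {G : Type*} [Group G] [Finite G] (p : ℕ) [Fact p.Prime] (M : Ideal Cfsg.AlgInt) (hM : Cfsg.IsPModular p M) (P : Sylow p G) : Cfsg.PLengthLE p 1 G ↔ ∀ χ ∈ Cfsg.principalBlock M G, Cfsg.IsIrrCharacter ↥(Subgroup.normalizer ((P : Subgroup G) : Set G)) (fun n : ↥(Subgroup.normalizer ((P : Subgroup G) : Set G)) => (χ : G → ℂ) n) := by
  constructor
  · intro h χ hχ
    exact (irr_top.mpr χ.2).res_of_sup ((ker_iff (irr_isChar χ)).mp
      (Block.pPrimeCore_le_charKer hM hχ)) (Core.PLengthLE.pPrimeCore_sup_normalizer h P)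
  · intro h
    have hN : PLengthLE p 1 (normalizer ((P : Subgroup G) : Set G)) :=
      pLengthLE_one_of_normal_sylow (P.subtype le_normalizer) normal_in_normalizer
    have hc := Core.IsPSolvable.isPConstrained (Core.PLengthLE.isPSolvable hN)
    obtain ⟨L, hL, e, hn⟩ := exists_npc P
      (K := (pPrimeCore p (normalizer ((P : Subgroup G) : Set G))).map (Subgroup.subtype _))
      (by rw [card_map_of_injective (subtype_injective _)]; exact not_dvd_card_pPrimeCore Fact.out)
      (map_subtype_le _) (le_normalizer_map_subtype_of_normal _ _) fun θ hθ hk => by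
        obtain ⟨χ, hχ, e⟩ := exists_principal_over hM P.isPGroup' (ξ := ⟨_, hθ⟩)
          ((mem_principal_iff hM hc).mpr fun x hx => hk x (mem_sup_left (mem_map_of_mem _ hx)))
        exact ⟨χ, chr_top.mpr (irr_isChar χ), (Irr.eqv (h χ hχ) (irr_ez.mpr hθ) e).trans eqv_ez⟩
    have hP : (P : Subgroup G) ≤ L := le_sup_right.trans (e.ge.trans inf_le_left)
    obtain ⟨K, hK, hd, e'⟩ := exists_pcompl P hP hn
    exact (pLengthLE_one_iff_sylow_le P).mpr (le_pPrimePCore_of_normal_sup'
      ((Nat.coprime_comm.mp ((Nat.Prime.coprime_iff_not_dvd Fact.out).mpr hd))) P.isPGroup' (e' ▸ hL))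

end Cfsg.Agent.S4711
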