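import Mathlib
import Cfsg.Statements.S4736
import Cfsg.Agent.Block.Fong2
import Cfsg.Agent.Block.OrdP
-- import your own Cfsg.Agent.* helpers here

set_option autoImplicit false
open Cfsg

namespace Cfsg.Agent.S4736

open Cfsg.Agent.Block Cfsg.Agent.Char Subgroup in

/-- Let p be a prime, M a maximal ideal of the algebraic integers containing p, and G a finite p-solvable group with Sylow p-subgroup P. Then P is abelian if and only if every irreducible character in the principal p-block of G has height zero. -/
theorem result {G : Type*} [Group G] [Finite G] (p : ℕ) [Fact p.Prime] (M : Ideal Cfsg.AlgInt) (hM : Cfsg.IsPModular p M) (hsolv : Cfsg.IsPSolvable p G) (P : Sylow p G) : IsMulCommutative P ↔ ∀ χ ∈ Cfsg.principalBlock M G, Cfsg.blockHeight p (Cfsg.principalBlock M G) (χ : G → ℂ) = 0 := by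
  classical
  have := Fintype.ofFinite G
  have hG := Core.IsPSolvable.isPConstrained hsolv
  have e := principalBlock_eq_overSet hM hG
  refine ⟨fun h χ hχ => Nat.eq_zero_of_le_zero ((blockHeight_le_factorization _ _).trans
    ((factorization_degree_le_of_over hG (by rintro g _ rfl; rfl) (e ▸ hχ) P).trans_eq ?_)),
    fun h => ?_⟩
  · rw [center_eq_top_iff.2 h, index_top, Nat.factorization_one, Finsupp.zero_apply]
  · have hs := QuotientGroup.mk'_surjective (pPrimeCore p G)
    have h1 := (ito_psolv (Core.IsPSolvable.quotient hsolv (pPrimeCore p G)) (fun β hd => by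
      have h2 : inflIrr _ hs β ∈ principalBlock M G := e ▸ mem_overSet_singleton.2 (by
        rw [show (fun k : pPrimeCore p G => (inflIrr _ hs β).1 k) = β.1 1 • fun _ => 1 from
          funext fun k => by simp [(QuotientGroup.eq_one_iff _).2 k.2], coe_oneIrr,
          classInner_smul_left, classInner_one_one, mul_one]
        exact irr_one_ne_zero β)
      have h3 := (blockHeight_eq_zero_iff h2).1 (h _ h2) _ (oneIrr_mem_principalBlock hM)
      rw [coe_oneIrr, charDegree_one_fun, Nat.factorization_one, Finsupp.zero_apply] at h3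
      exact h3.not_gt ((Fact.out : p.Prime).factorization_pos_of_dvd (fun e => irr_one_ne_zero β
        (by rw [← irr_degree_cast]; exact_mod_cast e)) hd)) (P.mapSurjective hs)).2
    refine ⟨⟨fun a b => Subtype.ext (commutatorElement_eq_one_iff_mul_comm.1
      (eq_one_of_isPGroup_of_not_dvd Fact.out P.2 (mul_mem (mul_mem (mul_mem a.2 b.2) (inv_mem a.2))
        (inv_mem b.2)) fun d => Core.not_dvd_card_pPrimeCore Fact.out
          (d.trans (orderOf_dvd_natCard (pPrimeCore p G) ?_))))⟩⟩
    rw [← QuotientGroup.eq_one_iff, ← QuotientGroup.mk'_apply, map_commutatorElement,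
      commutatorElement_eq_one_iff_mul_comm]
    exact congrArg Subtype.val (h1.1.1 ⟨_, mem_map_of_mem _ a.2⟩ ⟨_, mem_map_of_mem _ b.2⟩)

end Cfsg.Agent.S4736
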