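import Mathlib
import Cfsg.Statements.S4741
import Cfsg.Agent.Block.Robin

set_option autoImplicit false
open Cfsg

namespace Cfsg.Agent.S4741

open Cfsg.Agent.Block Cfsg.Agent.Char Subgroup

/-- Let p be a prime, M a maximal ideal of the algebraic integers containing p, and D a subgroup of the finite group G. Let x₁, …, x_r be pairwise non-conjugate elements of G such that D is a Sylow p-subgroup of the centralizer of each xᵢ, and such that for any conjugates g of some xᵢ and h of some xⱼ the element g h⁻¹ is never a non-identity p-element. Then there are r distinct p-blocks B₁, …, B_r of G, each having D as a defect group, such that for every choice of characters χᵢ ∈ Bᵢ of height zero the determinant of the r × r matrix (χᵢ(xⱼ)) does not lie in the local ideal at M. -/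
theorem result {G : Type*} [Group G] [Finite G] (p : ℕ) [Fact p.Prime] (M : Ideal Cfsg.AlgInt) (hM : Cfsg.IsPModular p M) (D : Subgroup G) {r : ℕ} (x : Fin r → G) (hx : ∀ i j : Fin r, IsConj (x i) (x j) → i = j) (hD : ∀ i : Fin r, ∃ S : Sylow p ↥(Subgroup.centralizer ({x i} : Set G)), (S : Subgroup ↥(Subgroup.centralizer ({x i} : Set G))).map (Subgroup.centralizer ({x i} : Set G)).subtype = D) (hsep : ∀ i j : Fin r, ∀ g h : G, IsConj (x i) g → IsConj (x j) h → ∀ k : ℕ, 0 < k → orderOf (g * h⁻¹) ≠ p ^ k) : ∃ B : Fin r → Set (Cfsg.IrrCharacter G), Function.Injective B ∧ (∀ i : Fin r, Cfsg.IsPBlock M (B i) ∧ Cfsg.IsDefectGroup p M (B i) D) ∧ ∀ χ : Fin r → Cfsg.IrrCharacter G, (∀ i : Fin r, χ i ∈ B i ∧ Cfsg.blockHeight p (B i) (χ i : G → ℂ) = 0) → ¬ Cfsg.MemLocalIdeal M (Matrix.det (Matrix.of fun i j : Fin r => (χ i : G → ℂ) (x j))) := by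
  classical
  have hD' : ∀ i, LocalEven.IsSylowIn p D (centralizer ({x i} : Set G)) := fun i =>
    LocalEven.isSylowIn_iff.2 (hD i)
  have hd : ∀ i, (Nat.card (centralizer ({x i} : Set G))).factorization p =
      (Nat.card D).factorization p := fun i => by
    rw [(hD' i).card_eq, Nat.Prime.factorization_pow hM.1, Finsupp.single_eq_same]
  obtain ⟨B, hB, h1, h2⟩ := exists_blocks_of_sep hM x hx hd hsep
  refine ⟨B, hB, fun i => ⟨(h1 i).1, ?_⟩, fun χ hχ h3 => h2 ?_⟩
  · obtain ⟨ξ, hξ⟩ := block_nonempty hM (h1 i).1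
    obtain ⟨j, hj⟩ : ∃ j, lamB M (B i) (classSum (F M) (x j)) ≠ 0 := by
      by_contra! h
      exact h2 (Matrix.det_eq_zero_of_row_eq_zero i h)
    rw [lamB_eq hM (h1 i).1 hξ] at hj
    exact isDefectGroup_of_lam hM (h1 i).1 hξ hj (hD' j) ((hd j).trans (h1 i).2.symm).le
  · have h4 := val_lt_one_of_memLocalIdeal hM.2.1 h3
    let A : Matrix (Fin r) (Fin r) (V M) := Matrix.of fun i j => ⟨_, irr_mem_V (χ i) (x j)⟩
    have h5 : (Matrix.of fun i j : Fin r => (χ i : G → ℂ) (x j)).det = (A.det : ℂ) :=
      ((V M).subtype.map_det A).symm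
    rw [h5, ← residue_eq_zero_iff, RingHom.map_det] at h4
    have h6 : (Matrix.of fun i j => lamB M (B i) (classSum (F M) (x j))) =
        Matrix.diagonal (fun i => red M ((p : ℂ) ^ (Nat.card D).factorization p *
          ((χ i : G → ℂ) 1 / Nat.card G))⁻¹) * (IsLocalRing.residue (V M)).mapMatrix A *
        Matrix.diagonal fun j => red M ((p : ℂ) ^ (Nat.card D).factorization p /
          Nat.card (centralizer ({x j} : Set G))) := by
      ext i j
      have h7 := val_dl_irr hM (hχ i).1
      rw [(hχ i).2, pow_zero, (h1 i).2] at h7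
      have h8 := val_pow_div_card hM (centralizer ({x j} : Set G))
      rw [hd] at h8
      have h9 := pow_mul_degree_mul_centralChar (χ i) (x j) ((p : ℂ) ^ (Nat.card D).factorization p)
      rw [Matrix.mul_diagonal, Matrix.diagonal_mul, Matrix.of_apply, lamB_eq hM (h1 i).1 (hχ i).1,
        lam_classSum, RingHom.mapMatrix_apply, Matrix.map_apply, ← red_coe, mul_assoc,
        ← red_mul (A i j).2 (mem_V_of_val_eq_one h8), ← red_mul (inv_mem_V_of_val_eq_one h7)
          (mul_mem (A i j).2 (mem_V_of_val_eq_one h8))]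
      congr 1
      rw [eq_inv_mul_iff_mul_eq₀ fun e => by simp [e] at h7, h9, mul_comm]
      rfl
    rw [h6, Matrix.det_mul, Matrix.det_mul, h4, mul_zero, zero_mul]

end Cfsg.Agent.S4741
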