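import Mathlib
import Cfsg.Statements.S4742
import Cfsg.Agent.Block.Robin

set_option autoImplicit false
open Cfsg

namespace Cfsg.Agent.S4742

open Cfsg.Agent.Block Cfsg.Agent.Char Subgroup

/-- Let p ≠ q be primes dividing the order of the finite group G, and suppose the centralizer of every non-identity p-element of G has order prime to q. Then either G has an irreducible character of p-defect zero, or for every non-identity q-element z of G there are conjugates g, h of z such that g h⁻¹ is a non-identity p-element. -/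
theorem result {G : Type*} [Group G] [Finite G] (p q : ℕ) [Fact p.Prime] [Fact q.Prime] (hppq : p ≠ q) (hpG : p ∣ Nat.card G) (hqG : q ∣ Nat.card G) (hC : ∀ g : G, g ≠ 1 → (∃ k : ℕ, orderOf g = p ^ k) → ¬ q ∣ Nat.card ↥(Subgroup.centralizer ({g} : Set G))) : (∃ χ : Cfsg.IrrCharacter G, (Cfsg.charDegree (χ : G → ℂ)).factorization p = (Nat.card G).factorization p) ∨ ∀ z : G, z ≠ 1 → (∃ k : ℕ, orderOf z = q ^ k) → ∃ g h : G, IsConj z g ∧ IsConj z h ∧ g * h⁻¹ ≠ 1 ∧ ∃ k : ℕ, orderOf (g * h⁻¹) = p ^ k := by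
  by_contra! h
  obtain ⟨h1, z, hz1, ⟨k, hk⟩, h2⟩ := h
  obtain ⟨χ, hχ⟩ := exists_defect_zero_of_sep (Fact.out : p.Prime) (x := z) (fun hp => by
    obtain ⟨g, hg, ho⟩ := LocalEven.exists_mem_orderOf_eq hp
    refine hC g (LocalEven.ne_one_of_orderOf_eq ho) ⟨1, by rw [ho, pow_one]⟩ ?_
    refine dvd_trans ?_ (Subgroup.orderOf_dvd_natCard _ (mem_centralizer_singleton_iff.2
      (mem_centralizer_singleton_iff.1 hg).symm))
    rw [hk]
    refine dvd_pow_self q ?_
    rintro rfl
    exact hz1 (orderOf_eq_one_iff.1 hk)) fun g h hg hh j hj e => h2 g h hg hh (fun e' => by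
      rw [e', orderOf_one] at e
      exact (Nat.one_lt_pow hj.ne' (Fact.out : p.Prime).one_lt).ne e) j e
  exact h1 χ hχ

end Cfsg.Agent.S4742
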