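import Mathlib
import Cfsg.Statements.S4743
import Cfsg.Agent.Block.Robin

set_option autoImplicit false
open Cfsg

namespace Cfsg.Agent.S4743

open Cfsg.Agent.Block Cfsg.Agent.Char Subgroup

variable {G : Type*} [Group G] [Finite G] {p q : ℕ}

theorem exists_normal (hp : p.Prime) (hq : q.Prime) (hpq : p ≠ q) (hpG : p ∣ Nat.card G)
    (h : IsPSolvable p G) : ∃ N : Subgroup G, N.Normal ∧
      ((p ∣ Nat.card N ∧ ¬ q ∣ Nat.card N) ∨ (q ∣ Nat.card N ∧ ¬ p ∣ Nat.card N)) := by
  obtain ⟨n, H, h0, hn, hm, hN, hs⟩ := h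
  by_contra! hc
  have key : ∀ i, ¬ p ∣ Nat.card (H i) ∧ ¬ q ∣ Nat.card (H i) := by
    intro i
    induction i using Fin.induction with
    | zero => rw [h0, card_bot]; exact ⟨hp.not_dvd_one, hq.not_dvd_one⟩
    | succ i ih =>
      have h1 : Nat.card (H i.succ) = Nat.card (H i.castSucc) *
          (H i.castSucc).relIndex (H i.succ) := by
        rw [relIndex, ← card_mul_index ((H i.castSucc).subgroupOf (H i.succ)),
          Nat.card_congr (subgroupOfEquivOfLe (hm i.castSucc_le_succ)).toEquiv]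
      obtain ⟨h2, h3⟩ := hc _ (hN i.succ)
      rcases hs i with ⟨m, h⟩ | h
      · have h4 : ¬ q ∣ Nat.card (H i.succ) := by
          rw [h1, h, hq.dvd_mul]
          rintro (e | e)
          · exact ih.2 e
          · exact hpq ((Nat.prime_dvd_prime_iff_eq hq hp).1 (hq.dvd_of_dvd_pow e)).symm
        exact ⟨fun e => h4 (h2 e), h4⟩
      · have h4 : ¬ p ∣ Nat.card (H i.succ) := by
          rw [h1, hp.dvd_mul]
          rintro (e | e)
          · exact ih.1 e
          · exact hp.coprime_iff_not_dvd.1 h.symm e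
        exact ⟨h4, fun e => h4 (h3 e)⟩
  exact (key (Fin.last n)).1 (by rwa [hn, card_top])

theorem exists_zero [hp : Fact p.Prime] [hq : Fact q.Prime] (hpq : p ≠ q)
    (h : ∀ x y : G, orderOf x = p → orderOf y = q → ¬ Commute x y) {N : Subgroup G}
    (hN : N.Normal) (h1 : q ∣ Nat.card N) (h2 : ¬ p ∣ Nat.card N) :
    ∃ χ : IrrCharacter G, (charDegree (χ : G → ℂ)).factorization p =
      (Nat.card G).factorization p := by
  obtain ⟨z, hz, ho⟩ := LocalEven.exists_mem_orderOf_eq h1
  refine exists_defect_zero_of_sep hp.out (x := z) (fun hd => ?_) fun a b ha hb k hk e => h2 ?_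
  · obtain ⟨x, hx, ho'⟩ := LocalEven.exists_mem_orderOf_eq hd
    exact h x z ho' ho (mem_centralizer_singleton_iff.1 hx)
  · obtain ⟨c, rfl⟩ := isConj_iff.1 ha
    obtain ⟨d, rfl⟩ := isConj_iff.1 hb
    exact (e ▸ dvd_pow_self p hk.ne').trans (Subgroup.orderOf_dvd_natCard N
      (mul_mem (hN.conj_mem z hz c) (inv_mem (hN.conj_mem z hz d))))

/-- Let p ≠ q be primes dividing the order of the finite group G, suppose the centralizer of every non-identity p-element has order prime to q, and suppose G is p-solvable or q-solvable. Then G has an irreducible character of p-defect zero or an irreducible character of q-defect zero. -/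
theorem result {G : Type*} [Group G] [Finite G] (p q : ℕ) [Fact p.Prime] [Fact q.Prime] (hppq : p ≠ q) (hpG : p ∣ Nat.card G) (hqG : q ∣ Nat.card G) (hC : ∀ g : G, g ≠ 1 → (∃ k : ℕ, orderOf g = p ^ k) → ¬ q ∣ Nat.card ↥(Subgroup.centralizer ({g} : Set G))) (hsolv : Cfsg.IsPSolvable p G ∨ Cfsg.IsPSolvable q G) : (∃ χ : Cfsg.IrrCharacter G, (Cfsg.charDegree (χ : G → ℂ)).factorization p = (Nat.card G).factorization p) ∨ (∃ χ : Cfsg.IrrCharacter G, (Cfsg.charDegree (χ : G → ℂ)).factorization q = (Nat.card G).factorization q) := by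
  have hp : p.Prime := Fact.out
  have hq : q.Prime := Fact.out
  have h : ∀ x y : G, orderOf x = p → orderOf y = q → ¬ Commute x y := fun x y hx hy hc =>
    hC x (LocalEven.ne_one_of_orderOf_eq hx) ⟨1, by rw [hx, pow_one]⟩ (hy ▸
      Subgroup.orderOf_dvd_natCard _ (mem_centralizer_singleton_iff.2 hc.symm.eq))
  have h' : ∀ x y : G, orderOf x = q → orderOf y = p → ¬ Commute x y := fun x y hx hy hc =>
    h y x hy hx hc.symm
  rcases hsolv with hs | hs
  · obtain ⟨N, hN, k | k⟩ := exists_normal hp hq hppq hpG hs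
    exacts [Or.inr (exists_zero hppq.symm h' hN k.1 k.2), Or.inl (exists_zero hppq h hN k.1 k.2)]
  · obtain ⟨N, hN, k | k⟩ := exists_normal hq hp hppq.symm hqG hs
    exacts [Or.inl (exists_zero hppq h hN k.1 k.2), Or.inr (exists_zero hppq.symm h' hN k.1 k.2)]

end Cfsg.Agent.S4743
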