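import Mathlib
import Cfsg.Statements.S4746
import Cfsg.Agent.Block.Even
import Cfsg.Agent.Block.Robin2

set_option autoImplicit false
open Cfsg

namespace Cfsg.Agent.S4746

open Cfsg.Agent.Block Cfsg.Agent.Char Subgroup

/-- Let p be an odd prime and G a finite group of even order divisible by p in which the centralizer of every non-identity p-element has odd order. Then G has an irreducible character of p-defect zero or an irreducible character of even degree. -/
theorem result {G : Type*} [Group G] [Finite G] (p : ℕ) [Fact p.Prime] (hp2 : p ≠ 2) (hpG : p ∣ Nat.card G) (h2G : 2 ∣ Nat.card G) (hC : ∀ g : G, g ≠ 1 → (∃ k : ℕ, orderOf g = p ^ k) → Odd (Nat.card ↥(Subgroup.centralizer ({g} : Set G)))) : (∃ χ : Cfsg.IrrCharacter G, (Cfsg.charDegree (χ : G → ℂ)).factorization p = (Nat.card G).factorization p) ∨ ∃ χ : Cfsg.IrrCharacter G, Even (Cfsg.charDegree (χ : G → ℂ)) := by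
  have h := noTwoP_of_odd hC
  refine or_iff_not_imp_left.2 fun hno => ?_
  by_contra! hodd
  obtain ⟨t, ht⟩ := exists_prime_orderOf_dvd_card' 2 h2G
  obtain ⟨P⟩ : Nonempty (Sylow p G) := inferInstance
  obtain ⟨s, -, hs⟩ := h.exists_conj_inverts hp2 hno ht P
  obtain ⟨u, hu, ho⟩ := LocalEven.exists_mem_orderOf_eq_of_ne_bot P.isPGroup'
    (P.ne_bot_of_dvd_card hpG)
  have hu1 := LocalEven.ne_one_of_orderOf_eq ho
  obtain ⟨M, hM⟩ := exists_isPModular Nat.prime_two
  have := charP_F hM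
  have h1 := congrArg (red M) (sum_irr_one_mul_of_ne hu1)
  have h2 := congrArg (red M) (sum_irr_mul_conj_of_isConj (IsConj.refl u))
  have h3 : ∀ n : ℕ, ¬ Even n → (n : F M) = 1 := fun n hn => by
    obtain ⟨k, rfl⟩ := Nat.not_even_iff_odd.1 hn
    rw [Nat.cast_add, Nat.cast_mul, p_eq_zero_F hM]
    simp
  have h4 : ∀ χ : IrrCharacter G, (starRingEnd ℂ) ((χ : G → ℂ) u) = (χ : G → ℂ) u := fun χ => by
    rw [← isIrr_inv χ.2, ← hs u hu, irr_classFun χ]
  simp only [h4] at h2
  rw [red_sum _ fun χ _ => mul_mem (irr_mem_V χ _) (irr_mem_V χ _)] at h1 h2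
  simp only [red_mul (irr_mem_V _ _) (irr_mem_V _ _)] at h1 h2
  simp only [← irr_degree_cast, red_natCast, h3 _ (hodd _), one_mul, red_zero, ← sq] at h1 h2
  rw [← sum_pow_char, h1, h3 _ (Nat.not_even_iff_odd.2 (hC u hu1 ⟨1, by rw [ho, pow_one]⟩))] at h2
  simp at h2

end Cfsg.Agent.S4746
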