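import Mathlib
import Cfsg.Statements.S4748
import Cfsg.Agent.Isaacs.TIDeg
import Cfsg.Agent.H23.HHB
-- import your own Cfsg.Agent.* helpers here

set_option autoImplicit false
open scoped Pointwise
open Cfsg

namespace Cfsg.Agent.S4748

open Cfsg.Agent.Char Cfsg.Agent.Isaacs Subgroup
open scoped commutatorElement

/-- Let G be a finite p-solvable group whose Sylow p-subgroup P meets each conjugate g P g⁻¹ with g outside N_G(P) trivially, and let χ be a faithful character of G (χ g = χ 1 only for g = 1) whose degree d satisfies d² ≤ |P|. Then P is normal in G. -/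
theorem result {G : Type*} [Group G] [Finite G] (p : ℕ) [Fact p.Prime] (hsolv : Cfsg.IsPSolvable p G) (P : Sylow p G) (hTI : ∀ g : G, g ∉ Subgroup.normalizer ((P : Subgroup G) : Set G) → (P : Subgroup G) ⊓ (MulAut.conj g • (P : Subgroup G)) = ⊥) (χ : G → ℂ) (hχ : Cfsg.IsCharacter G χ) (hfaith : ∀ g : G, χ g = χ 1 → g = 1) (hdeg : Cfsg.charDegree χ ^ 2 ≤ Nat.card ↥(P : Subgroup G)) : (P : Subgroup G).Normal := by
  by_contra hn
  obtain ⟨g, hg⟩ : ∃ g, g ∉ normalizer ((P : Subgroup G) : Set G) := by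
    by_contra! h; exact hn (Core.normal_of_le_normalizer fun g _ => h g)
  have h0 : pCore p G = ⊥ := le_bot_iff.mp ((le_inf (Core.pCore_le_sylow P) (Core.pCore_le_sylow (g • P))).trans
    (hTI g hg).le)
  obtain ⟨z, ⟨hz, hc⟩, h1⟩ := (SetLike.lt_iff_le_and_exists.mp (bot_lt_iff_ne_bot.mpr
    (Core.inf_centralizer_ne_bot_of_isPGroup P.isPGroup' P.isPGroup' le_normalizer (by
      rintro e; rw [e] at hn; exact hn inferInstance)))).2
  have hd := Core.disjoint_of_coprime ((Core.pPrimeCore_coprime (G := G) p).pow_right _ |>.coprime_dvd_right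
    (dvd_of_eq P.isPGroup'.exists_card_eq.choose_spec))
  refine h1 (disjoint_def.mp hd (H23.HH.cent_pPrimeCore_le hsolv h0 fun k hk => ?_) hz)
  have hl : (P : Subgroup G) ≤ pPrimeCore p G ⊔ P := le_sup_right
  refine congrArg Subtype.val (mem_center_iff.mp (ti_central (P.subtype hl) (fun g hg => eq_bot_iff.mpr fun x hx => ?_)
    le_rfl (isChar_res _ hχ) (fun g e => Subtype.ext (hfaith g e)) (Block.charDegree_cast hχ).symm
    (by rwa [Sylow.coe_subtype, Core.card_subgroupOf_of_le hl]) (z := ⟨z, hl hz⟩) (le_normalizer hz) fun n hn => ?_)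
    ⟨k, mem_sup_left hk⟩)
  · rw [Sylow.coe_subtype, ← subgroupOf_normalizer_eq hl] at hg
    exact Subtype.ext (mem_bot.mp ((hTI g hg).le (mem_inf.mpr ⟨hx.1, Core.mem_conj_smul_iff.mpr
      (Core.mem_conj_smul_iff.mp (mem_inf.mp hx).2 :)⟩)))
  · rw [Sylow.coe_subtype, ← subgroupOf_normalizer_eq hl, mem_subgroupOf] at hn
    obtain ⟨k, hk, u, hu, e⟩ := (Core.mem_sup_of_le_normalizer norm_top).mp n.2
    have : ⁅k, z⁆ = 1 := disjoint_def.mp hd (by
      rw [commutatorElement_def, mul_assoc, mul_assoc, ← mul_assoc z]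
      exact mul_mem hk (Normal.conj_mem inferInstance _ (inv_mem hk) z)) (mul_mem ((mem_normalizer_iff.mp (by
        simpa [e] using mul_mem hn (inv_mem (le_normalizer hu))) z).mp hz) (inv_mem hz))
    exact Subtype.ext (e ▸ ((commutatorElement_eq_one_iff_commute.mp this).mul_left (hc u hu)).commutator_eq :
      ⁅(n : G), z⁆ = 1)

end Cfsg.Agent.S4748
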