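import Mathlib
import Cfsg.Statements.S4752
import Cfsg.Agent.Block.X27d
import Cfsg.Agent.Char.Triple

set_option autoImplicit false
open Cfsg

namespace Cfsg.Agent.S4752

open Cfsg.Agent.Block Cfsg.Agent.Char Cfsg.Agent.Transfer Subgroup

theorem count_one {G : Type*} [Group G] [Finite G] {M : Ideal AlgInt} (hM : IsPModular 3 M)
    (hG : HasNormalPComplement 3 G) (hf : (Nat.card G).factorization 3 = 3)
    (hk : Nat.card (principalBlock M G) = 11) :
    Nat.card {χ : IrrCharacter G // χ ∈ principalBlock M G ∧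
      blockHeight 3 (principalBlock M G) (χ : G → ℂ) = 0} = 9 := by
  classical
  have hi := index_pPrimeCore_of_complement hM.1 hG
  rw [hf] at hi
  have h1 := sum_sq_degree_le_charKer (pPrimeCore 3 G)
  have hB : ∀ χ : IrrCharacter G, pPrimeCore 3 G ≤ charKer χ.1 ↔ χ ∈ principalBlock M G :=
    fun χ => ⟨mem_principal_of_le_charKer hM ⟨3, hi⟩, pPrimeCore_le_charKer hM⟩
  simp only [hB, ← irr_degree_cast, Complex.conj_natCast, hi] at h1
  have h2 : ∑ χ : IrrCharacter G with χ ∈ principalBlock M G,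
      charDegree χ.1 * charDegree χ.1 = 27 := by exact_mod_cast h1
  have h3 : ∀ χ ∈ Finset.univ.filter (· ∈ principalBlock M G), charDegree χ.1 * charDegree χ.1 +
      8 * (if ¬ 3 ∣ charDegree χ.1 then 1 else 0) = 9 := by
    intro χ hχ
    have h4 := Finset.single_le_sum (f := fun χ : IrrCharacter G => charDegree χ.1 * charDegree χ.1)
      (fun _ _ => Nat.zero_le _) hχ
    have h5 := Triple.degree_dvd_index_of_le_charCenter χ.2 (irr_degree_cast χ).symm
      (((hB χ).2 (Finset.mem_filter.1 hχ).2).trans (charKer_le_charCenter _))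
    rw [h2] at h4
    rw [hi] at h5
    have h6 : charDegree χ.1 ≤ 5 := by nlinarith
    interval_cases charDegree χ.1 <;> simp_all
  have h4 := Finset.sum_congr rfl h3
  rw [Finset.sum_add_distrib, h2, ← Finset.mul_sum, ← Finset.card_filter, Finset.sum_const,
    ← card_eq_card_filter, hk, smul_eq_mul] at h4
  rw [Nat.card_eq_fintype_card, Fintype.card_subtype]
  have h5 : (Finset.univ.filter fun χ : IrrCharacter G => χ ∈ principalBlock M G ∧
      blockHeight 3 (principalBlock M G) (χ : G → ℂ) = 0) =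
      (Finset.univ.filter (· ∈ principalBlock M G)).filter fun χ => ¬ 3 ∣ charDegree χ.1 := by
    ext χ
    simp only [Finset.mem_filter, Finset.mem_univ, true_and]
    exact and_congr_right fun hχ => principal_height_zero_iff hM hχ
  rw [h5]
  omega

/-- Let G be a finite group whose Sylow 3-subgroup P is extraspecial of order 27 and exponent 3, with N_G(P) ≤ C_G(Z(P)), and let M be a maximal ideal of the algebraic integers containing 3, B the principal 3-block of G, k its number of irreducible characters, k₀ the number of those of height zero, l its 3-regular rank (number of irreducible Brauer characters), and e the index of P·C_G(P) in N_G(P) (the order of the inertial quotient). Then e = 1 gives (k, k₀, l) = (11, 9, 1); e = 2 gives (10, 6, 2); e = 4 gives (14, 6, 4); e = 8 gives (16, 6, 5). -/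
theorem result {G : Type*} [Group G] [Finite G] (P : Sylow 3 G) (hE : Cfsg.IsExtraspecial 3 ↥(P : Subgroup G)) (h27 : Nat.card ↥(P : Subgroup G) = 27) (hexp : ∀ x ∈ (P : Subgroup G), x ^ 3 = 1) (hNC : ∀ g ∈ Subgroup.normalizer ((P : Subgroup G) : Set G), ∀ z ∈ (P : Subgroup G), (∀ y ∈ (P : Subgroup G), z * y = y * z) → g * z = z * g) (M : Ideal Cfsg.AlgInt) (hM : Cfsg.IsPModular 3 M) (k k₀ l e : ℕ) (hk : Nat.card ↥(Cfsg.principalBlock M G) = k) (hk₀ : Nat.card {χ : Cfsg.IrrCharacter G // χ ∈ Cfsg.principalBlock M G ∧ Cfsg.blockHeight 3 (Cfsg.principalBlock M G) (χ : G → ℂ) = 0} = k₀) (hl : Cfsg.blockRank 3 (Cfsg.principalBlock M G) = l) (he : ((P : Subgroup G) ⊔ Subgroup.centralizer ((P : Subgroup G) : Set G)).relIndex (Subgroup.normalizer ((P : Subgroup G) : Set G)) = e) : (e = 1 → k = 11 ∧ k₀ = 9 ∧ l = 1) ∧ (e = 2 → k = 10 ∧ k₀ = 6 ∧ l = 2) ∧ (e = 4 → k = 14 ∧ k₀ = 6 ∧ l = 4) ∧ (e = 8 → k = 16 ∧ k₀ = 6 ∧ l = 5) := by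
  obtain ⟨z, h⟩ := exists_x27P P hE h27 hexp hNC
  obtain ⟨U, hU, hUP, hc⟩ := h.exists_U
  have key : 2 ∣ e → k₀ = 6 ∧ k + 2 * U.card = 18 ∧ l + U.card = 6 := fun h2 => by
    subst hk hk₀ hl he
    exact hU.invariants hM fun u hu => h.real h2 (hUP u hu).1 (hUP u hu).2
  rw [he] at hc
  refine ⟨fun h1 => ?_, fun h1 => ?_, fun h1 => ?_, fun h1 => ?_⟩
  · have hG := h.nilp_of_one (he.trans h1)
    have h2 := hU.card_eq hM
    rw [blockRank_principal_of_complement hM hG,
      blockRank_principal_of_complement hM (hasNormalPComplement_subgroup hG _)] at h2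
    rw [h1] at hc
    exact ⟨by omega, hk₀ ▸ count_one hM hG h.fac (by omega),
      hl ▸ blockRank_principal_of_complement hM hG⟩
  all_goals
    subst h1
    have := key (by norm_num)
    omega

end Cfsg.Agent.S4752
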