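import Mathlib
import Cfsg.Statements.S4755
import Cfsg.Agent.Isaacs.Zero
-- import your own Cfsg.Agent.* helpers here

set_option autoImplicit false
open Cfsg

namespace Cfsg.Agent.S4755

open Cfsg.Agent.Char Cfsg.Agent.Isaacs Subgroup
open scoped ComplexConjugate

/-- Let x, y be non-identity elements of the finite group G such that χ(x' y') = χ(x') χ(y') for all conjugates x' of x, y' of y and every irreducible character χ. Then the conjugacy class of x y is the set of all products of a conjugate of x with a conjugate of y; every irreducible character of degree greater than 1 vanishes at x y; and the conjugacy class of x y is the coset of the commutator subgroup containing x y. -/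
theorem result {G : Type*} [Group G] [Finite G] (x y : G) (hx : x ≠ 1) (hy : y ≠ 1) (h : ∀ (a b : G) (χ : Cfsg.IrrCharacter G), (χ : G → ℂ) (a * x * a⁻¹ * (b * y * b⁻¹)) = (χ : G → ℂ) (a * x * a⁻¹) * (χ : G → ℂ) (b * y * b⁻¹)) : (∀ z : G, IsConj (x * y) z ↔ ∃ a b : G, z = a * x * a⁻¹ * (b * y * b⁻¹)) ∧ (∀ χ : Cfsg.IrrCharacter G, (χ : G → ℂ) 1 ≠ 1 → (χ : G → ℂ) (x * y) = 0) ∧ (∀ z : G, IsConj (x * y) z ↔ (x * y)⁻¹ * z ∈ commutator G) := by
  have h1 : ∀ a b (χ : IrrCharacter G), (χ : G → ℂ) (a * x * a⁻¹ * (b * y * b⁻¹)) = (χ : G → ℂ) (x * y) :=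
    fun a b χ => by
      have := h 1 1 χ
      simp only [one_mul, inv_one, mul_one] at this
      rw [h, irr_classFun χ, irr_classFun χ, this]
  have h2 : ∀ z : G, IsConj (x * y) z ↔ ∃ a b : G, z = a * x * a⁻¹ * (b * y * b⁻¹) := fun z =>
    ⟨fun e => by obtain ⟨c, rfl⟩ := isConj_iff.mp e; exact ⟨c, c, by group⟩, by
      rintro ⟨a, b, rfl⟩; exact (isConj_iff_forall_irr _ _).mpr fun χ => (h1 a b χ).symm⟩
  have h3 : ∀ χ : IrrCharacter G, (χ : G → ℂ) 1 ≠ 1 → (χ : G → ℂ) (x * y) = 0 := fun χ e => by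
    have a := (class_mul_iff x y).mp h2 1 1 χ
    have b := h 1 1 χ
    simp only [one_mul, inv_one, mul_one] at a b
    rw [← b, ← sub_eq_zero, ← sub_one_mul, mul_eq_zero, sub_eq_zero] at a
    exact a.resolve_left e
  refine ⟨h2, h3, fun z => ⟨fun e => ?_, fun e => isConj_of_irr fun χ => ?_⟩⟩
  · obtain ⟨c, rfl⟩ := isConj_iff.mp e
    have := commutator_mem_commutator (mem_top (x * y)⁻¹) (mem_top c)
    rwa [commutatorElement_def, inv_inv, mul_assoc, mul_assoc, ← mul_assoc c] at this
  · by_cases h4 : (χ : G → ℂ) 1 = 1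
    · right
      rw [← isChar_mul_of_eq' (irr_isChar χ) (apply_eq_of_mem_charKer
        (commutator_le_charKer (irr_isChar χ) h4 e)) (x * y), mul_inv_cancel_left]
    · exact Or.inl (h3 χ h4)

end Cfsg.Agent.S4755
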