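import Mathlib
import Cfsg.Statements.S4762
import Cfsg.Agent.Isaacs.NonLin
import Cfsg.Agent.PGrp.Extra
import Cfsg.Agent.Isaacs.Cent
-- import your own Cfsg.Agent.* helpers here

set_option autoImplicit false
open Cfsg

namespace Cfsg.Agent.S4762

open Cfsg.Agent.Char Cfsg.Agent.Isaacs Subgroup

/-- Let p be a prime and G a finite nilpotent group. Then G has exactly one irreducible complex character of degree divisible by p if and only if p = 2 and G is an extraspecial 2-group. -/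
theorem result {G : Type*} [Group G] [Finite G] [Group.IsNilpotent G] (p : ℕ) [Fact p.Prime] : Nat.card {χ : Cfsg.IrrCharacter G // p ∣ Cfsg.charDegree (χ : G → ℂ)} = 1 ↔ (p = 2 ∧ Cfsg.IsExtraspecial 2 G) := by
  classical
  have hp : p.Prime := Fact.out
  have h0 := sum_nonlinear (G := G)
  refine ⟨fun h => ?_, ?_⟩
  · obtain ⟨⟨χ, h1⟩, h2⟩ := Nat.card_eq_one_iff_exists.mp h
    have u : ∀ ψ, Irr ⊤ ψ → ∀ d : ℕ, ψ 1 = d → p ∣ d → ψ = χ.1 := fun ψ a d b c =>
      congrArg (·.1.1) (h2 ⟨⟨ψ, irr_top.mp a⟩, by rwa [Block.charDegree_of_eq b]⟩)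
    have hi := irr_top.mpr χ.2
    have hG : IsPGroup p G := Core.pCore_eq_top_iff.mp (by
      by_contra hc
      have e : pCore p G ⊔ pPrimeCore p G = ⊤ := top_le_iff.mp ((Core.fitting_eq_top_iff.mpr inferInstance).ge.trans
        (Core.fitting_le_pCore_sup_pPrimeCore p))
      have c : ¬ p ∣ (pCore p G).relIndex ⊤ := fun a => Core.not_dvd_card_pPrimeCore hp (a.trans (by
        rw [← e, relIndex_sup_left]; exact relIndex_dvd_card _ _))
      obtain ⟨θ, a, b⟩ := hi.exists_under (L := pCore p G) le_top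
      obtain ⟨n, hn⟩ := (Core.pCore_isPGroup (G := G) p).exists_card_eq
      obtain ⟨η, a1, a2⟩ := a.exists_ext_coprime norm_top le_top (e ▸ a.inv.sup (fun g hg x hx => by
        rw [← Core.pPrimeCore_le_centralizer_pCore p hg x hx, mul_inv_cancel_right]) norm_top norm_top)
        (hn ▸ (hp.coprime_iff_not_dvd.mpr c).pow_left n)
      have a3 := a.congr a2.symm
      obtain ⟨β, b1, b2, b3⟩ := hi.exists_mul norm_top le_top a1.chr a3 (a2.inn_right ▸ b)
      obtain ⟨d, -, hd⟩ := a1.deg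
      obtain ⟨k, -, hk⟩ := b1.deg
      have f : p ∣ d := (hp.dvd_mul.mp (Block.charDegree_of_eq (n := k * d) (b3.one.trans (by simp [hk, hd])) ▸ h1)).resolve_left
        fun x => c (x.trans (b1.deg_dvd_of_ker b2 hk))
      obtain ⟨z, -, hz⟩ := SetLike.exists_of_lt (Ne.lt_top hc)
      obtain ⟨γ, c1, c2, c3⟩ := exists_irr_not_ker norm_top le_top (mem_top z) hz
      obtain ⟨j, -, hj⟩ := c1.deg
      have := c1.eqv_of_mul norm_top le_top c2 irr_one (fun _ _ => rfl) a1.chr a3 (eqv_top.mpr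
        ((u _ (c1.mul_of_ker norm_top le_top c2 a1.chr a3) (j * d) (by simp [hj, hd]) (f.mul_left j)).trans
          ((u _ a1 d hd f).symm.trans (one_mul η).symm)))
      exact c3 ((this z (mem_top z)).trans this.one.symm))
    rw [Finset.sum_eq_single_of_mem χ (by simpa using (IsPGroup.dvd_deg_iff hp hG χ).mp h1) fun ψ a b => absurd
      (congrArg Subtype.val (h2 ⟨ψ, (IsPGroup.dvd_deg_iff hp hG ψ).mpr (by simpa using a)⟩)) b,
      ← (commutator G).card_mul_index] at h0
    obtain ⟨n, hn⟩ := hG.exists_card_eq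
    obtain ⟨j, hj⟩ := PGrp.exists_card_eq_pow hG (commutator G)
    obtain ⟨a, -, ha⟩ := (Nat.dvd_prime_pow hp).mp (hn ▸ Block.irr_degree_dvd χ)
    have j0 : j ≠ 0 := by
      rintro rfl
      simp [hj, Block.irr_degree_ne_zero] at h0
    have h3 : p ^ j - 1 = 1 := Nat.eq_one_of_dvd_coprimes (a := (p ^ a) ^ 2) (b := p ^ j - 1)
      (((((Nat.coprime_self_sub_right (Nat.one_le_pow _ _ hp.pos)).mpr (Nat.coprime_one_right _)).coprime_dvd_left
        (dvd_pow_self p j0)).pow_left a).pow_left 2) ⟨(commutator G).index, by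
          rw [Nat.sub_one_mul, ← hj, ← h0, ha, Nat.add_sub_cancel_left]⟩ dvd_rfl
    · have h4 : p ^ j = 2 ^ 1 := by omega
      obtain rfl := (Nat.prime_dvd_prime_iff_eq hp Nat.prime_two).mp (hp.dvd_of_dvd_pow (h4 ▸ dvd_pow_self p j0))
      obtain ⟨h5, h6⟩ := PGrp.pow_mem_center_of_card_commutator hG (hj.trans h4)
      have h7 : commutator G = center G := h5.antisymm fun z hz => by_contra fun a => hi.one_ne (norm_eq_zero.mp (by
        rw [← hi.norm_of_center (mem_top z) hz, vanish_of_lin (fun β b c _ => eqv_top.mpr (u _ (hi.lin_mul b.chr c) _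
          (by rw [Pi.mul_apply, c, one_mul, Block.irr_degree_cast]) h1)) le_top le_rfl (mem_top z) a, norm_zero]))
      exact ⟨rfl, ⟨hG, ((PGrp.frattini_le_iff hG).mpr ⟨h5, h6⟩).antisymm (h7 ▸ PGrp.commutator_le_frattini hG), h7⟩,
        h7 ▸ hj.trans h4⟩
  · rintro ⟨rfl, h⟩
    obtain ⟨m, -, -, -, hm⟩ := PGrp.exists_cext_of_isExtraspecial h
    rw [Finset.sum_congr rfl (g := fun _ => (2 ^ m) ^ 2) fun χ a => by
      rw [Block.charDegree_of_eq ((irr_top.mpr χ.2).deg_of_extra h hm fun e => (Finset.mem_filter.mp a).2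
        (deg_eq_one_iff.mpr ((irr_top.mpr χ.2).one_of_ker (h.1.2.2 ▸ e :))))], Finset.sum_const, smul_eq_mul] at h0
    have h1 := (commutator G).card_mul_index
    rw [h.1.2.2, h.2, ← h.1.2.2, hm, pow_succ, pow_mul'] at h1
    rw [hm, pow_succ 2, pow_mul'] at h0
    rw [Nat.card_eq_fintype_card, Fintype.card_subtype, Finset.filter_congr fun χ _ => IsPGroup.dvd_deg_iff hp h.1.1 χ]
    exact Nat.eq_of_mul_eq_mul_right (pow_pos (pow_pos two_pos m) 2) (by omega)

end Cfsg.Agent.S4762
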