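import Mathlib
import Cfsg.Statements.S4763
import Cfsg.Agent.Isaacs.Cop
import Cfsg.Agent.Isaacs.GlS
import Cfsg.Agent.Isaacs.CD3
import Cfsg.Agent.FGS.Basic
import Cfsg.Agent.Block.Omega
-- import your own Cfsg.Agent.* helpers here

set_option autoImplicit false
open Cfsg

namespace Cfsg.Agent.S4763

open Cfsg.Agent.Char Cfsg.Agent.Isaacs Cfsg.Agent.Core Subgroup

theorem card_split {X : Type*} [Finite X] (P : X → Prop) : Nat.card X = Nat.card {x // P x} + Nat.card {x // ¬ P x} := by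
  classical rw [← Nat.card_sum, Nat.card_congr (Equiv.sumCompl P)]

/-- Let p be a prime and G a finite group that is not nilpotent and has a normal p-complement (a normal subgroup of order prime to p and index a power of p). If G has exactly one irreducible complex character of degree divisible by p, then G has exactly one conjugacy class whose size is divisible by p. -/
theorem result {G : Type*} [Group G] [Finite G] (p : ℕ) [Fact p.Prime] (hnil : ¬ Group.IsNilpotent G) (N : Subgroup G) [N.Normal] (hN : (Nat.card N).Coprime p) (hidx : ∃ k : ℕ, N.index = p ^ k) (hone : Nat.card {χ : Cfsg.IrrCharacter G // p ∣ Cfsg.charDegree (χ : G → ℂ)} = 1) : Nat.card {C : ConjClasses G // p ∣ Nat.card C.carrier} = 1 := by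
  have hp : p.Prime := Fact.out
  obtain ⟨P⟩ : Nonempty (Sylow p G) := inferInstance
  obtain ⟨k, hk⟩ := hidx
  have hG : N ⊔ P = ⊤ := (isSylowOf_top P).sup_eq_of_relIndex_eq_pow le_top (relIndex_top_right N ▸ hk)
  obtain ⟨a, ha⟩ := P.isPGroup'.exists_card_eq
  have hc : (Nat.card N).Coprime (Nat.card P) := ha ▸ hN.pow_right a
  obtain ⟨⟨χ, h1⟩, h2⟩ := (Nat.card_eq_one_iff_exists).mp hone
  replace h2 : ∀ ψ : G → ℂ, Irr ⊤ ψ → ∀ d : ℕ, ψ 1 = d → p ∣ d → ψ = χ := fun ψ u d v w =>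
    congrArg (fun x => x.1.1) (h2 ⟨⟨ψ, irr_top.mp u⟩, by rwa [Block.charDegree_of_eq v]⟩)
  have a0 : a ≠ 0 := by
    rintro rfl
    exact hp.ne_one (Nat.dvd_one.mp ((P.dvd_card_of_dvd_card (h1.trans
      ((irr_top.mpr χ.2).deg_dvd (Block.irr_degree_cast χ).symm |>.trans card_top.dvd))).trans ha.dvd))
  have cop : ∀ d : ℕ, d.Coprime (Nat.card P) ↔ ¬ p ∣ d := fun d => by
    rw [ha, Nat.coprime_pow_right_iff (Nat.pos_of_ne_zero a0), Nat.coprime_comm, hp.coprime_iff_not_dvd]
  have hP : (P : Subgroup G) ≤ centralizer ((P : Subgroup G) : Set G) := by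
    by_contra c
    obtain ⟨z, z1, z2⟩ : ∃ z ∈ ⁅(P : Subgroup G), (P : Subgroup G)⁆, z ∉ N := by
      by_contra! e
      refine c fun x u y v => comm_of_commutator_eq_bot (fun z w => ?_) v u
      exact (disjoint_of_coprime_natCard hc).le_bot ⟨e z w, commutator_le_self _ w⟩
    obtain ⟨β, b1, b2, b3⟩ := exists_irr_not_ker norm_top le_top (mem_top z) z2
    obtain ⟨d, -, hd⟩ := b1.deg
    have hpd : p ∣ d := by
      obtain ⟨j, u, v⟩ := b1.deg_dvd_rel norm_top le_top irr_one ((b1.ker_iff_inn norm_top le_top).mp b2)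
      rw [mul_one, hd, Nat.cast_inj] at v
      rw [relIndex_top_right, hk, ← v] at u
      obtain ⟨i, -, rfl⟩ := (Nat.dvd_prime_pow hp).mp u
      refine dvd_pow_self p fun e => b3 (b1.chr.ker_comm (by simp [hd, e]) z (commutator_mono le_top le_top z1))
    have : N ≤ ⊥ := fun x hx => by
      by_contra e
      obtain ⟨θ, u, -, v⟩ := exists_irr_not_ker (L := ⊥) norm_top bot_le hx e
      obtain ⟨ψ, w, y⟩ := u.exists_over le_top
      obtain ⟨m, -, hm⟩ := w.deg
      have : ∀ η : G → ℂ, Irr ⊤ η → ∀ d : ℕ, η 1 = d → p ∣ d → inn N η θ = 0 := fun η i d j l => by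
        rw [(h2 η i d j l).trans (h2 β b1 _ hd hpd).symm, b2.eqv.inn_left, inn_smul_left,
          irr_one.inn_eq_zero u fun e => v (by rw [← e x hx, ← e.one]), mul_zero]
      by_cases l : p ∣ m
      · exact y (this ψ w m hm l)
      · have := this _ (Irr.mul_of_ker norm_top le_top b1 b2 w.chr (w.res_of_coprime norm_top le_top hm (by
          rw [relIndex_top_right, hk]; exact (hp.coprime_iff_not_dvd.mpr l).symm.pow_right k))) (d * m)
          (by simp [hd, hm]) (hpd.mul_right m)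
        rw [(show Eqv N (β * ψ) (β 1 • ψ) from fun x hx => by simp [b2 x hx]).inn_left, inn_smul_left] at this
        exact mul_ne_zero b1.one_ne y this
    rw [le_bot_iff.mp this, bot_sup_eq] at hG
    exact hnil (Group.isNilpotent_top.mp (hG ▸ P.isPGroup'.isNilpotent))
  set C := N ⊓ centralizer ((P : Subgroup G) : Set G) with hC
  have hPC : (P : Subgroup G) ≤ normalizer (C : Set G) :=
    (le_centralizer_iff.mp inf_le_right).trans (centralizer_le_normalizer _)
  have e1 := card_cop_deg norm_top hc hG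
  have e2 := card_cop_deg hPC (hc.coprime_dvd_left (card_dvd_of_le inf_le_left)) rfl
  have e3 := normalizer_eq_of_cop norm_top hG (disjoint_of_coprime_natCard hc)
  have e4 : C ⊔ P ≤ centralizer ((P : Subgroup G) : Set G) := sup_le inf_le_right hP
  rw [inf_top_eq] at e3
  rw [card_inv_irr (have := P.isPGroup'.isNilpotent; inferInstance) N norm_top hc.symm, ← hC] at e1
  rw [Nat.card_congr (Equiv.subtypeUnivEquiv (p := fun θ : IrrCharacter C => Inv P C (ez C θ))
      fun θ => inv_of_centralizer (le_centralizer_iff.mp inf_le_right)),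
    Nat.card_congr (Equiv.subtypeUnivEquiv fun ψ => ?_), ← e1, card_irr_eq_card_conjClasses] at e2
  swap
  · refine (cop _).mpr fun e => P.not_dvd_index (e.trans (((irr_ez.mpr ψ.2).deg_dvd_of_comm (centralizer_le_normalizer _ |>.trans' e4)
      le_sup_right (fun x u y v => (hP u y v).symm) (ez_deg ψ)).trans (relIndex_dvd_index_of_le le_sup_right)))
  have e5 := card_split fun χ : IrrCharacter G => p ∣ charDegree (χ : G → ℂ)
  have e6 := card_split fun C : ConjClasses G => p ∣ Nat.card C.carrier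
  have e7 : Nat.card {χ : IrrCharacter G // ¬ p ∣ charDegree (χ : G → ℂ)} =
      Nat.card {χ : IrrCharacter (⊤ : Subgroup G) // (charDegree (χ : (⊤ : Subgroup G) → ℂ)).Coprime (Nat.card P)} := by
    refine card_eq_of_rel (fun χ ψ => (fun x => χ.1.1 x.1) = ψ.1.1) (fun χ => ⟨⟨⟨_, irr_top.mpr χ.1.2⟩, (cop _).mpr χ.2⟩, rfl⟩)
      (fun ψ => ⟨⟨⟨_, irr_top.mp (irr_ez.mpr ψ.1.2)⟩, fun e => (cop _).mp ψ.2 ?_⟩, ez_res _⟩)
      (fun _ _ _ u v => Subtype.ext (Subtype.ext (u.symm.trans v))) fun _ _ _ u v => Subtype.ext (Subtype.ext (funext fun x =>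
        congrFun (u.trans v.symm) ⟨x, trivial⟩))
    rwa [Block.charDegree_of_eq (ez_deg ψ.1)] at e
  have hs : ∀ x : G, Nat.card (ConjClasses.mk x).carrier = (centralizer {x}).index := fun x => by
    rw [Nat.card_coe_set_eq, FGS.ncard_carrier]
  have e8 : Nat.card (ConjClasses (C ⊔ P : Subgroup G)) = Nat.card {C : ConjClasses G // ¬ p ∣ Nat.card C.carrier} := by
    refine card_eq_of_rel (fun X Y => ∃ x, X = ConjClasses.mk x ∧ Y.1 = ConjClasses.mk x.1) (fun X => ?_) (fun Y => ?_) ?_ ?_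
    · obtain ⟨x, rfl⟩ := ConjClasses.mk_surjective X
      exact ⟨⟨_, hs x ▸ FGS.not_dvd_index_of_sylow_le P fun y hy => mem_centralizer_singleton_iff.mpr (e4 x.2 y hy)⟩, x, rfl, rfl⟩
    · obtain ⟨Y, h⟩ := Y
      obtain ⟨y, rfl⟩ := ConjClasses.mk_surjective Y
      obtain ⟨Q, hQ⟩ := FGS.exists_sylow_le_of_not_dvd_index (hs y ▸ h)
      obtain ⟨g, rfl⟩ := MulAction.exists_smul_eq G P Q
      refine ⟨_, ⟨g⁻¹ * y * g, e3.ge (centralizer_le_normalizer _ fun z hz => ?_)⟩, rfl,
        ConjClasses.mk_eq_mk_iff_isConj.mpr (isConj_iff.mpr ⟨g⁻¹, by simp⟩)⟩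
      have := mem_centralizer_singleton_iff.mp (hQ (smul_mem_pointwise_smul z (MulAut.conj g) _ hz))
      rw [← mul_left_cancel_iff (a := g), ← mul_right_cancel_iff (a := g⁻¹)]
      simpa [mul_assoc] using this
    · rintro _ Y Y' ⟨x, rfl, u⟩ ⟨y, v, w⟩
      exact Subtype.ext (by rw [u, w]; exact ConjClasses.mk_eq_mk_iff_isConj.mpr ((Subgroup.subtype _).map_isConj
        (ConjClasses.mk_eq_mk_iff_isConj.mp v)))
    · rintro _ _ Y ⟨x, rfl, u⟩ ⟨y, rfl, w⟩
      obtain ⟨g, hg⟩ := isConj_iff.mp (ConjClasses.mk_eq_mk_iff_isConj.mp (u.symm.trans w))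
      obtain ⟨n, i, j⟩ := P.conj_eq_normalizer_conj_of_mem_centralizer x g⁻¹ (e4 x.2) (by rw [inv_inv, hg]; exact e4 y.2)
      exact ConjClasses.mk_eq_mk_iff_isConj.mpr (isConj_iff.mpr ⟨⟨n, e3.ge i⟩⁻¹, Subtype.ext (by simpa [hg] using j.symm)⟩)
  rw [card_irr_eq_card_conjClasses] at e5
  omega

end Cfsg.Agent.S4763
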