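import Mathlib
import Cfsg.Statements.S4765
import Cfsg.Agent.GL2.PDeg

set_option autoImplicit false
open Cfsg

namespace Cfsg.Agent.S4765

/-- Let F be a finite field of characteristic p with at least 4 elements. Then PSL(2,F) has exactly one irreducible complex character of degree divisible by p, and its degree is the order of F. -/
theorem result (p : ℕ) [Fact p.Prime] (F : Type*) [Field F] [Fintype F] [CharP F p] (hF : 4 ≤ Fintype.card F) : Nat.card {χ : Cfsg.IrrCharacter (Matrix.ProjectiveSpecialLinearGroup (Fin 2) F) // p ∣ Cfsg.charDegree (χ : Matrix.ProjectiveSpecialLinearGroup (Fin 2) F → ℂ)} = 1 ∧ ∀ χ : Cfsg.IrrCharacter (Matrix.ProjectiveSpecialLinearGroup (Fin 2) F), p ∣ Cfsg.charDegree (χ : Matrix.ProjectiveSpecialLinearGroup (Fin 2) F → ℂ) → Cfsg.charDegree (χ : Matrix.ProjectiveSpecialLinearGroup (Fin 2) F → ℂ) = Fintype.card F := by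
  have hp : p ∣ Fintype.card F := by
    obtain ⟨n, -, h⟩ := FiniteField.card F p
    exact h ▸ dvd_pow_self _ n.ne_zero
  have key (χ : Cfsg.IrrCharacter (Matrix.ProjectiveSpecialLinearGroup (Fin 2) F)) (h : p ∣ charDegree χ.1) :
      charDegree χ.1 = Fintype.card F := by
    have h1 := (Fact.out : p.Prime).not_dvd_one
    rcases GL2.degs_dvd (Or.inl ⟨.refl _⟩) ⟨χ, rfl⟩ with e | e | e
    · exact e
    · exact absurd ((Nat.dvd_add_right hp).1 (h.trans e)) h1
    · exact absurd ((Nat.dvd_sub_iff_right (by omega) hp).1 (h.trans e)) h1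
  obtain ⟨ψ, h1, h2⟩ := GL2.exists_PSL (F := F) GL2.isIrr_Sts GL2.Sts_neg_one
  refine ⟨Nat.card_eq_one_iff_exists.2 ⟨⟨⟨ψ, h1⟩, ?_⟩, fun χ => Subtype.ext (Subtype.ext (funext fun x => ?_))⟩, key⟩
  · rwa [Block.charDegree_of_eq (n := Fintype.card F) (by simpa [h2] using GL2.Sts_one (F := F))]
  · obtain ⟨x, rfl⟩ := QuotientGroup.mk_surjective x
    exact congrFun ((GL2.SL_deg_q (Char.isIrr_inflate _ χ.1.2) (by
      simp [← key _ χ.2, Block.charDegree_cast (Char.irr_isChar χ.1)])).trans h2) x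

end Cfsg.Agent.S4765
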