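import Mathlib
import Cfsg.Statements.S4775
import Cfsg.Agent.SzC.Table
import Cfsg.Agent.RankOne.SzLie
import Cfsg.Prelude.Def_DegreeGraph

set_option autoImplicit false
open Cfsg

namespace Cfsg.Agent.S4775

/-- Let F be a finite field with q = 2^(2m+1) ≥ 8 elements and let S be isomorphic to the Suzuki group over F. Then the vertices of the character degree graph of S are 2 and the primes dividing (q − 1)(q² + 1); the primes dividing (q − 1)(q² + 1) are pairwise adjacent, and 2 is adjacent exactly to the primes dividing q − 1. -/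
theorem result (F : Type*) [Field F] [Fintype F] (m : ℕ) (hm : 1 ≤ m) (q : ℕ) (hq : Fintype.card F = q) (hqm : q = 2 ^ (2 * m + 1)) {S : Type*} [Group S] [Finite S] (hS : Nonempty (S ≃* ↥(Cfsg.Lie.Sz F (2 ^ (m + 1))))) : Cfsg.degreePrimes S = {r : ℕ | r.Prime ∧ (r = 2 ∨ r ∣ (q - 1) * (q ^ 2 + 1))} ∧ ∀ r s : ℕ, (Cfsg.degreeGraph S).Adj r s ↔ (r ≠ s ∧ r.Prime ∧ s.Prime ∧ ((r ∣ (q - 1) * (q ^ 2 + 1) ∧ s ∣ (q - 1) * (q ^ 2 + 1)) ∨ (r = 2 ∧ s ∣ q - 1) ∨ (s = 2 ∧ r ∣ q - 1))) := by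
  obtain ⟨e⟩ := hS
  obtain ⟨_, ⟨Z⟩⟩ := RankOne.Sz.exists_model_of_equiv_lie (hq.trans hqm) hm e
  have := Fintype.ofFinite S
  obtain ⟨P, -⟩ := SzC.exists_tori Z
  have h1 := fun d => SzC.mem_charDegrees P (d := d)
  have h2 := SzC.card_mul P
  rw [hq] at h1 h2
  generalize Nat.card P.T = a at h1 h2
  generalize Nat.card P.T' = b at h1 h2
  have h3 : ∀ r k : ℕ, r.Prime → r ∣ 2 ^ k → r = 2 := fun r k hr h =>
    (Nat.prime_dvd_prime_iff_eq hr Nat.prime_two).mp (hr.dvd_of_dvd_pow h)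
  have h4 : ∀ r : ℕ, r.Prime → r ∣ q ^ 2 → r = 2 := fun r hr h => h3 r _ hr (by rwa [hqm, ← pow_mul] at h)
  have h5 : ∀ r : ℕ, r.Prime → r ∣ (q - 1) * 2 ^ m → r ∣ q - 1 ∨ r = 2 := fun r hr h =>
    ((Nat.Prime.dvd_mul hr).mp h).imp id (h3 r _ hr)
  have d1 : q ^ 2 + 1 ∣ (q - 1) * (q ^ 2 + 1) := Dvd.intro_left _ rfl
  have d2 : (q - 1) * b ∣ (q - 1) * (q ^ 2 + 1) := Nat.mul_dvd_mul_left _ (h2 ▸ Dvd.intro_left _ rfl)
  have d3 : (q - 1) * a ∣ (q - 1) * (q ^ 2 + 1) := Nat.mul_dvd_mul_left _ (h2 ▸ Dvd.intro _ rfl)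
  constructor
  · ext r
    constructor
    · rintro ⟨hr, d, hd, h⟩
      refine ⟨hr, ?_⟩
      rcases (h1 d).mp hd with rfl | rfl | rfl | rfl | rfl | rfl
      · exact absurd (Nat.dvd_one.mp h) hr.one_lt.ne'
      · exact Or.inl (h4 r hr h)
      · exact (h5 r hr h).symm.imp id fun h => h.mul_right _
      · exact Or.inr (h.trans d1)
      · exact Or.inr (h.trans d2)
      · exact Or.inr (h.trans d3)
    · rintro ⟨hr, rfl | h⟩
      · exact ⟨hr, q ^ 2, (h1 _).mpr (by simp), by rw [hqm, ← pow_mul]; exact dvd_pow_self 2 (by omega)⟩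
      · rcases (Nat.Prime.dvd_mul hr).mp h with h | h
        · exact ⟨hr, (q - 1) * 2 ^ m, (h1 _).mpr (by simp), h.mul_right _⟩
        · exact ⟨hr, q ^ 2 + 1, (h1 _).mpr (by simp), h⟩
  · intro r s
    constructor
    · rintro ⟨hne, hr, hs, d, hd, h⟩
      refine ⟨hne, hr, hs, ?_⟩
      have e1 : r ∣ d := (Dvd.intro _ rfl).trans h
      have e2 : s ∣ d := (Dvd.intro_left _ rfl).trans h
      rcases (h1 d).mp hd with rfl | rfl | rfl | rfl | rfl | rfl
      · exact absurd (Nat.dvd_one.mp e1) hr.one_lt.ne'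
      · exact absurd ((h4 r hr e1).trans (h4 s hs e2).symm) hne
      · rcases h5 r hr e1 with a1 | a1 <;> rcases h5 s hs e2 with a2 | a2
        · exact Or.inl ⟨a1.mul_right _, a2.mul_right _⟩
        · exact Or.inr (Or.inr ⟨a2, a1⟩)
        · exact Or.inr (Or.inl ⟨a1, a2⟩)
        · exact absurd (a1.trans a2.symm) hne
      · exact Or.inl ⟨e1.trans d1, e2.trans d1⟩
      · exact Or.inl ⟨e1.trans d2, e2.trans d2⟩
      · exact Or.inl ⟨e1.trans d3, e2.trans d3⟩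
    · rintro ⟨hne, hr, hs, h⟩
      refine ⟨hne, hr, hs, ?_⟩
      have key : ∀ d, d ∈ charDegrees S → r ∣ d → s ∣ d → ∃ d ∈ charDegrees S, r * s ∣ d := fun d hd a1 a2 =>
        ⟨d, hd, ((Nat.coprime_primes hr hs).mpr hne).mul_dvd_of_dvd_of_dvd a1 a2⟩
      have t2 : 2 ∣ (q - 1) * 2 ^ m := (dvd_pow_self 2 (by omega)).mul_left _
      rcases h with ⟨a1, a2⟩ | ⟨rfl, a2⟩ | ⟨rfl, a1⟩
      · have kA := key ((q - 1) * a) ((h1 _).mpr (by simp))
        have kB := key ((q - 1) * b) ((h1 _).mpr (by simp))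
        have kC := key (a * b) ((h1 _).mpr (by simp [h2]))
        rw [← h2, Nat.Prime.dvd_mul hr, Nat.Prime.dvd_mul hr] at a1
        rw [← h2, Nat.Prime.dvd_mul hs, Nat.Prime.dvd_mul hs] at a2
        rcases a1 with a1 | a1 | a1 <;> rcases a2 with a2 | a2 | a2
        · exact kA (a1.mul_right _) (a2.mul_right _)
        · exact kA (a1.mul_right _) (a2.mul_left _)
        · exact kB (a1.mul_right _) (a2.mul_left _)
        · exact kA (a1.mul_left _) (a2.mul_right _)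
        · exact kA (a1.mul_left _) (a2.mul_left _)
        · exact kC (a1.mul_right _) (a2.mul_left _)
        · exact kB (a1.mul_left _) (a2.mul_right _)
        · exact kC (a1.mul_left _) (a2.mul_right _)
        · exact kB (a1.mul_left _) (a2.mul_left _)
      · exact key _ ((h1 _).mpr (by simp)) t2 (a2.mul_right _)
      · exact key _ ((h1 _).mpr (by simp)) (a1.mul_right _) t2

end Cfsg.Agent.S4775
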