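import Mathlib
import Cfsg.Statements.S4796
import Cfsg.Agent.Isaacs.Cod
-- import your own Cfsg.Agent.* helpers here

set_option autoImplicit false
open Cfsg

namespace Cfsg.Agent.S4796

open Cfsg.Agent.Char Cfsg.Agent.Isaacs Subgroup

/-- Let G be a finite group with a faithful irreducible complex character χ whose codegree #G / χ(1) is a prime p (for a faithful character the kernel is trivial, so the codegree is #G / χ(1)). Then either G is cyclic of order p, or G is a Frobenius group whose Frobenius kernel has order p: some proper non-trivial subgroup H satisfies H ∩ gHg⁻¹ = 1 for every element g outside H, and the set of elements lying in no conjugate of H, together with the identity, has exactly p elements. -/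
theorem result {G : Type*} [Group G] [Finite G] (χ : Cfsg.IrrCharacter G) (hfaith : ∀ g : G, (χ : G → ℂ) g = (χ : G → ℂ) 1 → g = 1) (p : ℕ) (hp : p.Prime) (hcod : Nat.card G = p * Cfsg.charDegree (χ : G → ℂ)) : (IsCyclic G ∧ Nat.card G = p) ∨ ∃ H : Subgroup G, Cfsg.IsFrobeniusComplement H ∧ Nat.card ↥(Cfsg.frobeniusKernel H) = p := by
  have := Fact.mk hp
  obtain ⟨P, hn, h1, h2, h3⟩ := prime_cod hp χ.2 hcod
  obtain ⟨H, hH⟩ := exists_right_complement'_of_coprime h2
  rcases eq_or_ne H ⊥ with rfl | h0
  · have e : Nat.card G = p := by rw [← h1, isComplement'_bot_right.mp hH, card_top]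
    exact Or.inl ⟨isCyclic_of_prime_card e, e⟩
  · have hF := (H2.Frob.iff_semiregular hH (by rintro rfl; exact hp.ne_one (h1.symm.trans card_bot)) h0).mpr
      fun h hh h4 => eq_bot_iff.mpr fun x ⟨hx, hc⟩ => by
        by_contra h5
        refine h4 (disjoint_def.mp hH.disjoint (h3 hfaith fun y hy => ?_) hh)
        have : (⟨y, hy⟩ : P) ∈ zpowers ⟨x, hx⟩ := mem_zpowers_of_prime_card h1 fun e => h5 (congrArg Subtype.val e)
        obtain ⟨k, hk⟩ := this
        rw [← show x ^ k = y from congrArg Subtype.val hk]
        exact (Commute.zpow_left (mem_centralizer_singleton_iff.mp hc) k)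
    exact Or.inr ⟨H, hF, by rw [H2.Frob.kernel_eq hH hF]; exact h1⟩

end Cfsg.Agent.S4796
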