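import Mathlib
import Cfsg.Statements.S4797
import Cfsg.Agent.Isaacs.Cod
import Cfsg.Agent.Core.Super
import Cfsg.Agent.PGrp.Basic
-- import your own Cfsg.Agent.* helpers here

set_option autoImplicit false
open Cfsg

namespace Cfsg.Agent.S4797

open Cfsg.Agent.Char Cfsg.Agent.Isaacs Subgroup

/-- The codegree of an irreducible complex character χ of a finite group G is [G : ker χ] / χ(1), where ker χ is the set of elements at which χ takes the value χ(1). A non-trivial finite group is perfect if and only if no irreducible complex character of it has prime codegree. -/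
theorem result {G : Type*} [Group G] [Finite G] [Nontrivial G] : commutator G = ⊤ ↔ ∀ χ : Cfsg.IrrCharacter G, ¬ ((Nat.card G / (Nat.card {g : G // (χ : G → ℂ) g = (χ : G → ℂ) 1} * Cfsg.charDegree (χ : G → ℂ)))).Prime := by
  refine ⟨fun h χ hp => ?_, fun h => by_contra fun hc => ?_⟩
  · obtain ⟨_, ψ, -, a, b⟩ := exists_quot χ.2
    obtain ⟨P, hn, h1, -, h3⟩ := prime_cod hp ψ.2 b
    have := Fact.mk hp
    have cy := isCyclic_of_prime_card h1
    have e : commutator (G ⧸ charKer χ.1) = ⊤ := by
      rw [commutator_def, ← map_top_of_surjective _ (QuotientGroup.mk'_surjective _), ← map_commutator,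
        ← commutator_def, h]
    have e2 : P = ⊤ := top_le_iff.mp (e.ge.trans ((Core.commutator_le_centralizer_of_isCyclic P).trans (h3 a)))
    refine hp.ne_one (h1.symm.trans (card_eq_one.mpr (le_bot_iff.mp ?_)))
    rw [e2, ← e, commutator_def, ← e2]
    exact commutator_eq_bot_of_comm fun x hx y hy => Core.comm_of_isMulCommutative cy.isMulCommutative hx hy
  · obtain ⟨M, -, h1, h2, h3⟩ := (show SolvMod (commutator G) ⊤ from ⟨1, by
      rw [derivedSeries_one, Core.map_commutator_subtype]; rfl⟩).exists_prime (Ne.lt_top hc) norm_top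
    obtain ⟨z, -, hz⟩ := SetLike.exists_of_lt h1
    obtain ⟨χ, a, b, c⟩ := exists_irr_not_ker (norm_of_comm_le le_top h2) le_top (mem_top z) hz
    have d := irr_top.mp a
    rw [relIndex_top_right] at h3
    have e : charKer χ = M := ((PGrp.eq_or_eq_top_of_index_prime h3 rfl ((ker_iff (isIrr_isChar d)).mpr b)).resolve_right
      fun e => c ((mem_charKer_iff (isIrr_isChar d)).mp (e.ge (mem_top z))))
    have f := card_eq_cod d
    rw [e, Block.charDegree_of_eq (n := 1) ((a.one_of_ker (b.mono h2)).trans Nat.cast_one.symm), mul_one,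
      ← M.card_mul_index] at f
    exact h ⟨χ, d⟩ (Nat.eq_of_mul_eq_mul_left Nat.card_pos f ▸ h3 : (cod χ).Prime)

end Cfsg.Agent.S4797
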