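import Mathlib
import Cfsg.Statements.S4798
import Cfsg.Agent.Isaacs.Cod
-- import your own Cfsg.Agent.* helpers here

set_option autoImplicit false
open Cfsg

namespace Cfsg.Agent.S4798

open Cfsg.Agent.Char Cfsg.Agent.Isaacs Subgroup

/-- Let p be a prime and χ a faithful irreducible complex character of the finite group G (χ(g) = χ(1) only for g = 1), so that its codegree is #G / χ(1). Then #G / χ(1) is a power of p if and only if χ is induced from a character of a Sylow p-subgroup of G. -/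
theorem result {G : Type*} [Group G] [Fintype G] (p : ℕ) [Fact p.Prime] (χ : Cfsg.IrrCharacter G) (hfaith : ∀ g : G, (χ : G → ℂ) g = (χ : G → ℂ) 1 → g = 1) : (∃ k : ℕ, Nat.card G = p ^ k * Cfsg.charDegree (χ : G → ℂ)) ↔ ∃ (P : Sylow p G) (θ : ↥(P : Subgroup G) → ℂ), Cfsg.IsCharacter ↥(P : Subgroup G) θ ∧ (χ : G → ℂ) = Cfsg.indFun (P : Subgroup G) θ := by
  have hp : p.Prime := Fact.out
  have hi := irr_top.mpr χ.2
  refine ⟨fun ⟨k, hk⟩ => ?_, fun ⟨P, θ, h1, h2⟩ => ?_⟩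
  · obtain ⟨P⟩ := (inferInstance : Nonempty (Sylow p G))
    obtain ⟨n, hn⟩ := P.isPGroup'.exists_card_eq
    obtain ⟨e, he⟩ : (P : Subgroup G).index ∣ charDegree χ.1 :=
      ((hp.coprime_iff_not_dvd.mpr P.not_dvd_index).symm.pow_right k).dvd_of_dvd_mul_left (hk ▸ index_dvd_card _)
    obtain ⟨a, -, rfl⟩ := (Nat.dvd_prime_pow hp (m := n) (i := e)).mp ⟨p ^ k, Nat.eq_of_mul_eq_mul_left
      (Nat.pos_of_ne_zero (index_ne_zero_of_finite (H := (P : Subgroup G)))) (by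
        rw [← hn, index_mul_card, hk, he]; ring)⟩
    obtain ⟨θ, h1, h2, d, h3, h4⟩ : ∃ θ, Irr P θ ∧ inn P χ.1 θ ≠ 0 ∧ ∃ d : ℕ, θ 1 = d ∧ ¬ p ^ (a + 1) ∣ d := by
      by_contra! h
      have := (hi.chr.res le_top).dvd_deg (Block.irr_degree_cast χ).symm h
      rw [he, pow_succ, mul_comm] at this
      exact P.not_dvd_index (Nat.dvd_of_mul_dvd_mul_right (pow_pos hp.pos a) this)
    obtain ⟨b, -, rfl⟩ := (Nat.dvd_prime_pow hp).mp (hn ▸ h1.deg_dvd h3)
    have h5 : inn ⊤ (ind P ⊤ θ) χ.1 ≠ 0 := by rw [inn_ind_left le_top hi.inv]; exact inn_ne_comm h2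
    have h6 : ind P ⊤ θ 1 = ((P : Subgroup G).index * p ^ b : ℕ) := by rw [ind_one, h3, relIndex_top_right]; simp
    have h7 := (h1.chr.indc le_top).deg_le hi h5 h6 (Block.irr_degree_cast χ).symm
    refine ⟨P, _, h1.chr, ?_⟩
    rw [← ind_top, eqv_top.mp ((h1.chr.indc le_top).eqv_of_deg hi h5 (by
      rw [h6, ← Block.irr_degree_cast, le_antisymm h7 (he ▸ Nat.mul_le_mul_left _ (Nat.pow_le_pow_right hp.pos
        (by by_contra! h; exact h4 (pow_dvd_pow p h))))]))]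
  · rw [← ind_top_ez] at h2
    obtain ⟨n, hn⟩ := P.isPGroup'.exists_card_eq
    have h3 := (chr_ez.mpr h1).irr_of_ind le_top (h2 ▸ hi)
    obtain ⟨d, -, hd⟩ := h3.deg
    obtain ⟨c, hc⟩ := h3.deg_dvd hd
    obtain ⟨k, -, rfl⟩ := (Nat.dvd_prime_pow hp).mp (hn ▸ Dvd.intro_left d hc.symm)
    refine ⟨k, ?_⟩
    rw [Block.charDegree_of_eq (n := (P : Subgroup G).index * d) (by rw [h2, ind_one, hd, relIndex_top_right]; simp),
      ← (P : Subgroup G).index_mul_card, hc]; ring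

end Cfsg.Agent.S4798
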