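import Mathlib
import Cfsg.Statements.S4801
import Cfsg.Agent.Isaacs.Cod
-- import your own Cfsg.Agent.* helpers here

set_option autoImplicit false
open Cfsg

namespace Cfsg.Agent.S4801

open Cfsg.Agent.Char Cfsg.Agent.Isaacs Subgroup

/-- The codegree of an irreducible complex character χ of a finite group G is [G : ker χ] / χ(1), where ker χ is the set of elements at which χ takes the value χ(1). Let S be a finite simple group and G a finite group such that every codegree of an irreducible character of S is a codegree of an irreducible character of G. Then the order of S divides the order of G. -/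
theorem result {S : Type*} [Group S] [Finite S] (hS : IsSimpleGroup S) {G : Type*} [Group G] [Finite G] (hsub : ∀ χ : Cfsg.IrrCharacter S, ∃ ψ : Cfsg.IrrCharacter G, (Nat.card S / (Nat.card {g : S // (χ : S → ℂ) g = (χ : S → ℂ) 1} * Cfsg.charDegree (χ : S → ℂ))) = (Nat.card G / (Nat.card {g : G // (ψ : G → ℂ) g = (ψ : G → ℂ) 1} * Cfsg.charDegree (ψ : G → ℂ)))) : Nat.card S ∣ Nat.card G := by
  classical
  refine (Nat.dvd_iff_prime_pow_dvd_dvd _ _).mpr fun p k hp hk => ?_
  rcases k with _ | k
  · simp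
  obtain ⟨χ, h1, h2⟩ : ∃ χ : IrrCharacter S, χ ≠ ⟨_, isIrr_one⟩ ∧ ¬ p ∣ charDegree χ.1 := by
    by_contra! h
    have e := sum_degree_sq (G := S)
    rw [← Finset.add_sum_erase _ _ (Finset.mem_univ ⟨_, isIrr_one⟩), Block.charDegree_of_eq (n := 1) (by simp)] at e
    exact hp.ne_one (Nat.dvd_one.mp ((Nat.dvd_add_left (Finset.dvd_sum fun χ hχ => Dvd.dvd.pow
      (h χ (Finset.ne_of_mem_erase hχ)) two_ne_zero)).mp (e ▸ (dvd_pow_self p k.succ_ne_zero).trans hk)))
  obtain ⟨ψ, e⟩ := hsub χ
  rw [card_eq_cod χ.2, charKer_eq_bot_of_simple χ.2 fun e => h1 (Subtype.ext e), card_bot, one_mul] at hk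
  rw [card_eq_cod ψ.2]
  exact Dvd.dvd.mul_left (Dvd.dvd.mul_right (((hp.coprime_iff_not_dvd.mpr h2).pow_left _).dvd_of_dvd_mul_right
    hk |>.trans (dvd_of_eq e)) _) _

end Cfsg.Agent.S4801
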