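import Mathlib
import Cfsg.Statements.S4802
import Cfsg.Agent.Isaacs.Zero
-- import your own Cfsg.Agent.* helpers here

set_option autoImplicit false
open Cfsg

namespace Cfsg.Agent.S4802

open Cfsg.Agent.Char Cfsg.Agent.Isaacs Subgroup
open scoped ComplexConjugate

/-- Let N < M be normal subgroups of the finite group G and g ∈ M ∖ N. Then the conjugacy class of g is exactly M ∖ N if and only if every irreducible complex character of G whose kernel contains N takes the same value at all elements of M ∖ N, and every irreducible complex character of G whose kernel does not contain N vanishes at g. -/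
theorem result {G : Type*} [Group G] [Finite G] (N M : Subgroup G) [N.Normal] [M.Normal] (hNM : N < M) (g : G) (hgM : g ∈ M) (hgN : g ∉ N) : {h : G | IsConj g h} = (M : Set G) \ (N : Set G) ↔ ((∀ χ : Cfsg.IrrCharacter G, (∀ x ∈ N, (χ : G → ℂ) x = (χ : G → ℂ) 1) → ∀ x ∈ M, x ∉ N → ∀ y ∈ M, y ∉ N → (χ : G → ℂ) x = (χ : G → ℂ) y) ∧ (∀ χ : Cfsg.IrrCharacter G, (∃ x ∈ N, (χ : G → ℂ) x ≠ (χ : G → ℂ) 1) → (χ : G → ℂ) g = 0)) := by
  have := Fintype.ofFinite N
  refine ⟨fun h => ⟨fun χ _ x a b y c d => ?_, fun χ ⟨x, a, b⟩ => ?_⟩, fun ⟨a, b⟩ => Set.ext fun x =>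
    ⟨fun e => ?_, fun e => isConj_of_irr fun χ => ?_⟩⟩
  · rw [← classFun_isConj (irr_classFun χ) (h.ge ⟨a, b⟩), ← classFun_isConj (irr_classFun χ) (h.ge ⟨c, d⟩)]
  · have h1 := BrauerPerm.sum_coset_eq_zero N χ.2 (fun e => b (apply_eq_of_mem_charKer (e a))) g
    rw [Finset.sum_congr rfl (g := fun _ => (χ : G → ℂ) g) fun n _ => (classFun_isConj (irr_classFun χ)
      (h.ge ⟨mul_mem (hNM.le n.2) hgM, fun e => hgN ((N.mul_mem_cancel_left n.2).mp e)⟩)).symm,
      Finset.sum_const, Finset.card_univ, ← Nat.card_eq_fintype_card, nsmul_eq_mul] at h1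
    exact (mul_eq_zero.mp h1).resolve_left card_ne_zero
  · obtain ⟨c, rfl⟩ := isConj_iff.mp e
    exact ⟨Normal.conj_mem ‹_› g hgM c, fun e => hgN (by simpa [mul_assoc] using Normal.conj_mem ‹N.Normal› _ e c⁻¹)⟩
  · by_cases h : ∀ x ∈ N, (χ : G → ℂ) x = (χ : G → ℂ) 1
    · exact Or.inr (a χ h g hgM hgN x e.1 e.2)
    · push Not at h
      exact Or.inl (b χ h)

end Cfsg.Agent.S4802
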