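import Mathlib
import Cfsg.Statements.S4807
import Cfsg.Agent.Isaacs.McKay
import Cfsg.Agent.Block.Omega
-- import your own Cfsg.Agent.* helpers here

set_option autoImplicit false
open Cfsg

namespace Cfsg.Agent.S4807

open Cfsg.Agent.Char Cfsg.Agent.Isaacs Cfsg.Agent.Core Subgroup

/-- Let p be a prime and G a finite p-solvable group, L a normal subgroup of G, S a Sylow p-subgroup of G and P the subgroup generated by L and S (so P/L is a Sylow p-subgroup of G/L), and let ν be an irreducible complex character of L that is invariant under conjugation by every element of P. Let N be the normalizer of P in G (it contains L). Then the number of irreducible characters of G of degree prime to p lying over ν (restriction to L not orthogonal to ν) equals the number of irreducible characters of N of degree prime to p lying over ν. -/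
theorem result {G : Type*} [Group G] [Finite G] (p : ℕ) [Fact p.Prime] (hG : Cfsg.IsPSolvable p G) (L : Subgroup G) [L.Normal] (S : Sylow p G) (P : Subgroup G) (hP : P = L ⊔ (S : Subgroup G)) (hLN : L ≤ (Subgroup.normalizer ((P : Subgroup G) : Set G))) (ν : Cfsg.IrrCharacter ↥L) (hν : ∀ x ∈ P, Cfsg.IsConjCharOf L x (ν : ↥L → ℂ) (ν : ↥L → ℂ)) : Nat.card {χ : Cfsg.IrrCharacter G // ¬ p ∣ Cfsg.charDegree (χ : G → ℂ) ∧ (∑ᶠ l : ↥L, (χ : G → ℂ) (l : G) * (starRingEnd ℂ) ((ν : ↥L → ℂ) l)) ≠ 0} = Nat.card {ψ : Cfsg.IrrCharacter ↥(Subgroup.normalizer ((P : Subgroup G) : Set G)) // ¬ p ∣ Cfsg.charDegree (ψ : ↥(Subgroup.normalizer ((P : Subgroup G) : Set G)) → ℂ) ∧ (∑ᶠ l : ↥L, (ψ : ↥(Subgroup.normalizer ((P : Subgroup G) : Set G)) → ℂ) (Subgroup.inclusion hLN l) * (starRingEnd ℂ) ((ν : ↥L → ℂ) l)) ≠ 0} := by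
  subst hP
  have k : ∀ η : G → ℂ, (∑ᶠ n : L, η n * (starRingEnd ℂ) (ν.1 n)) ≠ 0 ↔ inn L η (ez L ν.1) ≠ 0 := fun η => by
    rw [← inn_finsum]; simp [Nat.card_pos.ne']
  have l : ∀ {H : Type _} [Group H] [Finite H] (χ : IrrCharacter H), PD p χ.1 ↔ ¬ p ∣ charDegree χ.1 := fun χ =>
    ⟨fun ⟨d, a, b⟩ => Block.charDegree_of_eq b ▸ a, fun a => ⟨_, a, (Block.charDegree_cast (isIrr_isChar χ.2)).symm⟩⟩
  have h := mckay_rel Fact.out hG (isSylowOf_top S) L inferInstance _ (irr_ez.mpr ν.2)
    ((inv_ez_iff norm_top _).mpr fun s i => hν s (mem_sup_right i))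
  rw [cnt_top fun _ i => i.1, cnt_eq_card (fun _ i => i.1) fun _ _ i => i.congr hLN] at h
  refine (Nat.card_congr (Equiv.subtypeEquivRight fun χ => ?_)).trans (h.trans (Nat.card_congr
    (Equiv.subtypeEquivRight fun ψ => ?_)))
  · rw [k, ← l, Op, and_iff_right (irr_top.mpr χ.2), and_comm]
  rw [Op, ← k, ← l, and_iff_right (irr_ez.mpr ψ.2), and_comm]
  exact and_congr (exists_congr fun d => by rw [ez_one])
    (by rw [finsum_congr fun x : L => by rw [ez_mem _ (hLN x.2)]]; rfl)

end Cfsg.Agent.S4807
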