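import Mathlib
import Cfsg.Statements.S4813
import Cfsg.Agent.Isaacs.PrimeCD
import Cfsg.Agent.Isaacs.CD3
import Cfsg.Agent.Block.Omega
-- import your own Cfsg.Agent.* helpers here

set_option autoImplicit false
open Cfsg

namespace Cfsg.Agent.S4813

open Cfsg.Agent.Char Cfsg.Agent.Isaacs Cfsg.Agent.Core Subgroup

/-- If every irreducible complex character of the finite group G of degree greater than one has prime degree, then G has at most three distinct irreducible character degrees. -/
theorem result {G : Type*} [Group G] [Finite G] (hprime : ∀ d ∈ Cfsg.charDegrees G, d = 1 ∨ d.Prime) : Nat.card ↥(Cfsg.charDegrees G) ≤ 3 := by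
  have hd : CD (⊥ : Subgroup G) ⊤ fun d => d = 1 ∨ d.Prime := cd_iff.mpr fun χ => hprime _ ⟨χ, rfl⟩
  suffices h : ∃ a b : ℕ, CD (⊥ : Subgroup G) ⊤ fun d => d = 1 ∨ d = a ∨ d = b by
    obtain ⟨a, b, h⟩ := h
    have : charDegrees G ⊆ ({1, a, b} : Finset ℕ) := by
      rintro _ ⟨χ, rfl⟩
      simpa using cd_iff.mp h χ
    exact (Nat.card_mono (Finset.finite_toSet _) this).trans (by
      rw [Nat.card_coe_set_eq, Set.ncard_coe_finset]; exact Finset.card_le_three)
  by_cases hc : commutator G ≤ ⊥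
  · exact ⟨1, 1, (cd_of_comm hc).mono le_rfl fun d h => .inl h⟩
  obtain ⟨K, -, hK⟩ := exists_maxNA hc
  have := hK.normal
  have key : ∀ {a b : ℕ}, a ≠ 1 → b ≠ 1 → ¬ (a * b = 1 ∨ (a * b).Prime) := fun a b h =>
    h.elim (fun h => a (Nat.eq_one_of_mul_eq_one_right h)) (Nat.not_prime_mul a b)
  rcases hK.cases (solvMod_of_solv (solvable_of_mulEquiv topEquiv.symm
    (prime_cd G (hd.mono le_rfl fun d h e => h.resolve_left e)))) with ⟨p, Z, h⟩ | ⟨q, N, h⟩
  · obtain ⟨β, a, b, f, f1, c⟩ := hK.exists_nonlin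
    obtain ⟨i, hi⟩ := h.index
    refine ⟨p, p, fun ψ e _ d g => (hd ψ e ker_bot d g).imp_right fun r => .inl ?_⟩
    by_contra k
    exact key f1 r.ne_one (hd _ (a.mul_of_ker norm_top le_top b e.chr (e.res_of_coprime norm_top le_top g (by
      rw [relIndex_top_right, hi]; exact ((Nat.coprime_primes r h.prime).mpr k).pow_right _))) ker_bot (f * d)
        (by simp [c, g]))
  · have := h.normal
    have i1 : N.index ≠ 1 := fun e => h.ne (index_eq_one.mp e)
    obtain ⟨β, a, b, c⟩ := h.exists_deg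
    have i2 := (hd β a ker_bot _ c).resolve_left i1
    refine ⟨q, N.index, fun χ e _ d g => (hd χ e ker_bot d g).imp_right fun r => ?_⟩
    obtain ⟨ψ, x, y⟩ := e.exists_under (L := N) le_top
    obtain ⟨k, k1, k2⟩ := e.deg_dvd_rel norm_top le_top x y
    obtain ⟨n, -, hn⟩ := x.deg
    rw [g, hn] at k2
    obtain rfl : d = k * n := by exact_mod_cast k2
    by_cases n1 : n = 1
    · rw [relIndex_top_right] at k1
      rw [n1, mul_one] at r ⊢
      exact .inr ((Nat.prime_dvd_prime_iff_eq r i2).mp k1)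
    rcases h.dich x with ⟨η, u, v⟩ | u
    · exact absurd (hd η u ker_bot (N.index * n) (by rw [v, hn, Nat.cast_mul])) (key i1 n1)
    · exact .inl ((Nat.prime_dvd_prime_iff_eq h.prime r).mp ((h.dvd_of_vanish x.chr u hn).mul_left k)).symm

end Cfsg.Agent.S4813
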