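import Mathlib
import Cfsg.Statements.S4814
import Cfsg.Agent.Isaacs.Zero
-- import your own Cfsg.Agent.* helpers here

set_option autoImplicit false
open Cfsg

namespace Cfsg.Agent.S4814

open Cfsg.Agent.Char Cfsg.Agent.Isaacs Subgroup
open scoped ComplexConjugate

/-- Let G be a finite group such that the sum, over the irreducible complex characters χ of G, of 1/χ(1)² is less than 2. Then every element of G is a product of two commutators. -/
theorem result {G : Type*} [Group G] [Finite G]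
    (h : ∑ᶠ χ : Cfsg.IrrCharacter G, 1 / ‖(χ : G → ℂ) 1‖ ^ 2 < (2 : ℝ)) (g : G) :
    ∃ a b c d : G, (a * b * a⁻¹ * b⁻¹) * (c * d * c⁻¹ * d⁻¹) = g := by
  classical
  have := Fintype.ofFinite G
  by_contra hc
  push Not at hc
  have h1 : ∑ a : G, ∑ b : G, ∑ c : G, ∑ d : G, ∑ χ : IrrCharacter G, (χ : G → ℂ) 1 *
      (χ : G → ℂ) (b * a * b⁻¹ * a⁻¹ * (g⁻¹ * (d * c * d⁻¹ * c⁻¹))) = 0 := by
    refine Finset.sum_eq_zero fun a _ => Finset.sum_eq_zero fun b _ => Finset.sum_eq_zero fun c _ =>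
      Finset.sum_eq_zero fun d _ => sum_irr_one_mul_of_ne fun e => hc d c b a ?_
    rw [← mul_assoc, mul_eq_one_iff_eq_inv, mul_inv_eq_iff_eq_mul] at e
    rw [e, mul_inv_cancel_left]
  have h2 : ∀ χ : IrrCharacter G, ∑ a : G, ∑ b : G, ∑ c : G, ∑ d : G, (χ : G → ℂ) 1 *
      (χ : G → ℂ) (b * a * b⁻¹ * a⁻¹ * (g⁻¹ * (d * c * d⁻¹ * c⁻¹))) =
      (Nat.card G : ℂ) ^ 4 * ((χ : G → ℂ) g⁻¹ / (χ : G → ℂ) 1 ^ 3) := fun χ => by
    rw [Finset.sum_congr rfl fun a _ => Finset.sum_comm, Finset.sum_comm,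
      Finset.sum_congr rfl fun a _ => Finset.sum_congr rfl fun b _ => Finset.sum_comm,
      Finset.sum_congr rfl fun a _ => Finset.sum_comm]
    simp only [← Finset.mul_sum, isIrr_sum_comm_mul χ.2, classFun_mul_comm (irr_classFun χ) g⁻¹]
    have := isIrr_one_ne_zero χ.2
    field_simp
  rw [Finset.sum_congr rfl fun a _ => Finset.sum_congr rfl fun b _ => Finset.sum_congr rfl fun c _ =>
    Finset.sum_comm, Finset.sum_congr rfl fun a _ => Finset.sum_congr rfl fun b _ => Finset.sum_comm,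
    Finset.sum_congr rfl fun a _ => Finset.sum_comm, Finset.sum_comm, Finset.sum_congr rfl fun χ _ => h2 χ,
    ← Finset.mul_sum, mul_eq_zero, ← Finset.add_sum_erase _ _ (Finset.mem_univ ⟨_, isIrr_one⟩)] at h1
  rw [finsum_irr, ← Finset.add_sum_erase _ _ (Finset.mem_univ ⟨_, isIrr_one⟩)] at h
  have h3 := h1.resolve_left (pow_ne_zero _ card_ne_zero)
  simp only [one_pow, div_one, norm_one] at h3 h
  have h4 := congrArg norm (eq_neg_of_add_eq_zero_left h3)
  rw [norm_one, norm_neg] at h4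
  refine absurd (h4.le.trans ((norm_sum_le _ _).trans (Finset.sum_le_sum
    (g := fun χ : IrrCharacter G => 1 / ‖(χ : G → ℂ) 1‖ ^ 2) fun χ _ => ?_))) (by linarith)
  have h5 := norm_pos_iff.mpr (isIrr_one_ne_zero χ.2)
  rw [norm_div, norm_pow, div_le_div_iff₀ (by positivity) (by positivity), one_mul, pow_succ' _ 2]
  exact mul_le_mul_of_nonneg_right (isChar_norm_le' (irr_isChar χ) _) (by positivity)

end Cfsg.Agent.S4814
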