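import Mathlib
import Cfsg.Statements.S4825
import Cfsg.Agent.Block.Cover2
import Cfsg.Agent.Block.Height
-- import your own Cfsg.Agent.* helpers here

set_option autoImplicit false
open Cfsg

namespace Cfsg.Agent.S4825

open Cfsg.Agent.Char Cfsg.Agent.Block
open scoped ComplexConjugate

theorem key {G : Type*} [Group G] [Finite G] {p : ℕ} [hp : Fact p.Prime] {M : Ideal AlgInt} (hM : IsPModular p M)
    {B : Set (IrrCharacter G)} (hB : IsPBlock M B) {N : Subgroup G} [hN : N.Normal] [Fintype N]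
    {x : G} (hx : ∃ k, orderOf x = p ^ k) (hxN : x ∉ N) (θ : IrrCharacter N) (s : Finset (IrrCharacter G))
    (hs : ∀ χ, χ ∈ s ↔ χ ∈ B ∧ classInner (fun n : N => (χ : G → ℂ) n) (θ : N → ℂ) ≠ 0) :
    p ∣ ∑ χ ∈ s, charDegree (χ : G → ℂ) ^ 2 := by
  classical
  have := Fintype.ofFinite G
  have h1 : blockIdem (B ∩ overSet ({θ} : Set (IrrCharacter N))) =
      blockIdem B * incl N (blockIdem (orbSet ({θ} : Set (IrrCharacter N)))) := by
    rw [(gInv_orbSet _).incl_blockIdem, overSet_orbSet, blockIdem_mul_blockIdem]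
  have h2 : blockCoeff (B ∩ overSet ({θ} : Set (IrrCharacter N))) x⁻¹ = 0 := by
    rw [← coeff_blockIdem, h1, coeff_mul_right]
    refine Finset.sum_eq_zero fun h _ => ?_
    by_cases hh : h ∈ N
    · rw [coeff_blockIdem, blockCoeff_eq_zero_of_dvd hM (isV_blockIdem hM hB), zero_mul]
      obtain ⟨k, hk⟩ := hx
      have e : (QuotientGroup.mk' N) (x⁻¹ * h⁻¹) = ((QuotientGroup.mk' N) x)⁻¹ := by
        rw [map_mul, map_inv, map_inv, show QuotientGroup.mk' N h = 1 from (QuotientGroup.eq_one_iff h).2 hh]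
        simp
      have d1 : orderOf ((QuotientGroup.mk' N) x) ∣ p ^ k := hk ▸ orderOf_map_dvd _ x
      obtain ⟨j, -, hj⟩ := (Nat.dvd_prime_pow hp.out).1 d1
      have j0 : j ≠ 0 := by
        rintro rfl
        rw [pow_zero, orderOf_eq_one_iff] at hj
        exact hxN ((QuotientGroup.eq_one_iff x).1 hj)
      refine (dvd_pow_self p j0).trans ?_
      rw [← hj, ← orderOf_inv, ← e]
      exact orderOf_map_dvd _ _
    · rw [coeff_incl_of_notMem _ _ hh, mul_zero]
  rw [blockCoeff_eq_sum, mul_eq_zero] at h2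
  have h3 := h2.resolve_left (inv_ne_zero (Nat.cast_ne_zero.2 Nat.card_pos.ne'))
  have h4 : ∑ χ ∈ s, (χ : G → ℂ) 1 * (χ : G → ℂ) x = 0 := by
    rw [← h3]
    refine Finset.sum_congr ?_ fun χ _ => ?_
    · ext χ
      simp [hs, overSet]
    · rw [isIrr_inv χ.2, Complex.conj_conj]
  rw [← val_natCast_lt_one_iff hM, ← red_eq_zero_iff (mem_V_iff.2 (val_natCast_le_one M _))]
  have h5 := congrArg (red M) h4
  rw [red_zero, red_sum _ fun χ _ => mul_mem (isChar_mem_V (isIrr_isChar χ.2) _) (isChar_mem_V (isIrr_isChar χ.2) _)] at h5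
  rw [red_natCast, ← h5]
  push_cast
  refine Finset.sum_congr rfl fun χ _ => ?_
  have h6 := red_char_mul hM (isIrr_isChar χ.2) hx (Commute.one_right x)
  rw [mul_one] at h6
  rw [red_mul (isChar_mem_V (isIrr_isChar χ.2) _) (isChar_mem_V (isIrr_isChar χ.2) _), h6,
    ← irr_degree_cast, red_natCast, sq]

/-- Let p be a prime, G a finite group with Sylow p-subgroup P, M a maximal ideal of the algebraic integers containing p, and B a p-block of G with defect group P. Let N be a normal subgroup of G not containing P and θ an irreducible character of N. Then the number of irreducible characters in B of degree prime to p lying over θ (having θ as a constituent on restriction to N) is either 0 or at least 2, and when p ≤ 3 it is divisible by p. -/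
theorem result {G : Type*} [Group G] [Fintype G] (p : ℕ) [Fact p.Prime] (P : Sylow p G) (M : Ideal Cfsg.AlgInt) (hM : Cfsg.IsPModular p M) (B : Set (Cfsg.IrrCharacter G)) (hB : Cfsg.IsPBlock M B) (hBP : Cfsg.IsDefectGroup p M B P) (N : Subgroup G) [N.Normal] [Fintype N] (hPN : ¬ (P : Subgroup G) ≤ N) (θ : Cfsg.IrrCharacter N) :
    (Nat.card {χ : Cfsg.IrrCharacter G // χ ∈ B ∧ ¬ p ∣ Cfsg.charDegree (χ : G → ℂ) ∧ Cfsg.classInner (fun n : N => (χ : G → ℂ) n) (θ : N → ℂ) ≠ 0} = 0 ∨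
      2 ≤ Nat.card {χ : Cfsg.IrrCharacter G // χ ∈ B ∧ ¬ p ∣ Cfsg.charDegree (χ : G → ℂ) ∧ Cfsg.classInner (fun n : N => (χ : G → ℂ) n) (θ : N → ℂ) ≠ 0}) ∧
    (p ≤ 3 → p ∣ Nat.card {χ : Cfsg.IrrCharacter G // χ ∈ B ∧ ¬ p ∣ Cfsg.charDegree (χ : G → ℂ) ∧ Cfsg.classInner (fun n : N => (χ : G → ℂ) n) (θ : N → ℂ) ≠ 0}) := by
  classical
  have hp : Fact p.Prime := inferInstance
  obtain ⟨x, hxP, hxN⟩ := SetLike.not_le_iff_exists.1 hPN
  have hx := exists_orderOf_eq_pow_of_mem hp.out P.2 hxP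
  set s : Finset (IrrCharacter G) := {χ | χ ∈ B ∧ classInner (fun n : N => (χ : G → ℂ) n) (θ : N → ℂ) ≠ 0}
    with hs
  have h := key hM hB hx hxN θ s (fun χ => by simp [hs])
  set t : Finset (IrrCharacter G) := s.filter (fun χ => ¬ p ∣ charDegree (χ : G → ℂ)) with ht
  have e : Nat.card {χ : Cfsg.IrrCharacter G // χ ∈ B ∧ ¬ p ∣ Cfsg.charDegree (χ : G → ℂ) ∧
      Cfsg.classInner (fun n : N => (χ : G → ℂ) n) (θ : N → ℂ) ≠ 0} = t.card := by
    refine Nat.subtype_card _ fun χ => ?_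
    simp only [ht, hs, Finset.mem_filter, Finset.mem_univ, true_and]
    tauto
  rw [e]
  have h2 : p ∣ ∑ χ ∈ t, charDegree (χ : G → ℂ) ^ 2 := by
    rw [← Finset.sum_filter_add_sum_filter_not s (fun χ => p ∣ charDegree (χ : G → ℂ))] at h
    refine (Nat.dvd_add_right (Finset.dvd_sum fun χ hχ => ?_)).1 h
    exact ((Finset.mem_filter.1 hχ).2).trans (dvd_pow_self _ two_ne_zero)
  refine ⟨?_, fun h3 => ?_⟩
  · by_contra hc
    have h1 : t.card = 1 := by omega
    obtain ⟨χ, hχ⟩ := Finset.card_eq_one.1 h1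
    have : χ ∈ t := by rw [hχ]; simp
    rw [hχ, Finset.sum_singleton] at h2
    exact (Finset.mem_filter.1 this).2 (hp.out.dvd_of_dvd_pow h2)
  · have h4 : ∑ χ ∈ t, charDegree (χ : G → ℂ) ^ 2 ≡ ∑ χ ∈ t, 1 [MOD p] := by
      refine Nat.ModEq.sum fun χ hχ => ?_
      have hn := (Finset.mem_filter.1 hχ).2
      generalize charDegree (χ : G → ℂ) = n at hn
      have h2 := hp.out.two_le
      have : p = 2 ∨ p = 3 := by omega
      rcases this with rfl | rfl
      · have : n % 2 = 1 := by omega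
        rw [Nat.ModEq, Nat.pow_mod, this]
      · have : n % 3 = 1 ∨ n % 3 = 2 := by omega
        rcases this with h | h <;> rw [Nat.ModEq, Nat.pow_mod, h]
    rw [Finset.sum_const, smul_eq_mul, mul_one] at h4
    exact (h4.dvd_iff dvd_rfl).1 h2

end Cfsg.Agent.S4825
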