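import Mathlib
import Cfsg.Statements.S4828
import Cfsg.Agent.Block.Quot3

set_option autoImplicit false
open Cfsg

namespace Cfsg.Agent.S4828

open Cfsg.Agent.Block Cfsg.Agent.Char Subgroup

/-- Let p be a prime, M a maximal ideal of the algebraic integers containing p, and (Q, e) a Brauer pair of the finite group G (Q a p-subgroup, e a block of C_G(Q)). Then (Q, e) is a maximal Brauer pair of some block of G if and only if e contains an irreducible character θ such that θ takes the value θ(1) at every element of Z(Q) = Q ∩ C_G(Q), the p-part of θ(1) times the p-part of the order of Z(Q) equals the p-part of the order of C_G(Q) (θ has defect zero as a character of C_G(Q)/Z(Q)), and every element of N_G(Q) of p-power order that stabilizes e lies in Q·C_G(Q) (the stabilizer of e in N_G(Q) has index prime to p over Q·C_G(Q)). -/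
theorem result {G : Type*} [Group G] [Finite G] (p : ℕ) [Fact p.Prime] (M : Ideal Cfsg.AlgInt) (hM : Cfsg.IsPModular p M) (Q : Subgroup G) (e : Set (Cfsg.IrrCharacter (Subgroup.centralizer (Q : Set G)))) (he : Cfsg.IsBrauerPair p M Q e) :
    (∃ B : Set (Cfsg.IrrCharacter G), Cfsg.IsMaximalBrauerPair p M B Q e) ↔
      ∃ θ ∈ e, (∀ z : Subgroup.centralizer (Q : Set G), (z : G) ∈ Q → (θ : Subgroup.centralizer (Q : Set G) → ℂ) z = (θ : Subgroup.centralizer (Q : Set G) → ℂ) 1) ∧
        (Cfsg.charDegree (θ : Subgroup.centralizer (Q : Set G) → ℂ)).factorization p + (Nat.card ↥(Q ⊓ Subgroup.centralizer (Q : Set G))).factorization p = (Nat.card (Subgroup.centralizer (Q : Set G))).factorization p ∧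
        (∀ g : G, g ∈ Subgroup.normalizer (Q : Set G) → Cfsg.StabilizesBlock (Subgroup.centralizer (Q : Set G)) e g → (∃ k : ℕ, orderOf g = p ^ k) → g ∈ Q ⊔ Subgroup.centralizer (Q : Set G)) := by
  let C := centralizer (Q : Set G)
  have ha : IsBP p M ⟨Q, e⟩ := he
  have hZ : (Q ⊓ C).subgroupOf C ≤ center C := fun z hz => mk_mem_center hz.1 z.2
  have : ((Q ⊓ C).subgroupOf C).Normal :=
    ⟨fun n hn g => by rwa [mem_center_iff.1 (hZ hn) g, mul_inv_cancel_right]⟩
  have hp : IsPGroup p ((Q ⊓ C).subgroupOf C) := (he.1.to_le inf_le_left).comap_subtype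
  have hcard := factorization_card_eq (p := p) ((Q ⊓ C).subgroupOf C)
  rw [Nat.card_congr (subgroupOfEquivOfLe inf_le_right).toEquiv] at hcard
  have hN : MulAction.stabilizer G (⟨Q, e⟩ : BrauerPairIdx G) ≤
      normalizer ((Q ⊔ C : Subgroup G) : Set G) :=
    (stabilizer_le_normalizer _).trans (normalizer_le_normalizer_sup_centralizer Q)
  constructor
  · rintro ⟨B, hd⟩
    replace hd : IsMaxBP p M B ⟨Q, e⟩ := hd
    obtain ⟨h1, h2⟩ := DefIn.of_stabilizer hM ha (mid_stabilizer _) le_rfl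
      (hd.defIn hM (mid_stabilizer _).le le_rfl)
    have h3 := (isDefectGroup_iff_defIn hM he.2 inf_le_right).2 h2
    obtain ⟨θ, hθ, hk⟩ := exists_le_charKer hM he.2 hp
    refine ⟨θ, hθ, fun z hz => le_charKer_iff'.1 hk z ⟨hz, z.2⟩, ?_, fun g hg hs ho => ?_⟩
    · rw [factorization_of_le_charKer hM he.2 h3 hθ hk, hcard, add_comm]
    · exact le_of_not_dvd_relIndex hM.1 hN (by rwa [sup_comm]) (isPGroup_zpowers_of_orderOf ho)
        (zpowers_le.2 (mem_stabilizer_pair.2 ⟨hg, hs⟩)) (mem_zpowers g)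
  · rintro ⟨θ, hθ, -, h1, h2⟩
    obtain ⟨B, hB⟩ := exists_isBPOf hM ha
    have h3 := DefIn.sup (a := ⟨Q, e⟩) he.1 ((isDefectGroup_iff_defIn hM he.2 inf_le_right).1
      (laradji hM he.2 hp hZ hθ (by simp only [C] at hcard ⊢; omega)))
    rw [sup_inf_self] at h3
    obtain ⟨T, hT⟩ := LocalEven.exists_isSylowIn p
      (MulAction.stabilizer G (⟨Q, e⟩ : BrauerPairIdx G))
    exact ⟨B, hB.isMaxBP_of_not_dvd hM h3 (hT.not_dvd_of_le fun g hg =>
      h2 g (mem_stabilizer_pair.1 (hT.le hg)).1 (mem_stabilizer_pair.1 (hT.le hg)).2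
        (exists_orderOf_eq_pow_of_mem hM.1 hT.pgrp hg))⟩

end Cfsg.Agent.S4828
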