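import Mathlib
import Cfsg.Statements.S4837
import Cfsg.Agent.Isaacs.Gagola
import Cfsg.Agent.PGrp.Comm
-- import your own Cfsg.Agent.* helpers here

set_option autoImplicit false
open Cfsg

namespace Cfsg.Agent.S4837

open Cfsg.Agent.Char Cfsg.Agent.Isaacs Subgroup
open scoped commutatorElement

/-- Let G be a finite group of order greater than 2 with an irreducible character χ nonzero on exactly two conjugacy classes, and let N be the set of elements where χ is nonzero, given as a nontrivial normal p-subgroup of G for the prime p. Then for every nonidentity x in N the centralizer C_G(x) is a Sylow p-subgroup of G, and for every irreducible character λ ≠ 1 of N the stabilizer of λ in G (its inertia group) is a Sylow p-subgroup of G. -/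
theorem result {G : Type*} [Group G] [Finite G] (hG : 2 < Nat.card G) (χ : Cfsg.IrrCharacter G) (hχ : Nat.card {C : ConjClasses G // ∃ g ∈ C.carrier, (χ : G → ℂ) g ≠ 0} = 2) (p : ℕ) [Fact p.Prime] (N : Subgroup G) [N.Normal] (hN : ∀ g : G, g ∈ N ↔ (χ : G → ℂ) g ≠ 0) (hNp : IsPGroup p N) (hN1 : N ≠ ⊥) :
    (∀ x ∈ N, x ≠ 1 → ∃ P : Sylow p G, Subgroup.centralizer ({x} : Set G) = P) ∧
      (∀ μ : Cfsg.IrrCharacter N, (μ : N → ℂ) ≠ (fun _ => (1 : ℂ)) → ∃ P : Sylow p G, ∀ g : G, g ∈ (P : Subgroup G) ↔ ∀ n n' : N, (n' : G) = g * n * g⁻¹ → (μ : N → ℂ) n' = (μ : N → ℂ) n) := by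
  have h := gag_of hG hχ hN
  obtain ⟨P⟩ := (inferInstance : Nonempty (Sylow p G))
  refine ⟨fun x hx h1 => ?_, fun μ hμ => ?_⟩
  · obtain ⟨z, ⟨hz, hc⟩, z1⟩ := (SetLike.lt_iff_le_and_exists.mp (bot_lt_iff_ne_bot.mpr
      (Core.inf_centralizer_ne_bot_of_isPGroup hNp P.isPGroup' norm_top hN1))).2
    obtain ⟨g, rfl⟩ := isConj_iff.mp (h.cnj z hz x hx z1 h1)
    refine ⟨g • P, (g • P).is_maximal' (h.pgroup hNp hx h1) ?_⟩
    rintro _ ⟨u, hu, rfl⟩
    simpa [mem_centralizer_singleton_iff, mul_assoc] using congrArg (g * · * g⁻¹) (hc u hu)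
  · obtain ⟨z, hz, z1⟩ := SetLike.exists_of_lt (Core.commutator_lt_of_isPGroup hNp P.isPGroup' norm_top hN1)
    obtain ⟨q, -, hq, -⟩ := h.exists_elem
    have hc : ∀ a ∈ N, ∀ b ∈ N, a * b = b * a := fun a ha b hb => Core.comm_of_isMulCommutative hq ha hb
    have hl : ⁅N, (P : Subgroup G)⁆ ≤ N := commutator_le_left _ _
    obtain ⟨l, l1, l2, l3⟩ := exists_irr_not_ker (norm_of_comm_le hl (commutator_eq_bot_of_comm hc)) hl hz z1
    have key : ∀ θ, Irr N θ → ¬ Ker N θ → inn N χ.1 θ ≠ 0 := fun θ a b => by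
      obtain ⟨ψ, c, d⟩ := a.exists_over le_top
      rcases eq_or_ne ⟨ψ, irr_top.mp c⟩ χ with rfl | e
      · exact d
      · exact absurd (Ker.constit (h.ker _ e) (c.chr.res le_top) le_rfl a d) b
    have m1 := irr_ez.mpr μ.2
    have m2 : ¬ Ker N (ez N μ) := fun a => hμ ((ez_res μ.1).symm.trans (m1.eqv_one a).eq)
    obtain ⟨g, -, e⟩ := (irr_top.mpr χ.2).exists_cj norm_top le_top l1 m1 (key l l1 fun a => l3 (a z hz)) (key _ m1 m2)
    refine ⟨g⁻¹ • P, fun x => ?_⟩
    rw [← (g⁻¹ • P).is_maximal' (Q := stab N (ez N μ)) ?_ ?_, mem_stab, and_iff_right (norm_top (mem_top x))]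
    · exact ⟨fun a n n' b => by rw [← ez_coe μ.1, ← ez_coe μ.1, b, ← a n n.2, cj_apply], fun a n hn => by
        rw [cj_apply, ez_mem _ hn, ez_mem _ (‹N.Normal›.conj_mem n hn x)]; exact a _ _ rfl⟩
    · refine Core.isPGroup_iff_isPiSubgroup.mpr fun r hr hd => by_contra fun a => ?_
      have := Fact.mk hr
      obtain ⟨y, hy⟩ := exists_prime_orderOf_dvd_card' r hd
      refine hμ (BrauerPerm.eq_one_of_conjFn_eq N (g := y) (fun n hn b => by_contra fun c => hr.ne_one ?_) μ.2 ?_)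
      · rw [← hy, ← orderOf_coe, h.eq_one hNp hn c b (by
          rw [orderOf_coe, hy]; exact (Nat.coprime_primes hr Fact.out).mpr a), orderOf_one]
      · have : y.1 ∈ _ := (inertia_eq (L := N) (θ := ez N μ)).ge y.2
        rw [ez_res] at this
        exact this
    · rintro _ ⟨u, hu, rfl⟩
      rw [stab_congr e, mem_stab_cj (norm_top (mem_top g))]
      refine (le_stab norm_top).mpr (fun a ha n hn => ?_) (by simp [mul_assoc]; exact hu)
      rw [PGrp.conj_eq_commutator_mul]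
      have : ⁅a, n⁆ ∈ ⁅N, (P : Subgroup G)⁆ := by rw [commutator_comm]; exact commutator_mem_commutator ha hn
      exact l1.chr.mul_of_eq (hl this) (l2 _ this) hn

end Cfsg.Agent.S4837
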