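import Mathlib
import Cfsg.Statements.S4838
import Cfsg.Agent.Isaacs.Gagola
-- import your own Cfsg.Agent.* helpers here

set_option autoImplicit false
open Cfsg

namespace Cfsg.Agent.S4838

open Cfsg.Agent.Char Cfsg.Agent.Isaacs Subgroup
open scoped commutatorElement

/-- Let G be a finite group of order greater than 2 with an irreducible character χ nonzero on exactly two conjugacy classes, N the normal p-subgroup of elements where χ is nonzero, and P a Sylow p-subgroup of G. Then (a) for every x outside N the centralizer of x in G has the same order as the centralizer of xN in G/N; (b) the centre of P lies in N, and equals N exactly when P is normal in G; (c) N, viewed inside P, is a term of the upper central series of P. -/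
theorem result {G : Type*} [Group G] [Finite G] (hG : 2 < Nat.card G) (χ : Cfsg.IrrCharacter G) (hχ : Nat.card {C : ConjClasses G // ∃ g ∈ C.carrier, (χ : G → ℂ) g ≠ 0} = 2) (p : ℕ) [Fact p.Prime] (N : Subgroup G) [N.Normal] (hN : ∀ g : G, g ∈ N ↔ (χ : G → ℂ) g ≠ 0) (hNp : IsPGroup p N) (hN1 : N ≠ ⊥) (P : Sylow p G) :
    (∀ x : G, x ∉ N → Nat.card (Subgroup.centralizer ({x} : Set G)) = Nat.card (Subgroup.centralizer ({(x : G ⧸ N)} : Set (G ⧸ N)))) ∧
      ((Subgroup.center ↥(P : Subgroup G)).map (P : Subgroup G).subtype ≤ N ∧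
        ((Subgroup.center ↥(P : Subgroup G)).map (P : Subgroup G).subtype = N ↔ (P : Subgroup G).Normal)) ∧
      (∃ i : ℕ, Subgroup.upperCentralSeries ↥(P : Subgroup G) i = N.subgroupOf (P : Subgroup G)) := by
  have h := gag_of hG hχ hN
  have hl : N ≤ P := hNp.le_sylow_of_normal P
  have key : ∀ i, Subgroup.upperCentralSeries P i < N.subgroupOf P → Subgroup.upperCentralSeries P (i + 1) ≤ N.subgroupOf P :=
    fun i hi z hz => by_contra fun a => (Core.card_lt_of_lt hi).not_ge (by
      rw [Core.card_subgroupOf_of_le hl, ← Core.card_map_subtype (Subgroup.upperCentralSeries P i)]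
      exact h.card_le hNp P a fun g hg => PGrp.commutator_symm_mem
        ⟨_, Subgroup.mem_upperCentralSeries_succ_iff.mp hz ⟨g, hg⟩, rfl⟩)
  have h0 : ⊥ < N.subgroupOf P := bot_lt_iff_ne_bot.mpr fun e => hN1 (by
    rw [← map_subgroupOf_eq_of_le hl, e, Subgroup.map_bot])
  have h1 : (center P).map (P : Subgroup G).subtype ≤ N := map_le_iff_le_comap.mpr
    (Subgroup.upperCentralSeries_one P ▸ key 0 h0)
  refine ⟨fun x => h.card_cent, ⟨h1, fun e => ?_, fun e => h1.antisymm (h.le ?_)⟩, by_contra fun a => ?_⟩
  · obtain ⟨x, x1⟩ := ne_bot_iff_exists_ne_one.mp hN1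
    rw [← P.is_maximal' (Q := centralizer N) ((h.pgroup hNp x.2 fun b => x1 (Subtype.ext b)).to_le
      (centralizer_le (Set.singleton_subset_iff.mpr x.2))) fun u hu n hn => by
        obtain ⟨z, hz, rfl⟩ := e.ge hn
        exact congrArg Subtype.val (mem_center_iff.mp hz ⟨u, hu⟩).symm]
    infer_instance
  · have : Nontrivial P := (nontrivial_iff_ne_bot _).mpr fun b => hN1 (le_bot_iff.mp (b ▸ hl))
    rw [Ne, map_eq_bot_iff_of_injective _ (subtype_injective _), ← Ne, ← nontrivial_iff_ne_bot]
    exact P.isPGroup'.center_nontrivial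
  · have := P.isPGroup'.isNilpotent
    have : ∀ i, Subgroup.upperCentralSeries P i < N.subgroupOf P := fun i => by
      induction i with
      | zero => exact h0
      | succ i ih => exact (key i ih).lt_of_ne fun b => a ⟨_, b⟩
    exact not_top_lt (Subgroup.upperCentralSeries_nilpotencyClass (G := P) ▸ this _)

end Cfsg.Agent.S4838
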