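import Mathlib
import Cfsg.Statements.S4839
import Cfsg.Agent.Isaacs.Gagola
import Cfsg.Agent.LocalEven.Sidki
import Cfsg.Agent.H2.FrobComplement
import Cfsg.Agent.H2.Frobenius
import Cfsg.Agent.Core.Cores
-- import your own Cfsg.Agent.* helpers here

set_option autoImplicit false
open Cfsg

namespace Cfsg.Agent.S4839

open Cfsg.Agent.Char Cfsg.Agent.Isaacs Cfsg.Agent.Core Subgroup

theorem bij {G : Type*} [Group G] [Finite G] {N : Subgroup G} [hN : N.Normal] (y : G) :
    N ⊓ centralizer {y} = ⊥ ↔ ∀ n ∈ N, ∃ m ∈ N, m * y * m⁻¹ = n * y := by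
  let f : N → N := fun m => ⟨m * y * (m : G)⁻¹ * y⁻¹, by
    rw [mul_assoc, mul_assoc, ← mul_assoc y]; exact mul_mem m.2 (hN.conj_mem _ (inv_mem m.2) y)⟩
  have h1 : N ⊓ centralizer {y} = ⊥ ↔ Function.Injective f := by
    constructor
    · intro h a b e
      have e1 : (a : G) * y * (a : G)⁻¹ * y⁻¹ = b * y * (b : G)⁻¹ * y⁻¹ := congrArg Subtype.val e
      have : (b : G)⁻¹ * a ∈ N ⊓ centralizer {y} := ⟨N.mul_mem (N.inv_mem b.2) a.2, mem_centralizer_singleton_iff.2 (by
        calc (b : G)⁻¹ * a * y = (b : G)⁻¹ * (a * y * (a : G)⁻¹ * y⁻¹) * y * a := by group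
          _ = _ := by rw [e1]; group)⟩
      rw [h, mem_bot, inv_mul_eq_one] at this
      exact Subtype.ext this.symm
    · intro h
      refine eq_bot_iff.2 fun x hx => congrArg Subtype.val (@h ⟨x, hx.1⟩ 1 (Subtype.ext ?_))
      simp [f, mem_centralizer_singleton_iff.1 hx.2]
  rw [h1, Finite.injective_iff_surjective]
  refine ⟨fun h n hn => ?_, fun h n => ?_⟩
  · obtain ⟨m, e⟩ := h ⟨n, hn⟩
    exact ⟨m, m.2, mul_inv_eq_iff_eq_mul.1 (congrArg Subtype.val e)⟩
  · obtain ⟨m, hm, e⟩ := h n n.2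
    exact ⟨⟨m, hm⟩, Subtype.ext (mul_inv_eq_iff_eq_mul.2 e)⟩

/-- Let G be a finite group of order greater than 2 with an irreducible character χ nonzero on exactly two conjugacy classes, and let N be the normal p-subgroup of elements where χ is nonzero. Then N is the whole p-core O_p(G) if and only if G is a doubly transitive Frobenius group with kernel N: G has a Frobenius complement H whose Frobenius kernel is N and whose order is one less than that of N. -/
theorem result {G : Type*} [Group G] [Finite G] (hG : 2 < Nat.card G) (χ : Cfsg.IrrCharacter G) (hχ : Nat.card {C : ConjClasses G // ∃ g ∈ C.carrier, (χ : G → ℂ) g ≠ 0} = 2) (p : ℕ) [Fact p.Prime] (N : Subgroup G) [N.Normal] (hN : ∀ g : G, g ∈ N ↔ (χ : G → ℂ) g ≠ 0) (hNp : IsPGroup p N) (hN1 : N ≠ ⊥) :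
    N = Cfsg.pCore p G ↔ ∃ H : Subgroup G, Cfsg.IsFrobeniusComplement H ∧ Cfsg.frobeniusKernel H = (N : Set G) ∧ Nat.card H + 1 = Nat.card N := by
  classical
  have hp : Fact p.Prime := inferInstance
  have hn : N.Normal := inferInstance
  have h := gag_of hG hχ hN
  obtain ⟨n, hn'⟩ := IsPGroup.iff_card.mp hNp
  have pN : p ∣ Nat.card N := by
    rw [hn']; refine dvd_pow_self p ?_; rintro rfl; exact hN1 (card_eq_one.1 hn')
  refine ⟨fun e => ?_, fun ⟨H, h1, h2, _⟩ => le_antisymm (le_pCore hn hNp) (pCore_le_of_not_dvd_index fun d => ?_)⟩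
  swap
  · have a := H2.Frob.ncard_kernel h1
    rw [h2, ← Nat.card_coe_set_eq] at a
    have b := N.card_mul_index
    rw [← H.index_mul_card, show Nat.card N = H.index from a] at b
    have c := H2.Frob.coprime_index h1
    rw [← Nat.eq_of_mul_eq_mul_left (Nat.pos_of_ne_zero FiniteIndex.index_ne_zero) b, ← a] at c
    exact hp.out.one_lt.ne' (Nat.eq_one_of_dvd_coprimes c d pN)
  obtain ⟨q, qp, hab, hq⟩ := h.exists_elem
  have ab : ∀ a ∈ N, ∀ b ∈ N, a * b = b * a := fun a ha b hb =>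
    congrArg Subtype.val (hab.1.1 (⟨a, ha⟩ : N) ⟨b, hb⟩)
  obtain ⟨⟨x, hx⟩, x1⟩ := ne_bot_iff_exists_ne_one.mp h.ne
  replace x1 : x ≠ 1 := fun i => x1 (Subtype.ext i)
  obtain rfl : p = q := by
    have := Fact.mk qp
    have o := orderOf_dvd_natCard N hx
    rw [orderOf_eq_prime (hq x hx) x1, hn'] at o
    exact ((Nat.prime_dvd_prime_iff_eq qp hp.out).1 (qp.dvd_of_dvd_pow o)).symm
  have cN : centralizer (N : Set G) ≤ N :=
    (le_pCore inferInstance ((h.pgroup hNp hx x1).to_le (centralizer_le (by simpa)))).trans e.ge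
  have fpf : ∀ g : G, g ≠ 1 → (orderOf g).Coprime p → N ⊓ centralizer {g} = ⊥ := fun g b c =>
    eq_bot_iff.mpr fun x hx => by_contra fun i => b (h.eq_one hNp hx.1 i (mem_centralizer_singleton_iff.mp hx.2) c)
  have cl : (centralizer {x}).index + 1 = Nat.card N := by
    have := Fintype.ofFinite N
    rw [← Nat.sub_add_cancel (Nat.card_pos (α := N))]
    congr 1
    rw [← card_isConj, Nat.card_eq_fintype_card (α := N), Nat.succ_eq_add_one, zero_add, ← Fintype.card_subtype_eq (1 : N),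
      ← Fintype.card_subtype_compl, ← Nat.card_eq_fintype_card]
    symm
    refine Nat.card_congr ⟨fun a => ⟨a.1, h.cnj x hx _ a.1.2 x1 fun j => a.2 (Subtype.ext j)⟩, fun a =>
      ⟨⟨a.1, by obtain ⟨c, e⟩ := isConj_iff.mp a.2; exact e ▸ hn.conj_mem x hx c⟩, fun j => x1 (isConj_one_left.mp ((show a.1 = 1 from congrArg Subtype.val j) ▸ a.2))⟩, fun _ => rfl,
      fun _ => rfl⟩
  obtain ⟨K, hK⟩ : ∃ K, IsComplement' N K := by
    rcases hp.out.eq_two_or_odd' with rfl | ho
    · refine exists_right_complement'_of_coprime (hn' ▸ (Nat.prime_two.coprime_iff_not_dvd.2 fun d => ?_).pow_left n)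
      obtain ⟨t, ht⟩ := exists_prime_orderOf_dvd_card' (G := G ⧸ N) 2 d
      obtain ⟨a, a1, a2, a3⟩ := LocalEven.exists_inverted_of_not_mem_pCore (t := t)
        (by rw [← sq, ← ht, pow_orderOf_eq_one]) (fun i => by
          subst e
          rw [pCore_quotient_pCore, mem_bot] at i
          simp [i] at ht)
      obtain ⟨z, rfl⟩ := QuotientGroup.mk_surjective t
      obtain ⟨b, rfl⟩ := QuotientGroup.mk_surjective a
      obtain ⟨k, hk⟩ := Inv.exists_odd_pow b
      have b1 : b ^ 2 ^ k ≠ 1 := fun i => a1 (orderOf_eq_one_iff.1 (Nat.eq_one_of_dvd_coprimes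
        ((Nat.coprime_two_right.2 a2).pow_right k) dvd_rfl (orderOf_dvd_of_pow_eq_one (by
          rw [← QuotientGroup.mk_pow, i, QuotientGroup.mk_one]))))
      have b2 := Inv.conj_pow_of_inverts a3 (2 ^ k)
      rw [← QuotientGroup.mk_pow, ← QuotientGroup.mk_mul, ← QuotientGroup.mk_inv, ← QuotientGroup.mk_mul,
        ← QuotientGroup.mk_inv, QuotientGroup.eq_iff_div_mem] at b2
      generalize b ^ 2 ^ k = c at hk b1 b2
      obtain ⟨m, hm, b3⟩ := (bij c⁻¹).1 (fpf _ (inv_ne_one.2 b1) (by rw [orderOf_inv]; exact Nat.coprime_two_right.2 hk))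
        _ b2
      rw [div_mul_cancel] at b3
      have w1 : (m⁻¹ * z) * c * (m⁻¹ * z)⁻¹ = c⁻¹ := by
        calc _ = m⁻¹ * (z * c * z⁻¹) * m := by group
          _ = _ := by rw [← b3]; group
      have w2 : ((m⁻¹ * z : G) : G ⧸ N) = z := by
        rw [QuotientGroup.mk_mul, (QuotientGroup.eq_one_iff _).2 (inv_mem hm), one_mul]
      rw [← w2] at ht
      generalize m⁻¹ * z = w at w1 ht
      have w3 : w ∉ N := fun i => by simp [(QuotientGroup.eq_one_iff _).2 i] at ht
      have w4 : w * w = 1 := by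
        refine (fpf c b1 (Nat.coprime_two_right.2 hk)).le ⟨(QuotientGroup.eq_one_iff _).1 ?_,
          mem_centralizer_singleton_iff.2 ?_⟩
        · rw [QuotientGroup.mk_mul, ← sq, ← ht, pow_orderOf_eq_one]
        · calc w * w * c = w * (w * c * w⁻¹) * w := by group
            _ = (w * c * w⁻¹)⁻¹ * (w * w) := by nth_rw 1 [w1]; group
            _ = _ := by rw [w1, inv_inv]
      have sq2 : ∀ v ∈ N, v * v = 1 := fun v hv => by rw [← sq]; exact hq v hv
      refine w3 (cN fun v hv => ?_)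
      obtain ⟨g, hg⟩ := isConj_iff.1 (h.isConj_mul hv w3).symm
      have : v * w * (v * w) = 1 := by
        rw [← hg]
        calc _ = g * (w * w) * g⁻¹ := by group
          _ = 1 := by rw [w4]; group
      calc v * w = (v * w)⁻¹ := (inv_eq_of_mul_eq_one_right this).symm
        _ = _ := by rw [mul_inv_rev, inv_eq_of_mul_eq_one_right w4, inv_eq_of_mul_eq_one_right (sq2 v hv)]
    · have d : 2 ∣ Nat.card G := by
        refine Dvd.dvd.trans ?_ (centralizer {x}).index_dvd_card
        have := ho.pow (n := n)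
        rw [← hn', ← cl] at this
        simpa [Nat.odd_add_one, even_iff_two_dvd] using this
      obtain ⟨t, ht⟩ := exists_prime_orderOf_dvd_card' 2 d
      have t2 : t * t = 1 := by rw [← sq, ← ht, pow_orderOf_eq_one]
      have ft := fpf t (by rintro rfl; simp at ht) (by rw [ht]; exact Nat.coprime_two_left.2 ho)
      have inv := (H2.inverts_of_involution (norm_top (mem_top t)) t2 ft).1
      refine ⟨centralizer {t}, isComplement'_of_disjoint_and_mul_eq_univ (disjoint_iff.2 ft) ?_⟩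
      refine Set.eq_univ_of_forall fun g => ?_
      have : g * t * g⁻¹ * t⁻¹ ∈ N := cN fun v hv => by
        have i1 := inv _ (hn.conj_mem' _ (hn.conj_mem' v hv t) g)
        have i2 := inv _ (hn.conj_mem' v hv t)
        calc v * (g * t * g⁻¹ * t⁻¹) = (t * (t⁻¹ * v * t) * t⁻¹) * (g * t * g⁻¹ * t⁻¹) := by group
          _ = g * (g⁻¹ * (t⁻¹ * v * t) * g)⁻¹ * t * g⁻¹ * t⁻¹ := by rw [i2]; group
          _ = g * t * g⁻¹ * t⁻¹ * v * (t * g * (t⁻¹ * t) * g⁻¹ * t⁻¹) := by rw [← i1]; group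
          _ = _ := by group
      obtain ⟨m, hm, b3⟩ := (bij t).1 ft _ this
      rw [inv_mul_cancel_right] at b3
      refine ⟨m, hm, m⁻¹ * g, mem_centralizer_singleton_iff.2 ?_, by simp⟩
      calc m⁻¹ * g * t = m⁻¹ * (g * t * g⁻¹) * g := by group
        _ = _ := by rw [← b3]; group
  have sr : ∀ z ∈ K, z ≠ 1 → N ⊓ centralizer {z} = ⊥ := fun z hz z1 => (bij z).2 fun v hv => by
    obtain ⟨g, hg⟩ := isConj_iff.1 (h.isConj_mul hv (y := z) fun i => z1 (hK.disjoint.le_bot ⟨i, hz⟩)).symm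
    obtain ⟨⟨m, k⟩, rfl⟩ := (hK.existsUnique g).exists
    have : (k : G) * z * (k : G)⁻¹ * z⁻¹ = 1 := hK.disjoint.le_bot ⟨by
      have i : (k : G) * z * (k : G)⁻¹ * z⁻¹ = (m : G)⁻¹ * v * (z * m * z⁻¹) := by
        calc _ = (m : G)⁻¹ * ((m * k) * z * (m * k : G)⁻¹) * m * z⁻¹ := by group
          _ = _ := by rw [hg]; group
      rw [i]; exact N.mul_mem (N.mul_mem (N.inv_mem m.2) hv) (hn.conj_mem _ m.2 z),
      K.mul_mem (K.mul_mem (K.mul_mem k.2 hz) (K.inv_mem k.2)) (K.inv_mem hz)⟩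
    refine ⟨m, m.2, ?_⟩
    rw [← hg]
    calc _ = m * ((k : G) * z * (k : G)⁻¹ * z⁻¹ * z) * (m : G)⁻¹ := by rw [this, one_mul]
      _ = _ := by group
  have cx : centralizer {x} = N := le_antisymm (fun g hg => by
    obtain ⟨⟨m, k⟩, rfl⟩ := (hK.existsUnique g).exists
    have i : (k : G) = 1 := by_contra fun j => x1 ((sr k k.2 j).le ⟨hx, mem_centralizer_singleton_iff.2 (by
      have := mem_centralizer_singleton_iff.1 hg
      rw [← mul_assoc, ← ab m m.2 x hx, mul_assoc, mul_assoc] at this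
      exact (mul_left_cancel this).symm)⟩)
    simp [i]) fun v hv => mem_centralizer_singleton_iff.2 (ab v hv x hx)
  rw [cx, hK.symm.index_eq_card] at cl
  have K1 : K ≠ ⊥ := by
    rintro rfl
    have := hK.card_mul_card
    rw [card_bot] at cl this
    omega
  have F := (H2.Frob.iff_semiregular hK hN1 K1).2 sr
  exact ⟨K, F, H2.Frob.kernel_eq hK F, cl⟩

end Cfsg.Agent.S4839
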