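import Mathlib
import Cfsg.Statements.S4840
import Cfsg.Agent.Isaacs.Gagola
import Cfsg.Agent.FGS.Meta
import Cfsg.Agent.H2.FrobCenter
import Cfsg.Agent.H2.Frobenius
import Cfsg.Agent.Comp2.Zsig
import Cfsg.Agent.S3963
import Cfsg.Agent.Core.Super
import Cfsg.Agent.Transfer.Residual
import Cfsg.Agent.Core.SylowOf
-- import your own Cfsg.Agent.* helpers here

set_option autoImplicit false
open Cfsg

namespace Cfsg.Agent.S4840

open Cfsg.Agent.Char Cfsg.Agent.Isaacs Cfsg.Agent.Core Subgroup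
open scoped commutatorElement

theorem comm_of_irr {E : Type*} [AddCommGroup E] (X : AddMonoid.End E)
    (h : ∀ W : AddSubgroup E, (∀ w ∈ W, X w ∈ W) → W = ⊥ ∨ W = ⊤) {a b : AddMonoid.End E} (ha : X * a = a * X)
    (hb : X * b = b * X) : a * b = b * a := by
  rcases subsingleton_or_nontrivial E with _ | _
  · exact AddMonoidHom.ext fun _ => Subsingleton.elim _ _
  obtain ⟨v, hv⟩ := exists_ne (0 : E)
  let D := Subring.centralizer {c : AddMonoid.End E | X * c = c * X}
  let W : AddSubgroup E := D.toAddSubgroup.map (AddMonoidHom.eval v)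
  have hX : X ∈ D := fun c hc => hc.symm
  have hW : W = ⊤ := (h W (by
    rintro _ ⟨d, hd, rfl⟩
    exact ⟨_, D.mul_mem hX hd, rfl⟩)).resolve_left fun e => hv (e.le ⟨_, D.one_mem, rfl⟩)
  have k : ∀ w, ∃ d ∈ D, d v = w := fun w => hW.ge (AddSubgroup.mem_top w)
  obtain ⟨d, hd, e⟩ := k (a v)
  obtain rfl : d = a := AddMonoidHom.ext fun w => by
    obtain ⟨c, hc, rfl⟩ := k w
    show (d * c) v = (a * c) v
    rw [hc a ha, hc d (hd X (rfl : X * X = X * X))]
    exact congrArg c e
  exact (hd b hb).symm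

theorem comm_of_irr' {G : Type*} [Group G] {N : Subgroup G} [N.Normal] [IsMulCommutative N] {x a b : G}
    (h : ∀ W : Subgroup G, W ≤ N → (∀ w ∈ W, x * w * x⁻¹ ∈ W) → W = ⊥ ∨ W = N)
    (ha : ⁅x, a⁆ ∈ centralizer (N : Set G)) (hb : ⁅x, b⁆ ∈ centralizer (N : Set G)) : ⁅a, b⁆ ∈ centralizer (N : Set G) := by
  let : CommGroup N := { (inferInstance : Group N) with mul_comm := mul_comm' }
  let φ : G →* AddMonoid.End (Additive N) :=
    { toFun := fun g => MonoidHom.toAdditive (MulAut.conjNormal (H := N) g).toMonoidHom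
      map_one' := by rw [map_one]; rfl
      map_mul' := fun g h => by rw [map_mul]; rfl }
  have k : ∀ g h : G, ⁅g, h⁆ ∈ centralizer (N : Set G) ↔ φ g * φ h = φ h * φ g := fun g h => by
    rw [← map_mul, ← map_mul]
    constructor
    · intro e
      rw [show g * h = ⁅g, h⁆ * (h * g) by group, map_mul, show φ ⁅g, h⁆ = 1 from ?_, one_mul]
      exact AddMonoidHom.ext fun n => Subtype.ext (mul_inv_eq_of_eq_mul (e _ n.toMul.2).symm)
    · intro e n hn
      have : g * h * ((h * g)⁻¹ * n * (h * g)) * (g * h)⁻¹ = h * g * ((h * g)⁻¹ * n * (h * g)) * (h * g)⁻¹ :=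
        congrArg (fun f => ((f (Additive.ofMul ⟨_, ‹N.Normal›.conj_mem' n hn (h * g)⟩)).toMul : G)) e
      rw [eq_comm, ← mul_inv_eq_iff_eq_mul, commutatorElement_def]
      refine Eq.trans ?_ (this.trans ?_) <;> group
  refine (k a b).mpr (comm_of_irr (φ x) (fun W hW => ?_) ((k x a).mp ha) ((k x b).mp hb))
  rcases h ((AddSubgroup.toSubgroup' W).map N.subtype) (map_subtype_le _) (by
    rintro _ ⟨w, hw, rfl⟩
    exact ⟨_, hW _ hw, rfl⟩) with e | e
  · exact .inl (eq_bot_iff.mpr fun w hw => Subtype.ext (e.le ⟨w.toMul, hw, rfl⟩))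
  · refine .inr (eq_top_iff.mpr fun w _ => ?_)
    obtain ⟨y, hy, e'⟩ := e.ge w.toMul.2
    rwa [show w = Additive.ofMul y from Subtype.ext e'.symm]

theorem concl {H : Type*} [Group H] [Finite H] [Group.IsSolvable H] {p : ℕ} [hp : Fact p.Prime] (h0 : pCore p H = ⊥)
    (h : ∀ r : ℕ, r.Prime → r ≠ p → ∀ y ∈ commutator H, orderOf y = p → y ∈ centralizer (pCore r H : Set H)) :
    HasNormalPComplement p H ∧ ∀ Q : Sylow p H, IsMulCommutative (Q : Subgroup H) := by
  have k : ¬ p ∣ Nat.card (commutator H) := fun d => by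
    obtain ⟨y, hy⟩ := exists_prime_orderOf_dvd_card' p d
    rw [← orderOf_coe] at hy
    have : (y : H) ∈ fittingSubgroup H := centralizer_fitting_le (by
      rw [fitting_eq_iSup_pCore]
      refine le_centralizer_iff.mp (iSup_le fun r => le_centralizer_iff.mpr (zpowers_le.mpr ?_)) (mem_zpowers _)
      by_cases e : r = p
      · simp [e, h0, mem_centralizer_iff]
      · exact h r r.2 e y y.2 hy)
    have := le_pCore_of_le_fitting (IsPGroup.of_card (n := 1) (by rw [Nat.card_zpowers, hy, pow_one]))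
      (zpowers_le.mpr this) (mem_zpowers _)
    rw [h0, mem_bot] at this
    exact hp.out.one_lt.ne' (by simp [← hy, this])
  refine ⟨Transfer.hasNormalPComplement_of_quotient _ k (Transfer.hasNormalPComplement_iff_mul.mpr fun x y a b =>
    (a.mul_left b).coprime_dvd_left (Commute.orderOf_mul_dvd_mul_orderOf ?_)), fun Q =>
      isMulCommutative_iff_commutator_eq_bot.mpr ?_⟩
  · exact mul_comm (G := Abelianization H) x y
  · rw [← le_bot_iff, ← Transfer.inf_eq_bot_of_not_dvd Q.isPGroup' k]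
    exact le_inf (commutator_le_self _) (commutator_mono le_top le_top)

/-- Let G be a finite solvable group of order greater than 2 with an irreducible character nonzero on exactly two conjugacy classes. Then there is exactly one prime p with O_p(G) ≠ 1, and the quotient G/O_p(G) has a normal p-complement and commutative Sylow p-subgroups. -/
theorem result {G : Type*} [Group G] [Finite G] [hs : Group.IsSolvable G] (hG : 2 < Nat.card G) (χ : Cfsg.IrrCharacter G) (hχ : Nat.card {C : ConjClasses G // ∃ g ∈ C.carrier, (χ : G → ℂ) g ≠ 0} = 2) :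
    ∃ p : ℕ, p.Prime ∧ (∀ q : ℕ, q.Prime → (Cfsg.pCore q G ≠ ⊥ ↔ q = p)) ∧
      Cfsg.HasNormalPComplement p (G ⧸ Cfsg.pCore p G) ∧ ∀ Q : Sylow p (G ⧸ Cfsg.pCore p G), IsMulCommutative (Q : Subgroup (G ⧸ Cfsg.pCore p G)) := by
  obtain ⟨N, h⟩ := exists_gag hG hχ
  have := h.normal
  obtain ⟨p, hp, hN⟩ := h.exists_elem
  have := Fact.mk hp
  have pN := Core.IsElementaryAbelian.isPGroup hN
  refine ⟨p, hp, fun q hq => ⟨fun e => by_contra fun i => h.ne ?_, fun e i => h.ne (le_bot_iff.mp
    (i ▸ e ▸ le_pCore inferInstance pN))⟩, concl (pCore_quotient_pCore p) fun r hr rp y hy o => ?_⟩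
  · have := Fact.mk hq
    exact (disjoint_of_coprime (coprime_of_isPGroup (pCore_isPGroup q) (coprime_of_isPGroup pN
      ((Nat.coprime_primes hq hp).mpr i)).symm)).eq_bot_of_le (h.le e)
  have := Fact.mk hr
  have fpf : ∀ X : Subgroup G, (Nat.card X).Coprime p → ∀ g ∈ X, g ≠ 1 → N ⊓ centralizer {g} = ⊥ := fun X c g a b =>
    eq_bot_iff.mpr fun x hx => by_contra fun i => b (h.eq_one pN hx.1 i (mem_centralizer_singleton_iff.mp hx.2)
      (c.coprime_dvd_left (orderOf_dvd_natCard X a)))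
  obtain ⟨f, hf⟩ : ∃ f, f = QuotientGroup.mk' (pCore p G) := ⟨_, rfl⟩
  have sf : Function.Surjective f := hf ▸ QuotientGroup.mk'_surjective _
  have kf : f.ker = pCore p G := hf ▸ QuotientGroup.ker_mk' _
  obtain ⟨Q, hQ⟩ : ∃ Q, Q = pCore r (G ⧸ pCore p G) := ⟨_, rfl⟩
  have : Q.Normal := hQ ▸ inferInstance
  have pQ : IsPGroup r Q := hQ ▸ pCore_isPGroup r
  rw [← hQ]
  obtain ⟨S, hS⟩ := exists_isSylowOf r (Q.comap f)
  have e : S.map f = Q := (hS.map f).eq_of_le pQ (map_comap_eq_self_of_surjective sf Q).ge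
    ((map_mono hS.le).trans (map_comap_le _ _))
  have cS := (coprime_of_isPGroup hS.isPGroup ((Nat.coprime_primes hp hr).mpr rp.symm)).symm
  by_cases cy : IsCyclic S
  · have : IsCyclic Q := e ▸ isCyclic_of_surjective _ (f.subgroupMap_surjective S)
    exact commutator_le_centralizer_of_isCyclic Q hy
  obtain ⟨rfl, m, ⟨i⟩⟩ := (H2.isCyclic_or_quaternion_of_semiregular norm_top (fpf S cS) h.ne le_rfl
    hS.isPGroup).resolve_left cy
  have fr : (frattini Q).index ≤ 2 ^ 2 := by
    classical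
    obtain ⟨g, hg⟩ : ∃ g : QuaternionGroup (2 ^ m) →* Q, Function.Surjective g :=
      e ▸ ⟨(f.subgroupMap S).comp i.symm.toMonoidHom, (f.subgroupMap_surjective S).comp i.symm.surjective⟩
    refine (PGrp.index_frattini_le_pow_card pQ {g (.a 1), g (.xa 0)} ?_).trans
      (Nat.pow_le_pow_right two_pos Finset.card_le_two)
    rw [← map_top_of_surjective g hg, ← S3963.gen, MonoidHom.map_closure]
    simp [Set.image_pair]
  have three : ∀ {q : ℕ} {g : G ⧸ pCore p G}, q.Prime → q ≠ 2 → orderOf g = q → g ∉ centralizer (Q : Set _) → q = 3 :=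
    fun a b c d => (Nat.prime_dvd_prime_iff_eq a Nat.prime_three).mp (FGS.dvd_sq_sub_one_of_not_cent pQ fr
      (norm_top (mem_top _)) a b (k := 1) (by rw [c, pow_one]) d)
  by_contra hc
  obtain rfl := three hp rp.symm o hc
  have oc : pCore 3 G ≤ centralizer (N : Set G) := le_centralizer_iff.mp ((h.le (inf_centralizer_ne_bot_of_isPGroup pN
    (pCore_isPGroup 3) norm_top h.ne)).trans inf_le_right)
  obtain ⟨⟨x, hx⟩, x1⟩ := ne_bot_iff_exists_ne_one.mp h.ne
  replace x1 : x ≠ 1 := fun i => x1 (Subtype.ext i)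
  obtain ⟨n, hn⟩ := IsPGroup.iff_card.mp pN
  have := hN.1
  by_cases n2 : n ≤ 2
  · have a1 : Nat.card (G ⧸ pCore 3 G) ∣ 48 := by
      rw [← index_eq_card, le_antisymm oc (le_pCore inferInstance ((h.pgroup pN hx x1).to_le
        (centralizer_le (by simpa)))), ← relIndex_top_right]
      exact (PGrp.relIndex_centralizer_dvd_card_mulAut norm_top).trans (PGrp.card_mulAut_dvd_of_card_le_sq hN.1
        (fun v => Subtype.ext (hN.2 v v.2)) (hn ▸ Nat.pow_le_pow_right (by norm_num) n2))
    obtain ⟨T, hT, l⟩ := exists_isSylowOf_ge hS.isPGroup le_top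
    have a2 : Nat.card T ≤ 8 := (Nat.le_of_dvd (Nat.sub_pos_of_lt ((one_lt_card_iff_ne_bot _).mpr h.ne))
      (H2.card_dvd_sub_one_of_semiregular norm_top (fpf T (coprime_of_isPGroup hT.isPGroup (by norm_num)).symm))).trans
      (by rw [hn]; exact Nat.sub_le_sub_right (Nat.pow_le_pow_right (by norm_num) n2) 1)
    have a3 : 8 ∣ Nat.card S := by
      rw [Nat.card_congr i.toEquiv, Nat.card_eq_fintype_card, QuaternionGroup.card]
      rcases m with _ | m
      · exact (cy (i.isCyclic.mpr QuaternionGroup.quaternionGroup_one_isCyclic)).elim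
      · exact ⟨2 ^ m, by ring⟩
    obtain rfl : S = T := eq_of_le_of_card_ge l (a2.trans (Nat.le_of_dvd Nat.card_pos a3))
    have a4 : ¬ 2 ∣ Q.index := fun d => hT.not_dvd (relIndex_top_right S ▸ d.trans (e ▸ index_map_dvd S sf))
    have a5 : Nat.card Q = Nat.card S := by
      rw [← e, ← S.relIndex_ker, kf, ← inf_relIndex_right, (disjoint_of_coprime
        (coprime_of_isPGroup (pCore_isPGroup 3) cS).symm).eq_bot, relIndex_bot_left]
    have a6 : Q.index ∣ 3 := by
      rw [← Q.index_mul_card, a5] at a1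
      exact (Nat.prime_two.coprime_iff_not_dvd.mpr a4).symm.dvd_of_dvd_mul_left
        (Nat.dvd_of_mul_dvd_mul_right (by norm_num : 0 < 8) ((Nat.mul_dvd_mul_left _ a3).trans a1))
    have : IsCyclic (_ ⧸ Q) := isCyclic_of_card_dvd_prime (p := 3) a6
    have := Normal.quotient_commutative_iff_commutator_le.mp (inferInstance : IsMulCommutative (_ ⧸ Q)) hy
    exact hp.one_lt.ne' (by simp [← o, PGrp.eq_one_of_mem_of_isPGroup_of_coprime pQ this (by rw [o]; norm_num)])
  obtain ⟨s, hs, d, z⟩ := Comp2.Zsig.zsigmondy 3 n (by norm_num) (by omega) (by simp) (by omega)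
  have := Fact.mk hs
  have s2 : s ≠ 2 := fun j => z 1 one_pos (by omega) (by simp [j])
  have s3 : s ≠ 3 := fun j => by
    have := (Nat.dvd_sub_iff_right (Nat.one_le_pow _ _ (by norm_num)) (dvd_pow_self 3 (by omega : n ≠ 0))).mp (j ▸ d)
    norm_num at this
  have : Nat.card N - 1 ∣ Nat.card G := by
    classical
    have := Fintype.ofFinite N
    rw [show Nat.card N - 1 = (centralizer {x}).index from ?_]
    · exact index_dvd_card _
    rw [← card_isConj, Nat.card_eq_fintype_card, ← Fintype.card_subtype_eq (1 : N), ← Fintype.card_subtype_compl,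
      ← Nat.card_eq_fintype_card]
    refine Nat.card_congr ⟨fun a => ⟨a.1, h.cnj x hx _ a.1.2 x1 fun j => a.2 (Subtype.ext j)⟩, fun a =>
      ⟨⟨a.1, ?_⟩, fun j => x1 (isConj_one_left.mp ((show a.1 = 1 from congrArg Subtype.val j) ▸ a.2))⟩, fun _ => rfl, fun _ => rfl⟩
    obtain ⟨c, e⟩ := isConj_iff.mp a.2
    exact e ▸ ‹N.Normal›.conj_mem x hx c
  obtain ⟨u, hu⟩ := exists_prime_orderOf_dvd_card' s (d.trans (hn ▸ this))
  have cu : (Nat.card (zpowers u)).Coprime 3 := by rw [Nat.card_zpowers, hu]; exact (Nat.coprime_primes hs hp).mpr s3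
  have uc : f u ∈ centralizer (Q : Set _) := by_contra fun j => s3 (three hs s2 (((Nat.dvd_prime hs).mp
    (hu ▸ orderOf_map_dvd f u)).resolve_left fun k => j (by rw [orderOf_eq_one_iff.mp k]; exact one_mem _)) j)
  have k : ∀ a ∈ S, ⁅u, a⁆ ∈ centralizer (N : Set G) := fun a ha => oc (kf.le (by
    rw [MonoidHom.mem_ker, map_commutatorElement, commutatorElement_eq_one_iff_mul_comm]
    exact (uc _ (e.le (mem_map_of_mem f ha))).symm))
  refine cy (H2.isCyclic_of_semiregular_of_comm norm_top (fpf S cS) h.ne le_rfl (isMulCommutative_of_forall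
    fun a ha b hb => commutatorElement_eq_one_iff_mul_comm.mp (by_contra fun j => h.ne ?_)))
  rw [← fpf S cS _ (commutator_le_self S (commutator_mem_commutator ha hb)) j, left_eq_inf]
  refine fun v hv => mem_centralizer_singleton_iff.mpr (comm_of_irr' (fun W l w => ?_) (k a ha) (k b hb) v hv)
  obtain ⟨j, hj⟩ := IsPGroup.iff_card.mp (pN.to_le l)
  have := H2.card_dvd_sub_one_of_semiregular (K := W) (zpowers_le.mpr (mem_normalizer_fintype w)) fun g a b =>
    le_bot_iff.mp ((inf_le_inf_right _ l).trans (fpf _ cu g a b).le)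
  rw [Nat.card_zpowers, hu, hj] at this
  rcases j.eq_zero_or_pos with rfl | j0
  · exact .inl (card_eq_one.mp hj)
  · exact .inr (eq_of_le_of_card_ge l (by
      rw [hn, hj]; exact Nat.pow_le_pow_right (by norm_num) (not_lt.mp fun t => z j j0 t this)))

end Cfsg.Agent.S4840
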