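import Mathlib
import Cfsg.Statements.S4843
import Cfsg.Agent.Isaacs.Real2
import Cfsg.Agent.Isaacs.Cent
import Cfsg.Agent.Core.Fitting
-- import your own Cfsg.Agent.* helpers here

set_option autoImplicit false
open Cfsg

namespace Cfsg.Agent.S4843

open Cfsg.Agent.Char Cfsg.Agent.Isaacs Cfsg.Agent.Core Subgroup
open scoped ComplexConjugate commutatorElement

theorem irr_of_mul {G : Type*} [Group G] {T : Subgroup G} {l : G → ℂ} (h1 : l 1 = 1) (h : ∀ x ∈ T, ∀ y ∈ T, l (x * y) = l x * l y) :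
    Irr T l := isIrr_linear (MonoidHom.toHomUnits (⟨⟨fun x : T => l x, h1⟩, fun x y => h x x.2 y y.2⟩ : T →* ℂ))

theorem eq_one_of_common {G : Type*} [Group G] [Finite G] {χ ψ ξ : G → ℂ} (a : Irr ⊤ χ) (b : Irr ⊤ ψ) (c : Irr ⊤ (χ * ψ))
    (d : Irr ⊤ ξ) (e : inn ⊤ (χ * fun g => conj (χ g)) ξ ≠ 0) (f : inn ⊤ (ψ * fun g => conj (ψ g)) ξ ≠ 0) :
    Eqv ⊤ (fun _ => 1) ξ := by
  by_contra h
  have u := inn_eq_mul_one.symm.trans a.inn_self
  have v := inn_eq_mul_one.symm.trans b.inn_self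
  have w : inn ⊤ (χ * fun g => conj (χ g)) (ψ * fun g => conj (ψ g)) = 1 := by
    rw [← c.inn_self, inn_eq_mul_one, inn_eq_mul_one (θ := χ * ψ)]; congr 1; ext; simp; ring
  refine ((a.chr.mul a.chr.cnj).sub_constit irr_one (u.trans_ne one_ne_zero)).inn_ne_of_common
    ((b.chr.mul b.chr.cnj).sub_constit irr_one (v.trans_ne one_ne_zero)) d
    (by rwa [inn_sub_left, irr_one.inn_eq_zero d h, sub_zero]) (by rwa [inn_sub_left, irr_one.inn_eq_zero d h, sub_zero]) ?_
  rw [inn_sub_left, inn_sub_right, inn_sub_right, u, w, irr_one.inn_self, ← inn_conj, v]; simp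

/-- Let G be a finite group with a faithful irreducible character χ (taking the value χ(1) only at the identity) and let k be prime to the order of G, so that g ↦ χ(g^k) is a Galois conjugate of χ. If the pointwise product g ↦ χ(g)·χ(g^k) is again an irreducible character, then the Fitting subgroup of G equals its centre. -/
theorem result {G : Type*} [Group G] [Finite G] (χ : Cfsg.IrrCharacter G) (hfaith : ∀ g : G, (χ : G → ℂ) g = (χ : G → ℂ) 1 → g = 1) (k : ℕ) (hk : Nat.Coprime k (Nat.card G)) (hirr : Cfsg.IsIrrCharacter G (fun g => (χ : G → ℂ) g * (χ : G → ℂ) (g ^ k))) : Cfsg.fittingSubgroup G = Subgroup.center G := by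
  obtain ⟨σ, hσ⟩ := exists_aut_pw (G := G) hk
  have a := irr_top.mpr χ.2
  have b := a.map σ
  have c : Irr ⊤ (χ.1 * fun g => σ (χ.1 g)) := (irr_top.mpr hirr).congr fun g _ => congrArg (_ * ·) (hσ a.gen g trivial).symm
  have p : Prim ⊥ ⊤ χ.1 := fun T η _ _ h e => by_contra fun i => by
    have j := (chr_one.indc (le_top : T ≤ ⊤)).sub_constit irr_one (by rw [inn_ind_left le_top (inv_const 1)]; exact irr_one.inn_self_ne)
    obtain ⟨ξ, u, v⟩ := j.inv.exists_irr' (by
      rw [Pi.sub_apply, ind_one, mul_one, sub_ne_zero, relIndex_top_right]; exact_mod_cast fun o => i (index_eq_one.mp o))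
    have w : ¬ Eqv ⊤ (fun _ => 1) ξ := fun o => v (by
      rw [← o.inn_right, inn_sub_left, inn_ind_left le_top (inv_const 1), irr_one.inn_self, irr_one.inn_self, sub_self])
    rw [inn_sub_left, irr_one.inn_eq_zero u w, sub_zero, inn_ind_left le_top u.inv] at v
    have k : ∀ {χ η : G → ℂ}, Irr ⊤ χ → Chr T η → Eqv ⊤ (ind T ⊤ η) χ → inn ⊤ (χ * fun g => conj (χ g)) ξ ≠ 0 := fun {χ η} a h e => by
      nth_rw 1 [← eqv_top.mp e]
      rw [← ind_mul a.cnj.inv, inn_ind_left le_top u.inv]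
      exact (h.mul (a.chr.cnj.res le_top)).inn_ne_of_common (u.chr.res le_top) irr_one (by
        rw [← inn_eq_mul_one, ← inn_ind_left le_top a.inv, e.inn_left]; exact a.inn_self_ne) (inn_ne_comm v)
    exact w (eq_one_of_common a b c u (k a h e) (k b (h.map σ) (by rw [ind_map, eqv_top.mp e]; exact .refl _ _)))
  refine (center_le_fitting.eq_or_lt.resolve_right fun i => ?_).symm
  obtain ⟨K, k1, k2⟩ := exists_chief_above i norm_top (norm_top (A := ⊤))
  have := normal_of_le_normalizer k2.nK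
  have k3 := k2.comm_le norm_top (solvMod_of_solv (solvable_of_le k1 fitting_solvable))
  have k4 : K ⊓ centralizer (K : Set G) ≤ center G := fun y j => mem_center_iff.mpr fun g =>
    commutatorElement_eq_one_iff_mul_comm.mp (hfaith _ (p.scalar a bot_le le_top norm_top (by
      rw [(commutator_eq_bot_iff_le_centralizer (H₁ := K ⊓ centralizer (K : Set G))).mpr
        (inf_le_right.trans (centralizer_le inf_le_left))]; exact ker_bot) _ (commutator_mem_commutator trivial j)))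
  obtain ⟨x, x1, x2⟩ := SetLike.exists_of_lt k2.lt
  let T := (centralizer {QuotientGroup.mk' (center G) x}).comap (QuotientGroup.mk' (center G))
  have t : ∀ g, g ∈ T ↔ ⁅x, g⁆ ∈ center G := fun g => by
    rw [← QuotientGroup.eq_one_iff ⁅x, g⁆, ← QuotientGroup.mk'_apply, map_commutatorElement, commutatorElement_eq_one_iff_mul_comm, mem_comap,
      mem_centralizer_singleton_iff, eq_comm]
  have t1 : K ≤ T := fun g j => (t g).mpr (k3 (commutator_mem_commutator x1 j))
  have n : ∀ z ∈ center G, ‖χ.1 z‖ = ‖χ.1 1‖ := fun z j => a.norm_of_comm trivial fun g _ => ker_comm_center _ _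
    (commutator_mem_commutator trivial j)
  let l : G → ℂ := fun g => χ.1 ⁅x, g⁆ / χ.1 1
  have l0 : ∀ g, l g = 1 → ⁅x, g⁆ = 1 := fun g j => hfaith _ ((div_eq_one_iff_eq a.one_ne).mp j)
  have l1 : l 1 = 1 := by simp [l, a.one_ne]
  have l2 : Irr T l := irr_of_mul l1 fun g i h j => by
    have : ⁅x, g * h⁆ = ⁅x, g⁆ * ⁅x, h⁆ := by
      rw [← mul_inv_cancel_right ⁅x, h⁆ g, ← mem_center_iff.mp ((t h).mp j) g]; simp [commutatorElement_def, mul_assoc]
    simp only [l]
    rw [this, div_mul_div_comm, ← a.chr.mul_of_norm trivial trivial (n _ ((t g).mp i)), mul_div_mul_right _ _ a.one_ne]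
  have l3 : Irr K l := (l2.chr.res t1).irr_of_one l1
  have l4 : Irr ⊤ (ind T ⊤ l) := l3.ind_of_stab norm_top t1 le_top (fun g ⟨i, _⟩ => (t g).mpr (by
    have : (g * x * g⁻¹)⁻¹ * x ∈ center G := k4 ⟨K.mul_mem (K.inv_mem (this.conj_mem _ x1 g)) x1, fun y j => by
      obtain ⟨o, o1, rfl⟩ : ∃ o ∈ K, g * o * g⁻¹ = y := ⟨_, this.conj_mem _ j g⁻¹, by group⟩
      have r := l3.chr.map_mul l1 j (K.inv_mem o1)
      rw [← cj_apply g l, i.2 _ o1, ← l3.chr.map_mul l1 o1 (K.inv_mem o1), mul_inv_cancel, l1] at r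
      have s := commutatorElement_eq_one_iff_mul_comm.mp (l0 _ r)
      have z := mem_center_iff.mp (k3 (commutator_mem_commutator x1 o1))
      calc _ = (g * x * g⁻¹)⁻¹ * (g * ⁅x, o⁆ * o * g⁻¹ * x) := by rw [commutatorElement_def]; group
        _ = (g * x * g⁻¹)⁻¹ * (g * o * g⁻¹ * o⁻¹ * (⁅x, o⁆ * o) * x) := by
          rw [← z o, mul_assoc g ⁅x, o⁆ o, ← z o, ← mul_assoc g o, mul_assoc _ ⁅x, o⁆ g⁻¹, ← z g⁻¹]; group
        _ = (g * x * g⁻¹)⁻¹ * (g * o * g⁻¹ * o⁻¹ * x * o) := by rw [commutatorElement_def]; group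
        _ = _ := by rw [← s]; group⟩
    simpa [commutatorElement_def, mul_assoc] using (inferInstance : (center G).Normal).conj_mem _ this x)) l2 l3.inn_self_ne
  have k : ∀ {ψ : G → ℂ}, Irr ⊤ ψ → (∀ g, χ.1 g = 0 → ψ g = 0) → inn ⊤ (ψ * fun g => conj (ψ g)) (ind T ⊤ l) ≠ 0 := fun {ψ} u v => by
    rw [inn_ind_right le_top (u.chr.mul u.chr.cnj).inv, inn_mul_left, Eqv.inn_right (φ := ψ) fun g j => ?_]
    · exact fun o => u.one_ne (inn_self_eq_zero.mp o).one
    by_cases o : χ.1 ⁅x, g⁆ = χ.1 1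
    · simp [l, o, a.one_ne]
    simp [v g (a.chr.vanish_of_comm trivial trivial (n _ ((t g).mp j)) o)]
  have e := eq_one_of_common a b c l4 (k a fun _ => id) (k b fun g j => by simp [j])
  refine x2 (k4 ⟨x1, fun y j => (commutatorElement_eq_one_iff_mul_comm.mp (l0 y ?_)).symm⟩)
  exact ((l2.chr.of_ind_eq l2.one_ne le_top trivial ((e y trivial).symm.trans e.one)).2).trans l1

end Cfsg.Agent.S4843
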