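import Mathlib
import Cfsg.Statements.S4845
import Cfsg.Agent.Isaacs.SameDeg
-- import your own Cfsg.Agent.* helpers here

set_option autoImplicit false
open Cfsg

namespace Cfsg.Agent.S4845

/-- Let p be a prime and P a finite non-commutative p-group. Then every two irreducible characters of P of the same degree greater than 1 are Galois conjugate (one is obtained from the other by composing with g ↦ g^k for some k prime to the order of P) if and only if the centre of P is cyclic and the derived subgroup of P has order p. -/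
theorem result {P : Type*} [Group P] [Finite P] (p : ℕ) [Fact p.Prime] (hP : IsPGroup p P) (hna : ¬ IsMulCommutative P) :
    (∀ χ ψ : Cfsg.IrrCharacter P, Cfsg.charDegree (χ : P → ℂ) ≠ 1 → Cfsg.charDegree (χ : P → ℂ) = Cfsg.charDegree (ψ : P → ℂ) → ∃ k : ℕ, Nat.Coprime k (Nat.card P) ∧ ∀ g : P, (ψ : P → ℂ) g = (χ : P → ℂ) (g ^ k)) ↔
      (IsCyclic (Subgroup.center P) ∧ Nat.card (commutator P) = p) := by
  have hc : commutator P ≠ ⊥ := fun e => hna ⟨⟨fun a b =>
    commutatorElement_eq_one_iff_mul_comm.mp (Subgroup.mem_bot.mp (e ▸ Isaacs.comm_mem a b))⟩⟩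
  refine ⟨fun h => Isaacs.SK.main_aux _ P rfl hP hc fun χ ψ a b c d g e => ?_, fun h χ ψ a b => ?_⟩
  · obtain ⟨k, -, hk⟩ := h ⟨χ, Isaacs.irr_top.mp a⟩ ⟨ψ, Isaacs.irr_top.mp b⟩ (mt Isaacs.deg_eq_one_iff.mp c)
      (by unfold Cfsg.charDegree; exact congrArg (fun z : ℂ => ⌊z.re⌋₊) d)
    have h1 := (a.chr.mem_kerS.mp (pow_mem (a.chr.mem_kerS.mpr ⟨Subgroup.mem_top g, e⟩) k)).2
    exact (hk g).trans (h1.trans d)
  · exact Isaacs.galois_of_card hP h.1 h.2 (Isaacs.irr_top.mpr χ.2) (Isaacs.irr_top.mpr ψ.2)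
      (mt Isaacs.deg_eq_one_iff.mpr a) (by rw [← Block.irr_degree_cast, ← Block.irr_degree_cast, b])

end Cfsg.Agent.S4845
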