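import Mathlib
import Cfsg.Statements.S4871
import Cfsg.Agent.Isaacs.INReal
import Cfsg.Agent.Isaacs.RealCh2
-- import your own Cfsg.Agent.* helpers here

set_option autoImplicit false
open Cfsg

namespace Cfsg.Agent.S4871

open Cfsg.Agent.Char Cfsg.Agent.Isaacs Cfsg.Agent.Core Subgroup Finset
open scoped ComplexConjugate commutatorElement

theorem inn_of_vanish {G : Type*} [Group G] [Finite G] {H : Subgroup G} {θ φ : G → ℂ} (h : ∀ x ∈ H, x ≠ 1 → θ x = 0) :
    (Nat.card H : ℂ) * inn H θ φ = θ 1 * conj (φ 1) := by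
  have := Fintype.ofFinite H
  rw [card_mul_inn, Finset.sum_eq_single 1 (fun x _ r => by rw [h x x.2 fun i => r (Subtype.ext i), zero_mul]) (by simp)]
  rfl

theorem fs_dihedral {G : Type*} [Group G] [Finite G] {N D : Subgroup G} {l : G → ℂ} {z : G} (hn : D ≤ normalizer (N : Set G))
    (h1 : l 1 = 1) (hz : orderOf z = 2) (hD : z ∈ D) (hN : z ∉ N) (hi : N.relIndex D = 2) (h : Irr D (ind N D l))
    (r : Rl D (ind N D l)) : fs D (ind N D l) = 1 := by
  classical
  obtain ⟨_, β, -, b, c⟩ := h.chr.sym_alt r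
  have a := zpowers_le.mpr hD
  refine (h.fs_of_real r).resolve_right fun d => b.over_trans a irr_one chr_one (fun i => ?_) irr_one.inn_self_ne ?_
  · have := (c D le_rfl).2
    norm_num [d, h.inn_self, i] at this
  have e : ∀ x ∈ zpowers z, x * x = 1 := fun x i => by
    rw [← sq, ← hz, ← Nat.card_zpowers]; exact congrArg Subtype.val (pow_card_eq_one' (x := (⟨x, i⟩ : zpowers z)))
  have u := inn_of_vanish (H := zpowers z) (θ := ind N D l) (φ := ind N D l) fun x i j => ind_eq_zero_of_normal hn fun k => hN (by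
    obtain ⟨m, o, rfl⟩ := (mem_zpowers_iff_mem_range_orderOf.mp i |> mem_image.mp)
    rw [hz, mem_range] at o
    interval_cases m <;> simp_all)
  have v : fs (zpowers z) (ind N D l) = 2 := (Eqv.inn_left (φ := (2 : ℂ) • fun _ => 1) fun x i => by
    simp [e x i, ind_one, hi, h1]).trans (by rw [inn_smul_left, irr_one.inn_self, mul_one])
  have w := (c _ a).2
  rw [Nat.card_zpowers, hz, ind_one, hi, h1] at u
  simp only [Nat.cast_ofNat, mul_one, map_ofNat] at u
  linear_combination w / 2 + u / 4 - v / 2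

/-- Let G be a finite group that is the semidirect product of a normal elementary abelian subgroup N of odd order by a non-trivial 2-subgroup P, with N the unique minimal normal subgroup of G. Consider the strongly real irreducible complex characters of G (Frobenius–Schur indicator +1) whose degree is 1 or even. Then their average degree is at least 4/3: four times their number is at most three times the sum of their degrees. -/
theorem result {G : Type*} [Group G] [Finite G] (N P : Subgroup G) (hN : N.Normal) (q : ℕ) [Fact q.Prime] (hq : q ≠ 2) (hNel : Cfsg.IsElementaryAbelian q N) (hP : IsPGroup 2 ↥P) (hP1 : P ≠ ⊥) (hdisj : N ⊓ P = ⊥) (hprod : N ⊔ P = ⊤) (hmin : N ≠ ⊥ ∧ ∀ M : Subgroup G, M.Normal → M ≠ ⊥ → N ≤ M) : 4 * Nat.card {χ : Cfsg.IrrCharacter G // (Cfsg.charDegree (χ : G → ℂ) = 1 ∨ 2 ∣ Cfsg.charDegree (χ : G → ℂ)) ∧ (Nat.card G : ℂ)⁻¹ * ∑ᶠ g : G, (χ : G → ℂ) (g * g) = 1} ≤ 3 * (∑ᶠ χ : {χ : Cfsg.IrrCharacter G // (Cfsg.charDegree (χ : G → ℂ) = 1 ∨ 2 ∣ Cfsg.charDegree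 (χ : G → ℂ)) ∧ (Nat.card G : ℂ)⁻¹ * ∑ᶠ g : G, (χ : G → ℂ) (g * g) = 1}, Cfsg.charDegree (χ.1 : G → ℂ)) := by
  classical
  have ab := fun x (i : x ∈ N) y (j : y ∈ N) => comm_of_isMulCommutative hNel.1 i j
  have := (nontrivial_iff_ne_bot P).mpr hP1
  obtain ⟨⟨z, z1⟩, z2⟩ := exists_prime_orderOf_dvd_card' 2 (prime_dvd_card_of_isPGroup (hP.to_subgroup (center P))
    ((nontrivial_iff_ne_bot _).mp hP.center_nontrivial))
  have z3 : orderOf (z : G) = 2 := by simpa using z2
  have z4 : P ≤ centralizer {(z : G)} := fun x i => mem_centralizer_singleton_iff.mpr (congrArg Subtype.val (mem_center_iff.mp z1 ⟨x, i⟩))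
  have z5 : (z : G) ∉ N := fun i => by simp [mem_bot.mp (hdisj.le ⟨i, z.2⟩)] at z3
  have z6 : ¬ N ≤ centralizer {(z : G)} := fun i => hmin.1 (eq_bot_iff.mpr ((le_inf le_rfl ((hmin.2 (zpowers (z : G))
    (normal_of_le_normalizer (hprod.ge.trans ((sup_le i z4).trans ((zpowers_eq_closure (z : G) ▸ centralizer_closure _).ge.trans
      (centralizer_le_normalizer _))))) (fun i => z5 (by simp [zpowers_eq_bot.mp i]))).trans (zpowers_le.mpr z.2))).trans hdisj.le))
  have z7 : N ⊓ centralizer {(z : G)} = ⊥ := by_contra fun i => z6 ((hmin.2 _ (normal_of_le_normalizer (hprod.ge.trans (sup_le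
    (le_norm fun a j x k => by rwa [ab a j x k.1, mul_inv_cancel_right]) (le_normalizer_inf norm_top (z4.trans le_normalizer))))) i).trans
      inf_le_right)
  have zz : (z : G) * z = 1 := by rw [← sq, ← z3, pow_orderOf_eq_one]
  have z8 : ∀ n ∈ N, z * n * (z : G)⁻¹ = n⁻¹ := fun n i => eq_inv_of_mul_eq_one_left (mem_bot.mp (z7.le
    ⟨mul_mem (hN.conj_mem n i z) i, mem_centralizer_singleton_iff.mpr (by
      rw [← mul_assoc (z : G), ← mul_assoc (z : G), ← mul_assoc (z : G), zz, ab _ (hN.conj_mem n i z) n i,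
        inv_eq_of_mul_eq_one_left zz]
      simp [mul_assoc, zz])⟩))
  obtain ⟨n, n1, n2⟩ := SetLike.exists_of_lt (bot_lt_iff_ne_bot.mpr hmin.1)
  obtain ⟨l, l1, -, l2⟩ := exists_irr_not_ker norm_top bot_le n1 n2
  have l3 := l1.one_of_comm ab
  have l4 : Eqv N (cj z l) fun x => conj (l x) := fun x i => by rw [cj, z8 x i, l1.gen.apply_inv i]
  have l5 : (z : G) ∉ stab N l := fun i => l2 (by
    obtain ⟨k, j⟩ := (Fact.out : q.Prime).odd_of_ne_two hq
    have a : ∀ x ∈ N, l (x * x) = 1 := fun x o => by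
      rw [l1.chr.map_mul l3 o o]; nth_rw 2 [← i.2 x o]; rw [l4 x o, l1.chr.mul_conj l3 o]
    rw [l3, ← a _ (pow_mem n1 (k + 1)), ← pow_add, show k + 1 + (k + 1) = q + 1 by omega, pow_succ, hNel.2 n n1, one_mul])
  obtain ⟨χ, c1, c2, c3, c4⟩ := ((chr_one : Chr P _).indc le_top).unique_over le_top l1 (by
    rw [(ind_res_mul (inv_const 1) le_top le_top fun g _ => (mem_sup_of_le_normalizer norm_top).mp (hprod.ge trivial)).inn_left,
      ← ind_inf, inn_ind_left inf_le_right l1.inv, inf_comm, hdisj, inn_bot, l3]; simp)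
  have c5 : Rl ⊤ χ := c4 _ c1.cnj (by rw [rl_ind_one.inn_right (chr_one.indc le_top).gen c1.gen, c2]; simp) (by
    rw [← (c1.cnj.gen.res le_top).inn_map (starRingEnd ℂ) l1.gen, ← l4.inn_right]
    simpa [(c1.inv.mono le_rfl le_top).inn_cj (norm_top (A := ⊤) trivial) trivial] using c3.trans_ne one_ne_zero)
  set D := N ⊔ zpowers (z : G)
  have d1 : N.relIndex D = 2 := by
    rw [relIndex_sup_of_le_normalizer norm_top, ← z3, ← Nat.card_zpowers, ← relIndex_bot_left, ← inf_relIndex_right]
    exact congrArg (relIndex · _) (eq_bot_iff.mpr ((inf_le_inf_left N (zpowers_le.mpr z.2)).trans hdisj.le))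
  have d2 : (z : G) ∈ D := mem_sup_right (mem_zpowers _)
  have d3 : Irr D (ind N D l) := (l1.ind_iff norm_top le_sup_left).mpr
    ((eq_or_eq_of_relIndex_prime (d1 ▸ Nat.prime_two) (le_inf l1.inv.le_stab le_sup_left) inf_le_right).resolve_right
      fun i => l5 (i.ge d2).1).le
  have d4 : D.Normal := normal_of_le_normalizer (hprod.ge.trans (sup_le (le_sup_left.trans le_normalizer) (le_normalizer_sup norm_top
    (z4.trans ((zpowers_eq_closure (z : G) ▸ centralizer_closure _).ge.trans (centralizer_le_normalizer _))))))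
  have c6 : fs ⊤ χ = 1 := c1.fs_of_mult_one norm_top le_top c5 d3 ((inn_ind_right le_sup_left (c1.inv.mono le_top le_top)).trans c3)
    (fs_dihedral norm_top l3 z3 d2 z5 d1 d3 fun x _ => by
      rw [← congrFun (ind_map (starRingEnd ℂ)) x, ← ind_congr l4, ind_cj_of_mem (norm_top (A := ⊤) trivial) d2])
  set T := stab N l ⊓ ⊤ with hT
  have t1 : N ≤ T := le_inf l1.inv.le_stab le_top
  obtain ⟨ψ, p1, p2, p3⟩ := l1.exists_ind_of_stab norm_top t1 le_top le_rfl c1 (c3.trans_ne one_ne_zero)
  have p4 := p1.res_smul norm_top t1 l1 (inv_stab.mono inf_le_left le_rfl) p2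
  rw [← l1.inn_ind_stab norm_top t1 le_top hT p1 p2, (p3.mono le_top).inn_left, c3, one_smul] at p4
  have key := card_lin_le (hmin.2 _ inferInstance fun i => z6 fun x _ => mem_centralizer_singleton_iff.mpr
    (commutatorElement_eq_one_iff_mul_comm.mp (mem_bot.mp (i.le (commutator_mem_commutator trivial trivial))))) hT l1 p1 p4
    (fun χ => fs ⊤ χ = 1) (fun χ => fs ⊤ χ = 1) fun μ a b c => by
      rw [ind_mul' a.inv, eqv_top.mp p3, ← c6]
      exact Eqv.inn_left fun x _ => by
        have := a.chr.mul_conj b (mem_top x)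
        rw [a.real_of_fs (c.trans_ne one_ne_zero) x trivial] at this
        simp only [Pi.mul_apply]
        rw [a.chr.map_mul b trivial trivial, this, one_mul]
  have t2 : 2 ∣ T.index := by
    obtain ⟨k, i⟩ := relIndex_sup_pow Nat.prime_two hP (norm_top (N := N))
    obtain ⟨j, -, o⟩ := (Nat.dvd_prime_pow Nat.prime_two).mp (i ▸ hprod ▸ relIndex_top_right N ▸ index_dvd_of_le t1 :)
    exact o ▸ dvd_pow_self 2 fun r => l5 ((index_eq_one.mp (by simp [o, r])).ge (mem_top _) : (z : G) ∈ T).1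
  have t3 : T.index ≠ 0 := index_ne_zero_of_finite
  rw [Block.charDegree_of_eq (n := 1) (l3.trans Nat.cast_one.symm), one_mul] at key
  rw [finsum_eq_sum_of_fintype, ← sum_subtype (univ.filter _) (fun _ => mem_filter_univ _) fun χ : IrrCharacter G => charDegree χ.1]
  simp only [Nat.card_eq_fintype_card, Fintype.card_subtype, card_filter, sum_filter, mul_sum, fs_finsum_top] at key ⊢
  refine Nat.le_of_add_le_add_right ((Nat.add_le_add_left key _).trans ?_)
  rw [← sum_add_distrib, ← sum_add_distrib]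
  refine sum_le_sum fun χ _ => ?_
  obtain ⟨d, d0, e⟩ := (irr_top.mpr χ.2).deg
  rw [Block.charDegree_of_eq e]
  by_cases i : fs ⊤ χ.1 = 1
  · simp only [i, and_true]
    split_ifs <;> omega
  simp [i]

end Cfsg.Agent.S4871
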