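import Mathlib
import Cfsg.Statements.S4872
import Cfsg.Agent.Spc.FsOdd
import Cfsg.Agent.Gl23.Chr
-- import your own Cfsg.Agent.* helpers here

set_option autoImplicit false
open Cfsg

namespace Cfsg.Agent.S4872

open Cfsg.Agent.Char Cfsg.Agent.Isaacs Subgroup
open scoped ComplexConjugate

/-- Let N be a normal subgroup of the finite group G with G/N a 2-group, and let φ be an irreducible complex character of N of 2-defect zero (the 2-part of #N divides φ(1)) whose complex conjugate is G-conjugate to φ. Then some irreducible character of G with Frobenius–Schur indicator +1 contains φ with multiplicity exactly one on restriction to N. -/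
theorem result {G : Type*} [Group G] [Finite G] (N : Subgroup G) [N.Normal] (h2 : IsPGroup 2 (G ⧸ N)) (φ : Cfsg.IrrCharacter ↥N) (hdef : 2 ^ (Nat.card ↥N).factorization 2 ∣ Cfsg.charDegree (φ : ↥N → ℂ)) (hconj : ∃ g : G, ∀ n n' : ↥N, (n' : G) = g * (n : G) * g⁻¹ → (φ : ↥N → ℂ) n' = (starRingEnd ℂ) ((φ : ↥N → ℂ) n)) : ∃ χ : Cfsg.IrrCharacter G, (Nat.card G : ℂ)⁻¹ * ∑ᶠ g : G, (χ : G → ℂ) (g * g) = 1 ∧ (Nat.card ↥N : ℂ)⁻¹ * ∑ᶠ n : ↥N, (χ : G → ℂ) n * (starRingEnd ℂ) ((φ : ↥N → ℂ) n) = 1 := by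
  classical
  have := Fintype.ofFinite G
  have hp : Fact (Nat.Prime 2) := ⟨Nat.prime_two⟩
  obtain ⟨S⟩ : Nonempty (Sylow 2 G) := inferInstance
  obtain ⟨j, hj⟩ : ∃ j, N.index = 2 ^ j := IsPGroup.iff_card.mp h2
  have hsup : N ⊔ (S : Subgroup G) = ⊤ := by
    rw [← index_eq_one]
    have a : (N ⊔ (S : Subgroup G)).index ∣ 2 ^ j := hj ▸ index_dvd_of_le le_sup_left
    have b : (N ⊔ (S : Subgroup G)).index ∣ (S : Subgroup G).index := index_dvd_of_le le_sup_right
    exact Nat.eq_one_of_dvd_coprimes (((Nat.Prime.coprime_iff_not_dvd Nat.prime_two).mpr S.not_dvd_index).pow_left j) a b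
  have hidx : (S : Subgroup G).relIndex N = (S : Subgroup G).index := by
    have a := relIndex_mul_index (inf_le_right : (S : Subgroup G) ⊓ N ≤ N)
    have b := relIndex_mul_index (inf_le_left : (S : Subgroup G) ⊓ N ≤ S)
    rw [inf_relIndex_right] at a
    rw [inf_relIndex_left, ← relIndex_sup_left, hsup, relIndex_top_right, ← a, mul_comm] at b
    exact (Nat.eq_of_mul_eq_mul_right (Nat.pos_of_ne_zero index_ne_zero_of_finite) b).symm
  have hΦ : Irr N (ez N φ.1) := irr_ez.mpr φ.2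
  obtain ⟨d, d0, hd⟩ := hΦ.deg
  have hd' : φ.1 1 = d := (ez_one φ.1).symm.trans hd
  rw [Block.charDegree_of_eq hd'] at hdef
  have hz : ∀ x ∈ (S : Subgroup G) ⊓ N, x ≠ 1 → ez N φ.1 x = 0 := fun x i o => by
    rw [ez_mem _ i.2]
    refine Gl23.vanish_of_dvd Nat.prime_two (Nat.pow_succ_factorization_not_dvd Nat.card_pos.ne' Nat.prime_two) hd' hdef _ ?_
    obtain ⟨k, e⟩ := IsPGroup.iff_orderOf.mp S.isPGroup' ⟨x, i.1⟩
    rw [← orderOf_coe, show orderOf x = 2 ^ k from (orderOf_coe (⟨x, i.1⟩ : (S : Subgroup G))).trans e]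
    refine dvd_pow_self 2 ?_
    rintro rfl
    exact o (congrArg Subtype.val (orderOf_eq_one_iff.mp e))
  have hπ : Chr ⊤ (ind (S : Subgroup G) ⊤ fun _ => 1) := chr_one.indc le_top
  set π := ind (S : Subgroup G) ⊤ fun _ => (1 : ℂ) with hπd
  obtain ⟨m, hm⟩ := (hπ.res le_top).inn_nat hΦ.chr
  have hmo : Odd m := by
    have a := hm
    rw [(ind_res_mul (inv_const 1) le_top le_top fun g _ =>
      (Core.mem_sup_of_le_normalizer norm_top).mp (hsup.ge trivial)).inn_left, ← ind_inf,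
      inn_ind_left inf_le_right hΦ.inv, (chr_one.inn_comm (hΦ.chr.res inf_le_right))] at a
    have b : (Nat.card ↥((S : Subgroup G) ⊓ N) : ℂ) * inn ((S : Subgroup G) ⊓ N) (ez N φ.1) (fun _ => 1) = d := by
      rw [card_mul_inn, Finset.sum_eq_single 1 (fun x _ r => by rw [hz x x.2 fun i => r (Subtype.ext i), zero_mul]) (by simp)]
      simpa using hd
    rw [a] at b
    have c : Nat.card ↥((S : Subgroup G) ⊓ N) * m = d := by exact_mod_cast b
    have e := hΦ.deg_dvd hd
    have f : Nat.card ↥((S : Subgroup G) ⊓ N) * (S : Subgroup G).index = Nat.card N := by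
      rw [← hidx, ← relIndex_bot_left, ← relIndex_bot_left, ← inf_relIndex_right (S : Subgroup G) N,
        relIndex_mul_relIndex _ _ _ bot_le inf_le_right]
    rw [← c, ← f] at e
    exact (Nat.not_even_iff_odd.mp fun i => S.not_dvd_index i.two_dvd).of_dvd_nat
      (Nat.dvd_of_mul_dvd_mul_left Nat.card_pos e)
  choose a ha using fun χ : IrrCharacter G => hπ.inn_nat (irr_top.mpr χ.2).chr
  choose e he using fun χ : IrrCharacter G => ((irr_top.mpr χ.2).chr.res (le_top : N ≤ ⊤)).inn_nat hΦ.chr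
  have hsum : ∑ χ : IrrCharacter G, a χ * e χ = m := by
    have u : π = ∑ χ : IrrCharacter G, (a χ : ℂ) • χ.1 := by
      funext g
      rw [classFun_apply_eq_sum (inv_top_top.mp hπ.inv) g, Finset.sum_apply]
      exact Finset.sum_congr rfl fun χ _ => by rw [← inn_top, ha]; rfl
    rw [u, inn_sum_left] at hm
    simp only [inn_smul_left, he] at hm
    exact_mod_cast hm
  let c : IrrCharacter G → IrrCharacter G := fun χ => ⟨fun x => conj (χ.1 x), irr_top.mp (irr_top.mpr χ.2).cnj⟩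
  have hca : ∀ χ, a (c χ) = a χ := fun χ => by
    have := rl_ind_one.inn_right hπ.gen (irr_top.mpr χ.2).gen
    exact_mod_cast (ha (c χ)).symm.trans (this.trans (ha χ))
  obtain ⟨g, hg⟩ := hconj
  have l4 : Eqv N (cj g (ez N φ.1)) fun x => conj (ez N φ.1 x) := fun x i => by
    beta_reduce
    rw [cj, ez_mem _ i, ez_mem _ (‹N.Normal›.conj_mem x i g)]
    exact hg _ _ rfl
  have hce : ∀ χ, e (c χ) = e χ := fun χ => by
    have c1 := irr_top.mpr χ.2
    have : inn N (c χ).1 (ez N φ.1) = inn N χ.1 (ez N φ.1) := by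
      rw [← (c1.cnj.gen.res le_top).inn_map (starRingEnd ℂ) hΦ.gen, ← l4.inn_right]
      simpa [c] using (c1.inv.mono le_rfl le_top).inn_cj (norm_top (A := ⊤) trivial) trivial
    exact_mod_cast (he (c χ)).symm.trans (this.trans (he χ))
  obtain ⟨χ, h1, h3⟩ : ∃ χ, ((a χ * e χ : ℕ) : ZMod 2) ≠ 0 ∧ c χ = χ := by
    by_contra! o
    have := Finset.sum_involution (s := Finset.univ) (f := fun χ => ((a χ * e χ : ℕ) : ZMod 2)) (fun χ _ => c χ)
      (fun χ _ => by rw [hca, hce]; exact CharTwo.add_self_eq_zero _) (fun χ _ i => o χ i) (fun _ _ => Finset.mem_univ _)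
      (fun χ _ => Subtype.ext (funext fun x => by simp [c]))
    rw [← Nat.cast_sum, hsum, ZMod.natCast_eq_zero_iff] at this
    exact Nat.not_even_iff_odd.mpr hmo (even_iff_two_dvd.mpr this)
  have h4 : Odd (a χ * e χ) := Nat.not_even_iff_odd.mp fun i => h1 ((ZMod.natCast_eq_zero_iff _ _).mpr i.two_dvd)
  have c1 := irr_top.mpr χ.2
  have h5 : e χ = 1 := by
    have o : inn N χ.1 (ez N φ.1) ≠ 0 := by
      rw [he]; exact_mod_cast (Nat.Odd.of_mul_right h4).pos.ne'
    obtain ⟨k, k1, k2⟩ := c1.deg_dvd_rel norm_top le_top hΦ o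
    have k3 := c1.deg_eq norm_top le_top hΦ o
    rw [k2, he, ← mul_assoc, mul_left_inj' hΦ.one_ne] at k3
    have k4 : k = e χ * (stab N (ez N φ.1)).relIndex ⊤ := by exact_mod_cast k3
    rw [relIndex_top_right, hj, k4] at k1
    exact Nat.eq_one_of_dvd_coprimes ((Nat.coprime_two_left.mpr (Nat.Odd.of_mul_right h4)).pow_left j)
      ((dvd_mul_right _ _).trans k1) dvd_rfl
  refine ⟨χ, fs_finsum_top.trans (Spc.Fs.fs_of_odd c1 (fun x => congrFun (congrArg Subtype.val h3) x) S
    (m := a χ) ?_ (Nat.Odd.of_mul_left h4)), (inn_finsum φ.1).trans (by rw [he, h5, Nat.cast_one])⟩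
  rw [← ha, inn_ind_left le_top c1.inv, chr_one.inn_comm (c1.chr.res le_top)]

end Cfsg.Agent.S4872
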