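import Mathlib
import Cfsg.Statements.S4873
import Cfsg.Agent.Isaacs.RealCh
-- import your own Cfsg.Agent.* helpers here

set_option autoImplicit false
open Cfsg

namespace Cfsg.Agent.S4873

open Cfsg.Agent.Char Cfsg.Agent.Isaacs Subgroup

/-- Let N be a normal subgroup of odd index in the finite group G. Then every irreducible complex character of N with Frobenius–Schur indicator +1 lies under exactly one irreducible character of G with Frobenius–Schur indicator +1. -/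
theorem result {G : Type*} [Group G] [Finite G] (N : Subgroup G) [N.Normal] (hodd : Odd N.index) (φ : Cfsg.IrrCharacter ↥N) (hφ : (Nat.card ↥N : ℂ)⁻¹ * ∑ᶠ g : ↥N, (φ : ↥N → ℂ) (g * g) = 1) : ∃! χ : Cfsg.IrrCharacter G, (Nat.card G : ℂ)⁻¹ * ∑ᶠ g : G, (χ : G → ℂ) (g * g) = 1 ∧ (∑ᶠ n : ↥N, (χ : G → ℂ) n * (starRingEnd ℂ) ((φ : ↥N → ℂ) n)) ≠ 0 := by
  rw [fs_finsum] at hφ
  have h : Irr N (ez N φ.1) := irr_ez.mpr φ.2
  obtain ⟨χ, a, b, c, d⟩ := h.exists_real_odd hodd (h.real_of_fs (hφ ▸ one_ne_zero))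
  have k : ∀ η : G → ℂ, (∑ᶠ n : N, η n * (starRingEnd ℂ) (φ.1 n)) ≠ 0 ↔ inn N η (ez N φ.1) ≠ 0 := fun η => by
    rw [← inn_finsum]; simp [Nat.card_pos.ne']
  refine ⟨⟨χ, irr_top.mp a⟩, ⟨fs_finsum_top.trans (a.fs_of_mult_one norm_top le_top (fun x _ => c x) h b hφ),
    (k _).mpr (b ▸ one_ne_zero)⟩, fun η ⟨i, j⟩ => Subtype.ext (d _ (irr_top.mpr η.2) ((k _).mp j) fun x =>
      (irr_top.mpr η.2).real_of_fs (fs_finsum_top.symm.trans i ▸ one_ne_zero) x trivial)⟩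

end Cfsg.Agent.S4873
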