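import Mathlib
import Cfsg.Statements.S4889
import Cfsg.Agent.Block.OT

set_option autoImplicit false
open Cfsg

namespace Cfsg.Agent.S4889

open Cfsg.Agent.Block Cfsg.Agent.Char Subgroup

/-- Let G be a finite group, p a prime, M a maximal ideal of the algebraic integers containing p, and B a p-block of G that has an abelian defect group and in which every irreducible character has height zero. Then all irreducible characters of B have the same degree if and only if B is a nilpotent block. -/
theorem result {G : Type*} [Group G] [Finite G] (p : ℕ) [Fact p.Prime] (M : Ideal Cfsg.AlgInt) (hM : Cfsg.IsPModular p M) (B : Set (Cfsg.IrrCharacter G)) (hB : Cfsg.IsPBlock M B) (D : Subgroup G) (hD : Cfsg.IsDefectGroup p M B D) (hDab : IsMulCommutative ↥D) (h0 : ∀ χ : Cfsg.IrrCharacter G, χ ∈ B → Cfsg.blockHeight p B (χ : G → ℂ) = 0) : (∃ d : ℕ, ∀ χ : Cfsg.IrrCharacter G, χ ∈ B → Cfsg.charDegree (χ : G → ℂ) = d) ↔ Cfsg.IsNilpotentBlock p M B := by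
  exact ⟨fun ⟨_, h⟩ => (unif_of_degree hM hB h).nilpotent hM hB, fun hn =>
    let ⟨ζ, hζ⟩ := block_nonempty hM hB
    ⟨_, fun χ hχ => degree_eq_of_nilpotent hM hn hχ hζ (h0 χ hχ) (h0 ζ hζ)⟩⟩

end Cfsg.Agent.S4889
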