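import Mathlib
import Cfsg.Statements.S4892
import Cfsg.Agent.Block.Murai
import Cfsg.Agent.Block.Gens
import Cfsg.Agent.Isaacs.Canon

set_option autoImplicit false
open Cfsg

namespace Cfsg.Agent.S4892

open Cfsg.Agent.Block Cfsg.Agent.Char Subgroup

theorem normal_L {G : Type*} [Group G] [Finite G] {p : ℕ} [Fact p.Prime] {N : Subgroup G}
    [N.Normal] (Q : Sylow p N) :
    (N ⊔ centralizer (((Q : Subgroup N).map N.subtype : Subgroup G) : Set G)).Normal := by
  rw [← normalizer_eq_top_iff, eq_top_iff, ← Q.normalizer_sup_eq_top]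
  refine sup_le ?_ (le_sup_left.trans le_normalizer)
  intro g hg
  rw [← LocalEven.cj_eq_self_iff, LocalEven.cj_sup, LocalEven.cj_centralizer,
    LocalEven.cj_eq_of_mem_normalizer hg, LocalEven.cj_eq_of_mem_normalizer
      (show g ∈ normalizer (N : Set G) by rw [normalizer_eq_top]; trivial)]

theorem exists_ext {G : Type*} [Group G] [Finite G] {p : ℕ} [Fact p.Prime] {M : Ideal AlgInt}
    (hM : IsPModular p M) {N : Subgroup G} [N.Normal] {θ : IrrCharacter N}
    (hB : θ ∈ principalBlock M N) (hinv : Clifford.inertia N (θ : N → ℂ) = ⊤) (Q : Sylow p N)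
    {a : ℕ} (ha : (N ⊔ centralizer (((Q : Subgroup N).map N.subtype : Subgroup G) :
      Set G)).index = p ^ a) (ho : ¬ p ∣ detOrder (θ : N → ℂ) * charDegree (θ : N → ℂ)) :
    ∃ ψ, IsIrrCharacter G ψ ∧ ∀ n : N, ψ n = (θ : N → ℂ) n := by
  have hp : p.Prime := Fact.out
  have := normal_L Q
  set Q' := (Q : Subgroup N).map N.subtype with hQ'
  set L := N ⊔ centralizer (Q' : Set G)
  refine Extend.exists_ext_of_forall_prime θ.2 hinv (irr_degree_cast θ).symm fun q hq h1 _ => ?_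
  have : Fact q.Prime := ⟨hq⟩
  have hne : q ≠ p := fun e => ho (e ▸ h1)
  obtain ⟨S⟩ : Nonempty (Sylow q (G ⧸ N)) := inferInstance
  have hs := QuotientGroup.mk'_surjective N
  set H := (S : Subgroup (G ⧸ N)).comap (QuotientGroup.mk' N)
  have hNH : N ≤ H := (QuotientGroup.ker_mk' N).ge.trans (ker_le_comap _ _)
  have hHL : H ≤ L := by
    have h2 : (QuotientGroup.mk' N).ker ≤ L := (QuotientGroup.ker_mk' N).le.trans le_sup_left
    have : (L.map (QuotientGroup.mk' N)).Normal := Normal.map inferInstance _ hs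
    rw [← comap_map_eq_self h2]
    refine comap_mono (le_of_not_dvd_index S.isPGroup' ?_)
    rw [index_map_eq _ hs h2, ha]
    exact fun h => hne ((Nat.prime_dvd_prime_iff_eq hq hp).1 (hq.dvd_of_dvd_pow h))
  have h2 : ¬ p ∣ N.relIndex H := by
    have h3 := relIndex_ker H (QuotientGroup.mk' N)
    rw [QuotientGroup.ker_mk', map_comap_eq_self_of_surjective hs, S.card_eq_multiplicity] at h3
    rw [h3]
    exact fun h => hne ((Nat.prime_dvd_prime_iff_eq hp hq).1 (hp.dvd_of_dvd_pow h)).symm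
  have hQN : Q' ≤ N := map_subtype_le _
  have h3 : ¬ p ∣ (Q'.subgroupOf H).index := by
    change ¬ p ∣ Q'.relIndex H
    rw [← relIndex_mul_relIndex _ _ _ hQN hNH, hp.dvd_mul, not_or]
    refine ⟨?_, h2⟩
    rw [relIndex, subgroupOf, hQ', comap_map_eq_self_of_injective N.subtype_injective]
    exact Q.not_dvd_index
  have h4 : IsPGroup p (Q'.subgroupOf H) := (Q.isPGroup'.map _).comap_of_injective _
    H.subtype_injective
  obtain ⟨χ, ⟨-, hχ⟩, -⟩ := (alperin_dade (N := N.subgroupOf H) hM h2 (h4.toSylow h3) (by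
    rw [eq_top_iff]
    rintro ⟨h, hh⟩ -
    obtain ⟨n, hn, c, hc, rfl⟩ := mem_sup_of_normal_left.1 (hHL hh)
    have h5 : c ∈ H := (H.mul_mem_cancel_left (hNH hn)).1 hh
    exact mul_mem (mem_sup_left (show (⟨n, hNH hn⟩ : H) ∈ N.subgroupOf H from hn))
      (mem_sup_right ((mem_centralizer_subgroupOf_iff (hQN.trans hNH) ⟨c, h5⟩).2 hc)))).2
    (irrComp (subgroupOfEquivOfLe hNH) θ) (by
      rw [← compSet_principalBlock (subgroupOfEquivOfLe hNH)]
      exact irrComp_mem_compSet.2 hB)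
  refine ⟨H, hNH, χ, ?_, irr_isChar χ, fun n => hχ ⟨⟨n, hNH n.2⟩, n.2⟩⟩
  rw [index_comap_of_surjective _ hs]
  exact S.not_dvd_index

theorem fix_of_mem {σ : ℂ ≃+* ℂ} {ζ x : ℂ} (h : σ ζ = ζ)
    (hx : x ∈ IntermediateField.adjoin ℚ ({ζ} : Set ℂ)) : σ x = x := by
  induction hx using IntermediateField.adjoin_induction with
  | mem y hy => rwa [Set.mem_singleton_iff.1 hy]
  | algebraMap q => simp
  | add a b _ _ ha hb => rw [map_add, ha, hb]
  | inv a _ ha => rw [map_inv₀, ha]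
  | mul a b _ _ ha hb => rw [map_mul, ha, hb]

theorem fix_root {σ : ℂ ≃+* ℂ} {n : ℕ} (hn : n ≠ 0)
    (h : σ (Complex.exp (2 * Real.pi * Complex.I / n)) = Complex.exp (2 * Real.pi * Complex.I / n))
    {z : ℂ} (hz : z ^ n = 1) : σ z = z := by
  have : NeZero n := ⟨hn⟩
  obtain ⟨i, -, rfl⟩ := (Complex.isPrimitiveRoot_exp _ hn).eq_pow_of_pow_eq_one hz
  rw [map_pow, h]

theorem det_pow {N : Type*} [Group N] [Finite N] {p : ℕ} (hp : p.Prime) (h2 : p ≠ 2) {θ : N → ℂ}
    (hθ : IsCharacter N θ) {m : ℕ} (hm : ¬ p ∣ m) (hrat : ∀ n, θ n ∈ IntermediateField.adjoin ℚ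
      ({Complex.exp (2 * Real.pi * Complex.I / m)} : Set ℂ)) {k : ℕ} (hk : k ≠ 0)
    (hd : Nat.card N ∣ k) (n : N) : detChar θ n ^ ordCompl[p] k = 1 := by
  have hm0 : m ≠ 0 := fun e => hm (e ▸ dvd_zero p)
  have hc : m.Coprime (ordProj[p] k) := ((Nat.Prime.coprime_iff_not_dvd hp).2 hm).symm.pow_right _
  obtain ⟨j, hj1, hj2⟩ := Nat.chineseRemainder hc 1 2
  obtain ⟨σ, hσ⟩ := GaloisAut.exists_aut_pow (n := m * ordProj[p] k) (k := j)
    (mul_ne_zero hm0 (pow_ne_zero _ hp.ne_zero)) (Nat.Coprime.mul_right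
      (by rw [Nat.Coprime, hj1.gcd_eq]; simp) (by
        rw [Nat.Coprime, hj2.gcd_eq]
        exact ((Nat.coprime_primes Nat.prime_two hp).2 h2.symm).pow_right _))
  have hζ := (Complex.isPrimitiveRoot_exp _ hm0).pow_eq_one
  have h1 : σ (Complex.exp (2 * Real.pi * Complex.I / m)) =
      Complex.exp (2 * Real.pi * Complex.I / m) := by
    rw [hσ _ (by rw [pow_mul, hζ, one_pow]), pow_eq_pow_mod _ hζ, hj1, ← pow_eq_pow_mod _ hζ,
      pow_one]
  have h3 := Isaacs.detChar_map (σ : ℂ →+* ℂ) hθ n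
  rw [show (fun x => (σ : ℂ →+* ℂ) (θ x)) = θ from funext fun x => fix_of_mem h1 (hrat x)] at h3
  obtain ⟨lam, hl⟩ := Det.exists_detHom hθ
  set z := detChar θ n ^ ordCompl[p] k with hz
  have h4 : z ^ ordProj[p] k = 1 := by
    obtain ⟨c, hc⟩ := (orderOf_dvd_natCard n).trans hd
    rw [hz, ← pow_mul, mul_comm, Nat.ordProj_mul_ordCompl_eq_self, hl, hc, pow_mul,
      linear_pow_orderOf, one_pow]
  have h5 : σ z = z := by
    rw [hz, map_pow]
    exact congrArg (· ^ _) h3.symm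
  rw [hσ _ (by rw [mul_comm, pow_mul, h4, one_pow]), pow_eq_pow_mod _ h4, hj2,
    ← pow_eq_pow_mod _ h4, sq] at h5
  exact mul_left_cancel₀ (fun e => by simp [e, hp.ne_zero] at h4) (h5.trans (mul_one z).symm)

/-- Let p be an odd prime, M a maximal ideal of the algebraic integers containing p, N a normal subgroup of the finite group G, and θ an irreducible character of N that is G-invariant, of degree prime to p, p-rational (values in the field generated over ℚ by a root of unity of order prime to p) and lies in the principal p-block of N. Let Q be a Sylow p-subgroup of N and suppose the index of N·C_G(Q) in G is a power of p. Then θ extends to a p-rational irreducible character of G lying in the principal p-block of G. -/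
theorem result {G : Type*} [Group G] [Finite G] (p : ℕ) [Fact p.Prime] (hp : p ≠ 2) (M : Ideal Cfsg.AlgInt) (hM : Cfsg.IsPModular p M) (N : Subgroup G) [N.Normal] (θ : Cfsg.IrrCharacter ↥N) (hinv : ∀ g : G, ∀ n n' : ↥N, (n' : G) = g * (n : G) * g⁻¹ → (θ : ↥N → ℂ) n' = (θ : ↥N → ℂ) n) (hdeg : ¬ p ∣ Cfsg.charDegree (θ : ↥N → ℂ)) (hrat : ∃ m : ℕ, ¬ p ∣ m ∧ ∀ n : ↥N, (θ : ↥N → ℂ) n ∈ IntermediateField.adjoin ℚ ({Complex.exp (2 * Real.pi * Complex.I / m)} : Set ℂ)) (hB : θ ∈ Cfsg.principalBlock M ↥N) (Q : Sylow p ↥N) (hidx : ∃ a : ℕ, (N ⊔ Subgroup.centralizer (((Q : Subgroup ↥N).map N.subtype : Subgroup G) : Set G)).index = p ^ a) : ∃ χ : Cfsg.IrrCharacter G, χ ∈ (Cfsg.principalBlock M G) ∧ (∃ n : ℕ, ¬ p ∣ n ∧ ∀ g : G, (χ : G → ℂ) g ∈ IntermediateField.adjoin ℚ ({Complex.exp (2 * Real.pi * Complex.I / n)} : Set ℂ)) ∧ ∀ n : ↥N, (χ : G → ℂ) n = (θ : ↥N → ℂ) n := by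
  classical
  have hp' : p.Prime := Fact.out
  obtain ⟨m, hm, hrat⟩ := hrat
  obtain ⟨a, ha⟩ := hidx
  have := normal_L Q
  have hG : Nat.card G ≠ 0 := Nat.card_pos.ne'
  set m' := ordCompl[p] (Nat.card G) with hm'
  have hm1 : ¬ p ∣ m' := Nat.not_dvd_ordCompl hp' hG
  have h1 : ∀ n, detChar (θ : N → ℂ) n ^ m' = 1 :=
    det_pow hp' hp (irr_isChar θ) hm hrat hG (card_subgroup_dvd_card N)
  set d := charDegree (θ : N → ℂ)
  obtain ⟨ψ, hψ, he⟩ := exists_ext hM hB (Clifford.inertia_eq_top.2 fun g n => hinv g n _ rfl) Q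
    ha fun h => (hp'.dvd_mul.1 h).elim (fun h => hm1 (h.trans
      (orderOf_dvd_of_pow_eq_one (funext h1)))) hdeg
  have hd : ψ 1 = d := (he 1).trans (irr_degree_cast θ).symm
  obtain ⟨δ, hδ⟩ := Det.exists_detHom (isIrr_isChar hψ)
  have h2 : N ≤ (δ ^ m').ker := fun n hn => Units.ext (by
    have h3 := Det.detChar_res N (isIrr_isChar hψ) ⟨n, hn⟩
    rw [funext he, hδ] at h3
    simpa [h3] using h1 ⟨n, hn⟩)
  obtain ⟨j, hj⟩ : ∃ j : ℕ, ((δ ^ m') ^ j) ^ (d * m') = δ ^ m' := by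
    refine Extend.pow_pow_eq_of_coprime (A := G →* ℂˣ) (δ ^ m') (d := d * m') ?_
    have h3 : orderOf (δ ^ m') ∣ ordProj[p] (Nat.card G) := by
      refine orderOf_dvd_of_pow_eq_one ((pow_mul δ _ _).symm.trans ?_)
      rw [mul_comm, Nat.ordProj_mul_ordCompl_eq_self]
      exact Det.linear_pow_card δ
    exact (((Nat.Prime.coprime_iff_not_dvd hp').2 fun h => (hp'.dvd_mul.1 h).elim hdeg
      hm1).pow_left _).coprime_dvd_left h3
  set μ₁ := (δ ^ m') ^ j with hμ₁
  set μ₀ := μ₁⁻¹ with hμ₀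
  have h3 : N ≤ μ₀.ker := fun n hn => by
    rw [MonoidHom.mem_ker, MonoidHom.inv_apply, MonoidHom.pow_apply,
      show (δ ^ m') n = 1 from h2 hn, one_pow, inv_one]
  have hc₀ : IsCharacter G fun g => (μ₀ g : ℂ) * ψ g :=
    isChar_mul (isChar_linear μ₀) (isIrr_isChar hψ)
  have he₀ : ∀ n : N, (μ₀ n : ℂ) * ψ n = (θ : N → ℂ) n := fun n => by
    rw [show μ₀ n = 1 from h3 n.2, Units.val_one, one_mul, he]
  obtain ⟨μ, hk, hμ, h⟩ := exists_strong hM hB hc₀ he₀ le_sup_left ⟨a, ha⟩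
    fun x hx => exists_good_of_mem_sup Q hx
  set χ : G → ℂ := fun g => (μ g : ℂ) * (μ₀ g * ψ g) with hχ
  have hc : IsCharacter G χ := isChar_mul (isChar_linear μ) hc₀
  have he' : ∀ n : N, χ n = (θ : N → ℂ) n := fun n => by
    simp only [hχ]
    rw [show μ n = 1 from hk n.2, Units.val_one, one_mul, he₀]
  have hN : IsIrrCharacter N fun n : N => χ n := (funext he' :) ▸ θ.2
  have hd' : χ 1 = d := (he' 1).trans (irr_degree_cast θ).symm
  have hdet : ∀ g, detChar χ g ^ m' = 1 := fun g => by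
    rw [hχ, Det.detChar_linear_mul hc₀ (d := d) (by simp [hd]),
      Det.detChar_linear_mul (isIrr_isChar hψ) hd, hδ]
    have h4 := congrArg (fun f : G →* ℂˣ => (f g : ℂ)) hj
    have h5 := congrArg (fun f : G →* ℂˣ => (f g : ℂ)) hμ
    simp only [MonoidHom.pow_apply, Units.val_pow_eq_pow_val, MonoidHom.inv_apply,
      Units.val_inv_eq_inv_val, MonoidHom.one_apply, Units.val_one] at h4 h5
    rw [mul_pow, mul_pow, ← pow_mul, ← pow_mul, mul_comm d m', pow_mul, h5, one_pow, one_mul,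
      mul_comm m' d, hμ₀, MonoidHom.inv_apply, Units.val_inv_eq_inv_val, inv_pow, h4,
      inv_mul_cancel₀ (pow_ne_zero _ (δ g).ne_zero)]
  have hgood : ∀ c ∈ centralizer (((Q : Subgroup N).map N.subtype : Subgroup G) : Set G),
      val M (χ c / χ 1 - 1) < 1 := fun c hc' => by
    have := h _ (isV_nAvg hM (not_dvd_ncard_nOrb Q hc')) (invUnder_nAvg c) fun g hg => by
      obtain ⟨n, hn, rfl⟩ := mem_nOrb_of_coeff hg
      exact mul_mem (mul_mem (mem_sup_left hn) (mem_sup_right hc')) (mem_sup_left (inv_mem hn))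
    rwa [omega_nAvg (isChar_classFun hc), omega_nAvg (fun _ _ => rfl), div_one] at this
  have hn0 : m * m' ≠ 0 := fun e => (hp'.dvd_mul.1 (e ▸ dvd_zero p)).elim hm hm1
  refine ⟨⟨χ, isIrr_of_isIrr_res N hc hN⟩, mem_principal_of_val hM
    (h _ (isV_blockIdem hM isPBlock_principalBlock) ((isCentral_blockIdem _).invUnder N)
      fun g hg => mem_of_index_pow hp' ⟨a, ha⟩ fun h0 => hg ?_), ⟨m * m', fun h =>
        (hp'.dvd_mul.1 h).elim hm hm1, fun g => ?_⟩, he'⟩
  · rw [coeff_blockIdem, blockCoeff_eq_zero_of_dvd hM (isV_blockIdem hM isPBlock_principalBlock) h0]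
  refine mem_adjoin_of_forall_aut (((Complex.isPrimitiveRoot_exp _ hn0).isIntegral
    (Nat.pos_of_ne_zero hn0)).tower_top) (isChar_isIntegral hc g).tower_top fun σ hσ => ?_
  have hm0 : m ≠ 0 := left_ne_zero_of_mul hn0
  have h4 := fix_root hn0 hσ (z := Complex.exp (2 * Real.pi * Complex.I / m)) (by
    rw [pow_mul, (Complex.isPrimitiveRoot_exp _ hm0).pow_eq_one, one_pow])
  obtain ⟨β, hβ, e⟩ := Gallagher.exists_linear_of_res_eq hc hN
    (Galois.isChar_map (σ : ℂ →+* ℂ) hc) fun n => by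
      rw [he']
      exact fix_of_mem h4 (hrat n)
  have h5 : ∀ g, (β g : ℂ) ^ d = 1 := fun g => by
    have h6 := Isaacs.detChar_map (σ : ℂ →+* ℂ) hc g
    rw [e, Det.detChar_linear_mul hc hd'] at h6
    have h7 : σ (detChar χ g) = detChar χ g :=
      fix_root hn0 hσ (by rw [mul_comm, pow_mul, hdet, one_pow])
    refine mul_right_cancel₀ (fun e => ?_) (h6.trans (h7.trans (one_mul _).symm))
    simpa [e, right_ne_zero_of_mul hn0] using hdet g
  obtain ⟨k, -, hk'⟩ := Galois.exists_pow_forall (G := G) (σ : ℂ →+* ℂ)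
  have h6 : N ⊔ centralizer (((Q : Subgroup N).map N.subtype : Subgroup G) : Set G) ≤ β.ker := by
    refine sup_le hβ fun c hc' => Units.ext (eq_one_of_pow_eq_one_of_val_sub_one_lt_one hM hdeg
      (h5 c) ?_)
    have h7 := hgood _ (pow_mem hc' k)
    rw [← hk' χ (isChar_isGenChar hc), congrFun e c] at h7
    have h8 := hgood c hc'
    rw [show (β c : ℂ) - 1 = (β c * χ c / χ 1 - 1) - β c * (χ c / χ 1 - 1) by ring]
    exact val_sub_lt_one h7 (val_mul_lt_one_right (mem_V_of_val_eq_one (val_eq_one_of_pow_eq_one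
      (orderOf_pos c).ne' (linear_pow_orderOf β c))) h8)
  have h7 : β = 1 := by
    have h8 := Det.orderOf_linear_dvd_index β _ h6
    rw [ha] at h8
    exact orderOf_eq_one_iff.1 (Nat.eq_one_of_dvd_coprimes
      (((Nat.Prime.coprime_iff_not_dvd hp').2 hdeg).pow_left a) h8
      (orderOf_dvd_of_pow_eq_one (MonoidHom.ext fun g => Units.ext (by simpa using h5 g))))
  simpa [h7] using congrFun e g

end Cfsg.Agent.S4892
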