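import Mathlib
import Cfsg.Statements.S4911
import Cfsg.Agent.Isaacs.RealCh3
-- import your own Cfsg.Agent.* helpers here

set_option autoImplicit false
open Cfsg

namespace Cfsg.Agent.S4911

open Cfsg.Agent.Char Cfsg.Agent.Isaacs Subgroup

/-- Let P and K be subgroups of a finite group with P a p-group normalizing K and K of order prime to p. Then the number of P-invariant real-valued irreducible complex characters of K equals the number of conjugacy classes of K that are real (closed under inversion) and P-invariant. Moreover, if every real-valued irreducible character of K is P-invariant, then every real element of K (one conjugate in K to its inverse) is conjugate in K to an element centralized by P. -/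
theorem result {G : Type*} [Group G] [Finite G] (p : ℕ) [Fact p.Prime] (P K : Subgroup G) (hP : IsPGroup p ↥P) (hK : ¬ p ∣ Nat.card ↥K) (hPK : P ≤ Subgroup.normalizer (K : Set G)) : Nat.card {θ : Cfsg.IrrCharacter ↥K // (∀ k : ↥K, ((θ : ↥K → ℂ) k).im = 0) ∧ (∀ x ∈ P, ∀ k k' : ↥K, (k' : G) = x * (k : G) * x⁻¹ → (θ : ↥K → ℂ) k' = (θ : ↥K → ℂ) k)} = Nat.card {c : ConjClasses ↥K // (∀ k : ↥K, ConjClasses.mk k = c → IsConj k k⁻¹) ∧ ∀ k : ↥K, ConjClasses.mk k = c → ∀ x ∈ P, ∀ k' : ↥K, (k' : G) = x * (k : G) * x⁻¹ → ConjClasses.mk k' = c} ∧ ((∀ θ : Cfsg.IrrCharacter ↥K, (∀ k : ↥K, ((θ : ↥K → ℂ) k).im = 0) → (∀ x ∈ P, ∀ k k' : ↥K, (k' : G) = x * (k : G) * x⁻¹ → (θ : ↥K → ℂ) k' = (θ : ↥K → ℂ) k)) → ∀ k : ↥K, IsConj k k⁻¹ → ∃ k' : ↥K, IsConj k k' ∧ ∀ x ∈ P, x * (k' : G) * x⁻¹ = (k' : G)) := by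
  have := Fintype.ofFinite K
  have := Fintype.ofFinite ↥(K ⊓ centralizer (P : Set G))
  have s : Group.IsSolvable P := have := hP.isNilpotent; inferInstance
  have c := cop_of_not_dvd Fact.out hP hK
  have a := (card_real_inv Fact.out hP hK hPK).trans (card_real_irr.trans (card_real_cl s c hPK))
  simp only [inv_ez_iff hPK] at a
  refine ⟨a, fun h k i => exists_fix_conj s c hPK ?_ |>.imp fun d j => ⟨j.1, fun x l => mul_inv_eq_iff_eq_mul.mpr (j.2 x l)⟩⟩
  rw [Nat.card_congr (Equiv.subtypeEquivRight fun θ => and_iff_left_of_imp (h θ)), card_real_irr] at a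
  obtain ⟨d, e⟩ := ((Function.Injective.bijective_of_nat_card_le (f := Subtype.map id fun _ => And.left)
    (Subtype.map_injective _ Function.injective_id) a.le).2 ⟨.mk k, fun g j => real_of_mk_eq j i⟩)
  have f : d.1 = .mk k := congrArg Subtype.val e
  exact f ▸ d.2.2 k f.symm

end Cfsg.Agent.S4911
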