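import Mathlib
import Cfsg.Statements.S4912
import Cfsg.Agent.Isaacs.RealCh2
-- import your own Cfsg.Agent.* helpers here

set_option autoImplicit false
open Cfsg

namespace Cfsg.Agent.S4912

open Cfsg.Agent.Char Cfsg.Agent.Isaacs Subgroup

/-- Let G be a finite group with a non-abelian minimal normal subgroup N, and let φ be an irreducible complex character of N with stabilizer I in G such that φ extends to an irreducible character of I with Frobenius–Schur indicator +1. Put d = φ(1)·[G : I]. Then the number of linear characters of G with Frobenius–Schur indicator +1 is at most [G : I] times the number of irreducible characters of G of degree d with Frobenius–Schur indicator +1. -/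
theorem result {G : Type*} [Group G] [Finite G] (N : Subgroup G) (hN : N.Normal) (hN1 : N ≠ ⊥) (hmin : ∀ M : Subgroup G, M.Normal → M ≤ N → M = ⊥ ∨ M = N) (hna : ¬ IsMulCommutative ↥N) (φ : Cfsg.IrrCharacter ↥N) (I : Subgroup G) (hI : ∀ g : G, g ∈ I ↔ ∀ n n' : ↥N, (n' : G) = g * (n : G) * g⁻¹ → (φ : ↥N → ℂ) n' = (φ : ↥N → ℂ) n) (hNI : N ≤ I) (hext : ∃ ψ : Cfsg.IrrCharacter ↥I, (Nat.card ↥I : ℂ)⁻¹ * ∑ᶠ g : ↥I, (ψ : ↥I → ℂ) (g * g) = 1 ∧ ∀ n : ↥N, (ψ : ↥I → ℂ) (Subgroup.inclusion hNI n) = (φ : ↥N → ℂ) n) : Nat.card {χ : Cfsg.IrrCharacter G // Cfsg.charDegree (χ : G → ℂ) = 1 ∧ (Nat.card G : ℂ)⁻¹ * ∑ᶠ g : G, (χ : G → ℂ) (g * g) = 1} ≤ I.index * Nat.card {χ : Cfsg.IrrCharacter G // Cfsg.charDegree (χ : G → ℂ) = Cfsg.charDegree (φ : ↥N → ℂ) * I.index ∧ (Nat.card G : ℂ)⁻¹ * ∑ᶠ g : G, (χ : G → ℂ) (g * g) = 1} := by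
  obtain ⟨ψ, f, e⟩ := hext
  rw [fs_finsum] at f
  simp only [fs_finsum_top]
  have a : Irr N (ez N φ.1) := irr_ez.mpr φ.2
  have b : Irr I (ez I ψ.1) := irr_ez.mpr ψ.2
  have c : Eqv N (ez I ψ.1) (ez N φ.1) := fun x i => by rw [ez_mem _ i, ez_mem _ (hNI i)]; exact e ⟨x, i⟩
  have d := le_comm_of_min hN hmin hna
  have g := eq_stab_of_iff hI
  simpa [charDegree, ez_one] using card_lin_le d g a b c (fun χ => fs ⊤ χ = 1) (fun χ => fs ⊤ χ = 1) fun l i j k => by
    have m := b.lin_mul (i.chr.res le_top) j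
    have o : inn N (l * ez I ψ.1) (ez N φ.1) = 1 := (Eqv.inn_left fun x m => by
      simp [(i.chr.ker_comm j).mono d x m, j, c x m]).trans a.inn_self
    refine (a.ind_of_stab norm_top hNI le_top g.ge m (o ▸ one_ne_zero)).fs_of_mult_one norm_top le_top (fun x _ => ?_) a
      ((a.inn_ind_stab norm_top hNI le_top g m (o ▸ one_ne_zero)).trans o)
      ((fs_congr c).symm.trans (b.fs_res hNI (a.congr c.symm) f))
    rw [← congrFun (ind_map (starRingEnd ℂ)) x, ind_congr fun y s => by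
      rw [Pi.mul_apply, map_mul, i.real_of_fs (k ▸ one_ne_zero) y trivial, b.real_of_fs (f ▸ one_ne_zero) y s]]
    rfl

end Cfsg.Agent.S4912
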