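import Mathlib
import Cfsg.Statements.S4914
import Cfsg.Agent.Isaacs.GlRel
-- import your own Cfsg.Agent.* helpers here

set_option autoImplicit false
open Cfsg

namespace Cfsg.Agent.S4914

open Cfsg.Agent.Char Cfsg.Agent.Isaacs Subgroup

/-- Let P and K be subgroups of a finite group G with P a p-group normalizing K, and suppose K has a normal Sylow p-subgroup Q. Let C be the subgroup of those k ∈ K whose commutator with every element of P lies in Q (so that C/Q is the fixed-point subgroup of P on K/Q). Then there is a bijection f from the P-invariant irreducible complex characters of K onto the P-invariant irreducible complex characters of C such that, for every P-invariant irreducible character χ of K, the multiplicity of f(χ) in the restriction of χ to C is a natural number congruent to 1 or to −1 modulo p, every other P-invariant irreducible character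 of C occurs in that restriction with multiplicity divisible by p, and the degrees of χ and f(χ) are congruent modulo p up to sign. -/
theorem result {G : Type*} [Group G] [Finite G] (p : ℕ) [Fact p.Prime] (P K Q C : Subgroup G) (hP : IsPGroup p ↥P) (hPK : P ≤ Subgroup.normalizer (K : Set G)) (hQK : Q ≤ K) (hQn : ∀ k ∈ K, ∀ q ∈ Q, k * q * k⁻¹ ∈ Q) (hQp : ∃ a : ℕ, Nat.card ↥Q = p ^ a) (hQsyl : ¬ p ∣ Q.relIndex K) (hCK : C ≤ K) (hC : ∀ k : G, k ∈ C ↔ (k ∈ K ∧ ∀ x ∈ P, x * k * x⁻¹ * k⁻¹ ∈ Q)) : ∃ f : {χ : Cfsg.IrrCharacter ↥K // (∀ x ∈ P, ∀ k k' : ↥K, (k' : G) = x * (k : G) * x⁻¹ → (χ : ↥K → ℂ) k' = (χ : ↥K → ℂ) k)} → {ξ : Cfsg.IrrCharacter ↥C // (∀ x ∈ P, ∀ k k' : ↥C, (k' : G) = x * (k : G) * x⁻¹ → (ξ : ↥C → ℂ) k' = (ξ : ↥C → ℂ) k)}, Function.Bijective f ∧ ∀ χ, (∀ ξ : {ξ : Cfsg.IrrCharacter ↥C // (∀ x ∈ P, ∀ k k' : ↥C, (k' : G) = x * (k : G) * x⁻¹ → (ξ : ↥C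 → ℂ) k' = (ξ : ↥C → ℂ) k)}, ∃ m : ℕ, (Nat.card ↥C : ℂ)⁻¹ * ∑ᶠ c : ↥C, (χ.1 : ↥K → ℂ) (Subgroup.inclusion hCK c) * (starRingEnd ℂ) ((ξ.1 : ↥C → ℂ) c) = (m : ℂ) ∧ (ξ = f χ → ((m : ZMod p) = 1 ∨ (m : ZMod p) = -1)) ∧ (ξ ≠ f χ → p ∣ m)) ∧ ((Cfsg.charDegree ((f χ).1 : ↥C → ℂ) : ZMod p) = (Cfsg.charDegree (χ.1 : ↥K → ℂ) : ZMod p) ∨ (Cfsg.charDegree ((f χ).1 : ↥C → ℂ) : ZMod p) = -(Cfsg.charDegree (χ.1 : ↥K → ℂ) : ZMod p)) := by
  have hp : p.Prime := Fact.out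
  have hQ : IsPGroup p Q := hQp.elim fun _ => IsPGroup.of_card
  have hK : K ≤ normalizer (Q : Set G) := le_norm hQn
  have hPQ : P ≤ normalizer (Q : Set G) := le_norm fun a ha x hx => by
    obtain ⟨k, hk⟩ := hQ ⟨x, hx⟩
    refine le_of_normal_sylow hp hK hQsyl (conj_mem hPK ha (hQK hx)) (k := k) ?_
    rw [conj_pow, show x ^ p ^ k = 1 from congrArg Subtype.val hk]; simp
  have hPC := rel_norm hQK hPQ hC
  have g := gd_rel hp hP hQ hQK hK hPQ hPK hQsyl hC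
  have iK := inv_ez_iff hPK
  have iC := inv_ez_iff hPC
  have hin : ∀ (χ : IrrCharacter K) (ξ : IrrCharacter C), (Nat.card C : ℂ)⁻¹ * ∑ᶠ c : C,
      (χ : K → ℂ) (inclusion hCK c) * (starRingEnd ℂ) ((ξ : C → ℂ) c) = inn C (ez K χ) (ez C ξ) := by
    intro χ ξ
    have := Fintype.ofFinite C
    rw [finsum_eq_sum_of_fintype, inv_mul_eq_iff_eq_mul₀ (Nat.cast_ne_zero.mpr Nat.card_pos.ne'),
      card_mul_inn]
    exact Finset.sum_congr rfl fun x _ => by rw [ez_coe, ez_mem _ (hCK x.2)]; rfl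
  simp only [hin]
  choose f f1 f2 f3 using g.ex
  have nd : ∀ {ε n : ℤ}, (ε = 1 ∨ ε = -1) → ¬ (p : ℤ) ∣ ε + p * n := fun h e => by
    have := Int.natCast_dvd.mp ((Int.dvd_add_left (dvd_mul_right _ _)).mp e)
    rcases h with rfl | rfl <;> exact hp.one_lt.ne' (Nat.dvd_one.mp this)
  refine ⟨fun χ => ⟨⟨_, (f1 _ ⟨irr_ez.mpr χ.1.2, (iK _).mpr χ.2⟩).1⟩,
    (f1 _ ⟨irr_ez.mpr χ.1.2, (iK _).mpr χ.2⟩).2.forall⟩, ⟨fun χ ψ e => ?_, fun ξ => ?_⟩,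
    fun χ => ⟨fun ξ => ?_, ?_⟩⟩
  · obtain ⟨ε, n, a1, a2⟩ := f2 _ ⟨irr_ez.mpr χ.1.2, (iK _).mpr χ.2⟩
    obtain ⟨δ, m, b1, b2⟩ := f2 _ ⟨irr_ez.mpr ψ.1.2, (iK _).mpr ψ.2⟩
    refine Subtype.ext (irr_ez_eq (g.inj _ _ _ _ _ ⟨irr_ez.mpr χ.1.2, (iK _).mpr χ.2⟩
      ⟨irr_ez.mpr ψ.1.2, (iK _).mpr ψ.2⟩ (f1 _ _) a2
      ((eqv_iff.mpr (congrArg (·.1.1) e)).inn_right.trans b2) (nd a1) (nd b1)))
  · obtain ⟨χ, ⟨a1, a2⟩, a, a3, a4⟩ := g.surj _ ⟨irr_ez.mpr ξ.1.2, (iC _).mpr ξ.2⟩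
    refine ⟨⟨⟨_, a1⟩, a2.forall⟩, Subtype.ext (irr_ez_eq (eqv_ez.trans (by_contra fun h => ?_)))⟩
    obtain ⟨n, hn⟩ := f3 _ _ _ ⟨irr_ez.mpr ξ.1.2, (iC _).mpr ξ.2⟩ h
    rw [((ez_mk a1).mono hCK).inn_left, a3] at hn
    exact a4 ⟨n, Int.cast_injective hn⟩
  · obtain ⟨m, hm⟩ := ((irr_ez.mpr χ.1.2).chr.res hCK).inn_nat (irr_ez.mpr ξ.1.2).chr
    refine ⟨m, hm, ?_, fun h => ?_⟩
    · rintro rfl
      obtain ⟨ε, n, a1, a2⟩ := f2 _ ⟨irr_ez.mpr χ.1.2, (iK _).mpr χ.2⟩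
      rw [eqv_ez.inn_right, a2] at hm
      have : (m : ℤ) = ε + p * n := by exact_mod_cast hm.symm
      have := congrArg (Int.cast : ℤ → ZMod p) this
      rcases a1 with rfl | rfl
      · exact Or.inl (by simpa using this)
      · exact Or.inr (by simpa using this)
    · obtain ⟨n, hn⟩ := f3 _ ⟨irr_ez.mpr χ.1.2, (iK _).mpr χ.2⟩ _ ⟨irr_ez.mpr ξ.1.2, (iC _).mpr ξ.2⟩
        fun e => h (Subtype.ext (irr_ez_eq (eqv_ez.trans e).symm))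
      exact Int.natCast_dvd_natCast.mp ⟨n, by exact_mod_cast hm.symm.trans hn⟩
  · have h1 := f1 _ ⟨irr_ez.mpr χ.1.2, (iK _).mpr χ.2⟩
    obtain ⟨ε, n, a1, a2⟩ := f2 _ ⟨irr_ez.mpr χ.1.2, (iK _).mpr χ.2⟩
    obtain ⟨k, hk⟩ := ((irr_ez.mpr χ.1.2).gen.res hCK).deg_cong hp (((iK _).mpr χ.2).mono le_rfl hCK) hP hPC
      h1.1 h1.2 (f3 _ _)
    obtain ⟨d, -, hd⟩ := h1.1.deg
    rw [a2, hd, ez_deg] at hk
    rw [Block.charDegree_of_eq (G := C) (n := d) hd]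
    have : (charDegree (χ.1 : K → ℂ) : ℤ) = (ε + p * n) * d + p * k := by exact_mod_cast hk
    have := congrArg (Int.cast : ℤ → ZMod p) this
    rcases a1 with rfl | rfl
    · exact Or.inl (by simpa using this.symm)
    · exact Or.inr (by simpa [eq_neg_iff_add_eq_zero, add_comm] using this)

end Cfsg.Agent.S4914
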