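import Mathlib
import Cfsg.Statements.S4916
import Cfsg.Agent.Block.Kernel

set_option autoImplicit false
open Cfsg

namespace Cfsg.Agent.S4916

open Cfsg.Agent.Block Cfsg.Agent.Char Subgroup

/-- Let G be a finite group, p a prime and M a maximal ideal of the algebraic integers containing p. Then the principal character is the only irreducible character of degree prime to p in the principal p-block of G if and only if p does not divide the order of G. -/
theorem result {G : Type*} [Group G] [Finite G] (p : ℕ) [Fact p.Prime] (M : Ideal Cfsg.AlgInt) (hM : Cfsg.IsPModular p M) : (∀ χ : Cfsg.IrrCharacter G, χ ∈ Cfsg.principalBlock M G → ¬ p ∣ Cfsg.charDegree (χ : G → ℂ) → (χ : G → ℂ) = fun _ => (1 : ℂ)) ↔ ¬ p ∣ Nat.card G := by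
  classical
  have := Fintype.ofFinite G
  have hp := hM.1
  refine ⟨fun h hd => ?_, fun h χ hχ _ => ?_⟩
  · have h1 : val M (blockCoeff (principalBlock M G) 1) ≤ 1 := by
      rw [← coeff_blockIdem, ← mem_V_iff]
      exact isV_blockIdem hM isPBlock_principalBlock 1
    have h2 : blockCoeff (principalBlock M G) 1 * Nat.card G =
        1 + ∑ χ ∈ (Finset.univ.filter (· ∈ principalBlock M G)).erase (oneIrr G),
          (χ : G → ℂ) 1 * (starRingEnd ℂ) ((χ : G → ℂ) 1) := by
      have hG : (Nat.card G : ℂ) ≠ 0 := Nat.cast_ne_zero.2 Nat.card_pos.ne'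
      rw [blockCoeff, mul_comm, mul_inv_cancel_left₀ hG, finsum_mem_eq_finite_toFinset_sum _
        (Set.toFinite _), ← Finset.add_sum_erase _ _ (a := oneIrr G)
        (by simpa using oneIrr_mem_principalBlock hM)]
      congr 1
      · simp
      · congr 2
        ext
        simp
    have h3 : val M (blockCoeff (principalBlock M G) 1 * Nat.card G) < 1 := by
      rw [map_mul]
      exact mul_lt_one_of_nonneg_of_lt_one_right h1 zero_le' ((val_natCast_lt_one_iff hM _).2 hd)
    rw [h2, Valuation.map_one_add_of_lt] at h3
    · exact h3.false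
    · refine Valuation.map_sum_lt _ one_ne_zero fun χ hχ => ?_
      rw [Finset.mem_erase, Finset.mem_filter] at hχ
      have h4 : p ∣ charDegree (χ : G → ℂ) := by
        by_contra h5
        exact hχ.1 (Subtype.ext (h χ hχ.2.2 h5))
      rw [← charDegree_cast (irr_isChar χ), map_natCast, ← Nat.cast_mul, val_natCast_lt_one_iff hM]
      exact h4.mul_right _
  · have h1 : principalBlock M G = {oneIrr G} := blockOf_eq_singleton_of_not_dvd hM h (oneIrr G)
    rw [h1] at hχ
    rw [hχ]
    rfl

end Cfsg.Agent.S4916
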