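import Mathlib
import Cfsg.Statements.S4923
import Cfsg.Agent.Char.Galois
import Cfsg.Agent.Char.Expand
import Cfsg.Agent.Char.Central
import Cfsg.Agent.PGrp.MaxClass2
import Cfsg.Agent.Inv.QD2

set_option autoImplicit false
open Cfsg

namespace Cfsg.Agent.S4923

open Subgroup Cfsg.Agent.Char Cfsg.Agent.Char.GaloisAut IntermediateField

theorem exists_aut_fix (F : IntermediateField ℚ ℂ) {x y : ℂ} (hx : IsIntegral F x)
    (hy : Polynomial.aeval y (minpoly F x) = 0) :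
    ∃ σ : ℂ ≃+* ℂ, (∀ a ∈ F, σ a = a) ∧ σ x = y := by
  let K := algebraicClosure F ℂ
  have hyi : IsIntegral F y := ⟨minpoly F x, minpoly.monic hx, hy⟩
  let x' : K := ⟨x, mem_algebraicClosure_iff'.mpr hx⟩
  let y' : K := ⟨y, mem_algebraicClosure_iff'.mpr hyi⟩
  have : IsAlgClosure F K := algebraicClosure.isAlgClosure F ℂ
  have hm : minpoly F x' = minpoly F x := IntermediateField.minpoly_eq x'
  have hy' : Polynomial.aeval y' (minpoly F x') = 0 := by
    rw [hm]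
    apply (algebraMap K ℂ).injective
    rw [← Polynomial.aeval_algebraMap_apply, map_zero]
    exact hy
  obtain ⟨τ, hτ⟩ := minpoly.exists_algEquiv_of_root' (Algebra.IsAlgebraic.isAlgebraic x') hy'
  obtain ⟨σ, hσ⟩ := exists_extend (K := K) τ.toRingEquiv
  refine ⟨σ, fun a ha => ?_, ?_⟩
  · have := hσ (algebraMap F K ⟨a, ha⟩)
    change σ a = algebraMap K ℂ (τ _) at this
    rw [this, τ.commutes]
    rfl
  · have := hσ x'
    change σ x = algebraMap K ℂ (τ x') at this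
    rw [this, hτ]
    rfl

theorem mem_of_fix (F : IntermediateField ℚ ℂ) {x : ℂ} (hx : IsIntegral ℚ x)
    (h : ∀ σ : ℂ ≃+* ℂ, (∀ a ∈ F, σ a = a) → σ x = x) : x ∈ F := by
  have hx' : IsIntegral F x := hx.tower_top
  have hsep : (minpoly F x).Separable := (minpoly.irreducible hx').separable
  have hspl : ((minpoly F x).map (algebraMap F ℂ)).Splits := IsAlgClosed.splits _
  have hcard := Polynomial.card_rootSet_eq_natDegree hsep hspl
  have hsub : (minpoly F x).rootSet ℂ ⊆ {x} := by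
    intro y hy
    obtain ⟨σ, h1, hσ⟩ := exists_aut_fix F hx' (Polynomial.aeval_eq_zero_of_mem_rootSet hy)
    rw [Set.mem_singleton_iff, ← hσ, h σ h1]
  have h1 : (minpoly F x).natDegree ≤ 1 := by
    rw [← hcard]
    simpa using Set.card_le_card hsub
  have h2 : (minpoly F x).natDegree = 1 := le_antisymm h1 (minpoly.natDegree_pos hx')
  obtain ⟨q, hq⟩ := minpoly.natDegree_eq_one_iff.mp h2
  exact hq ▸ q.2

theorem fix_adjoin (σ : ℂ ≃+* ℂ) (A : Set ℂ) :
    (∀ a ∈ adjoin ℚ A, σ a = a) ↔ ∀ a ∈ A, σ a = a :=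
  ⟨fun h a ha => h a (subset_adjoin ℚ A ha), fun h => (adjoin_le_iff
    (T := (RingHom.eqLocusField (σ : ℂ →+* ℂ) (RingHom.id ℂ)).toIntermediateField
      fun q => by simp)).2 h⟩

theorem adjoin_eq_iff {A B : Set ℂ} (hA : ∀ a ∈ A, IsIntegral ℚ a) (hB : ∀ a ∈ B, IsIntegral ℚ a) :
    adjoin ℚ A = adjoin ℚ B ↔ ∀ σ : ℂ ≃+* ℂ, (∀ a ∈ A, σ a = a) ↔ ∀ a ∈ B, σ a = a :=
  ⟨fun h σ => by rw [← fix_adjoin, h, fix_adjoin], fun h => le_antisymm
    (adjoin_le_iff.2 fun a ha => mem_of_fix _ (hA a ha) fun σ hσ =>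
      (h σ).2 ((fix_adjoin σ B).1 hσ) a ha)
    (adjoin_le_iff.2 fun a ha => mem_of_fix _ (hB a ha) fun σ hσ =>
      (h σ).1 ((fix_adjoin σ A).1 hσ) a ha)⟩

theorem crit {G : Type*} [Group G] [Finite G] {g : G} {N : ℕ} (hg : orderOf g ∣ 2 ^ N) {ζ : ℂ}
    (hζ : ζ ^ 2 ^ N = 1) (ε : ℤ) :
    adjoin ℚ {z : ℂ | ∃ χ : IrrCharacter G, (χ : G → ℂ) g = z} = adjoin ℚ ({ζ + ε * ζ⁻¹} : Set ℂ) ↔
      ∀ k, Odd k → (IsConj g (g ^ k) ↔ ζ ^ k + ε * (ζ ^ k)⁻¹ = ζ + ε * ζ⁻¹) := by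
  have h0 : 2 ^ N ≠ 0 := by positivity
  have hi : IsIntegral ℤ ζ := isIntegral_of_pow_eq_one h0 hζ
  have hi' : IsIntegral ℤ ζ⁻¹ := isIntegral_of_pow_eq_one h0 (by rw [inv_pow, hζ, inv_one])
  rw [adjoin_eq_iff (by rintro _ ⟨χ, rfl⟩; exact (isIrr_isIntegral χ.2 g).tower_top)
    (by rintro _ rfl; exact (hi.add ((isIntegral_intCast' ε).mul hi')).tower_top)]
  have key : ∀ (σ : ℂ ≃+* ℂ) (k : ℕ), (∀ z : ℂ, z ^ 2 ^ N = 1 → σ z = z ^ k) →
      (((∀ a ∈ {z : ℂ | ∃ χ : IrrCharacter G, (χ : G → ℂ) g = z}, σ a = a) ↔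
      ∀ a ∈ ({ζ + ε * ζ⁻¹} : Set ℂ), σ a = a) ↔
      (IsConj g (g ^ k) ↔ ζ ^ k + ε * (ζ ^ k)⁻¹ = ζ + ε * ζ⁻¹)) := fun σ k hσ => by
    have e : ∀ χ : IrrCharacter G, σ ((χ : G → ℂ) g) = (χ : G → ℂ) (g ^ k) := fun χ =>
      Galois.isGenChar_map_eq_pow_of_dvd (σ : ℂ →+* ℂ) (isIrr_isGenChar χ.2) hσ hg
    refine iff_congr ?_ ?_
    · rw [isConj_iff_forall_irr]
      exact ⟨fun h χ => by rw [← e, h _ ⟨χ, rfl⟩], fun h => by
        rintro _ ⟨χ, rfl⟩; rw [e, h]⟩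
    · simp only [Set.mem_singleton_iff, forall_eq, map_add, map_mul, map_inv₀, map_intCast, hσ ζ hζ]
  constructor
  · intro h k hk
    obtain ⟨σ, hσ⟩ := exists_aut_pow h0 (Nat.Coprime.pow_right N (Nat.coprime_two_right.2 hk))
    exact (key σ k hσ).1 (h σ)
  · intro h σ
    obtain ⟨k, hk, hσ⟩ := exists_pow_of_ringHom (σ : ℂ →+* ℂ) h0
    by_cases hN : N = 0
    · subst hN
      refine (key σ 1 fun z hz => ?_).2 (h 1 odd_one)
      rw [pow_zero, pow_one] at hz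
      simp [hz]
    · exact (key σ k hσ).2 (h k (Nat.coprime_two_right.1
        (Nat.Coprime.coprime_dvd_right (dvd_pow_self 2 hN) hk)))

theorem plus_iff {ζ : ℂ} {M : ℕ} (hM : M ≠ 0) (hζ : IsPrimitiveRoot ζ M) (j : ℕ) :
    ζ ^ (j + 1) + ((1 : ℤ) : ℂ) * (ζ ^ (j + 1))⁻¹ = ζ + ((1 : ℤ) : ℂ) * ζ⁻¹ ↔ M ∣ j ∨ M ∣ j + 2 := by
  have h0 : ζ ≠ 0 := hζ.ne_zero hM
  rw [← hζ.pow_eq_one_iff_dvd, ← hζ.pow_eq_one_iff_dvd, ← sub_eq_zero, ← sub_eq_zero (a := ζ ^ j),
    ← sub_eq_zero (a := ζ ^ (j + 2)), ← mul_eq_zero, ← mul_eq_zero_iff_right (pow_ne_zero (j + 1) h0)]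
  refine Eq.congr_left ?_
  field_simp
  push_cast
  ring

theorem minus_iff {ζ : ℂ} {m : ℕ} (hζ : IsPrimitiveRoot ζ (2 ^ (m + 1))) (j : ℕ) :
    ζ ^ (j + 1) + ((-1 : ℤ) : ℂ) * (ζ ^ (j + 1))⁻¹ = ζ + ((-1 : ℤ) : ℂ) * ζ⁻¹ ↔
      2 ^ (m + 1) ∣ j ∨ 2 ^ (m + 1) ∣ j + 2 + 2 ^ m := by
  have h0 : ζ ≠ 0 := hζ.ne_zero (by positivity)
  have h1 : ζ ^ 2 ^ m = -1 := (hζ.pow (by positivity) (pow_succ 2 m)).eq_neg_one_of_two_right
  rw [← hζ.pow_eq_one_iff_dvd, ← hζ.pow_eq_one_iff_dvd, pow_add ζ (j + 2), h1, ← sub_eq_zero,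
    ← sub_eq_zero (a := ζ ^ j), ← sub_eq_zero (a := ζ ^ (j + 2) * -1), ← mul_eq_zero,
    ← mul_eq_zero_iff_right (neg_ne_zero.2 (pow_ne_zero (j + 1) h0))]
  refine Eq.congr_left ?_
  field_simp
  push_cast
  ring

theorem ctrl {G : Type*} [Group G] [Finite G] (P : Sylow 2 G) {m : ℕ} (hP : Nat.card P = 2 ^ (m + 2))
    {g b : G} (hg : orderOf g = 2 ^ (m + 1)) (hb : b * g * b⁻¹ ∈ zpowers g) (hb' : b * g * b⁻¹ ≠ g) :
    2 ∣ (centralizer ({g} : Set G)).index ∧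
      ∀ k, IsConj g (g ^ k) ↔ g ^ k = g ∨ g ^ k = b * g * b⁻¹ := by
  have hC : centralizer (zpowers g : Set G) = centralizer ({g} : Set G) := by
    rw [zpowers_eq_closure, centralizer_closure]
  have hN : ∀ x : G, x * g * x⁻¹ ∈ zpowers g → x ∈ normalizer (zpowers g : Set G) := fun x hx =>
    LocalEven.mem_normalizer_of_cj_le (by rw [LocalEven.cj_zpowers]; exact zpowers_le.2 hx)
  have hle : centralizer ({g} : Set G) ≤ normalizer (zpowers g : Set G) :=
    hC ▸ centralizer_le_normalizer _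
  have h1 : (centralizer ({g} : Set G)).relIndex (normalizer (zpowers g : Set G)) ∣ 2 ^ m := by
    rw [← hC, relIndex, ← normalizerMonoidHom_ker, index_ker]
    refine (card_subgroup_dvd_card _).trans (dvd_of_eq ?_)
    rw [IsCyclic.card_mulAut, Nat.card_zpowers, hg, Nat.totient_prime_pow_succ Nat.prime_two]
    simp
  obtain ⟨s, -, hs⟩ := (Nat.dvd_prime_pow Nat.prime_two).1 h1
  have h2 : 2 ^ (m + 1) * 2 ^ s ∣ Nat.card G := by
    refine Dvd.dvd.trans ?_ (card_subgroup_dvd_card (normalizer (zpowers g : Set G)))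
    rw [← LocalEven.card_mul_relIndex hle, hs, ← hg]
    exact Nat.mul_dvd_mul_right (orderOf_dvd_natCard _ (mem_centralizer_singleton_iff.2 rfl)) _
  rw [← pow_add, Nat.prime_two.pow_dvd_iff_le_factorization Nat.card_pos.ne'] at h2
  rw [P.card_eq_multiplicity] at hP
  have h3 := Nat.pow_right_injective le_rfl hP
  have hbC : b ∉ centralizer ({g} : Set G) := fun h => hb' (by
    rw [mem_centralizer_singleton_iff.1 h, mul_inv_cancel_right])
  have h4 : s ≠ 0 := fun e => by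
    rw [e, pow_zero, relIndex_eq_one] at hs
    exact hbC (hs (hN b hb))
  rw [show s = 1 by omega, pow_one] at hs
  refine ⟨by rw [← relIndex_mul_index hle, hs]; exact dvd_mul_right _ _, fun k => ⟨fun h => ?_, ?_⟩⟩
  · obtain ⟨x, hx⟩ := isConj_iff.1 h
    have hxN := hN x (hx ▸ npow_mem_zpowers g k)
    by_cases hxC : x ∈ centralizer ({g} : Set G)
    · left; rw [← hx, mem_centralizer_singleton_iff.1 hxC, mul_inv_cancel_right]
    · right
      have h5 := (mul_mem_iff_of_index_two hs (a := ⟨b, hN b hb⟩⁻¹) (b := ⟨x, hxN⟩)).2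
        (by rw [inv_mem_iff]; exact iff_of_false hbC hxC)
      have h6 : b⁻¹ * x * g = g * (b⁻¹ * x) := mem_centralizer_singleton_iff.1 h5
      rw [← hx]
      calc x * g * x⁻¹ = b * (b⁻¹ * x * g) * x⁻¹ := by group
        _ = _ := by rw [h6]; group
  · rintro (h | h)
    · rw [h]
    · exact isConj_iff.2 ⟨b, h.symm⟩

theorem mc_four {S : Type*} [Group S] [Finite S] {a b : S} {m : ℕ} (hm : 1 ≤ m)
    (h : Inv.MC ⊤ a b m) : (commutator S).index = 4 := by
  obtain ⟨m, rfl⟩ := Nat.exists_eq_add_of_le' hm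
  have h1 := (commutator S).card_mul_index
  have h2 : orderOf (a * a) = 2 ^ (m + 1) := by
    rw [← pow_two, orderOf_pow' _ two_ne_zero, h.ord, pow_succ, Nat.gcd_mul_left_left]
    simp
  rw [PGrp.mc_card h, _root_.commutator_def, h.commutator_eq, Nat.card_zpowers, h2,
    ← h.commutator_eq, ← _root_.commutator_def] at h1
  exact Nat.eq_of_mul_eq_mul_left (by positivity) (h1.trans (by ring))

/-- Let G be a finite group with Sylow 2-subgroup P of order 2^n ≥ 8, and let ζ be a primitive 2^(n−1)-th root of unity in ℂ. Then the commutator subgroup of P has index 4 in P if and only if there is an element g of P whose conjugacy class in G has even size and such that the field generated over ℚ by the values at g of all irreducible complex characters of G equals ℚ(ζ + ζ⁻¹) or ℚ(ζ − ζ⁻¹). -/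
theorem result {G : Type*} [Group G] [Finite G] (P : Sylow 2 G) (n : ℕ) (hn : 3 ≤ n) (hP : Nat.card P = 2 ^ n) (ζ : ℂ) (hζ : IsPrimitiveRoot ζ (2 ^ (n - 1))) :
    (commutator ↥P).index = 4 ↔
      ∃ g : G, g ∈ (P : Subgroup G) ∧ 2 ∣ (Subgroup.centralizer ({g} : Set G)).index ∧
        (IntermediateField.adjoin ℚ {z : ℂ | ∃ χ : Cfsg.IrrCharacter G, (χ : G → ℂ) g = z} = IntermediateField.adjoin ℚ ({ζ + ζ⁻¹} : Set ℂ) ∨
          IntermediateField.adjoin ℚ {z : ℂ | ∃ χ : Cfsg.IrrCharacter G, (χ : G → ℂ) g = z} = IntermediateField.adjoin ℚ ({ζ - ζ⁻¹} : Set ℂ)) := by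
  obtain ⟨m, rfl⟩ : ∃ m, n = m + 2 := ⟨n - 2, by omega⟩
  have hm : 1 ≤ m := by omega
  replace hζ : IsPrimitiveRoot ζ (2 ^ (m + 1)) := hζ
  have hz : ζ ^ 2 ^ (m + 2) = 1 := by rw [pow_succ, pow_mul, hζ.pow_eq_one, one_pow]
  have e1 : ζ + ζ⁻¹ = ζ + ((1 : ℤ) : ℂ) * ζ⁻¹ := by simp
  have e2 : ζ - ζ⁻¹ = ζ + ((-1 : ℤ) : ℂ) * ζ⁻¹ := by simp [sub_eq_add_neg]
  have hd : ∀ g ∈ (P : Subgroup G), orderOf g ∣ 2 ^ (m + 2) := fun g hg =>
    hP ▸ orderOf_dvd_natCard _ hg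
  rw [e1, e2]
  constructor
  · intro h4
    replace h4 : (_root_.commutator (P : Subgroup G)).index = 4 := h4
    obtain ⟨a, b, m', -, h⟩ := PGrp.exists_mc_of_index_commutator P.2 h4 (fun hc => by
      rw [(commutator_eq_bot_iff _).2 hc, index_bot, hP] at h4
      have := Nat.pow_right_injective le_rfl (h4.trans (by norm_num : 4 = 2 ^ 2))
      omega)
    obtain rfl : m' = m := by
      have := Nat.pow_right_injective le_rfl ((PGrp.mc_card h).symm.trans hP)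
      omega
    have h' := h.map (P : Subgroup G).subtype_injective
    simp only [coe_subtype] at h'
    obtain ⟨m, rfl⟩ := Nat.exists_eq_add_of_le' hm
    obtain ⟨h1, h2⟩ := ctrl P hP h'.ord (h'.conj_memX h'.y_mem (mem_zpowers _)) (fun e =>
      h'.not_commute (mul_inv_eq_iff_eq_mul.1 e).symm)
    refine ⟨a, a.2, h1, ?_⟩
    rw [crit (hd a a.2) hz, crit (hd a a.2) hz]
    have k1 : ∀ j, (a : G) ^ (j + 1) = a ↔ 2 ^ (m + 1 + 1) ∣ j := fun j => by
      rw [pow_succ, mul_eq_right, ← orderOf_dvd_iff_pow_eq_one, h'.ord]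
    rcases h'.act with h3 | ⟨-, h3⟩
    · left
      intro k hk
      obtain ⟨j, rfl⟩ := Nat.exists_eq_add_of_le' hk.pos
      rw [h2, plus_iff (by positivity) hζ, k1, h3, ← mul_eq_one_iff_eq_inv, ← pow_succ,
        ← orderOf_dvd_iff_pow_eq_one, h'.ord]
    · right
      intro k hk
      obtain ⟨j, rfl⟩ := Nat.exists_eq_add_of_le' hk.pos
      rw [h2, minus_iff hζ, k1, h3, eq_inv_mul_iff_mul_eq, ← pow_succ', eq_inv_of_mul_eq_one_left h'.zz,
        ← mul_eq_one_iff_eq_inv, ← pow_add, ← orderOf_dvd_iff_pow_eq_one, h'.ord]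
  · rintro ⟨g, hg, h2, h⟩
    rw [crit (hd g hg) hz, crit (hd g hg) hz] at h
    have hna : ¬ IsMulCommutative P := fun hc => P.not_dvd_index (h2.trans (index_dvd_of_le
      fun x hx => mem_centralizer_singleton_iff.2 (congrArg Subtype.val (hc.1.1 ⟨x, hx⟩ ⟨g, hg⟩))))
    rcases hm.eq_or_lt with rfl | hm2
    · obtain ⟨a, ha⟩ := PGrp.exists_orderOf_four_of_card_eight hP hna
      obtain ⟨b, m', h1, h3 | ⟨h3, h4, -⟩⟩ := PGrp.mc_or_modular_of_index_two P.2 (a := a) (by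
        have := (zpowers a).card_mul_index
        rw [Nat.card_zpowers, ha, hP] at this
        omega) hna
      · exact mc_four h1 h3
      · have := Nat.pow_right_injective le_rfl ((h4.symm.trans ha).trans (by norm_num : 4 = 2 ^ 2))
        omega
    have hnc : ¬ IsConj g (g ^ (2 ^ m + 1)) := fun hc => by
      have ho : Odd (2 ^ m + 1) := (Nat.even_pow.2 ⟨even_two, by omega⟩).add_one
      have h4 : 4 ≤ 2 ^ m := Nat.pow_le_pow_right (n := 2) (i := 2) two_pos hm2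
      have h5 : ¬ 2 ^ (m + 1) ∣ 2 ^ m := fun h => by
        have := Nat.le_of_dvd (by positivity) h
        omega
      rcases h with h | h
      · rcases (plus_iff (by positivity) hζ _).1 ((h _ ho).1 hc) with h | h
        · exact h5 h
        · have := Nat.le_of_dvd (by positivity) h
          omega
      · rcases (minus_iff hζ _).1 ((h _ ho).1 hc) with h | h
        · exact h5 h
        · rw [show 2 ^ m + 2 + 2 ^ m = 2 ^ (m + 1) + 2 by ring, Nat.dvd_add_right dvd_rfl] at h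
          have := Nat.le_of_dvd two_pos h
          omega
    obtain ⟨r, hr, ho⟩ := (Nat.dvd_prime_pow Nat.prime_two).1 (hd g hg)
    have ho' : orderOf (⟨g, hg⟩ : (P : Subgroup G)) = 2 ^ r := by rw [← ho, ← Subgroup.orderOf_coe]
    have h3 : r ≠ m + 2 := fun e => hna (by
      haveI := isCyclic_of_orderOf_eq_card _ (ho'.trans (e ▸ hP.symm))
      infer_instance)
    have h4 : ¬ r ≤ m := fun e => hnc (by
      rw [pow_succ, orderOf_dvd_iff_pow_eq_one.1 (ho ▸ pow_dvd_pow 2 e), one_mul])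
    obtain rfl : r = m + 1 := by omega
    obtain ⟨b, m', h1, h5 | ⟨-, h5, -, -, h6⟩⟩ := PGrp.mc_or_modular_of_index_two P.2 (a := ⟨g, hg⟩) (by
      have := (zpowers (⟨g, hg⟩ : (P : Subgroup G))).card_mul_index
      rw [Nat.card_zpowers, ho', hP] at this
      exact Nat.eq_of_mul_eq_mul_left (by positivity) (this.trans (pow_succ _ _))) hna
    · exact mc_four h1 h5
    · obtain rfl : m' = m := by
        have := Nat.pow_right_injective le_rfl (h5.symm.trans ho')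
        omega
      refine absurd (isConj_iff.2 ⟨(b : G), ?_⟩) hnc
      have := congrArg Subtype.val h6
      simp only [coe_mul, coe_inv, coe_zpow] at this
      rw [this, ← zpow_natCast]
      congr 1
      push_cast
      ring

end Cfsg.Agent.S4923
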