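import Mathlib
import Cfsg.Statements.S4931
import Cfsg.Agent.Isaacs.NTr
import Cfsg.Agent.Block.Omega
-- import your own Cfsg.Agent.* helpers here

set_option autoImplicit false
open Cfsg

namespace Cfsg.Agent.S4931

open Cfsg.Agent.Char Cfsg.Agent.Isaacs Cfsg.Agent.Core Subgroup

/-- Let G be a finite group, p a prime and P a Sylow p-subgroup of G with normalizer N. Then every irreducible complex character of N of degree not divisible by p is the restriction of an irreducible character of G if and only if there is a normal subgroup K of G with KN = G and K ∩ N = 1. -/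
theorem result {G : Type*} [Group G] [Finite G] (p : ℕ) [Fact p.Prime] (P : Sylow p G) :
    (∀ θ : Cfsg.IrrCharacter ↥(Subgroup.normalizer ((P : Subgroup G) : Set G)), ¬ p ∣ Cfsg.charDegree (θ : ↥(Subgroup.normalizer ((P : Subgroup G) : Set G)) → ℂ) →
        ∃ χ : Cfsg.IrrCharacter G, ∀ x : ↥(Subgroup.normalizer ((P : Subgroup G) : Set G)), (χ : G → ℂ) x = (θ : ↥(Subgroup.normalizer ((P : Subgroup G) : Set G)) → ℂ) x) ↔
      ∃ K : Subgroup G, K.Normal ∧ K ⊔ Subgroup.normalizer ((P : Subgroup G) : Set G) = ⊤ ∧ K ⊓ Subgroup.normalizer ((P : Subgroup G) : Set G) = ⊥ := by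
  constructor
  · intro h
    obtain ⟨M, hM, e, hc⟩ := exists_npc P (K := ⊥) (by simpa using (Fact.out : p.Prime).one_lt.ne')
      bot_le norm_top fun θ hθ hk => by
        obtain ⟨d, -, hd⟩ := hθ.deg
        have h1 := hθ.deg_dvd_of_ker_comm le_rfl le_normalizer (hk.mono le_sup_right) hd
        obtain ⟨χ, hχ⟩ := h ⟨_, hθ⟩ fun hp => (isSylowOf_sylow_of_le P le_normalizer).not_dvd
          ((hp.trans (dvd_of_eq (Block.charDegree_of_eq (χ := fun x : normalizer ((P : Subgroup G) : Set G) => θ x) hd))).trans h1)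
        exact ⟨χ, (irr_top.mpr χ.2).chr, fun x hx => hχ ⟨x, hx⟩⟩
    rw [bot_sup_eq] at e
    have hP : (P : Subgroup G) ≤ M := e.ge.trans inf_le_left
    obtain ⟨K, hK, hd, e'⟩ := exists_pcompl P hP hc
    refine ⟨K, hK, ?_, ?_⟩
    · have := (isSylowOf_sylow_of_le P hP).frattini le_top norm_top
      rw [top_inf_eq, ← e', sup_assoc, sup_eq_right.mpr (le_normalizer (H := (P : Subgroup G)))] at this
      exact this
    · rw [← le_bot_iff, ← Transfer.inf_eq_bot_of_not_dvd P.isPGroup' hd]
      exact le_inf ((inf_le_inf_right _ (le_sup_left.trans e'.le)).trans e.le) inf_le_left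
  · rintro ⟨K, hK, e, e'⟩ θ -
    obtain ⟨β, hβ, -, h⟩ := (irr_ez.mpr θ.2).exists_lift (K := K) norm_top (e' ▸ ker_bot)
    rw [e] at hβ
    exact ⟨⟨β, irr_top.mp hβ⟩, fun x => (h x x.2).trans (ez_coe _ x)⟩

end Cfsg.Agent.S4931
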