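import Mathlib
import Cfsg.Statements.S4937
import Cfsg.Agent.Block.Murai

set_option autoImplicit false
open Cfsg

namespace Cfsg.Agent.S4937

open Cfsg.Agent.Block Cfsg.Agent.Char Subgroup

/-- Let G be a finite group, p a prime, M a maximal ideal of the algebraic integers containing p, N a normal subgroup of G and P a Sylow p-subgroup of N such that G = N·C_G(P). Let θ be an irreducible character in the principal p-block of N that is the restriction of some irreducible character of G. Then θ is the restriction of an irreducible character χ of G lying in the principal p-block of G such that, for every subgroup J of G containing N, the restriction of χ to J is an irreducible character of J lying in the principal p-block of J. -/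
theorem result {G : Type*} [Group G] [Finite G] (p : ℕ) [Fact p.Prime] (M : Ideal Cfsg.AlgInt) (hM : Cfsg.IsPModular p M) (N : Subgroup G) [N.Normal] (P : Sylow p ↥N)
    (hcov : N ⊔ Subgroup.centralizer (((P : Subgroup ↥N).map N.subtype : Subgroup G) : Set G) = ⊤)
    (θ : Cfsg.IrrCharacter ↥N) (hθ : θ ∈ Cfsg.principalBlock M ↥N)
    (hext : ∃ ψ : Cfsg.IrrCharacter G, ∀ x : ↥N, (ψ : G → ℂ) x = (θ : ↥N → ℂ) x) :
    ∃ χ : Cfsg.IrrCharacter G, χ ∈ Cfsg.principalBlock M G ∧ (∀ x : ↥N, (χ : G → ℂ) x = (θ : ↥N → ℂ) x) ∧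
      ∀ J : Subgroup G, N ≤ J → ∃ ξ : Cfsg.IrrCharacter ↥J, ξ ∈ Cfsg.principalBlock M ↥J ∧ ∀ y : ↥J, (ξ : ↥J → ℂ) y = (χ : G → ℂ) y := by
  obtain ⟨ψ, he⟩ := hext
  obtain ⟨μ, hk, -, h⟩ := exists_strong hM hθ (irr_isChar ψ) he (L := ⊤) le_top ⟨0, by simp⟩
    fun x _ => exists_good_of_mem_sup P (hcov ▸ mem_top x)
  have h1 : ∀ x : N, (μ x : ℂ) * (ψ : G → ℂ) x = (θ : N → ℂ) x := fun x => by
    rw [show μ x = 1 from hk x.2, Units.val_one, one_mul, he]
  have hc : IsCharacter G fun g => (μ g : ℂ) * (ψ : G → ℂ) g :=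
    isChar_mul (isChar_linear μ) (irr_isChar ψ)
  refine ⟨⟨_, isIrr_of_isIrr_res N hc ((funext h1 :) ▸ θ.2)⟩, mem_principal_of_val hM
    (h _ (isV_blockIdem hM isPBlock_principalBlock) ((isCentral_blockIdem _).invUnder N)
      fun _ _ => mem_top _), h1, fun J hJ => ⟨⟨fun y : J => (μ y : ℂ) * (ψ : G → ℂ) y,
        isIrr_of_isIrr_res (N.subgroupOf J) (isChar_res J hc) ?_⟩, mem_principal_of_val hM ?_,
          fun _ => rfl⟩⟩
  · have := (irrComp (subgroupOfEquivOfLe hJ) θ).2
    convert this using 1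
    exact funext fun n => h1 ⟨_, n.2⟩
  · have := h _ ((isV_blockIdem hM (isPBlock_principalBlock (G := J))).incl)
      ((isCentral_blockIdem _).invUnder_incl.mono hJ) fun _ _ => mem_top _
    rwa [omega_incl, omega_incl] at this

end Cfsg.Agent.S4937
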