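import Mathlib
import Cfsg.Statements.S4989
import Cfsg.Agent.Isaacs.Zero
-- import your own Cfsg.Agent.* helpers here

set_option autoImplicit false
open Cfsg

namespace Cfsg.Agent.S4989

open Cfsg.Agent.Char Cfsg.Agent.Isaacs Subgroup
open scoped ComplexConjugate

/-- Let H be a subgroup of the finite group G and χ an irreducible complex character of G. Then the inner product of the restriction of χ to H with itself, (1/#H)·Σ_{h ∈ H} |χ(h)|², is at most 1 + #(Z ∖ H)/#H, where Z is the set of zeros of χ in G. -/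
theorem result {G : Type*} [Group G] [Finite G] (H : Subgroup G) (χ : Cfsg.IrrCharacter G) : (Nat.card ↥H : ℝ)⁻¹ * ∑ᶠ h : ↥H, ‖(χ : G → ℂ) h‖ ^ 2 ≤ 1 + (Set.ncard ({x : G | (χ : G → ℂ) x = 0} \ (H : Set G)) : ℝ) / (Nat.card ↥H : ℝ) := by
  classical
  have := Fintype.ofFinite G
  have h0 : (0 : ℝ) < Nat.card H := by exact_mod_cast Nat.card_pos
  have h1 := isIrr_sum_norm_sq χ.2
  have h2 := card_le_sum_norm_sq (isIrr_isGenChar χ.2)
    (Finset.univ.filter fun g => g ∉ H ∧ (χ : G → ℂ) g ≠ 0) (fun k hk g hg => by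
      simp only [Finset.mem_filter, Finset.mem_univ, true_and] at hg ⊢
      exact ⟨fun e => hg.1 (mem_of_pow_coprime hk e), fun e => hg.2 ((Galois.apply_pow_eq_zero_iff
        (isIrr_isGenChar χ.2) (hk.coprime_dvd_right (orderOf_dvd_natCard g))).mp e)⟩)
    fun g hg => (Finset.mem_filter.mp hg).2.2
  have h3 : ∑ g with g ∉ H ∧ (χ : G → ℂ) g ≠ 0, ‖(χ : G → ℂ) g‖ ^ 2 ≤ ∑ g with g ∉ H, ‖(χ : G → ℂ) g‖ ^ 2 :=
    Finset.sum_le_sum_of_subset_of_nonneg (fun g hg => by simp_all) fun _ _ _ => by positivity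
  have h4 : Nat.card H + (Finset.univ.filter fun g => g ∉ H).card = Nat.card G := by
    rw [Nat.card_eq_fintype_card, Nat.card_eq_fintype_card, Fintype.card_subtype,
      Finset.card_filter_add_card_filter_not, Finset.card_univ]
  have h5 := Finset.card_filter_add_card_filter_not (s := Finset.univ.filter fun g => g ∉ H)
    fun g => (χ : G → ℂ) g = 0
  rw [Finset.filter_filter, Finset.filter_filter] at h5
  rw [← Finset.sum_filter_add_sum_filter_not _ (· ∈ H)] at h1
  rw [finsum_eq_sum_of_fintype, ← Finset.sum_subtype (Finset.univ.filter (· ∈ H)) (by simp)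
    fun h => ‖(χ : G → ℂ) h‖ ^ 2, inv_mul_le_iff₀ h0, mul_add, mul_one, mul_div_cancel₀ _ h0.ne',
    show {x : G | (χ : G → ℂ) x = 0} \ (H : Set G) = (Finset.univ.filter fun g => g ∉ H ∧ (χ : G → ℂ) g = 0 :) by
      ext; simp [and_comm], Set.ncard_coe_finset]
  have h6 := congrArg (Nat.cast : ℕ → ℝ) h4
  have h7 := congrArg (Nat.cast : ℕ → ℝ) h5
  push_cast at h6 h7
  linarith

end Cfsg.Agent.S4989
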