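import Mathlib
import Cfsg.Statements.S4991
import Cfsg.Agent.Isaacs.AvFix
import Cfsg.Agent.S0205
import Cfsg.Agent.Block.Omega
-- import your own Cfsg.Agent.* helpers here

set_option autoImplicit false
open Cfsg

namespace Cfsg.Agent.S4991

open Cfsg.Agent.Char Cfsg.Agent.Isaacs Cfsg.Agent.Core Subgroup

/-- Let G be a group of odd order, χ an irreducible complex character of G that is primitive (not induced from a character of any proper subgroup), and p a prime dividing the order of G. Then there is an element g of G such that the p-part of χ(1) divides the p-part of the size of the conjugacy class of g. -/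
theorem result {G : Type*} [Group G] [Fintype G] (hodd : Odd (Nat.card G)) (χ : Cfsg.IrrCharacter G) (hprim : ¬ ∃ (H : Subgroup G), H ≠ ⊤ ∧ ∃ θ : ↥H → ℂ, Cfsg.IsCharacter ↥H θ ∧ Cfsg.indFun H θ = (χ : G → ℂ)) (p : ℕ) [Fact p.Prime] (hp : p ∣ Nat.card G) : ∃ g : G, (Cfsg.charDegree (χ : G → ℂ)).factorization p ≤ ((Subgroup.centralizer ({g} : Set G)).index).factorization p := by
  have hp' : Fact p.Prime := inferInstance
  have pr : Prim ⊥ ⊤ χ.1 := fun T η _ _ h1 h2 => by_contra fun h3 =>
    hprim ⟨T, h3, _, h1, by rw [← ind_top]; exact eqv_top.1 h2⟩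
  have h := pr.deg_pow_dvd (S0205.result hodd) (irr_top.2 χ.2) ⊤ inferInstance χ.1 (irr_top.2 χ.2)
    (irr_top.2 χ.2).inn_self_ne _ (Block.irr_degree_cast χ).symm
  simp only [relIndex_top_right] at h
  have h0 : ∀ g ∈ (Finset.univ : Finset G), (centralizer {g}).index ≠ 0 := fun g _ => FiniteIndex.index_ne_zero
  have := (Nat.factorization_le_iff_dvd (pow_ne_zero _ (Block.irr_degree_ne_zero χ))
    (Finset.prod_ne_zero_iff.2 h0)).2 h p
  rw [Nat.factorization_pow, Nat.factorization_prod h0, Finsupp.smul_apply, Finsupp.finsetSum_apply,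
    Nat.card_eq_fintype_card, ← Finset.card_univ, ← Finset.sum_const] at this
  obtain ⟨g, -, hg⟩ := Finset.exists_le_of_sum_le Finset.univ_nonempty this
  exact ⟨g, hg⟩

end Cfsg.Agent.S4991
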