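import Mathlib
import Cfsg.Statements.S4993
import Cfsg.Agent.Part.Av1
import Cfsg.Agent.Block.Omega
import Cfsg.Agent.S0205

set_option autoImplicit false
open Cfsg

namespace Cfsg.Agent.S4993


/-- Let G be a group of odd order whose order has exactly two prime divisors and whose quotient by its Fitting subgroup is nilpotent (G is metanilpotent), and let χ be a primitive irreducible complex character of G (not induced from a character of any proper subgroup). Then χ(1) divides the size of some conjugacy class of G. -/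
theorem result {G : Type*} [Group G] [Fintype G] (hodd : Odd (Nat.card G)) (h2 : (Nat.card G).primeFactors.card = 2) [hF : (Cfsg.fittingSubgroup G).Normal] (hmeta : Group.IsNilpotent (G ⧸ Cfsg.fittingSubgroup G)) (χ : Cfsg.IrrCharacter G) (hprim : ¬ ∃ (H : Subgroup G), H ≠ ⊤ ∧ ∃ θ : ↥H → ℂ, Cfsg.IsCharacter ↥H θ ∧ Cfsg.indFun H θ = (χ : G → ℂ)) : ∃ g : G, Cfsg.charDegree (χ : G → ℂ) ∣ (Subgroup.centralizer ({g} : Set G)).index := by
  classical
  have hs := S0205.result hodd
  have pr : Isaacs.Prim ⊥ ⊤ χ.1 := fun T η _ _ h1 h2 => by_contra fun h3 =>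
    hprim ⟨T, h3, _, h1, by rw [← Isaacs.ind_top]; exact Isaacs.eqv_top.1 h2⟩
  obtain ⟨p, q, hpq, e⟩ := Finset.card_eq_two.1 h2
  have hp : p.Prime := Nat.prime_of_mem_primeFactors (e ▸ Finset.mem_insert_self _ _)
  have hq : q.Prime := Nat.prime_of_mem_primeFactors
    (e ▸ Finset.mem_insert_of_mem (Finset.mem_singleton_self _))
  have := Fact.mk hp
  have := Fact.mk hq
  obtain ⟨P⟩ : Nonempty (Sylow p G) := inferInstance
  obtain ⟨Q⟩ : Nonempty (Sylow q G) := inferInstance
  have hFn : Group.IsNilpotent (Cfsg.fittingSubgroup G) := Core.fitting_nilpotent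
  have hd := (Block.irr_degree_cast χ).symm
  obtain ⟨g, hg⟩ := Part.Av.exists_good hs (Isaacs.irr_top.2 χ.2) pr hp P
    (Part.Av.sylow_cent hs hFn hmeta P) hd
  obtain ⟨g', hg'⟩ := Part.Av.exists_good hs (Isaacs.irr_top.2 χ.2) pr hq Q
    (Part.Av.sylow_cent hs hFn hmeta Q) hd
  have hc : Subgroup.IsComplement' (Q : Subgroup G) (P : Subgroup G) := by
    refine Subgroup.isComplement'_of_coprime ?_ ?_
    · rw [Q.card_eq_multiplicity, P.card_eq_multiplicity]
      conv_rhs => rw [← Nat.factorization_prod_pow_eq_self (Nat.card_pos (α := G)).ne']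
      rw [Finsupp.prod, Nat.support_factorization, e, Finset.prod_pair hpq, mul_comm]
    · rw [Q.card_eq_multiplicity, P.card_eq_multiplicity]
      exact Nat.coprime_pow_primes _ _ hq hp hpq.symm
  obtain ⟨⟨b, a⟩, hab⟩ := hc.2 (g'⁻¹ * g)
  have h3 : g * (a : G)⁻¹ = g' * b := by
    have : (b : G) * a = g'⁻¹ * g := hab
    rw [mul_inv_eq_iff_eq_mul, mul_assoc, this, mul_inv_cancel_left]
  refine ⟨g' * b, ?_⟩
  refine (Nat.factorization_prime_le_iff_dvd (Block.irr_degree_ne_zero χ)
    Subgroup.FiniteIndex.index_ne_zero).1 fun r hr => ?_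
  by_cases h4 : r ∣ Cfsg.charDegree (χ : G → ℂ)
  · have h5 : r ∈ (Nat.card G).primeFactors := by
      refine Nat.mem_primeFactors.2 ⟨hr, h4.trans ?_, Nat.card_pos.ne'⟩
      have := (Isaacs.irr_top.2 χ.2).deg_dvd hd
      rwa [Subgroup.card_top] at this
    rw [e, Finset.mem_insert, Finset.mem_singleton] at h5
    rcases h5 with rfl | rfl
    · rw [← h3]; exact hg _ (inv_mem a.2)
    · exact hg' _ b.2
  · rw [Nat.factorization_eq_zero_of_not_dvd h4]; exact Nat.zero_le _

end Cfsg.Agent.S4993
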