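import Mathlib
import Cfsg.Statements.S4996
import Cfsg.Agent.Isaacs.Zero2
-- import your own Cfsg.Agent.* helpers here

set_option autoImplicit false
open Cfsg

namespace Cfsg.Agent.S4996

open Cfsg.Agent.Char Cfsg.Agent.Isaacs Subgroup
open scoped ComplexConjugate commutatorElement

/-- Let N be a normal subgroup of the finite group G and χ an irreducible complex character of G. Then the restriction of χ to N is not irreducible if and only if χ vanishes on some whole coset Nx of N in G. -/
theorem result {G : Type*} [Group G] [Finite G] (N : Subgroup G) [N.Normal] (χ : Cfsg.IrrCharacter G) : ¬ Cfsg.IsIrrCharacter ↥N (fun n : ↥N => (χ : G → ℂ) n) ↔ ∃ x : G, ∀ n : ↥N, (χ : G → ℂ) ((n : G) * x) = 0 := by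
  have h := irr_top.mpr χ.2
  refine ⟨fun e => by_contra fun hc => e (h.res_of_coset fun x a => hc ⟨x, fun n => a n n.2⟩), ?_⟩
  rintro ⟨x, hx⟩ e
  have := h.chr.inn_sh_self norm_top le_top e (mem_top x)
  rw [inn_self_eq_zero.mpr fun n hn => hx ⟨n, hn⟩] at this
  exact zero_ne_one this

end Cfsg.Agent.S4996
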