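import Mathlib
import Cfsg.Statements.S5001
import Cfsg.Agent.Block.Quot3

set_option autoImplicit false
open Cfsg

namespace Cfsg.Agent.S5001

open Cfsg.Agent.Block Cfsg.Agent.Char Subgroup

/-- Let p be a prime, G a finite group and B a p-block of G (relative to a maximal ideal M of the algebraic integers containing p) with defect group D. Let Z be a central p-subgroup of G contained in D and λ a linear character of Z (a homomorphism to the nonzero complex numbers). Say an irreducible character χ of G lies over λ when χ(z) = χ(1)λ(z) for all z ∈ Z. If some irreducible character in B lying over λ has height zero, then λ extends to a linear character of D. -/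
theorem result {G : Type*} [Group G] [Finite G] (p : ℕ) [Fact p.Prime] (M : Ideal Cfsg.AlgInt) (hM : Cfsg.IsPModular p M) (B : Set (Cfsg.IrrCharacter G)) (hB : Cfsg.IsPBlock M B) (D : Subgroup G) (hD : Cfsg.IsDefectGroup p M B D) (Z : Subgroup G) (hZc : Z ≤ Subgroup.center G) (hZp : IsPGroup p ↥Z) (hZD : Z ≤ D) (lam : ↥Z →* ℂˣ) (χ : Cfsg.IrrCharacter G) (hχ : χ ∈ B) (hover : (∀ z : ↥Z, (χ : G → ℂ) z = (χ : G → ℂ) 1 * (lam z : ℂ))) (h0 : Cfsg.blockHeight p B (χ : G → ℂ) = 0) : (∃ μ : ↥D →* ℂˣ, ∀ z : ↥Z, μ ⟨(z : G), hZD z.2⟩ = lam z) := by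
  obtain ⟨d, rfl, hd⟩ := exists_isMaxBP hM hB hD
  have := Fintype.ofFinite (d.1 ⊔ centralizer (d.1 : Set G) : Subgroup G)
  have hE := isPBlock_ovr hM hd.bp (mid_sup d.1)
  obtain ⟨θ, -, -, Φ, h1, hΦ⟩ := exists_equiv_height_of_sup hM hE (hd.defect_ovr hM (mid_sup d.1))
    (subgroupOf_sup_centralizer d.1)
  obtain ⟨ξ, hξ, h2, n, hn, h3⟩ := blau hM (hd.induced_ovr hM (mid_sup d.1)) hχ h0
  obtain ⟨ζ, h4⟩ := Φ.surjective ⟨ξ, hξ⟩
  have h5 := irr_one_eq_one_of_isPGroup hM.1 (isDefectGroup_isPGroup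
    (hd.defect_ovr hM (mid_sup d.1))) (ζ := ζ)
    (by rw [← hΦ, h4, h2])
  obtain ⟨μ, hμ⟩ := isChar_linear_of_degree_one (irr_isChar ζ) h5
  refine ⟨μ.comp (subgroupOfEquivOfLe le_sup_left).symm.toMonoidHom, fun z => Units.ext ?_⟩
  have h6 := apply_div_eq_of_over (χ := χ) (ξ := ξ) (by
    rw [hn]; exact Nat.cast_ne_zero.2 fun e => h3 (e ▸ dvd_zero p))
    (z := ⟨z, mem_sup_left (hZD z.2)⟩) (hZc z.2)
  have h7 := h1 ζ ⟨⟨z, mem_sup_left (hZD z.2)⟩, hZD z.2⟩ 1 (one_regular hM.1)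
  have h8 := h1 ζ 1 1 (one_regular hM.1)
  rw [h4, mul_one] at h7 h8
  rw [h5, one_mul, OneMemClass.coe_one] at h8
  rw [hover, h7, ← h8, mul_div_cancel_left₀ _ (irr_one_ne_zero χ),
    mul_div_cancel_right₀ _ (irr_one_ne_zero ξ), hμ] at h6
  exact h6.symm

end Cfsg.Agent.S5001
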