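import Mathlib
import Cfsg.Statements.S5011
-- import your own Cfsg.Agent.* helpers here

set_option autoImplicit false
open Cfsg

namespace Cfsg.Agent.S5011

/-- Let G be a finite non-abelian simple group and ρ an irreducible complex representation of G on a space of dimension greater than one (irreducible in the sense that the only subspaces invariant under every ρ(x) are 0 and the whole space). Then for every non-identity element g of G, the centralizer of g does not act irreducibly: there is a non-zero proper subspace invariant under ρ(c) for every c commuting with g. -/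
theorem result {G : Type*} [Group G] [Finite G] [IsSimpleGroup G]
    (hG : ¬ IsMulCommutative G) {V : Type*} [AddCommGroup V] [Module ℂ V] [FiniteDimensional ℂ V]
    (ρ : Representation ℂ G V)
    (hirr : ∀ W : Submodule ℂ V, (∀ x : G, ∀ v ∈ W, ρ x v ∈ W) → W = ⊥ ∨ W = ⊤)
    (hdim : 1 < Module.finrank ℂ V) (g : G) (hg : g ≠ 1) :
    ∃ W : Submodule ℂ V, W ≠ ⊥ ∧ W ≠ ⊤ ∧ ∀ c ∈ Subgroup.centralizer ({g} : Set G), ∀ v ∈ W, ρ c v ∈ W := by
  have : Nontrivial V := Module.nontrivial_of_finrank_pos (R := ℂ) (by omega)
  obtain ⟨c, hc⟩ := Module.End.exists_eigenvalue (ρ g)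
  refine ⟨Module.End.eigenspace (ρ g) c, hc, fun e => ?_, fun x hx v hv => ?_⟩
  · let Z : Subgroup G :=
      { carrier := {x | ∀ y v, ρ x (ρ y v) = ρ y (ρ x v)}
        mul_mem' := fun {a b} ha hb y v => by simp only [map_mul, Module.End.mul_apply, hb y, ha y]
        one_mem' := fun y v => by simp
        inv_mem' := fun {a} ha y v => by
          have := congrArg (ρ a⁻¹) (ha y (ρ a⁻¹ v))
          simpa using this.symm }
    have hZ : Z.Normal := ⟨fun a ha x y v => by
      have : ρ (x * a * x⁻¹) = ρ a := LinearMap.ext fun v => by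
        simp only [map_mul, Module.End.mul_apply]; rw [← ha x]; simp
      rw [this]; exact ha y v⟩
    have h1 : ∀ v, ρ g v = c • v := fun v => Module.End.mem_eigenspace_iff.mp (e.ge Submodule.mem_top)
    have h2 := (hZ.eq_bot_or_eq_top).resolve_left fun e => hg (e.le (show g ∈ Z from fun y v => by
      rw [h1, h1, map_smul]))
    have h3 : ∀ x, ∃ a : ℂ, ∀ v, ρ x v = a • v := fun x => by
      obtain ⟨a, ha⟩ := Module.End.exists_eigenvalue (ρ x)
      refine ⟨a, fun v => Module.End.mem_eigenspace_iff.mp (((hirr _ fun y v hv => ?_).resolve_left ha).ge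
        Submodule.mem_top)⟩
      rw [Module.End.mem_eigenspace_iff] at hv ⊢
      rw [h2.ge (Subgroup.mem_top x) y v, hv, map_smul]
    obtain ⟨v, hv⟩ := exists_ne (0 : V)
    have h4 := (hirr (Submodule.span ℂ {v}) fun x w hw => by
      obtain ⟨a, ha⟩ := h3 x
      rw [ha]; exact Submodule.smul_mem _ _ hw).resolve_left (by simpa)
    have := finrank_span_singleton (K := ℂ) hv
    rw [h4, finrank_top] at this
    omega
  · rw [Module.End.mem_eigenspace_iff] at hv ⊢
    rw [← Module.End.mul_apply, ← map_mul, ← Subgroup.mem_centralizer_singleton_iff.mp hx, map_mul,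
      Module.End.mul_apply, hv, map_smul]

end Cfsg.Agent.S5011
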