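import Mathlib
import Cfsg.Statements.S5075
import Cfsg.Agent.Root.Mc3

set_option autoImplicit false
open Cfsg

namespace Cfsg.Agent.S5075

open Cfsg.Agent.LocalEven Cfsg.Agent.Root Subgroup
open scoped commutatorElement

theorem tr_pow {k V : Type*} [Field k] [AddCommGroup V] [Module k V] {u : V} {φ : Module.Dual k V}
    (h : φ u = 0) (n : ℕ) (x : V) : (tr h ^ n) x = x + φ x • ((n : k) • u) := by
  induction n with
  | zero => simp
  | succ n ih =>
    rw [pow_succ', LinearEquiv.mul_apply, ih, tr_apply]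
    simp only [map_add, map_smul, h, smul_zero, add_zero]
    push_cast
    module

/-- Let p be an odd prime, V a finite-dimensional vector space over the field with p elements, and H a group of linear automorphisms of V generated by transvections (elements of order p fixing a hyperplane pointwise) and having no nontrivial normal p-subgroup. Then for some n ≥ 1 there are a decomposition V = V₀ ⊕ V₁ ⊕ ⋯ ⊕ Vₙ into H-invariant subspaces and a decomposition of H as the internal direct product of normal subgroups H₁, …, Hₙ such that Hⱼ acts trivially on every Vᵢ with i ≠ j, and Hⱼ induces on Vⱼ exactly the special linear group of Vⱼ or exactly the isometry group of a non-degenerate alternating form on Vⱼ. -/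
theorem result {p : ℕ} [Fact p.Prime] (hp : Odd p) {V : Type*} [AddCommGroup V] [Module (ZMod p) V] [Finite V]
    (H : Subgroup (V ≃ₗ[ZMod p] V)) (T : Set (V ≃ₗ[ZMod p] V)) (hHT : H = Subgroup.closure T)
    (hT : ∀ t ∈ T, orderOf t = p ∧
      Module.finrank (ZMod p) ↥(LinearMap.ker ((t : V →ₗ[ZMod p] V) - LinearMap.id)) + 1 =
        Module.finrank (ZMod p) V)
    (hOp : Cfsg.pCore p ↥H = ⊥) :
    ∃ (n : ℕ) (W : Fin (n + 1) → Submodule (ZMod p) V) (K : Fin n → Subgroup (V ≃ₗ[ZMod p] V)),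
      1 ≤ n ∧ DirectSum.IsInternal W ∧
      (∀ h ∈ H, ∀ i, (W i).map (h : V →ₗ[ZMod p] V) = W i) ∧
      (∀ j, K j ≤ H ∧ ((K j).subgroupOf H).Normal) ∧ ⨆ j, K j = H ∧
      (∀ j, K j ⊓ (⨆ j' ∈ {j' : Fin n | j' ≠ j}, K j') = ⊥) ∧
      (∀ j j', j ≠ j' → ∀ a ∈ K j, ∀ b ∈ K j', a * b = b * a) ∧
      (∀ j, ∀ h ∈ K j, ∀ i : Fin (n + 1), i ≠ j.succ → ∀ v ∈ W i, h v = v) ∧
      (∀ j, ∃ ρ : ↥(K j) →* (↥(W j.succ) ≃ₗ[ZMod p] ↥(W j.succ)),
        (∀ (h : ↥(K j)) (v : ↥(W j.succ)), ((ρ h v : ↥(W j.succ)) : V) = (h : V ≃ₗ[ZMod p] V) (v : V)) ∧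
        ((ρ.range : Set (↥(W j.succ) ≃ₗ[ZMod p] ↥(W j.succ))) =
            {f : ↥(W j.succ) ≃ₗ[ZMod p] ↥(W j.succ) | LinearMap.det (f : ↥(W j.succ) →ₗ[ZMod p] ↥(W j.succ)) = 1} ∨
          ∃ B : LinearMap.BilinForm (ZMod p) ↥(W j.succ), B.IsAlt ∧ B.Nondegenerate ∧
            (ρ.range : Set (↥(W j.succ) ≃ₗ[ZMod p] ↥(W j.succ))) = {f : ↥(W j.succ) ≃ₗ[ZMod p] ↥(W j.succ) | ∀ x y, B (f x) (f y) = B x y})) := by
  classical
  haveI : Finite (V ≃ₗ[ZMod p] V) := DFunLike.finite _
  haveI : Finite (Module.Dual (ZMod p) V) := DFunLike.finite _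
  have two : (2 : ZMod p) ≠ 0 := by
    intro e
    have : p ∣ 2 := (CharP.cast_eq_zero_iff (ZMod p) p 2).1 (by exact_mod_cast e)
    rw [(Nat.prime_dvd_prime_iff_eq Fact.out Nat.prime_two).1 this] at hp
    exact absurd hp (by decide)
  have hT' : ∀ t ∈ T, ∃ (u : V) (φ : Module.Dual (ZMod p) V) (h : φ u = 0), t = tr h := by
    intro t ht
    obtain ⟨h1, h2⟩ := hT t ht
    have h3 := LinearMap.finrank_range_add_finrank_ker ((t : V →ₗ[ZMod p] V) - LinearMap.id)
    obtain ⟨φ, u, e⟩ : t ∈ LinearEquiv.dilatransvections (ZMod p) V := by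
      rw [LinearEquiv.mem_dilatransvections_iff_finrank]; omega
    have e' : ∀ x, t x = x + φ x • u := fun x => DFunLike.congr_fun e x
    have h0 : φ u = 0 := by
      by_cases u0 : u = 0
      · rw [u0, map_zero]
      have key : ∀ n : ℕ, (t ^ n) u = (1 + φ u) ^ n • u := by
        intro n
        induction n with
        | zero => simp
        | succ n ih => rw [pow_succ', LinearEquiv.mul_apply, ih, map_smul, e', pow_succ]; module
      have := key p
      have tp : t ^ p = 1 := orderOf_dvd_iff_pow_eq_one.1 h1.dvd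
      rw [tp, ZMod.pow_card, add_smul, one_smul] at this
      simpa [u0] using this
    exact ⟨u, φ, h0, LinearEquiv.ext e'⟩
  have mc : Mc (TTr H) := by
    apply mc_TTr hp hOp
    rintro u φ c ⟨h, m⟩
    refine ⟨by simp [h], ?_⟩
    convert pow_mem m c.val using 1
    ext x
    rw [tr_pow, tr_apply]; simp
  have gen : ∀ S : Subgroup (V ≃ₗ[ZMod p] V),
      (∀ u φ (t : TTr H u φ), tr (mc.inc t) ∈ S) → H ≤ S := by
    intro S hS
    rw [hHT, closure_le]
    intro t ht
    obtain ⟨u, φ, h, rfl⟩ := hT' t ht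
    exact hS u φ ⟨h, hHT ▸ subset_closure ht⟩
  let 𝒞 := Set.range (McCp (TTr H))
  haveI : Finite 𝒞 := Set.finite_range _
  haveI : Nonempty 𝒞 := ⟨⟨_, (0, 0), rfl⟩⟩
  let e := (Finite.equivFin 𝒞).symm
  set n := Nat.card 𝒞
  let C : Fin n → V → Module.Dual (ZMod p) V → Prop := fun j => (e j).1
  have cp : ∀ j, Cp (TTr H) (C j) := fun j => by
    obtain ⟨q, hq⟩ := (e j).2
    show Cp _ (e j).1
    rw [← hq]; exact cp_McCp mc q
  have Cne : ∀ {i j}, i ≠ j → C i ≠ C j := fun h z => h (e.injective (Subtype.ext z))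
  have Cex : ∀ u φ, TTr H u φ → u ≠ 0 → φ ≠ 0 → ∃ j, C j u φ := fun u φ t a b =>
    ⟨e.symm ⟨_, (u, φ), rfl⟩, by
      simp only [C, Equiv.apply_symm_apply]; exact ⟨t, a, b, Relation.ReflTransGen.refl⟩⟩
  have sU : ∀ j, H ≤ Stb (UC (C j)) := fun j => gen _ fun u φ t => (cp j).tr_Stb_UC t
  have sW : ∀ j, H ≤ Stb (WC (C j)) := fun j => gen _ fun u φ t => (cp j).tr_Stb_WC t
  have main := fun j => (cp j).structure_thm two (by
    intro u φ v ψ c1 c2 e1 e2
    obtain ⟨h1, m1⟩ := (cp j).t c1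
    obtain ⟨h2, m2⟩ := (cp j).t c2
    have fv : φ v = 0 := (e1 v (mem_UC c2)).trans h2
    have ap : ∀ y, (tr h1 * tr h2) y - y = φ y • u + ψ y • v := fun y => by
      simp [tr_apply, fv]; abel
    have sI : H ≤ Stb (UC (C j) ⊓ WC (C j)) := fun g hg x => and_congr (sU j hg x) (sW j hg x)
    have := eq_one_of_St3 hp hOp (sU j) sI (mul_mem m1 m2) ⟨fun y => ?_, fun y hy => ?_, fun y hy => ?_⟩
    · obtain ⟨w, χ, c3, o, -⟩ := (cp j).opp c1
      have a := ap w
      rw [this, ← e1 w (mem_UC c3), ← smul_add] at a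
      have a2 : φ w • (u + v) = 0 := by rw [← a]; simp
      exact (smul_eq_zero.1 a2).resolve_left o
    · rw [ap]
      exact add_mem (Submodule.smul_mem _ _ (mem_UC c1)) (Submodule.smul_mem _ _ (mem_UC c2))
    · rw [ap, ← e1 y hy, ← smul_add]
      exact Submodule.smul_mem _ _ ⟨add_mem (mem_UC c1) (mem_UC c2), e2⟩
    · rw [← sub_eq_zero, ap, hy.2 u φ c1, hy.2 v ψ c2]; simp)
  have UW : ∀ {i j}, i ≠ j → UC (C i) ≤ WC (C j) := fun {i j} h => (cp i).UC_le_WC (cp j) (Cne h)
  have KH : ∀ j, KC (C j) ≤ H := fun j => by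
    rw [KC, closure_le]
    rintro _ ⟨u, φ, _, c, rfl⟩
    exact ((cp j).t c).2
  have ext1 : ∀ j (g : V ≃ₗ[ZMod p] V), g ∈ Fxs (UC (C j)) → g ∈ Fxs (WC (C j)) → g = 1 := by
    intro j g a b
    ext x
    have : x ∈ UC (C j) ⊔ WC (C j) := by rw [(main j).1.sup_eq_top]; trivial
    obtain ⟨y, hy, z, hz, rfl⟩ := Submodule.mem_sup.1 this
    rw [map_add, a y hy, b z hz]; rfl
  have KU : ∀ {i j}, i ≠ j → KC (C i) ≤ Fxs (UC (C j)) := fun {i j} h g hg x hx =>
    Cp.KC_le_Fxs hg x (UW h.symm hx)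
  have comm : ∀ j j', j ≠ j' → ∀ a ∈ KC (C j), ∀ b ∈ KC (C j'), a * b = b * a := by
    intro i j h a ha b hb
    have : a⁻¹ * b⁻¹ * a * b = 1 := by
      apply ext1 i
      · intro x hx
        show a⁻¹ (b⁻¹ (a (b x))) = x
        rw [KU h.symm hb x hx, KU h.symm (inv_mem hb) _ (((cp i).KC_le_Stb ha x).2 hx)]
        exact a.symm_apply_apply x
      · intro x hx
        show a⁻¹ (b⁻¹ (a (b x))) = x
        rw [Cp.KC_le_Fxs ha _ ((sW i (KH j hb) x).2 hx)]
        have : b⁻¹ (b x) = x := b.symm_apply_apply x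
        rw [this, Cp.KC_le_Fxs (inv_mem ha) x hx]
    calc a * b = b * a * (a⁻¹ * b⁻¹ * a * b) := by group
      _ = b * a := by rw [this, mul_one]
  have sup : ⨆ j, KC (C j) = H := by
    refine le_antisymm (iSup_le KH) (gen _ fun u φ t => ?_)
    by_cases a : u = 0
    · have : tr (mc.inc t) = 1 := by ext; simp [tr_apply, a]
      rw [this]; exact one_mem _
    by_cases b : φ = 0
    · have : tr (mc.inc t) = 1 := by ext; simp [tr_apply, b]
      rw [this]; exact one_mem _
    obtain ⟨j, c⟩ := Cex u φ t a b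
    exact (le_iSup (fun j => KC (C j)) j) (subset_closure ⟨u, φ, _, c, rfl⟩)
  let π : Fin n → V →ₗ[ZMod p] V := fun j => (UC (C j)).projection (WC (C j)) (main j).1
  have π1 : ∀ j x, π j x ∈ UC (C j) := fun j x => Submodule.projection_apply_mem _ _
  have π2 : ∀ j, ∀ x ∈ UC (C j), π j x = x := fun j x hx =>
    Submodule.projection_apply_left (main j).1 ⟨x, hx⟩
  have π3 : ∀ j x, π j x = 0 ↔ x ∈ WC (C j) := fun j x =>
    Submodule.projection_apply_eq_zero_iff (main j).1
  have π4 : ∀ i, ∀ x ∈ UC (C i), ∑ j, π j x = x := fun i x hx => by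
    rw [Finset.sum_eq_single i (fun j _ h => (π3 j x).2 (UW (Ne.symm h) hx)) (by simp), π2 i x hx]
  refine ⟨n, Fin.cons (⨅ j, WC (C j)) fun j => UC (C j), fun j => KC (C j), Nat.card_pos, ?_, ?_,
    ?_, sup, ?_, comm, ?_, ?_⟩
  · rw [DirectSum.isInternal_submodule_iff_iSupIndep_and_iSup_eq_top]
    constructor
    · intro i
      induction i using Fin.cases with
      | zero =>
        have : (⨆ j, ⨆ (_ : j ≠ (0 : Fin (n + 1))), (Fin.cons (⨅ j, WC (C j)) fun j => UC (C j) :
            Fin (n + 1) → Submodule (ZMod p) V) j) ≤ LinearMap.ker ((∑ j, π j) - LinearMap.id) := by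
          refine iSup₂_le fun j hj => ?_
          induction j using Fin.cases with
          | zero => exact absurd rfl hj
          | succ j => intro x hx; simp [π4 j x hx]
        refine Disjoint.mono_right this ?_
        rw [Submodule.disjoint_def]
        intro x hx h2
        have h3 : ∀ j, π j x = 0 := fun j => (π3 j x).2 ((Submodule.mem_iInf _).1 hx j)
        simpa [h3] using h2
      | succ i =>
        refine Disjoint.mono_right (iSup₂_le fun j hj => ?_) (main i).1.disjoint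
        induction j using Fin.cases with
        | zero => exact iInf_le _ i
        | succ j => exact UW (i := j) (j := i) fun z => hj (by rw [z])
    · rw [eq_top_iff]
      intro x _
      have : x = (x - ∑ j, π j x) + ∑ j, π j x := by abel
      rw [this]
      refine add_mem (Submodule.mem_iSup_of_mem 0 ((Submodule.mem_iInf _).2 fun i => ?_))
        (Submodule.sum_mem _ fun j _ => Submodule.mem_iSup_of_mem j.succ (π1 j x))
      rw [← π3, map_sub, map_sum, Finset.sum_eq_single i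
        (fun j _ h => (π3 i _).2 (UW h (π1 j x))) (by simp), π2 i _ (π1 i x), sub_self]
  · have st : ∀ (A : Submodule (ZMod p) V) (g : V ≃ₗ[ZMod p] V), g ∈ Stb A →
        A.map (g : V →ₗ[ZMod p] V) = A := by
      intro A g hg
      ext x
      rw [Submodule.mem_map_equiv]
      exact inv_mem hg x
    intro g hg i
    apply st
    induction i using Fin.cases with
    | zero =>
      intro x
      simp only [Fin.cons_zero, Submodule.mem_iInf]
      exact forall_congr' fun j => sW j hg x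
    | succ i => exact sU i hg
  · intro j
    refine ⟨KH j, (normal_subgroupOf_iff_le_normalizer (KH j)).2 ?_⟩
    rw [← sup]
    refine iSup_le fun i => ?_
    by_cases h : i = j
    · rw [h]; exact le_normalizer
    · exact fun a ha => centralizer_le_normalizer _ fun b hb => (comm i j h a ha b hb).symm
  · intro j
    rw [eq_bot_iff]
    rintro g ⟨a, b⟩
    refine ext1 j g ?_ (Cp.KC_le_Fxs a)
    exact (iSup₂_le fun i (hi : i ≠ j) => KU hi : _ ≤ Fxs (UC (C j))) b
  · intro j g hg i hi v hv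
    apply Cp.KC_le_Fxs hg
    induction i using Fin.cases with
    | zero => exact (Submodule.mem_iInf _).1 hv j
    | succ i => exact UW (i := i) (j := j) (fun z => hi (by rw [z])) hv
  · intro j
    exact ⟨resE _ _ (cp j).KC_le_Stb, fun _ _ => rfl, (main j).2⟩

end Cfsg.Agent.S5075
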