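import Cfsg.Statements.S5226
import Cfsg.Agent.Fusion.Br3
-- import your own Cfsg.Agent.* helpers here

set_option autoImplicit false
open Cfsg

namespace Cfsg.Agent.S5226

open Cfsg.Agent.Fusion


/-- Let F be a saturated fusion system over a finite p-group S and Q a subgroup of S. Then Q is normal in F (F equals the normalizer system of Q) if and only if Q is strongly closed in F and admits a central series 1 = Q₀ ≤ Q₁ ≤ ⋯ ≤ Qₙ = Q ([Qᵢ₊₁, Q] ≤ Qᵢ) all of whose proper terms are weakly closed in F. -/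
theorem result {Ω : Type*} [Group Ω] {S : Subgroup Ω} [Finite S] (p : ℕ) [Fact p.Prime] (hS : IsPGroup p S) (F : Cfsg.FusionSystem S) (hF : F.IsSaturated p) (Q : Subgroup Ω) : F.IsNormal Q ↔ F.StronglyClosed Q ∧ ∃ (n : ℕ) (C : Fin (n + 1) → Subgroup Ω), C 0 = ⊥ ∧ C (Fin.last n) = Q ∧ Monotone C ∧ (∀ i : Fin n, ⁅C i.succ, Q⁆ ≤ C i.castSucc) ∧ ∀ i : Fin n, F.WeaklyClosed (C i.castSucc) := by
  obtain ⟨G, _, _, ι, F', r, -⟩ := exists_rich_rep F
  have hF' := r.sat hS hF
  constructor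
  · intro h
    have h' := (r.nor_iff h.1).1 h
    have : Finite Q := finite_of_inj r.inj h.1
    obtain ⟨n, c, h0, hn, hm, h1, h2⟩ := exists_char_central_series (hF'.pg_le h'.1)
    have hc : ∀ i, im ι (pre ι (c i)) = c i := fun i => im_pre ι ((h1 i).1.trans (im_le_range ι Q))
    refine ⟨(r.sc_iff h.1).2 h'.sc, n, fun i => pre ι (c i), ?_, ?_, fun i j hij => pre_mono ι (hm hij),
      fun i => ?_, fun i => ?_⟩
    · rw [← im_eq_bot r.inj (pre_le ι _), hc, h0]
    · simp only [hn]; exact pre_im r.inj h.1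
    · rw [← im_le_im r.inj ((Subgroup.commutator_mono (pre_le ι _) h.1).trans
        (Subgroup.commutator_le_self _)), im_commutator ι (pre_le ι _) h.1, hc, hc]
      exact h2 i
    · rw [r.wc_iff (pre_le ι _), hc]
      exact (h'.of_char (h1 _).1 (h1 _).2).sc.wc
  · rintro ⟨h, n, c, h0, hn, hm, h1, h2⟩
    have hle : ∀ i, c i ≤ S := fun i => (hm (Fin.le_last i)).trans (hn ▸ h.1)
    refine (r.nor_iff h.1).2 (hF'.nor_of_wc_chain ((r.sc_iff h.1).1 h) (fun i => im ι (c i))
      (by simp [h0]) (by simp [hn]) (fun i j hij => im_mono ι (hm hij)) (fun i => ?_)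
      fun i => (r.wc_iff (hle _)).1 (h2 i))
    rw [← im_commutator ι (hle _) h.1]; exact im_mono ι (h1 i)

end Cfsg.Agent.S5226
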