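import Cfsg.Statements.S5088
import Cfsg.Agent.Fusion.Br3
import Cfsg.Agent.S5226
-- import your own Cfsg.Agent.* helpers here

set_option autoImplicit false
open Cfsg

namespace Cfsg.Agent.S5088

open Cfsg.Agent.Fusion


/-- In a saturated fusion system over a finite p-group, a subgroup Q is normal in the system if and only if there is a chain of subgroups 1 = Q₀ ≤ Q₁ ≤ ⋯ ≤ Qₙ = Q such that each Qᵢ with i ≥ 1 is strongly closed in the system and [Q, Qᵢ] ≤ Qᵢ₋₁. -/
theorem result {Ω : Type*} [Group Ω] {S : Subgroup Ω} [Finite S] (p : ℕ) [Fact p.Prime] (hS : IsPGroup p S) (F : Cfsg.FusionSystem S) (hF : F.IsSaturated p) (Q : Subgroup Ω) : F.IsNormal Q ↔ ∃ (n : ℕ) (Qs : Fin (n + 1) → Subgroup Ω), Qs 0 = ⊥ ∧ Qs (Fin.last n) = Q ∧ Monotone Qs ∧ ∀ i : Fin n, F.StronglyClosed (Qs i.succ) ∧ ⁅Q, Qs i.succ⁆ ≤ Qs (Fin.castSucc i) := by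
  have wc : ∀ {P : Subgroup Ω}, F.StronglyClosed P → F.WeaklyClosed P := fun {P} h => by
    obtain ⟨G, _, _, ι, F', r, -⟩ := exists_rich_rep F
    exact (r.wc_iff h.1).2 ((r.sc_iff h.1).1 h).wc
  constructor
  · intro h
    obtain ⟨G, _, _, ι, F', r, -⟩ := exists_rich_rep F
    have hF' := r.sat hS hF
    have h' := (r.nor_iff h.1).1 h
    obtain ⟨n, c, h0, hn, hm, h1, h2⟩ := exists_char_central_series (hF'.pg_le h'.1)
    have hc : ∀ i, im ι (pre ι (c i)) = c i := fun i => im_pre ι ((h1 i).1.trans (im_le_range ι Q))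
    refine ⟨n, fun i => pre ι (c i), ?_, ?_, fun i j hij => pre_mono ι (hm hij),
      fun i => ⟨?_, ?_⟩⟩
    · rw [← im_eq_bot r.inj (pre_le ι _), hc, h0]
    · simp only [hn]; exact pre_im r.inj h.1
    · rw [r.sc_iff (pre_le ι _), hc]
      exact (h'.of_char (h1 _).1 (h1 _).2).sc
    · rw [← im_le_im r.inj ((Subgroup.commutator_mono h.1 (pre_le ι _)).trans
        (Subgroup.commutator_le_self _)), im_commutator ι h.1 (pre_le ι _), hc, hc,
        Subgroup.commutator_comm]
      exact h2 i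
  · rintro ⟨n, c, h0, hn, hm, h⟩
    have hb : F.StronglyClosed ⊥ := ⟨bot_le, fun R hR φ _ x => by
      have : x = 1 := Subtype.ext (hR x.2)
      rw [this, map_one]; exact one_mem _⟩
    have hsc : ∀ i, F.StronglyClosed (c i) := fun i => by
      induction i using Fin.cases with
      | zero => exact h0 ▸ hb
      | succ i => exact (h i).1
    exact (Cfsg.Agent.S5226.result p hS F hF Q).2 ⟨hn ▸ hsc _, n, c, h0, hn, hm,
      fun i => Subgroup.commutator_comm Q _ ▸ (h i).2, fun i => wc (hsc _)⟩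

end Cfsg.Agent.S5088
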