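import Cfsg.Statements.S5126
import Cfsg.Agent.Fusion.Model2
-- import your own Cfsg.Agent.* helpers here

set_option autoImplicit false
open Cfsg

namespace Cfsg.Agent.S5126

open Cfsg.Agent.Fusion


/-- In a saturated fusion system over a finite p-group S, the normalizer system of a fully normalized, centric, radical subgroup R is constrained, and in every model of that normalizer system the largest normal p-subgroup is the image of R. -/
theorem result {Ω : Type*} [Group Ω] {S : Subgroup Ω} [Finite S] (p : ℕ) [Fact p.Prime] (hS : IsPGroup p S) (F : Cfsg.FusionSystem S) (hF : F.IsSaturated p) (R : Subgroup Ω) (hRn : F.IsFullyNormalized R) (hRc : F.IsCentric R) (hRr : F.IsRadical p R) (E : Cfsg.FusionSystem (Cfsg.FusionSystem.normalizerIn S R)) (hE : F.IsNormalizerSystem R E) {G : Type*} [Group G] (ι : ↥(Cfsg.FusionSystem.normalizerIn S R) →* G) : E.IsConstrained p ∧ (E.IsModel p G ι → (Cfsg.pCore p G : Subgroup G) = (R.subgroupOf (Cfsg.FusionSystem.normalizerIn S R)).map ι) := by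
    obtain ⟨G', _, _, ι', F', r, hr⟩ := exists_rich_rep F
    have hF' := r.sat hS hF
    have hRS : R ≤ S := hRn.1
    have hn := (r.fn_iff hRS).1 hRn
    have hc := (r.cent_iff hRS).1 hRc
    have hrad := (r.rad_iff hRS).1 hRr
    have s := r.nrep hE
    have hcon := hF'.con_NF hn hc
    have hpN : IsPGroup p (FusionSystem.normalizerIn S R) := s.pg_of hcon.1.pg
    refine ⟨(s.con_iff hpN).2 hcon, fun hm => ?_⟩
    obtain ⟨ψ, i, e, m⟩ := s.exists_emb hr
      ((FS.S_le (FS.normK_le _ _ _)).trans (by rw [r.S_eq]; exact im_le_range ι' S)) hm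
    haveI := hm.1
    have h1 : (F'.NF (im ι' R)).core = im ι' R :=
      hcon.1.core_eq_of_rad (FS.NF_nor hn.1) (FS.NF_cent hc)
        ⟨(FS.NF_nor hn.1).1, by rw [FS.NF_aut hn.1]; exact hrad.2⟩
    apply Subgroup.map_injective i
    rw [map_pCore_inj i, ← m.core_eq, h1]
    ext z
    rw [mem_im hRS]
    constructor
    · rintro ⟨x, hx, rfl⟩
      have hx' : x ∈ FusionSystem.normalizerIn S R := ⟨hRS hx, le_nz R hx⟩
      exact ⟨_, ⟨⟨x, hx'⟩, hx, rfl⟩, e ⟨x, hx'⟩⟩
    · rintro ⟨_, ⟨x, hx, rfl⟩, rfl⟩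
      exact ⟨x, hx, (e x).symm⟩

end Cfsg.Agent.S5126
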