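import Cfsg.Statements.S5127
import Cfsg.Agent.Fusion.CS
-- import your own Cfsg.Agent.* helpers here

set_option autoImplicit false
open Cfsg

namespace Cfsg.Agent.S5127

open Cfsg.Agent.Fusion


/-- Let F be a saturated fusion system over a finite p-group S and E a normal subsystem of F over T. Among the subgroups Y of C_S(T) whose centralizer system C_F(Y) contains E there is a largest one, C_S(E), and it is strongly closed in F. -/
theorem result {Ω : Type*} [Group Ω] {S : Subgroup Ω} [Finite S] (p : ℕ) [Fact p.Prime] (hS : IsPGroup p S) (F : Cfsg.FusionSystem S) (hF : F.IsSaturated p) {T : Subgroup Ω} (E : Cfsg.FusionSystem T) (hE : E.IsNormalIn F p) : ∃ C : Subgroup Ω, C ≤ Cfsg.FusionSystem.centralizerIn S T ∧ (∀ P : Subgroup Ω, E.Hom P ⊆ F.centralizerHom C P) ∧ (∀ Y : Subgroup Ω, Y ≤ Cfsg.FusionSystem.centralizerIn S T → (∀ P : Subgroup Ω, E.Hom P ⊆ F.centralizerHom Y P) → Y ≤ C) ∧ F.StronglyClosed C := by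
  obtain ⟨G, _, _, ι, F', r, hr⟩ := exists_rich_rep F
  obtain ⟨E', s⟩ := r.exists_sub hE.1.2.2.1
  have h := (r.norIn_iff s hS).1 hE
  replace hr := r.rich hr
  obtain ⟨C, h1, h2⟩ := r.lift (FS.cse_le_S (F := F') (E := E'))
  refine ⟨C, ?_, (r.sub_centralizer_iff s h1).2 (h2 ▸ h.le_CF_cse hr), fun Y h3 h4 => ?_,
    (r.sc_iff h1).2 (h2 ▸ h.sc_cse hr)⟩
  · rw [← im_le_im r.inj h1, r.im_CS s.le, h2, ← s.S_eq]; exact FS.cse_le
  · have h5 : Y ≤ S := h3.trans inf_le_left
    rw [← im_le_im r.inj h5, h2]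
    exact FS.le_cse (r.im_le h5) ((r.sub_centralizer_iff s h5).1 h4)

end Cfsg.Agent.S5127
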