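import Cfsg.Statements.S5131
import Cfsg.Agent.Fusion.BrQuo
-- import your own Cfsg.Agent.* helpers here

set_option autoImplicit false
open Cfsg

namespace Cfsg.Agent.S5131

open Cfsg.Agent.Fusion


/-- Let F be a fusion system over a finite p-group S and F' a fusion system over S'. If α : S → S' is a morphism of fusion systems from F to F' (every map of F induces along α a map of F'), then the kernel of α is strongly closed in S with respect to F. -/
theorem result {Ω : Type*} [Group Ω] {S : Subgroup Ω} [Finite S] (p : ℕ) [Fact p.Prime] (hS : IsPGroup p S) (F : Cfsg.FusionSystem S) {Ω' : Type*} [Group Ω'] {S' : Subgroup Ω'} (F' : Cfsg.FusionSystem S') (α : S →* Ω') (hα : F.IsMorphism F' α) : F.StronglyClosed ((α.ker).map S.subtype) := by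
  obtain ⟨G, _, _, ι, F₁, r, -⟩ := exists_rich_rep F
  obtain ⟨E, hE, -⟩ : ∃ E : Cfsg.FusionSystem S', E = F' ∧ True := ⟨_, rfl, trivial⟩
  refine ⟨Subgroup.map_subtype_le _, fun R hR φ hφ x => ?_⟩
  obtain ⟨φ', -, a, b, c, h⟩ := hα.2 R φ hφ
  obtain ⟨y, hy, e⟩ := hR x.2
  refine ⟨⟨φ x, b x⟩, ?_, rfl⟩
  have h1 : (⟨α ⟨x, a x.2⟩, c x⟩ : Cfsg.FusionSystem.imageAlong α R) = 1 :=
    Subtype.ext ((congrArg α (Subtype.ext e.symm)).trans hy)
  show α _ = 1
  rw [← h, h1, map_one]

end Cfsg.Agent.S5131
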