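import Cfsg.Statements.S5134
import Cfsg.Agent.Fusion.BrQuo
-- import your own Cfsg.Agent.* helpers here

set_option autoImplicit false
open Cfsg

namespace Cfsg.Agent.S5134

open Cfsg.Agent.Fusion


/-- Let F be a saturated fusion system over a finite p-group S, S₀ a subgroup strongly closed in F, and E the factor system of F modulo S₀ read through θ (a homomorphism on S with kernel S₀ and image the group of E). Then θ is a surjective morphism of fusion systems from F onto E: in particular every map of F, and not only the maps whose source contains S₀, induces along θ a map of E. -/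
theorem result {Ω : Type*} [Group Ω] {S : Subgroup Ω} [Finite S] (p : ℕ) [Fact p.Prime] (hS : IsPGroup p S) (F : Cfsg.FusionSystem S) (hF : F.IsSaturated p) (S₀ : Subgroup Ω) (hS₀ : F.StronglyClosed S₀) {Ω' : Type*} [Group Ω'] {S' : Subgroup Ω'} (θ : S →* Ω') (E : Cfsg.FusionSystem S') (hE : F.IsFactorSystem S₀ θ E) : F.IsSurjectiveMorphism E θ := by
  have := finite_of_range hE.2.2.1
  obtain ⟨G, _, _, ι, F₁, r, -⟩ := exists_rich_rep F
  obtain ⟨G', _, _, κ, E', θ', s, -, t⟩ := r.exists_tr E (mem_of_isFactorSystem hE)
  exact (t.quo_iff r s).2 (t.quo r s hE (r.sat hS hF) hS₀).1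

end Cfsg.Agent.S5134
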