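import Cfsg.Statements.S5135
import Cfsg.Agent.Fusion.BrQuo
-- import your own Cfsg.Agent.* helpers here

set_option autoImplicit false
open Cfsg

namespace Cfsg.Agent.S5135

open Cfsg.Agent.Fusion


/-- Let G be a finite group, S a Sylow p-subgroup and H a normal subgroup of G. Then the fusion system of G/H on the image SH/H of S is the factor system of the fusion system of G on S modulo S ∩ H, read through the quotient map restricted to S: for each subgroup P' of SH/H, the conjugation maps by elements of G/H defined on P' with values in SH/H are exactly the homomorphisms induced by the conjugation maps by elements of G defined on the full preimage of P' in S with values in S. -/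
theorem result {G : Type*} [Group G] [Finite G] (p : ℕ) [Fact p.Prime] (S : Sylow p G) (H : Subgroup G) [H.Normal] : (Cfsg.groupFusionSystem (S : Subgroup G)).IsFactorSystem ((S : Subgroup G) ⊓ H) ((QuotientGroup.mk' H).comp (S : Subgroup G).subtype) (Cfsg.groupFusionSystem ((S : Subgroup G).map (QuotientGroup.mk' H))) := by
  refine ⟨inf_le_left, fun s => ?_, ?_, fun P' φ' => ⟨?_, ?_⟩⟩
  · rw [MonoidHom.comp_apply, QuotientGroup.mk'_apply, QuotientGroup.eq_one_iff]
    exact ⟨fun h => ⟨s.2, h⟩, fun h => h.2⟩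
  · rw [MonoidHom.range_comp, Subgroup.range_subtype]
  · rintro ⟨h1, h2, g', hg'⟩
    obtain ⟨g, rfl⟩ := QuotientGroup.mk'_surjective H g'
    set θ := (QuotientGroup.mk' H).comp (S : Subgroup G).subtype
    have hm : ∀ x, x ∈ pre θ P' ↔ x ∈ (S : Subgroup G) ∧ QuotientGroup.mk' H x ∈ P' := fun x => by
      rw [mem_pre]
      exact and_congr_right fun hx => by rw [fn_of_mem θ hx]; rfl
    have h3 : cj g (pre θ P') ≤ (S : Subgroup G) ⊔ H := cj_le_iff.2 fun x hx => by
      rw [← QuotientGroup.ker_mk' H, ← Subgroup.comap_map_eq, Subgroup.mem_comap, map_mul, map_mul,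
        map_inv, ← hg' ⟨_, ((hm x).1 hx).2⟩]
      exact h2 _
    obtain ⟨a, ha, h4⟩ := ((syl_top S).mono le_sup_left le_top).exists_conj_le h3
      (isPGroup_cj g (S.isPGroup'.to_le (pre_le θ P')))
    obtain ⟨s, hs, k, hk, rfl⟩ := (mem_sup_of_nz (le_nz_of_normal _ H)).1 ha
    rw [cj_mul, cj_le_iff_le, cj_of_mem (inv_mem hs), ← cj_mul] at h4
    refine ⟨h1, conjHom _ (k * g), ⟨pre_le _ _, fun x => cj_le_iff.1 h4 x x.2, _, fun x => rfl⟩,
      pre_le _ _, fun x => cj_le_iff.1 h4 x x.2, fun x => ((hm x).1 x.2).2, fun x => ?_⟩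
    rw [hg']
    show _ = QuotientGroup.mk' H (k * g * x * (k * g)⁻¹)
    have : QuotientGroup.mk' H k = 1 := (QuotientGroup.eq_one_iff k).2 hk
    simp only [map_mul, map_inv, this, one_mul]
    rfl
  · rintro ⟨h1, φ, ⟨-, h2, g, hg⟩, a, b, c, h⟩
    have h7 : ∀ y : P', ∃ x : Cfsg.FusionSystem.preimageAlong _ P', y = ⟨_, c x⟩ := fun y => by
      obtain ⟨x, hx, e⟩ := h1 y.2
      exact ⟨⟨x, ⟨x, hx⟩, show QuotientGroup.mk' H x ∈ P' from e ▸ y.2, rfl⟩, Subtype.ext e.symm⟩
    refine ⟨h1, fun y => ?_, QuotientGroup.mk' H g, fun y => ?_⟩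
    · obtain ⟨x, rfl⟩ := h7 y
      rw [h]; exact ⟨_, b x, rfl⟩
    · obtain ⟨x, rfl⟩ := h7 y
      rw [h]
      show QuotientGroup.mk' H (φ x) = _
      rw [hg, map_mul, map_mul, map_inv]; rfl

end Cfsg.Agent.S5135
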