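import Cfsg.Statements.S5138
import Cfsg.Agent.Fusion.CP
-- import your own Cfsg.Agent.* helpers here

set_option autoImplicit false
open Cfsg

namespace Cfsg.Agent.S5138

open Cfsg.Agent.Fusion


/-- Let F be a saturated fusion system over a finite p-group S and E₁, E₂ normal subsystems over T₁, T₂ with [T₁, T₂] = 1. Then there is a normal subsystem of F over T₁T₂ which, if moreover T₁ ∩ T₂ lies in the centre of E₁ and in the centre of E₂, is a central product of E₁ and E₂ (the factor system of a direct product of E₁ and E₂ modulo a subgroup of its centre meeting both factors trivially). -/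
theorem result {Ω : Type*} [Group Ω] {S : Subgroup Ω} [Finite S] (p : ℕ) [Fact p.Prime] (hS : IsPGroup p S) (F : Cfsg.FusionSystem S) (hF : F.IsSaturated p) {T₁ T₂ : Subgroup Ω} (E₁ : Cfsg.FusionSystem T₁) (E₂ : Cfsg.FusionSystem T₂) (hE₁ : E₁.IsNormalIn F p) (hE₂ : E₂.IsNormalIn F p) (hc : ⁅T₁, T₂⁆ = ⊥) : ∃ D : Cfsg.FusionSystem (T₁ ⊔ T₂), D.IsNormalIn F p ∧ (T₁ ⊓ T₂ ≤ E₁.center → T₁ ⊓ T₂ ≤ E₂.center → Cfsg.FusionSystem.IsCentralProductOf E₁ E₂ D) := by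
  obtain ⟨G, _, _, ι, F', r, hr⟩ := exists_rich_rep F
  replace hr := r.rich hr
  obtain ⟨E₁', s₁⟩ := r.exists_sub hE₁.1.2.2.1
  obtain ⟨E₂', s₂⟩ := r.exists_sub hE₂.1.2.2.1
  obtain ⟨D', d1, d2, d3⟩ := ((r.norIn_iff s₁ hS).1 hE₁).exists_cp' ((r.norIn_iff s₂ hS).1 hE₂) hr
    (by rw [s₁.S_eq, s₂.S_eq]; exact im_le_cz ι s₁.le s₂.le (comm_eq_bot_iff.1 hc))
  obtain ⟨D, d⟩ := exists_rep' r.inj (sup_le s₁.le s₂.le) D'
    (by rw [d2, s₁.S_eq, s₂.S_eq, im_sup ι s₁.le s₂.le])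
  refine ⟨D, r.norIn_of d d1, fun z₁ z₂ => s₁.cp_of s₂ d (hr.full.mono d1.wn.invt.S_le) (d3 ?_ ?_)⟩
  · rw [s₁.S_eq, s₂.S_eq, ← im_inf r.inj, ← s₁.im_center]; exact im_mono ι z₁
  · rw [s₁.S_eq, s₂.S_eq, ← im_inf r.inj, ← s₂.im_center]; exact im_mono ι z₂

end Cfsg.Agent.S5138
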