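import Cfsg.Statements.S5148
import Cfsg.Agent.Fusion.Solv
-- import your own Cfsg.Agent.* helpers here

set_option autoImplicit false
open Cfsg

namespace Cfsg.Agent.S5148

open Cfsg.Agent.Fusion


/-- A quasisimple fusion system over a finite p-group S (saturated, equal to its p-residual subsystem, with simple — in particular nontrivial — factor system modulo its centre) has S nonabelian. -/
theorem result {Ω : Type*} [Group Ω] {S : Subgroup Ω} [Finite S] (p : ℕ) [Fact p.Prime] (hS : IsPGroup p S) (F : Cfsg.FusionSystem S) (hq : F.Quasisimple p) : ¬ IsMulCommutative S := by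
  intro hab
  obtain ⟨G, _, _, ι, F₁, r, -⟩ := exists_rich_rep F
  have hF' := r.sat hS hq.1
  have hZ : F.StronglyClosed F.center := (r.sc_iff (Fusion.center_le F)).2
    (by rw [r.im_center]; exact F₁.cen_center.nor.sc)
  obtain ⟨E, hE⟩ := exists_factor_mk F hZ
  obtain ⟨G', _, _, κ, E', θ', s, -, t⟩ := r.exists_tr E (mem_of_isFactorSystem hE)
  obtain ⟨q, e⟩ := t.quo r s hE hF' hZ
  have hE' := q.sat hF'
  have h1 := (s.simple_iff (s.pg_of hE'.pg)).1 (hq.2.2 E hE)
  have h2 : F₁.S ≤ cz F₁.S := by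
    rw [r.S_eq, ← isMulCommutative_iff_le_cz, isMulCommutative_im_iff r.inj le_rfl]; exact hab
  have h3 := (q.nor_im (hF'.nor_S_of_abelian h2)).norIn hE'
  rw [← q.S_eq] at h3
  refine h1.2.1 ((h1.2.2 _ h3).elim id fun h4 => ?_)
  have h5 : F₁.S = F₁.hyp p := by rw [← r.im_hyp, hq.2.1, r.S_eq]
  rw [q.S_eq, h5, q.im_hyp, ← h4, FS.hyp_inn hE'.pg]

end Cfsg.Agent.S5148
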