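import Cfsg.Statements.S5149
import Cfsg.Agent.Fusion.QS
-- import your own Cfsg.Agent.* helpers here

set_option autoImplicit false
open Cfsg

namespace Cfsg.Agent.S5149

open Cfsg.Agent.Fusion


/-- A saturated fusion system F over a finite p-group has a layer: a normal subsystem containing every component of F as a subsystem and contained in every normal subsystem of F that contains every component. -/
theorem result {Ω : Type*} [Group Ω] {S : Subgroup Ω} [Finite S] (p : ℕ) [Fact p.Prime] (hS : IsPGroup p S) (F : Cfsg.FusionSystem S) (hF : F.IsSaturated p) : ∃ (T : Subgroup Ω) (E : Cfsg.FusionSystem T), E.IsLayerOf F p := by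
  obtain ⟨G, _, _, ι, F', r, hr⟩ := exists_rich_rep F
  replace hr := r.rich hr
  obtain ⟨L, h⟩ := (r.sat hS hF).exists_lay hr
  obtain ⟨T, -, E, s⟩ := r.exists_sub' h.nor.wn.invt.le
  exact ⟨T, E, (r.lay_iff s hS hr).2 h⟩

end Cfsg.Agent.S5149
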