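import Cfsg.Statements.S5150
import Cfsg.Agent.Fusion.QS
-- import your own Cfsg.Agent.* helpers here

set_option autoImplicit false
open Cfsg

namespace Cfsg.Agent.S5150

open Cfsg.Agent.Fusion


/-- Let F be a saturated fusion system over a finite p-group S and E its layer (over T). Then O_p(F), the largest subgroup normal in F, centralizes E: every map of E extends to a map of F on the subgroup generated by its source and O_p(F) that fixes O_p(F) elementwise (so E is a subsystem of the centralizer system of O_p(F), and T commutes with O_p(F)). -/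
theorem result {Ω : Type*} [Group Ω] {S : Subgroup Ω} [Finite S] (p : ℕ) [Fact p.Prime] (hS : IsPGroup p S) (F : Cfsg.FusionSystem S) (hF : F.IsSaturated p) {T : Subgroup Ω} (E : Cfsg.FusionSystem T) (hE : E.IsLayerOf F p) (P : Subgroup Ω) : E.Hom P ⊆ F.centralizerHom F.core P := by
  obtain ⟨G, _, _, ι, F', r, hr⟩ := exists_rich_rep F
  replace hr := r.rich hr
  obtain ⟨L, s, h⟩ := r.exists_lay hS hr hE
  exact (r.sub_centralizer_iff s (Fusion.core_le F)).2 (r.im_core ▸ h.le_CF F'.nor_core hr) P

end Cfsg.Agent.S5150
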