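import Cfsg.Statements.S5152
import Cfsg.Agent.Fusion.QS
-- import your own Cfsg.Agent.* helpers here

set_option autoImplicit false
open Cfsg

namespace Cfsg.Agent.S5152

open Cfsg.Agent.Fusion


/-- Dichotomy for saturated fusion systems: a saturated fusion system over a finite p-group is of characteristic p-type (the normalizer system of every nontrivial fully normalized subgroup is constrained) or of component type (the centralizer system of some fully normalized subgroup of order p has a component). -/
theorem result {Ω : Type*} [Group Ω] {S : Subgroup Ω} [Finite S] (p : ℕ) [Fact p.Prime] (hS : IsPGroup p S) (F : Cfsg.FusionSystem S) (hF : F.IsSaturated p) : F.IsOfCharacteristicPType p ∨ F.IsOfComponentType p := by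
  obtain ⟨G, _, _, ι, F', r, hr⟩ := exists_rich_rep F
  replace hr := r.rich hr
  have hF' := r.sat hS hF
  refine or_iff_not_imp_left.2 fun h => ?_
  simp only [FusionSystem.IsOfCharacteristicPType, not_forall] at h
  obtain ⟨U, h0, h1, N, h2, h3⟩ := h
  have n := r.nrep h2
  obtain ⟨X', k1, k2, k3⟩ := hF'.dichotomy hr ((r.fn_iff h1.1).1 h1)
    (fun e => h0 ((im_eq_bot r.inj h1.1).1 e)) (by rwa [← n.con_iff (hS.to_le inf_le_left)])
  obtain ⟨X, hX, rfl⟩ := r.lift k2.1
  obtain ⟨C, c1, c2⟩ := r.exists_crep hX
  exact ⟨X, by rwa [card_im r.inj hX] at k1, (r.fn_iff hX).2 k2, C, c1,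
    (c2.exists_comp_iff (hS.to_le inf_le_left) (hr.mono (FS.S_le (F'.normK_le _ _)))).2 k3⟩

end Cfsg.Agent.S5152
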