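import Cfsg.Statements.S5153
import Cfsg.Agent.Fusion.Br3
-- import your own Cfsg.Agent.* helpers here

set_option autoImplicit false
open Cfsg

namespace Cfsg.Agent.S5153

open Cfsg.Agent.Fusion


/-- Let F be a saturated fusion system over a finite p-group S and E a subnormal subsystem of F over T. Then every subgroup of T that is fully normalized in F is fully normalized in E. -/
theorem result {Ω : Type*} [Group Ω] {S : Subgroup Ω} [Finite S] (p : ℕ) [Fact p.Prime] (hS : IsPGroup p S) (F : Cfsg.FusionSystem S) (hF : F.IsSaturated p) {T : Subgroup Ω} (E : Cfsg.FusionSystem T) (hE : E.IsSubnormalIn F p) (P : Subgroup Ω) (hPT : P ≤ T) (hP : F.IsFullyNormalized P) : E.IsFullyNormalized P := by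
  obtain ⟨G, _, _, ι, F', r, -⟩ := exists_rich_rep F
  obtain ⟨E', s⟩ := r.exists_sub (le_of_isSubnormalIn hE)
  have key : ∀ {E F : FS G}, FS.SubN p E F → ∀ P, P ≤ E.S → F.FN P → P ≤ F.S ∧ E.FN P := by
    intro E F h P hP
    induction h with
    | refl => exact fun h => ⟨hP, h⟩
    | @step D F h1 h ih =>
      have h2 : E ≤ D := by
        clear ih h
        induction h1 with
        | refl => exact le_rfl
        | step _ h ih => exact ih.trans h.wn.invt.le
      exact fun hn => ⟨hn.1, (ih (h.wn.satF.fn_of_sc h.wn.invt.le h.wn.invt.sc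
        (hP.trans (FS.S_le h2)) hn)).2⟩
  exact (s.fn_iff hP.1).2 (key (r.subn s hS hE) _ (s.im_le hPT) ((r.fn_iff hP.1).1 hP)).2

end Cfsg.Agent.S5153
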