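import Cfsg.Statements.S5155
import Cfsg.Agent.Fusion.CS
-- import your own Cfsg.Agent.* helpers here

set_option autoImplicit false
open Cfsg

namespace Cfsg.Agent.S5155

open Cfsg.Agent.Fusion


/-- Let F be a saturated fusion system over a finite p-group S, E a normal subsystem over T, and Y the largest subgroup of C_S(T) such that E is a subsystem of the centralizer system of Y (every map of E extends to a map of F fixing Y elementwise). Then there is a normal subsystem of F over Y that is a subsystem of the centralizer system of T. -/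
theorem result {Ω : Type*} [Group Ω] {S : Subgroup Ω} [Finite S] (p : ℕ) [Fact p.Prime] (hS : IsPGroup p S) (F : Cfsg.FusionSystem S) (hF : F.IsSaturated p) {T : Subgroup Ω} (E : Cfsg.FusionSystem T) (hE : E.IsNormalIn F p) (Y : Subgroup Ω) (hY : Y ≤ Cfsg.FusionSystem.centralizerIn S T) (hEY : ∀ P : Subgroup Ω, E.Hom P ⊆ F.centralizerHom Y P) (hmax : ∀ Y' : Subgroup Ω, Y' ≤ Cfsg.FusionSystem.centralizerIn S T → (∀ P : Subgroup Ω, E.Hom P ⊆ F.centralizerHom Y' P) → Y' ≤ Y) : ∃ D : Cfsg.FusionSystem Y, D.IsNormalIn F p ∧ ∀ P : Subgroup Ω, D.Hom P ⊆ F.centralizerHom T P := by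
  obtain ⟨G, _, _, ι, F', r, hr⟩ := exists_rich_rep F
  obtain ⟨E', s⟩ := r.exists_sub hE.1.2.2.1
  have h := (r.norIn_iff s hS).1 hE
  replace hr := r.rich hr
  obtain ⟨C, h1, h2⟩ := r.lift (FS.cse_le_S (F := F') (E := E'))
  have h5 : Y ≤ S := hY.trans inf_le_left
  obtain rfl : Y = C := le_antisymm (by
      rw [← im_le_im r.inj h5, h2]
      exact FS.le_cse (r.im_le h5) ((r.sub_centralizer_iff s h5).1 hEY))
    (hmax C (by rw [← im_le_im r.inj h1, r.im_CS s.le, h2, ← s.S_eq]; exact FS.cse_le)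
      ((r.sub_centralizer_iff s h1).2 (h2 ▸ h.le_CF_cse hr)))
  obtain ⟨D', d1, d2, d3⟩ := h.exists_CE hr
  obtain ⟨D, t⟩ := exists_rep' r.inj h5 D' (d1.trans h2.symm)
  exact ⟨D, r.norIn_of t d2, (r.sub_centralizer_iff t s.le).2 (s.S_eq ▸ d3.1)⟩

end Cfsg.Agent.S5155
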