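import Cfsg.Statements.S5162
import Cfsg.Agent.Fusion.CP
-- import your own Cfsg.Agent.* helpers here

set_option autoImplicit false
open Cfsg

namespace Cfsg.Agent.S5162

open Cfsg.Agent.Fusion


/-- Let F be a saturated fusion system over a finite p-group S that is a central product of two saturated subsystems F₁ (over S₁) and F₂ (over S₂) inside S. Then every component of F is a component of F₁ or a component of F₂. -/
theorem result {Ω : Type*} [Group Ω] {S : Subgroup Ω} [Finite S] (p : ℕ) [Fact p.Prime] (hS : IsPGroup p S) (F : Cfsg.FusionSystem S) (hF : F.IsSaturated p) {S₁ S₂ : Subgroup Ω} (F₁ : Cfsg.FusionSystem S₁) (F₂ : Cfsg.FusionSystem S₂) (h₁ : F₁.IsSaturated p) (h₂ : F₂.IsSaturated p) (h₁F : F₁.IsSubsystemOf F) (h₂F : F₂.IsSubsystemOf F) (hc : Cfsg.FusionSystem.IsCentralProductOf F₁ F₂ F) {T : Subgroup Ω} (C : Cfsg.FusionSystem T) (hC : C.IsComponentIn F p) : C.IsComponentIn F₁ p ∨ C.IsComponentIn F₂ p := by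
  obtain ⟨G, _, _, ι, F', r, hr⟩ := exists_rich_rep F
  replace hr := r.rich hr
  obtain ⟨E₁', s₁⟩ := r.exists_sub h₁F
  obtain ⟨E₂', s₂⟩ := r.exists_sub h₂F
  obtain ⟨C', s, h⟩ := r.exists_comp hS hr hC
  have c := s₁.cp s₂ r (s₁.sat (hS.to_le s₁.le) h₁) (s₂.sat (hS.to_le s₂.le) h₂) hc
  exact (c.comp hr h).imp (s₁.comp_iff s (hS.to_le s₁.le) (hr.mono (FS.S_le c.le))).2
    (s₂.comp_iff s (hS.to_le s₂.le) (hr.mono (FS.S_le c.symm.le))).2

end Cfsg.Agent.S5162
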