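import Cfsg.Statements.S5193
import Cfsg.Agent.Fusion.WC
import Cfsg.Agent.S2799
-- import your own Cfsg.Agent.* helpers here

set_option autoImplicit false
open Cfsg

namespace Cfsg.Agent.S5193

open Cfsg.Agent.Fusion


/-- Glauberman's Theorem for fusion systems. Let F be a saturated fusion system over a finite p-group S, let J(S) be the subgroup generated by the abelian subgroups of S of largest order, and let N be the normalizer fusion system of J(S) in F (a fusion system over N_S(J(S)) = S). Then every p-th power of an element of Z(S) that lies in the centre of N lies in the centre of F; and if p is odd, or if the symmetric group of degree 4 is not involved in any model of the normalizer system of a fully normalized F-centric subgroup (F is S₄-free), then the centre of N equals the centre of F. -/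
theorem result {Ω : Type*} [Group Ω] {S : Subgroup Ω} [Finite S] (p : ℕ) [Fact p.Prime] (hS : IsPGroup p S) (F : Cfsg.FusionSystem S) (hF : F.IsSaturated p) (N : Cfsg.FusionSystem (Cfsg.FusionSystem.normalizerIn S (Cfsg.thompsonSubgroupAOf S))) (hN : F.IsNormalizerSystem (Cfsg.thompsonSubgroupAOf S) N) : Subgroup.closure ((fun z : Ω => z ^ p) '' ((S ⊓ Subgroup.centralizer (S : Set Ω) : Subgroup Ω) : Set Ω)) ⊓ N.center ≤ F.center ∧ (p ≠ 2 ∨ F.IsSectionFree p (Equiv.Perm (Fin 4)) → N.center = F.center) := by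
  obtain ⟨G, _, _, ι, F', r, hr⟩ := exists_rich_rep F
  have hr' := r.rich hr
  have hF' := r.sat hS hF
  have s := r.nrep hN
  rw [im_jA r.inj le_rfl, ← r.S_eq] at s
  have hN' := (Fusion.center_le N).trans inf_le_left
  refine ⟨?_, fun h => ?_⟩
  · rw [← im_le_im r.inj (inf_le_right.trans hN'), im_inf r.inj, r.im_center, s.im_center]
    refine (hF'.cen_of_mho hr' conjFunctor_jn (fun P _ => center_le_jn P) ql_jn
      ((FS.cen_center _).of_le inf_le_right) (inf_le_left.trans ?_)).le_center
    rw [← powerClosure_one, ← r.im_Z, ← im_powerClosure inf_le_left, powerClosure_one]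
    exact le_rfl
  rw [← im_inj r.inj hN' (Fusion.center_le F), r.im_center, s.im_center]
  rcases h with h | h
  · exact hF'.center_NF_jn hr' h
  have h0 := (le_nz _).trans (W_nz conjFunctor_jn hF'.pg)
  refine le_antisymm (hF'.cen_of_loc hr' conjFunctor_jn (fun P _ => center_le_jn P)
    (fun D => D.Free p (Equiv.Perm (Fin 4)) ∧ D.S ≤ F'.S) (fun D Q K h1 h2 h3 h4 =>
      ⟨h2.1.normK h1 (hr'.mono h2.2) h3 h4, by simpa using inf_le_left.trans h2.2⟩)
    ⟨(r.free_iff hr').1 h, le_rfl⟩ (FS.cen_center _) fun D H _ h1 hH h2 h3 g hg =>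
      mem_cz'.2 fun z hz => ?_).le_center
    (F'.cen_center.sub (FS.normK_le _ _ _) (by rw [FS.NF_S_of_normal h0]; exact F'.center_le)
    (hF'.NF (FS.FN.of_normal (PLocal.jn_le _) h0))).le_center
  obtain ⟨R, hR⟩ := hH.exists_sylow
  have hzH : z ∈ H := opm_le _ _ (h2 hz)
  refine congrArg Subtype.val (S2799.result R ⟨z, hzH⟩ (by rw [hR]; exact hH.syl.opm_le (h2 hz)) ?_
    (Or.inr (Or.inr (h1.1.of_mod hH))) ⟨g, hg⟩ (by
      rw [hR]; exact hH.syl.opm_le (conj_mem_of_nz (le_nz_opm_bot p H hg) (h2 hz))))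
  rw [PLocal.map_center_subtype, Transfer.thompsonSubgroupAOf_eq, PLocal.thompsonSubgroupOf_eq, hR,
    jn_subgroupOf hH.le]
  show _ ∈ PLocal.zOf (nz _)
  rw [nz_subgroupOf ((PLocal.jn_le _).trans hH.le)]
  exact ⟨⟨hzH, (le_nz _).trans (W_nz conjFunctor_jn hH.sat.pg) (hH.syl.opm_le (h2 hz))⟩,
    fun y hy => Subtype.ext (mem_cz.1 (h3 hy) z hz).symm⟩

end Cfsg.Agent.S5193
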