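import Cfsg.Statements.S5194
import Cfsg.Agent.Fusion.QdF
-- import your own Cfsg.Agent.* helpers here

set_option autoImplicit false
open Cfsg

namespace Cfsg.Agent.S5194

open Cfsg.Agent.Fusion


/-- Thompson's normal p-complement Theorem for fusion systems. Let F be a saturated fusion system over a finite p-group S such that p is odd or F is S₄-free (the symmetric group of degree 4 is not involved in any model of the normalizer system of a fully normalized F-centric subgroup), and let J(S) be the subgroup generated by the abelian subgroups of S of largest order. If the centralizer fusion system of Z(S) in F is the inner fusion system of C_S(Z(S)) = S and the normalizer fusion system of J(S) in F is the inner fusion system of N_S(J(S)) = S, then F is the inner fusion system of S. -/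
theorem result {Ω : Type*} [Group Ω] {S : Subgroup Ω} [Finite S] (p : ℕ) [Fact p.Prime] (hS : IsPGroup p S) (F : Cfsg.FusionSystem S) (hF : F.IsSaturated p) (hp : p ≠ 2 ∨ F.IsSectionFree p (Equiv.Perm (Fin 4))) (hC : ∀ C : Cfsg.FusionSystem (Cfsg.FusionSystem.centralizerIn S (S ⊓ Subgroup.centralizer (S : Set Ω))), F.IsCentralizerSystem (S ⊓ Subgroup.centralizer (S : Set Ω)) C → ∀ P : Subgroup Ω, C.Hom P = (Cfsg.innerFusionSystem (Cfsg.FusionSystem.centralizerIn S (S ⊓ Subgroup.centralizer (S : Set Ω)))).Hom P) (hN : ∀ N : Cfsg.FusionSystem (Cfsg.FusionSystem.normalizerIn S (Cfsg.thompsonSubgroupAOf S)), F.IsNormalizerSystem (Cfsg.thompsonSubgroupAOf S) N → ∀ P : Subgroup Ω, N.Hom P = (Cfsg.innerFusionSystem (Cfsg.FusionSystem.normalizerIn S (Cfsg.thompsonSubgroupAOf S))).Hom P) : ∀ P : Subgroup Ω, F.Hom P = (Cfsg.innerFusionSystem S).Hom P := by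
  obtain ⟨G, _, _, ι, F', r, hr⟩ := exists_rich_rep F
  have hr' := r.rich hr
  have hF' := r.sat hS hF
  refine (r.pa_iff hF').2 (hF'.thompson hr' (hp.imp_right (r.free_iff hr').1) ?_ ?_)
  · obtain ⟨C, h1, c⟩ := r.exists_crep (Q := S ⊓ cz S) inf_le_left
    have := c.pa_of (hF'.pg.to_le (FS.S_le (FS.normK_le _ _ _))) (hC C h1)
    rwa [r.im_Z] at this
  · have hle : thompsonSubgroupAOf S ≤ S := Subgroup.map_subtype_le _
    have := (r.pa_NF_iff hF' hle (by
      rw [im_jA r.inj le_rfl, ← r.S_eq]
      exact (le_nz _).trans (W_nz conjFunctor_jn hF'.pg))).1 hN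
    rwa [im_jA r.inj le_rfl, ← r.S_eq] at this

end Cfsg.Agent.S5194
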