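import Cfsg.Statements.S5196
import Cfsg.Agent.Fusion.WC
-- import your own Cfsg.Agent.* helpers here

set_option autoImplicit false
universe u
open Cfsg

namespace Cfsg.Agent.S5196

open Cfsg.Agent.Fusion


/-- Let p be an odd prime and W a positive characteristic p-functor: W assigns to every finite p-group Q (in a fixed universe) a subgroup W(Q), nontrivial when Q is, carried to W(R) by every isomorphism Q ≅ R; assume also Z(Q) ≤ W(Q) for every finite p-group Q. Suppose W satisfies the local condition: for every finite group G with Sylow p-subgroup P, O_p(G) ∩ Z(G) = O_p(G) ∩ Z(N_G(W(P))). Then W controls weak closure of elements in every saturated fusion system F over a finite p-group S: the centre of the normalizer fusion system of W(S) in F equals the centre of F. (For p = 2 no functor satisfies the local condition, so p is taken odd.) -/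
theorem result {p : ℕ} [Fact p.Prime] (hp : p ≠ 2) (W : ∀ (Q : Type u) [Group Q], Subgroup Q) (hW1 : ∀ (Q : Type u) [Group Q] [Finite Q], IsPGroup p Q → Nontrivial Q → W Q ≠ ⊥) (hW2 : ∀ (Q R : Type u) [Group Q] [Group R] [Finite Q], IsPGroup p Q → ∀ φ : Q ≃* R, (W Q).map φ.toMonoidHom = W R) (hWZ : ∀ (Q : Type u) [Group Q] [Finite Q], IsPGroup p Q → Subgroup.center Q ≤ W Q) (hC : ∀ (G : Type u) [Group G] [Finite G] (P : Sylow p G), Cfsg.pCore p G ⊓ Subgroup.center G = Cfsg.pCore p G ⊓ (Subgroup.center ↥(Subgroup.normalizer (((W ↥(P : Subgroup G)).map (P : Subgroup G).subtype : Subgroup G) : Set G))).map (Subgroup.normalizer (((W ↥(P : Subgroup G)).map (P : Subgroup G).subtype : Subgroup G) : Set G)).subtype) {Ω : Type u} [Group Ω] {S : Subgroup Ω} [Finite S] (hS : IsPGroup p S) (F : Cfsg.FusionSystem S) (hF : F.IsSaturated p) (N : Cfsg.FusionSystem (Cfsg.FusionSystem.normalizerIn S ((W ↥S).map S.subtype))) (hN : F.IsNormalizerSystem ((W ↥S).map S.subtype) N) : N.center = F.center := by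
  obtain ⟨G, _, _, ι, F', r, hr⟩ := exists_rich_rep F
  have hr' := r.rich hr
  have hF' := r.sat hS hF
  have hW : IsCharPFunctor p W := ⟨hW1, hW2⟩
  have hW' := Glaub.conjFunctor_ind (G := G) hW
  have s := r.nrep hN
  rw [im_ind hW r.inj le_rfl hS, ← r.S_eq] at s
  have h0 := (le_nz _).trans (W_nz hW' hF'.pg)
  rw [← im_inj r.inj ((Fusion.center_le N).trans inf_le_left) (Fusion.center_le F), r.im_center, s.im_center]
  refine le_antisymm (hF'.cen_of_loc hr' hW' (fun P hP => (PLocal.map_center_subtype P).ge.trans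
    (Subgroup.map_mono (hWZ P hP))) (fun _ => True) (fun _ _ _ _ _ _ _ => trivial) trivial
    (FS.cen_center _) fun D H _ _ hH h2 h3 => le_cz_comm.1 fun z hz => ?_).le_center
    (F'.cen_center.sub (FS.normK_le _ _ _) (by rw [FS.NF_S_of_normal h0]; exact F'.center_le)
    (hF'.NF (FS.FN.of_normal (W_le hW' hF'.pg) h0))).le_center
  obtain ⟨R, hR⟩ := hH.exists_sylow
  have hzH : z ∈ H := opm_le _ _ (h2 hz)
  have h4 := (hC H R).ge (x := ⟨z, hzH⟩) ⟨by
    rw [← map_pCore] at h2; exact LocalEven.mem_pCoreOf.1 (h2 hz), by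
    rw [PLocal.map_center_subtype]
    have e : nz (inducedFunctor W (R : Subgroup H)) = (H ⊓ nz (inducedFunctor W D.S)).subgroupOf H := by
      rw [← Transfer.inducedFunctor_subtype hW hH.sat.pg hH.le, ← hR, ← nz_subgroupOf (Subgroup.map_subtype_le _),
        Subgroup.subgroupOf, Subgroup.comap_map_eq_self_of_injective H.subtype_injective]
    show _ ∈ PLocal.zOf (nz (inducedFunctor W (R : Subgroup H)))
    rw [e]
    exact ⟨⟨hzH, (le_nz _).trans (W_nz hW' hH.sat.pg) (hH.syl.opm_le (h2 hz))⟩,
      fun y hy => Subtype.ext (mem_cz.1 (h3 hy) z hz).symm⟩⟩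
  exact fun y hy => congrArg Subtype.val (Subgroup.mem_center_iff.1 h4.2 ⟨y, hy⟩)

end Cfsg.Agent.S5196
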