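import Cfsg.Statements.S5198
import Cfsg.Agent.Fusion.Br3
-- import your own Cfsg.Agent.* helpers here

set_option autoImplicit false
open Cfsg

namespace Cfsg.Agent.S5198

open Cfsg.Agent.Fusion


/-- Let F be a saturated fusion system over a finite p-group S and T a subgroup of S strongly closed in F (so T is normal in S). Then every element x of the hyperfocal subgroup of F acts on T by conjugation as an element of O^p(Aut_F(T))·Inn(T): there is an automorphism of T in the subgroup generated by the elements of Aut_F(T) of order prime to p together with the inner automorphisms of T that agrees with conjugation by x. -/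
theorem result {Ω : Type*} [Group Ω] {S : Subgroup Ω} [Finite S] (p : ℕ) [Fact p.Prime] (hS : IsPGroup p S) (F : Cfsg.FusionSystem S) (hF : F.IsSaturated p) (T : Subgroup Ω) (hT : F.StronglyClosed T) : ∀ x ∈ F.hyperfocalSubgroup p, ∃ α ∈ ((Cfsg.pResidual p ↥(F.autGroup T)).map (F.autGroup T).subtype ⊔ Cfsg.Inn ↥T : Subgroup (MulAut ↥T)), ∀ t : ↥T, ((α t : ↥T) : Ω) = x * (t : Ω) * x⁻¹ := by
  obtain ⟨G, _, _, ι, F', r, -⟩ := exists_rich_rep F
  intro x hx
  have hxS := hyperfocal_le F p hx
  have hT' := (r.sc_iff hT.1).1 hT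
  have h1 := (r.sat hS hF).hyp_le_of_sc hT' (r.im_hyp (p := p) ▸ fn_mem_im ι hx)
  obtain ⟨α, hα, e⟩ := exists_mem_dn (eta r.inj hT.1) h1 (hT'.S_le_nz (r.mem_S hxS))
  rw [dn_sup _ ((pres_le _).trans (F'.aut_le_nz _)) (ai_le_nz _ _), ← r.pResidual_eq,
    ← r.inn_eq] at hα
  refine ⟨α, hα, fun t => ?_⟩
  rw [← fn_inj r.inj (hT.1 (α t).2) (mul_mem (mul_mem hxS (hT.1 t.2)) (inv_mem hxS)),
    fn_conj ι hxS (hT.1 t.2)]
  simpa using e t

end Cfsg.Agent.S5198
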