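import Cfsg.Statements.S5199
import Cfsg.Agent.Fusion.PInd
-- import your own Cfsg.Agent.* helpers here

set_option autoImplicit false
open Cfsg

namespace Cfsg.Agent.S5199

open Cfsg.Agent.Fusion


/-- Let F be a saturated fusion system over a finite p-group S, E a normal subsystem of F over T, and F₀ a normal subsystem of F over a subgroup U containing both T and the hyperfocal subgroup of F, such that F₀ has p-power index in F. Then E is a subsystem of F₀. -/
theorem result {Ω : Type*} [Group Ω] {S : Subgroup Ω} [Finite S] (p : ℕ) [Fact p.Prime] (hS : IsPGroup p S) (F : Cfsg.FusionSystem S) (hF : F.IsSaturated p) {T U : Subgroup Ω} (E : Cfsg.FusionSystem T) (hE : E.IsNormalIn F p) (F₀ : Cfsg.FusionSystem U) (hF₀ : F₀.IsNormalIn F p) (hU : T ⊔ F.hyperfocalSubgroup p ≤ U) (hidx : F₀.HasPPowerIndexIn F p) : E.IsSubsystemOf F₀ := by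
  obtain ⟨G, _, _, ι, F', r, -⟩ := exists_rich_rep F
  obtain ⟨E', s⟩ := r.exists_sub hE.1.2.2.1
  obtain ⟨D, t⟩ := r.exists_sub hidx.1
  have h := ((r.norIn_iff s hS).1 hE).wn
  exact (t.le_iff_sub s).2 (((r.ppi_iff t).1 hidx).le_of h.satE h.invt.le
    (s.S_eq ▸ t.S_eq ▸ im_mono ι (le_sup_left.trans hU)))

end Cfsg.Agent.S5199
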