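import Cfsg.Statements.S5200
import Cfsg.Agent.Fusion.Prd2
-- import your own Cfsg.Agent.* helpers here

set_option autoImplicit false
open Cfsg

namespace Cfsg.Agent.S5200

open Cfsg.Agent.Fusion


/-- Let F be a saturated fusion system over a finite p-group S and E a normal subsystem of F over T whose centralizer in S lies in T: every subgroup Y of C_S(T) such that E is contained in the centralizer fusion system of Y in F satisfies Y ≤ T. Then T·C_S(T)/T is abelian (the commutator subgroup of T·C_S(T) lies in T), and if p is odd then C_S(T) ≤ T. -/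
theorem result {Ω : Type*} [Group Ω] {S : Subgroup Ω} [Finite S] (p : ℕ) [Fact p.Prime] (hS : IsPGroup p S) (F : Cfsg.FusionSystem S) (hF : F.IsSaturated p) {T : Subgroup Ω} (E : Cfsg.FusionSystem T) (hE : E.IsNormalIn F p) (hCE : ∀ Y : Subgroup Ω, Y ≤ Cfsg.FusionSystem.centralizerIn S T → (∀ C : Cfsg.FusionSystem (Cfsg.FusionSystem.centralizerIn S Y), F.IsCentralizerSystem Y C → E.IsSubsystemOf C) → Y ≤ T) : ⁅T ⊔ Cfsg.FusionSystem.centralizerIn S T, T ⊔ Cfsg.FusionSystem.centralizerIn S T⁆ ≤ T ∧ (p ≠ 2 → Cfsg.FusionSystem.centralizerIn S T ≤ T) := by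
  obtain ⟨G, _, _, ι, F', r, hr⟩ := exists_rich_rep F
  obtain ⟨E', s⟩ := r.exists_sub hE.1.2.2.1
  have h := (r.norIn_iff s hS).1 hE
  replace hr := r.rich hr
  obtain ⟨C, h1, h2⟩ := r.lift (FS.cse_le_S (F := F') (E := E'))
  have h3 : F'.cse E' ≤ E'.S := by
    rw [← h2, s.S_eq]
    refine im_mono ι (hCE C ?_ fun D hD => ((r.crep hD).le_iff_sub s).2 (h2 ▸ h.le_CF_cse hr))
    rw [← im_le_im r.inj h1, r.im_CS s.le, h2, ← s.S_eq]; exact FS.cse_le
  have h4 := r.CS_le T
  refine ⟨comm_sup_self_le (inf_le_right.trans (cz_le_nz T)) ?_, fun hp2 => ?_⟩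
  · rw [← im_le_im r.inj ((comm_le_left (le_nz _)).trans h4), im_commutator ι h4 h4, r.im_CS s.le,
      ← s.S_eq]
    simpa using (F'.CF E'.S).comm_le_foc.trans ((h.foc_CF_le hr).trans h3)
  · rw [← im_le_im r.inj h4, r.im_CS s.le, ← s.S_eq]
    exact h.cz_le_of_odd hr hp2 h3

end Cfsg.Agent.S5200
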