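import Cfsg.Statements.S5202
import Cfsg.Agent.Fusion.Oli
-- import your own Cfsg.Agent.* helpers here

set_option autoImplicit false
open Cfsg

namespace Cfsg.Agent.S5202

open Cfsg.Agent.Fusion


/-- Let F be a saturated fusion system over a finite p-group S and E a normal subsystem of F over T such that Aut_F(T)/Aut_E(T) is p-solvable. Then there is a normal subsystem F₀ of F over T·C_S(T) containing E, with Aut_{F₀}(T) = Aut_E(T), containing every residual limit of F, and whose residual limits have the same maps as those of F. -/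
theorem result {Ω : Type*} [Group Ω] {S : Subgroup Ω} [Finite S] (p : ℕ) [Fact p.Prime] (hS : IsPGroup p S) (F : Cfsg.FusionSystem S) (hF : F.IsSaturated p) {T : Subgroup Ω} (E : Cfsg.FusionSystem T) (hE : E.IsNormalIn F p) [hn : ((E.autGroup T).subgroupOf (F.autGroup T)).Normal] (hsolv : Cfsg.IsPSolvable p (↥(F.autGroup T) ⧸ (E.autGroup T).subgroupOf (F.autGroup T))) : ∃ F₀ : Cfsg.FusionSystem (T ⊔ Cfsg.FusionSystem.centralizerIn S T), F₀.IsNormalIn F p ∧ E.IsSubsystemOf F₀ ∧ F₀.autGroup T = E.autGroup T ∧ ∀ {U : Subgroup Ω} (Finf : Cfsg.FusionSystem U), Finf.IsResidualLimitOf F p → Finf.IsSubsystemOf F₀ ∧ ∀ {V : Subgroup Ω} (L : Cfsg.FusionSystem V), L.IsResidualLimitOf F₀ p → ∀ P : Subgroup Ω, L.Hom P = Finf.Hom P := by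
  obtain ⟨G, _, _, ι, F', r, hr⟩ := exists_rich_rep F
  obtain ⟨E', s⟩ := r.exists_sub hE.1.2.2.1
  have h := (r.norIn_iff s hS).1 hE
  replace hr := r.rich hr
  obtain ⟨D', d1, d2, d3, d4, d5, -⟩ := h.exists_env hr (r.pso s h.wn.invt.le hsolv)
  obtain ⟨D, t⟩ := exists_rep' r.inj (sup_le s.le (r.CS_le T)) D' (by
    rw [d2, im_sup ι s.le (r.CS_le T), r.im_CS s.le, s.S_eq])
  refine ⟨D, r.norIn_of t d1, (t.le_iff_sub s).2 d3, (t.aut_eq_iff s s.le).2 (s.S_eq ▸ d4),
    fun Finf hFinf => ?_⟩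
  obtain ⟨A, a1, a2⟩ := r.rl hFinf hS
  have a3 := d5 A a2.stb (a2.subN h.wn.satF)
  refine ⟨(t.le_iff_sub a1).2 a3.le, fun L hL => ?_⟩
  obtain ⟨B, b1, b2⟩ := t.rl hL (hS.to_le t.le)
  exact (a1.eq_iff b1).2 (a2.same b2 d1 hr a3)

end Cfsg.Agent.S5202
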