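import Cfsg.Statements.S5206
import Cfsg.Agent.Fusion.QdF
-- import your own Cfsg.Agent.* helpers here

set_option autoImplicit false
universe u
open Cfsg

namespace Cfsg.Agent.S5206

open Cfsg.Agent.Fusion


/-- Let p be an odd prime, G a finite group and P a Sylow p-subgroup of G. Then the fusion system of G on P is Qd(p)-free (Qd(p), the natural semidirect product of an elementary abelian group of order p² by SL₂(p), is not involved in any model of the normalizer system of a fully normalized centric subgroup) if and only if Qd(p) is not involved in G. -/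
theorem result {G : Type u} [Group G] [Finite G] {p : ℕ} [Fact p.Prime] (hp : p ≠ 2) (P : Sylow p G) : (Cfsg.groupFusionSystem (P : Subgroup G)).IsSectionFree p ↥(Cfsg.qd p) ↔ ¬ Cfsg.Involves ↥(Cfsg.qd p) G := by
  obtain ⟨G', _, _, ι, F', r, hr⟩ := exists_rich_rep (groupFusionSystem (P : Subgroup G))
  have hr' := r.rich hr
  obtain ⟨θ, q, -⟩ := (rep_group (P : Subgroup G)).exists_quo r
  have hF' : F'.Sat p := q.sat (FS.ofGroup_sat (syl_top P))
  rw [r.free_iff hr']
  refine ⟨fun h => Glaub.not_involves_qd_iff.2 fun hi => ?_, r.free_of_group P hr'⟩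
  obtain ⟨V, hV, ha⟩ := exists_qdAct P hi
  refine h.not_qdAct hp hF' hr' (r.im_le hV) (eta r.inj hV) (ha.mono fun β hβ => ?_)
  rw [← r.autGroup_eq hV, mem_autGroup hV]
  obtain ⟨g, -, hg⟩ := mem_autInducedBy.1 hβ
  refine (rep_group (P : Subgroup G)).mem_of le_top (fun _ => trivial) (ind_tp.2 hg) ?_
  rw [im_subtype le_top]
  exact FS.ofGroup_top_M.2 ⟨hV, cj_le_iff.2 fun x hx => hg ⟨x, hx⟩ ▸ hV (β ⟨x, hx⟩).2⟩

end Cfsg.Agent.S5206
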