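import Mathlib
import Cfsg.Statements.S5214
import Cfsg.Agent.Fusion.Solv
import Cfsg.Agent.Fusion.Br3
import Cfsg.Agent.S1137
import Cfsg.Agent.S1138

set_option autoImplicit false
open Cfsg

namespace Cfsg.Agent.S5214

/-- Let S be a Suzuki 2-group (a finite nonabelian 2-group with more than one involution admitting a cyclic group of automorphisms permuting its involutions regularly). Then S is normal in every saturated fusion system over S (such a group is resistant). -/
theorem result {Ω : Type*} [Group Ω] {S : Subgroup Ω} [Finite S] (hS : IsPGroup 2 S) (F : Cfsg.FusionSystem S) (hF : F.IsSaturated 2) (hsz : Cfsg.IsSuzukiTwoGroup ↥S) : F.IsNormal S := by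
  haveI : Fact (Nat.Prime 2) := ⟨Nat.prime_two⟩
  obtain ⟨G, _, _, ι, F', r, -⟩ := Fusion.exists_rich_rep F
  have hF' := r.sat hS hF
  have e : S ≃* F'.S := (Fusion.eta r.inj le_rfl).trans (MulEquiv.subgroupCongr r.S_eq.symm)
  obtain ⟨h1, h2⟩ := S1137.result hsz
  obtain ⟨-, h3, -⟩ := S1138.result hsz
  have hZ : ∀ x ∈ F'.S, x ∈ Fusion.cz F'.S ↔ x * x = 1 := by
    intro x hx
    obtain ⟨y, hy⟩ := e.surjective ⟨x, hx⟩
    have hy' : x = e y := (congrArg Subtype.val hy).symm
    have : x ∈ Fusion.cz F'.S ↔ y ∈ Subgroup.center S := by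
      rw [Fusion.mem_cz, Subgroup.mem_center_iff, hy']
      constructor
      · intro h g; exact e.injective (Subtype.ext (by simpa using h _ (e g).2))
      · intro h g hg
        obtain ⟨k, hk⟩ := e.surjective ⟨g, hg⟩
        have := congrArg (fun s => (e s : G)) (h k)
        simpa [hk] using this
    rw [this, hy', ← Subgroup.coe_mul, ← map_mul, OneMemClass.coe_eq_one, map_eq_one_iff _ e.injective]
    refine ⟨h2 y, fun h => ?_⟩
    by_cases hy1 : y = 1
    · rw [hy1]; exact one_mem _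
    · exact ((h1 y).1 ⟨hy1, h⟩).1
  refine r.nor_S_iff.2 (hF'.nor_of_class_two (R := F'.S ⊓ Fusion.cz F'.S) F'.sc_S ?_ inf_le_left inf_le_right ?_)
  · refine Fusion.FS.SC.wc (Fusion.FS.sc_of_forall inf_le_left fun P g hg x hxP hx => ?_)
    have hm := Fusion.FS.conj_mem hg hxP
    refine ⟨hm, (hZ _ hm).2 ?_⟩
    rw [show g * x * g⁻¹ * (g * x * g⁻¹) = g * (x * x) * g⁻¹ by group, (hZ x hx.1).1 hx.2]; group
  · rw [Subgroup.commutator_le]
    intro a ha b hb
    have hm : a * b * a⁻¹ * b⁻¹ ∈ F'.S := mul_mem (mul_mem (mul_mem ha hb) (inv_mem ha)) (inv_mem hb)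
    rw [commutatorElement_def]
    refine ⟨hm, (hZ _ hm).2 ?_⟩
    have := congrArg (fun s => (e s : G)) (h2 _ (h3 (e.symm ⟨a, ha⟩)⁻¹ (e.symm ⟨b, hb⟩)⁻¹))
    simpa using this

end Cfsg.Agent.S5214
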