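import Cfsg.Statements.S5219
import Cfsg.Agent.S5218
-- import your own Cfsg.Agent.* helpers here

set_option autoImplicit false
open Cfsg

namespace Cfsg.Agent.S5219

open Cfsg.Agent.Fusion


/-- Let p be a prime, n a natural number, S a nontrivial finite p-group of nilpotence class at most n(p−1)+1, and F a saturated fusion system over S with no nontrivial normal subgroup (O_p(F) = 1). Then S has exponent dividing p^(n²(p−1)+n). -/
theorem result {Ω : Type*} [Group Ω] {S : Subgroup Ω} [Finite S] (p : ℕ) [Fact p.Prime] (hS : IsPGroup p S) (F : Cfsg.FusionSystem S) (hF : F.IsSaturated p) (n : ℕ) (hS1 : S ≠ ⊥) (hcl : Subgroup.lowerCentralSeries S (n * (p - 1) + 1) = ⊥) (hcore : F.core = ⊥) : Monoid.exponent ↥S ∣ p ^ (n ^ 2 * (p - 1) + n) := by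
  have h1 := (le_sSup (s := {Q | F.IsNormal Q}) (S5218.result p hS F hF n hS1 hcl)).trans hcore.le
  have h2 : ∀ i, ∀ x ∈ Subgroup.upperCentralSeries S (i + 1), x ^ p ^ n ∈ Subgroup.upperCentralSeries S i := by
    intro i
    induction i with
    | zero =>
      intro x hx
      rw [Subgroup.upperCentralSeries_one] at hx
      exact Subtype.ext (h1 (Subgroup.subset_closure ⟨x, ⟨x.2, fun y hy =>
        congrArg Subtype.val (Subgroup.mem_center_iff.1 hx ⟨y, hy⟩)⟩, rfl⟩))
    | succ i ih =>
      intro x hx
      rw [Subgroup.mem_upperCentralSeries_succ_iff] at hx ⊢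
      intro y
      have h3 := Subgroup.mem_upperCentralSeries_succ_iff.1 (hx y)
      have h4 := ih _ (hx y)
      rw [← QuotientGroup.eq_one_iff] at h4 ⊢
      let π := QuotientGroup.mk' (Subgroup.upperCentralSeries S i)
      change π _ = 1 at h4 ⊢
      rw [map_commutatorElement, map_pow, PGrp.commutator_pow_left_of_commute, ← map_commutatorElement,
        ← map_pow, h4]
      rw [← map_commutatorElement, Commute.symm_iff, ← commutatorElement_eq_one_iff_commute,
        ← map_commutatorElement]
      exact (QuotientGroup.eq_one_iff _).2 (h3 x)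
  have h3 : ∀ i, ∀ x ∈ Subgroup.upperCentralSeries S i, x ^ p ^ (n * i) = 1 := by
    intro i
    induction i with
    | zero => simp
    | succ i ih => intro x hx; rw [mul_add, mul_one, add_comm, pow_add, pow_mul]; exact ih _ (h2 i x hx)
  have h4 : Subgroup.upperCentralSeries S (n * (p - 1) + 1) = ⊤ := by
    rw [← Subgroup.lowerCentralSeries_eq_bot_iff_upperCentralSeries_eq_top,
      ← Subgroup.map_eq_bot_iff_of_injective _ S.subtype_injective, Subgroup.top_subtype_lowerCentralSeries, hcl]
  refine Monoid.exponent_dvd_of_forall_pow_eq_one fun x => ?_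
  rw [← h3 _ x (h4.ge trivial)]; congr 2; ring

end Cfsg.Agent.S5219
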