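import Cfsg.Statements.S5220
import Cfsg.Agent.Fusion.WC
-- import your own Cfsg.Agent.* helpers here

set_option autoImplicit false
open Cfsg

namespace Cfsg.Agent.S5220

open Cfsg.Agent.Fusion


/-- Let F be a saturated fusion system over a nontrivial finite p-group S, let J(S) be the subgroup generated by the abelian subgroups of S of largest order, and let V be the subgroup generated by the p-th powers of the elements of Z(S). Then F is generated by the centralizer fusion system of V and the normalizer fusion system of J(S): every fusion system over S containing the maps of both contains every map of F. -/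
theorem result {Ω : Type*} [Group Ω] {S : Subgroup Ω} [Finite S] (p : ℕ) [Fact p.Prime] (hS : IsPGroup p S) (F : Cfsg.FusionSystem S) (hF : F.IsSaturated p) (hS1 : S ≠ ⊥) (C : Cfsg.FusionSystem (Cfsg.FusionSystem.centralizerIn S (Cfsg.powerClosure p 1 (S ⊓ Subgroup.centralizer (S : Set Ω))))) (hC : F.IsCentralizerSystem (Cfsg.powerClosure p 1 (S ⊓ Subgroup.centralizer (S : Set Ω))) C) (N : Cfsg.FusionSystem (Cfsg.FusionSystem.normalizerIn S (Cfsg.thompsonSubgroupAOf S))) (hN : F.IsNormalizerSystem (Cfsg.thompsonSubgroupAOf S) N) (E : Cfsg.FusionSystem S) (hCE : C.IsSubsystemOf E) (hNE : N.IsSubsystemOf E) : F.IsSubsystemOf E := by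
  obtain ⟨G, _, _, ι, F', r, hr⟩ := exists_rich_rep F
  have hr' := r.rich hr
  have hF' := r.sat hS hF
  obtain ⟨E', s⟩ := exists_rep r.inj hr.full E le_rfl
  have h1 := (s.le_iff_sub (r.crep hC)).1 hCE
  have h2 := (s.le_iff_sub (r.nrep hN)).1 hNE
  rw [im_powerClosure inf_le_left, r.im_Z] at h1
  rw [im_jA r.inj le_rfl, ← r.S_eq] at h2
  exact (s.le_iff_sub r).2 (hF'.le_of_ql hr' conjFunctor_jn (fun P _ => center_le_jn P) ql_jn h1 h2)

end Cfsg.Agent.S5220
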