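import Cfsg.Statements.S5221
import Cfsg.Agent.Fusion.QdF
-- import your own Cfsg.Agent.* helpers here

set_option autoImplicit false
open Cfsg

namespace Cfsg.Agent.S5221

open Cfsg.Agent.Fusion


/-- Let F be a sparse fusion system over a finite p-group S: a saturated fusion system, not the inner fusion system of S, whose only saturated fusion systems over S contained in it are F itself and the inner one. If p is odd, or F is S₄-free (the symmetric group of degree 4 is not involved in any model of the normalizer system of a fully normalized F-centric subgroup), then F is constrained. -/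
theorem result {Ω : Type*} [Group Ω] {S : Subgroup Ω} [Finite S] (p : ℕ) [Fact p.Prime] (hS : IsPGroup p S) (F : Cfsg.FusionSystem S) (hF : F.IsSaturated p) (hsp : ¬ (∀ P : Subgroup Ω, F.Hom P = (Cfsg.innerFusionSystem S).Hom P) ∧ ∀ E : Cfsg.FusionSystem S, E.IsSaturated p → E.IsSubsystemOf F → (∀ P : Subgroup Ω, E.Hom P = F.Hom P) ∨ (∀ P : Subgroup Ω, E.Hom P = (Cfsg.innerFusionSystem S).Hom P)) (hp : p ≠ 2 ∨ F.IsSectionFree p (Equiv.Perm (Fin 4))) : F.IsConstrained p := by
  obtain ⟨G, _, _, ι, F', r, hr⟩ := exists_rich_rep F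
  have hr' := r.rich hr
  have hF' := r.sat hS hF
  refine (r.con_iff hS).2 (hF'.con_of_sparse hr' (hp.imp_right (r.free_iff hr').1)
    (fun h => hsp.1 ((r.pa_iff hF').2 h)) fun D h1 h2 h3 => ?_)
  obtain ⟨E, s⟩ := exists_rep' r.inj le_rfl D (h2.trans r.S_eq)
  refine (s.pa_iff h3).1 ((hsp.2 E (s.sat_of h3) ((r.le_iff_sub s).2 h1.le)).resolve_left fun h => ?_)
  exact h1.ne ((r.eq_iff s).1 h)

end Cfsg.Agent.S5221
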