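import Cfsg.Statements.S5222
import Cfsg.Agent.Fusion.PInd2
-- import your own Cfsg.Agent.* helpers here

set_option autoImplicit false
open Cfsg

namespace Cfsg.Agent.S5222

open Cfsg.Agent.Fusion


/-- Let F be a saturated fusion system over a finite p-group S whose normalizer fusion system of S is the inner fusion system of S (Aut_F(S) is a p-group). Then for every subgroup Q of S with [S, S] ≤ Q ≤ Φ(S), the normalizer fusion system of Q in F is the inner fusion system of N_S(Q) = S. -/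
theorem result {Ω : Type*} [Group Ω] {S : Subgroup Ω} [Finite S] (p : ℕ) [Fact p.Prime] (hS : IsPGroup p S) (F : Cfsg.FusionSystem S) (hF : F.IsSaturated p) (hN : ∀ N : Cfsg.FusionSystem (Cfsg.FusionSystem.normalizerIn S S), F.IsNormalizerSystem S N → ∀ P : Subgroup Ω, N.Hom P = (Cfsg.innerFusionSystem (Cfsg.FusionSystem.normalizerIn S S)).Hom P) (Q : Subgroup Ω) (h1 : (commutator ↥S).map S.subtype ≤ Q) (h2 : Q ≤ (frattini ↥S).map S.subtype) : ∀ N : Cfsg.FusionSystem (Cfsg.FusionSystem.normalizerIn S Q), F.IsNormalizerSystem Q N → ∀ P : Subgroup Ω, N.Hom P = (Cfsg.innerFusionSystem (Cfsg.FusionSystem.normalizerIn S Q)).Hom P := by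
  obtain ⟨G, _, _, ι, F', r, -⟩ := exists_rich_rep F
  have hF' := r.sat hS hF
  have hQ := h2.trans (Subgroup.map_subtype_le (frattini S))
  rw [Subgroup.map_subtype_commutator] at h1
  have h3 : ⁅F'.S, F'.S⁆ ≤ im ι Q := r.im_comm ▸ im_mono ι h1
  have h4 : F'.S ≤ nz (im ι Q) := le_nz_iff.2 fun s hs x hx =>
    mem_of_eq (mul_mem hx (h3 (comm_mem (r.im_le hQ hx) hs))) (by group)
  have h5 := (r.pa_NF_iff hF' le_rfl (r.S_eq ▸ le_nz _)).1 hN
  rw [← r.S_eq] at h5
  have hD := hF'.NF (FS.FN.of_normal (r.im_le hQ) h4)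
  have e := FS.NF_S_of_normal h4
  refine (r.pa_NF_iff hF' hQ h4).2 (hD.pa_iff.2 (hD.isinn_of_sc ?_ (FS.NF_nor (r.im_le hQ)).sc
    (e.symm ▸ h3) ?_))
  · rw [e]; exact h5.pmod_S.mono (FS.aut_mono (F'.normK_le _ _) _) le_rfl
  · rw [e, r.S_eq, ← im_phi r.inj le_rfl hS]; exact im_mono ι h2

end Cfsg.Agent.S5222
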