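import Cfsg.Statements.S5224
import Cfsg.Agent.Fusion.Tate
-- import your own Cfsg.Agent.* helpers here

set_option autoImplicit false
open Cfsg

namespace Cfsg.Agent.S5224

open Cfsg.Agent.Fusion


/-- Tate's Theorem for fusion systems. Let F be a saturated fusion system over a finite p-group S and H a saturated fusion system over S contained in F. Then the following are equivalent: the elementary focal subgroups Φ(S)·foc agree for F and H; the focal subgroups of F and H agree; the hyperfocal subgroups of F and H agree. -/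
theorem result {Ω : Type*} [Group Ω] {S : Subgroup Ω} [Finite S] (p : ℕ) [Fact p.Prime] (hS : IsPGroup p S) (F : Cfsg.FusionSystem S) (hF : F.IsSaturated p) (H : Cfsg.FusionSystem S) (hH : H.IsSaturated p) (hHF : H.IsSubsystemOf F) : (((frattini ↥S).map S.subtype ⊔ F.focalSubgroup) = ((frattini ↥S).map S.subtype ⊔ H.focalSubgroup) ↔ F.focalSubgroup = H.focalSubgroup) ∧ (F.focalSubgroup = H.focalSubgroup ↔ F.hyperfocalSubgroup p = H.hyperfocalSubgroup p) := by
  obtain ⟨G, _, _, ι, F', r, -⟩ := exists_rich_rep F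
  obtain ⟨E', s⟩ := r.exists_sub hHF
  have hF' := r.sat hS hF
  have hE' := s.sat hS hH
  have e := s.S_eq.trans r.S_eq.symm
  have k1 : phi S ⊔ F.focalSubgroup = phi S ⊔ H.focalSubgroup →
      F.hyperfocalSubgroup p = H.hyperfocalSubgroup p := fun h => by
    rw [← im_inj r.inj (hyperfocal_le F p) (hyperfocal_le H p), r.im_hyp, s.im_hyp]
    refine hF'.tate hE' ((r.le_iff_sub s).1 hHF) e ?_
    rw [r.S_eq, ← im_phi r.inj le_rfl hS, ← r.im_foc, ← s.im_foc, ← im_sup ι (Subgroup.map_subtype_le (frattini S)) (focal_le H)]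
    exact im_mono ι (h ▸ le_sup_right)
  have k2 : F.hyperfocalSubgroup p = H.hyperfocalSubgroup p → F.focalSubgroup = H.focalSubgroup :=
    fun h => by
      rw [← im_inj r.inj (focal_le F) (focal_le H), r.im_foc, s.im_foc, hF'.foc_eq, hE'.foc_eq, e,
        ← r.im_hyp, ← s.im_hyp, h]
  exact ⟨⟨fun h => k2 (k1 h), fun h => by rw [h]⟩, fun h => k1 (by rw [h]), k2⟩

end Cfsg.Agent.S5224
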