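import Cfsg.Statements.S5225
import Cfsg.Agent.Fusion.Tate
-- import your own Cfsg.Agent.* helpers here

set_option autoImplicit false
open Cfsg

namespace Cfsg.Agent.S5225

open Cfsg.Agent.Fusion


/-- Yoshida's Theorem for fusion systems. Let F be a saturated fusion system over a finite p-group S and N the normalizer fusion system of S in F. If the focal subgroups of F and N differ (N does not control transfer in F), then S has a quotient isomorphic to the wreath product C_p ≀ C_p (realised as a Sylow p-subgroup of the symmetric group of degree p²). -/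
theorem result {Ω : Type*} [Group Ω] {S : Subgroup Ω} [Finite S] (p : ℕ) [Fact p.Prime] (hS : IsPGroup p S) (F : Cfsg.FusionSystem S) (hF : F.IsSaturated p) (N : Cfsg.FusionSystem (Cfsg.FusionSystem.normalizerIn S S)) (hN : F.IsNormalizerSystem S N) (hne : N.focalSubgroup ≠ F.focalSubgroup) : ∃ (W : Sylow p (Equiv.Perm (Fin (p ^ 2)))) (f : ↥S →* ↥(W : Subgroup (Equiv.Perm (Fin (p ^ 2))))), Function.Surjective f := by
  obtain ⟨G, _, _, ι, F', r, -⟩ := exists_rich_rep F
  have s := r.nrep hN
  rw [← r.S_eq] at s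
  obtain ⟨W, f, hf⟩ := (r.sat hS hF).yoshida fun e => hne ((im_inj r.inj
    ((focal_le N).trans s.le) (focal_le F)).1 (by rw [r.im_foc, s.im_foc, e]))
  refine ⟨W, f.comp (r.toSub le_rfl), hf.comp fun y => ?_⟩
  obtain ⟨x, hx, e⟩ := r.lift_mem y.2
  exact ⟨⟨x, hx⟩, Subtype.ext ((r.toSub_apply le_rfl ⟨x, hx⟩).trans e)⟩

end Cfsg.Agent.S5225
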