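import Mathlib
import Cfsg.Statements.S5233
import Cfsg.Agent.Inv.Ess5

set_option autoImplicit false
open Cfsg

namespace Cfsg.Agent.S5233

open Fusion Inv.Es

theorem exists_small {G : Type*} [Group G] [Finite G] (X : Subgroup G) :
    ∃ (E : Type) (_ : Group E), Nonempty (X ≃* E) := ⟨Shrink.{0} X, inferInstance, ⟨Shrink.mulEquiv.symm⟩⟩

theorem exists_small_comm {G : Type*} [Group G] [Finite G] {X : Subgroup G} {p : ℕ} (h : IsElementaryAbelian p X) :
    ∃ (E : Type) (_ : CommGroup E), (∀ a : E, a ^ p = 1) ∧ Nonempty (X ≃* E) := by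
  obtain ⟨E, _, ⟨e⟩⟩ := exists_small X
  exact ⟨E, { (inferInstance : Group E) with mul_comm := (comm_of_equiv e.symm h.1).1.1 }, fun a => e.symm.injective
    (by rw [map_pow, map_one]; exact Subtype.ext (h.2 _ (e.symm a).2)), ⟨e⟩⟩

/-- Let F be a saturated fusion system over a finite p-group S and P a subgroup of S strongly closed in F that is generalized extraspecial (its Frattini subgroup equals its commutator subgroup and has order p) and not isomorphic to E × A with A elementary abelian and E dihedral of order 8 (p = 2) or extraspecial of order p³ and exponent p (p odd). Then P is normal in F. -/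
theorem result {Ω : Type*} [Group Ω] {S : Subgroup Ω} [Finite S] (p : ℕ) [Fact p.Prime] (hS : IsPGroup p S) (F : Cfsg.FusionSystem S) (hF : F.IsSaturated p) (P : Subgroup Ω) (hP : F.StronglyClosed P) (hge : frattini ↥P = commutator ↥P ∧ Nat.card ↥(commutator ↥P) = p) (h2 : p = 2 → ¬ ∃ (A : Type) (_ : CommGroup A), (∀ a : A, a ^ 2 = 1) ∧ Nonempty (↥P ≃* DihedralGroup 4 × A)) (hodd : p ≠ 2 → ¬ ∃ (E : Type) (_ : Group E) (A : Type) (_ : CommGroup A), Cfsg.IsExtraspecial p E ∧ Nat.card E = p ^ 3 ∧ Monoid.exponent E = p ∧ (∀ a : A, a ^ p = 1) ∧ Nonempty (↥P ≃* E × A)) : F.IsNormal P := by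
  obtain ⟨G, _, _, ι, F', r, -⟩ := Fusion.exists_rich_rep F
  have hPS : P ≤ S := hP.1
  have e := eta r.inj hPS
  have hL : Nat.card (Ph (im ι P)) = p := by
    rw [Subgroup.card_map_of_injective (Subgroup.subtype_injective _), ← map_frattini_equiv e,
      Subgroup.card_map_of_injective e.injective, hge.1, hge.2]
  refine (r.nor_iff hPS).2 (nor_of_rs (r.sat hS hF) ((r.sc_iff hPS).1 hP) fun E h => by_contra fun hn => ?_)
  obtain ⟨X, A, ⟨f⟩, h1, h3, h4, h5, h6⟩ := h.ge_prod hn hL
  obtain ⟨A', _, a1, ⟨a2⟩⟩ := exists_small_comm h1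
  by_cases hp : p = 2
  · obtain ⟨g⟩ := h6 hp
    exact h2 hp ⟨A', _, hp ▸ a1, ⟨(e.trans f).trans (g.prodCongr a2)⟩⟩
  · obtain ⟨X', _, ⟨g⟩⟩ := exists_small X
    refine hodd hp ⟨X', _, A', _, PGrp.isExtraspecial_of_equiv g h4, (Nat.card_congr g.symm.toEquiv).trans h3, ?_, a1,
      ⟨(e.trans f).trans (g.prodCongr a2)⟩⟩
    rw [← Monoid.exponent_eq_of_mulEquiv g]
    refine exponent_eq_prime (h5 hp) fun h0 => ?_
    rw [h0, Subgroup.card_bot] at h3
    exact (Nat.one_lt_pow (by omega) (Fact.out : p.Prime).one_lt).ne h3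

end Cfsg.Agent.S5233
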