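import Cfsg.Statements.S5236
import Cfsg.Agent.Fusion.Small2
-- import your own Cfsg.Agent.* helpers here

set_option autoImplicit false
open Cfsg

namespace Cfsg.Agent.S5236

open Cfsg.Agent.Fusion


/-- Let p be an odd prime, F a saturated fusion system over a finite p-group S and P a subgroup of S strongly closed in F. Then P is normal in F if and only if Ω₁(P) (the subgroup generated by the elements of order p of P) has a chain of subgroups 1 = Q₀ ≤ Q₁ ≤ ⋯ ≤ Qₙ = Ω₁(P), each strongly closed in F, with [Qᵢ₊₁, P] ≤ Qᵢ for all i. -/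
theorem result {Ω : Type*} [Group Ω] {S : Subgroup Ω} [Finite S] (p : ℕ) [Fact p.Prime] (hS : IsPGroup p S) (F : Cfsg.FusionSystem S) (hF : F.IsSaturated p) (hp : p ≠ 2) (P : Subgroup Ω) (hP : F.StronglyClosed P) : F.IsNormal P ↔ ∃ (n : ℕ) (Q : Fin (n + 1) → Subgroup Ω), Q 0 = ⊥ ∧ Q (Fin.last n) = Cfsg.omegaOne p P ∧ Monotone Q ∧ (∀ i : Fin (n + 1), F.StronglyClosed (Q i)) ∧ ∀ i : Fin n, ⁅Q i.succ, P⁆ ≤ Q i.castSucc := by
  obtain ⟨G, _, _, ι, F', r, -⟩ := exists_rich_rep F
  have hF' := r.sat hS hF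
  have hPS : P ≤ S := hP.1
  have hW : omegaOne p P ≤ P := (Subgroup.closure_le _).2 fun x hx => hx.1
  have e : im ι (omegaOne p P) = omegaOne p (im ι P) := by
    rw [omegaOne, im_closure ι fun x hx => hPS hx.1, omegaOne]
    congr 1
    ext y
    constructor
    · rintro ⟨x, hx, rfl⟩
      exact ⟨fn_mem_im ι hx.1, (fn_pow_eq_one r.inj (hPS hx.1) p).2 hx.2⟩
    · rintro ⟨h1, h2⟩
      obtain ⟨x, hx, rfl⟩ := (mem_im hPS).1 h1
      exact ⟨x, ⟨hx, (fn_pow_eq_one r.inj (hPS hx) p).1 h2⟩, rfl⟩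
  rw [r.nor_iff hPS]
  constructor
  · intro h
    obtain ⟨n, c, c0, c1, c2, c3, c4⟩ := exists_char_central_series (hF'.pg_le h.1)
    have w1 : nz (im ι P) ≤ nz (omegaOne p (im ι P)) := fun a ha => mem_nz_of_le (by
      rw [omegaOne, cj_closure]
      refine Subgroup.closure_mono ?_
      rintro _ ⟨y, hy, rfl⟩
      exact ⟨conj_mem_of_nz ha hy.1, by simp [conj_pow, hy.2]⟩)
    have w2 : ∀ i, im ι (omegaOne p P ⊓ pre ι (c i)) = omegaOne p (im ι P) ⊓ c i := fun i => by
      rw [im_inf r.inj, e, im_pre ι ((c3 i).1.trans (im_le_range _ _))]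
    have w3 : ∀ i, omegaOne p P ⊓ pre ι (c i) ≤ S := fun i => inf_le_left.trans (hW.trans hPS)
    refine ⟨n, fun i => omegaOne p P ⊓ pre ι (c i), ?_, ?_,
      fun i j hij => inf_le_inf_left _ (pre_mono ι (c2 hij)), fun i => ?_, fun i => ?_⟩
    · rw [← im_eq_bot r.inj (w3 0), w2, c0, inf_bot_eq]
    · simp only
      rw [c1, pre_im r.inj hPS, inf_eq_left.2 hW]
    · rw [r.sc_iff (w3 i), w2]
      exact (h.of_char (inf_le_right.trans (c3 i).1) fun a ha => mem_nz_inf (w1 ha) ((c3 i).2 ha)).sc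
    · rw [← im_le_im r.inj ((Subgroup.commutator_mono (w3 _) hPS).trans
        (comm_le_left (le_nz S))), im_commutator ι (w3 _) hPS, w2, w2]
      exact le_inf ((Subgroup.commutator_mono inf_le_left le_rfl).trans
        (comm_le_left ((le_nz _).trans w1))) ((Subgroup.commutator_mono inf_le_right le_rfl).trans
          (c4 i))
  · rintro ⟨n, Q, h0, h1, h2, h3, h4⟩
    have h5 : ∀ i, Q i ≤ S := fun i => (h3 i).1
    refine hF'.nor_of_omega hp ((r.sc_iff hPS).1 hP)
      (fun i => im ι (Q ⟨min i n, by omega⟩)) ?_ (n := n) (fun x h6 h7 => ?_)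
      (fun i => (r.sc_iff (h5 _)).1 (h3 _)) fun i => ?_
    · simp only [Nat.zero_le, min_eq_left]
      rw [im_eq_bot r.inj (h5 _)]; exact h0
    · simp only [min_self]
      rw [show Q ⟨n, _⟩ = _ from h1, e]
      exact Subgroup.subset_closure ⟨h6, h7⟩
    · rw [← im_commutator ι (h5 _) hPS]
      refine im_mono ι ?_
      by_cases hi : i < n
      · have := h4 ⟨i, hi⟩
        simpa [Fin.succ, Fin.castSucc, Fin.castAdd, Fin.castLE, min_eq_left hi.le,
          min_eq_left (Nat.succ_le_of_lt hi)] using this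
      · simp only [min_eq_right (not_lt.1 hi), min_eq_right ((not_lt.1 hi).trans (Nat.le_succ i))]
        refine comm_le_left ?_
        rw [← im_le_nz_iff r.inj hPS (h5 _)]
        exact (r.im_le hPS).trans ((r.sc_iff (h5 _)).1 (h3 _)).S_le_nz

end Cfsg.Agent.S5236
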