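import Cfsg.Statements.S5243
import Cfsg.Agent.Fusion.PQI2
import Cfsg.Agent.Fusion.Br3
-- import your own Cfsg.Agent.* helpers here

set_option autoImplicit false
open Cfsg

namespace Cfsg.Agent.S5243

open Cfsg.Agent.Fusion


/-- Let F be a saturated fusion system over a finite p-group S, E a normal subsystem of F over T ≤ S, and χ a surjective homomorphism from Aut_F(T) onto a nontrivial finite group Δ of order prime to p whose kernel contains Aut_E(T). Then there is a proper normal subsystem F₀ of F over S containing E such that Aut_{F₀}(S) consists of those α ∈ Aut_F(S) whose restriction to T is an element of Aut_F(T) in the kernel of χ; moreover every p'-residual subsystem O^{p'}(F) of F is contained in F₀. -/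
theorem result {Ω : Type*} [Group Ω] {S : Subgroup Ω} [Finite S] (p : ℕ) [Fact p.Prime] (hS : IsPGroup p S) (F : Cfsg.FusionSystem S) (hF : F.IsSaturated p) {T : Subgroup Ω} (hTS : T ≤ S) (E : Cfsg.FusionSystem T) (hE : E.IsNormalIn F p) {Δ : Type*} [Group Δ] [Finite Δ] [Nontrivial Δ] (hΔ : (Nat.card Δ).Coprime p) (χ : ↥(F.autGroup T) →* Δ) (hχ : Function.Surjective χ) (hker : (E.autGroup T).subgroupOf (F.autGroup T) ≤ χ.ker) : ∃ F₀ : Cfsg.FusionSystem S, F₀.IsNormalIn F p ∧ ¬ (∀ P : Subgroup Ω, F₀.Hom P = F.Hom P) ∧ E.IsSubsystemOf F₀ ∧ (∀ α : MulAut ↥S, α ∈ F₀.autGroup S ↔ α ∈ F.autGroup S ∧ ∃ β : ↥(F.autGroup T), χ β = 1 ∧ ∀ t : ↥T, (((β : MulAut ↥T) t : ↥T) : Ω) = ((α ⟨(t : Ω), hTS t.2⟩ : ↥S) : Ω)) ∧ ∀ R : Cfsg.FusionSystem S, F.IsPPrimeResidual p R → R.IsSubsystemOf F₀ := by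
  obtain ⟨G, _, _, ι, F', r, -⟩ := exists_rich_rep F
  have hF' := r.sat hS hF
  obtain ⟨E', s⟩ := r.exists_sub hE.1.2.2.1
  have h := (r.norIn_iff s hS).1 hE
  have eT := s.S_eq
  have eA := r.autGroup_eq hTS
  have hB : χ.ker.map (F.autGroup T).subtype ≤ dn (eta r.inj hTS) (F'.aut (im ι T)) :=
    eA ▸ Subgroup.map_subtype_le _
  have k1 := dn_up _ hB
  have k2 := cz_le_up (eta r.inj hTS) (χ.ker.map (F.autGroup T).subtype)
  have k3 := up_le_of _ hB (F'.cz_le_aut _)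
  have k4 : ∀ g, g ∈ up (eta r.inj hTS) (χ.ker.map (F.autGroup T).subtype) ↔
      ∃ β : F.autGroup T, χ β = 1 ∧ ∀ t : T, fn ι ((β : MulAut T) t) = g * fn ι t * g⁻¹ := fun g =>
    ⟨fun hg => by
      obtain ⟨α, h1, h2⟩ := exists_mem_dn (eta r.inj hTS) hg (up_le_nz _ _ hg)
      obtain ⟨β, h3, rfl⟩ := k1 ▸ h1
      exact ⟨β, h3, by simpa using h2⟩, fun ⟨β, h1, h2⟩ => mem_of_mem_dn k2
        (k1.symm ▸ Subgroup.mem_map_of_mem _ h1) (by simpa using h2)⟩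
  generalize up (eta r.inj hTS) (χ.ker.map (F.autGroup T).subtype) = K at k1 k2 k3 k4
  have k5 : F'.aut (im ι T) ≤ nz K := by
    rw [← le_nz_dn_iff (eta r.inj hTS) k2 (F'.aut_le_nz _) (k3.trans (F'.aut_le_nz _)), k1, ← eA]
    simpa only [map_top_subtype] using map_le_nz (f := (F.autGroup T).subtype)
      (le_nz_of_normal ⊤ χ.ker)
  have k6 : K.relIndex (F'.aut (im ι T)) = Nat.card Δ := by
    rw [← relIndex_dn (eta r.inj hTS) k2 (F'.aut_le_nz _), k1, ← eA, Subgroup.relIndex,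
      Subgroup.subgroupOf, Subgroup.comap_map_eq_self_of_injective (Subgroup.subtype_injective _),
      Subgroup.index_ker, MonoidHom.range_eq_top.2 hχ, Subgroup.card_top]
  have k7 : pres' p (F'.aut (im ι T)) ≤ K := pres'_le_of_nd k5
    (k6 ▸ (Nat.Prime.coprime_iff_not_dvd Fact.out).1 hΔ.symm)
  have hsc := eT ▸ h.wn.invt.sc
  obtain ⟨D', d1, d2, d3, d4⟩ := h.wn.invt.exists_pqi hF' h.wn.satE (K := K) (by
      rw [eT, ← dn_le_iff (eta r.inj hTS) (E'.aut_le_nz _) k2, k1, ← s.autGroup_eq hTS]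
      exact fun α hα => ⟨⟨α, eA ▸ dn_mono _ (FS.aut_mono h.wn.invt.le _) (s.autGroup_eq hTS ▸ hα)⟩,
        hker hα, rfl⟩) (eT ▸ k3) (eT ▸ k5) ((le_pres'_of_pg (fun x hx => FS.mem_aut_of
          (F'.inner hsc.1 hx) (hsc.S_le_nz hx)) hF'.pg).trans k7)
  rw [eT] at d4
  obtain ⟨D, t⟩ := exists_rep' r.inj le_rfl D' (d2.trans r.S_eq)
  refine ⟨D, r.norIn_of t d1, fun e => ?_, (t.le_iff_sub s).2 d3, fun α => ?_, fun R hR => ?_⟩
  · obtain rfl := (r.eq_iff t).1 e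
    have := Subgroup.relIndex_eq_one.2 fun g hg => (d4 _ g le_rfl (FS.M_of_aut hsc.1 hg)).1
      (FS.M_of_aut hsc.1 hg)
    exact Finite.one_lt_card.ne' (k6 ▸ this)
  · rw [t.mem_autGroup_iff le_rfl, r.mem_autGroup_iff le_rfl, ← r.S_eq]
    refine ⟨fun ⟨g, h1, h2⟩ => ?_, fun ⟨⟨g, h1, h2⟩, β, h3, h4⟩ => ?_⟩
    · have h3 := FS.aut_mono d1.wn.invt.le _ h1
      obtain ⟨β, h4, h5⟩ := (k4 g).1 ((d4 _ g hsc.1 (FS.mem_aut_S.1 h3)).1 (FS.M_of_aut d2.ge h1))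
      exact ⟨⟨g, h3, h2⟩, β, h4, fun x => (fn_inj r.inj (hTS (Subtype.prop _)) (Subtype.prop _)).1
        ((h5 x).trans (h2 ⟨x, hTS x.2⟩).symm)⟩
    · exact ⟨g, FS.mem_aut_of ((d4 _ g hsc.1 (FS.mem_aut_S.1 h1)).2 ((k4 g).2 ⟨β, h3, fun x =>
        (h4 x).symm ▸ h2 ⟨x, hTS x.2⟩⟩)) (F'.aut_le_nz _ h1), h2⟩
  · obtain ⟨R', u⟩ := r.exists_sub hR.2.1.1
    exact (t.le_iff_sub u).2 (((r.qres_iff u hS).1 hR).le_of_invt hF' d1.wn.satE d1.wn.invt d2)

end Cfsg.Agent.S5243
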