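import Mathlib
import Cfsg.Statements.S5244
import Cfsg.Agent.Inv.Ess7

set_option autoImplicit false
open Cfsg

namespace Cfsg.Agent.S5244

open Fusion Inv.Es

/-- Let p be an odd prime, S a finite nonabelian p-group with a unique abelian subgroup A of index p, and F a saturated fusion system over S with no nontrivial normal subgroup (O_p(F) = 1) in which A is not F-essential. Then some subgroup Z(S)⟨x⟩ with x ∈ S outside A is F-essential, the centre Z(S) is contained in the commutator subgroup of S, and S has maximal nilpotency class (if S has order pⁿ with n ≥ 3, the term of index n − 2 of its lower central series, counting S itself as the term of index 0, is nontrivial). -/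
theorem result {Ω : Type*} [Group Ω] {S : Subgroup Ω} [Finite S] (p : ℕ) [Fact p.Prime] (hS : IsPGroup p S) (F : Cfsg.FusionSystem S) (hF : F.IsSaturated p) (hp : p ≠ 2) (hna : ¬ IsMulCommutative ↥S) (A : Subgroup Ω) (hA : A ≤ S ∧ IsMulCommutative ↥A ∧ (A.subgroupOf S).index = p) (huniq : ∀ B : Subgroup Ω, B ≤ S → IsMulCommutative ↥B → (B.subgroupOf S).index = p → B = A) (hcore : F.core = ⊥) (hAe : ¬ F.IsEssential p A) : (∃ x ∈ S, x ∉ A ∧ F.IsEssential p ((S ⊓ Subgroup.centralizer (S : Set Ω)) ⊔ Subgroup.zpowers x)) ∧ (S ⊓ Subgroup.centralizer (S : Set Ω)) ≤ (commutator ↥S).map S.subtype ∧ ∀ n : ℕ, Nat.card S = p ^ n → 3 ≤ n → Subgroup.lowerCentralSeries S (n - 2) ≠ ⊥ := by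
  obtain ⟨G, _, _, ι, F', r, -⟩ := Fusion.exists_rich_rep F
  obtain ⟨h, hu⟩ := ap_of_rep r hS hna hA huniq
  obtain ⟨⟨x, h1, h2, h3⟩, h4, h5⟩ := ap_main (r.sat hS hF) hp h hu (r.core_eq_bot_iff.1 hcore)
    (mt (r.ess_iff hA.1).2 hAe)
  obtain ⟨x, hx, rfl⟩ := r.lift_mem h1
  have hx' := Subgroup.zpowers_le.2 hx
  refine ⟨⟨x, hx, mt (fn_mem_im ι) h2, ?_⟩, ?_, fun n hn h6 h7 => h5 n ?_ h6 ?_⟩
  · rwa [Zc, ← r.im_Z, ← im_zpowers ι hx, ← im_sup ι inf_le_left hx', ← r.ess_iff (sup_le inf_le_left hx')] at h3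
  · rwa [Zc, ← r.im_Z, ← r.im_comm, im_le_im r.inj inf_le_left, ← PGrp.map_commutator_subtype] at h4
  · rw [r.S_eq, card_im r.inj le_rfl, hn]
  · rw [r.S_eq, ← im_lcs ι le_rfl, h7, im_bot]

end Cfsg.Agent.S5244
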