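import Cfsg.Statements.S5245
import Cfsg.Agent.Fusion.Small2
-- import your own Cfsg.Agent.* helpers here

set_option autoImplicit false
open Cfsg

namespace Cfsg.Agent.S5245

open Cfsg.Agent.Fusion


/-- Let F be an extremely sparse fusion system over a finite p-group S (saturated, not the inner system, and every saturated fusion system over any subgroup T of S contained in F is F itself or the inner system of T). Then S is normal in F, the focal and hyperfocal subgroups of F are both S, and Aut_F(S) is generated by the inner automorphisms of S together with a single automorphism of prime order q ≠ p (F is the fusion system of the semidirect product of S by a cyclic group of prime order). -/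
theorem result {Ω : Type*} [Group Ω] {S : Subgroup Ω} [Finite S] (p : ℕ) [Fact p.Prime] (hS : IsPGroup p S) (F : Cfsg.FusionSystem S) (hF : F.IsSaturated p) (hxs : ¬ (∀ P : Subgroup Ω, F.Hom P = (Cfsg.innerFusionSystem S).Hom P) ∧ ∀ (T : Subgroup Ω) (E : Cfsg.FusionSystem T), E.IsSaturated p → E.IsSubsystemOf F → (T = S ∧ ∀ P : Subgroup Ω, E.Hom P = F.Hom P) ∨ (∀ P : Subgroup Ω, E.Hom P = (Cfsg.innerFusionSystem T).Hom P)) : F.IsNormal S ∧ F.focalSubgroup = S ∧ F.hyperfocalSubgroup p = S ∧ ∃ (q : ℕ) (β : MulAut ↥S), q.Prime ∧ q ≠ p ∧ β ∈ F.autGroup S ∧ orderOf β = q ∧ (F.autGroup S : Subgroup (MulAut ↥S)) = Cfsg.Inn ↥S ⊔ Subgroup.zpowers β := by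
  obtain ⟨G, _, _, ι, F', r, -⟩ := exists_rich_rep F
  have hF' := r.sat hS hF
  have hn : ¬ F'.PA p := fun h => hxs.1 ((r.pa_iff hF').2 h)
  have key : ∀ E', E' ≤ F' → E'.Sat p → E' = F' ∨ E'.PA p := fun E' h1 h2 => by
    obtain ⟨T, -, E, s⟩ := r.exists_sub' h1
    exact (hxs.2 T E (s.sat_of h2) ((r.le_iff_sub s).2 h1)).imp (fun h => (r.eq_iff s).1 h.2)
      (s.pa_iff h2).1
  have h1 : F'.hyp p = F'.S := by
    obtain ⟨E, hE⟩ := hF'.exists_pres
    rcases key E hE.2.2.1 hE.2.1 with h | h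
    · rw [← hE.1, h]
    · exact absurd (hF'.pa_iff.2 (hF'.isinn_of_hyp (by
        rw [← hE.2.2.hyp_eq hF', hE.2.1.pa_iff.1 h]; exact FS.hyp_inn hE.2.1.pg))) hn
  have h2 : ¬ IsPGroup p (F.autGroup S) := fun h => hF'.not_pmod_S hn key (by
    rw [r.S_eq]; exact (r.isPGroup_autGroup_iff le_rfl).1 h)
  haveI := finite_mulAut S
  obtain ⟨q, q1, q2, q3⟩ : ∃ q, q.Prime ∧ q ∣ Nat.card (F.autGroup S) ∧ q ≠ p := by
    by_contra hc
    push Not at hc
    exact h2 (IsPGroup.of_card (Nat.eq_prime_pow_of_unique_prime_dvd Nat.card_pos.ne'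
      fun a b => hc _ a b))
  haveI := Fact.mk q1
  obtain ⟨β, hβ⟩ := exists_prime_orderOf_dvd_card' q q2
  rw [← Subgroup.orderOf_coe] at hβ
  have e1 := r.autGroup_eq (le_refl S)
  have e2 := r.inn_eq (le_refl S)
  generalize eta r.inj (le_refl S) = η at e1 e2
  revert η
  rw [← r.S_eq]
  intro η e1 e2
  have a0 : Inn S ⊔ Subgroup.zpowers (β : MulAut S) ≤ dn η (F'.aut F'.S) := by
    refine sup_le ?_ (e1 ▸ Subgroup.zpowers_le.2 β.2)
    rw [e2]; exact dn_mono η (FS.aiS_le_aut le_rfl)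
  have a1 := dn_up η a0
  have a2 := up_le_of η a0 (F'.cz_le_aut _)
  generalize hK : up η (Inn S ⊔ Subgroup.zpowers (β : MulAut S)) = K at a1 a2
  have a3 : cz F'.S ≤ K := hK ▸ cz_le_up _ _
  have a4 : K ≤ nz F'.S := hK ▸ up_le_nz _ _
  have a5 : F'.S ≤ K := (le_ai_self _).trans ((dn_le_iff η (ai_le_nz _ _) a3).1 (by
    rw [a1, ← e2]; exact le_sup_left))
  have a6 := FS.normK_aut_of_le (F := F') le_rfl a4 (le_inf le_rfl a5) le_rfl a3
  rw [inf_eq_right.2 a2] at a6
  rcases key _ (FS.normK_le _ _ _) (hF'.normK (hF'.fk_of_normal F'.FN_S a3 a4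
    (inf_le_left.trans (a5.trans (le_nz _))))) with h | h
  · refine ⟨r.nor_S_iff.2 (h ▸ ?_), ?_, ?_, q, β, q1, q3, β.2, hβ, ?_⟩
    · simpa [inf_eq_left.2 a5] using FS.normK_nor (F := F') le_rfl a4 le_rfl a5 a4
    · rw [← r.imS_iff (focal_le F), r.im_foc, hF'.foc_eq_S h1]
    · rw [← r.imS_iff (hyperfocal_le F p), r.im_hyp, h1]
    · rw [← a1, ← a6, h]; exact e1
  · have := h F'.S (by simpa using a5)
    rw [a6, ← isPGroup_dn_iff η a4, a1] at this
    obtain ⟨k, hk⟩ := isPGroup_iff.1 this _ (Subgroup.mem_sup_right (Subgroup.mem_zpowers _))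
    have := eq_one_of_p_of_coprime hk (hβ ▸ (Nat.coprime_primes q1 Fact.out).2 q3)
    rw [this, orderOf_one] at hβ
    exact absurd hβ q1.one_lt.ne

end Cfsg.Agent.S5245
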