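import Cfsg.Statements.S5246
import Cfsg.Agent.Fusion.PSt
-- import your own Cfsg.Agent.* helpers here

set_option autoImplicit false
open Cfsg

namespace Cfsg.Agent.S5246

open Cfsg.Agent.Fusion


/-- Let p be an odd prime, G a finite group and P a Sylow p-subgroup. Call a fusion system F p-stable when, for every fully normalized subgroup Q and every χ ∈ Aut_F(Q) acting quadratically on Q (that is, χ fixes a⁻¹χ(a) for every a ∈ Q; equivalently χ(a⁻¹)·a·χ(a⁻¹)·χ(χ(a)) = 1), χ lies in O_p(Aut_F(Q)). Then G is p-stable in the normalizer form (for every p-subgroup Q and x ∈ N_G(Q) with [Q, x, x] = 1, the image of x lies in O_p(N_G(Q)/C_G(Q))) if and only if the fusion system of G on P is p-stable. -/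
theorem result {Ω : Type*} [Group Ω] [Finite Ω] {p : ℕ} [Fact p.Prime] (hp : p ≠ 2) (P : Sylow p Ω) : Cfsg.IsNormalizerPStable p Ω ↔ (∀ Q : Subgroup Ω, (Cfsg.groupFusionSystem (P : Subgroup Ω)).IsFullyNormalized Q → ∀ χ : MulAut ↥Q, χ ∈ (Cfsg.groupFusionSystem (P : Subgroup Ω)).autGroup Q → (∀ a : ↥Q, (χ a⁻¹) * a * (χ a⁻¹) * (χ (χ a)) = 1) → χ ∈ ((Cfsg.pCore p ↥((Cfsg.groupFusionSystem (P : Subgroup Ω)).autGroup Q)).map ((Cfsg.groupFusionSystem (P : Subgroup Ω)).autGroup Q).subtype : Subgroup (MulAut ↥Q))) := by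
  rw [(rep_group _).pst_iff, Glaub.stable_iff]
  refine ⟨fun h Q hQ g hg hq => ?_, fun h Q hQ g hg hq => ?_⟩
  · have h1 := FS.aut_le_nz _ _ hg
    obtain ⟨D, h2, h3, h4, h5⟩ := h Q (P.2.to_le hQ) g h1 ((quad_iff h1).1 hq)
    refine le_opm (X := D) (fun y hy => ?_) ((FS.aut_le_nz _ _).trans h3) (pmod_of_coprime
      fun y hy hc => h5 (LocalEven.mem_pResOf hy hc)) h4
    exact (FS.ofGroup_aut le_top hQ).ge (mem_ai_of_mem trivial (h2 hy))
  · obtain ⟨a, -, h1⟩ := (syl_top P).exists_conj_le le_top hQ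
    have e : (FS.ofGroup (P : Subgroup Ω) ⊤).aut (cj a Q) = cj a (nz Q) := by
      rw [FS.ofGroup_aut le_top h1, cj_nz, ai_eq, top_inf_eq, sup_eq_left.2 (cz_le_nz _)]
    have := h _ h1 _ (e ▸ conj_mem_cj_of hg) (((quad_iff hg).2 hq).cj a)
    rw [e, ← cj_cz, ← cj_opm, ← mem_cj_inv, cj_inv_cj] at this
    exact ⟨_, opm_le _ _, le_nz_opm (nz_le_nz_cz _), this, LocalEven.pResOf_le_iff.2
      fun y hy hc => (opm_pmod (nz_le_nz_cz _)).mem_of_coprime hy hc⟩

end Cfsg.Agent.S5246
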