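import Cfsg.Statements.S5247
import Cfsg.Agent.Fusion.PSt
-- import your own Cfsg.Agent.* helpers here

set_option autoImplicit false
open Cfsg

namespace Cfsg.Agent.S5247

open Cfsg.Agent.Fusion


/-- Let p be an odd prime and F a saturated fusion system over a finite p-group S. Call a fusion system E (over any subgroup) p-stable when, for every fully E-normalized subgroup Q and every χ ∈ Aut_E(Q) with χ(a⁻¹)·a·χ(a⁻¹)·χ(χ(a)) = 1 for all a ∈ Q (χ acts quadratically), χ lies in O_p(Aut_E(Q)). Then F is p-stable if and only if every normalizer fusion system N_F(R) of every non-cyclic fully F-normalized subgroup R of S is p-stable. -/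
theorem result {Ω : Type*} [Group Ω] {S : Subgroup Ω} [Finite S] (p : ℕ) [Fact p.Prime] (hS : IsPGroup p S) (F : Cfsg.FusionSystem S) (hF : F.IsSaturated p) (hp : p ≠ 2) : (∀ Q : Subgroup Ω, F.IsFullyNormalized Q → ∀ χ : MulAut ↥Q, χ ∈ F.autGroup Q → (∀ a : ↥Q, (χ a⁻¹) * a * (χ a⁻¹) * (χ (χ a)) = 1) → χ ∈ ((Cfsg.pCore p ↥(F.autGroup Q)).map (F.autGroup Q).subtype : Subgroup (MulAut ↥Q))) ↔ ∀ R : Subgroup Ω, F.IsFullyNormalized R → ¬ IsCyclic ↥R → ∀ N : Cfsg.FusionSystem (Cfsg.FusionSystem.normalizerIn S R), F.IsNormalizerSystem R N → (∀ Q : Subgroup Ω, N.IsFullyNormalized Q → ∀ χ : MulAut ↥Q, χ ∈ N.autGroup Q → (∀ a : ↥Q, (χ a⁻¹) * a * (χ a⁻¹) * (χ (χ a)) = 1) → χ ∈ ((Cfsg.pCore p ↥(N.autGroup Q)).map (N.autGroup Q).subtype : Subgroup (MulAut ↥Q))) := by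
  obtain ⟨G, _, _, ι, F', r, -⟩ := exists_rich_rep F
  rw [r.pst_iff]
  refine ⟨fun h R _ _ N hN => (r.nrep hN).pst_iff.2 (h.of_le (FS.normK_le _ _ _)),
    fun h => FS.pst_of_fn fun Q' hQ g hg hq => ?_⟩
  obtain ⟨Q, h1, rfl⟩ := r.lift hQ.1
  by_cases hc : IsCyclic Q
  · have h2 := F'.aut_le_nz _ hg
    refine le_opm (X := Subgroup.zpowers g ⊔ cz (im ι Q)) (sup_le (Subgroup.zpowers_le.2 hg)
      (F'.cz_le_aut _)) (fun a ha => ?_) ((hq.pmod h2 ((r.pg hS).to_le hQ.1)).sup_self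
        ((Subgroup.zpowers_le.2 h2).trans (nz_le_nz_cz _)))
      (Subgroup.mem_sup_left (Subgroup.mem_zpowers g))
    have h3 := F'.aut_le_nz _ ha
    haveI : IsCyclic (im ι Q) := isCyclic_of_surjective _ (eta r.inj h1).surjective
    refine mem_nz_of_le (by
      rw [cj_sup, cj_of_nz (nz_le_nz_cz _ h3), cj_zpowers]
      refine sup_le (Subgroup.zpowers_le.2 (mem_of_eq (mul_mem (Subgroup.mem_sup_left
        (Subgroup.mem_zpowers g)) (Subgroup.mem_sup_right (x := g⁻¹ * (a * g * a⁻¹)) ?_))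
        (by group))) le_sup_right
      have h4 : rho (MulEquiv.refl (im ι Q)) (⟨g, h2⟩⁻¹ * (⟨a, h3⟩ * ⟨g, h2⟩ * ⟨a, h3⟩⁻¹)) = 1 := by
        refine (IsCyclic.mulAutMulEquiv (im ι Q)).injective ?_
        simp only [map_mul, map_inv, map_one]
        rw [mul_inv_cancel_comm, inv_mul_cancel]
      rw [← MonoidHom.mem_ker, ker_rho] at h4
      exact h4)
  · obtain ⟨N, h2, s⟩ := r.exists_nrep h1
    have := s.pst_iff.1 (h Q ((r.fn_iff h1).2 hQ) hc N h2) _ (FS.NF_nor hQ.1).1 g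
    rw [FS.NF_aut hQ.1] at this
    exact this hg hq

end Cfsg.Agent.S5247
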