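import Cfsg.Statements.S5249
import Cfsg.Agent.Fusion.QdF
-- import your own Cfsg.Agent.* helpers here

set_option autoImplicit false
open Cfsg

namespace Cfsg.Agent.S5249

open Cfsg.Agent.Fusion


/-- Let p be an odd prime, G a finite group in which Qd(p) (the natural semidirect product of an elementary abelian group of order p² by SL₂(p)) is not involved, and P a Sylow p-subgroup of G. Then the fusion system of G on P is a solvable fusion system. -/
theorem result {G : Type*} [Group G] [Finite G] {p : ℕ} [Fact p.Prime] (hp : p ≠ 2) (hqd : ¬ Cfsg.Involves ↥(Cfsg.qd p) G) (P : Sylow p G) : (Cfsg.groupFusionSystem (P : Subgroup G)).IsSolvableSystem := by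
  obtain ⟨G', _, _, ι, F', r, hr⟩ := exists_rich_rep (groupFusionSystem (P : Subgroup G))
  have hr' := r.rich hr
  obtain ⟨θ, q, -⟩ := (rep_group (P : Subgroup G)).exists_quo r
  have hF' : F'.Sat p := q.sat (FS.ofGroup_sat (syl_top P))
  exact (r.solv_iff hF').2 (hF'.solv_of_free hr' hp (r.free_of_group P hr' hqd))

end Cfsg.Agent.S5249
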