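import Cfsg.Statements.S5251
import Cfsg.Agent.Fusion.Norm1
-- import your own Cfsg.Agent.* helpers here

set_option autoImplicit false
open Cfsg

namespace Cfsg.Agent.S5251

open Cfsg.Agent.Fusion


/-- Let F be a saturated fusion system over a finite p-group S, E a normal subsystem of F over T, and P an F-centric subgroup of S such that P ∩ T is not E-centric. Then some F-conjugate P* of P satisfies Out_S(P*) ∩ O_p(Out_F(P*)) ≠ 1: there is an element of N_S(P*) outside P* whose conjugation action on P* lies in O_p(Aut_F(P*)). In particular P is not both centric and radical in F. -/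
theorem result {Ω : Type*} [Group Ω] {S : Subgroup Ω} [Finite S] (p : ℕ) [Fact p.Prime] (hS : IsPGroup p S) (F : Cfsg.FusionSystem S) (hF : F.IsSaturated p) {T : Subgroup Ω} (E : Cfsg.FusionSystem T) (hE : E.IsNormalIn F p) (P : Subgroup Ω) (hP : F.IsCentric P) (hPT : ¬ E.IsCentric (P ⊓ T)) : (∃ φ ∈ F.Hom P, ∃ x ∈ S ⊓ Subgroup.normalizer (φ.range : Set Ω), x ∉ φ.range ∧ ∃ α ∈ ((Cfsg.pCore p ↥(F.autGroup φ.range)).map (F.autGroup φ.range).subtype : Subgroup (MulAut ↥φ.range)), ∀ y : ↥φ.range, ((α y : ↥φ.range) : Ω) = x * (y : Ω) * x⁻¹) ∧ ¬ F.IsRadical p P := by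
  obtain ⟨G, _, _, ι, F', r, -⟩ := exists_rich_rep F
  have hF' := r.sat hS hF
  obtain ⟨E', s⟩ := r.exists_sub hE.1.2.2.1
  have h := ((r.norIn_iff s hS).1 hE).wn.invt
  have h1 := (r.cent_iff hP.1).1 hP
  have h2 : ¬ F'.CenT E'.S (im ι P ⊓ E'.S) := fun e => hPT ((s.cent_iff (inf_le_left.trans hP.1)).2
    (by rw [im_inf r.inj, ← s.S_eq]; exact h.cenT_iff.1 e))
  refine ⟨?_, fun e => h2 (hF'.cenT_inf h.sc h1 ((r.rad_iff hP.1).1 e))⟩
  obtain ⟨g, h3, h4⟩ := hF'.exists_not_cz_le h.sc h1.1 h2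
  obtain ⟨y, h5, h6, h7, h8⟩ := h.sc.exists_opm hF'.pg (F'.cj_le h3) h4
  obtain ⟨φ, hφ, e⟩ := r.bwd hP.1 h3
  obtain ⟨x, hx, rfl⟩ := r.lift_mem (h.sc.1 h5)
  have h9 := hom_range_le hφ
  rw [← r.im_range hφ e] at h6 h7 h8
  refine ⟨φ, hφ, x, ⟨hx, (fn_mem_nz_iff r.inj hx h9).1 h6⟩, fun k => h7 (fn_mem_im ι k), ?_⟩
  rw [r.pCore_eq h9]
  obtain ⟨α, a1, a2⟩ := exists_mem_dn (eta r.inj h9) h8 h6
  refine ⟨α, a1, fun y => (fn_inj r.inj (h9 (α y).2) (mul_mem (mul_mem hx (h9 y.2)) (inv_mem hx))).1 ?_⟩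
  rw [fn_conj ι hx (h9 y.2)]
  simpa using a2 y

end Cfsg.Agent.S5251
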