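import Cfsg.Statements.S5253
import Cfsg.Agent.Fusion.WC
-- import your own Cfsg.Agent.* helpers here

set_option autoImplicit false
universe u
open Cfsg

namespace Cfsg.Agent.S5253

open Cfsg.Agent.Fusion


/-- Let p be a prime and W a positive characteristic p-functor with Z(Q) ≤ W(Q): W assigns to every finite p-group Q (in a fixed universe) a subgroup W(Q), nontrivial when Q is, carried to W(R) by every isomorphism Q ≅ R, and containing the centre of Q. Suppose that for every finite group G with Sylow p-subgroup P in which W(P) is not normal there is g ∈ P outside O_p(G) with [Z(O_p(G)), g, g] = 1. Then for every saturated fusion system F over a finite p-group S and every normalizer fusion system N of W(S) in F, every p-th power of an element of Z(S) that lies in the centre of N lies in the centre of F. -/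
theorem result {p : ℕ} [Fact p.Prime] (W : ∀ (Q : Type u) [Group Q], Subgroup Q) (hW1 : ∀ (Q : Type u) [Group Q] [Finite Q], IsPGroup p Q → Nontrivial Q → W Q ≠ ⊥) (hW2 : ∀ (Q R : Type u) [Group Q] [Group R] [Finite Q], IsPGroup p Q → ∀ φ : Q ≃* R, (W Q).map φ.toMonoidHom = W R) (hWZ : ∀ (Q : Type u) [Group Q] [Finite Q], IsPGroup p Q → Subgroup.center Q ≤ W Q) (hq : ∀ (G : Type u) [Group G] [Finite G] (P : Sylow p G), ¬ (((W ↥(P : Subgroup G)).map (P : Subgroup G).subtype : Subgroup G)).Normal → ∃ g : G, g ∈ (P : Subgroup G) ∧ g ∉ Cfsg.pCore p G ∧ ⁅⁅Subgroup.center ↥(Cfsg.pCore p G) |>.map (Cfsg.pCore p G).subtype, Subgroup.zpowers g⁆, Subgroup.zpowers g⁆ = ⊥) {Ω : Type u} [Group Ω] {S : Subgroup Ω} [Finite S] (hS : IsPGroup p S) (F : Cfsg.FusionSystem S) (hF : F.IsSaturated p) (N : Cfsg.FusionSystem (Cfsg.FusionSystem.normalizerIn S ((W ↥S).map S.subtype))) (hN : F.IsNormalizerSystem ((W ↥S).map S.subtype) N) : Subgroup.closure ((fun z => z ^ p) '' ((S ⊓ Subgroup.centralizer (S : Set Ω) : Subgroup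 Ω) : Set Ω)) ⊓ N.center ≤ F.center := by
  obtain ⟨G, _, _, ι, F', r, hr⟩ := exists_rich_rep F
  have hr' := r.rich hr
  have hF' := r.sat hS hF
  have hW : IsCharPFunctor p W := ⟨hW1, hW2⟩
  have s := r.nrep hN
  have hle : Glaub.mho p (S ⊓ cz S) ⊓ N.center ≤ S := inf_le_left.trans ((Glaub.mho_le _).trans inf_le_left)
  rw [im_ind hW r.inj le_rfl hS, ← r.S_eq] at s
  show Glaub.mho p (S ⊓ cz S) ⊓ N.center ≤ _
  rw [← im_le_im r.inj hle, r.im_center, im_inf r.inj, s.im_center, ← powerClosure_one,
    im_powerClosure inf_le_left, r.im_Z, powerClosure_one]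
  refine (hF'.cen_of_mho hr' (Glaub.conjFunctor_ind hW) (fun P hP => ?_) (fun H T hT hn => ?_)
    (FS.cen_iff_le.2 inf_le_right) inf_le_left).le_center
  · exact (PLocal.map_center_subtype P).ge.trans (Subgroup.map_mono (hWZ P hP))
  · obtain ⟨R, hR⟩ := (syl_iff_sylow hT.le).1 (syl_of_isIn hT)
    obtain ⟨g, g1, g2, g3⟩ := hq H R fun h => hn (by
      rw [← Transfer.inducedFunctor_subtype hW hT.pgrp hT.le, ← hR]
      exact (map_top_subtype H).ge.trans (map_le_nz (top_le_nz_iff.2 h)))
    refine ⟨g, by rwa [hR] at g1, fun h => g2 (LocalEven.mem_pCoreOf.1 h), ?_⟩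
    have := congrArg (Subgroup.map H.subtype) g3
    rwa [Subgroup.map_commutator, Subgroup.map_commutator, MonoidHom.map_zpowers, PLocal.map_center_subtype,
      PLocal.zOf, Glaub.map_center' H.subtype_injective, Subgroup.map_bot] at this

end Cfsg.Agent.S5253
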