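import Mathlib
import Cfsg.Statements.S5254
import Cfsg.Agent.Inv.Ess7

set_option autoImplicit false
open Cfsg

namespace Cfsg.Agent.S5254

open Fusion Inv.Es

/-- Let p be an odd prime, S a finite nonabelian p-group with a unique abelian subgroup A of index p, and F a saturated fusion system over S. Then every F-essential subgroup P is A, or Z(S)⟨x⟩ for some x ∈ S outside A, or (when the second centre Z₂(S) lies in A) Z₂(S)⟨x⟩ for some x ∈ S outside A; and P has index p in its normalizer in S. -/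
theorem result {Ω : Type*} [Group Ω] {S : Subgroup Ω} [Finite S] (p : ℕ) [Fact p.Prime] (hS : IsPGroup p S) (F : Cfsg.FusionSystem S) (hF : F.IsSaturated p) (hp : p ≠ 2) (hna : ¬ IsMulCommutative ↥S) (A : Subgroup Ω) (hA : A ≤ S ∧ IsMulCommutative ↥A ∧ (A.subgroupOf S).index = p) (huniq : ∀ B : Subgroup Ω, B ≤ S → IsMulCommutative ↥B → (B.subgroupOf S).index = p → B = A) (P : Subgroup Ω) (hP : F.IsEssential p P) : (P = A ∨ (∃ x ∈ S, x ∉ A ∧ P = (S ⊓ Subgroup.centralizer (S : Set Ω)) ⊔ Subgroup.zpowers x) ∨ (((upperCentralSeries ↥S 2).map S.subtype) ≤ A ∧ ∃ x ∈ S, x ∉ A ∧ P = ((upperCentralSeries ↥S 2).map S.subtype) ⊔ Subgroup.zpowers x)) ∧ (P.subgroupOf (S ⊓ Subgroup.normalizer (P : Set Ω))).index = p := by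
  obtain ⟨G, _, _, ι, F', r, -⟩ := Fusion.exists_rich_rep F
  have hPS : P ≤ S := hP.1.1
  obtain ⟨h, hu⟩ := ap_of_rep r hS hna hA huniq
  change _ ∧ P.relIndex (S ⊓ nz P) = p
  rw [show upperCentralSeries S 2 = Subgroup.upperCentralSeries S 2 from rfl, map_ucs_two]
  have e : P.relIndex (S ⊓ nz P) = (im ι P).relIndex (F'.S ⊓ nz (im ι P)) := by
    rw [← relIndex_im r.inj inf_le_left (le_inf hPS (le_nz P)), im_inf_nz r.inj le_rfl hPS, r.S_eq]
  by_cases hPA : P = A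
  · subst hPA
    refine ⟨Or.inl rfl, ?_⟩
    rw [e, inf_eq_left.2 h.nzA, h.ind]
  obtain ⟨h1, -, h3, x, h4, h5, h6⟩ := ap_Z2 (r.sat hS hF) h hu ((r.ess_iff hPS).1 hP)
    (mt (im_inj r.inj hPS hA.1).1 hPA)
  obtain ⟨x, hx, rfl⟩ := r.lift_mem h4
  have h7 := mt (fn_mem_im ι) h5
  have hx' := Subgroup.zpowers_le.2 hx
  have hZ : Z2 S ≤ S := inf_le_left
  refine ⟨Or.inr (h6.imp (fun h6 => ⟨x, hx, h7, ?_⟩) fun h6 => ⟨?_, x, hx, h7, ?_⟩), e ▸ h3⟩
  · rwa [Zc, ← r.im_Z, ← im_zpowers ι hx, ← im_sup ι inf_le_left hx', im_inj r.inj hPS (sup_le inf_le_left hx')] at h6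
  · rwa [r.S_eq, ← im_Z2 r.inj le_rfl, im_le_im r.inj hZ] at h1
  · rwa [r.S_eq, ← im_Z2 r.inj le_rfl, ← im_zpowers ι hx, ← im_sup ι hZ hx', im_inj r.inj hPS (sup_le hZ hx')] at h6

end Cfsg.Agent.S5254
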