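import Cfsg.Statements.S5256
import Cfsg.Agent.Fusion.BrQuo
-- import your own Cfsg.Agent.* helpers here

set_option autoImplicit false
open Cfsg

namespace Cfsg.Agent.S5256

open Cfsg.Agent.Fusion


/-- Let F be a saturated fusion system over a finite p-group S, T a subgroup of S strongly closed in F, and E a factor system F/T realised along a homomorphism θ of S with kernel T. Then the hyperfocal subgroup of E is the image under θ of the hyperfocal subgroup of F (hyp(F/T) = T·hyp(F)/T). -/
theorem result {Ω : Type*} [Group Ω] {S : Subgroup Ω} [Finite S] (p : ℕ) [Fact p.Prime] (hS : IsPGroup p S) (F : Cfsg.FusionSystem S) (hF : F.IsSaturated p) (T : Subgroup Ω) (hT : F.StronglyClosed T) {Ω' : Type*} [Group Ω'] {S' : Subgroup Ω'} (θ : ↥S →* Ω') (E : Cfsg.FusionSystem S') (hE : F.IsFactorSystem T θ E) : E.hyperfocalSubgroup p = ((F.hyperfocalSubgroup p).subgroupOf S).map θ := by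
  have := finite_of_range hE.2.2.1
  obtain ⟨G, _, _, ι, F₁, r, -⟩ := exists_rich_rep F
  obtain ⟨G', _, _, κ, E', θ', s, -, t⟩ := r.exists_tr E (mem_of_isFactorSystem hE)
  have q := (t.quo r s hE (r.sat hS hF) hT).1
  refine (im_inj s.inj (Fusion.hyperfocal_le E p) (t.im_le_V _)).1 ?_
  rw [s.im_hyp, ← q.im_hyp, ← r.im_hyp, t.im_im r.le (Fusion.hyperfocal_le F p)]

end Cfsg.Agent.S5256
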