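import Mathlib
import Cfsg.Statements.S5257
import Cfsg.Agent.Inv.Ess7

set_option autoImplicit false
open Cfsg

namespace Cfsg.Agent.S5257

open Fusion Inv.Es

/-- Let p be an odd prime, S a finite nonabelian p-group with a unique abelian subgroup A of index p, and F a saturated fusion system over S having an F-essential subgroup other than A. Then the second centre Z₂(S) lies in A; Z(S) ∩ [S, S] has order p; Z(S)[S, S] has index p in A; Z(S) has index p in Z₂(S); and S/Z(S) has maximal nilpotency class (if S/Z(S) has order pᵐ with m ≥ 3 then the term of index m − 2 of the lower central series of S, counting S as index 0, is not contained in Z(S)). -/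
theorem result {Ω : Type*} [Group Ω] {S : Subgroup Ω} [Finite S] (p : ℕ) [Fact p.Prime] (hS : IsPGroup p S) (F : Cfsg.FusionSystem S) (hF : F.IsSaturated p) (hp : p ≠ 2) (hna : ¬ IsMulCommutative ↥S) (A : Subgroup Ω) (hA : A ≤ S ∧ IsMulCommutative ↥A ∧ (A.subgroupOf S).index = p) (huniq : ∀ B : Subgroup Ω, B ≤ S → IsMulCommutative ↥B → (B.subgroupOf S).index = p → B = A) (P : Subgroup Ω) (hP : F.IsEssential p P) (hPA : P ≠ A) : ((upperCentralSeries ↥S 2).map S.subtype) ≤ A ∧ Nat.card ↥((S ⊓ Subgroup.centralizer (S : Set Ω)) ⊓ ((commutator ↥S).map S.subtype)) = p ∧ (((S ⊓ Subgroup.centralizer (S : Set Ω)) ⊔ ((commutator ↥S).map S.subtype)).subgroupOf A).index = p ∧ (((S ⊓ Subgroup.centralizer (S : Set Ω))).subgroupOf ((upperCentralSeries ↥S 2).map S.subtype)).index = p ∧ ∀ m : ℕ, ((S ⊓ Subgroup.centralizer (S : Set Ω)).subgroupOf S).index = p ^ m → 3 ≤ m → ¬ Subgroup.lowerCentralSeries S (m - 2) ≤ (S ⊓ Subgroup.centralizer (S : Set Ω))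 := by
  obtain ⟨G, _, _, ι, F', r, -⟩ := Fusion.exists_rich_rep F
  have hPS : P ≤ S := hP.1.1
  obtain ⟨h, hu⟩ := ap_of_rep r hS hna hA huniq
  rw [show upperCentralSeries S 2 = Subgroup.upperCentralSeries S 2 from rfl, map_ucs_two, PGrp.map_commutator_subtype]
  obtain ⟨h1, h2, -⟩ := ap_Z2 (r.sat hS hF) h hu ((r.ess_iff hPS).1 hP) (mt (im_inj r.inj hPS hA.1).1 hPA)
  have h3 := (h.card_inf h1).trans h2
  have h4 := h.relIndex_sup.trans h3
  have h5 := @AP.not_lcs_le _ _ _ _ _ _ _ h h2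
  have hZ : Z2 S ≤ S := inf_le_left
  have hc : ⁅S, S⁆ ≤ S := Subgroup.commutator_le_self S
  have hZA : S ⊓ cz S ≤ A := by rw [← im_le_im r.inj inf_le_left, r.im_Z]; exact h.Z_le
  have hcA : ⁅S, S⁆ ≤ A := by rw [← im_le_im r.inj hc, r.im_comm]; exact h.comm_le
  rw [Zc, ← r.im_Z] at h2 h3 h4 h5
  rw [← r.im_comm] at h3 h4
  rw [r.S_eq, ← im_Z2 r.inj le_rfl] at h1 h2
  refine ⟨(im_le_im r.inj hZ).1 h1, ?_, ?_, ?_, fun m hm h6 h7 => h5 ?_ h6 ?_⟩
  · rwa [← im_inf r.inj, card_im r.inj (inf_le_right.trans hc)] at h3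
  · rwa [← im_sup ι inf_le_left hc, relIndex_im r.inj hA.1 (sup_le hZA hcA)] at h4
  · rwa [relIndex_im (P := S ⊓ cz S) r.inj hZ fun x hx => mem_Z2.2 ⟨hx.1, fun y hy => by
      rw [conj_eq_of_cz hx.2 hy, inv_mul_cancel]; exact one_mem _⟩] at h2
  · rw [r.S_eq, relIndex_im r.inj le_rfl inf_le_left]; exact hm
  · rw [r.S_eq, ← im_lcs ι le_rfl]; exact im_mono ι h7

end Cfsg.Agent.S5257
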