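import Cfsg.Statements.S5272
import Cfsg.Agent.Fusion.Fam
-- import your own Cfsg.Agent.* helpers here

set_option autoImplicit false
open Cfsg

namespace Cfsg.Agent.S5272

open Cfsg.Agent.Fusion


/-- An axiomatic Glauberman–Thompson nilpotency criterion for fusion systems. Let p be an odd prime, F a saturated fusion system over a finite p-group S, and 𝒜 a nonempty family of abelian subgroups of S. For Q ≤ S write I(Q) for the intersection of the members of 𝒜 contained in Q. Assume (invariance) that for every Q ≤ S containing a member of 𝒜, every F-automorphism of Q maps I(Q) into itself, and (replacement) that for every subgroup B of S of nilpotency class at most 2, if some member of 𝒜 contains [B,B] but not B, then B normalizes some member of 𝒜 that contains [B,B] but not B. Then F is the inner fusion system of S if and only if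 the normalizer fusion system of I(S) in F is the inner fusion system of N_S(I(S)). -/
theorem result {Ω : Type*} [Group Ω] {S : Subgroup Ω} [Finite S] (p : ℕ) [Fact p.Prime] (hS : IsPGroup p ↥S) (F : Cfsg.FusionSystem S) (hF : F.IsSaturated p) (hp : p ≠ 2) (𝒜 : Set (Subgroup Ω)) (h𝒜 : ∀ A ∈ 𝒜, A ≤ S ∧ IsMulCommutative ↥A) (hne : 𝒜.Nonempty) (hinv : ∀ Q : Subgroup Ω, Q ≤ S → (∃ A ∈ 𝒜, A ≤ Q) → ∀ α ∈ F.autGroup Q, ∀ x : ↥Q, (x : Ω) ∈ (⨅ A ∈ {A : Subgroup Ω | A ∈ 𝒜 ∧ A ≤ Q}, A) → (((α : MulAut ↥Q) x : ↥Q) : Ω) ∈ (⨅ A ∈ {A : Subgroup Ω | A ∈ 𝒜 ∧ A ≤ Q}, A)) (hrep : ∀ B : Subgroup Ω, B ≤ S → ⁅⁅B, B⁆, B⁆ = ⊥ → (∃ A ∈ 𝒜, ⁅B, B⁆ ≤ A ∧ ¬ B ≤ A) → ∃ A ∈ 𝒜, ⁅B, B⁆ ≤ A ∧ ¬ B ≤ A ∧ B ≤ Subgroup.normalizer (A : Set Ω)) : (∀ P : Subgroup Ω, F.Hom P = (Cfsg.innerFusionSystem S).Hom P) ↔ ∀ N : Cfsg.FusionSystem (Cfsg.FusionSystem.normalizerIn S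 (⨅ A ∈ 𝒜, A)), F.IsNormalizerSystem (⨅ A ∈ 𝒜, A) N → ∀ P : Subgroup Ω, N.Hom P = (Cfsg.innerFusionSystem (Cfsg.FusionSystem.normalizerIn S (⨅ A ∈ 𝒜, A))).Hom P := by
  obtain ⟨G, _, _, ι, F', r, hr⟩ := exists_rich_rep F
  have hr' := r.rich hr
  have hF' := r.sat hS hF
  simp only [← sInf_eq_iInf] at hinv
  rw [← sInf_eq_iInf]
  obtain ⟨A₀, hA₀⟩ := id hne
  have hle : sInf 𝒜 ≤ S := (sInf_le hA₀).trans (h𝒜 _ hA₀).1
  have hinv' : ∀ Q ≤ S, (∃ A ∈ 𝒜, A ≤ Q) → F'.aut (im ι Q) ≤ nz (im ι (sInf {A | A ∈ 𝒜 ∧ A ≤ Q})) := by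
    rintro Q hQ ⟨A, h1, h2⟩ g hg
    have h3 : sInf {A | A ∈ 𝒜 ∧ A ≤ Q} ≤ Q := (sInf_le (show A ∈ {A | A ∈ 𝒜 ∧ A ≤ Q} from ⟨h1, h2⟩)).trans h2
    obtain ⟨α, h4, h5⟩ := r.exists_mem_autGroup hQ hg
    refine mem_nz_of_forall ((forall_mem_im (h3.trans hQ)).2 fun x hx => ?_)
    rw [← h5 ⟨x, h3 hx⟩]
    exact fn_mem_im ι (hinv Q hQ ⟨A, h1, h2⟩ α h4 ⟨x, h3 hx⟩ hx)
  have e0 : {A | A ∈ 𝒜 ∧ A ≤ S} = 𝒜 := Set.ext fun A => ⟨And.left, fun h => ⟨h, (h𝒜 _ h).1⟩⟩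
  rw [r.pa_iff hF', r.pa_NF_iff hF' hle (by
    have := hinv' S le_rfl ⟨A₀, hA₀, (h𝒜 _ hA₀).1⟩
    rw [e0, ← r.S_eq] at this
    exact ((le_ai_self _).trans (FS.aiS_le_aut le_rfl)).trans this)]
  refine ⟨fun h => h.of_le (FS.normK_le _ _ _), fun h => ?_⟩
  by_contra hn
  obtain ⟨E, H, h1, e, hH, h3, h4⟩ := hF'.exists_stable hr' hp hn
  obtain ⟨R, hR⟩ := hH.exists_sylow
  have hSH : ∀ {Q}, Q ≤ S → im ι Q ≤ H := fun h => (r.im_le h).trans (e.ge.trans hH.le)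
  let f : Subgroup Ω → Subgroup H := fun A => (im ι A).subgroupOf H
  have hf : ∀ {A B}, A ≤ S → (f A ≤ f B ↔ A ≤ B) := fun h => by
    rw [← im_le_im r.inj h, ← Subgroup.map_le_map_iff_of_injective H.subtype_injective,
      map_subgroupOf_subtype (hSH h), Subgroup.subgroupOf_map_subtype, le_inf_iff, and_iff_left (hSH h)]
  have hl : ∀ Q ≤ (R : Subgroup H), ∃ P ≤ S, f P = Q := fun Q hQ => by
    obtain ⟨P, p1, p2⟩ := r.lift (P' := Q.map H.subtype) (by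
      rw [← e, ← map_subgroupOf_subtype hH.le, ← hR]; exact Subgroup.map_mono hQ)
    exact ⟨P, p1, subgroupOf_eq_of_map p2.symm⟩
  have hs : ∀ {s : Set (Subgroup Ω)}, s.Nonempty → s ⊆ 𝒜 → f (sInf s) = sInf (f '' s) := fun h1 h2 => by
    simp only [f, im_sInf r.inj h1 fun A h => (h𝒜 _ (h2 h)).1]
    ext x; simp [Subgroup.mem_subgroupOf, Subgroup.mem_sInf]
  have hc : ∀ {A B}, A ≤ S → B ≤ S → f ⁅A, B⁆ = ⁅f A, f B⁆ := fun h1 h2 => by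
    simp only [f, im_commutator ι h1 h2, subgroupOf_commutator (hSH h1) (hSH h2)]
  have h5 := fam_normal h4.stabP hH.charP R (𝒜 := f '' 𝒜) (by
    rintro _ ⟨A, hA, rfl⟩
    refine ⟨hR ▸ Subgroup.subgroupOf_mono _ ((r.im_le (h𝒜 _ hA).1).trans e.ge), ?_⟩
    haveI := (isMulCommutative_im_iff r.inj (h𝒜 _ hA).1).2 (h𝒜 _ hA).2
    infer_instance) (hne.image f) (fun Q' hQ' hA => by
    obtain ⟨Q, hQ, rfl⟩ := hl Q' hQ'
    obtain ⟨_, ⟨A, a1, rfl⟩, a2⟩ := hA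
    have a3 := (hf (h𝒜 _ a1).1).1 a2
    have : {A | A ∈ f '' 𝒜 ∧ A ≤ f Q} = f '' {A | A ∈ 𝒜 ∧ A ≤ Q} := by
      ext B
      constructor
      · rintro ⟨⟨B, b1, rfl⟩, b2⟩; exact ⟨B, ⟨b1, (hf (h𝒜 _ b1).1).1 b2⟩, rfl⟩
      · rintro ⟨B, ⟨b1, b2⟩, rfl⟩; exact ⟨⟨B, b1, rfl⟩, (hf (h𝒜 _ b1).1).2 b2⟩
    have h3 : sInf {A | A ∈ 𝒜 ∧ A ≤ Q} ≤ Q := (sInf_le (show A ∈ {A | A ∈ 𝒜 ∧ A ≤ Q} from ⟨a1, a3⟩)).trans a3
    rw [this, ← hs (s := {A | A ∈ 𝒜 ∧ A ≤ Q}) ⟨A, a1, a3⟩ fun _ h => h.1, nz_subgroupOf (hSH hQ), nz_subgroupOf (hSH (h3.trans hQ))]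
    refine Subgroup.subgroupOf_mono _ (le_inf inf_le_left (le_trans ?_ (hinv' Q hQ ⟨A, a1, a3⟩)))
    exact (inf_le_ai _ _).trans ((hH.aut_eq ((r.im_le hQ).trans e.ge)).ge.trans (FS.aut_mono h1 _))) (fun B' hB' h6 h7 => by
    obtain ⟨B, hB, rfl⟩ := hl B' hB'
    obtain ⟨_, ⟨A, a1, rfl⟩, a2, a3⟩ := h7
    have hBB : ⁅B, B⁆ ≤ S := (comm_le_left (le_nz B)).trans hB
    rw [← hc hB hB] at a2 h6 ⊢
    rw [← hc hBB hB] at h6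
    obtain ⟨A', b1, b2, b3, b4⟩ := hrep B hB (le_bot_iff.1 ((hf ((comm_le_right (X := ⁅B, B⁆)
      ((comm_le_left (le_nz B)).trans (le_nz B))).trans hB)).1 (h6.le.trans bot_le)))
      ⟨A, a1, (hf hBB).1 a2, fun h => a3 ((hf hB).2 h)⟩
    refine ⟨_, ⟨A', b1, rfl⟩, (hf hBB).2 b2, fun h => b3 ((hf hB).1 h), ?_⟩
    rw [nz_subgroupOf (hSH (h𝒜 _ b1).1)]
    exact Subgroup.subgroupOf_mono _ (le_inf (hSH hB) (im_le_nz ι hB (h𝒜 _ b1).1 b4)))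
  rw [← hs hne le_rfl, normal_subgroupOf_iff (hSH hle)] at h5
  exact h3 (h.of_le ((hH.nor_of ((r.im_le hle).trans e.ge) h5).le_NF h1))

end Cfsg.Agent.S5272
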