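import Mathlib
import Cfsg.Statements.S5274
import Cfsg.Agent.Fusion.Func
import Cfsg.Agent.Fusion.BrQuo
import Cfsg.Agent.Fusion.Br3
import Cfsg.Agent.PGrp.Basic

set_option autoImplicit false
open Cfsg

namespace Cfsg.Agent.S5274

open Cfsg.Agent.Fusion

universe u

/-- The subgroup of `m`-th powers of the centre of `S`. -/
def mho {G : Type*} [Group G] (S : Subgroup G) (m : ℕ) : Subgroup G where
  carrier := {y | ∃ z ∈ S ⊓ cz S, z ^ m = y}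
  one_mem' := ⟨1, one_mem _, one_pow m⟩
  mul_mem' := by
    rintro _ _ ⟨a, ha, rfl⟩ ⟨b, hb, rfl⟩
    exact ⟨a * b, mul_mem ha hb, Commute.mul_pow (hb.2 a ha.1) m⟩
  inv_mem' := by
    rintro _ ⟨a, ha, rfl⟩
    exact ⟨a⁻¹, inv_mem ha, inv_pow a m⟩

theorem nor_mho {G : Type*} [Group G] [Finite G] {F : FS G} (hF : F.Sat 2) {n : ℕ}
    (hn : ∀ x ∈ F.S, x ^ 2 ^ (n + 1) = 1) : F.Nor (mho F.S (2 ^ n)) := by
  set U := mho F.S (2 ^ n) with hU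
  have hUZ : U ≤ F.S ⊓ cz F.S := by
    rintro _ ⟨z, hz, rfl⟩; exact pow_mem hz _
  have hUS : U ≤ F.S := hUZ.trans inf_le_left
  have hSU : nz F.S ≤ nz U := fun g hg => mem_nz_of_forall (by
    rintro _ ⟨z, hz, rfl⟩
    exact ⟨g * z * g⁻¹, conj_mem_of_nz (mem_nz_inf hg (nz_le_nz_cz _ hg)) hz, conj_pow⟩)
  have hM : ∀ P g, U ≤ P → P ≤ F.S → g ∈ F.aut P → g ∈ nz U → g ∈ (F.NF U).aut P := by
    intro P g h1 h2 h3 h4
    refine FS.mem_aut_of ((FS.NF_M hUS).2 ⟨le_inf h2 (h2.trans ((le_nz _).trans hSU)), 1,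
      one_mem _, by simpa using h4, ?_⟩) (F.aut_le_nz P h3)
    rw [sup_eq_left.2 h1, mul_one]; exact FS.M_of_aut h2 h3
  rw [FS.nor_iff_le_NF hUS]
  refine hF.le_of_ess_ind (fun g hg => hM _ g hUS le_rfl hg (hSU (F.aut_le_nz _ hg)))
    (FS.NF_S_of_normal ((le_nz _).trans hSU)).ge (fun P hP ih => ?_)
  have hZP : F.S ⊓ cz F.S ≤ P := hP.cent.center_le
  let V : Subgroup G := Subgroup.closure {y | ∃ g ∈ F.aut P, ∃ u ∈ U, g * u * g⁻¹ = y}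
  have hVP : V ≤ P := (Subgroup.closure_le _).2 (by
    rintro _ ⟨g, hg, u, hu, rfl⟩
    exact conj_mem_of_nz (F.aut_le_nz P hg) (hZP (hUZ hu)))
  have hUV : U ≤ V := fun u hu => Subgroup.subset_closure ⟨1, one_mem _, u, hu, by simp⟩
  have hAV : F.aut P ≤ nz V := fun a ha => mem_nz_of_le (by
    rw [cj_closure]
    refine Subgroup.closure_mono ?_
    rintro _ ⟨_, ⟨g, hg, u, hu, rfl⟩, rfl⟩
    exact ⟨a * g, mul_mem ha hg, u, hu, by group⟩)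
  refine (hF.aut_le_of_normal hP.fn (N := F.aut P ⊓ cz V) inf_le_left
    (le_inf (F.cz_le_aut P) (cz_anti hVP))
    (fun a ha => mem_nz_inf (le_nz _ ha) (nz_le_nz_cz _ (hAV ha))) ?_).trans
    (sup_le (fun g hg => hM P g (hUZ.trans hZP) hP.le hg.1 (cz_le_nz _ (cz_anti hUV hg.2)))
      (FS.extAut_le_aut ih))
  obtain ⟨t₀, ht1, ht2⟩ := SetLike.exists_of_lt (hF.lt_NS (hP.lt hF))
  obtain ⟨j, hj1, hj2⟩ := PGrp.exists_pow_notMem_pow_mem ht2 ⟨n + 1, hn t₀ ht1.1⟩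
  have ht3 : t₀ ^ 2 ^ j ∈ F.S ⊓ nz P := pow_mem ht1 _
  generalize t₀ ^ 2 ^ j = t at hj1 hj2 ht3
  intro hle
  refine hj1 (hle ⟨ht3.1, FS.aiS_le_aut hP.le (mem_ai_of_mem ht3.1 ht3.2), ?_⟩)
  have : V ≤ cz (Subgroup.zpowers t) := (Subgroup.closure_le _).2 (by
    rintro _ ⟨g, hg, _, ⟨z, hz, rfl⟩, rfl⟩
    have hgP := F.aut_le_nz P hg
    have hw1 : g * z * g⁻¹ ∈ P := conj_mem_of_nz hgP (hZP hz)
    have hw2 : g * z * g⁻¹ ∈ cz P := conj_mem_cz hgP (cz_anti hP.le hz.2)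
    rw [← conj_pow]
    generalize g * z * g⁻¹ = w at hw1 hw2
    have hv1 : t⁻¹ * w * t ∈ P := conj_mem_of_nz' ht3.2 hw1
    have hv2 : t⁻¹ * w * t ∈ cz P := conj_mem_cz' ht3.2 hw2
    have h1 := hn _ (mul_mem ht3.1 (hP.le hw1))
    have h2 : (t * w) ^ 2 = t ^ 2 * (t⁻¹ * w * t * w) := by rw [pow_two, pow_two]; group
    have c1 : Commute (t ^ 2) (t⁻¹ * w * t * w) := (mul_mem hv2 hw2) _ hj2
    have c2 : Commute (t⁻¹ * w * t) w := hw2 _ hv1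
    rw [pow_succ', pow_mul, h2, c1.mul_pow, c2.mul_pow, ← pow_mul, ← pow_succ', hn t ht3.1,
      one_mul] at h1
    have h3 : w ^ 2 ^ n * w ^ 2 ^ n = 1 := by
      rw [← pow_add, ← two_mul, ← pow_succ', hn w (hP.le hw1)]
    have h4 : (t⁻¹ * w * t) ^ 2 ^ n = w ^ 2 ^ n := mul_right_cancel (h1.trans h3.symm)
    have h5 : (t⁻¹ * w * t) ^ 2 ^ n = t⁻¹ * w ^ 2 ^ n * t := by
      simpa using conj_pow (i := 2 ^ n) (a := t⁻¹) (b := w)
    refine mem_cz_zpowers.2 ?_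
    calc t * w ^ 2 ^ n = t * (t⁻¹ * w ^ 2 ^ n * t) := by rw [← h5, h4]
      _ = _ := by group)
  exact le_cz_comm.1 this (Subgroup.mem_zpowers t)

theorem main (G : Type u) [Group G] [Finite G] (F : FS G) :
    F.Sat 2 → (∀ x ∈ F.S, ∃ z ∈ F.S ⊓ cz F.S, F.CE x z) → F.S ≤ cz F.S := by
  refine FS.ind2 (Φ := fun G _ _ F => F.Sat 2 → (∀ x ∈ F.S, ∃ z ∈ F.S ⊓ cz F.S, F.CE x z) →
    F.S ≤ cz F.S) ?_ G F
  intro G _ _ F _ ih hF h
  classical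
  obtain ⟨k, hk⟩ := exists_pow_eq_one hF.pg
  have hex : ∃ e, ∀ z ∈ F.S ⊓ cz F.S, z ^ 2 ^ e = 1 := ⟨k, fun z hz => hk z hz.1⟩
  have hall : ∀ x ∈ F.S, x ^ 2 ^ Nat.find hex = 1 := by
    intro x hx
    obtain ⟨z, hz, g, -, rfl⟩ := h x hx
    have := Nat.find_spec hex _ hz
    rw [conj_pow] at this
    simpa using this
  rcases e : Nat.find hex with _ | n
  · intro x hx
    have := hall x hx
    rw [e, pow_zero, pow_one] at this
    rw [this]; exact one_mem _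
  rw [e] at hall
  have hU := nor_mho hF hall
  have hU1 : mho F.S (2 ^ n) ≠ ⊥ := by
    intro hb
    refine Nat.find_min hex (m := n) (by omega) (fun z hz => ?_)
    have : z ^ 2 ^ n ∈ mho F.S (2 ^ n) := ⟨z, hz, rfl⟩
    rwa [hb, Subgroup.mem_bot] at this
  obtain ⟨G', _, _, θ, E, q, hK, -⟩ := hF.exists_quo hU.sc
  have hE := q.sat hF
  have h1 := ih G' E (q.card_lt (by rwa [hK])) hE (by
    intro x' hx'
    obtain ⟨x, hx, rfl⟩ := q.lift_mem hx'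
    obtain ⟨z, hz, g, hg, rfl⟩ := h x hx
    obtain ⟨g', h1, h2⟩ := q.fwd hg
    refine ⟨fn θ (g * x * g⁻¹), ⟨q.mem_S hz.1, ?_⟩, g', ?_, (h2 x (Subgroup.mem_zpowers x)).symm⟩
    · rw [q.S_eq]; exact fn_mem_cz θ hz.1 le_rfl hz.2
    · rwa [im_zpowers θ hx] at h1)
  have h2 := q.nor_pre hF (hE.nor_of_abelian E.sc_S h1) (by
    rw [hK]
    rintro _ ⟨z, hz, rfl⟩
    exact cz_anti inf_le_left (pow_mem hz.2 _))
  rw [q.S_eq, q.pre_im le_rfl inf_le_left] at h2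
  intro x hx
  obtain ⟨z, hz, g, hg, rfl⟩ := h x hx
  obtain ⟨c, hc, h3⟩ := h2.extend hg
  have h4 := conj_mem_cz' (F.aut_le_nz _ h3) hz.2
  rw [← conj_mul_cz hc (Subgroup.mem_zpowers x)] at h4
  exact mem_of_eq h4 (by group)

/-- Let F be a saturated fusion system over a finite 2-group S. Suppose that every element of S is F-conjugate to an element of the centre Z(S) (some map of F defined on the cyclic subgroup it generates sends it into Z(S)). Then S is abelian. -/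
theorem result {Ω : Type*} [Group Ω] {S : Subgroup Ω} [Finite S] (hS : IsPGroup 2 ↥S) (F : Cfsg.FusionSystem S) (hF : F.IsSaturated 2) (h : ∀ x ∈ S, ∃ z ∈ S ⊓ Subgroup.centralizer (S : Set Ω), F.IsConjElt x z) : IsMulCommutative ↥S := by
  obtain ⟨G, _, _, ι, F', r, -⟩ := exists_rich_rep F
  rw [← isMulCommutative_im_iff r.inj le_rfl, isMulCommutative_iff_le_cz, ← r.S_eq]
  refine main G F' (r.sat hS hF) (fun x' hx' => ?_)
  obtain ⟨x, hx, rfl⟩ := r.lift_mem hx'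
  obtain ⟨z, hz, h1⟩ := h x hx
  refine ⟨fn ι z, ⟨r.mem_S hz.1, ?_⟩, (r.ce_iff hx hz.1).1 h1⟩
  rw [r.S_eq]; exact fn_mem_cz ι hz.1 le_rfl hz.2

end Cfsg.Agent.S5274
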