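import Cfsg.Statements.S5276
import Cfsg.Agent.Fusion.PInd2
-- import your own Cfsg.Agent.* helpers here

set_option autoImplicit false
open Cfsg

namespace Cfsg.Agent.S5276

open Cfsg.Agent.Fusion


/-- Let p be a prime and F a saturated fusion system over a finite p-group S. Then F is the inner fusion system of S if and only if the normalizer fusion system of S itself in F is the inner fusion system (equivalently, Aut_F(S) is induced by S) and the Frattini subgroup Φ(S) is strongly closed in F. -/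
theorem result {Ω : Type*} [Group Ω] {S : Subgroup Ω} [Finite S] (p : ℕ) [Fact p.Prime] (hS : IsPGroup p ↥S) (F : Cfsg.FusionSystem S) (hF : F.IsSaturated p) : (∀ P : Subgroup Ω, F.Hom P = (Cfsg.innerFusionSystem S).Hom P) ↔ (∀ N : Cfsg.FusionSystem (Cfsg.FusionSystem.normalizerIn S S), F.IsNormalizerSystem S N → ∀ P : Subgroup Ω, N.Hom P = (Cfsg.innerFusionSystem (Cfsg.FusionSystem.normalizerIn S S)).Hom P) ∧ F.StronglyClosed ((frattini ↥S).map S.subtype) := by
  obtain ⟨G, _, _, ι, F', r, -⟩ := exists_rich_rep F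
  have hF' := r.sat hS hF
  rw [r.pa_NF_iff hF' le_rfl (r.S_eq ▸ le_nz _), r.sc_iff (Subgroup.map_subtype_le (frattini S)), im_phi r.inj le_rfl hS,
    ← r.S_eq, r.isinner_iff]
  refine ⟨fun h => ⟨(hF'.pa_iff.2 h).of_le (F'.normK_le _ _), ?_⟩, fun h => hF'.isinn_of_sc
    h.1.pmod_S h.2 (PGrp.commutator_le_map_frattini hF'.pg) le_rfl⟩
  rw [h]
  exact (FS.ofGroup_nor le_rfl (phi_le _) ((le_nz _).trans (nz_le_nz_phi _))).sc

end Cfsg.Agent.S5276
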