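import Mathlib
import Cfsg.Statements.S5278
import Cfsg.Agent.Fusion.WC
import Cfsg.Agent.Fusion.Free
import Cfsg.Agent.Push.WcT

set_option autoImplicit false
open Cfsg

namespace Cfsg.Agent.S5278

open Cfsg.Agent.Fusion Cfsg.Agent.Fusion.FS Cfsg.Agent.Push Cfsg.Agent.PLocal Subgroup
open scoped commutatorElement

theorem nor_of {G : Type*} [Group G] [Finite G] {p : ℕ} [Fact p.Prime] {F : FS G} (hF : F.Sat p)
    (hr : Rich F.S) (h2 : p ≠ 2) {Z : Subgroup G} (hZ : Z ≤ F.S ⊓ cz F.S)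
    (hN : F.NF (jn 0 F.S) ≤ F.NF Z) (hx : ∀ x, F.M Z x → ¬ TrEl p Z x) : F.Nor Z := by
  have hZS := hZ.trans inf_le_left
  have hW := conjFunctor_jn (G := G) (p := p)
  refine (nor_iff_le_NF hZS).2 (le_of_central hW (fun P _ => center_le_jn P) (fun _ => True)
    (fun _ _ _ _ _ _ _ => trivial) (CF_le_NF hZS) (fun D h1 h3 _ h5 h6 => ?_) F le_rfl hF trivial hZ hN)
  obtain ⟨H, hH⟩ := h3.exists_model hr (S_le h1)
  have z1 := h5.trans inf_le_left
  have z2 := z1.trans hH.le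
  have h7 : Z ≤ D.core := (h5.trans (inf_le_inf_left _ (cz_anti D.core_le))).trans (con_iff.1 h3).2
  refine (hH.nor_iff.2 ⟨z1, by_contra fun hn => ?_⟩).le_NF h1
  obtain ⟨x, e⟩ := wc_loc (T := Z.subgroupOf H) h2 (LocalEven.charP_top.2 hH.charP)
    (Glaub.isSylowIn_subgroupOf_top hH.syl.isIn)
    (fun x hx => ⟨z1 hx, fun y hy => Subtype.ext ((h5 hx).2 y hy)⟩) (fun g hg => by
      rw [jn_subgroupOf hH.le, ← subgroupOf_normalizer_eq ((jn_le _).trans hH.le)] at hg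
      rw [← subgroupOf_normalizer_eq z2]
      have h8 : (D.NF (jn 0 D.S)).M Z g := by
        rw [FS.NF, hH.normK_eq (jn_le _) le_rfl (cz_le_nz _),
          inf_eq_left.2 ((le_nz _).trans (W_nz hW hH.sat.pg))]
        exact ofGroup_M_of z1 ((cj_mono h7).trans
          ((cj_of_nz (hH.le_nz_core g.2)).le.trans D.core_le)) ⟨g.2, hg⟩
      obtain ⟨-, c, c1, c2, -⟩ := (NF_M hZS).1 (h6 _ _ h8)
      exact (mul_mem_cancel_right (cz_le_nz _ c1)).1 c2)
    fun e => hn fun g hg => (subgroupOf_normalizer_eq z2).ge (e (mem_top ⟨g, hg⟩))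
  have e := map_subgroupOf_eq_of_le z2 ▸ e.map H.subtype_injective
  exact hx x (h1 _ _ (hH.M_of z1 ((cj_of_nz e.1).le.trans z1) x.2)) e

/-- Let p be an odd prime, F a saturated fusion system over a finite p-group S, and T a subgroup of Z(S) such that the normalizer fusion system of J(S) in F is contained in the normalizer fusion system of T, J(S) being the subgroup generated by the abelian subgroups of S of largest order. Then either T is weakly closed in F, or Aut_F(T) has a nontrivial cyclic subgroup X of order prime to p that permutes transitively the non-identity elements of the commutator [T, X] (the subgroup of T generated by the elements ψ(t)·t⁻¹ with ψ in X and t in T). -/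
theorem result {Ω : Type*} [Group Ω] {S : Subgroup Ω} [Finite S] (p : ℕ) [Fact p.Prime] (hS : IsPGroup p ↥S) (F : Cfsg.FusionSystem S) (hF : F.IsSaturated p) (hp : p ≠ 2) (T : Subgroup Ω) (hT : T ≤ S ⊓ Subgroup.centralizer (S : Set Ω)) (hJT : ∀ NJ : Cfsg.FusionSystem (Cfsg.FusionSystem.normalizerIn S (Cfsg.thompsonSubgroupAOf S)), F.IsNormalizerSystem (Cfsg.thompsonSubgroupAOf S) NJ → ∀ NT : Cfsg.FusionSystem (Cfsg.FusionSystem.normalizerIn S T), F.IsNormalizerSystem T NT → NJ.IsSubsystemOf NT) : F.WeaklyClosed T ∨ ∃ X : Subgroup (MulAut ↥T), X ≤ F.autGroup T ∧ X ≠ ⊥ ∧ IsCyclic ↥X ∧ (Nat.card ↥X).Coprime p ∧ ∀ a b : ↥T, a ∈ Subgroup.closure {y : ↥T | ∃ ψ ∈ X, ∃ t : ↥T, y = ψ t * t⁻¹} → b ∈ Subgroup.closure {y : ↥T | ∃ ψ ∈ X, ∃ t : ↥T, y = ψ t * t⁻¹} → a ≠ 1 → b ≠ 1 → ∃ ψ ∈ X, ψ a = b := by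
  obtain ⟨G, _, _, ι, F', r, hr⟩ := exists_rich_rep F
  have hTS := hT.trans inf_le_left
  have hZ : im ι T ≤ F'.S ⊓ cz F'.S := by
    rw [r.S_eq, ← im_inf_cz r.inj le_rfl le_rfl]; exact im_mono ι hT
  refine or_iff_not_imp_right.2 fun hn => (r.wc_iff hTS).2 (nor_of (r.sat hS hF) (r.rich hr) hp hZ
    ?_ fun x h0 ⟨h1, h2, h3, h4⟩ => hn ?_).sc.wc
  · obtain ⟨NJ, j1, j2⟩ := r.exists_nrep (Q := thompsonSubgroupAOf S) (by
      rw [thompsonSubgroupAOf_eq]; exact jn_le S)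
    obtain ⟨NT, t1, t2⟩ := r.exists_nrep hTS
    have := (t2.le_iff_sub j2).1 (hJT NJ j1 NT t1)
    rwa [im_jA r.inj le_rfl, ← r.S_eq] at this
  obtain ⟨α, a1, a2⟩ := r.exists_mem_autGroup hTS (mem_aut_of h0 h1)
  have a3 : ∀ (k : ℕ) (t : T), fn ι ((α ^ k) t) = x ^ k * fn ι t * (x ^ k)⁻¹ := fun k => by
    induction k with
    | zero => simp
    | succ k ih => intro t; rw [pow_succ', MulAut.mul_apply, a2, ih, pow_succ']; group
  have inj : ∀ s t : T, fn ι s = fn ι t → s = t := fun s t e =>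
    Subtype.ext ((fn_inj r.inj (hTS s.2) (hTS t.2)).1 e)
  have a4 : α ^ orderOf x = 1 := MulEquiv.ext fun t => inj _ _ (by rw [a3, pow_orderOf_eq_one]; simp)
  have a5 : ∀ a ∈ closure {y : T | ∃ ψ ∈ zpowers α, ∃ t : T, y = ψ t * t⁻¹},
      fn ι a ∈ ⁅im ι T, zpowers x⁆ := fun a ha => by
    induction ha using closure_induction with
    | mem y hy =>
      obtain ⟨ψ, h5, t, rfl⟩ := hy
      obtain ⟨k, rfl⟩ := (isOfFinOrder_iff_pow_eq_one.2
        ⟨_, orderOf_pos x, a4⟩).mem_powers_iff_mem_zpowers.2 h5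
      rw [coe_mul, fn_mul ι (hTS (Subtype.prop _)) (hTS (Subtype.prop _)), coe_inv, fn_inv ι (hTS t.2),
        a3, commutator_comm]
      exact commutator_mem_commutator (pow_mem (mem_zpowers x) k) (fn_mem_im ι t.2)
    | one => simpa using one_mem _
    | mul y z _ _ h5 h6 => rw [coe_mul, fn_mul ι (hTS y.2) (hTS z.2)]; exact mul_mem h5 h6
    | inv y _ h5 => rw [coe_inv, fn_inv ι (hTS y.2)]; exact inv_mem h5
  refine ⟨zpowers α, zpowers_le.2 a1, fun e => h3 (mem_cz'.2 fun z hz => ?_), inferInstance, ?_,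
    fun a b ha hb a1 b1 => ?_⟩
  · obtain ⟨t, ht, rfl⟩ := (mem_im hTS).1 hz
    rw [← a2 ⟨t, ht⟩, zpowers_eq_bot.1 e]; rfl
  · rw [Nat.card_zpowers]; exact h2.coprime_dvd_left (orderOf_dvd_of_pow_eq_one a4)
  · obtain ⟨k, hk⟩ := h4 _ (a5 a ha) _ (a5 b hb) (fun e => a1 (inj _ _ (by simpa using e)))
      fun e => b1 (inj _ _ (by simpa using e))
    exact ⟨α ^ k, pow_mem (mem_zpowers α) k, inj _ _ ((a3 k a).trans hk)⟩

end Cfsg.Agent.S5278
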