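import Mathlib
import Cfsg.Statements.S5286
import Cfsg.Agent.Spc.Tree
-- import your own Cfsg.Agent.* helpers here

set_option autoImplicit false
universe u
open Cfsg

namespace Cfsg.Agent.S5286

open SpcTree Subgroup

section
variable {Ω : Type u} [Group Ω] {S : Subgroup Ω}

/-- The left regular representation. -/
def lam (S : Subgroup Ω) : S →* Equiv.Perm S := MulAction.toPermHom S S

theorem lam_apply (a b : S) : lam S a b = a * b := rfl

theorem lam_inj : Function.Injective (lam S) := fun a b h => by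
  simpa [lam_apply] using DFunLike.congr_fun h 1

theorem exists_equiv {P : Type*} [Group P] (f : P →* S) (hf : Function.Injective f) :
    ∃ (Q : Type u) (e : S ≃ Q × P), ∀ (x : P) (s : S), e (f x * s) = ((e s).1, x * (e s).2) := by
  let e0 : S ≃ (S ⧸ f.range) × f.range := (Equiv.ofBijective
    (fun q : (S ⧸ f.range) × f.range => q.1.out * (q.2 : S)) ⟨fun a b h => by
      have h1 : a.1 = b.1 := by
        have := congrArg (QuotientGroup.mk (s := f.range)) h
        simpa using this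
      exact Prod.ext h1 (Subtype.ext (mul_left_cancel (a := a.1.out) (h.trans (by rw [h1])))),
      fun s => ⟨⟨s, ⟨(s : S ⧸ f.range).out⁻¹ * s, QuotientGroup.eq.1 (by simp)⟩⟩, by simp⟩⟩).symm
  have h1 : ∀ (s : S) (y : f.range), e0 (s * y) = ((e0 s).1, (e0 s).2 * y) := by
    intro s y
    have h2 : ∀ q : (S ⧸ f.range) × f.range, e0.symm q = q.1.out * q.2 := fun q => rfl
    rw [Equiv.apply_eq_iff_eq_symm_apply, h2]
    conv_lhs => rw [← e0.symm_apply_apply s, h2]
    simp [mul_assoc]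
  let g := MonoidHom.ofInjective hf
  refine ⟨S ⧸ f.range, (Equiv.inv S).trans (e0.trans (Equiv.prodCongr (Equiv.refl _)
    ((Equiv.inv _).trans g.toEquiv.symm))), fun x s => ?_⟩
  have h3 := h1 s⁻¹ (g x)⁻¹
  have h4 : (f x * s)⁻¹ = s⁻¹ * ((g x)⁻¹ : f.range) := by
    rw [mul_inv_rev]; rfl
  simp only [Equiv.trans_apply, Equiv.inv_apply, h4, h3, Equiv.prodCongr_apply, Prod.map,
    Equiv.refl_apply, mul_inv_rev, inv_inv]
  congr 1
  change g.symm _ = x * g.symm _
  rw [map_mul, MulEquiv.symm_apply_apply]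

theorem exists_t [Finite S] {P : Type*} [Group P] (f g : P →* S) (hf : Function.Injective f)
    (hg : Function.Injective g) : ∃ t : Equiv.Perm S, ∀ x, t * lam S (f x) * t⁻¹ = lam S (g x) := by
  obtain ⟨Q, e, he⟩ := exists_equiv f hf
  obtain ⟨Q', e', he'⟩ := exists_equiv g hg
  haveI : Finite P := Finite.of_injective f hf
  haveI : Finite (Q × P) := Finite.of_equiv _ e
  haveI : Finite (Q' × P) := Finite.of_equiv _ e'
  haveI : Finite Q := Finite.of_injective (fun q : Q => (q, (1 : P))) fun a b h => congrArg Prod.fst h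
  haveI : Finite Q' := Finite.of_injective (fun q : Q' => (q, (1 : P))) fun a b h => congrArg Prod.fst h
  have h1 := (Nat.card_congr e).symm.trans (Nat.card_congr e')
  rw [Nat.card_prod, Nat.card_prod] at h1
  obtain ⟨k⟩ := Finite.card_eq.1 (Nat.eq_of_mul_eq_mul_right Nat.card_pos h1)
  refine ⟨e.trans ((Equiv.prodCongr k (Equiv.refl _)).trans e'.symm), fun x => ?_⟩
  rw [mul_inv_eq_iff_eq_mul]
  ext1 s
  simp only [Equiv.Perm.mul_apply, lam_apply, Equiv.trans_apply, he]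
  rw [Equiv.symm_apply_eq, he']
  simp

variable (F : Cfsg.FusionSystem S)

/-- Types of edges. -/
structure Ed where
  P : Subgroup Ω
  φ : P →* Ω
  hφ : φ ∈ F.Hom P
  t : Equiv.Perm S
  ht : ∀ x : P, t * lam S ⟨x, (F.le_of_mem hφ).1 x.2⟩ * t⁻¹ = lam S ⟨φ x, (F.le_of_mem hφ).2 x⟩

/-- The edges. -/
abbrev E := Σ i : Ed F, Equiv.Perm S ⧸ (i.P.subgroupOf S).map (lam S)

/-- The vertices. -/
abbrev V (S : Subgroup Ω) := Equiv.Perm S ⧸ (lam S).range

/-- Origin of an edge. -/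
def src (e : E F) : V S := Quotient.map' id (fun a b h => by
  rw [QuotientGroup.leftRel_apply] at h ⊢
  obtain ⟨x, -, h⟩ := h
  exact ⟨x, h⟩) e.2

/-- Terminus of an edge. -/
def tgt (e : E F) : V S := Quotient.map' (· * e.1.t⁻¹) (fun a b h => by
  rw [QuotientGroup.leftRel_apply] at h ⊢
  obtain ⟨x, hx, h⟩ := h
  refine ⟨_, (e.1.ht ⟨x, hx⟩).symm.trans ?_⟩
  change e.1.t * lam S x * _ = _
  rw [h]
  group) e.2

theorem src_smul (γ : Equiv.Perm S) (e : E F) : src F (γ • e) = γ • src F e := by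
  obtain ⟨i, q⟩ := e
  induction q using QuotientGroup.induction_on
  rfl

theorem tgt_smul (γ : Equiv.Perm S) (e : E F) : tgt F (γ • e) = γ • tgt F e := by
  obtain ⟨i, q⟩ := e
  induction q using QuotientGroup.induction_on with
  | H c => exact congrArg (QuotientGroup.mk (s := (lam S).range)) (mul_assoc γ c i.t⁻¹)

/-- The group. -/
abbrev GG := lifts (src F) (tgt F) (src_smul F) (tgt_smul F) ((1 : Equiv.Perm S) : V S)

theorem lam_fix (s : S) : lam S s • ((1 : Equiv.Perm S) : V S) = ((1 : Equiv.Perm S) : V S) := by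
  change ((lam S s * 1 : Equiv.Perm S) : V S) = _
  rw [QuotientGroup.eq]
  exact ⟨s⁻¹, by simp⟩

/-- The embedding. -/
def io : S →* GG F := (SemidirectProduct.inr.comp (lam S)).codRestrict _ fun s => by
  change PW _ _ _ 1 (lam S s • _)
  rw [lam_fix]
  exact PW.one _

/-- The fusion at a vertex is in the system. -/
def Good {P : Subgroup Ω} (hP : P ≤ S) (a : Equiv.Perm S) : Prop :=
  ∃ ψ, ∃ h : ψ ∈ F.Hom P, ∀ x : P,
    a⁻¹ * lam S ⟨x, hP x.2⟩ * a = lam S ⟨ψ x, (F.le_of_mem h).2 x⟩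

theorem good_congr {P : Subgroup Ω} (hP : P ≤ S) {a b : Equiv.Perm S} (h : (a : V S) = b)
    (ha : Good F hP a) : Good F hP b := by
  obtain ⟨s, hs⟩ := QuotientGroup.eq.1 h
  obtain ⟨ψ, h1, h2⟩ := ha
  refine ⟨_, F.comp_mem h1 (F.conj_mem le_rfl (S.inv_mem s.2)) (F.le_of_mem h1).2, fun x => ?_⟩
  rw [eq_inv_mul_iff_mul_eq] at hs
  rw [← hs, show (a * lam S s)⁻¹ * lam S ⟨x, hP x.2⟩ * (a * lam S s) =
    (lam S s)⁻¹ * (a⁻¹ * lam S ⟨x, hP x.2⟩ * a) * lam S s by group, h2, ← map_inv, ← map_mul,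
    ← map_mul]
  congr 1
  ext
  simp [Cfsg.conjHom]

theorem good_edge {P : Subgroup Ω} (hP : P ≤ S) (i : Ed F) (c : Equiv.Perm S)
    (hc : ∀ x : P, c⁻¹ * lam S ⟨x, hP x.2⟩ * c ∈ (i.P.subgroupOf S).map (lam S)) :
    Good F hP c ↔ Good F hP (c * i.t⁻¹) := by
  have e : ∀ x : P, (c * i.t⁻¹)⁻¹ * lam S ⟨x, hP x.2⟩ * (c * i.t⁻¹) =
      i.t * (c⁻¹ * lam S ⟨x, hP x.2⟩ * c) * i.t⁻¹ := fun x => by group
  constructor
  · rintro ⟨ψ, h1, h2⟩
    have h3 : ∀ x, ψ x ∈ i.P := fun x => by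
      obtain ⟨y, hy, h4⟩ := hc x
      rw [h2] at h4
      rw [lam_inj h4] at hy
      exact hy
    refine ⟨_, F.comp_mem h1 i.hφ h3, fun x => ?_⟩
    rw [e, h2]
    exact i.ht ⟨ψ x, h3 x⟩
  · rintro ⟨ψ, h1, h2⟩
    obtain ⟨χ, h3, h4⟩ := F.inv_mem i.hφ
    choose y hy h5 using hc
    have h6 : ∀ x, ψ x = i.φ ⟨y x, hy x⟩ := fun x => by
      have h7 := h2 x
      rw [e, ← h5] at h7
      exact (congrArg Subtype.val (lam_inj ((i.ht ⟨y x, hy x⟩).symm.trans h7))).symm
    refine ⟨_, F.comp_mem h1 h3 (fun x => ⟨_, (h6 x).symm⟩), fun x => ?_⟩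
    rw [← h5]
    congr 1
    ext
    exact (h4 ⟨y x, hy x⟩).symm.trans (congrArg χ (Subtype.ext (h6 x).symm))

end

/-- Every fusion system F over a finite p-group S, saturated or not, is realized by a possibly infinite group: there are a group G and an injective homomorphism ι of S into G such that the maps of F are exactly the conjugations by elements of G between subgroups of ι(S), every finite subgroup of G is conjugate to a subgroup of ι(S), and G has a free normal subgroup whose index divides (#S)!. -/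
theorem result {Ω : Type u} [Group Ω] {S : Subgroup Ω} [Finite S] (p : ℕ) [Fact p.Prime] (hS : IsPGroup p ↥S) (F : Cfsg.FusionSystem S) : ∃ (G : Type u) (_ : Group G) (ι : ↥S →* G), F.IsRealizedBy ι ∧ (∀ H : Subgroup G, Finite ↥H → ∃ g : G, ∀ h ∈ H, g * h * g⁻¹ ∈ ι.range) ∧ ∃ N : Subgroup G, N.Normal ∧ IsFreeGroup ↥N ∧ N.index ∣ (Nat.card ↥S).factorial := by
  classical
  refine ⟨GG F, inferInstance, io F, ⟨fun a b h => lam_inj (SemidirectProduct.inr_injective
    (congrArg Subtype.val h)), fun P hP φ hφ => ⟨fun h => ?_, ?_⟩⟩, fun H hH => ?_,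
    _, inferInstance, SpcTree.free_ker _, ?_⟩
  · obtain ⟨t, ht⟩ := exists_t (Subgroup.inclusion hP) (φ.codRestrict S hφ)
      (Subgroup.inclusion_injective hP) (fun a b e => F.injective_of_mem h (congrArg Subtype.val e))
    let i : Ed F := ⟨P, φ, h, t, ht⟩
    let e0 : E F := ⟨i, ((1 : Equiv.Perm S) : _ ⧸ _)⟩
    let g : GG F := ⟨⟨FreeGroup.of e0, t⁻¹⟩, [(e0, true)], rfl, rfl, by
      change ((1 * t⁻¹ : Equiv.Perm S) : V S) = ((t⁻¹ * 1 : Equiv.Perm S) : V S)
      rw [one_mul, mul_one]⟩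
    refine ⟨g⁻¹, fun x => ?_⟩
    rw [inv_inv, mul_assoc, eq_inv_mul_iff_mul_eq]
    have h1 : lam S ⟨x, hP x.2⟩ • e0 = e0 := by
      change (⟨i, ((lam S ⟨x, hP x.2⟩ * 1 : Equiv.Perm S) : _ ⧸ _)⟩ : E F) = ⟨i, _⟩
      congr 1
      rw [QuotientGroup.eq]
      exact ⟨⟨x, hP x.2⟩⁻¹, P.inv_mem x.2, by simp⟩
    refine Subtype.ext (SemidirectProduct.ext ?_ ?_)
    · change FreeGroup.of e0 * SpcTree.act _ _ t⁻¹ 1 = 1 * FreeGroup.of (lam S ⟨x, hP x.2⟩ • e0)
      rw [h1, map_one, mul_one, one_mul]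
    · change t⁻¹ * lam S ⟨φ x, hφ x⟩ = lam S ⟨x, hP x.2⟩ * t⁻¹
      rw [← i.ht x]
      change t⁻¹ * (t * _ * t⁻¹) = _
      group
  · rintro ⟨g, hg⟩
    have h1 : ∀ x : P, io F ⟨x, hP x.2⟩ * g⁻¹ = g⁻¹ * io F ⟨φ x, hφ x⟩ := fun x => by
      rw [hg]; group
    generalize g⁻¹ = k at h1
    have h2 : ∀ x : P, SpcTree.act _ _ (lam S ⟨x, hP x.2⟩) k.1.left = k.1.left := fun x => by
      have := congrArg (fun z : GG F => z.1.left) (h1 x)
      simpa [io] using this
    have h3 : ∀ x : P, lam S ⟨x, hP x.2⟩ * k.1.right = k.1.right * lam S ⟨φ x, hφ x⟩ := fun x =>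
      congrArg (fun z : GG F => z.1.right) (h1 x)
    have h4 := SpcTree.IsPath.transport (Q := fun v : V S => ∃ a : Equiv.Perm S, (a : V S) = v ∧
      Good F hP a) (SpcTree.PW.word k.2) (fun l hl => ?_) ⟨1, rfl, _, F.conj_mem hP S.one_mem,
        fun x => by simp [Cfsg.conjHom]⟩
    · obtain ⟨a, ha, h5⟩ := h4
      obtain ⟨ψ, h6, h7⟩ := good_congr F hP (b := k.1.right) (ha.trans (by
        change ((k.1.right * 1 : Equiv.Perm S) : V S) = _
        rw [mul_one])) h5
      have : φ = ψ := MonoidHom.ext fun x => by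
        have h8 := h7 x
        rw [mul_assoc, h3, inv_mul_cancel_left] at h8
        exact congrArg Subtype.val (lam_inj h8)
      exact this ▸ h6
    · have h5 := fun x => SpcTree.fix_letters (h2 x) l hl
      obtain ⟨⟨i, q⟩, b⟩ := l
      induction q using QuotientGroup.induction_on with
      | H c =>
        have h6 := good_edge F hP i c fun x => by
          have h7 : ((lam S ⟨x, hP x.2⟩ * c : Equiv.Perm S) :
              _ ⧸ (i.P.subgroupOf S).map (lam S)) = c := eq_of_heq (Sigma.mk.inj (h5 x)).2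
          have := QuotientGroup.eq.1 h7.symm
          rwa [← mul_assoc] at this
        exact ⟨fun ⟨a, h7, h8⟩ => ⟨_, rfl, h6.1 (good_congr F hP h7 h8)⟩,
          fun ⟨a, h7, h8⟩ => ⟨_, rfl, h6.2 (good_congr F hP h7 h8)⟩⟩
  · obtain ⟨g, hg⟩ := SpcTree.fin_sub (src_smul F) (tgt_smul F) _ (fun y => by
      induction y using QuotientGroup.induction_on with
      | H a => exact ⟨a, congrArg (QuotientGroup.mk (s := (lam S).range)) (mul_one a)⟩) H
    refine ⟨g, fun h hh => ?_⟩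
    have h1 := hg h hh
    generalize g * h * g⁻¹ = k at h1
    have h2 : SpcTree.PW _ _ _ k.1.left _ := k.2
    rw [h1] at h2
    have h3 : ((1 : Equiv.Perm S) : V S) = ((k.1.right * 1 : Equiv.Perm S) : V S) :=
      (SpcTree.PW.one _).uniq h2
    obtain ⟨s, hs⟩ := QuotientGroup.eq.1 h3
    exact ⟨s, Subtype.ext (SemidirectProduct.ext h1.symm (by simpa [io] using hs))⟩
  · rw [Subgroup.index_ker, ← Nat.card_perm]
    exact Subgroup.card_subgroup_dvd_card _

end Cfsg.Agent.S5286
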