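import Cfsg.Statements.S5290
import Cfsg.Agent.Fusion.Br3
-- import your own Cfsg.Agent.* helpers here

set_option autoImplicit false
open Cfsg

namespace Cfsg.Agent.S5290

open Cfsg.Agent.Fusion


/-- Let F be a saturated fusion system over a finite p-group S and Q a subgroup of S. Then Q is normal in F (F = N_F(Q)) if and only if the inner fusion system of Q, consisting of the conjugations by elements of Q on subgroups of Q, is a weakly normal subsystem of F (both saturated, Q strongly closed, invariant under F-conjugation, with the Frattini property). -/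
theorem result {Ω : Type*} [Group Ω] {S : Subgroup Ω} [Finite S] (p : ℕ) [Fact p.Prime] (hS : IsPGroup p S)
    (F : Cfsg.FusionSystem S) (hF : F.IsSaturated p)
    (Q : Subgroup Ω) (hQ : Q ≤ S) :
    F.IsNormal Q ↔ (Cfsg.innerFusionSystem Q).IsWeaklyNormalIn F p := by
  obtain ⟨G, _, _, ι, F', r, -⟩ := exists_rich_rep F
  rw [r.nor_iff hQ, r.wn_iff (rep_inner r.inj hQ) hS]
  exact ⟨fun h => ⟨FS.inn_sat (isPGroup_im ι (hS.to_le hQ)), r.sat hS hF, h.invt_inn⟩,
    fun h => h.satF.nor_of_invt_inn h.invt⟩

end Cfsg.Agent.S5290
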