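import Cfsg.Statements.S5291
import Cfsg.Agent.Fusion.Br3
-- import your own Cfsg.Agent.* helpers here

set_option autoImplicit false
open Cfsg

namespace Cfsg.Agent.S5291

open Cfsg.Agent.Fusion


/-- Let F be a saturated fusion system over a finite p-group S and E a weakly normal subsystem of F over a subgroup T. Suppose a subgroup R of T is normal in E (E = N_E(R)), and let R* be the subgroup of T generated by the images of R under all maps of F with source R. Then R* is normal in F (F = N_F(R*)). -/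
theorem result {Ω : Type*} [Group Ω] {S : Subgroup Ω} [Finite S] (p : ℕ) [Fact p.Prime] (hS : IsPGroup p S)
    (F : Cfsg.FusionSystem S) (hF : F.IsSaturated p)
    {T : Subgroup Ω} (E : Cfsg.FusionSystem T) (hE : E.IsWeaklyNormalIn F p)
    (R : Subgroup Ω) (hR : E.IsNormal R) :
    F.IsNormal (Subgroup.closure {x : Ω | ∃ φ ∈ F.Hom R, ∃ r : R, x = φ r}) := by
  obtain ⟨G, _, _, ι, F', r, -⟩ := exists_rich_rep F
  obtain ⟨E', s⟩ := r.exists_sub hE.2.2.1
  have hR' := hR.1.trans s.le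
  have h1 : {x : Ω | ∃ φ ∈ F.Hom R, ∃ r : R, x = φ r} ⊆ S := by
    rintro _ ⟨φ, hφ, x, rfl⟩; exact hom_mem hφ x
  rw [r.nor_iff ((Subgroup.closure_le _).2 h1), im_closure ι h1]
  convert (r.sat hS hF).nor_closure ((r.invt_iff s).1 hE.2.2) ((s.nor_iff hR').1 hR) using 1
  apply le_antisymm
  · rw [Subgroup.closure_le]
    rintro _ ⟨_, ⟨φ, hφ, x, rfl⟩, rfl⟩
    obtain ⟨g, hg, e⟩ := r.fwd hφ
    refine (le_sSup (a := cj g (im ι R)) (by exact ⟨g, hg, rfl⟩) : cj g (im ι R) ≤ _) ?_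
    rw [e]; exact conj_mem_cj_of (fn_mem_im ι x.2)
  · refine sSup_le ?_
    rintro _ ⟨g, hg, rfl⟩
    obtain ⟨φ, hφ, e⟩ := r.bwd' hR' hg
    rw [cj_le_iff, forall_mem_im hR']
    exact fun x hx => Subgroup.subset_closure ⟨_, ⟨φ, hφ, ⟨x, hx⟩, rfl⟩, e _⟩

end Cfsg.Agent.S5291
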