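import Cfsg.Statements.S5292
import Cfsg.Agent.Fusion.GrpF
-- import your own Cfsg.Agent.* helpers here

set_option autoImplicit false
universe u
open Cfsg

namespace Cfsg.Agent.S5292

open Cfsg.Agent.Fusion

theorem aux {G P₀ : Type*} [Group G] [Finite G] [Group P₀] [Finite P₀] {p : ℕ} [Fact p.Prime] {F : FS G}
    {H : Subgroup G} (h : FS.IsMod p F H) (η : P₀ ≃* F.core) :
    IsPSolvable p H ↔ IsPSolvable p (dn η (F.aut F.core)) := by
  have e : dn η (F.aut F.core) = ((rho η).comp (Subgroup.inclusion h.le_nz_core)).range := by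
    rw [h.aut_eq F.core_le, dn_ai, MonoidHom.range_comp, Subgroup.inclusion_range]; rfl
  rw [e]
  haveI := finite_mulAut P₀
  refine ⟨fun h1 => Core.IsPSolvable.of_surjective h1 (MonoidHom.rangeRestrict_surjective _),
    fun h1 => Core.IsPSolvable.extension _ (Core.isPSolvable_of_isPGroup ?_)
      (Core.IsPSolvable.of_mulEquiv h1 (QuotientGroup.quotientKerEquivRange _).symm)⟩
  refine ((h.sat.pg_le F.core_le).comap_subtype (K := H)).to_le fun x hx => h.cz_core ⟨x.2, ?_⟩
  rw [MonoidHom.mem_ker, MonoidHom.comp_apply, ← MonoidHom.mem_ker, ker_rho] at hx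
  exact hx


/-- Let F be a saturated fusion system over a finite p-group S. Then F is the fusion system of some finite p-solvable group on a Sylow p-subgroup if and only if F is constrained (some subgroup normal in F is centric in F) and the group of automorphisms that F induces on its largest normal subgroup O_p(F) is p-solvable. -/
theorem result {Ω : Type u} [Group Ω] {S : Subgroup Ω} [Finite S] (p : ℕ) [Fact p.Prime] (hS : IsPGroup p S)
    (F : Cfsg.FusionSystem S) (hF : F.IsSaturated p) :
    (∃ (G : Type u) (_ : Group G) (_ : Finite G) (ι : S →* G), Cfsg.IsPSolvable p G ∧ F.IsRealizedBy ι ∧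
        ∃ T : Sylow p G, (T : Subgroup G) = ι.range) ↔
      (F.IsConstrained p ∧ Cfsg.IsPSolvable p ↥(F.autGroup F.core)) := by
  haveI : Finite F.core := finite_of_inj (ι := MonoidHom.id S) Function.injective_id (Fusion.core_le F)
  constructor
  · rintro ⟨G, _, _, ι, h0, h1, T, h2⟩
    have r := rep_ofGroup_iff.1 h1
    have hT := h2 ▸ syl_top T
    set N := pPrimeCore p G
    have q := FS.quo_ofGroup ((QuotientGroup.mk' N).comp (tp G)) hT
    rw [im_comp_tp, (MonoidHom.range_eq_top (f := (QuotientGroup.mk' N).comp (tp G))).2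
      ((QuotientGroup.mk'_surjective N).comp (Subgroup.topEquiv (G := G)).surjective),
      ← MonoidHom.range_comp] at q
    have h6 := hT.map (QuotientGroup.mk' N)
    rw [Subgroup.map_top_of_surjective _ (QuotientGroup.mk'_surjective _),
        ← MonoidHom.range_comp] at h6
    have h4 : ι.range ⊓ N = ⊥ := eq_bot_iff.2 fun x hx => by
      obtain ⟨k, hk⟩ := isPGroup_iff.1 hT.pg x hx.1
      exact eq_one_of_p_of_coprime hk ((Core.pPrimeCore_coprime p).coprime_dvd_left
        (Subgroup.orderOf_dvd_natCard _ hx.2))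
    have s := r.of_quo q (eq_bot_iff.2 fun x hx => h4.le ⟨hx.1, by
        have := (mem_pre.1 hx.2).2
        rwa [fn_comp_tp, Subgroup.mem_bot, QuotientGroup.mk'_apply, QuotientGroup.eq_one_iff] at this⟩)
      ((QuotientGroup.mk' N).comp ι) ((injective_iff_map_eq_one _).2 fun x hx => r.inj (by
        rw [map_one]
        exact h4.le ⟨⟨x, rfl⟩, (QuotientGroup.eq_one_iff _).1 hx⟩)) le_rfl fun x hx => by
      rw [fn_comp_tp, fn_of_mem _ hx, fn_of_mem _ hx]; rfl
    have h7 := Core.IsPSolvable.quotient h0 N
    have h8 := FS.isMod_ofGroup h6 h6.opm_le (le_nz_opm_bot p ⊤) (by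
      rw [opm_top_bot, top_inf_eq]
      exact Core.IsPSolvable.centralizer_pCore_le h7 (Core.pPrimeCore_quotient_pPrimeCore p))
    refine ⟨(s.con_iff hS).2 h8.con', ?_⟩
    rw [s.autGroup_eq (Fusion.core_le F)]
    generalize eta s.inj (Fusion.core_le F) = η
    revert η
    rw [s.im_core]
    exact fun η => (aux h8 η).1 (Core.IsPSolvable.subgroup h7 _)
  · rintro ⟨h1, h2⟩
    obtain ⟨G, _, _, ι, F', r, hr⟩ := exists_rich_rep F
    obtain ⟨H, hH⟩ := ((r.con_iff hS).1 h1).exists_model (r.rich hr) le_rfl
    refine ⟨H, inferInstance, inferInstance, _, ?_, r.realizable_toSub hH.syl hH.eq⟩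
    rw [r.autGroup_eq (Fusion.core_le F)] at h2
    revert h2
    generalize eta r.inj (Fusion.core_le F) = η
    revert η
    rw [r.im_core]
    exact fun η => (aux hH η).2

end Cfsg.Agent.S5292
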