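import Cfsg.Statements.S5295
import Cfsg.Agent.Fusion.WC
-- import your own Cfsg.Agent.* helpers here

set_option autoImplicit false
universe u
open Cfsg

namespace Cfsg.Agent.S5295

open Cfsg.Agent.Fusion


/-- Let F be a saturated fusion system over a finite p-group S with p odd. Then the centre Z(F) of F is a direct factor of Z(S): there is a subgroup K of Z(S) with Z(F) ∩ K = 1 and Z(F)K = Z(S). (At the prime 2 this can fail.) -/
theorem result {Ω : Type u} [Group Ω] {S : Subgroup Ω} [Finite S] (p : ℕ) [Fact p.Prime] (hp : p ≠ 2) (hS : IsPGroup p S)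
    (F : Cfsg.FusionSystem S) (hF : F.IsSaturated p) :
    ∃ K : Subgroup Ω, K ≤ (S ⊓ Subgroup.centralizer (S : Set Ω)) ∧ F.center ⊓ K = ⊥ ∧ F.center ⊔ K = (S ⊓ Subgroup.centralizer (S : Set Ω)) := by
  obtain ⟨G, _, _, ι, F', r, hr⟩ := exists_rich_rep F
  have hF' := r.sat hS hF
  have h0 := (le_nz _).trans (W_nz conjFunctor_jn hF'.pg)
  obtain ⟨K', h1, h2, h3⟩ := (hF'.NF (FS.FN.of_normal (PLocal.jn_le _) h0)).exists_compl_center
    (FS.NF_nor (PLocal.jn_le _)) (by rw [FS.NF_S_of_normal h0]; exact center_le_jn _)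
  rw [FS.NF_S_of_normal h0] at h1 h3
  rw [hF'.center_NF_jn (r.rich hr) hp] at h2 h3
  obtain ⟨K, hK, rfl⟩ := r.lift (h1.trans inf_le_left)
  have hZ := Fusion.center_le F
  rw [← r.im_center] at h2 h3
  rw [← r.im_Z] at h1 h3
  rw [← im_inf r.inj, im_eq_bot r.inj (inf_le_right.trans hK)] at h2
  rw [← im_sup ι hZ hK, im_inj r.inj (sup_le hZ hK) inf_le_left] at h3
  exact ⟨K, (im_le_im r.inj hK).1 h1, h2, h3⟩

end Cfsg.Agent.S5295
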