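import Cfsg.Statements.S5297
import Cfsg.Agent.Fusion.Small2
-- import your own Cfsg.Agent.* helpers here

set_option autoImplicit false
universe u
open Cfsg

namespace Cfsg.Agent.S5297

open Cfsg.Agent.Fusion


/-- Let F be a saturated fusion system over a finite p-group S. If every map of F between cyclic subgroups of the hyperfocal subgroup of F of order p or 4 is a map of the normalizer system of S (it extends to a map of F defined on all of S), then S is normal in F. -/
theorem result {Ω : Type u} [Group Ω] {S : Subgroup Ω} [Finite S] (p : ℕ) [Fact p.Prime] (hS : IsPGroup p S)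
    (F : Cfsg.FusionSystem S) (hF : F.IsSaturated p)
    (h : ∀ A B : Subgroup Ω, A ≤ (F.hyperfocalSubgroup p) → B ≤ (F.hyperfocalSubgroup p) → IsCyclic ↥A → (Nat.card ↥A = p ∨ Nat.card ↥A = 4) → IsCyclic ↥B → (Nat.card ↥B = p ∨ Nat.card ↥B = 4) →
      F.homSet A B ⊆ F.normalizerHom S A) :
    F.IsNormal S := by
  obtain ⟨G, _, _, ι, F', r, -⟩ := exists_rich_rep F
  have hF' := r.sat hS hF
  refine r.nor_S_iff.2 (hF'.nor_S_of_small fun y hy h1 g hg => ?_)
  by_cases h0 : y = 1
  · exact ⟨1, one_mem _, by simp [h0]⟩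
  obtain ⟨x, hx, rfl, φ, h2, h3, h4⟩ := r.small_cyclic hF' h hy h1 h0 hg
  rw [r.mem_normalizerHom le_rfl (hom_le h2) (hom_mem h2) h3, ← r.S_eq, FS.NF_M le_rfl] at h4
  obtain ⟨-, c, h5, h6, -⟩ := h4
  exact ⟨_, h6, (conj_mul_cz h5 (fn_mem_im ι (Subgroup.mem_zpowers x))).symm⟩

end Cfsg.Agent.S5297
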