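import Cfsg.Statements.S5298
import Cfsg.Agent.Fusion.Small2
-- import your own Cfsg.Agent.* helpers here

set_option autoImplicit false
universe u
open Cfsg

namespace Cfsg.Agent.S5298

open Cfsg.Agent.Fusion


/-- Let F be a saturated fusion system over a finite p-group S. If every map of F between cyclic subgroups of the hyperfocal subgroup of F of order p or 4 is conjugation by an element of S, then F is the inner fusion system of S. -/
theorem result {Ω : Type u} [Group Ω] {S : Subgroup Ω} [Finite S] (p : ℕ) [Fact p.Prime] (hS : IsPGroup p S)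
    (F : Cfsg.FusionSystem S) (hF : F.IsSaturated p)
    (h : ∀ A B : Subgroup Ω, A ≤ (F.hyperfocalSubgroup p) → B ≤ (F.hyperfocalSubgroup p) → IsCyclic ↥A → (Nat.card ↥A = p ∨ Nat.card ↥A = 4) → IsCyclic ↥B → (Nat.card ↥B = p ∨ Nat.card ↥B = 4) →
      F.homSet A B ⊆ (Cfsg.innerFusionSystem S).Hom A) :
    ∀ P : Subgroup Ω, F.Hom P = (Cfsg.innerFusionSystem S).Hom P := by
  obtain ⟨G, _, _, ι, F', r, -⟩ := exists_rich_rep F
  have hF' := r.sat hS hF
  refine (r.pa_iff hF').2 (hF'.pa_of_small fun y hy h1 g hg => ?_)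
  by_cases h0 : y = 1
  · exact ⟨1, one_mem _, by simp [h0]⟩
  obtain ⟨x, hx, rfl, φ, h2, h3, h4⟩ := r.small_cyclic hF' h hy h1 h0 hg
  obtain ⟨-, c, h5, h6⟩ := FS.inn_M.1 (r.inner.M_of h4 h3)
  exact ⟨_, h6, (conj_mul_cz h5 (fn_mem_im ι (Subgroup.mem_zpowers x))).symm⟩

end Cfsg.Agent.S5298
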