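import Cfsg.Statements.S5300
import Cfsg.Agent.Fusion.Small2
-- import your own Cfsg.Agent.* helpers here

set_option autoImplicit false
universe u
open Cfsg

namespace Cfsg.Agent.S5300

open Cfsg.Agent.Fusion


/-- Let F be a saturated fusion system over a finite p-group S. If every cyclic subgroup of the focal subgroup of F of order p (of order 2 or 4 when p = 2) is normal in S, then S is normal in F. -/
theorem result {Ω : Type u} [Group Ω] {S : Subgroup Ω} [Finite S] (p : ℕ) [Fact p.Prime] (hS : IsPGroup p S)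
    (F : Cfsg.FusionSystem S) (hF : F.IsSaturated p)
    (hnorm : ∀ x ∈ F.focalSubgroup, (x ^ p = 1 ∨ (p = 2 ∧ x ^ 4 = 1)) → ∀ s ∈ S, s * x * s⁻¹ ∈ Subgroup.zpowers x) :
    F.IsNormal S := by
  obtain ⟨G, _, _, ι, F', r, -⟩ := exists_rich_rep F
  have hF' := r.sat hS hF
  refine r.nor_S_iff.2 (hF'.nor_S_of_zpowers fun y hy h1 => ?_)
  have h2 := F'.hyp_le_foc p hy
  rw [← r.im_foc] at h2
  obtain ⟨x, hx, rfl⟩ := (mem_im (focal_le F)).1 h2
  have hx' := focal_le F hx
  rw [← im_zpowers ι hx', r.S_eq, im_le_nz_iff r.inj le_rfl (Subgroup.zpowers_le.2 hx')]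
  simp only [Sm, fn_pow_eq_one r.inj hx'] at h1
  refine le_nz_iff.2 ?_
  rintro s hs _ ⟨k, rfl⟩
  simpa using zpow_mem (hnorm x hx h1 s hs) k

end Cfsg.Agent.S5300
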