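import Cfsg.Statements.S5301
import Cfsg.Agent.Fusion.Br3
-- import your own Cfsg.Agent.* helpers here

set_option autoImplicit false
universe u
open Cfsg

namespace Cfsg.Agent.S5301

open Cfsg.Agent.Fusion


/-- Let F be a saturated fusion system over a finite p-group S. If for every subgroup P of S that is fully normalized, centric and radical in F the automorphism group that F induces on P has a normal Sylow p-subgroup, then S is normal in F. -/
theorem result {Ω : Type u} [Group Ω] {S : Subgroup Ω} [Finite S] (p : ℕ) [Fact p.Prime] (hS : IsPGroup p S)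
    (F : Cfsg.FusionSystem S) (hF : F.IsSaturated p)
    (hcl : ∀ P : Subgroup Ω, F.IsFullyNormalized P → F.IsCentric P → F.IsRadical p P →
      ∃ R : Sylow p ↥(F.autGroup P), (R : Subgroup ↥(F.autGroup P)).Normal) :
    F.IsNormal S := by
  obtain ⟨G, _, _, ι, F', r, -⟩ := exists_rich_rep F
  have hF' := r.sat hS hF
  refine r.nor_S_iff.2 (hF'.nor_S fun P' hP' => ?_)
  obtain ⟨P, hP, rfl⟩ := r.lift hP'.le
  have hn := (r.fn_iff hP).2 hP'.fn
  obtain ⟨R, hR⟩ := hcl P hn ((r.cent_iff hP).2 hP'.cent) ((r.rad_iff hP).2 (hP'.rad hF'.pg))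
  obtain ⟨-, R', hR'⟩ := (r.fa_iff hS hP).2 (hF'.fa hP'.fn)
  have := finite_of_inj r.inj hP
  have := finite_mulAut P
  have := R.unique_of_normal hR
  rw [Subsingleton.elim R R', hR', normal_subgroupOf_iff, r.autS_eq hP, r.autGroup_eq hP,
    le_nz_dn_iff _ (cz_le_ai _ _) (F'.aut_le_nz _) (ai_le_nz _ _)] at hR
  · exact (hP'.lt hF').ne (hF'.isS_of_normal hP'.cent (hP'.rad hF'.pg) hR)
  · rw [r.autS_eq hP, r.autGroup_eq hP]; exact dn_mono _ (FS.aiS_le_aut hP'.le)

end Cfsg.Agent.S5301
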