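import Cfsg.Statements.S5312
import Cfsg.Agent.Fusion.CP
-- import your own Cfsg.Agent.* helpers here

set_option autoImplicit false
open Cfsg

namespace Cfsg.Agent.S5312

open Cfsg.Agent.Fusion


/-- Let F be a saturated fusion system over a finite p-group S. Every component C of F is a normal subsystem of every generalized Fitting subsystem of F. -/
theorem result {Ω : Type*} [Group Ω] {S : Subgroup Ω} [Finite S] (p : ℕ) [Fact p.Prime] (hS : IsPGroup p S) (F : Cfsg.FusionSystem S) (hF : F.IsSaturated p)
    {T : Subgroup Ω} (C : Cfsg.FusionSystem T) (hC : C.IsComponentIn F p)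
    {U : Subgroup Ω} (D : Cfsg.FusionSystem U) (hD : D.IsGeneralizedFittingOf F p) : C.IsNormalIn D p := by
  obtain ⟨G, _, _, ι, F', r, hr₀⟩ := exists_rich_rep F
  have hr := r.rich hr₀
  obtain ⟨-, D', d, g⟩ := r.exists_gf hS hr₀.full hr hD
  obtain ⟨C', s, h⟩ := r.exists_comp hS hr hC
  exact d.norIn_of s (g.comp_norIn hr h)

end Cfsg.Agent.S5312
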