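import Cfsg.Statements.S5315
import Cfsg.Agent.Fusion.Solv
-- import your own Cfsg.Agent.* helpers here

set_option autoImplicit false
open Cfsg

namespace Cfsg.Agent.S5315

open Cfsg.Agent.Fusion


/-- An analogue of Grün's lemma for fusion systems. Let F be a saturated fusion system over a finite p-group S that is perfect in the sense that its hyperfocal subgroup is all of S (F coincides with its p-residual subsystem). Then the second centre of F equals its centre: every fusion system over S/(Z(F) ∩ S) that is the factor system of F modulo its centre Z(F), read through the quotient map, has trivial centre. -/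
theorem result {Ω : Type*} [Group Ω] {S : Subgroup Ω} [Finite S] (p : ℕ) [Fact p.Prime] (hS : IsPGroup p S) (F : Cfsg.FusionSystem S) (hF : F.IsSaturated p)
    (hperf : F.hyperfocalSubgroup p = S)
    (E : Cfsg.FusionSystem (⊤ : Subgroup (↥S ⧸ (F.center).subgroupOf S)))
    (hE : F.IsFactorSystem F.center (QuotientGroup.mk' ((F.center).subgroupOf S)) E) : E.center = ⊥ := by
  obtain ⟨G, _, _, ι, F₁, r, -⟩ := exists_rich_rep F
  obtain ⟨G', _, _, κ, E', θ', s, -, t⟩ := r.exists_tr E (mem_of_isFactorSystem hE)
  have hF' := r.sat hS hF
  obtain ⟨q, e⟩ := t.quo r s hE hF' ((r.sc_iff (Fusion.center_le F)).2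
    (by rw [r.im_center]; exact F₁.cen_center.nor.sc))
  rw [s.center_eq_bot_iff]
  exact q.center_eq_bot hF' (hF'.foc_eq_S (by rw [← r.im_hyp, hperf, r.S_eq])) (e.trans r.im_center)

end Cfsg.Agent.S5315
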