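import Cfsg.Statements.S5328
import Cfsg.Agent.Fusion.Char
import Cfsg.Agent.Fusion.Model2
-- import your own Cfsg.Agent.* helpers here

set_option autoImplicit false
universe u
open Cfsg

namespace Cfsg.Agent.S5328

open Cfsg.Agent.Fusion


/-- Every fusion system over a finite p-group S, saturated or not, is realized inside some finite group: there is a finite group G and an injective homomorphism ι of S into G such that the maps of the system are exactly the homomorphisms between subgroups of S that become conjugations by elements of G (the image of S need not be a Sylow p-subgroup of G). -/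
theorem result {Ω : Type u} [Group Ω] {S : Subgroup Ω} [Finite S] (p : ℕ) [Fact p.Prime] (hS : IsPGroup p S) (F : Cfsg.FusionSystem S) : ∃ (G : Type u) (_ : Group G) (_ : Finite G) (ι : ↥S →* G), F.IsRealizedBy ι := by
  obtain ⟨G, _, _, ι, F', r, -⟩ := exists_rich_rep F
  obtain ⟨Γ, _, _, θ, H, ρ, c⟩ := exists_ch_any F'
  have e : ∀ x (hx : x ∈ S), θ.comp (r.toSub le_rfl) ⟨x, hx⟩ = fn θ (fn ι x) := fun x hx =>
    (congrArg θ (Subtype.ext (r.toSub_apply le_rfl ⟨x, hx⟩))).trans (fn_of_mem θ (r.mem_S hx)).symm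
  refine ⟨Γ, _, inferInstance, θ.comp (r.toSub le_rfl), c.inj.comp fun a b h => Subtype.ext
    ((fn_inj r.inj a.2 b.2).1 ((r.toSub_apply le_rfl a).symm.trans ((congrArg Subtype.val h).trans
      (r.toSub_apply le_rfl b)))), fun P hP φ hφ => ⟨fun h => ?_, ?_⟩⟩
  · obtain ⟨g, h1, h2⟩ := r.fwd h
    obtain ⟨γ, h3⟩ := c.fwd h1
    exact ⟨γ, fun x => by rw [e, e, h2 x, h3 _ (fn_mem_im ι x.2)]⟩
  · rintro ⟨γ, h⟩
    simp only [e] at h
    have k : ∀ x : P, γ⁻¹⁻¹ * fn θ (fn ι x) * γ⁻¹ = θ ⟨_, r.mem_S (hφ x)⟩ := fun x => by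
      rw [inv_inv, ← h, fn_of_mem]
    obtain ⟨g, h1, h2⟩ := c.bwd γ⁻¹ (r.im_le hP) ((forall_mem_im hP).2 fun x hx =>
      k ⟨x, hx⟩ ▸ c.mem _)
    refine r.mem_of hP hφ (fun x => ?_) h1
    rw [← h2 _ (fn_mem_im ι x.2), k x, fn_of_mem _ (c.mem _), c.id]

end Cfsg.Agent.S5328
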