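import Cfsg.Statements.S5329
import Cfsg.Agent.Fusion.PInd
-- import your own Cfsg.Agent.* helpers here

set_option autoImplicit false
open Cfsg

namespace Cfsg.Agent.S5329

open Cfsg.Agent.Fusion


/-- For a saturated fusion system F over a finite p-group S, the focal subgroup and the derived subgroup of S meet the centre Z(F) of the system in the same subgroup: foc(F) ∩ Z(F) = S′ ∩ Z(F). -/
theorem result {Ω : Type*} [Group Ω] {S : Subgroup Ω} [Finite S] (p : ℕ) [Fact p.Prime] (hS : IsPGroup p S) (F : Cfsg.FusionSystem S) (hF : F.IsSaturated p) : F.focalSubgroup ⊓ F.center = ⁅(S : Subgroup Ω), (S : Subgroup Ω)⁆ ⊓ F.center := by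
  obtain ⟨G, _, _, ι, F', r, -⟩ := exists_rich_rep F
  have hF' := r.sat hS hF
  refine (im_inj r.inj (inf_le_right.trans (Fusion.center_le F))
    (inf_le_right.trans (Fusion.center_le F))).1 ?_
  rw [im_inf r.inj, im_inf r.inj, r.im_foc, r.im_comm, r.im_center]
  exact le_antisymm (le_inf hF'.foc_inf_center_le inf_le_right) (inf_le_inf_right _ F'.comm_le_foc)

end Cfsg.Agent.S5329
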