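import Cfsg.Statements.S5330
import Cfsg.Agent.Fusion.PInd
import Cfsg.Agent.Fusion.Free
import Cfsg.Agent.Core.Coprime
-- import your own Cfsg.Agent.* helpers here

set_option autoImplicit false
open Cfsg

namespace Cfsg.Agent.S5330

open Cfsg.Agent.Fusion


/-- Let F be a saturated fusion system over a finite abelian p-group S. Then S is the internal direct product of the centre of the system and the focal subgroup: Z(F) ∩ foc(F) = 1 and Z(F)·foc(F) = S. -/
theorem result {Ω : Type*} [Group Ω] {S : Subgroup Ω} [Finite S] (p : ℕ) [Fact p.Prime] (hS : IsPGroup p S) (F : Cfsg.FusionSystem S) (hF : F.IsSaturated p) (hab : ∀ x ∈ S, ∀ y ∈ S, x * y = y * x) : F.center ⊓ F.focalSubgroup = ⊥ ∧ F.center ⊔ F.focalSubgroup = S := by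
  obtain ⟨G, _, _, ι, F', r, hr⟩ := exists_rich_rep F
  have hF' := r.sat hS hF
  have h0 : F'.S ≤ cz F'.S := r.S_eq ▸ im_le_cz ι le_rfl le_rfl fun x hx => mem_cz.2 fun y hy =>
    hab y hy x hx
  have c1 := Fusion.center_le F
  have c2 := focal_le F
  rw [← im_eq_bot r.inj (inf_le_left.trans c1), ← im_inj r.inj (sup_le c1 c2) le_rfl, im_inf r.inj,
    im_sup ι c1 c2, r.im_center, r.im_foc, ← r.S_eq, inf_comm]
  refine ⟨le_bot_iff.1 (hF'.foc_inf_center_le.trans (comm_eq_bot_iff.2 h0).le),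
    le_antisymm (sup_le F'.center_le F'.foc_le) fun x hx => ?_⟩
  have hn := hF'.nor_S_of_abelian h0
  obtain ⟨H, hH⟩ := (hF'.con_of hn inf_le_left).exists_model (r.rich hr) le_rfl
  have h1 := hH.le_nz_of_nor hn
  obtain ⟨k, hk⟩ := IsPGroup.iff_card.1 hF'.pg
  have h2 : (Nat.card F'.S).Coprime (F'.S.relIndex H) :=
    hk ▸ ((Nat.Prime.coprime_iff_not_dvd Fact.out).2 hH.syl.nd).pow_left k
  obtain ⟨K, k1, -, k3, k4⟩ := Core.exists_complement_in F'.S H hH.le h1 h2
  haveI := hF'.pg.isNilpotent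
  obtain ⟨y, hy, c, hc, rfl⟩ := Core.exists_commutator_mul_centralizer K F'.S (k1.trans h1)
    (k4 ▸ h2.symm) (Or.inr inferInstance) x hx
  refine mul_mem (Subgroup.mem_sup_right (commutator_le_iff'.2 (fun x hx k hk => FS.mem_foc
    (hH.M_of le_rfl (cj_of_nz (h1 (k1 hk))).le (k1 hk)) hx) hy)) (Subgroup.mem_sup_left ?_)
  rw [hH.center_eq]
  exact ⟨hH.le hc.1, by rw [← k3, cz_sup]; exact ⟨h0 hc.1, hc.2⟩⟩

end Cfsg.Agent.S5330
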