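import Cfsg.Statements.S5331
import Cfsg.Agent.Fusion.GrpF
import Cfsg.Agent.Inv.Wr2
-- import your own Cfsg.Agent.* helpers here

set_option autoImplicit false
open Cfsg

namespace Cfsg.Agent.S5331

open Cfsg.Agent.Fusion

theorem half {m : ℕ} (hm : 1 ≤ m) {z : ZMod (2 ^ m)} (h : z + z = 0) :
    z = 0 ∨ z = 2 ^ (m - 1) := by
  obtain ⟨m, rfl⟩ : ∃ k, m = k + 1 := ⟨m - 1, by omega⟩
  refine ((ZMod.neg_eq_self_iff z).1 (neg_eq_of_add_eq_zero_right h)).imp id fun e => ?_
  rw [← ZMod.natCast_zmod_val z, Nat.eq_of_mul_eq_mul_left two_pos (e.trans (pow_succ' 2 m))]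
  simp

theorem pw {n : ℕ} {a : Fin n → ℕ} (ha1 : ∀ i, 1 ≤ a i)
    {x : Multiplicative ((i : Fin n) → ZMod (2 ^ a i))} (h : x * x = 1) (k : ℕ) :
    (∃ y, y ^ 2 ^ k = x) ↔ ∀ i, a i ≤ k → x.toAdd i = 0 := by
  constructor
  · rintro ⟨y, rfl⟩ i hi
    obtain ⟨d, rfl⟩ := Nat.exists_eq_add_of_le hi
    rw [toAdd_pow, Pi.smul_apply, nsmul_eq_mul, pow_add, Nat.cast_mul, ZMod.natCast_self]
    simp
  · intro hx
    have : ∀ i, ∃ y, 2 ^ k • y = x.toAdd i := fun i => by
      by_cases hi : a i ≤ k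
      · exact ⟨0, by simp [hx i hi]⟩
      rcases half (ha1 i) (congrFun (congrArg Multiplicative.toAdd h) i) with e | e
      · exact ⟨0, by simp [e]⟩
      · exact ⟨2 ^ (a i - 1 - k), by
          rw [e, nsmul_eq_mul, Nat.cast_pow, Nat.cast_ofNat, ← pow_add]; congr 1; omega⟩
    choose y hy using this
    exact ⟨Multiplicative.ofAdd y, Multiplicative.toAdd.injective (funext hy)⟩

theorem aux {n : ℕ} {a : Fin n → ℕ} (ha : StrictMono a) (ha1 : ∀ i, 1 ≤ a i)
    (hS : IsPGroup 2 (Multiplicative ((i : Fin n) → ZMod (2 ^ a i)))) :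
    IsPGroup 2 (MulAut (Multiplicative ((i : Fin n) → ZMod (2 ^ a i)))) := by
  intro τ
  haveI := finite_mulAut (Multiplicative ((i : Fin n) → ZMod (2 ^ a i)))
  obtain ⟨k, m, hm, hkm⟩ := Nat.exists_eq_two_pow_mul_odd (orderOf_pos τ).ne'
  refine ⟨k, ?_⟩
  have hodd : Odd (orderOf (τ ^ 2 ^ k)) := hm.of_dvd_nat (orderOf_dvd_of_pow_eq_one (by
    rw [← pow_mul, ← hkm, pow_orderOf_eq_one]))
  generalize τ ^ 2 ^ k = σ at hodd
  have key : ∀ d k, (∀ i, a i ≤ k + d) → ∀ x, x * x = 1 → (∃ y, y ^ 2 ^ k = x) → σ x = x := by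
    intro d
    induction d with
    | zero =>
      intro k hk x h1 h2
      rw [show x = 1 from Multiplicative.toAdd.injective (funext fun i =>
        (pw ha1 h1 k).1 h2 i (hk i)), map_one]
    | succ d ih =>
      intro k hk x h1 h2
      have i1 := ih (k + 1) fun i => by have := hk i; omega
      by_cases h3 : ∃ y, y ^ 2 ^ (k + 1) = x
      · exact i1 x h1 h3
      have h4 : σ x * σ x = 1 := by rw [← map_mul, h1, map_one]
      have h5 : ¬ ∃ y, y ^ 2 ^ (k + 1) = σ x := fun ⟨y, hy⟩ =>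
        h3 ⟨σ.symm y, by rw [← map_pow, hy, MulEquiv.symm_apply_apply]⟩
      have h6 : ∃ y, y ^ 2 ^ k = σ x := h2.elim fun y hy => ⟨σ y, by rw [← map_pow, hy]⟩
      have h7 : x * σ x * (x * σ x) = 1 := by rw [mul_mul_mul_comm, h1, h4, one_mul]
      have h8 : ∀ {z : Multiplicative ((i : Fin n) → ZMod (2 ^ a i))}, z * z = 1 →
          (∃ y, y ^ 2 ^ k = z) → (¬ ∃ y, y ^ 2 ^ (k + 1) = z) → ∀ i, a i = k + 1 →
          z.toAdd i = 2 ^ (a i - 1) := fun {z} b1 b2 b3 i hi => by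
        refine (half (ha1 i) (congrFun (congrArg Multiplicative.toAdd b1) i)).resolve_left
          fun e => b3 ((pw ha1 b1 _).2 fun j hj => ?_)
        by_cases hj' : a j ≤ k
        · exact (pw ha1 b1 _).1 b2 j hj'
        · exact ha.injective (show a i = a j by omega) ▸ e
      have h9 := i1 _ h7 ((pw ha1 h7 _).2 fun i hi => by
        rw [toAdd_mul, Pi.add_apply]
        by_cases hj' : a i ≤ k
        · rw [(pw ha1 h1 _).1 h2 i hj', (pw ha1 h4 _).1 h6 i hj', add_zero]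
        · rw [h8 h4 h6 h5 i (by omega), ← h8 h1 h2 h3 i (by omega)]
          exact congrFun (congrArg Multiplicative.toAdd h1) i)
      rw [map_mul, mul_comm x, mul_right_inj] at h9
      obtain ⟨j, hj⟩ := hodd
      have : ∀ j, (σ ^ (2 * j)) x = x := fun j => by
        induction j with
        | zero => simp
        | succ j ih => rw [mul_add, pow_add, MulAut.mul_apply, mul_one, pow_two, MulAut.mul_apply,
            h9, ih]
      have e := congrArg (fun t : MulAut _ => t x) (pow_orderOf_eq_one σ)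
      simp only [hj, pow_succ', MulAut.mul_apply, this] at e
      exact e
  ext1 t
  refine Inv.aut_fix_invol (A := ⊤) (hS.to_subgroup _) (fun a _ b _ => mul_comm a b)
    (fun _ _ => trivial) hodd (fun x _ h => key (∑ i, a i) 0 (fun i => ?_) x h ⟨x, by simp⟩) trivial
  rw [zero_add]
  exact Finset.single_le_sum (fun _ _ => Nat.zero_le _) (Finset.mem_univ i)


/-- Let S be a finite abelian 2-group that is a direct product of cyclic groups of pairwise distinct orders 2^{a_1} < 2^{a_2} < ⋯ < 2^{a_n} (all a_i ≥ 1). Then every saturated fusion system over S is the inner one: its maps are exactly the conjugations by elements of S. -/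
theorem result {Ω : Type*} [Group Ω] {S : Subgroup Ω} [Finite S] (n : ℕ) (a : Fin n → ℕ) (ha : StrictMono a) (ha1 : ∀ i, 1 ≤ a i) (e : ↥S ≃* Multiplicative ((i : Fin n) → ZMod (2 ^ a i))) (F : Cfsg.FusionSystem S) (hF : F.IsSaturated 2) (P : Subgroup Ω) : F.Hom P = (Cfsg.innerFusionSystem S).Hom P := by
  haveI : Fact (Nat.Prime 2) := ⟨Nat.prime_two⟩
  have h0 : IsPGroup 2 (Multiplicative ((i : Fin n) → ZMod (2 ^ a i))) :=
    IsPGroup.of_card (n := ∑ i, a i) (by
      simp [Nat.card_pi, Finset.prod_pow_eq_pow_sum])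
  have hS := h0.of_equiv e.symm
  have hA := (aux ha ha1 h0).of_equiv (MulAut.congr e).symm
  obtain ⟨G, _, _, ι, F', r, -⟩ := exists_rich_rep F
  have hF' := r.sat hS hF
  have h1 := (r.isPGroup_autGroup_iff le_rfl).1 (hA.to_subgroup _)
  rw [← r.S_eq] at h1
  have h2 : F'.Nor F'.S := hF'.nor_S_of_abelian (by
    rw [r.S_eq, im_le_cz_iff r.inj le_rfl le_rfl]
    exact fun x hx y hy => congrArg Subtype.val (e.injective (by
      rw [map_mul, map_mul, mul_comm]) : (⟨y, hy⟩ * ⟨x, hx⟩ : S) = ⟨x, hx⟩ * ⟨y, hy⟩))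
  refine r.isinner_iff.2 (hF'.isinn fun Q hQ => ?_) P
  rcases hQ with rfl | hQ
  · exact h1
  · exact absurd hQ (h2.not_ess hF')

end Cfsg.Agent.S5331
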