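import Cfsg.Statements.S5332
import Cfsg.Agent.Fusion.QdF
-- import your own Cfsg.Agent.* helpers here

set_option autoImplicit false
open Cfsg

namespace Cfsg.Agent.S5332

open Cfsg.Agent.Fusion


/-- Let p be odd and F a saturated fusion system over a finite p-group S that is not the inner system of S. Then F contains a saturated constrained subsystem over S that is itself not the inner system. -/
theorem result {Ω : Type*} [Group Ω] {S : Subgroup Ω} [Finite S] (p : ℕ) [Fact p.Prime] (hS : IsPGroup p S) (F : Cfsg.FusionSystem S) (hF : F.IsSaturated p) (hp : p ≠ 2) (hne : ∃ P : Subgroup Ω, F.Hom P ≠ (Cfsg.innerFusionSystem S).Hom P) : ∃ E : Cfsg.FusionSystem S, E ≤ F ∧ E.IsConstrained p ∧ ∃ P : Subgroup Ω, E.Hom P ≠ (Cfsg.innerFusionSystem S).Hom P := by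
  obtain ⟨G, _, _, ι, F', r, hr⟩ := exists_rich_rep F
  have hr' := r.rich hr
  have hF' := r.sat hS hF
  obtain ⟨E', H, h1, h2, h3, h4, -⟩ := hF'.exists_stable hr' hp fun h => by
    obtain ⟨P, hP⟩ := hne
    exact hP ((r.pa_iff hF').2 h P)
  obtain ⟨E, s⟩ := exists_rep' r.inj le_rfl E' (h2.trans r.S_eq)
  refine ⟨E, (s.le_iff_le r).2 h1, (s.con_iff hS).2 h3.con', ?_⟩
  by_contra! h
  exact h4 ((s.pa_iff h3.sat).1 h)

end Cfsg.Agent.S5332
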