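import Mathlib
import Cfsg.Statements.S5521
import Cfsg.Agent.Golay.Six

set_option autoImplicit false
open Cfsg

namespace Cfsg.Agent.S5521

open Cfsg.Agent.Golay

/-- The Mathieu group M₂₄ in its natural action on the 24 coordinate positions of the binary Golay code has minimal base size exactly 7: every set of at most 6 positions is fixed pointwise by some non-identity element of M₂₄, while some set of 7 positions is fixed pointwise only by the identity. -/
theorem result :
    (∀ B : Finset Cfsg.GolayPt, B.card ≤ 6 → ∃ g ∈ Cfsg.M24, g ≠ 1 ∧ ∀ b ∈ B, g b = b) ∧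
    (∃ B : Finset Cfsg.GolayPt, B.card = 7 ∧ ∀ g ∈ Cfsg.M24, (∀ b ∈ B, g b = b) → g = 1) := by
  refine ⟨fun B hB => ?_, um 8388671, by decide +kernel, fun g => eq_one_of_fix_base⟩
  obtain ⟨E, h1, -, hE⟩ := Finset.exists_subsuperset_card_eq (Finset.subset_univ B) hB
    (by rw [Finset.card_univ, card_golayPt]; norm_num)
  have h2 : 1 < Nat.card (fixOct E) := by
    by_cases h : InOct E
    · obtain ⟨o, ho, h⟩ := h
      rw [fixOct_six hE ho h, card_fixOct ho]; norm_num
    · rw [card_fix_umbral hE h]; norm_num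
  obtain ⟨g, hg, h3⟩ := (Subgroup.bot_or_exists_ne_one _).resolve_left
    ((Subgroup.one_lt_card_iff_ne_bot _).1 h2)
  exact ⟨g, hg.1, h3, fun b hb => (mem_fixOct.1 hg).2 b (h1 hb)⟩

end Cfsg.Agent.S5521
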