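import Cfsg.Statements.S5560
import Mathlib
import Cfsg.Agent.Fischer.VW
import Cfsg.Agent.Inv.ZStar
import Cfsg.Agent.Core.Product

set_option autoImplicit false
open Cfsg

namespace Cfsg.Agent.S5560

open Fischer

/-- A Z*-type result for an odd prime p. Let G be a finite group and d an involution of G such that the product of any two conjugates of d has order a power of p. Then the product of any two conjugates of d lies in the largest normal p-subgroup O_p(G); in other words the conjugacy class of d lies in the coset O_p(G)d, and d is central modulo O_p(G). -/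
theorem result {G : Type*} [Group G] [Finite G] {p : ℕ} (hp : p.Prime) (hp2 : p ≠ 2)
    (d : G) (hd : orderOf d = 2)
    (hprod : ∀ a ∈ conjugatesOf d, ∀ b ∈ conjugatesOf d, ∃ k : ℕ, orderOf (a * b) = p ^ k) :
    ∀ a ∈ conjugatesOf d, ∀ b ∈ conjugatesOf d, a * b ∈ Cfsg.pCore p G := by
  have : Fact p.Prime := ⟨hp⟩
  have hd2 := mul_self_of_orderOf_two hd
  have hdi := inv_of_mul_self hd2
  have hdd : d ∈ conjugatesOf d := IsConj.refl d
  have hconj : ∀ g : G, g * d * g⁻¹ ∈ conjugatesOf d := fun g => isConj_iff.2 ⟨g, rfl⟩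
  have hiso := Inv.isolated_of_odd hd (fun g => by
    obtain ⟨k, hk⟩ := hprod d hdd _ (hconj g)
    rw [hk]; exact (hp.odd_of_ne_two hp2).pow)
  have hinv : ∀ (q : ℕ) [Fact q.Prime], ∃ P : Subgroup G, Core.IsSylowOf q P (oddCore G) ∧
      Subgroup.zpowers d ≤ Subgroup.normalizer (P : Set G) := fun q _ =>
    Core.exists_invariant_isSylowOf (Subgroup.zpowers d) (oddCore G)
      (Subgroup.le_normalizer_of_normal)
      (by rw [Nat.card_zpowers, hd]; exact Nat.coprime_two_left.2 Inv.odd_card_oddCore)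
      (Or.inl Core.solvable_of_isMulCommutative) q
  have hmem : ∀ P : Subgroup G, Subgroup.zpowers d ≤ Subgroup.normalizer (P : Set G) →
      ∀ x ∈ P, d * (x * d * x⁻¹) ∈ P := by
    intro P hP x hx
    have := P.mul_mem (Core.conj_mem_of_le_normalizer hP (Subgroup.mem_zpowers d) hx) (P.inv_mem hx)
    rw [hdi] at this
    simpa only [mul_assoc] using this
  obtain ⟨P, hP, hdP⟩ := hinv p
  have hcop : (P.relIndex (oddCore G)).Coprime
      ((Subgroup.centralizer ({d} : Set G)).relIndex (oddCore G)) := by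
    refine Nat.coprime_of_dvd fun q hq h1 h2 => ?_
    have : Fact q.Prime := ⟨hq⟩
    have hqp : q ≠ p := by rintro rfl; exact hP.not_dvd h1
    obtain ⟨Q, hQ, hdQ⟩ := hinv q
    refine hQ.not_dvd (h2.trans (Subgroup.relIndex_dvd_of_le_left _ fun x hx => ?_))
    obtain ⟨k, hk⟩ := hprod d hdd _ (hconj x)
    obtain ⟨l, hl⟩ := pow_eq_one_of_mem_isPGroup hQ.isPGroup (hmem Q hdQ x hx)
    have h3 := orderOf_dvd_of_pow_eq_one hl
    have h4 : orderOf (d * (x * d * x⁻¹)) = 1 := Nat.eq_one_of_dvd_coprimes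
      (Nat.Coprime.pow k l ((Nat.coprime_primes hp hq).2 hqp.symm)) (hk ▸ dvd_rfl) h3
    rw [orderOf_eq_one_iff] at h4
    have h5 := eq_inv_of_mul_eq_one_right h4
    rw [hdi] at h5
    rw [Subgroup.mem_centralizer_singleton_iff]
    exact mul_inv_eq_iff_eq_mul.1 h5
  have key : ∀ a ∈ conjugatesOf d, d * a ∈ P := by
    intro a ha
    obtain ⟨g, rfl⟩ := isConj_iff.1 ha
    obtain ⟨o, ho, c, hc, rfl⟩ := Inv.zstar_factor hiso g
    obtain ⟨x, hx, y, hy, rfl⟩ := Core.exists_mul_of_coprime_relIndex hcop o ho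
    have h1 : (y * c) * d = d * (y * c) :=
      (Commute.mul_left (Subgroup.mem_centralizer_singleton_iff.1 hy) hc).eq
    have : x * y * c * d * (x * y * c)⁻¹ = x * d * x⁻¹ := by
      rw [mul_assoc x y c, mul_assoc x, h1]
      simp [mul_assoc]
    rw [this]
    exact hmem P hdP x hx
  let S : Set G := {x | ∃ a ∈ conjugatesOf d, ∃ b ∈ conjugatesOf d, x = a * b}
  have hS : Subgroup.closure S ≤ P := by
    rw [Subgroup.closure_le]
    rintro _ ⟨a, ha, b, hb, rfl⟩
    have := P.mul_mem (P.inv_mem (key a ha)) (key b hb)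
    obtain ⟨g, rfl⟩ := isConj_iff.1 ha
    simpa [mul_assoc, hdi, cancel_of_mul_self hd2] using this
  have hn : (Subgroup.closure S).Normal := Core.normal_of_le_normalizer fun g _ =>
    le_normalizer_closure_of_conj (by
      rintro _ ⟨a, ha, b, hb, rfl⟩
      exact ⟨_, IsConj.trans ha (isConj_iff.2 ⟨g, rfl⟩), _, IsConj.trans hb (isConj_iff.2 ⟨g, rfl⟩),
        conj_mul_conj g a b⟩)
  intro a ha b hb
  exact Core.le_pCore hn (hP.isPGroup.to_le hS) (Subgroup.subset_closure ⟨a, ha, b, hb, rfl⟩)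

end Cfsg.Agent.S5560
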