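import Cfsg.Statements.S5562
import Mathlib
import Cfsg.Agent.Fischer.Dihedral

set_option autoImplicit false
open Cfsg

namespace Cfsg.Agent.S5562

/-- Let G be a finite group, d an involution of G whose conjugates pairwise have products of odd order, and x any involution of G. Then the conjugacy class of d is the disjoint union, over the conjugates a of d commuting with x, of the sets of conjugates of d commuting with ax: every conjugate of d commutes with ax for exactly one conjugate a of d that commutes with x. -/
theorem result {G : Type*} [Group G] [Finite G] (d : G) (hd : orderOf d = 2)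
    (hodd : ∀ a ∈ conjugatesOf d, ∀ b ∈ conjugatesOf d, Odd (orderOf (a * b)))
    (x : G) (hx : orderOf x = 2) :
    ∀ e ∈ conjugatesOf d,
      ∃! a : G, a ∈ conjugatesOf d ∧ Commute a x ∧ Commute e (a * x) := by
  intro e he
  exact Fischer.exists_unique_midpoint (fun g x hx => Fischer.conjugatesOf_conj d g hx)
    (fun x hx => Fischer.conjugatesOf_sq (Fischer.mul_self_of_orderOf_two hd) hx) hodd
    (Fischer.mul_self_of_orderOf_two hx) he

end Cfsg.Agent.S5562
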