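import Cfsg.Statements.S5595
import Mathlib
import Cfsg.Agent.Fischer.ES2

set_option autoImplicit false
open Cfsg

namespace Cfsg.Agent.S5595

open Fischer

/-- Setting: `z` is an involution of the finite group `G`; for each element `x`, `Q x` denotes the largest normal 2-subgroup of the centralizer of `x`; `Q z` is extraspecial and contains its own centralizer in `G` (a large extraspecial 2-subgroup in this sense). Call the conjugates of `z` singular, and say that singular `x` is orthogonal to singular `y` when `x ∈ Q y`. Then orthogonality is symmetric: if a conjugate `x` of `z` lies in `Q z`, then `z` lies in `Q x`. -/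
theorem result {G : Type*} [Group G] [Finite G]
    (Q : G → Subgroup G)
    (hQ : ∀ x : G, Q x = (Cfsg.pCore 2 ↥(Subgroup.centralizer ({x} : Set G))).map (Subgroup.centralizer ({x} : Set G)).subtype)
    (z : G) (hz : orderOf z = 2) (hE : Cfsg.IsExtraspecial 2 ↥(Q z))
    (hC : Subgroup.centralizer ((Q z : Subgroup G) : Set G) ≤ Q z)
    (g : G) (hx : g * z * g⁻¹ ∈ Q z) : z ∈ Q (g * z * g⁻¹) := by
  rw [hQ] at hE hC hx ⊢
  have h := ls_of_core hz hE hC 1
  simp only [one_mul, inv_one, mul_one] at h
  have := h.symm hx
  rwa [LocalEven.cj_pCoreOf, LocalEven.cj_centralizer_singleton] at this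

end Cfsg.Agent.S5595
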