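import Cfsg.Statements.S5597
import Mathlib
import Cfsg.Agent.Fischer.ES2

set_option autoImplicit false
open Cfsg

namespace Cfsg.Agent.S5597

open Fischer

/-- Setting: `z` is an involution of the finite group `G`; for each element `x`, `Q x` is the largest normal 2-subgroup of the centralizer of `x`; `Q z` is extraspecial and contains its own centralizer in `G`. A subgroup `U` is singular when it is elementary abelian, every non-identity element of `U` is conjugate to `z`, and any two non-identity elements `u`, `v` of `U` are orthogonal (`v ∈ Q u`). Write `QU` for the intersection of the `Q u` and `LU` for the join of the `Q u` over the non-identity `u` in `U`. If `U` is a non-trivial singular subgroup, then `LU` acts trivially on `QU / U` (every commutator of an element of `LU` with an element of `QU` lies in `U`), and for every `x` in `QU` outside `U` the centralizer of `U` in `LU` permutes the coset `x U` transitively: each `x u` with `u ∈ U` is a conjugate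 of `x` by an element of `LU` centralizing `U`. -/
theorem result {G : Type*} [Group G] [Finite G]
    (Q : G → Subgroup G)
    (hQ : ∀ x : G, Q x = (Cfsg.pCore 2 ↥(Subgroup.centralizer ({x} : Set G))).map (Subgroup.centralizer ({x} : Set G)).subtype)
    (z : G) (hz : orderOf z = 2) (hE : Cfsg.IsExtraspecial 2 ↥(Q z))
    (hC : Subgroup.centralizer ((Q z : Subgroup G) : Set G) ≤ Q z)
    (U : Subgroup G) (hU2 : ∀ u ∈ U, u * u = 1)
    (hS : ∀ u ∈ U, u ≠ 1 → ∃ g : G, g * z * g⁻¹ = u)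
    (hO : ∀ u ∈ U, ∀ v ∈ U, u ≠ 1 → v ≠ 1 → v ∈ Q u)
    (QU LU : Subgroup G) (hQU : QU = ⨅ u ∈ ((U : Set G) \ {1}), Q u) (hLU : LU = ⨆ u ∈ ((U : Set G) \ {1}), Q u)
    (hU : U ≠ ⊥) :
    (∀ g ∈ LU, ∀ x ∈ QU, g * x * g⁻¹ * x⁻¹ ∈ U) ∧
      ∀ x ∈ QU, x ∉ U → ∀ u ∈ U, ∃ g ∈ LU ⊓ Subgroup.centralizer (U : Set G), g * x * g⁻¹ = x * u := by
  have hL : ∀ u ∈ U, u ≠ 1 → LS (Q u) u := fun u hu h1 => by
    obtain ⟨g, rfl⟩ := hS u hu h1
    rw [hQ] at hE hC ⊢
    exact ls_of_core hz hE hC g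
  have hUQ : ∀ u ∈ U, u ≠ 1 → U ≤ Q u := fun u hu h1 v hv => by
    by_cases h2 : v = 1
    · rw [h2]; exact one_mem _
    · exact hO u hu v hv h1 h2
  have hQL : ∀ u ∈ U, u ≠ 1 → Q u ≤ LU := fun u hu h1 =>
    hLU ▸ le_iSup₂ (f := fun u (_ : u ∈ (U : Set G) \ {1}) => Q u) u ⟨hu, h1⟩
  have hQQ : ∀ u ∈ U, u ≠ 1 → QU ≤ Q u := fun u hu h1 =>
    hQU ▸ iInf₂_le (f := fun u (_ : u ∈ (U : Set G) \ {1}) => Q u) u ⟨hu, h1⟩
  constructor
  · let T : Subgroup G :=
      { carrier := {g | g ∈ Subgroup.normalizer (U : Set G) ∧ ∀ x ∈ QU, g * x * g⁻¹ * x⁻¹ ∈ U}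
        one_mem' := ⟨one_mem _, by simp⟩
        mul_mem' := fun {a b} ha hb => ⟨mul_mem ha.1 hb.1, fun x hx => by
          have := mul_mem ((Subgroup.mem_normalizer_iff.1 ha.1 _).1 (hb.2 x hx)) (ha.2 x hx)
          simpa [mul_assoc] using this⟩
        inv_mem' := fun {a} ha => ⟨inv_mem ha.1, fun x hx => by
          have := (Subgroup.mem_normalizer_iff''.1 ha.1 _).1 (inv_mem (ha.2 x hx))
          simpa [mul_assoc] using this⟩ }
    have : LU ≤ T := hLU ▸ iSup₂_le fun u hu r hr => ⟨Subgroup.mem_normalizer_fintype fun v hv => by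
      rcases (hL u hu.1 hu.2).conj r hr v (hUQ u hu.1 hu.2 hv) with e | e <;> rw [e]
      exacts [hv, mul_mem hv hu.1], fun x hx => by
      have hx' := hQQ u hu.1 hu.2 hx
      rcases (hL u hu.1 hu.2).conj r hr x hx' with e | e <;> rw [e]
      · simp
      · rw [← ((hL u hu.1 hu.2).central x hx').eq]
        simpa using hu.1⟩
    exact fun g hg => (this hg).2
  · intro x hx hxU u hu
    by_cases h1 : u = 1
    · exact ⟨1, one_mem _, by simp [h1]⟩
    obtain ⟨q, hq, h2, h3⟩ := (hL u hu h1).dual_conj (hUQ u hu h1) hu (hQQ u hu h1 hx) hxU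
    exact ⟨q, ⟨hQL u hu h1 hq, fun a ha => (h2 a ha).symm⟩, h3⟩

end Cfsg.Agent.S5597
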