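import Cfsg.Statements.S5598
import Mathlib
import Cfsg.Agent.Fischer.ES2

set_option autoImplicit false
open Cfsg

namespace Cfsg.Agent.S5598

open Fischer

/-- Setting: `z` is an involution of the finite group `G`; for each element `x`, `Q x` is the largest normal 2-subgroup of the centralizer of `x`; `Q z` is extraspecial and contains its own centralizer in `G`. A subgroup `U` is singular when it is elementary abelian, every non-identity element of `U` is conjugate to `z`, and any two non-identity elements `u`, `v` of `U` are orthogonal (`v ∈ Q u`). Write `QU` for the intersection of the `Q u` and `LU` for the join of the `Q u` over the non-identity `u` in `U`. If the singular subgroup `U` is generated by a set `T` of non-identity elements, then `QU` is already the intersection of the `Q t` over `t ∈ T`. -/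
theorem result {G : Type*} [Group G] [Finite G]
    (Q : G → Subgroup G)
    (hQ : ∀ x : G, Q x = (Cfsg.pCore 2 ↥(Subgroup.centralizer ({x} : Set G))).map (Subgroup.centralizer ({x} : Set G)).subtype)
    (z : G) (hz : orderOf z = 2) (hE : Cfsg.IsExtraspecial 2 ↥(Q z))
    (hC : Subgroup.centralizer ((Q z : Subgroup G) : Set G) ≤ Q z)
    (U : Subgroup G) (hU2 : ∀ u ∈ U, u * u = 1)
    (hS : ∀ u ∈ U, u ≠ 1 → ∃ g : G, g * z * g⁻¹ = u)
    (hO : ∀ u ∈ U, ∀ v ∈ U, u ≠ 1 → v ≠ 1 → v ∈ Q u)
    (QU LU : Subgroup G) (hQU : QU = ⨅ u ∈ ((U : Set G) \ {1}), Q u) (hLU : LU = ⨆ u ∈ ((U : Set G) \ {1}), Q u)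
    (T : Set G) (hT : Subgroup.closure T = U) (hT1 : (1 : G) ∉ T) :
    QU = ⨅ t ∈ T, Q t := by
  have hL : ∀ u ∈ U, u ≠ 1 → LS (Q u) u := fun u hu h1 => by
    obtain ⟨g, rfl⟩ := hS u hu h1
    rw [hQ] at hE hC ⊢
    exact ls_of_core hz hE hC g
  have hTU : T ⊆ U := hT ▸ Subgroup.subset_closure
  rw [hQU]
  refine le_antisymm (le_iInf₂ fun t ht => iInf₂_le (f := fun u (_ : u ∈ (U : Set G) \ {1}) => Q u) t
    ⟨hTU ht, fun e => hT1 (e ▸ ht)⟩) fun x hx => ?_
  simp only [Subgroup.mem_iInf] at hx ⊢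
  have key : ∀ w ∈ Subgroup.closure T, w ≠ 1 → x ∈ Q w := fun w hw => by
    refine Subgroup.closure_induction (p := fun w _ => w ≠ 1 → x ∈ Q w) (fun t ht _ => hx t ht)
      (fun h => (h rfl).elim) (fun u v hu hv h1 h2 h3 => ?_) (fun u hu h1 h2 => ?_) hw
    · rw [hT] at hu hv
      by_cases hu1 : u = 1
      · simpa [hu1] using h2 (by simpa [hu1] using h3)
      by_cases hv1 : v = 1
      · simpa [hv1] using h1 hu1
      have hl := hL v hv hv1
      obtain ⟨y, hy, hyu⟩ := hl.exists_conj (hO v hv u hu hv1 hu1) hu1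
        (by rintro rfl; exact h3 (hU2 u hu))
      rw [← hyu, hQ, ← LocalEven.cj_centralizer_singleton]
      change x ∈ Cfsg.pCoreOf 2 _
      rw [← LocalEven.cj_pCoreOf, LocalEven.mem_cj]
      have h4 := h1 hu1
      have h5 := hO u hu v hv hu1 hv1
      rw [hQ] at h4 h5
      rcases hl.conj y⁻¹ (inv_mem hy) x (h2 hv1) with e | e <;> rw [inv_inv] at e <;> rw [e]
      exacts [h4, mul_mem h4 h5]
    · rw [hT] at hu
      rw [inv_eq_of_mul_eq_one_right (hU2 u hu)] at h2 ⊢
      exact h1 h2
  exact fun u hu => key u (hT ▸ hu.1) hu.2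

end Cfsg.Agent.S5598
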