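import Mathlib
import Cfsg.Statements.S5713
import Cfsg.Agent.Isaacs.Babai
-- import your own Cfsg.Agent.* helpers here

set_option autoImplicit false
open Cfsg

namespace Cfsg.Agent.S5713

/-- A classification-free minimal-degree bound. Let G be a finite group acting faithfully and primitively on a finite set Ω with n elements, and suppose that the image of G in the symmetric group on Ω does not contain the alternating group on Ω. Then every non-identity element of G moves at least (√n − 1)/2 points of Ω, that is, it fixes at most n − (√n − 1)/2 points. -/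
theorem result {G Ω : Type*} [Group G] [Finite G] [MulAction G Ω] [FaithfulSMul G Ω] [Fintype Ω] [DecidableEq Ω]
    (hprim : MulAction.IsPreprimitive G Ω)
    (hA : ¬ alternatingGroup Ω ≤ (MulAction.toPermHom G Ω).range)
    (g : G) (hg : g ≠ 1) :
    (Real.sqrt (Fintype.card Ω) - 1) / 2 ≤ (Fintype.card Ω : ℝ) - Nat.card (MulAction.fixedBy Ω g) := by
  obtain ⟨a, ha⟩ : ∃ a : Ω, g • a ≠ a := by
    by_contra! h
    exact hg (FaithfulSMul.eq_of_smul_eq_smul (α := Ω) fun a => by rw [h, one_smul])
  have h1 := Babai.main hA ha
  have h2 : Nat.card (MulAction.fixedBy Ω g) + (Finset.univ.filter fun x : Ω => g • x ≠ x).card = Fintype.card Ω := by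
    rw [← Finset.card_univ, ← Finset.card_filter_add_card_filter_not (s := Finset.univ) fun x : Ω => g • x = x,
      Nat.card_eq_fintype_card, Fintype.card_subtype]
    simp
  generalize (Finset.univ.filter fun x : Ω => g • x ≠ x).card = m at h1 h2
  have h3 : Real.sqrt (Fintype.card Ω) ≤ 2 * m := Real.sqrt_le_iff.mpr ⟨by positivity, by
    have : (Fintype.card Ω : ℝ) ≤ 4 * m ^ 2 := by exact_mod_cast h1
    linarith⟩
  have h4 : (Nat.card (MulAction.fixedBy Ω g) : ℝ) + m = Fintype.card Ω := by exact_mod_cast h2
  linarith

end Cfsg.Agent.S5713
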