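import Mathlib
import Cfsg.Statements.S5729
import Cfsg.Agent.Perm.Count
import Cfsg.Agent.Perm.PrimeDegree

set_option autoImplicit false
open Cfsg

namespace Cfsg.Agent.S5729

open MulAction

/-- Let a finite group G act faithfully and transitively on a set with n ≥ 3 points. Then either G is a Frobenius permutation group (Frobenius as a permutation group: transitive, some non-identity element fixes a point, and no non-identity element fixes two points) of order n(n − 1) and exactly |G|/n of its elements are derangements (fix no point), or the number of derangements is greater than |G|/n. -/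
theorem result {G Ω : Type*} [Group G] [Finite G] [MulAction G Ω] [FaithfulSMul G Ω] [Fintype Ω] (htr : MulAction.IsPretransitive G Ω) (hn : 3 ≤ Fintype.card Ω) :
    ((MulAction.IsPretransitive G Ω ∧ (∃ g : G, g ≠ 1 ∧ ∃ ω : Ω, g • ω = ω) ∧ ∀ g : G, g ≠ 1 → Nat.card (MulAction.fixedBy Ω g) ≤ 1) ∧ Nat.card G = Fintype.card Ω * (Fintype.card Ω - 1) ∧ Fintype.card Ω * Nat.card {g : G // ∀ ω : Ω, g • ω ≠ ω} = Nat.card G) ∨
    Nat.card G < Fintype.card Ω * Nat.card {g : G // ∀ ω : Ω, g • ω ≠ ω} := by
  classical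
  haveI := Fintype.ofFinite G
  haveI : Nontrivial Ω := Fintype.one_lt_card_iff_nontrivial.mp (by omega)
  rw [or_iff_not_imp_right, not_lt]
  intro hle
  set n := Fintype.card Ω with hn'
  set f : G → ℕ := fun g => Nat.card (fixedBy Ω g) with hf
  have h1 : ∑ g, f g = Nat.card G := Perm.sum_card_fixedBy_of_transitive
  have h2 : 2 * Nat.card G ≤ ∑ g, f g * f g := by
    have := Perm.sum_card_fixedBy (G := G) (α := Ω × Ω)
    simp only [Perm.card_fixedBy_prod] at this
    rw [this]
    exact Nat.mul_le_mul_right _ Perm.two_le_card_orbits_prod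
  have hfn : ∀ g, f g ≤ n := fun g => by
    rw [hn', ← Nat.card_eq_fintype_card]; exact Set.ncard_le_card _
  have hf0 : ∀ g, f g = 0 ↔ ∀ ω : Ω, g • ω ≠ ω := fun g => by
    rw [hf, Nat.card_eq_zero, or_iff_left (not_infinite_iff_finite.mpr inferInstance), isEmpty_subtype]
    rfl
  have hf1 : ∀ g, f g = n ↔ g = 1 := fun g => by
    constructor
    · intro h
      apply Perm.eq_one_of_forall_smul (α := Ω)
      have : fixedBy Ω g = Set.univ := (Set.eq_univ_iff_ncard _).mpr (by
        rw [Nat.card_eq_fintype_card]; exact h)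
      exact fun a => (Set.eq_univ_iff_forall.mp this a)
    · rintro rfl
      simp [hf, hn']
  have hd : Nat.card {g : G // ∀ ω : Ω, g • ω ≠ ω} = ∑ g, if f g = 0 then 1 else 0 := by
    rw [Nat.card_eq_fintype_card, Fintype.card_subtype, Finset.card_filter]
    simp only [hf0]
  set d := Nat.card {g : G // ∀ ω : Ω, g • ω ≠ ω}
  have hG : Nat.card G = ∑ _g : G, 1 := by simp
  let t : G → ℤ := fun g => (n : ℤ) * (if f g = 0 then 1 else 0) + (n + 1) * f g - f g * f g - n
  have ht0 : ∀ g, 0 ≤ t g := fun g => by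
    simp only [t]
    split_ifs with h
    · simp [h]
    · have := hfn g
      have : 1 ≤ f g := by omega
      nlinarith [mul_nonneg (sub_nonneg.mpr (Int.ofNat_le.mpr (hfn g))) (sub_nonneg.mpr (Int.ofNat_le.mpr this))]
  have hs : ∑ g, t g = n * d + (n + 1) * Nat.card G - ((∑ g, f g * f g : ℕ) : ℤ) - n * Nat.card G := by
    simp only [t, Finset.sum_sub_distrib, Finset.sum_add_distrib, ← Finset.mul_sum]
    rw [hd]
    nth_rewrite 1 [← h1]
    simp [mul_comm]
  have hs0 := Finset.sum_nonneg fun g (_ : g ∈ Finset.univ) => ht0 g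
  have hle' : (n : ℤ) * d ≤ Nat.card G := by exact_mod_cast hle
  have h2' : 2 * (Nat.card G : ℤ) ≤ ((∑ g, f g * f g : ℕ) : ℤ) := by exact_mod_cast h2
  have e1 : (n : ℤ) * d = Nat.card G := by linarith
  have e2 : ∑ g, t g = 0 := by linarith
  have ht := (Finset.sum_eq_zero_iff_of_nonneg fun g _ => ht0 g).mp e2
  have hfle : ∀ g, g ≠ 1 → f g ≤ 1 := fun g hg => by
    have h3 := ht g (Finset.mem_univ _)
    have h4 : f g < n := lt_of_le_of_ne (hfn g) fun h => hg ((hf1 g).mp h)
    by_contra h5
    simp only [t, if_neg (show f g ≠ 0 by omega)] at h3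
    have h6 : (1 : ℤ) < f g := by exact_mod_cast not_le.mp h5
    have h7 : (f g : ℤ) < n := by exact_mod_cast h4
    nlinarith [mul_pos (sub_pos.mpr h6) (sub_pos.mpr h7)]
  have hdn : d + 1 = n := by
    have : ∑ g, (f g + if f g = 0 then 1 else 0) = ∑ g : G, (1 + if g = 1 then n - 1 else 0) := by
      refine Finset.sum_congr rfl fun g _ => ?_
      by_cases hg : g = 1
      · rw [(hf1 g).mpr hg, if_pos hg, if_neg (by omega)]; omega
      · have := hfle g hg
        rw [if_neg hg]
        split_ifs <;> omega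
    rw [Finset.sum_add_distrib, Finset.sum_add_distrib, h1, ← hd, ← hG] at this
    simp at this
    omega
  have e1' : n * d = Nat.card G := by exact_mod_cast e1
  refine ⟨⟨htr, ?_, hfle⟩, by rw [← e1', ← hdn]; simp, e1'⟩
  obtain ⟨a⟩ : Nonempty Ω := inferInstance
  have h3 := Perm.card_mul_card_stabilizer (G := G) a
  rw [← e1', Nat.card_eq_fintype_card] at h3
  have h4 := Nat.eq_of_mul_eq_mul_left (by omega) h3
  obtain ⟨⟨g, hg⟩, hg1⟩ := Subgroup.ne_bot_iff_exists_ne_one.mp
    ((stabilizer G a).one_lt_card_iff_ne_bot.mp (by omega))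
  exact ⟨g, fun e => hg1 (Subtype.ext e), a, hg⟩

end Cfsg.Agent.S5729
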