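import Mathlib
import Cfsg.Statements.S5730
import Cfsg.Agent.Isaacs.GW1
-- import your own Cfsg.Agent.* helpers here

set_option autoImplicit false
open Cfsg

namespace Cfsg.Agent.S5730

open Cfsg.Agent.Isaacs.GW Cfsg.Agent.Perm

/-- Let a finite group G act faithfully and transitively on a set with n ≥ 7 points. Then either G is a Frobenius permutation group (Frobenius as a permutation group: transitive, some non-identity element fixes a point, and no non-identity element fixes two points) of order n(n − 1)/a with a ∈ {1, 2}, in which case exactly a|G|/n of its elements are derangements, or the number of derangements is at least 2|G|/n. (Equality does occur: PSL₃(2) acting on the 7 points of the Fano plane has exactly 2|G|/7 derangements.) -/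
theorem result {G Ω : Type*} [Group G] [Finite G] [MulAction G Ω] [FaithfulSMul G Ω] [Fintype Ω] (htr : MulAction.IsPretransitive G Ω) (hn : 7 ≤ Fintype.card Ω) :
    (∃ a : ℕ, (a = 1 ∨ a = 2) ∧ (MulAction.IsPretransitive G Ω ∧ (∃ g : G, g ≠ 1 ∧ ∃ ω : Ω, g • ω = ω) ∧ ∀ g : G, g ≠ 1 → Nat.card (MulAction.fixedBy Ω g) ≤ 1) ∧ a * Nat.card G = Fintype.card Ω * (Fintype.card Ω - 1) ∧ Fintype.card Ω * Nat.card {g : G // ∀ ω : Ω, g • ω ≠ ω} = a * Nat.card G) ∨
    2 * Nat.card G ≤ Fintype.card Ω * Nat.card {g : G // ∀ ω : Ω, g • ω ≠ ω} := by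
  classical
  haveI := Fintype.ofFinite G
  obtain ⟨a, b, hab⟩ := Fintype.exists_pair_of_one_lt_card (α := Ω) (by omega)
  haveI : Nonempty Ω := ⟨a⟩
  have hD : Nat.card {g : G // ∀ ω : Ω, g • ω ≠ ω} =
      (Finset.univ.filter fun g : G => ∀ x : Ω, g • x ≠ x).card := by
    rw [Nat.card_eq_fintype_card, Fintype.card_subtype]
  rw [hD, Nat.card_eq_fintype_card (α := G)]
  by_cases two : Two G Ω
  swap
  · exact Or.inr (not_two two)
  by_cases hm : 2 ≤ (St G a b).card
  · exact Or.inr (two_big two hn hab hm)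
  obtain ⟨h1, h2, h3⟩ := sharp two hab (by omega)
  refine Or.inl ⟨1, Or.inl rfl, ⟨htr, ?_, fun g hg => ?_⟩, by rw [h2, one_mul], by rw [h3, h2, one_mul]⟩
  · obtain ⟨c, hc1, hc2⟩ : ∃ c, c ≠ a ∧ c ≠ b := by
      by_contra h
      push Not at h
      have : (Finset.univ : Finset Ω) ⊆ {a, b} := fun y _ => by
        by_cases hy : y = a
        · simp [hy]
        · simp [h y hy]
      have := (Finset.card_le_card this).trans Finset.card_le_two
      rw [Finset.card_univ] at this
      omega
    obtain ⟨g, e1, e2⟩ := two a b a c hab hc1.symm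
    exact ⟨g, fun e => hc2 (by rw [← e2, e, one_smul]), a, e1⟩
  · refine Finite.card_le_one_iff_subsingleton.2 ⟨fun x y => Subtype.ext ?_⟩
    by_contra hxy
    have : g ∈ St G (x : Ω) y := mem_St.2 ⟨x.2, y.2⟩
    rw [h1 _ _ hxy] at this
    exact hg (Finset.mem_singleton.1 this)

end Cfsg.Agent.S5730
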