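import Mathlib
import Cfsg.Statements.S5747


set_option autoImplicit false
open Cfsg

namespace Cfsg.Agent.S5747

section
variable {G Ω : Type*} [Group G] [MulAction G Ω]

/-- Bases of a subgroup. -/
def Ba (H : Subgroup G) {t : ℕ} (f : Fin t → Ω) : Prop := ∀ g ∈ H, (∀ i, g • f i = f i) → g = 1

/-- Irredundant bases of a subgroup. -/
def Ir (H : Subgroup G) {t : ℕ} (f : Fin t → Ω) : Prop :=
  Ba H f ∧ ∀ i, ∃ g ∈ H, (∀ j < i, g • f j = f j) ∧ g • f i ≠ f i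

theorem ba_cons {H : Subgroup G} {t : ℕ} {f : Fin t → Ω} {a : Ω} :
    Ba H (Fin.cons a f : Fin (t + 1) → Ω) ↔ Ba (H ⊓ MulAction.stabilizer G a) f := by
  simp [Ba, Fin.forall_fin_succ]

theorem ir_cons {H : Subgroup G} {t : ℕ} {f : Fin t → Ω} {a : Ω} :
    Ir H (Fin.cons a f : Fin (t + 1) → Ω) ↔
      (∃ g ∈ H, g • a ≠ a) ∧ Ir (H ⊓ MulAction.stabilizer G a) f := by
  simp [Ir, ba_cons, Fin.forall_fin_succ, and_assoc, and_left_comm]

theorem inf_eq {H : Subgroup G} {a : Ω} (h : ¬ ∃ g ∈ H, g • a ≠ a) :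
    H ⊓ MulAction.stabilizer G a = H := by
  push Not at h
  exact inf_eq_left.mpr h

theorem exists_ir_of_ba {t : ℕ} : ∀ {H : Subgroup G} {f : Fin t → Ω}, Ba H f →
    Ir H f ∨ ∃ t' < t, ∃ f' : Fin t' → Ω, Ir H f' := by
  induction t with
  | zero => exact fun h => Or.inl ⟨h, fun i => i.elim0⟩
  | succ t ih =>
    intro H f h
    rw [← Fin.cons_self_tail f] at h ⊢
    by_cases h1 : ∃ g ∈ H, g • f 0 ≠ f 0
    · rcases ih (ba_cons.mp h) with h2 | ⟨t', h2, f', h3⟩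
      exacts [Or.inl (ir_cons.mpr ⟨h1, h2⟩), Or.inr ⟨t' + 1, by omega, _, ir_cons.mpr ⟨h1, h3⟩⟩]
    · rw [ba_cons, inf_eq h1] at h
      rcases ih h with h2 | ⟨t', h2, f', h3⟩
      exacts [Or.inr ⟨t, by omega, _, h2⟩, Or.inr ⟨t', by omega, _, h3⟩]

theorem eq_of_perm {t : ℕ} : ∀ {H : Subgroup G}, (∀ (t : ℕ) (f : Fin t → Ω)
    (σ : Equiv.Perm (Fin t)), Ir H f → Ir H (f ∘ σ)) → ∀ {t' : ℕ} {f : Fin t → Ω}
    {f' : Fin t' → Ω}, Ir H f → Ir H f' → t = t' := by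
  induction t using Nat.strong_induction_on with
  | _ t ih =>
  intro H hH t' f f' h h'
  have tr : ∀ {f : Fin 0 → Ω} {t' : ℕ} {f' : Fin (t' + 1) → Ω}, Ir H f → ¬ Ir H f' := fun h h' => by
    obtain ⟨g, h1, -, h2⟩ := h'.2 0
    simp [h.1 g h1 fun i => i.elim0] at h2
  obtain _ | t := t
  · obtain _ | t' := t'
    exacts [rfl, absurd h' (tr h)]
  obtain _ | t' := t'
  · exact absurd h (tr h')
  rw [← Fin.cons_self_tail f, ir_cons] at h
  rw [← Fin.cons_self_tail f', ir_cons] at h'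
  have hR : ∀ a : Ω, (∃ g ∈ H, g • a ≠ a) → ∀ (t : ℕ) (f : Fin t → Ω) (σ : Equiv.Perm (Fin t)),
      Ir (H ⊓ MulAction.stabilizer G a) f → Ir (H ⊓ MulAction.stabilizer G a) (f ∘ σ) :=
    fun a ha t f σ h => by
      have := hH _ _ (Equiv.Perm.decomposeFin.symm (0, σ)) (ir_cons.mpr ⟨ha, h⟩)
      rw [show Fin.cons a f ∘ Equiv.Perm.decomposeFin.symm (0, σ) = Fin.cons a (f ∘ σ) from
        funext fun i => Fin.cases (by simp) (by simp) i, ir_cons] at this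
      exact this.2
  have sw : ∀ a b : Ω, (∃ g ∈ H, g • a ≠ a) → (∃ g ∈ H ⊓ MulAction.stabilizer G a, g • b ≠ b) →
      ∃ (s : ℕ) (k : Fin s → Ω), Ir (H ⊓ MulAction.stabilizer G a) (Fin.cons b k : Fin (s + 1) → Ω) ∧
        Ir (H ⊓ MulAction.stabilizer G b) (Fin.cons a k : Fin (s + 1) → Ω) := fun a b ha hb => by
    have h1 : Ba (H ⊓ MulAction.stabilizer G a ⊓ MulAction.stabilizer G b) f := fun g hg hg' =>
      h.2.1 g ⟨hg.1.1, hg' 0⟩ fun i => hg' i.succ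
    obtain ⟨s, k, h2⟩ : ∃ (s : ℕ) (k : Fin s → Ω),
        Ir (H ⊓ MulAction.stabilizer G a ⊓ MulAction.stabilizer G b) k := by
      rcases exists_ir_of_ba h1 with h2 | ⟨_, _, _, h2⟩ <;> exact ⟨_, _, h2⟩
    have h3 := ir_cons.mpr ⟨hb, h2⟩
    have := hH _ _ (Equiv.swap 0 1) (ir_cons.mpr ⟨ha, h3⟩)
    rw [show (Fin.cons a (Fin.cons b k : Fin (s + 1) → Ω) : Fin (s + 2) → Ω) ∘ Equiv.swap 0 1 =
      Fin.cons b (Fin.cons a k) from funext fun i => Fin.cases (by simp) (Fin.cases (by simp)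
        fun i => by simp [Equiv.swap_apply_of_ne_of_ne (Fin.succ_ne_zero i.succ)
          (Fin.succ_succ_ne_one i)]) i, ir_cons] at this
    exact ⟨s, k, h3, this.2⟩
  have fin : ∀ (s : ℕ) (k k' : Fin (s + 1) → Ω), Ir (H ⊓ MulAction.stabilizer G (f 0)) k →
      Ir (H ⊓ MulAction.stabilizer G (f' 0)) k' → t + 1 = t' + 1 := fun s k k' h1 h2 => by
    have h3 := ih t (by omega) (hR _ h.1) h.2 h1
    have h4 := ih (s + 1) (by omega) (hR _ h'.1) h2 h'.2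
    omega
  by_cases h1 : ∃ g ∈ H ⊓ MulAction.stabilizer G (f 0), g • f' 0 ≠ f' 0
  · obtain ⟨s, k, h2, h3⟩ := sw _ _ h.1 h1
    exact fin s _ _ h2 h3
  by_cases h2 : ∃ g ∈ H ⊓ MulAction.stabilizer G (f' 0), g • f 0 ≠ f 0
  · obtain ⟨s, k, h2, h3⟩ := sw _ _ h'.1 h2
    exact fin s _ _ h3 h2
  rw [← inf_eq h2, inf_right_comm, inf_eq h1] at h'
  rw [ih t (by omega) (hR _ h.1) h.2 h'.2]

end

/-- Let a finite group G act on a finite set Ω. An irredundant base is a sequence of points ω₁, …, ω_t whose pointwise stabiliser is trivial and in which each ω_i is moved by some element fixing ω₁, …, ω_{i−1}. Then all irredundant bases have the same length if and only if every reordering of an irredundant base is again an irredundant base. -/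
theorem result {G Ω : Type*} [Group G] [Finite G] [MulAction G Ω] [Fintype Ω] :
    (∀ (t t' : ℕ) (f : Fin t → Ω) (f' : Fin t' → Ω), ((∀ g : G, (∀ i : Fin t, g • f i = f i) → g = 1) ∧ ∀ i : Fin t, ∃ g : G, (∀ j : Fin t, j < i → g • f j = f j) ∧ g • f i ≠ f i) → ((∀ g : G, (∀ i : Fin t', g • f' i = f' i) → g = 1) ∧ ∀ i : Fin t', ∃ g : G, (∀ j : Fin t', j < i → g • f' j = f' j) ∧ g • f' i ≠ f' i) → t = t') ↔
    (∀ (t : ℕ) (f : Fin t → Ω) (σ : Equiv.Perm (Fin t)), ((∀ g : G, (∀ i : Fin t, g • f i = f i) → g = 1) ∧ ∀ i : Fin t, ∃ g : G, (∀ j : Fin t, j < i → g • f j = f j) ∧ g • f i ≠ f i) → ((∀ g : G, (∀ i : Fin t, g • (f ∘ σ) i = (f ∘ σ) i) → g = 1) ∧ ∀ i : Fin t, ∃ g : G, (∀ j : Fin t, j < i → g • (f ∘ σ) j = (f ∘ σ) j) ∧ g • (f ∘ σ) i ≠ (f ∘ σ) i)) := by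
  have key : ∀ (t : ℕ) (f : Fin t → Ω), ((∀ g : G, (∀ i : Fin t, g • f i = f i) → g = 1) ∧
      ∀ i : Fin t, ∃ g : G, (∀ j : Fin t, j < i → g • f j = f j) ∧ g • f i ≠ f i) ↔
      Ir (⊤ : Subgroup G) f := fun t f => by simp [Ir, Ba]
  simp only [key]
  refine ⟨fun h t f σ hf => ?_, fun h t t' f f' => eq_of_perm h⟩
  rcases exists_ir_of_ba (f := f ∘ σ) (fun g hg hg' => hf.1 g hg fun i => by
    simpa using hg' (σ.symm i)) with h1 | ⟨t', h1, f', h2⟩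
  exacts [h1, absurd (h _ _ _ _ hf h2) h1.ne']

end Cfsg.Agent.S5747
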