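import Mathlib
import Cfsg.Statements.S5752
import Cfsg.Agent.Perm.TW

set_option autoImplicit false
open Cfsg

namespace Cfsg.Agent.S5752


/-- A form of the Thompson–Wielandt Theorem on primitive permutation groups. Let G be a finite group and M₁, M₂ two distinct conjugate maximal subgroups of G with trivial core in G; define two descending sequences of subgroups by A₀ = M₁, B₀ = M₂ and, for every i, A_{i+1} = the core in M₁ of A_i ∩ B_i and B_{i+1} = the core in M₂ of A_i ∩ B_i (the core in M of a subgroup Y ≤ M is the largest normal subgroup of M contained in Y). If A₂ and B₂ are both non-trivial, then for some prime p the subgroup generated by A₂ and B₂ is a p-group, and for each j the generalized Fitting subgroups of M_j and of its first core (A₁, resp. B₁) are their largest normal p-subgroups. -/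
theorem result {G : Type*} [Group G] [Finite G] (M₁ M₂ : Subgroup G) (hmax : IsCoatom M₁) (g : G)
    (hconj : M₂ = M₁.map (MulAut.conj g).toMonoidHom) (hne : M₁ ≠ M₂) (hcore : M₁.normalCore = ⊥)
    (A B : ℕ → Subgroup G) (hA0 : A 0 = M₁) (hB0 : B 0 = M₂)
    (hA : ∀ i, A (i + 1) = ((A i ⊓ B i).subgroupOf M₁).normalCore.map M₁.subtype)
    (hB : ∀ i, B (i + 1) = ((A i ⊓ B i).subgroupOf M₂).normalCore.map M₂.subtype) (hA2 : A 2 ≠ ⊥) (hB2 : B 2 ≠ ⊥) :
    ∃ p : ℕ, p.Prime ∧ IsPGroup p ↥(A 2 ⊔ B 2) ∧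
      Cfsg.generalizedFittingSubgroup ↥M₁ = Cfsg.pCore p ↥M₁ ∧ Cfsg.generalizedFittingSubgroup ↥(A 1) = Cfsg.pCore p ↥(A 1) ∧
      Cfsg.generalizedFittingSubgroup ↥M₂ = Cfsg.pCore p ↥M₂ ∧ Cfsg.generalizedFittingSubgroup ↥(B 1) = Cfsg.pCore p ↥(B 1) := by
  classical
  have hrc : ∀ H X : Subgroup G, X ≤ H →
      (X.subgroupOf H).normalCore.map H.subtype = Perm.rc H X := fun H X hX => by
    ext x
    rw [Perm.mem_rc, Subgroup.mem_map]
    constructor
    · rintro ⟨y, hy, rfl⟩ h hh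
      simpa [Subgroup.mem_subgroupOf] using hy ⟨h⁻¹, inv_mem hh⟩
    · intro h
      have hx : x ∈ H := hX (by simpa using h 1 H.one_mem)
      exact ⟨⟨x, hx⟩, fun b => by simpa [Subgroup.mem_subgroupOf] using h b⁻¹ (inv_mem b.2), rfl⟩
  have h1 : A 1 = Perm.rc M₁ (M₁ ⊓ M₂) := by rw [hA 0, hA0, hB0, hrc _ _ inf_le_left]
  have h2 : B 1 = Perm.rc M₂ (M₂ ⊓ M₁) := by
    rw [hB 0, hA0, hB0, hrc _ _ inf_le_right, inf_comm]
  have h3 : A 2 = Perm.rc2 M₁ M₂ := by
    rw [hA 1, h1, h2, hrc _ _ (inf_le_left.trans ((Perm.rc_le _ _).trans inf_le_left))]; rfl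
  have h4 : B 2 = Perm.rc2 M₂ M₁ := by
    rw [hB 1, h1, h2, hrc _ _ (inf_le_right.trans ((Perm.rc_le _ _).trans inf_le_left)), inf_comm]
    rfl
  have hP : Perm.PP M₁ M₂ := ⟨hne, ⟨g, hconj.symm⟩, fun X hX h5 h6 => by
    rcases hmax.le_iff.1 h6 with h7 | h7
    · have : X.Normal := Subgroup.normalizer_eq_top_iff.1 h7
      exact absurd (eq_bot_iff.2 (hcore ▸ Subgroup.normal_le_normalCore.2 h5)) hX
    · exact h7.le⟩
  rw [h3] at hA2
  rw [h4] at hB2
  obtain ⟨p, hp, h5, h6⟩ := hP.tw hA2 hB2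
  haveI := Fact.mk hp
  have h7 : Cfsg.generalizedFittingSubgroup M₂ = Cfsg.pCore p M₂ := by
    subst hconj
    exact Comp2.genFitting_eq_pCore_congr p ((MulAut.conj g).subgroupMap M₁) h5
  have h8 : Cfsg.pCoreOf p M₁ ≠ ⊥ := fun h => hA2 (eq_bot_iff.2 (h ▸ LocalEven.le_pCoreOf
    ((Perm.rc2_le _ _).trans inf_le_left) (Perm.le_normalizer_rc2 _ _) h6))
  have h9 := hP.symm.isPGroup_rc2 (hP.core_ne_bot h8)
  refine ⟨p, hp, ?_, h5, ?_, h7, ?_⟩
  · rw [h3, h4]
    exact LocalEven.isPGroup_sup h6 h9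
      (((Perm.rc2_le _ _).trans inf_le_right).trans (Perm.le_normalizer_rc2 _ _))
  · rw [h1]
    have := Subgroup.normal_subgroupOf_of_le_normalizer (Perm.le_normalizer_rc M₁ (M₁ ⊓ M₂))
    exact Comp2.genFitting_eq_pCore_of_subnormal_in p h5 ((Perm.rc_le _ _).trans inf_le_left)
      (Subgroup.Normal.isSubnormal this)
  · rw [h2]
    have := Subgroup.normal_subgroupOf_of_le_normalizer (Perm.le_normalizer_rc M₂ (M₂ ⊓ M₁))
    exact Comp2.genFitting_eq_pCore_of_subnormal_in p h7 ((Perm.rc_le _ _).trans inf_le_left)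
      (Subgroup.Normal.isSubnormal this)

end Cfsg.Agent.S5752
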