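import Mathlib
import Cfsg.Statements.S5754
import Cfsg.Agent.Orth.Basic

set_option autoImplicit false
open Cfsg

namespace Cfsg.Agent.S5754

/-- Let V be a finite-dimensional vector space over a finite field F carrying an anisotropic quadratic form Q (Q(v) = 0 only for v = 0). Then the group of all maps v ↦ φ(v) + c, with φ an isometry of Q and c ∈ V, acts on V as a binary permutation group: given n ≥ 2 and two n-tuples u, u' of vectors such that every pair of corresponding entries of u is carried to that of u' by such a map, one such map carries u to u'. -/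
theorem result {F V : Type*} [Field F] [Finite F] [AddCommGroup V] [Module F V] [Module.Finite F V]
    (Q : QuadraticForm F V) (hQ : Q.Anisotropic) (n : ℕ) (hn : 2 ≤ n) (u u' : Fin n → V)
    (h2 : ∀ i j : Fin n, i ≠ j → ∃ (φ : Q.IsometryEquiv Q) (c : V), φ (u i) + c = u' i ∧ φ (u j) + c = u' j) :
    ∃ (φ : Q.IsometryEquiv Q) (c : V), ∀ i, φ (u i) + c = u' i := by
  classical
  let o : Fin n := ⟨0, by omega⟩
  have h3 : ∀ i j, Q (u i - u j) = Q (u' i - u' j) := fun i j => by
    by_cases h : i = j
    · simp [h]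
    obtain ⟨φ, c, e1, e2⟩ := h2 i j h
    rw [← e1, ← e2, add_sub_add_right_eq_sub, ← map_sub, φ.map_app]
  have h4 : ∀ i j, QuadraticMap.polar Q (u i - u o) (u j - u o) =
      QuadraticMap.polar Q (u' i - u' o) (u' j - u' o) := fun i j => by
    have e1 := Orth.q_sub (Q := Q) (u i - u o) (u j - u o)
    have e2 := Orth.q_sub (Q := Q) (u' i - u' o) (u' j - u' o)
    rw [sub_sub_sub_cancel_right] at e1 e2
    linear_combination e1 - e2 - h3 i j + h3 i o + h3 j o
  have key : ∀ S : Finset (Fin n), ∃ g : Orth.OG Q, ∀ i ∈ S, g.1 (u i - u o) = u' i - u' o := by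
    intro S
    induction S using Finset.induction_on with
    | empty => exact ⟨1, by simp⟩
    | insert j S _ ih =>
      obtain ⟨g, hg⟩ := ih
      have h5 : ∀ x y, QuadraticMap.polar Q (g.1 x) (g.1 y) = QuadraticMap.polar Q x y :=
        fun x y => by simp only [QuadraticMap.polar, ← map_add, g.2 _]
      by_cases h : g.1 (u j - u o) - (u' j - u' o) = 0
      · exact ⟨g, fun i hi => (Finset.mem_insert.mp hi).elim (fun e => e ▸ sub_eq_zero.mp h) (hg i)⟩
      refine ⟨Orth.refl Q (g.1 (u j - u o) - (u' j - u' o)) * g, fun i hi => ?_⟩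
      change (Orth.refl Q _).1 (g.1 _) = _
      rcases Finset.mem_insert.mp hi with rfl | hi
      · have h6 := mt (hQ _) h
        rw [Orth.refl_apply, show QuadraticMap.polar Q _ _ = Q (g.1 (u i - u o) - (u' i - u' o)) by
          rw [Orth.q_sub, QuadraticMap.polar_sub_left, Orth.p_self, g.2, ← h3,
            QuadraticMap.polar_comm]
          ring, inv_mul_cancel₀ h6, one_smul, sub_sub_cancel]
      · rw [Orth.refl_apply_of_orth, hg i hi]
        rw [QuadraticMap.polar_sub_left, h5, hg i hi, h4, sub_self]
  obtain ⟨g, hg⟩ := key Finset.univ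
  refine ⟨⟨g.1, g.2⟩, u' o - g.1 (u o), fun i => ?_⟩
  change g.1 (u i) + _ = _
  rw [add_sub_left_comm, ← map_sub, hg i (Finset.mem_univ i), add_sub_cancel]

end Cfsg.Agent.S5754
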