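import Mathlib
import Cfsg.Statements.S5763


set_option autoImplicit false
open Cfsg

namespace Cfsg.Agent.S5763

open Equiv

/-- Labels of the four pairs. -/
def lab (x : Fin 8) : Fin 4 := ⟨x / 2, by omega⟩

/-- The largest normal `2`-subgroup of the stabiliser of the pairing. -/
def N : Subgroup (Perm (Fin 8)) where
  carrier := {g | ∃ c : ℕ, ∀ x, (lab (g x) : ℕ) = lab x ^^^ c}
  one_mem' := ⟨0, fun _ => by simp⟩
  mul_mem' := fun {g h} ⟨c, hc⟩ ⟨d, hd⟩ => ⟨d ^^^ c, fun x => by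
    rw [Perm.mul_apply, hc, hd, Nat.xor_assoc]⟩
  inv_mem' := fun {g} ⟨c, hc⟩ => ⟨c, fun x => by
    have := hc (g⁻¹ x)
    rw [Perm.coe_inv, Equiv.apply_symm_apply] at this
    rw [this, Nat.xor_xor_cancel_right, Perm.coe_inv]⟩

theorem isPGroup_N : IsPGroup 2 N := fun ⟨g, c, hc⟩ => ⟨2, Subtype.ext (Equiv.ext fun x => by
  have h1 : ∀ x, lab (g (g x)) = lab x := fun x => Fin.ext (by rw [hc, hc, Nat.xor_xor_cancel_right])
  have h2 : ∀ x y z : Fin 8, lab y = lab x → lab z = lab y → y = x ∨ z = y ∨ z = x := by decide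
  change g (g (g (g x))) = x
  rcases h2 x _ _ (h1 x) (h1 _) with h | h | h
  · rw [h, h]
  · rw [g.injective (g.injective h), g.injective (g.injective h)]
  · exact h)⟩

/-- Candidates for the common element. -/
def L : List (List ℕ) :=
  [[1, 0, 2, 3, 4, 5, 6, 7],
   [0, 1, 3, 2, 4, 5, 6, 7],
   [0, 1, 2, 3, 5, 4, 6, 7],
   [0, 1, 2, 3, 4, 5, 7, 6],
   [1, 0, 3, 2, 5, 4, 7, 6],
   [2, 3, 0, 1, 6, 7, 4, 5],
   [3, 2, 1, 0, 6, 7, 4, 5],
   [2, 3, 0, 1, 7, 6, 5, 4],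
   [3, 2, 1, 0, 7, 6, 5, 4],
   [4, 5, 6, 7, 0, 1, 2, 3],
   [5, 4, 6, 7, 1, 0, 2, 3],
   [4, 5, 7, 6, 0, 1, 3, 2],
   [5, 4, 7, 6, 1, 0, 3, 2],
   [6, 7, 4, 5, 2, 3, 0, 1],
   [7, 6, 4, 5, 2, 3, 1, 0],
   [6, 7, 5, 4, 3, 2, 0, 1],
   [7, 6, 5, 4, 3, 2, 1, 0]]

/-- The map given by a list of images. -/
def fn (k : List ℕ) (x : Fin 8) : Fin 8 := Fin.ofNat 8 (k.getD x 0)

theorem L_spec : ∀ k ∈ L, (∀ x, fn k (fn k x) = x) ∧ (∃ x, fn k x ≠ x) ∧ (∀ x, (fn k x).1 = k.getD x 0) ∧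
    ∃ c ∈ [0, 1, 2, 3], ∀ x, (lab (fn k x) : ℕ) = lab x ^^^ c := by decide +kernel

/-- The test. -/
def chk (a : List ℕ) : Bool :=
  (a.map (16 ^ ·)).sum != 8738 || L.any fun k => (List.range 8).all fun x =>
    a.getD (k.getD x 0) 0 == a.getD x 0 ^^^ (a.getD (k.getD 0 0) 0 ^^^ a.getD 0 0)

theorem key : ((List.range 4).all fun a => (List.range 4).all fun b => (List.range 4).all fun c =>
    (List.range 4).all fun d => (List.range 4).all fun e => (List.range 4).all fun f =>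
    (List.range 4).all fun g => (List.range 4).all fun h => chk [a, b, c, d, e, f, g, h]) = true := by
  decide +kernel

theorem exists_common (w : Perm (Fin 8)) : ∃ g ∈ N, g ≠ 1 ∧ w * g * w⁻¹ ∈ N := by
  have h := key
  simp only [List.all_eq_true, List.mem_range] at h
  replace h := h _ (lab (w 0)).2 _ (lab (w 1)).2 _ (lab (w 2)).2 _ (lab (w 3)).2 _ (lab (w 4)).2 _
    (lab (w 5)).2 _ (lab (w 6)).2 _ (lab (w 7)).2
  have h1 : ∀ x : Fin 8, [(lab (w 0)).1, lab (w 1), lab (w 2), lab (w 3), lab (w 4), lab (w 5),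
      lab (w 6), lab (w 7)].getD x 0 = lab (w x) := fun x => by fin_cases x <;> rfl
  have h2 := Equiv.sum_comp w fun x => 16 ^ (lab x).1
  rw [Fin.sum_univ_eight, show ∑ x : Fin 8, 16 ^ (lab x).1 = 8738 by decide] at h2
  simp only [chk, Bool.or_eq_true, List.any_eq_true, List.all_eq_true, List.mem_range, beq_iff_eq,
    bne_iff_ne, List.map_cons, List.map_nil, List.sum_cons, List.sum_nil] at h
  obtain ⟨k, hk, h⟩ := h.resolve_left (by omega)
  generalize (_ ^^^ List.getD _ 0 0 : ℕ) = n at h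
  obtain ⟨h3, ⟨x, h4⟩, h5, c, -, hc⟩ := L_spec k hk
  refine ⟨Function.Involutive.toPerm _ h3, ⟨c, hc⟩, fun e => h4 (Equiv.congr_fun e x), n,
    fun x => ?_⟩
  have := h _ (w⁻¹ x).2
  rw [← h5, h1, h1] at this
  simpa [Function.Involutive.toPerm] using this

/-- In the symmetric group on 8 letters any two Sylow 2-subgroups have non-trivial intersection: for a Sylow 2-subgroup H and every element x, H ∩ xHx⁻¹ ≠ 1. -/
theorem result (H : Sylow 2 (Equiv.Perm (Fin 8))) (x : Equiv.Perm (Fin 8)) :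
    (H : Subgroup (Equiv.Perm (Fin 8))) ⊓ (H : Subgroup (Equiv.Perm (Fin 8))).map (MulAut.conj x).toMonoidHom ≠ ⊥ := by
  obtain ⟨Q, hQ⟩ := isPGroup_N.exists_le_sylow
  obtain ⟨y, rfl⟩ := MulAction.exists_smul_eq (Perm (Fin 8)) H Q
  obtain ⟨g, h1, h2, h3⟩ := exists_common (y * x⁻¹ * y⁻¹)
  have h4 : ∀ g ∈ N, y⁻¹ * g * y ∈ (H : Subgroup _) := fun g hg => by
    simpa [Sylow.coe_subgroup_smul, Subgroup.mem_pointwise_smul_iff_inv_smul_mem] using hQ hg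
  intro e
  have : y⁻¹ * g * y ∈ (⊥ : Subgroup _) := e ▸ ⟨h4 g h1, _, h4 _ h3, by simp [mul_assoc]⟩
  exact h2 (by simpa [mul_eq_one_iff_eq_inv, inv_mul_eq_iff_eq_mul] using this)

end Cfsg.Agent.S5763
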