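import Cfsg.Statements.S5769
import Mathlib
import Cfsg.Agent.Chev.SsE7
import Cfsg.Agent.Spc.Tri
import Cfsg.Agent.Spec.Lin2

set_option autoImplicit false
open Cfsg

namespace Cfsg.Agent.S5769
open Cfsg.Lie Cfsg.Agent.Chev Cfsg.Agent.Spec Cfsg.Agent.Spc

/-- The Chevalley group of type E₇ over the field with two elements (generated by its root elements in the adjoint representation) has no subgroup isomorphic to any of PSL₂(64), PSp₄(8), PSL₄(8), PSU₄(8) or PSp₆(8). Here F₈ and F₆₄ denote fields with 8 and 64 elements. -/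
theorem result {F₈ F₆₄ : Type*} [Field F₈] [Fintype F₈] (h8 : Fintype.card F₈ = 8) [Field F₆₄] [Fintype F₆₄] (h64 : Fintype.card F₆₄ = 64)
    (H : Subgroup ↥(Cfsg.Lie.chevE7.group (ZMod 2))) :
    IsEmpty (↥H ≃* Matrix.ProjectiveSpecialLinearGroup (Fin 2) F₆₄) ∧ IsEmpty (↥H ≃* Cfsg.PSp 2 F₈) ∧
    IsEmpty (↥H ≃* Matrix.ProjectiveSpecialLinearGroup (Fin 4) F₈) ∧ IsEmpty (↥H ≃* Cfsg.PSU 4 F₆₄ 8) ∧ IsEmpty (↥H ≃* Cfsg.PSp 3 F₈) := by
  have h1 : Nat.card F₈ = 8 := Nat.card_eq_fintype_card.trans h8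
  have h2 : Nat.card F₆₄ = 64 := Nat.card_eq_fintype_card.trans h64
  haveI : Fact (ringChar F₈).Prime := ⟨CharP.char_is_prime F₈ _⟩
  haveI : Fact (ringChar F₆₄).Prime := ⟨CharP.char_is_prime F₆₄ _⟩
  have h3 : ((65 : ℕ) : F₈) ≠ 0 := fun e => by
    have := FiniteField.cast_card_eq_zero F₈
    rw [h8] at this
    exact one_ne_zero (by push_cast at e this; linear_combination e - 8 * this : (1 : F₈) = 0)
  have h4 : ((Fintype.card F₈ : ℕ) : ZMod 65) ^ 2 = -1 := by rw [h8]; decide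
  refine ⟨isEmpty_of_orderOf no_65_E7 H ?_, isEmpty_of_orderOf no_65_E7 H (psp_half two_pos h3 (.inr h4) fun m h => (by norm_num : Nat.Coprime 65 2).dvd_of_dvd_mul_right h),
    isEmpty_of_orderOf no_65_E7 H ?_, isEmpty_of_orderOf no_65_E7 H (psu_singer (h2.trans (by norm_num)) (by norm_num) fun m h => ?_), isEmpty_of_orderOf no_65_E7 H ?_⟩
  · have := singer_mem (F := F₆₄) (n := 2) _ two_pos
    rwa [h2] at this
  · have := singer_mem (F := F₈) (n := 4) _ four_pos
    rw [h1] at this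
    exact mem_of_dvd this (by norm_num)
  · rw [show GU' 8 4 = 455 by decide, show Nat.gcd 4 (8 + 1) = 1 by norm_num, one_mul] at h
    exact (by norm_num : 65 ∣ 455).trans h
  · obtain ⟨f, f1, hf⟩ := exists_isSp_prim h3 two_pos (.inr h4)
    refine (f1.prodMap (isSp_one 1)).mem_spec_psp (by simp) ?_
    rintro m ⟨c, hm⟩
    replace hm : (f ^ m).prodMap (1 ^ m) = _ := ((LinearMap.prodMapRingHom F₈ _ _).map_pow (f, 1) m).trans hm
    have e := fun v => congrArg (fun g : Module.End F₈ _ => g v) hm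
    have e1 : c = 1 := by simpa  using (congrFun (congrArg Prod.snd (e (0, 1))) (.inl 0)).symm
    exact (hf m).1 (LinearMap.ext fun v => by simpa [e1] using congrArg Prod.fst (e (v, 0)))

end Cfsg.Agent.S5769
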