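import Cfsg.Statements.S5883
import Mathlib
import Cfsg.Agent.H3x.Fi23
import Cfsg.Agent.S0144

set_option autoImplicit false
open Cfsg

namespace Cfsg.Agent.S5883


/-- The constant 10 in the statement that H⁽¹⁰⁾ is perfect for every maximal subgroup H of a finite almost simple group cannot be lowered to 9: there exist a finite almost simple group G (with a non-abelian simple normal subgroup of trivial centralizer) and a maximal subgroup H of G whose ninth derived subgroup H⁽⁹⁾ is not perfect, i.e. H⁽¹⁰⁾ ≠ H⁽⁹⁾. (A solvable maximal subgroup of derived length 10 in the Fischer group Fi₂₃ is such an example.) -/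
theorem result :
    ∃ (G : Type) (_ : Group G) (_ : Finite G) (S H : Subgroup G), S.Normal ∧ IsSimpleGroup S ∧ ¬ IsMulCommutative S ∧
      Subgroup.centralizer (S : Set G) = ⊥ ∧ IsCoatom H ∧ derivedSeries H 10 ≠ derivedSeries H 9 := by
  have := Comp.Fi23.simple
  have := Comp.Fi23.card.1
  have := S0144.result 2 3 11 13 Nat.prime_two Nat.prime_three H3x.Fi23.cardH
  have nc : ¬ IsMulCommutative Spor.Fi23 := fun h => by
    have := ((Group.is_simple_iff_prime_card (α := Spor.Fi23)).mp inferInstance)
    rw [Comp.Fi23.card.2.1] at this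
    exact absurd this (by norm_num)
  refine ⟨Spor.Fi23, inferInstance, inferInstance, ⊤, _, inferInstance, Subgroup.topEquiv.isSimpleGroup,
    fun h => nc ⟨⟨fun a b => congrArg Subtype.val (h.1.1 ⟨a, trivial⟩ ⟨b, trivial⟩)⟩⟩, ?_, H3x.Fi23.main.1,
    H3x.der_ne H3x.Fi23.main.2⟩
  rw [Subgroup.coe_top, Subgroup.centralizer_univ]
  exact (inferInstance : (Subgroup.center Spor.Fi23).Normal).eq_bot_or_eq_top.resolve_right fun h =>
    nc ⟨⟨fun a b => Subgroup.mem_center_iff.mp (h ▸ Subgroup.mem_top b : b ∈ Subgroup.center _) a⟩⟩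

end Cfsg.Agent.S5883
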