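import Mathlib
import Cfsg.Statements.S5885


set_option autoImplicit false
open Cfsg

namespace Cfsg.Agent.S5885

open scoped Pointwise

open MulAction in
theorem three {G : Type*} [Group G] [Finite G] (n : ℕ)
    (hA : ∀ P : Subgroup (Equiv.Perm (Fin n)), IsPreprimitive P (Fin n) → alternatingGroup (Fin n) ≤ P)
    (M : Subgroup G) (hM : IsCoatom M) (hn : M.index = n) {x y z : G ⧸ M} (h1 : x ≠ y) (h2 : x ≠ z)
    (h3 : y ≠ z) : ∃ g : G, g • x = y ∧ g • y = z ∧ ∀ w, w ≠ x → w ≠ y → w ≠ z → g • w = w := by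
  classical
  let e : (G ⧸ M) ≃ Fin n := Finite.equivFinOfCardEq hn
  let φ : G →* Equiv.Perm (Fin n) := e.permCongrHom.toMonoidHom.comp (toPermHom G (G ⧸ M))
  have : Nontrivial (G ⧸ M) := ⟨x, y, h1⟩
  have : IsPreprimitive G (G ⧸ M) := (isCoatom_stabilizer_iff_preprimitive G
    ((1 : G) : G ⧸ M)).mp (by rwa [stabilizer_quotient])
  let f : (G ⧸ M) →ₑ[φ.rangeRestrict] Fin n := ⟨e, fun g x => by
    change _ = φ g (e x)
    simp [φ]⟩
  obtain ⟨g, hg⟩ := hA φ.range (IsPreprimitive.of_surjective (f := f) e.surjective)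
    (show Equiv.swap (e x) (e y) * Equiv.swap (e y) (e z) ∈ alternatingGroup _ by
      simp [h1, h3])
  have h4 : ∀ w, e (g • w) = Equiv.swap (e x) (e y) (Equiv.swap (e y) (e z) (e w)) := fun w => by
    simpa [φ] using Equiv.congr_fun hg (e w)
  refine ⟨g, e.injective ?_, e.injective ?_, fun w a b c => e.injective ?_⟩
  · simp [h4, Equiv.swap_apply_def, h1, h2]
  · simp [h4, Equiv.swap_apply_def, h2.symm, h3.symm]
  · simp [h4, Equiv.swap_apply_def, a, b, c]

/-- Let n be an odd positive integer such that every primitive permutation group of degree n contains the alternating group (so the symmetric and alternating groups are the only primitive groups of degree n). Let G be a finite group, M a maximal subgroup of G of index n, and H a maximal subgroup of M. Then H is a second maximal subgroup of G: H is maximal in every maximal subgroup K of G containing H. -/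
theorem result {G : Type*} [Group G]
    [Finite G] (n : ℕ) (hodd : Odd n)
    (hA : ∀ P : Subgroup (Equiv.Perm (Fin n)), MulAction.IsPreprimitive P (Fin n) → alternatingGroup (Fin n) ≤ P)
    (M : Subgroup G) (hM : IsCoatom M) (hn : M.index = n) (H : Subgroup G) (hHM : H ≤ M)
    (hmax : IsCoatom (H.subgroupOf M)) (K : Subgroup G) (hK : IsCoatom K) (hHK : H ≤ K) :
    IsCoatom (H.subgroupOf K) := by
  by_cases hKM : K = M
  · exact hKM ▸ hmax
  have max : ∀ L, H ≤ L → L ≤ M → L = H ∨ L = M := fun L h1 h2 => by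
    rcases (hmax.le_iff.mp (Subgroup.comap_mono h1 : _ ≤ L.subgroupOf M)) with e | e
    · exact .inr (le_antisymm h2 (Subgroup.subgroupOf_eq_top.mp e))
    · exact .inl (le_antisymm (fun x hx => (e.le (show (⟨x, h2 hx⟩ : M) ∈ L.subgroupOf M from hx) :))
        h1)
  have hI : K ⊓ M = H := (max _ (le_inf hHK hHM) inf_le_right).resolve_right fun e =>
    hKM ((hM.le_iff.mp (e ▸ inf_le_left : M ≤ K)).resolve_left hK.1)
  have hs : ∀ a b : G, (a : G ⧸ M) = b ↔ a⁻¹ * b ∈ M := fun a b => QuotientGroup.eq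
  refine ⟨fun e => ?_, fun L' hL' => ?_⟩
  · have h1 : K ≤ M := (Subgroup.subgroupOf_eq_top.mp e).trans hHM
    exact hKM ((hK.le_iff.mp h1).resolve_left hM.1).symm
  obtain ⟨⟨l, hlK⟩, hl, hl'⟩ := SetLike.exists_of_lt hL'
  obtain ⟨L, hL, rfl⟩ : ∃ L ≤ K, L' = L.subgroupOf K :=
    ⟨L'.map K.subtype, Subgroup.map_subtype_le _,
      (Subgroup.comap_map_eq_self_of_injective K.subtype_injective _).symm⟩
  have hHL : H ≤ L := fun x hx => (hL'.le (show (⟨x, hHK hx⟩ : K) ∈ H.subgroupOf K from hx) :)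
  replace hl : l ∈ L := hl
  replace hl' : l ∉ M := fun e => hl' (hI.le ⟨hlK, e⟩ :)
  by_contra hc
  obtain ⟨k, hk, hk'⟩ : ∃ k ∈ K, k ∉ L := SetLike.not_le_iff_exists.mp
    (mt Subgroup.subgroupOf_eq_top.mpr hc)
  have blk : ∀ a ∈ K, ∀ b ∈ L, (a : G ⧸ M) = b → a ∈ L := fun a ha b hb e => by
    have := hHL (hI.le ⟨K.mul_mem (K.inv_mem ha) (hL hb), (hs a b).mp e⟩)
    simpa using mul_mem hb (L.inv_mem this)
  let Γ : Set (G ⧸ M) := (fun a : G => (a : G ⧸ M)) '' L
  have hΓ : ∀ a ∈ K, (a : G ⧸ M) ∈ Γ ↔ a ∈ L := fun a ha =>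
    ⟨fun ⟨b, hb, e⟩ => blk a ha b hb e.symm, fun h => ⟨a, h, rfl⟩⟩
  have hkl : k * l ∉ L := fun e => hk' ((L.mul_mem_cancel_right hl).mp e)
  have hne : ((k : G) : G ⧸ M) ≠ (k * l : G) := fun e => hl' (by simpa using (hs _ _).mp e)
  have hst : ∀ g : G, g • ((1 : G) : G ⧸ M) = (1 : G) → g ∈ M := fun g e => by
    simpa using (hs _ _).mp e
  have h1 : ∀ a ∈ K, a ∉ L → ∀ b ∈ L, (b : G ⧸ M) ≠ a := fun a ha ha' b hb e =>
    ha' (blk a ha b hb e.symm)
  have hH : M ⊓ MulAction.stabilizer G Γ = H := by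
    refine (max _ (le_inf hHM fun h hh => ?_) inf_le_left).resolve_right fun e => ?_
    · refine (MulAction.mem_stabilizer_set' (Set.toFinite Γ)).mpr ?_
      rintro _ ⟨a, ha, rfl⟩
      exact ⟨h * a, mul_mem (hHL hh) ha, rfl⟩
    · obtain ⟨g, a1, -, a3⟩ := three n hA M hM hn (h1 k hk hk' l hl)
        (h1 _ (mul_mem hk hlK) hkl l hl) hne
      have a4 := (e.ge (hst g (a3 _ (fun e => hl' (by simpa using (hs _ _).mp e))
        (h1 k hk hk' 1 (one_mem _)) (h1 _ (mul_mem hk hlK) hkl 1 (one_mem _))))).2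
      exact hk' ((hΓ k hk).mp (a1 ▸ (MulAction.mem_stabilizer_set.mp a4 _).mpr ⟨l, hl, rfl⟩))
  obtain ⟨z, hz⟩ : ∃ z, z ∉ Γ ∪ (k • ·) '' Γ := by
    by_contra hz
    push Not at hz
    have h2 : Disjoint Γ ((k • ·) '' Γ) := Set.disjoint_left.mpr (by
      rintro _ h ⟨_, ⟨a, ha, rfl⟩, rfl⟩
      exact hk' ((L.mul_mem_cancel_right ha).mp ((hΓ _ (mul_mem hk (hL ha))).mp h)))
    have h3 := Set.ncard_union_eq h2
    rw [Set.eq_univ_of_forall hz, Set.ncard_univ, Set.ncard_image_of_injective _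
      (MulAction.injective k), ← Subgroup.index, hn] at h3
    obtain ⟨m, hm⟩ := hodd
    omega
  have h2 : ∀ a ∈ L, ((k * a : G) : G ⧸ M) ≠ z := fun a ha e =>
    hz (.inr ⟨a, ⟨a, ha, rfl⟩, e⟩)
  obtain ⟨g, a1, a2, a3⟩ := three n hA M hM hn hne (by simpa using h2 1 (one_mem _)) (h2 l hl)
  have a4 : ∀ a ∈ L, g • (a : G ⧸ M) = a := fun a ha => a3 _ (h1 k hk hk' a ha)
    (h1 _ (mul_mem hk hlK) hkl a ha) fun e => hz (.inl ⟨a, ha, e⟩)
  have a5 : g ∈ K := hHK (hH.le ⟨hst g (a4 1 (one_mem _)),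
    (MulAction.mem_stabilizer_set' (Set.toFinite Γ)).mpr (by
      rintro _ ⟨a, ha, rfl⟩
      exact ⟨a, ha, (a4 a ha).symm⟩)⟩)
  have a6 : k⁻¹ * (g * k) ∈ L := blk _ (mul_mem (inv_mem hk) (mul_mem a5 hk)) l hl (by
    simpa using congrArg (k⁻¹ • ·) a1)
  exact h2 _ (mul_mem a6 hl) (by simpa [mul_assoc] using a2)

end Cfsg.Agent.S5885
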