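import Mathlib
import Cfsg.Statements.S5890
import Cfsg.Agent.Max.L2d

set_option autoImplicit false
open Cfsg

namespace Cfsg.Agent.S5890

open scoped Pointwise
open Cfsg.Agent.Max.L2 Cfsg.Agent.Classical.PSL2Basic Cfsg.Agent.Classical.P1Ident
  Cfsg.Agent.Classical.Congr Cfsg.Agent.Classical.P1
theorem range_eq (F : Type*) [Field F] : (Matrix.ProjGenLinGroup.mk.comp
    Matrix.SpecialLinearGroup.toGL).range = LL F := by
  ext x
  constructor
  · rintro ⟨g, rfl⟩; exact ⟨g, rfl⟩
  · rintro ⟨g, rfl⟩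
    obtain ⟨g, rfl⟩ := QuotientGroup.mk_surjective g
    exact ⟨g, rfl⟩

/-- Let F be a finite field with q ≥ 4 elements, let L ≤ PGL₂(F) be the image of SL₂(F) (a copy of PSL₂(F), of index gcd(2, q − 1)), and let M be a maximal subgroup of PGL₂(F) that does not contain L. Suppose q ∉ {7, 9, 11} and that q is not a prime congruent to ±11 or ±19 modulo 40. Then M ∩ L is a maximal subgroup of L. (For the excluded q there are maximal subgroups of PGL₂(q) — dihedral groups of order 12 and 16 at q = 7, of order 20 and 16 at q = 9, of order 20 at q = 11, and S₄ at the excluded primes — whose intersection with L is not maximal in L.) -/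
theorem result {F : Type*} [Field F]
    [Fintype F] (h4 : 4 ≤ Fintype.card F) (h7 : Fintype.card F ≠ 7) (h9 : Fintype.card F ≠ 9) (h11 : Fintype.card F ≠ 11)
    (h40 : (Fintype.card F).Prime → Fintype.card F % 40 ∉ ({11, 19, 21, 29} : Finset ℕ))
    (M : Subgroup (Matrix.ProjGenLinGroup (Fin 2) F)) (hM : IsCoatom M)
    (hML : ¬ (Matrix.ProjGenLinGroup.mk.comp Matrix.SpecialLinearGroup.toGL).range ≤ M) :
    IsCoatom ((M ⊓ (Matrix.ProjGenLinGroup.mk.comp Matrix.SpecialLinearGroup.toGL).range).subgroupOf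
      (Matrix.ProjGenLinGroup.mk.comp Matrix.SpecialLinearGroup.toGL).range) := by
  rw [← Nat.card_eq_fintype_card] at *
  rw [range_eq] at hML ⊢
  rw [isCoatom_subgroupOf_iff inf_le_right]
  have hM' := _root_.covBy_top_iff.2 hM
  by_cases h2 : (2 : F) = 0
  · rwa [LL_eq_top h2, inf_top_eq]
  haveI := NeZero.mk h2
  have hodd := Nat.odd_iff.1 (odd_card_iff.2 h2)
  have hd : dd F = 2 := gcd_eq_two h2
  have hL : ∀ c : Matrix.ProjGenLinGroup (Fin 2) F, ¬ MulAut.conj c • M ≤ LL F := fun c h => by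
    rw [conj_le_iff, conj_normal] at h
    rcases hM'.eq_or_eq h le_top with e | e
    · exact hML e.le
    · exact h2 (toP_surjective_iff.1 (MonoidHom.range_eq_top.1 e))
  have key : ∀ c : Matrix.ProjGenLinGroup (Fin 2) F, MulAut.conj c • M ⊓ LL F ⋖ LL F →
      M ⊓ LL F ⋖ LL F := fun c h => by
    have := covBy_conj c⁻¹ h
    rwa [conj_inf, conj_inv_conj, conj_normal] at this
  rcases class_gen (by omega) le_top hM' hML with
    ⟨x, h⟩ | ⟨T, D, k, hT, h⟩ | ⟨K, c, r, hr, h1, h3, h⟩ |
    ⟨_, ⟨hq, c, h⟩ | ⟨hq, c, h⟩ | ⟨τ, hτ, c, hc, h⟩⟩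
  · rw [h, inf_top_eq]; exact max_stab x
  · rw [inf_top_eq] at h
    subst h
    apply max_D hT
    rw [hd]
    rcases hT.k_eq with rfl | rfl
    · have : Nat.card F ≠ 5 := fun h5 => not_max_D_top (by rw [h5] at hT; exact hT) h5 hM'
      omega
    · omega
  · rw [inf_top_eq] at h
    exact key c (h ▸ max_subPGL_inf hr h1 h3)
  · exact absurd (h ▸ A0_le_LL) (hL c)
  · have h5 := hL c
    rw [h, S0_le_LL_iff] at h5
    refine key c ?_
    rw [h, S0_inf_LL h5]
    refine max_A4 hq h4 h5 ?_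
    have h6 := h40 hq
    rw [isSquare_two_iff'] at h5
    rw [five_dvd_iff hq (by omega)]
    simp only [Finset.mem_insert, Finset.mem_singleton] at h6
    omega
  · exact absurd (h ▸ B0_le_LL hτ) (hL c)

end Cfsg.Agent.S5890
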