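import Mathlib
import Cfsg.Statements.S5891
import Cfsg.Agent.Max.L2d

set_option autoImplicit false
open Cfsg

namespace Cfsg.Agent.S5891

open scoped Pointwise
open Cfsg.Agent.Max.L2 Cfsg.Agent.Classical.PSL2Basic Cfsg.Agent.Classical.P1Ident
  Cfsg.Agent.Classical.Congr Cfsg.Agent.Classical.P1
theorem range_eq (F : Type*) [Field F] : (Matrix.ProjGenLinGroup.mk.comp
    Matrix.SpecialLinearGroup.toGL).range = LL F := by
  ext x
  constructor
  · rintro ⟨g, rfl⟩; exact ⟨g, rfl⟩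
  · rintro ⟨g, rfl⟩
    obtain ⟨g, rfl⟩ := QuotientGroup.mk_surjective g
    exact ⟨g, rfl⟩

/-- Let F be a finite field of odd order q > 3 and characteristic p, and let M be a maximal subgroup of PGL₂(F) not containing the image L of SL₂(F) (a copy of PSL₂(F) of index 2). Then one of the following holds: |M| = q(q − 1) (M is the stabiliser of a point of the projective line); q ≠ 5 and M is dihedral of order 2(q − 1); M is dihedral of order 2(q + 1); q = p ≡ ±3 (mod 8) and M ≅ S₄; or q = q₀^r for an odd prime r and M ≅ PGL₂(F₀) with |F₀| = q₀. -/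
theorem result {F : Type*} [Field F] [Fintype F]
    (hodd : Odd (Fintype.card F)) (h3 : 3 < Fintype.card F) (M : Subgroup (Matrix.ProjGenLinGroup (Fin 2) F)) (hM : IsCoatom M)
    (hML : ¬ (Matrix.ProjGenLinGroup.mk.comp Matrix.SpecialLinearGroup.toGL).range ≤ M) :
    Nat.card M = Fintype.card F * (Fintype.card F - 1) ∨
    (Fintype.card F ≠ 5 ∧ Nonempty (M ≃* DihedralGroup (Fintype.card F - 1))) ∨
    Nonempty (M ≃* DihedralGroup (Fintype.card F + 1)) ∨
    ((Fintype.card F).Prime ∧ (Fintype.card F % 8 = 3 ∨ Fintype.card F % 8 = 5) ∧ Nonempty (M ≃* Equiv.Perm (Fin 4))) ∨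
    (∃ (F₀ : Type) (_ : Field F₀) (_ : Fintype F₀) (r : ℕ), r.Prime ∧ Odd r ∧ Fintype.card F = Fintype.card F₀ ^ r ∧
        Nonempty (M ≃* Matrix.ProjGenLinGroup (Fin 2) F₀)) := by
  rw [← Nat.card_eq_fintype_card] at *
  rw [range_eq] at hML
  have h2 : (2 : F) ≠ 0 := odd_card_iff.1 hodd
  haveI := NeZero.mk h2
  have hM' := _root_.covBy_top_iff.2 hM
  have hL : ∀ c : Matrix.ProjGenLinGroup (Fin 2) F, ¬ MulAut.conj c • M ≤ LL F := fun c h => by
    rw [conj_le_iff, conj_normal] at h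
    rcases hM'.eq_or_eq h le_top with e | e
    · exact hML e.le
    · exact h2 (toP_surjective_iff.1 (MonoidHom.range_eq_top.1 e))
  have ec : ∀ (c : Matrix.ProjGenLinGroup (Fin 2) F) (X : Subgroup _),
      MulAut.conj c • M = X → Nonempty (M ≃* X) := fun c X h =>
    ⟨(Cfsg.Agent.Classical.Dickson.conjEquiv _ c).trans (MulEquiv.subgroupCongr h)⟩
  rcases class_gen (by omega) le_top hM' hML with
    ⟨x, h⟩ | ⟨T, D, k, hT, h⟩ | ⟨K, c, r, hr, h1, h3, h⟩ |
    ⟨_, ⟨hq, c, h⟩ | ⟨hq, c, h⟩ | ⟨τ, hτ, c, hc, h⟩⟩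
  · left; rw [h, inf_top_eq, card_stab]
  · rw [inf_top_eq] at h
    subst h
    rcases hT.k_eq with rfl | rfl
    · exact Or.inr (Or.inl ⟨fun h5 => not_max_D_top (by rw [h5] at hT; exact hT) h5 hM', hT.D_equiv⟩)
    · exact Or.inr (Or.inr (Or.inl hT.D_equiv))
  · obtain ⟨F₀, _, _, ⟨f⟩⟩ := exists_small K
    have h4 := Nat.card_congr f.toEquiv
    rw [inf_top_eq] at h
    obtain ⟨e'⟩ := ec _ _ h
    exact Or.inr (Or.inr (Or.inr (Or.inr ⟨F₀, inferInstance, inferInstance, r, hr,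
      Nat.not_even_iff_odd.1 fun he => hL c (h ▸ subPGL_le_LL he h1),
      by rw [← Nat.card_eq_fintype_card, h4, h1],
      ⟨(e'.trans (subPGLEquiv K).symm).trans (pglCongr f).symm⟩⟩)))
  · exact absurd (h ▸ A0_le_LL) (hL c)
  · obtain ⟨e'⟩ := ec _ _ h
    obtain ⟨e''⟩ := S0_equiv (F := F)
    have h4 := hL c
    rw [h, S0_le_LL_iff, isSquare_two_iff'] at h4
    rw [Nat.odd_iff] at hodd
    exact Or.inr (Or.inr (Or.inr (Or.inl ⟨hq, by omega, ⟨e'.trans e''⟩⟩)))
  · exact absurd (h ▸ B0_le_LL hτ) (hL c)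

end Cfsg.Agent.S5891
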