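import Mathlib
import Cfsg.Statements.S5893
import Cfsg.Agent.Max.L2d

set_option autoImplicit false
open Cfsg

namespace Cfsg.Agent.S5893

open Cfsg.Agent.Max.L2 Cfsg.Agent.Classical.PSL2Basic Cfsg.Agent.Classical.P1Ident
  Cfsg.Agent.Classical.Congr Cfsg.Agent.Classical.P1

/-- Let F be a finite field of even order q ≥ 4 and let M be a maximal subgroup of PSL₂(F) (= SL₂(F) = PGL₂(F)). Then one of the following holds: |M| = q(q − 1) (the stabiliser of a point of the projective line, elementary abelian of order q extended by a cyclic group of order q − 1); M is dihedral of order 2(q − 1); M is dihedral of order 2(q + 1); or q = q₀^r for a prime r with q₀ ≠ 2 and M ≅ PSL₂(F₀) with |F₀| = q₀. -/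
theorem result {F : Type*} [Field F] [Fintype F]
    (heven : Even (Fintype.card F)) (h4 : 4 ≤ Fintype.card F) (M : Subgroup (Matrix.ProjectiveSpecialLinearGroup (Fin 2) F)) (hM : IsCoatom M) :
    Nat.card M = Fintype.card F * (Fintype.card F - 1) ∨
    Nonempty (M ≃* DihedralGroup (Fintype.card F - 1)) ∨
    Nonempty (M ≃* DihedralGroup (Fintype.card F + 1)) ∨
    (∃ (F₀ : Type) (_ : Field F₀) (_ : Fintype F₀) (r : ℕ), r.Prime ∧ Fintype.card F₀ ≠ 2 ∧
        Fintype.card F = Fintype.card F₀ ^ r ∧ Nonempty (M ≃* Matrix.ProjectiveSpecialLinearGroup (Fin 2) F₀)) := by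
  rw [← Nat.card_eq_fintype_card] at *
  have h2 : (2 : F) = 0 := even_card_iff.1 heven
  have hd : dd F = 1 := gcd_eq_one h2
  have hM' := (covBy_map_iff toP toP_injective M).2 hM
  have e := Subgroup.equivMapOfInjective M toP toP_injective
  rw [Nat.card_congr e.toEquiv]
  rcases class_gen (by omega) le_rfl hM' hM'.lt.not_ge with
    ⟨x, h⟩ | ⟨T, D, k, hT, h⟩ | ⟨K, c, r, hr, h1, h3, h⟩ | ⟨h, -⟩
  · left; rw [h, ← card_stab_inf x, hd, one_mul]
  · obtain ⟨e'⟩ := hT.DL.1
    rw [hd, Nat.div_one] at e'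
    have e'' := (e.trans (MulEquiv.subgroupCongr h)).trans e'
    rcases hT.k_eq with rfl | rfl
    · exact Or.inr (Or.inl ⟨e''⟩)
    · exact Or.inr (Or.inr (Or.inl ⟨e''⟩))
  · obtain ⟨F₀, _, _, ⟨f⟩⟩ := exists_small K
    have h5 := Nat.card_congr f.toEquiv
    rw [LL_eq_top h2, inf_top_eq, ← subPSL_eq_subPGL h2] at h
    refine Or.inr (Or.inr (Or.inr ⟨F₀, inferInstance, inferInstance, r, hr, ?_, ?_, ⟨?_⟩⟩))
    · rw [← Nat.card_eq_fintype_card]; omega
    · rw [← Nat.card_eq_fintype_card, h5, h1]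
    · exact (((e.trans (Cfsg.Agent.Classical.Dickson.conjEquiv _ c)).trans
        (MulEquiv.subgroupCongr h)).trans (subPSLEquiv K).symm).trans (pslCongr f).symm
  · exact absurd h2 h.out

end Cfsg.Agent.S5893
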