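import Mathlib
import Cfsg.Statements.S5896
import Cfsg.Agent.S0061

set_option autoImplicit false
open Cfsg

namespace Cfsg.Agent.S5896

open RegularWreathProduct
open scoped commutatorElement

theorem der_inj {G H : Type*} [Group G] [Group H] (f : G →* H) (hf : Function.Injective f) {d : ℕ}
    (h : derivedSeries G d ≠ ⊥) : derivedSeries H d ≠ ⊥ := fun e =>
  h ((Subgroup.map_eq_bot_iff_of_injective _ hf).mp
    (eq_bot_iff.mpr (e ▸ map_derivedSeries_le_derivedSeries f d)))

theorem der_surj {G H : Type*} [Group G] [Group H] (f : G →* H) (hf : Function.Surjective f) {d : ℕ}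
    (h : derivedSeries H d ≠ ⊥) : derivedSeries G d ≠ ⊥ := fun e =>
  h (by rw [← map_derivedSeries_eq hf, e, Subgroup.map_bot])

theorem der_succ {G : Type*} [Group G] (d : ℕ) :
    (derivedSeries (commutator G) d).map (commutator G).subtype ≤ derivedSeries G (d + 1) := by
  induction d with
  | zero => exact Subgroup.map_subtype_le _
  | succ d ih =>
    rw [derivedSeries_succ, derivedSeries_succ _ (d + 1), Subgroup.map_commutator]
    exact Subgroup.commutator_mono ih ih

variable {S Q : Type} [Group S] [Group Q]

/-- The base group of a regular wreath product. -/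
def bs : (Q → S) →* S ≀ᵣ Q where
  toFun f := ⟨f, 1⟩
  map_one' := rfl
  map_mul' _ _ := by ext <;> simp

theorem solv_base [h : Group.IsSolvable S] {G : Type} [Group G] (f : G →* S ≀ᵣ Q)
    (hf : Function.Injective f) {P : Subgroup Q} [Group.IsSolvable P] (hP : ∀ g, (f g).right ∈ P) :
    Group.IsSolvable G := by
  obtain ⟨n, hn⟩ := h
  have : Group.IsSolvable (Q → S) := ⟨n, eq_bot_iff.mpr fun x hx => funext fun i =>
    Subgroup.mem_bot.mp (hn ▸ map_derivedSeries_le_derivedSeries (Pi.evalMonoidHom _ i) n
      ⟨x, hx, rfl⟩)⟩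
  have : Group.IsSolvable (P.comap (rightHom (D := S))) :=
    Group.isSolvable_of_ker_le_range (bs.codRestrict _ fun x => one_mem P) (rightHom.subgroupComap P)
      fun x hx => ⟨x.1.left, Subtype.ext (RegularWreathProduct.ext rfl
        (congrArg Subtype.val hx).symm)⟩
  exact Group.isSolvable_of_isSolvable_injective (f := f.codRestrict (P.comap rightHom) hP)
    fun x y e => hf (congrArg Subtype.val e)

theorem der_wr {G : Type} [Group G] (f : G →* S ≀ᵣ Q) (hf : Function.Injective f) {q : Q}
    (hq : q ≠ 1) (h : ∀ x : Q → S, ⁅bs x, inl q⁆ ∈ f.range) {d : ℕ} (hd : derivedSeries S d ≠ ⊥) :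
    derivedSeries G d ≠ ⊥ := by
  classical
  refine der_inj (MonoidHom.ofInjective hf).symm.toMonoidHom (MulEquiv.injective _)
    (der_inj ((bs (S := S)).subgroupComap f.range) (fun x y e => Subtype.ext
      (congrArg (fun w : f.range => w.1.left) e :)) (der_surj ((Pi.evalMonoidHom (fun _ => S) (1 : Q)).comp
        (Subgroup.subtype _)) (fun s => ⟨⟨(⁅bs (Pi.mulSingle (1 : Q) s), inl q⁆).left, ?_⟩, ?_⟩) hd))
  · rw [Subgroup.mem_comap]
    convert h (Pi.mulSingle (1 : Q) s) using 1
    exact RegularWreathProduct.ext rfl (by simp [commutatorElement_def, bs])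
  · change (⁅bs (Pi.mulSingle (1 : Q) s), inl q⁆).left 1 = s
    simp [commutatorElement_def, bs, hq]

theorem exists_solv (d : ℕ) : ∃ (S : Type) (_ : Group S) (_ : Finite S), Group.IsSolvable S ∧
    derivedSeries S d ≠ ⊥ := by
  induction d with
  | zero => exact ⟨Multiplicative (ZMod 2), inferInstance, inferInstance, inferInstance, top_ne_bot⟩
  | succ d ih =>
    obtain ⟨S, _, _, h1, h2⟩ := ih
    refine ⟨S ≀ᵣ Multiplicative (ZMod 2), inferInstance, inferInstance, solv_base (MonoidHom.id _)
      Function.injective_id (P := ⊤) fun _ => trivial, fun e => ?_⟩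
    refine der_wr (commutator _).subtype (Subgroup.subtype_injective _)
      (q := Multiplicative.ofAdd (1 : ZMod 2)) (by decide) (fun x => ?_) h2
      ((Subgroup.map_eq_bot_iff_of_injective _ (Subgroup.subtype_injective _)).mp
        (eq_bot_iff.mpr (e ▸ der_succ d)))
    rw [Subgroup.range_subtype]
    exact Subgroup.commutator_mem_commutator trivial trivial

/-- Finite perfect groups have solvable maximal subgroups of unbounded derived length: for every d there is a finite perfect group G (equal to its commutator subgroup) with a solvable maximal subgroup H whose derived length exceeds d, i.e. the d-th term of the derived series of H is non-trivial. (Take the derived subgroup of a wreath product S ≀ A₅ with S solvable of large derived length, and H the preimage of a maximal subgroup of A₅.) -/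
theorem result (d : ℕ) :
    ∃ (G : Type) (_ : Group G) (_ : Finite G) (H : Subgroup G), commutator G = ⊤ ∧ IsCoatom H ∧ Group.IsSolvable H ∧
      derivedSeries H d ≠ ⊥ := by
  obtain ⟨S, _, _, h1, h2⟩ := exists_solv d
  let Q := alternatingGroup (Fin 5)
  let G : Subgroup (S ≀ᵣ Q) := Subgroup.normalClosure ((inl : Q →* S ≀ᵣ Q).range : Set (S ≀ᵣ Q))
  have hG : ∀ q, inl q ∈ G := fun q => Subgroup.subset_normalClosure ⟨q, rfl⟩
  have := alternatingGroup.isPreprimitive_of_three_le_card (Fin 5) (by simp)
  have : Group.IsSolvable (MulAction.stabilizer Q (0 : Fin 5)) := by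
    have h3 := (MulAction.stabilizer Q (0 : Fin 5)).card_mul_index
    rw [MulAction.index_stabilizer_of_transitive, nat_card_alternatingGroup] at h3
    simp only [Nat.card_eq_fintype_card (α := Fin 5), Fintype.card_fin, Nat.factorial] at h3
    exact S0061.result 2 3 2 Nat.prime_two Nat.prime_three (by omega)
  refine ⟨G, inferInstance, inferInstance,
    (MulAction.stabilizer Q (0 : Fin 5)).comap (rightHom.comp G.subtype), ?_,
    Subgroup.isCoatom_comap_of_surjective (fun q => ⟨⟨_, hG q⟩, rfl⟩)
      (MulAction.IsPreprimitive.isCoatom_stabilizer_of_isPreprimitive _ _),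
    solv_base (G.subtype.comp (Subgroup.subtype _)) (G.subtype_injective.comp
      (Subgroup.subtype_injective _)) (P := MulAction.stabilizer Q (0 : Fin 5)) fun g => g.2, ?_⟩
  · apply Subgroup.map_injective G.subtype_injective
    rw [Subgroup.map_subtype_commutator, ← MonoidHom.range_eq_map, Subgroup.range_subtype]
    refine le_antisymm (Subgroup.commutator_le_left _ _) (Subgroup.normalClosure_le_normal ?_)
    have h3 : commutator Q = ⊤ := commutator_alternatingGroup_eq_top (by simp)
    rw [MonoidHom.range_eq_map, ← h3, commutator_def, Subgroup.map_commutator]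
    exact Subgroup.commutator_mono (fun _ ⟨q, _, e⟩ => e ▸ hG q) fun _ ⟨q, _, e⟩ => e ▸ hG q
  · obtain ⟨q, hq⟩ := exists_ne (1 : Q)
    refine der_wr (G.subtype.comp (Subgroup.subtype _)) (G.subtype_injective.comp
      (Subgroup.subtype_injective _)) hq (fun x => ⟨⟨⟨_, mul_mem
        (Subgroup.normalClosure_normal.conj_mem _ (hG q) (bs x)) (inv_mem (hG q))⟩, ?_⟩, rfl⟩) h2
    simp [bs]

end Cfsg.Agent.S5896
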