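import Mathlib
import Cfsg.Statements.S5902
import Cfsg.Agent.S5901

set_option autoImplicit false
open Cfsg

namespace Cfsg.Agent.S5902

theorem compl_conj {G : Type*} [Group G] {H C : Subgroup G} (g : G)
    (h1 : H.map (MulAut.conj g).toMonoidHom ⊔ C = ⊤) (h2 : H.map (MulAut.conj g).toMonoidHom ⊓ C = ⊥) :
    ∃ C : Subgroup G, H ⊔ C = ⊤ ∧ H ⊓ C = ⊥ := by
  have hi : Function.Injective (MulAut.conj g).toMonoidHom := (MulAut.conj g).injective
  refine ⟨C.comap (MulAut.conj g).toMonoidHom, ?_, ?_⟩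
  · rw [← Subgroup.comap_map_eq_self_of_injective hi H, Subgroup.comap_sup_eq _ _ _
      (MulAut.conj g).surjective, h1, Subgroup.comap_top]
  · rw [← Subgroup.comap_map_eq_self_of_injective hi H, ← Subgroup.comap_inf, h2,
      MonoidHom.comap_bot, (MonoidHom.ker_eq_bot_iff _).mpr hi]

/-- Let G be a finite group, X a subgroup whose own subgroup lattice is complemented, and suppose X lies in exactly one maximal subgroup M of G. Then every subgroup H of G not contained in the normal core of M has a complement in the subgroup lattice of G (some C with H ⊔ C = G and H ⊓ C = 1); in particular the subgroup lattice of G modulo the normal core of M is complemented. -/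
theorem result {G : Type*} [Group G] [Finite G] (X M : Subgroup G)
    (hK : ComplementedLattice (Subgroup X))
    (hM : IsCoatom M) (hXM : X ≤ M) (huniq : ∀ M' : Subgroup G, IsCoatom M' → X ≤ M' → M' = M) :
    (∀ H : Subgroup G, ¬ H ≤ M.normalCore → ∃ C : Subgroup G, H ⊔ C = ⊤ ∧ H ⊓ C = ⊥) ∧
    ComplementedLattice (Subgroup (G ⧸ M.normalCore)) := by
  have key : ∀ H : Subgroup G, ¬ H ≤ M.normalCore → ∃ C : Subgroup G, H ⊔ C = ⊤ ∧ H ⊓ C = ⊥ := by
    intro H hH
    obtain ⟨g, hg⟩ : ∃ g : G, ¬ H.map (MulAut.conj g).toMonoidHom ≤ M := by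
      by_contra h
      push Not at h
      exact hH fun x hx g => h g ⟨x, hx, rfl⟩
    obtain ⟨C, h1, h2⟩ := S5901.result ⊥ X M bot_le (fun e => hM.1 (top_le_iff.mp (e ▸ hXM)))
      (fun Y _ hY => by
        obtain ⟨C, hC⟩ := exists_isCompl (Y.subgroupOf X)
        refine ⟨C.map X.subtype, bot_le, Subgroup.map_subtype_le C, ?_, ?_⟩
        · rw [← Subgroup.map_subgroupOf_eq_of_le hY, ← Subgroup.map_sup, hC.sup_eq_top,
            ← MonoidHom.range_eq_map, Subgroup.range_subtype]
        · rw [← Subgroup.map_subgroupOf_eq_of_le hY, ← Subgroup.map_inf _ _ _ X.subtype_injective,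
            hC.inf_eq_bot, Subgroup.map_bot]) hM hXM huniq _ hg (inf_bot_eq _)
    exact compl_conj g h1 h2
  refine ⟨key, ⟨fun H => ?_⟩⟩
  by_cases hH : H = ⊥
  · exact ⟨⊤, hH ▸ isCompl_bot_top⟩
  have hs := QuotientGroup.mk'_surjective M.normalCore
  obtain ⟨C, h1, h2⟩ := key (H.comap (QuotientGroup.mk' _)) fun e => hH (by
    rw [← Subgroup.map_comap_eq_self_of_surjective hs H, Subgroup.map_eq_bot_iff,
      QuotientGroup.ker_mk']
    exact e)
  refine ⟨C.map (QuotientGroup.mk' _), disjoint_iff.mpr (eq_bot_iff.mpr ?_), codisjoint_iff.mpr ?_⟩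
  · rintro _ ⟨hx, x, hx', rfl⟩
    have : x ∈ (⊥ : Subgroup G) := h2 ▸ ⟨hx, hx'⟩
    rw [Subgroup.mem_bot.mp this, map_one]
    exact one_mem _
  · rw [← Subgroup.map_comap_eq_self_of_surjective hs H, ← Subgroup.map_sup, h1,
      Subgroup.map_top_of_surjective _ hs]

end Cfsg.Agent.S5902
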