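import Mathlib
import Cfsg.Statements.S5903
import Cfsg.Agent.S5902

set_option autoImplicit false
open Cfsg

namespace Cfsg.Agent.S5903

/-- Let G be a finite simple group, X a subgroup lying in exactly one maximal subgroup M of G, and N a subgroup of prime order with N ≤ X that is central in M. If the subgroup lattice of X/N is complemented, then the subgroup lattice of G is complemented. -/
theorem result {G : Type*} [Group G] [Finite G] [IsSimpleGroup G] (X M N : Subgroup G)
    (hM : IsCoatom M) (hXM : X ≤ M) (huniq : ∀ M' : Subgroup G, IsCoatom M' → X ≤ M' → M' = M)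
    (hNX : N ≤ X) (hN : (Nat.card N).Prime) (hcen : ∀ n ∈ N, ∀ m ∈ M, m * n = n * m)
    [(N.subgroupOf X).Normal] (hK : ComplementedLattice (Subgroup (X ⧸ N.subgroupOf X))) :
    ComplementedLattice (Subgroup G) := by
  refine ⟨fun H => ?_⟩
  have hs := QuotientGroup.mk'_surjective (N.subgroupOf X)
  by_cases h : ∃ g : G, ¬ H.map (MulAut.conj g).toMonoidHom ≤ M ∧
      H.map (MulAut.conj g).toMonoidHom ⊓ N = ⊥
  · obtain ⟨g, h1, h2⟩ := h
    obtain ⟨C, h3, h4⟩ := S5901.result N X M hNX (fun e => hM.1 (top_le_iff.mp (e ▸ hXM)))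
      (fun Y hY hY' => by
        obtain ⟨C, hC⟩ := exists_isCompl ((Y.subgroupOf X).map (QuotientGroup.mk' (N.subgroupOf X)))
        have h5 : ((Y.subgroupOf X).map (QuotientGroup.mk' (N.subgroupOf X))).comap
            (QuotientGroup.mk' _) = Y.subgroupOf X := Subgroup.comap_map_eq_self (by
          rw [QuotientGroup.ker_mk']
          exact Subgroup.comap_mono hY)
        refine ⟨(C.comap (QuotientGroup.mk' _)).map X.subtype, fun n hn => ⟨⟨n, hNX hn⟩, ?_, rfl⟩,
          Subgroup.map_subtype_le _, ?_, ?_⟩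
        · change (QuotientGroup.mk' _ _) ∈ C
          rw [QuotientGroup.mk'_apply, (QuotientGroup.eq_one_iff _).mpr (by exact hn)]
          exact one_mem _
        · conv_lhs => rw [← Subgroup.map_subgroupOf_eq_of_le hY', ← Subgroup.map_sup, ← h5,
            Subgroup.comap_sup_eq _ _ _ hs, hC.sup_eq_top, Subgroup.comap_top]
          rw [← MonoidHom.range_eq_map, Subgroup.range_subtype]
        · conv_lhs => rw [← Subgroup.map_subgroupOf_eq_of_le hY',
            ← Subgroup.map_inf _ _ _ X.subtype_injective, ← h5, ← Subgroup.comap_inf, hC.inf_eq_bot,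
            MonoidHom.comap_bot, QuotientGroup.ker_mk']
          exact Subgroup.map_subgroupOf_eq_of_le hNX) hM hXM huniq _ h1 h2
    obtain ⟨C, h5, h6⟩ := S5902.compl_conj g h3 h4
    exact ⟨C, disjoint_iff.mpr h6, codisjoint_iff.mpr h5⟩
  push Not at h
  have h1 : Subgroup.normalClosure (N : Set G) ≤ Subgroup.normalizer (H : Set G) := by
    refine (Subgroup.closure_le _).mpr fun x hx => ?_
    obtain ⟨n, hn, hx⟩ := Group.mem_conjugatesOfSet_iff.mp hx
    obtain ⟨g, rfl⟩ := isConj_iff.mp hx
    by_cases h2 : H.map (MulAut.conj g⁻¹).toMonoidHom ≤ M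
    · refine Subgroup.centralizer_le_normalizer _ fun y hy => ?_
      have := hcen n hn _ (h2 ⟨y, hy, rfl⟩)
      simp only [MulEquiv.toMonoidHom_eq_coe, MonoidHom.coe_coe, MulAut.conj_apply, inv_inv] at this
      calc y * (g * n * g⁻¹) = g * (g⁻¹ * y * g * n) * g⁻¹ := by group
        _ = _ := by rw [this]; group
    · have : Fact (Nat.card N).Prime := ⟨hN⟩
      rcases ((H.map (MulAut.conj g⁻¹).toMonoidHom).subgroupOf N).eq_bot_or_eq_top_of_prime_card
        with h3 | h3
      · exact absurd (disjoint_iff.mp (Subgroup.subgroupOf_eq_bot.mp h3)) (h _ h2)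
      · obtain ⟨y, hy, e⟩ := Subgroup.subgroupOf_eq_top.mp h3 hn
        refine Subgroup.le_normalizer ?_
        simpa [← e, mul_assoc] using hy
  rcases (Subgroup.normalClosure_normal (s := (N : Set G))).eq_bot_or_eq_top with h2 | h2
  · have : N = ⊥ := eq_bot_iff.mpr (h2 ▸ Subgroup.le_normalClosure)
    exact absurd (by simpa [this] using hN) Nat.not_prime_one
  · rcases (Subgroup.normalizer_eq_top_iff.mp (top_le_iff.mp (h2 ▸ h1))).eq_bot_or_eq_top with
      h3 | h3
    exacts [⟨⊤, h3 ▸ isCompl_bot_top⟩, ⟨⊥, h3 ▸ isCompl_top_bot⟩]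

end Cfsg.Agent.S5903
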