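import Mathlib
import Cfsg.Statements.S5908
import Cfsg.Agent.S0827
-- import your own Cfsg.Agent.* helpers here

set_option autoImplicit false
open Cfsg

namespace Cfsg.Agent.S5908

/-- The subgroup lattice of PSU₃(2) (the solvable group of order 72, realised over the field with 4 elements) is not complemented: some subgroup H has no subgroup X with H ⊔ X = ⊤ and H ⊓ X = ⊥. -/
theorem result {F : Type*} [Field F] [Fintype F] (hF : Fintype.card F = 4) :
    ¬ ComplementedLattice (Subgroup (Cfsg.PSU 3 F 2)) := by
  intro h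
  obtain ⟨N, hN, -, -, ⟨e⟩⟩ := S0827.result hF
  let φ := e.toMonoidHom.comp (QuotientGroup.mk' N)
  have hφ : Function.Surjective φ := e.surjective.comp (QuotientGroup.mk'_surjective N)
  obtain ⟨B, hB⟩ := exists_isCompl ((Subgroup.center (QuaternionGroup 2)).comap φ)
  have h1 : ∀ x : QuaternionGroup 2, (∀ y, y * (x * x) = x * x * y) ∧
      (x * x = 1 → ∀ y, y * x = x * y) := by decide
  have h2 : B ≤ (Subgroup.center (QuaternionGroup 2)).comap φ := by
    intro b hb
    have h3 : b * b = 1 := Subgroup.disjoint_def.1 hB.disjoint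
      (Subgroup.mem_center_iff.2 (by rw [map_mul]; exact (h1 _).1)) (B.mul_mem hb hb)
    exact Subgroup.mem_center_iff.2 ((h1 _).2 (by rw [← map_mul, h3, map_one]))
  have h4 := hB.sup_eq_top
  rw [sup_eq_left.2 h2] at h4
  have h5 : ∀ x y : QuaternionGroup 2, y * x = x * y := by
    intro x
    obtain ⟨g, rfl⟩ := hφ x
    exact Subgroup.mem_center_iff.1 (show g ∈ (Subgroup.center (QuaternionGroup 2)).comap φ from
      h4 ▸ Subgroup.mem_top g)
  revert h5
  decide

end Cfsg.Agent.S5908
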