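import Mathlib
import Cfsg.Statements.S5913

set_option autoImplicit false
open Cfsg

namespace Cfsg.Agent.S5913


/-- Let S be a non-abelian simple group and n a natural number. Every normal subgroup N of the direct power S^n (functions Fin n → S) is a subproduct: there is a set T of coordinates such that N consists exactly of the elements whose coordinates outside T are trivial. In particular the minimal normal subgroups of S^n are its n factors. -/
theorem result {S : Type*} [Group S] [IsSimpleGroup S] (hS : ¬ IsMulCommutative S) (n : ℕ)
    (N : Subgroup (Fin n → S)) [N.Normal] :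
    ∃ T : Finset (Fin n), ∀ x : Fin n → S, x ∈ N ↔ ∀ i, i ∉ T → x i = 1 := by
  classical
  refine ⟨Finset.univ.filter fun i => ∃ x ∈ N, x i ≠ 1, fun x => ⟨fun hx i hi => ?_, fun hx => ?_⟩⟩
  · by_contra h
    exact hi (Finset.mem_filter.mpr ⟨Finset.mem_univ _, x, hx, h⟩)
  · have key : ∀ i, (∃ y ∈ N, y i ≠ 1) → ∀ s : S, Pi.mulSingle i s ∈ N := by
      rintro i ⟨y, hy, hyi⟩ s
      let K := N.comap (MonoidHom.mulSingle (fun _ : Fin n => S) i)
      rcases (inferInstance : K.Normal).eq_bot_or_eq_top with h | h
      · exfalso
        have hc : y i ∈ Subgroup.center S := by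
          rw [Subgroup.mem_center_iff]
          intro t
          have : t * y i * t⁻¹ * (y i)⁻¹ ∈ K := by
            have := N.mul_mem (Subgroup.Normal.conj_mem ‹_› y hy (Pi.mulSingle i t)) (N.inv_mem hy)
            change Pi.mulSingle i _ ∈ N
            convert this using 1
            ext j
            by_cases hj : j = i
            · subst hj; simp
            · simp [hj]
          rw [h, Subgroup.mem_bot, mul_inv_eq_one, mul_inv_eq_iff_eq_mul] at this
          exact this
        rcases (inferInstance : (Subgroup.center S).Normal).eq_bot_or_eq_top with h' | h'
        · rw [h', Subgroup.mem_bot] at hc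
          exact hyi hc
        · exact hS ⟨⟨fun a b => Subgroup.mem_center_iff.mp (h' ▸ Subgroup.mem_top b) a⟩⟩
      · exact (show s ∈ K from h ▸ Subgroup.mem_top s)
    have : ∀ T : Finset (Fin n), (fun i => if i ∈ T then x i else 1) ∈ N := by
      intro T
      induction T using Finset.induction_on with
      | empty => convert N.one_mem using 1; ext; simp
      | insert i T hi ih =>
        have h1 : Pi.mulSingle i (x i) ∈ N := by
          by_cases h : ∃ y ∈ N, y i ≠ 1
          · exact key i h _
          · rw [hx i (by simpa using h), Pi.mulSingle_one]; exact N.one_mem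
        convert N.mul_mem h1 ih using 1
        ext j
        by_cases hj : j = i
        · subst hj; simp [hi]
        · simp [hj]
    simpa using this Finset.univ

end Cfsg.Agent.S5913
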