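import Mathlib
import Cfsg.Statements.S5914
import Cfsg.Agent.Perm.MinNormalProd
import Cfsg.Agent.S5913

set_option autoImplicit false
open Cfsg

namespace Cfsg.Agent.S5914

open Function

theorem mem_of_single {S : Type*} [Group S] {n : ℕ} (H : Subgroup (Fin n → S))
    (h : ∀ i s, Pi.mulSingle i s ∈ H) : H = ⊤ := by
  classical
  rw [eq_top_iff]
  intro x _
  have : ∀ T : Finset (Fin n), (fun i => if i ∈ T then x i else 1) ∈ H := by
    intro T
    induction T using Finset.induction_on with
    | empty => convert H.one_mem using 1; ext; simp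
    | insert i T hi ih =>
      convert H.mul_mem (h i (x i)) ih using 1
      ext j
      by_cases hj : j = i
      · subst hj; simp [hi]
      · simp [hj]
  simpa using this Finset.univ

theorem char_pi {S : Type*} [Group S] [IsSimpleGroup S] {n : ℕ} (H : Subgroup (Fin n → S))
    (hH : H.Characteristic) : H = ⊥ ∨ H = ⊤ := by
  classical
  rw [or_iff_not_imp_left]
  intro hne
  obtain ⟨⟨x, hx⟩, hx1⟩ := Subgroup.ne_bot_iff_exists_ne_one.mp hne
  obtain ⟨i, hi⟩ : ∃ i, x i ≠ 1 := by
    by_contra h
    push Not at h
    exact hx1 (Subtype.ext (funext h))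
  have hmap : ∀ (φ : (Fin n → S) ≃* (Fin n → S)), ∀ y ∈ H, φ y ∈ H := fun φ y hy =>
    (Subgroup.characteristic_iff_le_comap.mp hH φ) hy
  have hperm : ∀ i j s, Pi.mulSingle i s ∈ H → Pi.mulSingle j s ∈ H := fun i j s h => by
    have := hmap (MulEquiv.arrowCongr (Equiv.swap i j) (MulEquiv.refl S)) _ h
    convert this using 1
    ext k
    by_cases hk : k = j
    · subst hk; simp
    · have : Equiv.swap i j k ≠ i := fun e => hk (by simpa using congrArg (Equiv.swap i j) e)
      simp [hk, this]
  have hgen : ∀ j s, s ≠ 1 → Pi.mulSingle j s ∈ H → H = ⊤ := fun j s hs h => by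
    apply mem_of_single
    intro k t
    apply hperm j
    rcases (inferInstance : (H.comap (MonoidHom.mulSingle (fun _ : Fin n => S) j)).Normal).eq_bot_or_eq_top
      with e | e
    · have : s ∈ H.comap (MonoidHom.mulSingle (fun _ : Fin n => S) j) := h
      rw [e, Subgroup.mem_bot] at this
      exact absurd this hs
    · exact (show t ∈ H.comap (MonoidHom.mulSingle (fun _ : Fin n => S) j) from e ▸ Subgroup.mem_top t)
  by_cases hS : IsMulCommutative S
  · by_cases hj : ∃ j, j ≠ i
    · obtain ⟨j, hj⟩ := hj
      let φ : (Fin n → S) ≃* (Fin n → S) :=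
        { toFun := fun y => y * Pi.mulSingle j (y i)
          invFun := fun y => y * Pi.mulSingle j (y i)⁻¹
          left_inv := fun y => by
            ext k
            by_cases hk : k = j
            · subst hk; simp [hj.symm]
            · simp [hk]
          right_inv := fun y => by
            ext k
            by_cases hk : k = j
            · subst hk; simp [hj.symm]
            · simp [hk]
          map_mul' := fun y z => by
            ext k
            by_cases hk : k = j
            · subst hk
              simp only [Pi.mul_apply, Pi.mulSingle_eq_same, mul_assoc, mul_left_cancel_iff]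
              rw [← mul_assoc, ← mul_assoc, hS.is_comm.comm (z k)]
            · simp [hk] }
      refine hgen j (x i) hi ?_
      have := H.mul_mem (H.inv_mem hx) (hmap φ x hx)
      simpa [φ] using this
    · push Not at hj
      refine hgen i (x i) hi ?_
      convert hx using 1
      ext k
      rw [hj k]; simp
  · obtain ⟨T, hT⟩ := S5913.result hS n H
    refine hgen i (x i) hi ((hT _).mpr fun k hk => ?_)
    by_cases hki : k = i
    · subst hki; exact absurd ((hT x).mp hx k hk) hi
    · simp [hki]

/-- A non-trivial finite group G is characteristically simple (its only characteristic subgroups are 1 and G) if and only if G is isomorphic to a direct power S^n (n ≥ 1) of some simple group S (possibly cyclic of prime order). -/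
theorem result {G : Type*} [Group G] [Finite G] [Nontrivial G] :
    (∀ H : Subgroup G, H.Characteristic → H = ⊥ ∨ H = ⊤) ↔
    ∃ (S : Type) (_ : Group S) (_ : IsSimpleGroup S) (n : ℕ), 1 ≤ n ∧ Nonempty (G ≃* (Fin n → S)) := by
  classical
  constructor
  · intro h
    haveI := Fintype.ofFinite (MulAut G)
    obtain ⟨T, _, _, f, hT, hf⟩ := Perm.exists_surj_simple G
    obtain ⟨J, -, h1, h2⟩ := Perm.exists_subfamily
      (fun σ : MulAut G => f.comp σ.toMonoidHom) (fun σ => hf.comp σ.surjective) Finset.univ
    let F : G →* (Fin J.card → T) := Pi.monoidHom fun i => f.comp (J.equivFin.symm i).1.toMonoidHom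
    have hK : (⨅ σ : MulAut G, (f.comp σ.toMonoidHom).ker) = ⊥ := by
      refine (h _ (Subgroup.characteristic_iff_le_comap.mpr fun φ x hx => ?_)).resolve_right fun e => ?_
      · rw [Subgroup.mem_comap, Subgroup.mem_iInf]
        intro σ
        exact Subgroup.mem_iInf.mp hx (φ.trans σ)
      · obtain ⟨t, ht⟩ := exists_ne (1 : T)
        obtain ⟨d, rfl⟩ := hf t
        exact ht (Subgroup.mem_iInf.mp (e ▸ Subgroup.mem_top d) 1)
    have hinj : Injective F := by
      rw [injective_iff_map_eq_one]
      intro n hn
      rw [← Subgroup.mem_bot, ← hK, Subgroup.mem_iInf]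
      refine fun σ => h2 n (fun i hi => ?_) σ (Finset.mem_univ _)
      simpa [F, Pi.monoidHom] using congrFun hn (J.equivFin ⟨i, hi⟩)
    refine ⟨T, inferInstance, hT, J.card, ?_, ⟨MulEquiv.ofBijective F ⟨hinj, fun t => ?_⟩⟩⟩
    · by_contra h
      obtain ⟨n, hn⟩ := exists_ne (1 : G)
      exact hn (hinj (funext fun i => absurd i.2 (by omega)))
    · obtain ⟨d, hd⟩ := h1 fun h => if hh : h ∈ J then t (J.equivFin ⟨h, hh⟩) else 1
      refine ⟨d, funext fun i => ?_⟩
      have := hd _ (J.equivFin.symm i).2
      simpa [F, Pi.monoidHom] using this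
  · rintro ⟨S, _, _, n, -, ⟨e⟩⟩ H hH
    have : (H.map e.toMonoidHom).Characteristic := Subgroup.characteristic_iff_le_comap.mpr (by
      rintro φ _ ⟨x, hx, rfl⟩
      exact ⟨e.symm (φ (e x)), Subgroup.characteristic_iff_le_comap.mp hH
        (e.trans (φ.trans e.symm)) hx, by simp⟩)
    rcases char_pi _ this with h | h
    · exact Or.inl ((Subgroup.map_eq_bot_iff_of_injective _ e.injective).mp h)
    · right
      rw [eq_top_iff]
      intro x _
      obtain ⟨y, hy, h'⟩ : e x ∈ H.map e.toMonoidHom := h ▸ Subgroup.mem_top _
      exact e.injective h' ▸ hy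

end Cfsg.Agent.S5914
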