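import Mathlib
import Cfsg.Statements.S5939
import Cfsg.Agent.Max.L2d

set_option autoImplicit false
open Cfsg

namespace Cfsg.Agent.S5939

open Cfsg.Agent.Max.L2 Cfsg.Agent.Classical.PSL2Basic Cfsg.Agent.Classical.P1Ident
  Cfsg.Agent.Classical.Congr Cfsg.Agent.Classical.P1

/-- Let p be a prime and F a finite field of characteristic p such that either F has p elements and p ≡ ±1 (mod 10), or F has p² elements and p ≡ ±3 (mod 10). Then PSL_2(F) has a maximal subgroup isomorphic to the alternating group A_5. -/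
theorem result {F : Type*} [Field F] [Fintype F] (p : ℕ) [Fact p.Prime] [CharP F p] (h : (Fintype.card F = p ∧ (p % 10 = 1 ∨ p % 10 = 9)) ∨ (Fintype.card F = p ^ 2 ∧ (p % 10 = 3 ∨ p % 10 = 7))) : ∃ H : Subgroup (Matrix.ProjectiveSpecialLinearGroup (Fin 2) F), IsCoatom H ∧ Nonempty (H ≃* alternatingGroup (Fin 5)) := by
  rw [← Nat.card_eq_fintype_card] at h
  have hp' : p.Prime := Fact.out
  have h2 := hp'.two_le
  have hp2 : p ≠ 2 := by omega
  haveI : NeZero (2 : F) := ⟨Cfsg.Agent.Classical.SL2Basic.two_ne_zero_of_char hp2⟩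
  rcases h with ⟨hF, h⟩ | ⟨hF, h⟩
  · obtain ⟨τ, hτ⟩ := (exists_tau_iff (F := F)).2 (by rw [hF, five_dvd_iff hp' hp2]; omega)
    exact exists_max_PSL (max_A5 hτ (by omega) fun K hK =>
      absurd (eq_top_of_prime (hF ▸ hp') K) hK) (B0_equiv hτ)
  · have h3 : 9 ≤ p ^ 2 := by nlinarith [show 3 ≤ p by omega]
    have h4 : p ^ 2 % 5 = 4 := by
      rw [Nat.pow_mod]; rcases h with h | h <;> rw [show p % 5 = (p % 10) % 5 by omega, h]
    obtain ⟨τ, hτ⟩ := (exists_tau_iff (F := F)).2 (by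
      rw [hF]
      refine Dvd.dvd.mul_left ?_ _
      have : (p ^ 2) ^ 2 % 5 = 1 := by rw [Nat.pow_mod, h4]
      omega)
    refine exists_max_PSL (max_A5 hτ (by omega) fun K hK => ?_) (B0_equiv hτ)
    rcases eq_or_eq_of_prime Nat.prime_two (K := ⊥) (by rw [hF, Subfield.card_bot F p])
      (bot_le (a := K)) with rfl | rfl
    · rw [Subfield.card_bot F p, five_dvd_iff hp' hp2]; omega
    · exact absurd rfl hK

end Cfsg.Agent.S5939
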